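import Cfsg.Agent.Lib.SEmb
import Mathlib.GroupTheory.Complement

/-!
Groups whose involution centralizers are elementary abelian `2`-groups.
-/

set_option autoImplicit false
set_option linter.unusedSectionVars false

namespace Cfsg.Agent.Lib.SEmbElem

open Cfsg Cfsg.Agent.Lib.StrongEmb Cfsg.Agent.Lib.SylRel Cfsg.Agent.Lib.StrongEmbB Cfsg.Agent.Lib.Invol
  Cfsg.Agent.Lib.InvolB Cfsg.Agent.Lib.SEmb

universe u

variable {G : Type u} [Group G] [Finite G]

/-- the hypothesis -/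
structure Hyp (T : Sylow 2 G) : Prop where
  nc : ¬ IsCyclic (T : Subgroup G)
  nn : ¬ (T : Subgroup G).Normal
  cent : ∀ t : G, orderOf t = 2 → IsMulCommutative (Subgroup.centralizer ({t} : Set G)) ∧
    ∀ c ∈ Subgroup.centralizer ({t} : Set G), c ^ 2 = 1

variable {T : Sylow 2 G}

theorem Hyp.ne_bot (h : Hyp T) : (T : Subgroup G) ≠ ⊥ := by
  intro hb
  apply h.nc
  rw [hb]
  infer_instance

theorem Hyp.exists_central (h : Hyp T) : ∃ t ∈ (T : Subgroup G), orderOf t = 2 ∧ (T : Subgroup G) ≤ Subgroup.centralizer ({t} : Set G) := by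
  have hnt : Nontrivial (T : Subgroup G) := (Subgroup.nontrivial_iff_ne_bot _).2 h.ne_bot
  have hcn := T.2.center_nontrivial
  have hzp : 2 ∣ Nat.card (Subgroup.center (T : Subgroup G)) :=
    dvd_card_of_ne_bot (T.2.to_subgroup _) ((Subgroup.nontrivial_iff_ne_bot _).1 hcn)
  obtain ⟨z, hz, hzo⟩ := exists_order_p hzp
  refine ⟨z, z.2, by rw [Subgroup.orderOf_coe, hzo], fun x hx => ?_⟩
  rw [Subgroup.mem_centralizer_singleton_iff]
  exact congrArg Subtype.val (Subgroup.mem_center_iff.1 hz ⟨x, hx⟩)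

theorem Hyp.sq (h : Hyp T) {x : G} (hx : x ∈ (T : Subgroup G)) : x * x = 1 := by
  obtain ⟨t, -, hto, ht⟩ := h.exists_central
  rw [← pow_two]; exact (h.cent t hto).2 x (ht hx)

theorem Hyp.comm (h : Hyp T) {x y : G} (hx : x ∈ (T : Subgroup G)) (hy : y ∈ (T : Subgroup G)) : Commute x y := by
  obtain ⟨t, -, hto, ht⟩ := h.exists_central
  exact congrArg Subtype.val ((h.cent t hto).1.is_comm.comm ⟨x, ht hx⟩ ⟨y, ht hy⟩)

theorem Hyp.order (h : Hyp T) {x : G} (hx : x ∈ (T : Subgroup G)) (h1 : x ≠ 1) : orderOf x = 2 :=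
  orderOf_eq_two (h.sq hx) h1

theorem Hyp.centralizer_eq (h : Hyp T) {x : G} (hx : x ∈ (T : Subgroup G)) (h1 : x ≠ 1) :
    Subgroup.centralizer ({x} : Set G) = T := by
  refine T.3 ?_ ?_
  · intro ⟨c, hc⟩
    exact ⟨1, Subtype.ext ((h.cent x (h.order hx h1)).2 c hc)⟩
  · intro y hy
    exact Subgroup.mem_centralizer_singleton_iff.2 (h.comm hy hx).eq

theorem Hyp.mem_of_commute (h : Hyp T) {x y : G} (hx : x ∈ (T : Subgroup G)) (h1 : x ≠ 1) (hc : Commute y x) :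
    y ∈ (T : Subgroup G) := by
  rw [← h.centralizer_eq hx h1]
  exact Subgroup.mem_centralizer_singleton_iff.2 hc.eq

/-- the involutions of the normalizer lie in `T` -/
theorem mem_of_normalizer {x : G} (hx : x ∈ Subgroup.normalizer ((T : Subgroup G) : Set G)) (hxp : ∃ k : ℕ, orderOf x = 2 ^ k) :
    x ∈ (T : Subgroup G) := by
  have h1 : IsPGroup 2 ((T : Subgroup G) ⊔ Subgroup.zpowers x : Subgroup G) :=
    T.2.to_sup_of_normal_left' (isPGroup_zpowers hxp) ((Subgroup.zpowers_le).2 hx)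
  have h2 := T.3 h1 le_sup_left
  rw [← h2]
  exact Subgroup.mem_sup_right (Subgroup.mem_zpowers x)

/-- `N_G(T)` -/
abbrev Nz (T : Sylow 2 G) : Subgroup G := Subgroup.normalizer ((T : Subgroup G) : Set G)

theorem Hyp.se (h : Hyp T) : IsSE 2 (Nz T) := by
  refine of_elt ?_ ?_ ?_
  · intro hb
    exact h.nn (Subgroup.normalizer_eq_top_iff.1 hb)
  · exact (dvd_card_of_ne_bot T.2 h.ne_bot).trans (Subgroup.card_dvd_of_le Subgroup.le_normalizer)
  · intro x hx hxo g hg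
    have h1 := mem_of_normalizer hx (two_pow hxo)
    have hgo : orderOf (g * x * g⁻¹) = 2 := by rw [orderOf_conj', hxo]
    have h2 := mem_of_normalizer hg (two_pow hgo)
    have key : ∀ y, y ∈ (T : Subgroup G) ↔ g * y * g⁻¹ ∈ (T : Subgroup G) := by
      intro y
      constructor
      · intro hy
        refine h.mem_of_commute h2 (ne_one hgo) ?_
        show g * y * g⁻¹ * (g * x * g⁻¹) = g * x * g⁻¹ * (g * y * g⁻¹)
        have := (h.comm hy h1).eq
        calc g * y * g⁻¹ * (g * x * g⁻¹) = g * (y * x) * g⁻¹ := by group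
          _ = g * (x * y) * g⁻¹ := by rw [this]
          _ = _ := by group
      · intro hy
        refine h.mem_of_commute h1 (ne_one hxo) ?_
        have := (h.comm hy h2).eq
        show y * x = x * y
        calc y * x = g⁻¹ * ((g * y * g⁻¹) * (g * x * g⁻¹)) * g := by group
          _ = g⁻¹ * ((g * x * g⁻¹) * (g * y * g⁻¹)) * g := by rw [this]
          _ = _ := by group
    exact Subgroup.mem_normalizer_iff.2 key

/-- the stabilizer in `N_G(T)` of a point -/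
def Dz (T : Sylow 2 G) (z : G ⧸ Nz T) : Subgroup G := Nz T ⊓ MulAction.stabilizer G z

theorem mem_Dz {z : G ⧸ Nz T} {g : G} : g ∈ Dz T z ↔ g ∈ Nz T ∧ g • z = z := Iff.rfl

abbrev o (T : Sylow 2 G) : G ⧸ Nz T := QuotientGroup.mk 1

theorem Hyp.exists_inv (h : Hyp T) {z : G ⧸ Nz T} (hz : z ≠ o T) : ∃ v : G, orderOf v = 2 ∧ v • o T = z := by
  have h1 := card_sw h.se hz
  have h2 : Nonempty (Invs (Nz T)) := by
    obtain ⟨t, htH, ht⟩ := SEmb.exists_inv h.se
    exact ⟨⟨t, ht, htH⟩⟩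
  have h3 : 0 < Nat.card (Invs (Nz T)) := Nat.card_pos
  rw [← h1] at h3
  obtain ⟨⟨v, hv, hvz⟩⟩ := (Nat.card_pos_iff.1 h3).1
  exact ⟨v, hv, hvz⟩

theorem mem_Nz_iff {g : G} : g ∈ Nz T ↔ g • o T = o T := smul_one_eq_iff.symm

/-- involution swapping `o` and `z` -/
theorem swap {z : G ⧸ Nz T} {v : G} (hv : orderOf v = 2) (hvz : v • o T = z) : v • z = o T := by
  rw [← hvz, smul_smul, mul_self hv, one_smul]

theorem conj_Dz {z : G ⧸ Nz T} {v : G} (hv : orderOf v = 2) (hvz : v • o T = z) {d : G} (hd : d ∈ Dz T z) :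
    v * d * v⁻¹ ∈ Dz T z := by
  have hvi := inv_eq (mul_self hv)
  refine ⟨?_, ?_⟩
  · show v * d * v⁻¹ ∈ Nz T
    rw [mem_Nz_iff, mul_smul, mul_smul, hvi, hvz, hd.2, swap hv hvz]
  · show (v * d * v⁻¹) • z = z
    rw [mul_smul, mul_smul, hvi, swap hv hvz, mem_Nz_iff.1 hd.1, hvz]

theorem Hyp.notMem (h : Hyp T) {z : G ⧸ Nz T} (hz : z ≠ o T) {v : G} (hvz : v • o T = z) : v ∉ Nz T := fun h1 =>
  hz (by rw [← hvz, mem_Nz_iff.1 h1])

/-- elements of `Dz` have odd order -/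
theorem Hyp.odd_Dz (h : Hyp T) {z : G ⧸ Nz T} (hz : z ≠ o T) {d : G} (hd : d ∈ Dz T z) : Odd (orderOf d) := by
  obtain ⟨v, hv, hvz⟩ := h.exists_inv hz
  exact odd_order_inf h.se (h.notMem hz hvz) hd.1 (conj_Dz hv hvz hd).1

/-- `v` inverts `Dz` -/
theorem Hyp.inv_Dz (h : Hyp T) {z : G ⧸ Nz T} (hz : z ≠ o T) {v : G} (hv : orderOf v = 2) (hvz : v • o T = z)
    {d : G} (hd : d ∈ Dz T z) : v * d * v⁻¹ = d⁻¹ := by
  have hvi := inv_eq (mul_self hv)
  -- no fixed points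
  have hfix : ∀ c ∈ Dz T z, v * c * v⁻¹ = c → c = 1 := by
    intro c hc hvc
    have hodd := h.odd_Dz hz hc
    -- `c ∈ C(v)` is of exponent `2`
    have h1 := (h.cent v hv).2 c (Subgroup.mem_centralizer_singleton_iff.2 (by
      rw [← hvc]
      have := hvc
      calc v * c * v⁻¹ * v = v * c := by group
        _ = v * (v * c * v⁻¹) := by rw [hvc]))
    refine IsoInv.sqrt_unique (b := 1) hodd (by rw [orderOf_one]; exact odd_one) ?_
    rw [← pow_two, h1, mul_one]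
  let f : Dz T z → Dz T z := fun d => ⟨(d : G)⁻¹ * (v * d * v⁻¹), (Dz T z).mul_mem ((Dz T z).inv_mem d.2) (conj_Dz hv hvz d.2)⟩
  have hf : Function.Injective f := by
    intro a b hab
    have e : (a : G)⁻¹ * (v * a * v⁻¹) = (b : G)⁻¹ * (v * b * v⁻¹) := congrArg Subtype.val hab
    have h1 : (b : G) * (a : G)⁻¹ = 1 := by
      refine hfix _ ((Dz T z).mul_mem b.2 ((Dz T z).inv_mem a.2)) ?_
      calc v * ((b : G) * (a : G)⁻¹) * v⁻¹ = (b : G) * ((b : G)⁻¹ * (v * b * v⁻¹)) * (v * (a : G)⁻¹ * v⁻¹) := by group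
        _ = (b : G) * ((a : G)⁻¹ * (v * a * v⁻¹)) * (v * (a : G)⁻¹ * v⁻¹) := by rw [e]
        _ = _ := by group
    exact Subtype.ext (mul_inv_eq_one.1 h1).symm
  obtain ⟨c, hc⟩ := (Finite.injective_iff_surjective.1 hf) ⟨d, hd⟩
  have e : (c : G)⁻¹ * (v * c * v⁻¹) = d := congrArg Subtype.val hc
  rw [← e]
  rw [hvi]
  have hv2 := mul_self hv
  calc v * ((c : G)⁻¹ * (v * c * v)) * v = v * (c : G)⁻¹ * v * c * (v * v) := by group
    _ = v * (c : G)⁻¹ * v * c := by rw [hv2, mul_one]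
    _ = ((c : G)⁻¹ * (v * c * v))⁻¹ := by
      have : ((c : G)⁻¹ * (v * c * v))⁻¹ = v⁻¹ * (c : G)⁻¹ * v⁻¹ * c := by group
      rw [this, hvi]

theorem Hyp.Dz_comm (h : Hyp T) {z : G ⧸ Nz T} (hz : z ≠ o T) {a b : G} (ha : a ∈ Dz T z) (hb : b ∈ Dz T z) : Commute a b := by
  obtain ⟨v, hv, hvz⟩ := h.exists_inv hz
  have h1 := h.inv_Dz hz hv hvz ha
  have h2 := h.inv_Dz hz hv hvz hb
  have h3 := h.inv_Dz hz hv hvz ((Dz T z).mul_mem ha hb)
  have h4 : v * (a * b) * v⁻¹ = a⁻¹ * b⁻¹ := by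
    rw [← h1, ← h2]; group
  rw [h4] at h3
  have := congrArg (fun x => x⁻¹) h3
  show a * b = b * a
  have e1 : (a⁻¹ * b⁻¹)⁻¹ = b * a := by group
  have e2 : ((a * b)⁻¹)⁻¹ = a * b := by group
  rw [← e1, ← e2, h3]

theorem card_invs (h : Hyp T) : Nat.card (Invs (Nz T)) + 1 = Nat.card T := by
  have : Nat.card (Invs (Nz T)) + 1 = Nat.card (Option (Invs (Nz T))) := by
    rw [Finite.card_option]
  rw [this]
  classical
  refine Nat.card_congr (Equiv.ofBijective (fun x : Option (Invs (Nz T)) => (match x with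
    | none => (1 : (T : Subgroup G))
    | some t => ⟨t, mem_of_normalizer t.2.2 (two_pow t.2.1)⟩ : (T : Subgroup G))) ⟨?_, ?_⟩)
  · rintro (_ | ⟨a, ha, ha'⟩) (_ | ⟨b, hb, hb'⟩) e
    · rfl
    · have : (1 : G) = b := congrArg Subtype.val e
      exact absurd this.symm (ne_one hb)
    · have : a = (1 : G) := congrArg Subtype.val e
      exact absurd this (ne_one ha)
    · have : a = b := congrArg Subtype.val e
      subst this; rfl
  · intro t
    by_cases ht : (t : G) = 1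
    · exact ⟨none, (Subtype.ext ht).symm⟩
    · exact ⟨some ⟨t, h.order t.2 ht, Subgroup.le_normalizer t.2⟩, rfl⟩

theorem Hyp.card_Dz (h : Hyp T) {z : G ⧸ Nz T} (hz : z ≠ o T) : Nat.card (Dz T z) + 1 = Nat.card T := by
  rw [← card_invs h, ← card_sw h.se hz]
  congr 1
  obtain ⟨v, hv, hvz⟩ := h.exists_inv hz
  have hv2 := mul_self hv
  refine Nat.card_congr (Equiv.ofBijective (fun d : Dz T z => (⟨v * (d : G), ?_, ?_⟩ : Sw (Nz T) z)) ⟨?_, ?_⟩)
  · have h1 := h.inv_Dz hz hv hvz d.2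
    have hne : v * (d : G) ≠ 1 := by
      intro e
      apply h.notMem hz hvz
      have : v = (d : G)⁻¹ := mul_eq_one_iff_eq_inv.1 e
      rw [this]; exact (Nz T).inv_mem d.2.1
    refine orderOf_eq_two ?_ hne
    calc v * (d : G) * (v * d) = (v * d * v) * d := by group
      _ = (v * d * v⁻¹) * d := by rw [inv_eq hv2]
      _ = 1 := by rw [h1, inv_mul_cancel]
  · show (v * (d : G)) • o T = z
    rw [mul_smul, mem_Nz_iff.1 d.2.1, hvz]
  · intro a b e
    exact Subtype.ext (mul_left_cancel (congrArg Subtype.val e : v * (a : G) = v * b))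
  · rintro ⟨i, hi, hiz⟩
    have h1 : v * i ∈ Nz T := by rw [mem_Nz_iff, mul_smul, hiz, swap hv hvz]
    have h2 : (v * i) • z = z := by rw [mul_smul, swap hi hiz, hvz]
    refine ⟨⟨v * i, h1, h2⟩, Subtype.ext ?_⟩
    show v * (v * i) = i
    rw [← mul_assoc, hv2, one_mul]

theorem Hyp.four_le (h : Hyp T) : 4 ≤ Nat.card T := by
  obtain ⟨n, hn⟩ := IsPGroup.iff_card.1 T.2
  rcases n with _ | _ | n
  · exfalso
    rw [pow_zero] at hn
    exact h.ne_bot (Subgroup.card_eq_one.1 hn)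
  · exfalso
    apply h.nc
    have : Fact (Nat.Prime 2) := ⟨Nat.prime_two⟩
    exact isCyclic_of_prime_card (p := 2) (by rw [hn]; norm_num)
  · have hn' : Nat.card T = 2 ^ (n + 2) := hn
    rw [hn', pow_add]
    have := Nat.one_le_two_pow (n := n)
    omega

/-- `T` and `Dz` meet trivially -/
theorem Hyp.T_inf (h : Hyp T) {z : G ⧸ Nz T} (hz : z ≠ o T) {d : G} (hd : d ∈ Dz T z) (hT : d ∈ (T : Subgroup G)) : d = 1 := by
  refine IsoInv.sqrt_unique (b := 1) (h.odd_Dz hz hd) (by rw [orderOf_one]; exact odd_one) ?_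
  rw [h.sq hT, mul_one]

/-- `H = T Dz` -/
theorem Hyp.decomp (h : Hyp T) {z : G ⧸ Nz T} (hz : z ≠ o T) {g : G} (hg : g ∈ Nz T) :
    ∃ t ∈ (T : Subgroup G), ∃ d ∈ Dz T z, g = t * d := by
  obtain ⟨v, hv, hvz⟩ := h.exists_inv hz
  obtain ⟨t, htH, ht⟩ := SEmb.exists_inv h.se
  have htT := mem_of_normalizer htH (two_pow ht)
  obtain ⟨j, hj, hvj, hjt⟩ := exists_j h.se ht htH (s := g⁻¹ * t * g) (by
    have := orderOf_conj' g⁻¹ t
    rw [inv_inv] at this
    rw [this, ht]) ((Nz T).mul_mem ((Nz T).mul_mem ((Nz T).inv_mem hg) htH) hg) hv (h.notMem hz hvz)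
  have hjD : j ∈ Dz T z := by
    refine ⟨hj, ?_⟩
    show j • z = z
    have h1 : v⁻¹ * j * v ∈ Nz T := by
      have e : v⁻¹ * j * v = v * j * v⁻¹ := by rw [inv_eq (mul_self hv)]
      rw [e, hvj]; exact (Nz T).inv_mem hj
    rw [mem_Nz_iff, mul_smul, mul_smul, hvz] at h1
    have := congrArg (fun x => v • x) h1
    simp only [smul_inv_smul, hvz] at this
    exact this
  refine ⟨g * j⁻¹, ?_, j, hjD, by group⟩
  refine h.mem_of_commute htT (ne_one ht) ?_
  show g * j⁻¹ * t = t * (g * j⁻¹)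
  calc g * j⁻¹ * t = g * (j⁻¹ * t * j) * j⁻¹ := by group
    _ = g * (g⁻¹ * t * g) * j⁻¹ := by rw [hjt]
    _ = _ := by group

/-- the centralizer in `H` of `1 ≠ d ∈ Dz` is `Dz` -/
theorem Hyp.mem_of_commute_Dz (h : Hyp T) {z : G ⧸ Nz T} (hz : z ≠ o T) {d : G} (hd : d ∈ Dz T z) (hd1 : d ≠ 1)
    {g : G} (hg : g ∈ Nz T) (hc : Commute g d) : g ∈ Dz T z := by
  obtain ⟨t, ht, e, he, rfl⟩ := h.decomp hz hg
  have h1 : Commute t d := by
    have h2 := h.Dz_comm hz he hd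
    have h3 := hc.mul_left h2.inv_left
    rwa [mul_inv_cancel_right] at h3
  by_cases ht1 : t = 1
  · rw [ht1, one_mul]; exact he
  · exact absurd (h.T_inf hz hd (h.mem_of_commute ht ht1 h1.symm)) hd1

/-- only the identity fixes three points (first version) -/
theorem Hyp.three (h : Hyp T) {z w : G ⧸ Nz T} (hz : z ≠ o T) (hw : w ≠ o T) (hzw : z ≠ w) {d : G} (hd : d ∈ Dz T z)
    (hd' : d ∈ Dz T w) : d = 1 := by
  by_contra hd1
  -- `Dz = Dw`
  have hle : ∀ {z w : G ⧸ Nz T}, z ≠ o T → w ≠ o T → d ∈ Dz T z → d ∈ Dz T w → Dz T z ≤ Dz T w := by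
    intro z w hz hw hd hd' e he
    exact h.mem_of_commute_Dz hw hd' hd1 he.1 (h.Dz_comm hz he hd)
  have hEq : Dz T z = Dz T w := le_antisymm (hle hz hw hd hd') (hle hw hz hd' hd)
  obtain ⟨u, hu, huz⟩ := h.exists_inv hz
  obtain ⟨v, hv, hvw⟩ := h.exists_inv hw
  -- `y = u w`
  set y := u • w with hy
  have hyo : y ≠ o T := by
    intro e
    apply hzw
    have := congrArg (fun x => u • x) e
    simp only [hy] at this
    rw [smul_smul, mul_self hu, one_smul, huz] at this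
    exact this.symm
  obtain ⟨s, hs, hsy⟩ := h.exists_inv hyo
  -- `Dz` fixes `y`
  have hy' : ∀ e ∈ Dz T z, e ∈ Dz T y := by
    intro e he
    refine ⟨he.1, ?_⟩
    show e • y = y
    have h1 : e = u * (u * e * u⁻¹) * u⁻¹ := by
      have := mul_self hu
      rw [inv_eq this]
      calc e = (u * u) * e * (u * u) := by rw [this, one_mul, mul_one]
        _ = _ := by group
    have h2 : u * e * u⁻¹ ∈ Dz T w := hEq ▸ conj_Dz hu huz he
    rw [h1, hy, mul_smul, mul_smul, inv_smul_smul, h2.2]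
  -- `g = s u v ∈ H` inverts `Dz`
  have hgH : s * (u * v) ∈ Nz T := by
    rw [mem_Nz_iff, mul_smul, mul_smul, hvw, ← hy, swap hs hsy]
  have hginv : ∀ e ∈ Dz T z, s * (u * v) * e * (s * (u * v))⁻¹ = e⁻¹ := by
    intro e he
    have h1 := h.inv_Dz hw hv hvw (hEq ▸ he)
    have h2 := h.inv_Dz hz hu huz ((Dz T z).inv_mem he)
    have h3 := h.inv_Dz hyo hs hsy (hy' e he)
    calc s * (u * v) * e * (s * (u * v))⁻¹ = s * (u * (v * e * v⁻¹) * u⁻¹) * s⁻¹ := by group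
      _ = s * (u * e⁻¹ * u⁻¹) * s⁻¹ := by rw [h1]
      _ = e⁻¹ := by rw [h2, inv_inv, h3]
  -- decompose
  obtain ⟨t, ht, e, he, hte⟩ := h.decomp hz hgH
  have h1 := hginv d hd
  rw [hte] at h1
  have h2 : t * d * t⁻¹ = d⁻¹ := by
    have h3 := (h.Dz_comm hz he hd).eq
    calc t * d * t⁻¹ = t * (d * e) * e⁻¹ * t⁻¹ := by group
      _ = t * (e * d) * e⁻¹ * t⁻¹ := by rw [h3]
      _ = t * e * d * (t * e)⁻¹ := by group
      _ = d⁻¹ := h1
  -- `[t, d] ∈ T ∩ D`
  have h3 : t * d * t⁻¹ * d⁻¹ ∈ (T : Subgroup G) := by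
    have h4 := (Subgroup.mem_normalizer_iff.1 hd.1 t⁻¹).1 (T.inv_mem ht)
    have h5 := T.mul_mem ht h4
    have e : t * (d * t⁻¹ * d⁻¹) = t * d * t⁻¹ * d⁻¹ := by group
    rwa [e] at h5
  rw [h2] at h3
  have h4 := h.T_inf hz ((Dz T z).mul_mem ((Dz T z).inv_mem hd) ((Dz T z).inv_mem hd)) h3
  apply hd1
  refine IsoInv.sqrt_unique (b := 1) (h.odd_Dz hz hd) (by rw [orderOf_one]; exact odd_one) ?_
  have h5 : d * d = (d⁻¹ * d⁻¹)⁻¹ := by rw [mul_inv_rev, inv_inv]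
  rw [h5, h4, inv_one, mul_one]

theorem Hyp.card_H (h : Hyp T) : Nat.card (Nz T) = Nat.card T * (Nat.card T - 1) := by
  obtain ⟨v, hv, hvH⟩ := exists_out h.se
  have hz : v • o T ≠ o T := fun h1 => hvH (mem_Nz_iff.2 h1)
  have h1 := h.card_Dz hz
  have h2 : Nat.card T - 1 = Nat.card (Dz T (v • o T)) := by omega
  rw [h2, ← Nat.card_prod]
  symm
  refine Nat.card_congr (Equiv.ofBijective (fun x : ↥(T : Subgroup G) × ↥(Dz T (v • o T)) =>
    (⟨(x.1 : G) * (x.2 : G), (Nz T).mul_mem (Subgroup.le_normalizer x.1.2) x.2.2.1⟩ : Nz T)) ⟨?_, ?_⟩)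
  · rintro ⟨⟨a, ha⟩, ⟨b, hb⟩⟩ ⟨⟨a', ha'⟩, ⟨b', hb'⟩⟩ e
    have e' : a * b = a' * b' := congrArg Subtype.val e
    have h3 : a'⁻¹ * a = b' * b⁻¹ := by
      calc a'⁻¹ * a = a'⁻¹ * (a * b) * b⁻¹ := by group
        _ = a'⁻¹ * (a' * b') * b⁻¹ := by rw [e']
        _ = _ := by group
    have h4 : b' * b⁻¹ = 1 := h.T_inf hz ((Dz T _).mul_mem hb' ((Dz T _).inv_mem hb)) (h3 ▸ T.mul_mem (T.inv_mem ha') ha)
    have h5 : b' = b := mul_inv_eq_one.1 h4
    subst h5
    have h6 : a = a' := mul_right_cancel e'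
    subst h6
    rfl
  · rintro ⟨g, hg⟩
    obtain ⟨t, ht, d, hd, rfl⟩ := h.decomp hz hg
    exact ⟨(⟨t, ht⟩, ⟨d, hd⟩), rfl⟩

/-- `T` acts freely outside `o` -/
theorem Hyp.T_free (h : Hyp T) {x : G ⧸ Nz T} (hx : x ≠ o T) {t : G} (ht : t ∈ (T : Subgroup G)) (htx : t • x = x) : t = 1 :=
  h.T_inf hx ⟨Subgroup.le_normalizer ht, htx⟩ ht

theorem Hyp.card_omega (h : Hyp T) : Nat.card (G ⧸ Nz T) = Nat.card T + 1 := by
  classical
  have h4 := h.four_le
  have hH := h.card_H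
  -- counting
  have hle : Nat.card ((Σ z : {z : G ⧸ Nz T // z ≠ o T}, {d : Dz T z // d ≠ 1}) ⊕ (T : Subgroup G)) ≤ Nat.card (Nz T) := by
    refine Nat.card_le_card_of_injective (fun x => match x with
      | Sum.inl y => (⟨y.2.1, y.2.1.2.1⟩ : Nz T)
      | Sum.inr t => ⟨t, Subgroup.le_normalizer t.2⟩) ?_
    rintro (⟨⟨z, hz⟩, ⟨⟨d, hd⟩, hd1⟩⟩ | ⟨t, ht⟩) (⟨⟨w, hw⟩, ⟨⟨e, he⟩, he1⟩⟩ | ⟨s, hs⟩) heq
    · have h5 : d = e := congrArg Subtype.val heq
      subst h5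
      have h6 : z = w := by
        by_contra hzw
        exact hd1 (Subtype.ext (h.three hz hw hzw hd he))
      subst h6
      rfl
    · have h5 : d = s := congrArg Subtype.val heq
      subst h5
      exact absurd (Subtype.ext (h.T_inf hz hd hs)) hd1
    · have h5 : t = e := congrArg Subtype.val heq
      subst h5
      exact absurd (Subtype.ext (h.T_inf hw he ht)) he1
    · have h5 : t = s := congrArg Subtype.val heq
      subst h5
      rfl
  have hcd : ∀ z : {z : G ⧸ Nz T // z ≠ o T}, Nat.card {d : Dz T z // d ≠ 1} = Nat.card T - 2 := by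
    rintro ⟨z, hz⟩
    have h5 := h.card_Dz hz
    have h6 : Nat.card {d : Dz T z // d ≠ 1} + 1 = Nat.card (Dz T z) := by
      rw [← Finite.card_option]
      exact Nat.card_congr (Equiv.optionSubtypeNe (1 : Dz T z))
    show Nat.card {d : Dz T z // d ≠ 1} = _
    omega
  have hz : Nat.card {z : G ⧸ Nz T // z ≠ o T} + 1 = Nat.card (G ⧸ Nz T) := by
    rw [← Finite.card_option]
    exact Nat.card_congr (Equiv.optionSubtypeNe (o T))
  let _ : Fintype {z : G ⧸ Nz T // z ≠ o T} := Fintype.ofFinite _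
  rw [Nat.card_sum, Nat.card_sigma, Finset.sum_congr rfl (fun z _ => hcd z), Finset.sum_const, Finset.card_univ, smul_eq_mul,
    ← Nat.card_eq_fintype_card, hH] at hle
  -- lower bound
  obtain ⟨v, hv, hvH⟩ := exists_out h.se
  have hzv : v • o T ≠ o T := fun h1 => hvH (mem_Nz_iff.2 h1)
  have hge : Nat.card T ≤ Nat.card {z : G ⧸ Nz T // z ≠ o T} := by
    refine Nat.card_le_card_of_injective (fun t : (T : Subgroup G) => (⟨(t : G) • (v • o T), ?_⟩ : {z : G ⧸ Nz T // z ≠ o T})) ?_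
    · intro e
      apply hzv
      have h5 := mem_Nz_iff.1 ((Nz T).inv_mem (Subgroup.le_normalizer t.2))
      rw [← e, inv_smul_smul] at h5
      exact h5.trans e
    · intro a b e
      have e' : (a : G) • (v • o T) = (b : G) • (v • o T) := congrArg Subtype.val e
      have h5 : ((b : G)⁻¹ * a) • (v • o T) = v • o T := by rw [mul_smul, e', inv_smul_smul]
      have h6 := h.T_free hzv (T.mul_mem (T.inv_mem b.2) a.2) h5
      exact Subtype.ext (inv_mul_eq_one.1 h6).symm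
  have h7 : Nat.card {z : G ⧸ Nz T // z ≠ o T} = Nat.card T := by
    apply le_antisymm _ hge
    by_contra hcon
    push Not at hcon
    obtain ⟨k, hk⟩ := Nat.exists_eq_add_of_le h4
    have e1 : Nat.card T - 2 = k + 2 := by omega
    have e2 : Nat.card T - 1 = k + 3 := by omega
    rw [e1, e2, hk] at hle
    rw [hk] at hcon
    nlinarith
  omega

/-- `T` is transitive outside `o` -/
theorem Hyp.T_trans (h : Hyp T) {x y : G ⧸ Nz T} (hx : x ≠ o T) (hy : y ≠ o T) : ∃ t ∈ (T : Subgroup G), t • x = y := by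
  have hz : Nat.card {z : G ⧸ Nz T // z ≠ o T} + 1 = Nat.card (G ⧸ Nz T) := by
    classical
    rw [← Finite.card_option]
    exact Nat.card_congr (Equiv.optionSubtypeNe (o T))
  rw [h.card_omega] at hz
  have hmem : ∀ t : (T : Subgroup G), (t : G) • x ≠ o T := by
    intro t e
    apply hx
    have h5 := mem_Nz_iff.1 ((Nz T).inv_mem (Subgroup.le_normalizer t.2))
    rw [← e, inv_smul_smul] at h5
    exact h5.trans e
  let f : ↥(T : Subgroup G) → {z : G ⧸ Nz T // z ≠ o T} := fun t => ⟨(t : G) • x, hmem t⟩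
  have hf : Function.Injective f := by
    intro a b e
    have e' : (a : G) • x = (b : G) • x := congrArg Subtype.val e
    have h5 : ((b : G)⁻¹ * a) • x = x := by rw [mul_smul, e', inv_smul_smul]
    have h6 := h.T_free hx (T.mul_mem (T.inv_mem b.2) a.2) h5
    exact Subtype.ext (inv_mul_eq_one.1 h6).symm
  have hb : Function.Bijective f := (Nat.bijective_iff_injective_and_card f).2 ⟨hf, by
    have : Nat.card (T : Subgroup G) = Nat.card T := rfl
    omega⟩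
  obtain ⟨t, ht⟩ := hb.2 ⟨y, hy⟩
  exact ⟨t, t.2, congrArg Subtype.val ht⟩

/-- `Dz` is transitive outside `o, z` -/
theorem Hyp.D_trans (h : Hyp T) {z x y : G ⧸ Nz T} (hz : z ≠ o T) (hx : x ≠ o T) (hxz : x ≠ z) (hy : y ≠ o T) (hyz : y ≠ z) :
    ∃ d ∈ Dz T z, d • x = y := by
  classical
  have hcard : Nat.card {w : {w : G ⧸ Nz T // w ≠ o T} // w ≠ ⟨z, hz⟩} = Nat.card (Dz T z) := by
    have h1 : Nat.card {w : {w : G ⧸ Nz T // w ≠ o T} // w ≠ ⟨z, hz⟩} + 1 = Nat.card {w : G ⧸ Nz T // w ≠ o T} := by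
      rw [← Finite.card_option]
      exact Nat.card_congr (Equiv.optionSubtypeNe _)
    have h2 : Nat.card {z : G ⧸ Nz T // z ≠ o T} + 1 = Nat.card (G ⧸ Nz T) := by
      rw [← Finite.card_option]
      exact Nat.card_congr (Equiv.optionSubtypeNe (o T))
    have h3 := h.card_omega
    have h4 := h.card_Dz hz
    omega
  have hmem1 : ∀ d : Dz T z, (d : G) • x ≠ o T := by
    intro t e
    apply hx
    have h5 := mem_Nz_iff.1 ((Nz T).inv_mem t.2.1)
    rw [← e, inv_smul_smul] at h5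
    exact h5.trans e
  have hmem2 : ∀ d : Dz T z, (d : G) • x ≠ z := by
    intro t e
    apply hxz
    have h5 : (t : G)⁻¹ • z = z := ((Dz T z).inv_mem t.2).2
    have h6 : (t : G)⁻¹ • ((t : G) • x) = z := by rw [e]; exact h5
    rwa [inv_smul_smul] at h6
  let f : Dz T z → {w : {w : G ⧸ Nz T // w ≠ o T} // w ≠ ⟨z, hz⟩} := fun t => ⟨⟨(t : G) • x, hmem1 t⟩, fun e => hmem2 t (congrArg Subtype.val e)⟩
  have hf : Function.Injective f := by
    intro a b e
    have e' : (a : G) • x = (b : G) • x := congrArg (fun w : {w : {w : G ⧸ Nz T // w ≠ o T} // w ≠ ⟨z, hz⟩} => ((w : {w : G ⧸ Nz T // w ≠ o T}) : G ⧸ Nz T)) e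
    have h5 : ((b : G)⁻¹ * a) • x = x := by rw [mul_smul, e', inv_smul_smul]
    have h7 := (Dz T z).mul_mem ((Dz T z).inv_mem b.2) a.2
    have h6 := h.three hz hx (Ne.symm hxz) h7 ⟨h7.1, h5⟩
    exact Subtype.ext (inv_mul_eq_one.1 h6).symm
  have hb : Function.Bijective f := (Nat.bijective_iff_injective_and_card f).2 ⟨hf, hcard.symm⟩
  obtain ⟨t, ht⟩ := hb.2 ⟨⟨y, hy⟩, fun e => hyz (congrArg Subtype.val e)⟩
  exact ⟨t, t.2, congrArg (fun w : {w : {w : G ⧸ Nz T // w ≠ o T} // w ≠ ⟨z, hz⟩} => ((w : {w : G ⧸ Nz T // w ≠ o T}) : G ⧸ Nz T)) ht⟩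

end Cfsg.Agent.Lib.SEmbElem
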