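import Mathlib
import Cfsg.Prelude.Def_LieTypeDatum
import Cfsg.Agent.Lib.Symp4
import Cfsg.Agent.Lib.AutPSL1
import Cfsg.Agent.Lib.FinGal2

/-! Automorphisms of `PSp_{2m}(q)`: basic automorphisms and transvection groups. -/

set_option linter.all false

namespace Cfsg.Agent.Lib.AutSp

open Matrix Cfsg.Agent.Lib.Symp Cfsg.Agent.Lib.AutPSL
open scoped Pointwise

variable {m : ℕ} {F : Type*} [Field F]

local notation "VV" => (Fin m ⊕ Fin m → F)
local notation "MM" => Matrix (Fin m ⊕ Fin m) (Fin m ⊕ Fin m) F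
local notation "SP" => Matrix.symplecticGroup (Fin m) F
local notation "PSP" => Cfsg.PSp m F
local notation "BB" => Cfsg.sympForm m F

theorem mem_GSp {g : GL (Fin m ⊕ Fin m) F} : g ∈ Cfsg.GSp m F ↔
    ∃ c : Fˣ, ∀ u v, BB ((g : MM) *ᵥ u) ((g : MM) *ᵥ v) = (c : F) * BB u v := Iff.rfl

theorem gl_inv_mulVec (g : GL (Fin m ⊕ Fin m) F) (x : VV) :
    ((g⁻¹ : GL (Fin m ⊕ Fin m) F) : MM) *ᵥ ((g : MM) *ᵥ x) = x := by
  rw [Matrix.mulVec_mulVec, ← Units.val_mul, inv_mul_cancel, Units.val_one, Matrix.one_mulVec]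

theorem gl_mulVec_inv (g : GL (Fin m ⊕ Fin m) F) (x : VV) :
    (g : MM) *ᵥ (((g⁻¹ : GL (Fin m ⊕ Fin m) F) : MM) *ᵥ x) = x := by
  rw [Matrix.mulVec_mulVec, ← Units.val_mul, mul_inv_cancel, Units.val_one, Matrix.one_mulVec]

theorem cj_mem {g : GL (Fin m ⊕ Fin m) F} (hg : g ∈ Cfsg.GSp m F) (s : SP) :
    (g : MM) * (s : MM) * ((g⁻¹ : GL (Fin m ⊕ Fin m) F) : MM) ∈ SP := by
  rw [mem_iff_preserves]
  intro u v
  obtain ⟨c, hc⟩ := mem_GSp.mp hg
  have h1 : ∀ x, ((g : MM) * (s : MM) * ((g⁻¹ : GL (Fin m ⊕ Fin m) F) : MM)) *ᵥ x =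
      (g : MM) *ᵥ ((s : MM) *ᵥ (((g⁻¹ : GL (Fin m ⊕ Fin m) F) : MM) *ᵥ x)) := by
    intro x
    rw [← Matrix.mulVec_mulVec, ← Matrix.mulVec_mulVec]
  rw [h1, h1, hc, preserves, ← hc, gl_mulVec_inv, gl_mulVec_inv]

/-- conjugation by a similitude -/
def cjS (g : Cfsg.GSp m F) : MulAut SP where
  toFun s := ⟨((g : GL (Fin m ⊕ Fin m) F) : MM) * (s : MM) *
    (((g : GL (Fin m ⊕ Fin m) F)⁻¹ : GL (Fin m ⊕ Fin m) F) : MM), cj_mem g.2 s⟩
  invFun s := ⟨((((g⁻¹ : Cfsg.GSp m F) : GL (Fin m ⊕ Fin m) F)) : MM) * (s : MM) *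
    (((((g⁻¹ : Cfsg.GSp m F) : GL (Fin m ⊕ Fin m) F))⁻¹ : GL (Fin m ⊕ Fin m) F) : MM), cj_mem (g⁻¹).2 s⟩
  left_inv s := by
    apply ext_sp
    intro x
    show (((((g : GL (Fin m ⊕ Fin m) F))⁻¹ : GL (Fin m ⊕ Fin m) F) : MM) *
      (((g : GL (Fin m ⊕ Fin m) F) : MM) * (s : MM) *
      (((g : GL (Fin m ⊕ Fin m) F)⁻¹ : GL (Fin m ⊕ Fin m) F) : MM)) *
      ((((((g : GL (Fin m ⊕ Fin m) F)))⁻¹)⁻¹ : GL (Fin m ⊕ Fin m) F) : MM)) *ᵥ x = (s : MM) *ᵥ x
    rw [inv_inv]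
    simp only [← Matrix.mulVec_mulVec, gl_inv_mulVec, gl_mulVec_inv]
  right_inv s := by
    apply ext_sp
    intro x
    show (((g : GL (Fin m ⊕ Fin m) F) : MM) *
      (((((g : GL (Fin m ⊕ Fin m) F))⁻¹ : GL (Fin m ⊕ Fin m) F) : MM) * (s : MM) *
      ((((((g : GL (Fin m ⊕ Fin m) F)))⁻¹)⁻¹ : GL (Fin m ⊕ Fin m) F) : MM)) *
      ((((g : GL (Fin m ⊕ Fin m) F))⁻¹ : GL (Fin m ⊕ Fin m) F) : MM)) *ᵥ x = (s : MM) *ᵥ x
    rw [inv_inv]
    simp only [← Matrix.mulVec_mulVec, gl_inv_mulVec, gl_mulVec_inv]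
  map_mul' s t := by
    apply ext_sp
    intro x
    show (((g : GL (Fin m ⊕ Fin m) F) : MM) * ((s : MM) * (t : MM)) *
      ((((g : GL (Fin m ⊕ Fin m) F))⁻¹ : GL (Fin m ⊕ Fin m) F) : MM)) *ᵥ x =
      ((((g : GL (Fin m ⊕ Fin m) F) : MM) * (s : MM) *
      ((((g : GL (Fin m ⊕ Fin m) F))⁻¹ : GL (Fin m ⊕ Fin m) F) : MM)) *
      (((g : GL (Fin m ⊕ Fin m) F) : MM) * (t : MM) *
      ((((g : GL (Fin m ⊕ Fin m) F))⁻¹ : GL (Fin m ⊕ Fin m) F) : MM))) *ᵥ x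
    simp only [← Matrix.mulVec_mulVec, gl_inv_mulVec, gl_mulVec_inv]

theorem cjS_coe (g : Cfsg.GSp m F) (s : SP) : ((cjS g s : SP) : MM)
    = ((g : GL (Fin m ⊕ Fin m) F) : MM) * (s : MM) *
    (((g : GL (Fin m ⊕ Fin m) F)⁻¹ : GL (Fin m ⊕ Fin m) F) : MM) := rfl

theorem cjS_mulVec (g : Cfsg.GSp m F) (s : SP) (x : VV) : ((cjS g s : SP) : MM) *ᵥ x
    = ((g : GL (Fin m ⊕ Fin m) F) : MM) *ᵥ ((s : MM) *ᵥ
    ((((g : GL (Fin m ⊕ Fin m) F)⁻¹ : GL (Fin m ⊕ Fin m) F) : MM) *ᵥ x)) := by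
  rw [cjS_coe, ← Matrix.mulVec_mulVec, ← Matrix.mulVec_mulVec]

theorem cjS_mul (g h : Cfsg.GSp m F) : cjS (g * h) = cjS g * cjS h := by
  ext1 s
  apply ext_sp
  intro x
  show _ = ((cjS g (cjS h s) : SP) : MM) *ᵥ x
  rw [cjS_mulVec, cjS_mulVec, cjS_mulVec]
  show ((((g : GL (Fin m ⊕ Fin m) F) * (h : GL (Fin m ⊕ Fin m) F)) : GL (Fin m ⊕ Fin m) F) : MM) *ᵥ ((s : MM) *ᵥ
    (((((g : GL (Fin m ⊕ Fin m) F) * (h : GL (Fin m ⊕ Fin m) F))⁻¹ : GL (Fin m ⊕ Fin m) F) : MM) *ᵥ x)) = _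
  rw [_root_.mul_inv_rev, Units.val_mul, Units.val_mul]
  simp only [← Matrix.mulVec_mulVec]

theorem cjS_one : cjS (1 : Cfsg.GSp m F) = 1 := by
  ext1 s
  apply ext_sp
  intro x
  rw [cjS_mulVec]
  show (1 : MM) *ᵥ ((s : MM) *ᵥ ((((1 : GL (Fin m ⊕ Fin m) F)⁻¹ : GL (Fin m ⊕ Fin m) F) : MM) *ᵥ x)) = _
  rw [inv_one, Units.val_one, Matrix.one_mulVec, Matrix.one_mulVec]
  rfl

/-- conjugation by similitudes as a homomorphism to `Aut PSp` -/
def delta : Cfsg.GSp m F →* MulAut PSP where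
  toFun g := desc (cjS g)
  map_one' := by rw [cjS_one, map_one]
  map_mul' g h := by rw [cjS_mul, map_mul]

theorem delta_apply (g : Cfsg.GSp m F) : (delta g : MulAut PSP) = desc (cjS g) := rfl

theorem form_sigma (σ : F ≃+* F) (u v : VV) :
    BB (fun i => σ (u i)) (fun i => σ (v i)) = σ (BB u v) := by
  rw [sympForm_eq, sympForm_eq, map_sum]
  simp only [map_sub, map_mul]

theorem map_mulVec_sigma (σ : F ≃+* F) (A : MM) (x : VV) :
    (A.map σ) *ᵥ (fun i => σ (x i)) = fun i => σ ((A *ᵥ x) i) := by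
  funext i
  simp only [Matrix.mulVec, dotProduct, map_sum, map_mul, Matrix.map_apply]

theorem map_mulVec_sigma' (σ : F ≃+* F) (A : MM) (x : VV) :
    (A.map σ) *ᵥ x = fun i => σ ((A *ᵥ (fun j => σ.symm (x j))) i) := by
  rw [← map_mulVec_sigma]
  congr 1
  funext i
  exact (RingEquiv.apply_symm_apply σ (x i)).symm

theorem map_mem (σ : F ≃+* F) (s : SP) : (s : MM).map σ ∈ SP := by
  rw [mem_iff_preserves]
  intro u v
  rw [map_mulVec_sigma', map_mulVec_sigma', form_sigma, preserves, ← form_sigma]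
  congr 1 <;> (funext i; exact RingEquiv.apply_symm_apply σ _)

/-- entrywise field automorphism -/
def faS (σ : F ≃+* F) : MulAut SP where
  toFun s := ⟨(s : MM).map σ, map_mem σ s⟩
  invFun s := ⟨(s : MM).map σ.symm, map_mem σ.symm s⟩
  left_inv s := by
    apply Subtype.ext
    ext i j
    show σ.symm (σ ((s : MM) i j)) = (s : MM) i j
    simp
  right_inv s := by
    apply Subtype.ext
    ext i j
    show σ (σ.symm ((s : MM) i j)) = (s : MM) i j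
    simp
  map_mul' s t := by
    apply Subtype.ext
    show ((s : MM) * (t : MM)).map σ = (s : MM).map σ * (t : MM).map σ
    exact map_mul (RingHom.mapMatrix (m := Fin m ⊕ Fin m) (σ : F →+* F)) (s : MM) (t : MM)

theorem faS_coe (σ : F ≃+* F) (s : SP) : ((faS σ s : SP) : MM) = (s : MM).map σ := rfl

theorem faS_mul (σ τ : F ≃+* F) : (faS (σ * τ) : MulAut SP) = faS σ * faS τ := rfl
theorem faS_one : (faS (1 : F ≃+* F) : MulAut SP) = 1 := rfl

/-- field automorphisms on `Aut PSp` -/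
def psi : (F ≃+* F) →* MulAut PSP where
  toFun σ := desc (faS σ)
  map_one' := by rw [faS_one, map_one]
  map_mul' σ τ := by rw [faS_mul, map_mul]

theorem psi_apply (σ : F ≃+* F) : (psi σ : MulAut PSP) = desc (faS σ) := rfl

/-- field automorphism on similitudes -/
def faG (σ : F ≃+* F) : Cfsg.GSp m F →* Cfsg.GSp m F where
  toFun g := ⟨Matrix.GeneralLinearGroup.map (σ : F →+* F) (g : GL (Fin m ⊕ Fin m) F), by
    obtain ⟨c, hc⟩ := mem_GSp.mp g.2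
    refine ⟨Units.map (σ : F →* F) c, fun u v => ?_⟩
    show BB ((((g : GL (Fin m ⊕ Fin m) F) : MM).map σ) *ᵥ u) ((((g : GL (Fin m ⊕ Fin m) F) : MM).map σ) *ᵥ v)
      = σ c * BB u v
    rw [map_mulVec_sigma', map_mulVec_sigma', form_sigma, hc, map_mul, ← form_sigma]
    congr 2 <;> (funext i; exact RingEquiv.apply_symm_apply σ _)⟩
  map_one' := by apply Subtype.ext; exact map_one _
  map_mul' g h := by apply Subtype.ext; exact map_mul _ _ _

theorem faG_coe (σ : F ≃+* F) (g : Cfsg.GSp m F) :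
    (((faG σ g : Cfsg.GSp m F) : GL (Fin m ⊕ Fin m) F) : MM) = ((g : GL (Fin m ⊕ Fin m) F) : MM).map σ := rfl

theorem fa_cjS (σ : F ≃+* F) (g : Cfsg.GSp m F) :
    (faS σ : MulAut SP) * cjS g = cjS (faG σ g) * faS σ := by
  ext1 s
  apply Subtype.ext
  show (((g : GL (Fin m ⊕ Fin m) F) : MM) * (s : MM) *
      (((g : GL (Fin m ⊕ Fin m) F)⁻¹ : GL (Fin m ⊕ Fin m) F) : MM)).map σ =
    ((g : GL (Fin m ⊕ Fin m) F) : MM).map σ * (s : MM).map σ *
      ((((faG σ g : Cfsg.GSp m F) : GL (Fin m ⊕ Fin m) F)⁻¹ : GL (Fin m ⊕ Fin m) F) : MM)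
  have h := map_mul (RingHom.mapMatrix (m := Fin m ⊕ Fin m) (σ : F →+* F))
  have e1 := h (((g : GL (Fin m ⊕ Fin m) F) : MM) * (s : MM))
    (((g : GL (Fin m ⊕ Fin m) F)⁻¹ : GL (Fin m ⊕ Fin m) F) : MM)
  have e2 := h ((g : GL (Fin m ⊕ Fin m) F) : MM) (s : MM)
  rw [e2] at e1
  exact e1

theorem psi_delta (σ : F ≃+* F) (g : Cfsg.GSp m F) :
    (psi σ : MulAut PSP) * delta g = delta (faG σ g) * psi σ := by
  rw [psi_apply, delta_apply, delta_apply, ← map_mul, ← map_mul, fa_cjS]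

/-- the class in `PSp` -/
def mk (s : Matrix.symplecticGroup (Fin m) F) : Cfsg.PSp m F := QuotientGroup.mk s

theorem mk_mul (s t : SP) : mk (s * t) = mk s * mk t := rfl
theorem mk_inv (s : SP) : mk s⁻¹ = (mk s)⁻¹ := rfl
theorem mk_one : mk (1 : SP) = 1 := rfl
theorem mk_surj (x : PSP) : ∃ s : SP, mk s = x := QuotientGroup.mk_surjective x

theorem mk_eq_iff (a b : SP) : mk a = mk b ↔
    ∃ r : F, r ^ 2 = 1 ∧ ∀ x, (b : MM) *ᵥ x = r • ((a : MM) *ᵥ x) := by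
  rw [mk, mk, QuotientGroup.eq, mem_center_iff]
  constructor
  · rintro ⟨r, hr, h⟩
    refine ⟨r, hr, fun x => ?_⟩
    have : b = a * (a⁻¹ * b) := by group
    rw [this, h, mul_mulVec, spScalar_mulVec, Matrix.mulVec_smul]
  · rintro ⟨r, hr, h⟩
    refine ⟨r, hr, ?_⟩
    apply ext_sp
    intro x
    rw [mul_mulVec, h, Matrix.mulVec_smul, inv_mulVec_mulVec, spScalar_mulVec]

theorem mk_tr_inj {u v : VV} {c d : F} (h : mk (tr u c) = mk (tr v d)) : tr u c = tr v d := by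
  obtain ⟨r, hr, h⟩ := (mk_eq_iff _ _).mp h
  have h1 : ∀ x : VV, x ≠ 0 → BB x v = 0 → BB x u = 0 → r = 1 := by
    intro x hx hv hu
    have := h x
    rw [tr_mulVec, tr_mulVec, hv, hu] at this
    simp only [mul_zero, zero_smul, add_zero] at this
    have h2 : (r - 1) • x = 0 := by rw [sub_smul, one_smul, ← this, sub_self]
    exact sub_eq_zero.mp ((smul_eq_zero.mp h2).resolve_right hx)
  have hr1 : r = 1 ∨ (∀ x : VV, x = 0) := by
    by_cases hu : u = 0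
    · by_cases hv : v = 0
      · by_cases hall : ∀ x : VV, x = 0
        · exact Or.inr hall
        · push Not at hall
          obtain ⟨x, hx⟩ := hall
          left
          exact h1 x hx (by rw [hv, sympForm_zero_right]) (by rw [hu, sympForm_zero_right])
      · left
        exact h1 v hv (sympForm_self v) (by rw [hu, sympForm_zero_right])
    · left
      by_cases huv : BB u v = 0
      · exact h1 u hu huv (sympForm_self u)
      · -- r • u = u + d B(u,v) v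
        have h2 := h u
        rw [tr_mulVec, tr_mulVec, sympForm_self, mul_zero, zero_smul, add_zero] at h2
        have h3 := congrArg (fun z => BB z v) h2
        simp only [sympForm_add_left, sympForm_smul_left, sympForm_self, mul_zero, add_zero] at h3
        exact (mul_right_cancel₀ huv (by rw [one_mul]; exact h3)).symm
  apply ext_sp
  intro x
  rcases hr1 with hr1 | hr1
  · rw [h, hr1, one_smul]
  · rw [hr1 x, Matrix.mulVec_zero, Matrix.mulVec_zero]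

/-- parallel vectors -/
def Par (u v : VV) : Prop := ∃ a : F, a ≠ 0 ∧ v = a • u

theorem Par.refl (u : VV) : Par u u := ⟨1, one_ne_zero, (one_smul _ _).symm⟩
theorem Par.symm {u v : VV} (h : Par u v) : Par v u := by
  obtain ⟨c, hc, rfl⟩ := h
  exact ⟨c⁻¹, inv_ne_zero hc, by rw [smul_smul, inv_mul_cancel₀ hc, one_smul]⟩
theorem Par.trans {u v w : VV} (h : Par u v) (h' : Par v w) : Par u w := by
  obtain ⟨c, hc, rfl⟩ := h
  obtain ⟨d, hd, rfl⟩ := h'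
  exact ⟨d * c, mul_ne_zero hd hc, by rw [smul_smul]⟩

/-- the transvection group of a vector -/
def X (u : VV) : Subgroup (Cfsg.PSp m F) where
  carrier := {x | ∃ a : F, x = mk (tr u a)}
  one_mem' := ⟨0, by rw [tr_zero, mk_one]⟩
  mul_mem' := by
    rintro _ _ ⟨a, rfl⟩ ⟨b, rfl⟩
    exact ⟨a + b, by rw [← tr_mul, mk_mul]⟩
  inv_mem' := by
    rintro _ ⟨a, rfl⟩
    exact ⟨-a, by rw [← tr_inv, mk_inv]⟩

theorem mem_X {u : VV} {x : PSP} : x ∈ X u ↔ ∃ a : F, x = mk (tr u a) := Iff.rfl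

theorem X_smul (u : VV) {c : F} (hc : c ≠ 0) : X (c • u) = X u := by
  ext x
  rw [mem_X, mem_X]
  constructor
  · rintro ⟨a, rfl⟩
    exact ⟨c ^ 2 * a, by rw [tr_smul]⟩
  · rintro ⟨a, rfl⟩
    refine ⟨(c ^ 2)⁻¹ * a, ?_⟩
    rw [tr_smul, ← mul_assoc, mul_inv_cancel₀ (pow_ne_zero 2 hc), one_mul]

theorem tr_inj {u : VV} (hu : u ≠ 0) {a b : F} (h : tr u a = tr u b) : a = b := by
  obtain ⟨y, hy⟩ := exists_form_ne_zero hu
  have h1 := congrArg (fun g : SP => (g : MM) *ᵥ y) h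
  simp only [tr_mulVec] at h1
  have h2 := add_left_cancel h1
  have h3 : (a * BB y u - b * BB y u) • u = 0 := by rw [sub_smul, h2, sub_self]
  have h4 := (smul_eq_zero.mp h3).resolve_right hu
  exact mul_right_cancel₀ hy (sub_eq_zero.mp h4)

theorem par_of_mem {u v : VV} (hu : u ≠ 0) (hv : v ≠ 0) {a : F} (ha : a ≠ 0)
    (h : mk (tr u a) ∈ X v) : Par u v := by
  obtain ⟨b, hb⟩ := h
  obtain ⟨c, hc⟩ := exists_smul_of_tr_eq ha hu (mk_tr_inj hb)
  apply Par.symm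
  refine ⟨c, ?_, hc⟩
  rintro rfl
  rw [zero_smul] at hc
  exact hu hc

theorem X_eq_iff {u v : VV} (hu : u ≠ 0) (hv : v ≠ 0) : X u = X v ↔ Par u v := by
  constructor
  · intro h
    apply par_of_mem hu hv one_ne_zero
    rw [← h]
    exact ⟨1, rfl⟩
  · rintro ⟨c, hc, rfl⟩
    rw [X_smul _ hc]

theorem conj_X (s : SP) (u : VV) : MulAut.conj (mk s) • X u = X ((s : MM) *ᵥ u) := by
  ext x
  rw [Subgroup.mem_smul_pointwise_iff_exists, mem_X]
  have key : ∀ a, mk s * mk (tr u a) * (mk s)⁻¹ = mk (tr ((s : MM) *ᵥ u) a) := by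
    intro a
    rw [← mk_inv, ← mk_mul, ← mk_mul, conj_tr]
  constructor
  · rintro ⟨y, ⟨a, rfl⟩, rfl⟩
    exact ⟨a, key a⟩
  · rintro ⟨a, rfl⟩
    exact ⟨_, ⟨a, rfl⟩, key a⟩

theorem cjS_tr (g : Cfsg.GSp m F) {c : F} (hc : c ≠ 0)
    (h : ∀ u v, BB (((g : GL (Fin m ⊕ Fin m) F) : MM) *ᵥ u) (((g : GL (Fin m ⊕ Fin m) F) : MM) *ᵥ v) = c * BB u v)
    (w : VV) (a : F) : cjS g (tr w a) = tr (((g : GL (Fin m ⊕ Fin m) F) : MM) *ᵥ w) (c⁻¹ * a) := by
  apply ext_sp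
  intro x
  rw [cjS_mulVec, tr_mulVec, tr_mulVec, Matrix.mulVec_add, gl_mulVec_inv, Matrix.mulVec_smul]
  congr 2
  have h1 := h ((((g : GL (Fin m ⊕ Fin m) F)⁻¹ : GL (Fin m ⊕ Fin m) F) : MM) *ᵥ x) w
  rw [gl_mulVec_inv] at h1
  rw [h1]
  field_simp

theorem faS_tr (σ : F ≃+* F) (w : VV) (a : F) : faS σ (tr w a) = tr (fun i => σ (w i)) (σ a) := by
  apply ext_sp
  intro x
  rw [faS_coe, map_mulVec_sigma', tr_mulVec, tr_mulVec]
  have h1 : BB x (fun i => σ (w i)) = σ (BB (fun j => σ.symm (x j)) w) := by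
    rw [← form_sigma]
    congr 1
    funext i
    exact (RingEquiv.apply_symm_apply σ (x i)).symm
  rw [h1]
  funext i
  show σ (σ.symm (x i) + a * BB (fun j => σ.symm (x j)) w * w i) = x i + σ a * σ _ * σ (w i)
  rw [map_add, RingEquiv.apply_symm_apply, map_mul, map_mul]

theorem delta_X (g : Cfsg.GSp m F) (u : VV) :
    (delta g : MulAut PSP) • X u = X (((g : GL (Fin m ⊕ Fin m) F) : MM) *ᵥ u) := by
  obtain ⟨c, hc⟩ := mem_GSp.mp g.2
  have key : ∀ a, (delta g : MulAut PSP) (mk (tr u a)) =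
      mk (tr (((g : GL (Fin m ⊕ Fin m) F) : MM) *ᵥ u) ((c : F)⁻¹ * a)) := by
    intro a
    have h2 : (delta g : MulAut PSP) (mk (tr u a)) = mk (cjS g (tr u a)) := rfl
    rw [h2, cjS_tr g c.ne_zero hc]
  ext x
  rw [Subgroup.mem_smul_pointwise_iff_exists, mem_X]
  constructor
  · rintro ⟨y, ⟨a, rfl⟩, rfl⟩
    exact ⟨_, key a⟩
  · rintro ⟨a, rfl⟩
    refine ⟨_, ⟨c * a, rfl⟩, ?_⟩
    have := key (c * a)
    rw [← mul_assoc, inv_mul_cancel₀ c.ne_zero, one_mul] at this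
    exact this

end Cfsg.Agent.Lib.AutSp
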