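import Mathlib
import Cfsg.Agent.Lib.Herm16
import Cfsg.Agent.Lib.RCF14

/-! Elements of prime order in `PGU_n(q)`. -/

set_option linter.all false
set_option maxHeartbeats 400000

namespace Cfsg.Agent.Lib.Herm

open Matrix Cfsg.Agent.Lib.FinGal Cfsg.Agent.Lib.HilbN Cfsg.Agent.Lib.RCF

section StI

variable {F : Type*} [Field F] {σ : F ≃+* F} {q n : ℕ}

/-- inverse conjugate transpose -/
def stI (σ : F ≃+* F) (n : ℕ) : GL (Fin n) F →* GL (Fin n) F where
  toFun A := ⟨st σ ((A⁻¹ : GL (Fin n) F) : Matrix (Fin n) (Fin n) F), st σ (A : Matrix (Fin n) (Fin n) F),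
    by rw [← st_mul, ← Units.val_mul, mul_inv_cancel, Units.val_one, st_one],
    by rw [← st_mul, ← Units.val_mul, inv_mul_cancel, Units.val_one, st_one]⟩
  map_one' := by
    apply Units.ext
    show st σ (((1 : GL (Fin n) F)⁻¹ : GL (Fin n) F) : Matrix (Fin n) (Fin n) F) = 1
    rw [inv_one, Units.val_one, st_one]
  map_mul' A B := by
    apply Units.ext
    show st σ ((((A * B) : GL (Fin n) F)⁻¹ : GL (Fin n) F) : Matrix (Fin n) (Fin n) F) =
      st σ ((A⁻¹ : GL (Fin n) F) : Matrix (Fin n) (Fin n) F) * st σ ((B⁻¹ : GL (Fin n) F) : Matrix (Fin n) (Fin n) F)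
    rw [_root_.mul_inv_rev, Units.val_mul, st_mul]

theorem stI_val (A : GL (Fin n) F) : ((stI σ n A : GL (Fin n) F) : Matrix (Fin n) (Fin n) F) =
    st σ ((A⁻¹ : GL (Fin n) F) : Matrix (Fin n) (Fin n) F) := rfl

theorem stI_inv_val (A : GL (Fin n) F) : (((stI σ n A)⁻¹ : GL (Fin n) F) : Matrix (Fin n) (Fin n) F) =
    st σ (A : Matrix (Fin n) (Fin n) F) := rfl

theorem gu_iff_stI (hσ2 : ∀ a, σ (σ a) = a) (hq : ∀ a, σ a = a ^ q) (g : GL (Fin n) F) :
    g ∈ Cfsg.GU n F q ↔ stI σ n g = g := by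
  rw [gu_iff_st hσ2 hq]
  constructor
  · intro h
    apply Units.ext
    rw [stI_val]
    have h1 : st σ ((g⁻¹ : GL (Fin n) F) : Matrix (Fin n) (Fin n) F) * st σ (g : Matrix (Fin n) (Fin n) F) = 1 := by
      rw [← st_mul, ← Units.val_mul, mul_inv_cancel, Units.val_one, st_one]
    calc st σ ((g⁻¹ : GL (Fin n) F) : Matrix (Fin n) (Fin n) F) =
        st σ ((g⁻¹ : GL (Fin n) F) : Matrix (Fin n) (Fin n) F) * (st σ (g : Matrix (Fin n) (Fin n) F) * (g : Matrix (Fin n) (Fin n) F)) := by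
          rw [h, mul_one]
      _ = _ := by rw [← mul_assoc, h1, one_mul]
  · intro h
    have h1 : (((stI σ n g)⁻¹ * g : GL (Fin n) F) : Matrix (Fin n) (Fin n) F) = 1 := by
      rw [h, inv_mul_cancel, Units.val_one]
    rw [Units.val_mul, stI_inv_val] at h1
    exact h1

/-- conjugate to its inverse conjugate transpose implies conjugate to a unitary matrix -/
theorem conj_GU_of_stI [Finite F] (hσ' : orderOf σ = 2) (hq : ∀ a, σ a = a ^ q) {A : GL (Fin n) F}
    (h : IsConj A (stI σ n A)) : ∃ g : Cfsg.GU n F q, IsConj A (g : GL (Fin n) F) := by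
  obtain ⟨hs1, hs2, hs3⟩ := sigma_facts hσ'
  obtain ⟨c, hc⟩ := isConj_iff.mp h
  have h3 : c * A = (stI σ n A) * c := by rw [← hc]; group
  have h4 : st σ (A : Matrix (Fin n) (Fin n) F) * (c : Matrix (Fin n) (Fin n) F) * (A : Matrix (Fin n) (Fin n) F) =
      (c : Matrix (Fin n) (Fin n) F) := by
    rw [mul_assoc]
    have h5 := congrArg Units.val h3
    rw [Units.val_mul, Units.val_mul] at h5
    rw [h5, ← mul_assoc, ← stI_inv_val, ← Units.val_mul, inv_mul_cancel, Units.val_one, one_mul]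
  obtain ⟨D, hD⟩ := similar_unitary hσ' hs1 hs2 hq h4
  exact ⟨⟨D * A * D⁻¹, hD⟩, isConj_iff.mpr ⟨D, rfl⟩⟩

theorem stI_sc (u : Fˣ) : stI σ n (sc n F u) = sc n F (Units.map (σ : F →+* F).toMonoidHom u)⁻¹ := by
  apply Units.ext
  rw [stI_val, ← map_inv, sc_val, sc_val, ← map_inv]
  have h1 : Matrix.scalar (Fin n) ((u⁻¹ : Fˣ) : F) = algebraMap F (Matrix (Fin n) (Fin n) F) ((u⁻¹ : Fˣ) : F) := by
    rw [Matrix.algebraMap_eq_diagonal, Matrix.scalar_apply]; rfl
  rw [h1, st_algebraMap, Matrix.algebraMap_eq_diagonal, Matrix.scalar_apply]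
  rfl

theorem sigma_NU {u : Fˣ} (hu : u ∈ NU σ) : (Units.map (σ : F →+* F).toMonoidHom u)⁻¹ = u := by
  rw [inv_eq_iff_mul_eq_one]
  apply Units.ext
  rw [mem_NU, mul_comm] at hu
  exact hu

theorem stI_sc_NU {u : Fˣ} (hu : u ∈ NU σ) : stI σ n (sc n F u) = sc n F u := by
  rw [stI_sc, sigma_NU hu]

theorem ed_eq (A : GL (Fin n) F) (l : F) :
    ed A l + ((A : Matrix (Fin n) (Fin n) F) - algebraMap F _ l).rank = n := by
  unfold ed
  have h1 : Polynomial.aeval (Matrix.toLin' (A : Matrix (Fin n) (Fin n) F)) (Polynomial.X - Polynomial.C l) =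
      Matrix.toLin' ((A : Matrix (Fin n) (Fin n) F) - algebraMap F _ l) := by
    rw [map_sub, Polynomial.aeval_X, Polynomial.aeval_C, map_sub]
    congr 1
    exact (AlgEquiv.commutes (Matrix.toLinAlgEquiv' : Matrix (Fin n) (Fin n) F ≃ₐ[F] _) l).symm
  rw [h1]
  have h4 := LinearMap.finrank_range_add_finrank_ker (Matrix.toLin' ((A : Matrix (Fin n) (Fin n) F) - algebraMap F _ l))
  rw [Module.finrank_fin_fun] at h4
  have h5 : ((A : Matrix (Fin n) (Fin n) F) - algebraMap F _ l).rank = Module.finrank F (LinearMap.range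
    (Matrix.toLin' ((A : Matrix (Fin n) (Fin n) F) - algebraMap F _ l))) := rfl
  omega

theorem ed_stI [Finite F] (A : GL (Fin n) F) {l : Fˣ} (hl : l ∈ NU σ) :
    ed (stI σ n A) (l : F) = ed A (l : F) := by
  have h1 := ed_eq A (l : F)
  have h2 := ed_eq (stI σ n A) (l : F)
  have h3 : (((stI σ n A : GL (Fin n) F) : Matrix (Fin n) (Fin n) F) - algebraMap F _ (l : F)).rank =
      ((A : Matrix (Fin n) (Fin n) F) - algebraMap F _ (l : F)).rank := by
    have hl' := mem_NU.mp hl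
    have h4 : σ (l : F) * (l : F) = 1 := by rw [mul_comm]; exact hl'
    have hl'' : σ (l : F) ≠ 0 := by
      intro h0
      rw [h0, zero_mul] at h4
      exact zero_ne_one h4
    -- `A⁻¹ - σ l`
    have h6 : ((stI σ n A : GL (Fin n) F) : Matrix (Fin n) (Fin n) F) - algebraMap F _ (l : F) =
        (((stI σ n A * sc n F (-l) : GL (Fin n) F)) : Matrix (Fin n) (Fin n) F) * st σ ((A : Matrix (Fin n) (Fin n) F) - algebraMap F _ (l : F)) := by
      have h8 : (((stI σ n A * sc n F (-l) : GL (Fin n) F)) : Matrix (Fin n) (Fin n) F) = (-(l : F)) • ((stI σ n A : GL (Fin n) F) : Matrix (Fin n) (Fin n) F) := by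
        rw [← sc_comm, Units.val_mul, sc_val, Matrix.scalar_apply, ← Matrix.smul_eq_diagonal_mul]
        rfl
      rw [h8, st_sub, st_algebraMap, Matrix.smul_mul, mul_sub, ← stI_inv_val, ← Units.val_mul, mul_inv_cancel, Units.val_one]
      rw [Algebra.algebraMap_eq_smul_one, Algebra.algebraMap_eq_smul_one, smul_sub, Matrix.mul_smul, smul_smul, mul_one,
        neg_mul, hl', neg_smul, neg_smul, one_smul]
      abel
    rw [h6, Matrix.rank_mul_eq_right_of_isUnit_det _ _ ((Matrix.isUnit_iff_isUnit_det _).mp (stI σ n A * sc n F (-l)).isUnit),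
      rank_st]
  omega

end StI

end Cfsg.Agent.Lib.Herm
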