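import Mathlib
import Cfsg.Agent.Lib.RCF16

/-! The irreducible factors of `Phi_r` as a torsor under `(ZMod r)ˣ / ⟨q⟩`. -/

set_option linter.all false
set_option maxHeartbeats 400000

namespace Cfsg.Agent.Lib.RCF

open Polynomial

section Pol

variable {F : Type*} [Field F] {r p : ℕ}

theorem exists_zt [Fact p.Prime] [CharP F p] (hr : r.Prime) (hrp : r ≠ p) :
    ∃ ζ : AlgebraicClosure F, IsPrimitiveRoot ζ r := by
  have hne : (r : AlgebraicClosure F) ≠ 0 := by
    haveI : CharP (AlgebraicClosure F) p := charP_of_injective_algebraMap (algebraMap F (AlgebraicClosure F)).injective p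
    rw [Ne, CharP.cast_eq_zero_iff (AlgebraicClosure F) p]
    intro h
    exact hrp ((Nat.prime_dvd_prime_iff_eq Fact.out hr).mp h).symm
  haveI : NeZero (r : AlgebraicClosure F) := ⟨hne⟩
  have hdeg : (cyclotomic r (AlgebraicClosure F)).degree ≠ 0 := by
    rw [degree_cyclotomic]
    have := Nat.totient_pos.mpr hr.pos
    exact_mod_cast this.ne'
  obtain ⟨ζ, hζ⟩ := IsAlgClosed.exists_root (cyclotomic r (AlgebraicClosure F)) hdeg
  exact ⟨ζ, isRoot_cyclotomic_iff.mp hζ⟩

/-- a primitive `r`-th root of unity -/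
noncomputable def zt (F : Type*) [Field F] (r : ℕ) : AlgebraicClosure F := by
  classical exact if h : ∃ ζ : AlgebraicClosure F, IsPrimitiveRoot ζ r then h.choose else 0

theorem zt_prim [Fact p.Prime] [CharP F p] (hr : r.Prime) (hrp : r ≠ p) : IsPrimitiveRoot (zt F r) r := by
  classical
  unfold zt
  rw [dif_pos (exists_zt (p := p) hr hrp)]
  exact (exists_zt (p := p) hr hrp).choose_spec

/-- the minimal polynomial of `ζ^k` -/
noncomputable def pol (F : Type*) [Field F] (r : ℕ) (k : (ZMod r)ˣ) : F[X] :=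
  minpoly F ((zt F r) ^ (k : ZMod r).val)

theorem zt_integral (x : AlgebraicClosure F) : IsIntegral F x := Algebra.IsIntegral.isIntegral x

theorem zt_pow_mul [Fact p.Prime] [CharP F p] (hr : r.Prime) (hrp : r ≠ p) (k u : (ZMod r)ˣ) :
    ((zt F r) ^ (k : ZMod r).val) ^ (u : ZMod r).val = (zt F r) ^ ((k * u : (ZMod r)ˣ) : ZMod r).val := by
  haveI : NeZero r := ⟨hr.ne_zero⟩
  rw [← pow_mul, Units.val_mul, ZMod.val_mul]
  exact pow_eq_pow_mod _ (zt_prim (p := p) hr hrp).pow_eq_one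

theorem zt_pow_cast [Fact p.Prime] [CharP F p] (hr : r.Prime) (hrp : r ≠ p) (k : ℕ) (u : (ZMod r)ˣ)
    (h : (k : ZMod r) = u) : (zt F r) ^ k = (zt F r) ^ (u : ZMod r).val := by
  rw [← h, ZMod.val_natCast]
  exact pow_eq_pow_mod _ (zt_prim (p := p) hr hrp).pow_eq_one

theorem pol_mem [Fact p.Prime] [CharP F p] (hr : r.Prime) (hrp : r ≠ p) (k : (ZMod r)ˣ) : pol F r k ∈ PF F r := by
  haveI : Fact r.Prime := ⟨hr⟩
  rw [mem_PF hr.pos]
  refine ⟨minpoly.irreducible (zt_integral _), minpoly.monic (zt_integral _), ?_⟩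
  apply minpoly.dvd
  have hζ := zt_prim (F := F) (p := p) hr hrp
  have h1 : (zt F r) ^ (k : ZMod r).val ≠ 1 := by
    intro h
    have h2 := hζ.dvd_of_pow_eq_one _ h
    have h3 : ((k : ZMod r).val : ZMod r) = 0 := (ZMod.natCast_eq_zero_iff _ _).mpr h2
    rw [ZMod.natCast_zmod_val] at h3
    exact k.ne_zero h3
  have h2 : aeval ((zt F r) ^ (k : ZMod r).val) (Phi F r * (X - 1)) = 0 := by
    rw [Phi_mul, map_sub, map_pow, aeval_X, map_one, ← pow_mul, mul_comm, pow_mul, hζ.pow_eq_one, one_pow, sub_self]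
  rw [map_mul, map_sub, aeval_X, map_one, mul_eq_zero] at h2
  exact h2.resolve_right (sub_ne_zero.mpr h1)

theorem pol_surj [Fact p.Prime] [CharP F p] (hr : r.Prime) (hrp : r ≠ p) {π : F[X]} (hπ : π ∈ PF F r) :
    ∃ k, pol F r k = π := by
  haveI : Fact r.Prime := ⟨hr⟩
  haveI : NeZero r := ⟨hr.ne_zero⟩
  obtain ⟨h1, h2, h3⟩ := (mem_PF hr.pos).mp hπ
  have hdeg : (π.map (algebraMap F (AlgebraicClosure F))).degree ≠ 0 := by
    rw [degree_map]
    exact (Polynomial.degree_pos_of_irreducible h1).ne'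
  obtain ⟨α, hα⟩ := IsAlgClosed.exists_root _ hdeg
  have hα' : aeval α π = 0 := by
    rw [aeval_def, ← eval_map]
    exact hα
  have h4 : aeval α (Phi F r) = 0 := by
    obtain ⟨c, hc⟩ := h3
    rw [hc, map_mul, hα', zero_mul]
  have h5 : α ^ r = 1 := by
    have h6 : aeval α (Phi F r * (X - 1)) = 0 := by rw [map_mul, h4, zero_mul]
    rw [Phi_mul, map_sub, map_pow, aeval_X, map_one, sub_eq_zero] at h6
    exact h6
  have h6 : α ≠ 1 := by
    rintro rfl
    rw [Phi, map_sum] at h4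
    simp only [map_pow, aeval_X, one_pow, Finset.sum_const, Finset.card_range, nsmul_eq_mul, mul_one] at h4
    haveI : CharP (AlgebraicClosure F) p := charP_of_injective_algebraMap (algebraMap F (AlgebraicClosure F)).injective p
    rw [CharP.cast_eq_zero_iff (AlgebraicClosure F) p] at h4
    exact hrp ((Nat.prime_dvd_prime_iff_eq Fact.out hr).mp h4).symm
  obtain ⟨j, hj, hjα⟩ := (zt_prim (F := F) (p := p) hr hrp).eq_pow_of_pow_eq_one h5
  have hj0 : (j : ZMod r) ≠ 0 := by
    intro h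
    rw [ZMod.natCast_eq_zero_iff] at h
    have : j = 0 := Nat.eq_zero_of_dvd_of_lt h hj
    rw [this, pow_zero] at hjα
    exact h6 hjα.symm
  refine ⟨Units.mk0 (j : ZMod r) hj0, ?_⟩
  unfold pol
  rw [← zt_pow_cast (p := p) hr hrp j (Units.mk0 (j : ZMod r) hj0) rfl, hjα]
  exact (minpoly.eq_of_irreducible_of_monic h1 hα' h2).symm

/-- the order of the field as a unit -/
noncomputable def QU (F : Type*) [Field F] (r : ℕ) : (ZMod r)ˣ := by
  classical exact if h : IsUnit (Nat.card F : ZMod r) then h.unit else 1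

theorem QU_val [Finite F] [Fact p.Prime] [CharP F p] (hr : r.Prime) (hrp : r ≠ p) :
    ((QU F r : (ZMod r)ˣ) : ZMod r) = Nat.card F := by
  classical
  haveI : Fact r.Prime := ⟨hr⟩
  haveI := Fintype.ofFinite F
  have h : IsUnit (Nat.card F : ZMod r) := by
    rw [isUnit_iff_ne_zero, Ne, ZMod.natCast_eq_zero_iff]
    intro h
    obtain ⟨e, he1, he⟩ := FiniteField.card F p
    rw [Nat.card_eq_fintype_card, he] at h
    exact hrp ((Nat.prime_dvd_prime_iff_eq hr Fact.out).mp (hr.dvd_of_dvd_pow h))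
  unfold QU
  rw [dif_pos h]
  rfl

theorem orderOf_QU [Finite F] [Fact p.Prime] [CharP F p] (hr : r.Prime) (hrp : r ≠ p) :
    orderOf (QU F r) = orderOf (Nat.card F : ZMod r) := by
  rw [← orderOf_units, QU_val (p := p) hr hrp]

theorem pol_mul_QU [Finite F] [Fact p.Prime] [CharP F p] (hr : r.Prime) (hrp : r ≠ p) (k : (ZMod r)ˣ) :
    pol F r (k * QU F r) = pol F r k := by
  classical
  haveI := Fintype.ofFinite F
  haveI : NeZero r := ⟨hr.ne_zero⟩
  unfold pol
  rw [← minpoly.algHom_eq (FiniteField.frobeniusAlgHom F (AlgebraicClosure F))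
    (FiniteField.frobeniusAlgHom F (AlgebraicClosure F)).toRingHom.injective ((zt F r) ^ (k : ZMod r).val)]
  congr 1
  show _ = ((zt F r) ^ (k : ZMod r).val) ^ Fintype.card F
  rw [← pow_mul]
  symm
  apply zt_pow_cast (p := p) hr hrp
  rw [Nat.cast_mul, ZMod.natCast_zmod_val, Units.val_mul, QU_val (p := p) hr hrp, Nat.card_eq_fintype_card]

theorem pol_mul_zpow [Finite F] [Fact p.Prime] [CharP F p] (hr : r.Prime) (hrp : r ≠ p) (k : (ZMod r)ˣ) {u : (ZMod r)ˣ}
    (hu : u ∈ Subgroup.zpowers (QU F r)) : pol F r (k * u) = pol F r k := by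
  haveI : NeZero r := ⟨hr.ne_zero⟩
  haveI : Finite (ZMod r)ˣ := inferInstance
  obtain ⟨j, hj⟩ := (mem_powers_iff_mem_zpowers (x := QU F r)).mpr hu
  have hj' : (QU F r) ^ j = u := hj
  rw [← hj']
  clear hj hj' hu
  induction j with
  | zero => rw [pow_zero, mul_one]
  | succ j ih => rw [pow_succ, ← mul_assoc, pol_mul_QU (p := p) hr hrp, ih]

/-- the index set -/
abbrev TT (F : Type*) [Field F] (r : ℕ) := (ZMod r)ˣ ⧸ Subgroup.zpowers (QU F r)

theorem card_TT [Finite F] [Fact p.Prime] [CharP F p] (hr : r.Prime) (hrp : r ≠ p) :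
    Nat.card (TT F r) * orderOf (Nat.card F : ZMod r) = r - 1 := by
  haveI : NeZero r := ⟨hr.ne_zero⟩
  rw [← orderOf_QU (p := p) hr hrp, ← Nat.card_zpowers, ← Subgroup.card_eq_card_quotient_mul_card_subgroup,
    Nat.card_eq_fintype_card, ZMod.card_units_eq_totient, Nat.totient_prime hr]

/-- `pol` on cosets -/
noncomputable def polT [Finite F] [Fact p.Prime] [CharP F p] (hr : r.Prime) (hrp : r ≠ p) (t : TT F r) : {π // π ∈ PF F r} :=
  Quotient.liftOn' t (fun k => ⟨pol F r k, pol_mem (p := p) hr hrp k⟩) (by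
    intro k l hkl
    apply Subtype.ext
    show pol F r k = pol F r l
    rw [QuotientGroup.leftRel_apply] at hkl
    rw [← pol_mul_zpow (p := p) hr hrp k hkl, mul_inv_cancel_left])

theorem polT_mk [Finite F] [Fact p.Prime] [CharP F p] (hr : r.Prime) (hrp : r ≠ p) (k : (ZMod r)ˣ) :
    ((polT (F := F) (p := p) hr hrp (k : TT F r) : {π // π ∈ PF F r}) : F[X]) = pol F r k := rfl

theorem polT_bij [Finite F] [Fact p.Prime] [CharP F p] (hr : r.Prime) (hrp : r ≠ p) :
    Function.Bijective (polT (F := F) (p := p) hr hrp) := by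
  haveI : NeZero r := ⟨hr.ne_zero⟩
  haveI : Finite (TT F r) := inferInstance
  rw [Nat.bijective_iff_surjective_and_card]
  refine ⟨?_, ?_⟩
  · rintro ⟨π, hπ⟩
    obtain ⟨k, hk⟩ := pol_surj (p := p) hr hrp hπ
    exact ⟨(k : TT F r), Subtype.ext hk⟩
  · have h1 := card_TT (F := F) (p := p) hr hrp
    have h2 := card_PF (F := F) (p := p) hr hrp
    have h3 : Nat.card {π // π ∈ PF F r} = (PF F r).card := by
      rw [Nat.card_eq_fintype_card, Fintype.card_coe]
    rw [h3]
    have hpos : 0 < orderOf (Nat.card F : ZMod r) := by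
      rw [← orderOf_QU (F := F) (p := p) hr hrp]
      exact orderOf_pos _
    exact Nat.eq_of_mul_eq_mul_right hpos (h1.trans h2.symm)

end Pol

section Pow

variable {F V : Type*} [Field F] [AddCommGroup V] [Module F V] {r p : ℕ}

theorem aeval_pow_comp (T : V →ₗ[F] V) (f : F[X]) (j : ℕ) : aeval (T ^ j) f = aeval T (f.comp (X ^ j)) := by
  rw [aeval_comp, map_pow, aeval_X]

theorem ker_pol_pow [Fact p.Prime] [CharP F p] (hr : r.Prime) (hrp : r ≠ p) (k u : (ZMod r)ˣ) (T : V →ₗ[F] V) :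
    LinearMap.ker (aeval T (pol F r k)) ≤ LinearMap.ker (aeval (T ^ (u : ZMod r).val) (pol F r (k * u))) := by
  have hd : pol F r k ∣ (pol F r (k * u)).comp (X ^ (u : ZMod r).val) := by
    apply minpoly.dvd
    rw [aeval_comp, map_pow, aeval_X, zt_pow_mul (p := p) hr hrp]
    exact minpoly.aeval _ _
  obtain ⟨c, hc⟩ := hd
  intro v hv
  rw [LinearMap.mem_ker] at hv ⊢
  rw [aeval_pow_comp, hc, mul_comm, map_mul]
  show aeval T c (aeval T (pol F r k) v) = 0
  rw [hv, map_zero]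

theorem kd_pow [FiniteDimensional F V] [Fact p.Prime] [CharP F p] (hr : r.Prime) (hrp : r ≠ p) (k u : (ZMod r)ˣ) {T : V →ₗ[F] V}
    (hT : T ^ r = 1) : kd (T ^ (u : ZMod r).val) (pol F r (k * u)) = kd T (pol F r k) := by
  haveI : NeZero r := ⟨hr.ne_zero⟩
  unfold kd
  have h1 := ker_pol_pow (p := p) hr hrp k u T
  have h2 := ker_pol_pow (p := p) hr hrp (k * u) u⁻¹ (T ^ (u : ZMod r).val)
  have h3 : (T ^ (u : ZMod r).val) ^ ((u⁻¹ : (ZMod r)ˣ) : ZMod r).val = T := by
    rw [← pow_mul, pow_eq_pow_mod _ hT, ← ZMod.val_mul, Units.mul_inv]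
    by_cases h : r = 1
    · exact absurd h hr.ne_one
    · haveI : Fact (1 < r) := ⟨hr.one_lt⟩
      rw [ZMod.val_one, pow_one]
  rw [h3, mul_inv_cancel_right] at h2
  rw [le_antisymm h2 h1]

end Pow

section Semi

variable {F : Type*} [Field F] {r p : ℕ}

/-- Frobenius twists of `pol` -/
theorem map_pol [Fact p.Prime] [CharP F p] (hr : r.Prime) (hrp : r ≠ p) (σ : F ≃+* F) {j : ℕ}
    (hσ : ∀ a, σ a = a ^ (p ^ j)) (k s : (ZMod r)ˣ) (hs : (s : ZMod r) = ((p ^ j : ℕ) : ZMod r)) :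
    (pol F r k).map (σ : F →+* F) = pol F r (k * s) := by
  haveI : NeZero r := ⟨hr.ne_zero⟩
  haveI : CharP (AlgebraicClosure F) p := charP_of_injective_algebraMap (algebraMap F (AlgebraicClosure F)).injective p
  have hm : ((pol F r k).map (σ : F →+* F)).Monic := (minpoly.monic (zt_integral _)).map _
  have hirr : Irreducible (pol F r k) := minpoly.irreducible (zt_integral _)
  have hirr' : Irreducible ((pol F r k).map (σ : F →+* F)) :=
    (MulEquiv.irreducible_iff (Polynomial.mapEquiv σ)).mpr hirr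
  apply minpoly.eq_of_irreducible_of_monic hirr' _ hm
  have h1 : (zt F r) ^ ((k * s : (ZMod r)ˣ) : ZMod r).val = ((zt F r) ^ (k : ZMod r).val) ^ (p ^ j) := by
    rw [← pow_mul]
    symm
    apply zt_pow_cast (p := p) hr hrp
    rw [Nat.cast_mul, ZMod.natCast_zmod_val, Units.val_mul, hs]
  rw [h1, aeval_def, eval₂_map]
  have h2 : (algebraMap F (AlgebraicClosure F)).comp (σ : F →+* F) =
      (iterateFrobenius (AlgebraicClosure F) p j).comp (algebraMap F (AlgebraicClosure F)) := by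
    ext a
    show algebraMap F (AlgebraicClosure F) (σ a) = (algebraMap F (AlgebraicClosure F) a) ^ (p ^ j)
    rw [hσ, map_pow]
  rw [h2]
  have h3 : ((zt F r) ^ (k : ZMod r).val) ^ (p ^ j) = iterateFrobenius (AlgebraicClosure F) p j ((zt F r) ^ (k : ZMod r).val) := rfl
  rw [h3, ← hom_eval₂]
  have h4 : eval₂ (algebraMap F (AlgebraicClosure F)) ((zt F r) ^ (k : ZMod r).val) (pol F r k) = 0 := minpoly.aeval _ _
  rw [h4, map_zero]

end Semi

end Cfsg.Agent.Lib.RCF
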