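import Mathlib
import Cfsg.Agent.Lib.RCF17

/-! Counting classes of elements of prime order `r` in classical groups. -/

set_option linter.all false
set_option maxHeartbeats 400000

namespace Cfsg.Agent.Lib.RCF

open Polynomial

section Count

theorem zpowers_two {T : Type*} [Group T] {g : T} (h2 : g ^ 2 = 1) : ∀ x ∈ Subgroup.zpowers g, x = 1 ∨ x = g := by
  intro x hx
  obtain ⟨j, hj⟩ := Subgroup.mem_zpowers_iff.mp hx
  rcases Int.even_or_odd' j with ⟨m, rfl | rfl⟩
  · left
    rw [← hj, zpow_mul, zpow_ofNat, h2, one_zpow]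
  · right
    rw [← hj, zpow_add, zpow_mul, zpow_ofNat, h2, one_zpow, one_mul, zpow_one]

/-- functions invariant under a subgroup, with bounded sum -/
theorem card_inv {T : Type*} [Group T] [Fintype T] (s : Subgroup T) (e N : ℕ) (he : 0 < e) :
    Nat.card {a : T → ℕ // (∀ t, ∀ x ∈ s, a (t * x) = a t) ∧ e * ∑ t, a t ≤ N} =
      (N / (Nat.card s * e) + Nat.card T / Nat.card s).choose (Nat.card T / Nat.card s) := by
  classical
  haveI := Fintype.ofFinite (T ⧸ s)
  haveI := Fintype.ofFinite s
  have hc : Nat.card T / Nat.card s = Fintype.card (T ⧸ s) := by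
    rw [Subgroup.card_eq_card_quotient_mul_card_subgroup s, Nat.mul_div_cancel _ Nat.card_pos, Nat.card_eq_fintype_card]
  rw [hc, ← CombT.card_sum_le (T ⧸ s)]
  have hsum : ∀ b : T ⧸ s → ℕ, ∑ t : T, b (t : T ⧸ s) = Nat.card s * ∑ x, b x := by
    intro b
    rw [← (Subgroup.groupEquivQuotientProdSubgroup (s := s)).symm.sum_comp, Fintype.sum_prod_type]
    have h1 : ∀ x : T ⧸ s, ∑ y : s, b (((Subgroup.groupEquivQuotientProdSubgroup (s := s)).symm (x, y) : T) : T ⧸ s) =
        Nat.card s * b x := by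
      intro x
      have h2 : ∀ y : s, b (((Subgroup.groupEquivQuotientProdSubgroup (s := s)).symm (x, y) : T) : T ⧸ s) = b x := by
        intro y
        congr 1
        have h3 : (Subgroup.groupEquivQuotientProdSubgroup (s := s) ((Subgroup.groupEquivQuotientProdSubgroup (s := s)).symm (x, y))).1 = x := by
          rw [Equiv.apply_symm_apply]
        exact h3
      rw [Finset.sum_congr rfl (fun y _ => h2 y), Finset.sum_const, Finset.card_univ, smul_eq_mul, ← Nat.card_eq_fintype_card]
    rw [Finset.sum_congr rfl (fun x _ => h1 x), ← Finset.mul_sum]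
  have hle : ∀ b : T ⧸ s → ℕ, e * ∑ t : T, b (t : T ⧸ s) ≤ N ↔ ∑ x, b x ≤ N / (Nat.card s * e) := by
    intro b
    have hpos : 0 < Nat.card s * e := Nat.mul_pos Nat.card_pos he
    rw [hsum, Nat.le_div_iff_mul_le hpos]
    have : e * (Nat.card s * ∑ x, b x) = (∑ x, b x) * (Nat.card s * e) := by ring
    rw [this]
  apply Nat.card_congr
  exact
    { toFun := fun a => ⟨fun x => Quotient.liftOn' x a.1 (by
        intro k l hkl
        rw [QuotientGroup.leftRel_apply] at hkl
        have := a.2.1 k _ hkl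
        rw [mul_inv_cancel_left] at this
        exact this.symm), by
        rw [← hle]
        exact a.2.2⟩
      invFun := fun b => ⟨fun t => b.1 (t : T ⧸ s), by
        intro t x hx
        show b.1 ((t * x : T) : T ⧸ s) = b.1 (t : T ⧸ s)
        rw [QuotientGroup.mk_mul_of_mem t hx], (hle b.1).mpr b.2⟩
      left_inv := fun a => rfl
      right_inv := fun b => by
        apply Subtype.ext
        funext x
        induction x using QuotientGroup.induction_on with
        | H t => rfl }

end Count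

section Main

variable {F : Type*} [Field F] [Finite F] {r p : ℕ} [Fact p.Prime] [CharP F p]
  {G V : Type*} [Group G] [AddCommGroup V] [Module F V] [FiniteDimensional F V]

theorem kd_X_sub_one {T : V →ₗ[F] V} (h : kd T (X - 1) = Module.finrank F V) : T = 1 := by
  unfold kd at h
  have h1 : LinearMap.ker (aeval T (X - 1 : F[X])) = ⊤ := Submodule.eq_top_of_finrank_eq h
  rw [map_sub, aeval_X, map_one] at h1
  rw [LinearMap.ker_eq_top, sub_eq_zero] at h1
  exact h1

theorem card_order_r (hr : r.Prime) (hrp : r ≠ p) (φ : G →* Module.End F V) (hφ : Function.Injective φ) (u : (ZMod r)ˣ)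
    (hu2 : u * u ∈ Subgroup.zpowers (QU F r))
    (hconj : ∀ g h : G, g ^ r = 1 → h ^ r = 1 → (∃ k : V ≃ₗ[F] V, ∀ v, k (φ g v) = φ h (k v)) → IsConj g h)
    (hreal : ∀ T : V →ₗ[F] V, T ^ r = 1 → (∀ k, kd T (pol F r (k * u)) = kd T (pol F r k)) →
      ∃ g, g ^ r = 1 ∧ ∃ k : V ≃ₗ[F] V, ∀ v, k (T v) = φ g (k v))
    (hsym : ∀ g : G, g ^ r = 1 → ∀ k, kd (φ g) (pol F r (k * u)) = kd (φ g) (pol F r k))
    {c e t : ℕ} (hc : (u ∈ Subgroup.zpowers (QU F r) ∧ c = 1) ∨ (u ∉ Subgroup.zpowers (QU F r) ∧ c = 2))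
    (he : e = orderOf (Nat.card F : ZMod r)) (ht : t * e = r - 1) :
    Nat.card {C : ConjClasses G // ∃ g, ConjClasses.mk g = C ∧ orderOf g = r} =
      (Module.finrank F V / (c * e) + t / c).choose (t / c) - 1 := by
  classical
  haveI : NeZero r := ⟨hr.ne_zero⟩
  haveI : Finite (TT F r) := inferInstance
  haveI := Fintype.ofFinite (TT F r)
  have hepos : 0 < e := by
    rw [he, ← orderOf_QU (F := F) (p := p) hr hrp]
    exact orderOf_pos _
  have htT : t = Nat.card (TT F r) := by
    have h1 := card_TT (F := F) (p := p) hr hrp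
    rw [← he] at h1
    exact Nat.eq_of_mul_eq_mul_right hepos (ht.trans h1.symm)
  set s : Subgroup (TT F r) := Subgroup.zpowers (u : TT F r) with hs
  have hcs : Nat.card s = c := by
    rw [hs, Nat.card_zpowers]
    rcases hc with ⟨h, rfl⟩ | ⟨h, rfl⟩
    · rw [orderOf_eq_one_iff]
      exact (QuotientGroup.eq_one_iff _).mpr h
    · apply orderOf_eq_prime
      · rw [sq, ← QuotientGroup.mk_mul]
        exact (QuotientGroup.eq_one_iff _).mpr hu2
      · intro h1
        exact h ((QuotientGroup.eq_one_iff _).mp h1)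
  have hcount := card_inv (T := TT F r) s e (Module.finrank F V) hepos
  rw [hcs, ← htT] at hcount
  have hmul_s : ∀ x ∈ s, x = 1 ∨ x = (u : TT F r) := by
    exact zpowers_two (by
      rw [sq, ← QuotientGroup.mk_mul]
      exact (QuotientGroup.eq_one_iff _).mpr hu2)
  -- the index type
  let A := {a : TT F r → ℕ // (∀ t, ∀ x ∈ s, a (t * x) = a t) ∧ e * ∑ t, a t ≤ Module.finrank F V}
  let z : A := ⟨fun _ => 0, fun _ _ _ => rfl, by simp⟩
  haveI hfinA : Finite A := by
    apply Nat.finite_of_card_ne_zero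
    show Nat.card {a : TT F r → ℕ // (∀ t, ∀ x ∈ s, a (t * x) = a t) ∧ e * ∑ t, a t ≤ Module.finrank F V} ≠ 0
    rw [hcount]
    exact (Nat.choose_pos (Nat.le_add_left _ _)).ne'
  have hcardne : Nat.card {a : A // a ≠ z} = (Module.finrank F V / (c * e) + t / c).choose (t / c) - 1 := by
    haveI := Fintype.ofFinite A
    rw [← hcount, Nat.card_eq_fintype_card, Nat.card_eq_fintype_card, Fintype.card_subtype_compl, Fintype.card_subtype_eq]
  rw [← hcardne]
  -- sums
  have hSum : ∀ f : F[X] → ℕ, ∑ π ∈ PF F r, f π = ∑ t : TT F r, f (polT (p := p) hr hrp t : F[X]) := by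
    intro f
    rw [← Finset.sum_coe_sort (PF F r)]
    exact (Equiv.sum_comp (Equiv.ofBijective _ (polT_bij (F := F) (p := p) hr hrp)) (fun π : {π // π ∈ PF F r} => f (π : F[X]))).symm
  have hpow : ∀ g : G, g ^ r = 1 → (φ g) ^ r = 1 := by
    intro g hg
    rw [← map_pow, hg, map_one]
  have hirr : ∀ k, Irreducible (pol F r k) := fun k => ((mem_PF hr.pos).mp (pol_mem (p := p) hr hrp k)).1
  have hdvd : ∀ (T : V →ₗ[F] V) k, e ∣ kd T (pol F r k) := by
    intro T k
    have h1 := dvd_kd (T := T) (hirr k)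
    rw [natDegree_PF (p := p) hr hrp (pol_mem (p := p) hr hrp k), ← he] at h1
    exact h1
  let R : G → {a : A // a ≠ z} → Prop := fun g a => g ^ r = 1 ∧ ∀ k : (ZMod r)ˣ, kd (φ g) (pol F r k) = a.1.1 (k : TT F r) * e
  apply card_of_type (fun g : G => orderOf g = r) R
  · intro g hg
    have hgr : g ^ r = 1 := by rw [← hg]; exact pow_orderOf_eq_one g
    let a : TT F r → ℕ := fun t => kd (φ g) (polT (p := p) hr hrp t : F[X]) / e
    have ha : ∀ k : (ZMod r)ˣ, kd (φ g) (pol F r k) = a (k : TT F r) * e := by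
      intro k
      show _ = kd (φ g) (polT (p := p) hr hrp (k : TT F r) : F[X]) / e * e
      rw [polT_mk, Nat.div_mul_cancel (hdvd _ k)]
    have hinv : ∀ t, ∀ x ∈ s, a (t * x) = a t := by
      intro t x hx
      rcases hmul_s x hx with rfl | rfl
      · exact congrArg a (mul_one t)
      · obtain ⟨k, rfl⟩ := QuotientGroup.mk_surjective t
        have h1 := hsym g hgr k
        rw [ha, ha] at h1
        exact Nat.eq_of_mul_eq_mul_right hepos h1
    have hsumeq : e * ∑ t, a t = ∑ π ∈ PF F r, kd (φ g) π := by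
      rw [hSum, Finset.mul_sum]
      apply Finset.sum_congr rfl
      intro t _
      obtain ⟨k, rfl⟩ := QuotientGroup.mk_surjective t
      rw [polT_mk, ha, mul_comm]
    have hle : e * ∑ t, a t ≤ Module.finrank F V := by
      rw [hsumeq, ← kd_sum (p := p) hr hrp (hpow g hgr)]
      exact Nat.le_add_left _ _
    refine ⟨⟨⟨a, hinv, hle⟩, ?_⟩, hgr, ha⟩
    intro h0
    have h1 : a = fun _ => 0 := congrArg Subtype.val h0
    have h2 : ∑ π ∈ PF F r, kd (φ g) π = 0 := by
      rw [← hsumeq, h1]
      simp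
    have h3 := kd_sum (p := p) hr hrp (hpow g hgr)
    rw [h2, add_zero] at h3
    have h4 := kd_X_sub_one h3
    have h5 : g = 1 := hφ (by rw [h4, map_one])
    rw [h5, orderOf_one] at hg
    exact hr.one_lt.ne hg
  · rintro g a b ⟨-, ha⟩ ⟨-, hb⟩
    apply Subtype.ext
    apply Subtype.ext
    funext t
    obtain ⟨k, rfl⟩ := QuotientGroup.mk_surjective t
    exact Nat.eq_of_mul_eq_mul_right hepos ((ha k).symm.trans (hb k))
  · rintro g h a hg hh ⟨hgr, ha⟩ ⟨hhr, hb⟩
    apply hconj g h hgr hhr
    apply similar_of_kd (p := p) hr hrp (hpow g hgr) (hpow h hhr) rfl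
    intro π hπ
    obtain ⟨k, rfl⟩ := pol_surj (p := p) hr hrp hπ
    rw [ha, hb]
  · rintro g h a hgh ⟨hgr, ha⟩
    obtain ⟨x, hx⟩ := isConj_iff.mp hgh
    refine ⟨?_, ?_⟩
    · rw [← hx, conj_pow, hgr, mul_one, mul_inv_cancel]
    · intro k
      rw [← ha]
      have hxu : (φ x) * (φ x⁻¹) = 1 := by rw [← map_mul, mul_inv_cancel, map_one]
      have hxu' : (φ x⁻¹) * (φ x) = 1 := by rw [← map_mul, inv_mul_cancel, map_one]
      let l : V ≃ₗ[F] V := LinearEquiv.ofLinear (φ x) (φ x⁻¹) hxu hxu'
      symm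
      apply kd_conj l
      intro v
      have h1 : φ x * φ g = φ h * φ x := by
        rw [← map_mul, ← map_mul, ← hx]
        congr 1
        group
      exact LinearMap.congr_fun h1 v
  · rintro ⟨⟨a, hinv, hle⟩, hne⟩
    -- the function on polynomials
    let b : F[X] → ℕ := fun π => if h : π ∈ PF F r then
      a ((Equiv.ofBijective _ (polT_bij (F := F) (p := p) hr hrp)).symm ⟨π, h⟩) else 0
    have hb : ∀ k : (ZMod r)ˣ, b (pol F r k) = a (k : TT F r) := by
      intro k
      show (if h : pol F r k ∈ PF F r then _ else 0) = _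
      rw [dif_pos (pol_mem (p := p) hr hrp k)]
      congr 1
      rw [Equiv.symm_apply_eq]
      rfl
    have hbsum : ∑ π ∈ PF F r, b π = ∑ t, a t := by
      rw [hSum]
      apply Finset.sum_congr rfl
      intro t _
      obtain ⟨k, rfl⟩ := QuotientGroup.mk_surjective t
      rw [polT_mk, hb]
    obtain ⟨T0, hT0, hT0d⟩ := exists_kd_r (p := p) hr hrp b (N := Module.finrank F V) (by
      rw [hbsum, ← he]; exact hle)
    have hfr : Module.finrank F (Fin (Module.finrank F V) → F) = Module.finrank F V := by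
      rw [Module.finrank_fin_fun]
    let l := LinearEquiv.ofFinrankEq _ _ hfr
    let T : V →ₗ[F] V := l.toLinearMap ∘ₗ T0 ∘ₗ l.symm.toLinearMap
    have hl : ∀ v, l (T0 v) = T (l v) := by
      intro v
      show l _ = l (T0 (l.symm (l v)))
      rw [l.symm_apply_apply]
    have hT : T ^ r = 1 := by
      have h1 := aeval_conj l hl ((X : F[X]) ^ r - 1)
      rw [aeval_pow_sub hT0] at h1
      have h2 : aeval T ((X : F[X]) ^ r - 1) = 0 := by
        apply LinearMap.ext
        intro w
        obtain ⟨v, rfl⟩ := l.surjective w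
        rw [← h1, LinearMap.zero_apply, LinearMap.zero_apply, map_zero]
      rw [map_sub, map_pow, aeval_X, map_one, sub_eq_zero] at h2
      exact h2
    have hTd : ∀ k : (ZMod r)ˣ, kd T (pol F r k) = a (k : TT F r) * e := by
      intro k
      rw [← kd_conj l hl, hT0d _ (pol_mem (p := p) hr hrp k), hb, ← he]
    obtain ⟨g, hg, k, hk⟩ := hreal T hT (by
      intro k
      rw [hTd, hTd]
      congr 1
      rw [QuotientGroup.mk_mul]
      exact hinv _ _ (Subgroup.mem_zpowers _))
    have hgd : ∀ l : (ZMod r)ˣ, kd (φ g) (pol F r l) = a (l : TT F r) * e := by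
      intro l
      rw [← kd_conj k hk, hTd]
    refine ⟨g, ?_, hg, hgd⟩
    haveI : Fact r.Prime := ⟨hr⟩
    apply orderOf_eq_prime hg
    intro h1
    apply hne
    apply Subtype.ext
    funext t
    obtain ⟨l, rfl⟩ := QuotientGroup.mk_surjective t
    have h2 := hgd l
    rw [h1, map_one] at h2
    have h3 : kd (1 : V →ₗ[F] V) (pol F r l) = 0 := by
      have h4 := kd_sum (p := p) hr hrp (T := (1 : V →ₗ[F] V)) (one_pow r)
      have h5 : kd (1 : V →ₗ[F] V) (X - 1) = Module.finrank F V := by
        unfold kd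
        rw [map_sub, aeval_X, map_one, sub_self, LinearMap.ker_zero, finrank_top]
      rw [h5] at h4
      have h6 : ∑ π ∈ PF F r, kd (1 : V →ₗ[F] V) π = 0 := by omega
      exact Finset.sum_eq_zero_iff.mp h6 _ (pol_mem (p := p) hr hrp l)
    have h4 : kd (φ 1) (pol F r l) = 0 := by rw [map_one]; exact h3
    show a (l : TT F r) = 0
    rcases Nat.mul_eq_zero.mp ((h2.symm.trans (by exact h3))) with h5 | h5
    · exact h5
    · exact absurd h5 hepos.ne'

end Main

end Cfsg.Agent.Lib.RCF
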