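import Mathlib
import Cfsg.Agent.Lib.Herm17
import Cfsg.Agent.Lib.RCF18
import Cfsg.Agent.Lib.SqZero2

/-! Elements of prime order in `GU_n(q)`. -/

set_option linter.all false
set_option maxHeartbeats 400000

namespace Cfsg.Agent.Lib.RCF

open Matrix

/-- the action of `GL` as endomorphisms -/
def glE (n : ℕ) (F : Type*) [Field F] : GL (Fin n) F →* Module.End F (Fin n → F) :=
  ((Matrix.toLinAlgEquiv' : Matrix (Fin n) (Fin n) F ≃ₐ[F] _) : Matrix (Fin n) (Fin n) F →* Module.End F (Fin n → F)).comp (Units.coeHom _)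

theorem glE_apply {n : ℕ} {F : Type*} [Field F] (g : GL (Fin n) F) :
    glE n F g = Matrix.toLin' (g : Matrix (Fin n) (Fin n) F) := rfl

theorem glE_inj {n : ℕ} {F : Type*} [Field F] : Function.Injective (glE n F) := by
  intro g h hgh
  apply Units.ext
  exact (Matrix.toLinAlgEquiv' : Matrix (Fin n) (Fin n) F ≃ₐ[F] _).injective hgh

theorem exists_glE {n r : ℕ} {F : Type*} [Field F] (hr : 0 < r) {T : (Fin n → F) →ₗ[F] (Fin n → F)} (hT : T ^ r = 1) :
    ∃ g : GL (Fin n) F, glE n F g = T ∧ g ^ r = 1 := by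
  have hu : T * T ^ (r - 1) = 1 := by rw [← pow_succ', Nat.sub_add_cancel hr, hT]
  have hu' : T ^ (r - 1) * T = 1 := by rw [← pow_succ, Nat.sub_add_cancel hr, hT]
  let U : (Module.End F (Fin n → F))ˣ := ⟨T, T ^ (r - 1), hu, hu'⟩
  let g : GL (Fin n) F := Units.map ((Matrix.toLinAlgEquiv' : Matrix (Fin n) (Fin n) F ≃ₐ[F] _).symm : Module.End F (Fin n → F) →* Matrix (Fin n) (Fin n) F) U
  have hg : glE n F g = T := by
    show (Matrix.toLinAlgEquiv' : Matrix (Fin n) (Fin n) F ≃ₐ[F] _) ((Matrix.toLinAlgEquiv' : Matrix (Fin n) (Fin n) F ≃ₐ[F] _).symm T) = T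
    rw [AlgEquiv.apply_symm_apply]
  refine ⟨g, hg, ?_⟩
  apply glE_inj
  rw [map_pow, hg, hT, map_one]

theorem exists_conj_glE {n : ℕ} {F : Type*} [Field F] {g h : GL (Fin n) F} (hgh : IsConj g h) :
    ∃ k : (Fin n → F) ≃ₗ[F] (Fin n → F), ∀ v, k (glE n F g v) = glE n F h (k v) := by
  obtain ⟨c, hc⟩ := isConj_iff.mp hgh
  have hxu : (glE n F c) * (glE n F c⁻¹) = 1 := by rw [← map_mul, mul_inv_cancel, map_one]
  have hxu' : (glE n F c⁻¹) * (glE n F c) = 1 := by rw [← map_mul, inv_mul_cancel, map_one]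
  refine ⟨LinearEquiv.ofLinear (glE n F c) (glE n F c⁻¹) hxu hxu', ?_⟩
  intro v
  have h1 : glE n F c * glE n F g = glE n F h * glE n F c := by
    rw [← map_mul, ← map_mul, ← hc]
    congr 1
    group
  exact LinearMap.congr_fun h1 v

theorem val_neg_one_unit {r : ℕ} (hr : 0 < r) : ((-1 : (ZMod r)ˣ) : ZMod r).val = r - 1 := by
  obtain ⟨m, rfl⟩ := Nat.exists_eq_succ_of_ne_zero hr.ne'
  rw [Units.val_neg, Units.val_one]
  exact ZMod.val_neg_one m

theorem kd_toLin {n : ℕ} {F : Type*} [Field F] (M : Matrix (Fin n) (Fin n) F) (f : Polynomial F) :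
    kd (Matrix.toLin' M) f + (Polynomial.aeval M f).rank = n := by
  unfold kd
  have h1 : Polynomial.aeval (Matrix.toLin' M) f = Matrix.toLin' (Polynomial.aeval M f) :=
    Polynomial.aeval_algHom_apply (Matrix.toLinAlgEquiv' : Matrix _ _ F ≃ₐ[F] _) M f
  rw [h1]
  have h4 := LinearMap.finrank_range_add_finrank_ker (Matrix.toLin' (Polynomial.aeval M f))
  rw [Module.finrank_fin_fun] at h4
  have h5 : (Polynomial.aeval M f).rank = Module.finrank F (LinearMap.range (Matrix.toLin' (Polynomial.aeval M f))) := rfl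
  omega

end Cfsg.Agent.Lib.RCF

namespace Cfsg.Agent.Lib.Herm

open Matrix Cfsg.Agent.Lib.FinGal Cfsg.Agent.Lib.HilbN Cfsg.Agent.Lib.RCF

section KdSt

variable {F : Type*} [Field F] {σ : F ≃+* F} {q n : ℕ}

theorem aeval_st (hσ2 : ∀ a, σ (σ a) = a) (B : Matrix (Fin n) (Fin n) F) (f : Polynomial F) :
    Polynomial.aeval (st σ B) f = st σ (Polynomial.aeval B (f.map (σ : F →+* F))) := by
  induction f using Polynomial.induction_on' with
  | add a b ha hb => rw [map_add, ha, hb, Polynomial.map_add, map_add, st_add]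
  | monomial k a =>
    rw [Polynomial.map_monomial, Polynomial.aeval_monomial, Polynomial.aeval_monomial, st_mul, st_pow, st_algebraMap]
    have h1 : σ ((σ : F →+* F) a) = a := hσ2 a
    rw [h1]
    exact Algebra.commutes _ _

theorem kd_st [Finite F] (hσ2 : ∀ a, σ (σ a) = a) (B : Matrix (Fin n) (Fin n) F) (f : Polynomial F) :
    kd (Matrix.toLin' (st σ B)) f = kd (Matrix.toLin' B) (f.map (σ : F →+* F)) := by
  have h1 := kd_toLin (st σ B) f
  have h2 := kd_toLin B (f.map (σ : F →+* F))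
  rw [aeval_st hσ2, rank_st] at h1
  omega

theorem kd_stI [Finite F] {r p j : ℕ} [Fact p.Prime] [CharP F p] (hr : r.Prime) (hrp : r ≠ p)
    (hσ2 : ∀ a, σ (σ a) = a) (hσ : ∀ a, σ a = a ^ (p ^ j)) {A : GL (Fin n) F} (hA : A ^ r = 1)
    (k s : (ZMod r)ˣ) (hs : (s : ZMod r) = ((p ^ j : ℕ) : ZMod r)) :
    kd (glE n F (stI σ n A)) (pol F r k) = kd (glE n F A) (pol F r (k * -s)) := by
  haveI : NeZero r := ⟨hr.ne_zero⟩
  haveI : Fact r.Prime := ⟨hr⟩
  rw [glE_apply, stI_val, kd_st hσ2, map_pol (p := p) hr hrp σ hσ k s hs]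
  have hAT : (glE n F A) ^ r = 1 := by rw [← map_pow, hA, map_one]
  have h1 := kd_pow (p := p) hr hrp (k * -s) (-1) hAT
  rw [← h1]
  have h2 : k * -s * -1 = k * s := by
    rw [mul_neg, mul_neg, neg_mul, neg_neg, mul_one]
  rw [h2]
  congr 1
  have h3 := val_neg_one_unit hr.pos
  rw [h3, ← map_pow]
  have h4 : A ^ (r - 1) = A⁻¹ := by
    rw [eq_inv_iff_mul_eq_one, ← pow_succ, Nat.sub_add_cancel hr.one_le, hA]
  rw [h4]
  rfl

end KdSt

end Cfsg.Agent.Lib.Herm
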