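import Mathlib
import Cfsg.Agent.Lib.BForm3
import Cfsg.Agent.Lib.Symp
import Cfsg.Agent.Lib.RCF18

/-! Semisimple elements of symplectic groups. -/

set_option linter.all false
set_option maxHeartbeats 400000

namespace Cfsg.Agent.Lib.BForm

open Cfsg.Agent.Lib.Symp Matrix

section Sp

variable {F : Type*} [Field F] {m : ℕ}

theorem spE_symplectic {e : (Fin m ⊕ Fin m → F) ≃ₗ[F] (Fin m ⊕ Fin m → F)}
    (he : ∀ x y, sympBilin m F (e x) (e y) = sympBilin m F x y) :
    ∃ s : Matrix.symplecticGroup (Fin m) F, ∀ x, (s : Matrix (Fin m ⊕ Fin m) (Fin m ⊕ Fin m) F) *ᵥ x = e x := by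
  have h1 : ∀ x, (LinearMap.toMatrix' (e : (Fin m ⊕ Fin m → F) →ₗ[F] (Fin m ⊕ Fin m → F))) *ᵥ x = e x := by
    intro x
    rw [← Matrix.toLin'_apply, Matrix.toLin'_toMatrix']
    rfl
  refine ⟨⟨LinearMap.toMatrix' (e : (Fin m ⊕ Fin m → F) →ₗ[F] (Fin m ⊕ Fin m → F)), ?_⟩, h1⟩
  rw [mem_iff_preserves]
  intro u v
  rw [h1, h1]
  exact he u v

theorem sp_isConj_of {g h : Matrix.symplecticGroup (Fin m) F} {e : (Fin m ⊕ Fin m → F) ≃ₗ[F] (Fin m ⊕ Fin m → F)}
    (he : ∀ x y, sympBilin m F (e x) (e y) = sympBilin m F x y)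
    (hgh : ∀ x, e ((g : Matrix (Fin m ⊕ Fin m) (Fin m ⊕ Fin m) F) *ᵥ x) = (h : Matrix (Fin m ⊕ Fin m) (Fin m ⊕ Fin m) F) *ᵥ (e x)) :
    IsConj g h := by
  obtain ⟨s, hs⟩ := spE_symplectic he
  rw [isConj_iff]
  refine ⟨s, ?_⟩
  rw [mul_inv_eq_iff_eq_mul]
  apply Subtype.ext
  apply ext_mulVec
  intro x
  show ((s : Matrix (Fin m ⊕ Fin m) (Fin m ⊕ Fin m) F) * (g : Matrix (Fin m ⊕ Fin m) (Fin m ⊕ Fin m) F)) *ᵥ x =
    ((h : Matrix (Fin m ⊕ Fin m) (Fin m ⊕ Fin m) F) * (s : Matrix (Fin m ⊕ Fin m) (Fin m ⊕ Fin m) F)) *ᵥ x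
  rw [← Matrix.mulVec_mulVec, ← Matrix.mulVec_mulVec, hs, hs, hgh]

/-- `Sp` acting as endomorphisms -/
def spE (m : ℕ) (F : Type*) [Field F] : Matrix.symplecticGroup (Fin m) F →* Module.End F (Fin m ⊕ Fin m → F) :=
  ((Matrix.toLinAlgEquiv' : Matrix (Fin m ⊕ Fin m) (Fin m ⊕ Fin m) F ≃ₐ[F] _) : Matrix (Fin m ⊕ Fin m) (Fin m ⊕ Fin m) F →*
    Module.End F (Fin m ⊕ Fin m → F)).comp (Matrix.symplecticGroup (Fin m) F).subtype

theorem spE_apply (g : Matrix.symplecticGroup (Fin m) F) (x : Fin m ⊕ Fin m → F) :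
    spE m F g x = (g : Matrix (Fin m ⊕ Fin m) (Fin m ⊕ Fin m) F) *ᵥ x := rfl

theorem spE_inj : Function.Injective (spE m F) := by
  intro g h hgh
  apply Subtype.ext
  exact (Matrix.toLinAlgEquiv' : Matrix (Fin m ⊕ Fin m) (Fin m ⊕ Fin m) F ≃ₐ[F] _).injective hgh

theorem spE_form (g : Matrix.symplecticGroup (Fin m) F) (x y : Fin m ⊕ Fin m → F) :
    sympBilin m F (spE m F g x) (spE m F g y) = sympBilin m F x y :=
  (mem_iff_preserves _).mp g.2 x y

/-- semisimple elements of `Sp` conjugate in `GL` are conjugate in `Sp` -/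
theorem sp_conj [Finite F] {p : ℕ} [Fact p.Prime] [CharP F p] {g h : Matrix.symplecticGroup (Fin m) F}
    (hg : (orderOf g).Coprime p) (k : (Fin m ⊕ Fin m → F) ≃ₗ[F] (Fin m ⊕ Fin m → F))
    (hk : ∀ x, k (spE m F g x) = spE m F h (k x)) : IsConj g h := by
  classical
  set B := sympBilin m F with hB
  have hnd : B.Nondegenerate := sympBilin_nondegenerate
  have hat : B.IsAlt := sympBilin_isAlt
  set C : LinearMap.BilinForm F (Fin m ⊕ Fin m → F) := B.comp k.toLinearMap k.toLinearMap with hC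
  have hCa : ∀ x y, C x y = B (k x) (k y) := fun x y => rfl
  have hCnd : C.Nondegenerate := by
    constructor
    · intro x hx
      have h1 : k x = 0 := by
        apply hnd.1
        intro y
        obtain ⟨z, rfl⟩ := k.surjective y
        exact hx z
      rwa [map_eq_zero_iff k k.injective] at h1
    · intro x hx
      have h1 : k x = 0 := by
        apply hnd.2
        intro y
        obtain ⟨z, rfl⟩ := k.surjective y
        exact hx z
      rwa [map_eq_zero_iff k k.injective] at h1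
  have hCat : C.IsAlt := fun x => hat (k x)
  obtain ⟨e, he1, he2⟩ := symp_eiso (p := p) hnd hCnd hat hCat (T := spE m F g) (spE_form g) (by
    intro x y
    rw [hCa, hk, hk, hCa]
    exact spE_form h _ _) hg (by rw [← map_pow, pow_orderOf_eq_one, map_one])
  apply sp_isConj_of (e := e.trans k)
  · intro x y
    show B (k (e x)) (k (e y)) = B x y
    rw [← hCa, he2]
  · intro x
    show k (e (spE m F g x)) = spE m F h (k (e x))
    rw [he1, hk]

end Sp

end Cfsg.Agent.Lib.BForm
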