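import Mathlib
import Cfsg.Agent.Lib.BForm4

/-! Existence of invariant alternating forms. -/

set_option linter.all false
set_option maxHeartbeats 400000

namespace Cfsg.Agent.Lib.BForm

open Cfsg.Agent.Lib.Symp Matrix Module

section Ex

variable {F V : Type*} [Field F] [AddCommGroup V] [Module F V] [FiniteDimensional F V]

theorem exists_inv_form {ι : Type*} [Fintype ι] [DecidableEq ι] [Finite F] {A A' : Matrix ι ι F} (hAA' : A * A' = 1)
    {Q : (Matrix ι ι F)ˣ} (hQ : (Q : Matrix ι ι F) * A = A' * Q) :
    ∃ B : LinearMap.BilinForm F (ι → F), B.Nondegenerate ∧ ∀ x y, B (A *ᵥ x) (A *ᵥ y) = B x y := by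
  obtain ⟨P, hP⟩ := RCF.conj_transpose A
  have hA'A : A' * A = 1 := mul_eq_one_comm.mp hAA'
  -- `Aᵀ (P Q) A = P Q`
  have hM : A.transpose * ((P : Matrix ι ι F) * Q) * A = (P : Matrix ι ι F) * Q := by
    have h1 : (Q : Matrix ι ι F) * A = A' * Q := hQ
    calc A.transpose * ((P : Matrix ι ι F) * Q) * A = (A.transpose * P) * (Q * A) := by simp only [mul_assoc]
      _ = (P * A) * (A' * Q) := by rw [← hP, h1]
      _ = P * (A * A') * Q := by simp only [mul_assoc]
      _ = _ := by rw [hAA', mul_one]
  refine ⟨Matrix.toBilin' ((P : Matrix ι ι F) * Q), ?_, ?_⟩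
  · rw [Matrix.nondegenerate_toBilin'_iff]
    apply Matrix.nondegenerate_of_det_ne_zero
    rw [Matrix.det_mul]
    exact mul_ne_zero (((Matrix.isUnit_iff_isUnit_det _).mp P.isUnit).ne_zero) (((Matrix.isUnit_iff_isUnit_det _).mp Q.isUnit).ne_zero)
  · intro x y
    rw [Matrix.toBilin'_apply', Matrix.toBilin'_apply', Matrix.mulVec_mulVec, Matrix.dotProduct_mulVec, Matrix.vecMul_mulVec,
      ← Matrix.dotProduct_mulVec, ← mul_assoc, hM]

theorem sum_form {T : V →ₗ[F] V} {U U' : Submodule F V} (hc : IsCompl U U')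
    (TU : U →ₗ[F] U) (hTU : ∀ x : U, (TU x : V) = T x) (TU' : U' →ₗ[F] U') (hTU' : ∀ x : U', (TU' x : V) = T x)
    (h1 : ∃ C : LinearMap.BilinForm F U, C.Nondegenerate ∧ C.IsAlt ∧ ∀ x y, C (TU x) (TU y) = C x y)
    (h2 : ∃ C : LinearMap.BilinForm F U', C.Nondegenerate ∧ C.IsAlt ∧ ∀ x y, C (TU' x) (TU' y) = C x y) :
    ∃ C : LinearMap.BilinForm F V, C.Nondegenerate ∧ C.IsAlt ∧ ∀ x y, C (T x) (T y) = C x y := by
  obtain ⟨C1, h1a, h1b, h1c⟩ := h1
  obtain ⟨C2, h2a, h2b, h2c⟩ := h2
  let e := Submodule.prodEquivOfIsCompl U U' hc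
  have he : ∀ x : U × U', e x = x.1 + x.2 := fun x => rfl
  let p1 : V →ₗ[F] U := LinearMap.fst F U U' ∘ₗ e.symm.toLinearMap
  let p2 : V →ₗ[F] U' := LinearMap.snd F U U' ∘ₗ e.symm.toLinearMap
  have hp1 : ∀ (x : U) (y : U'), p1 ((x : V) + (y : V)) = x := by
    intro x y
    show (e.symm (e (x, y))).1 = x
    rw [e.symm_apply_apply]
  have hp2 : ∀ (x : U) (y : U'), p2 ((x : V) + (y : V)) = y := by
    intro x y
    show (e.symm (e (x, y))).2 = y
    rw [e.symm_apply_apply]
  have hdec : ∀ v : V, ∃ (x : U) (y : U'), v = x + y := by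
    intro v
    exact ⟨(e.symm v).1, (e.symm v).2, (e.apply_symm_apply v).symm⟩
  let C : LinearMap.BilinForm F V := C1.comp p1 p1 + C2.comp p2 p2
  have hC : ∀ (x x' : U) (y y' : U'), C ((x : V) + y) ((x' : V) + y') = C1 x x' + C2 y y' := by
    intro x x' y y'
    show C1 (p1 _) (p1 _) + C2 (p2 _) (p2 _) = _
    rw [hp1, hp1, hp2, hp2]
  refine ⟨C, ⟨?_, ?_⟩, ?_, ?_⟩
  · intro v hv
    obtain ⟨x, y, rfl⟩ := hdec v
    have hx : x = 0 := by
      apply h1a.1
      intro x'
      have := hv ((x' : V) + ((0 : U') : V))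
      rw [hC, map_zero, add_zero] at this
      exact this
    have hy : y = 0 := by
      apply h2a.1
      intro y'
      have := hv (((0 : U) : V) + (y' : V))
      rw [hC, map_zero, zero_add] at this
      exact this
    rw [hx, hy, Submodule.coe_zero, Submodule.coe_zero, add_zero]
  · intro v hv
    obtain ⟨x, y, rfl⟩ := hdec v
    have hx : x = 0 := by
      apply h1a.2
      intro x'
      have := hv ((x' : V) + ((0 : U') : V))
      rw [hC, map_zero, LinearMap.zero_apply, add_zero] at this
      exact this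
    have hy : y = 0 := by
      apply h2a.2
      intro y'
      have := hv (((0 : U) : V) + (y' : V))
      rw [hC, map_zero, LinearMap.zero_apply, zero_add] at this
      exact this
    rw [hx, hy, Submodule.coe_zero, Submodule.coe_zero, add_zero]
  · intro v
    obtain ⟨x, y, rfl⟩ := hdec v
    rw [hC, h1b, h2b, add_zero]
  · intro v w
    obtain ⟨x, y, rfl⟩ := hdec v
    obtain ⟨x', y', rfl⟩ := hdec w
    have e1 : T ((x : V) + (y : V)) = (TU x : V) + (TU' y : V) := by rw [map_add, hTU, hTU']
    have e2 : T ((x' : V) + (y' : V)) = (TU x' : V) + (TU' y' : V) := by rw [map_add, hTU, hTU']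
    rw [e1, e2, hC, hC, h1c, h2c]

theorem exists_alt_of_even (h : Even (finrank F V)) : ∃ C : LinearMap.BilinForm F V, C.Nondegenerate ∧ C.IsAlt := by
  obtain ⟨m, hm⟩ := h
  have hfr : finrank F V = finrank F (Fin m ⊕ Fin m → F) := by
    rw [Module.finrank_fintype_fun_eq_card, Fintype.card_sum, Fintype.card_fin, hm]
  let e := LinearEquiv.ofFinrankEq _ _ hfr
  have hnd := sympBilin_nondegenerate (m := m) (F := F)
  refine ⟨(sympBilin m F).comp e.toLinearMap e.toLinearMap, ⟨?_, ?_⟩, fun x => sympBilin_isAlt (e x)⟩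
  · intro x hx
    have h1 : e x = 0 := by
      apply hnd.1
      intro y
      obtain ⟨z, rfl⟩ := e.surjective y
      exact hx z
    rwa [map_eq_zero_iff e e.injective] at h1
  · intro x hx
    have h1 : e x = 0 := by
      apply hnd.2
      intro y
      obtain ⟨z, rfl⟩ := e.surjective y
      exact hx z
    rwa [map_eq_zero_iff e e.injective] at h1

theorem nondeg_comp {W : Type*} [AddCommGroup W] [Module F W] {B : LinearMap.BilinForm F W} (hB : B.Nondegenerate) (e : V ≃ₗ[F] W) :
    (B.comp e.toLinearMap e.toLinearMap).Nondegenerate := by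
  constructor
  · intro x hx
    have h1 : e x = 0 := by
      apply hB.1
      intro y
      obtain ⟨z, rfl⟩ := e.surjective y
      exact hx z
    rwa [map_eq_zero_iff e e.injective] at h1
  · intro x hx
    have h1 : e x = 0 := by
      apply hB.2
      intro y
      obtain ⟨z, rfl⟩ := e.surjective y
      exact hx z
    rwa [map_eq_zero_iff e e.injective] at h1

/-- existence of an invariant alternating form for a semisimple operator without eigenvalue `1` -/
theorem exists_alt_aux [Finite F] {p : ℕ} [Fact p.Prime] [CharP F p] {B : LinearMap.BilinForm F V} (hB : B.Nondegenerate)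
    {T : V →ₗ[F] V} (hTB : ∀ x y, B (T x) (T y) = B x y) {N : ℕ} (hN : N.Coprime p) (hT : T ^ N = 1)
    (h1 : ∀ x, T x = x → x = 0) (h2 : Even (finrank F (LinearMap.ker (T - algebraMap F (Module.End F V) (-1))))) :
    ∃ C : LinearMap.BilinForm F V, C.Nondegenerate ∧ C.IsAlt ∧ ∀ x y, C (T x) (T y) = C x y := by
  classical
  set P : V →ₗ[F] V := T - algebraMap F (Module.End F V) (-1) with hP
  have hPa : ∀ x, P x = T x + x := by
    intro x
    rw [hP, LinearMap.sub_apply, Module.algebraMap_end_apply, neg_smul, one_smul, sub_neg_eq_add]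
  have hPpol : P = Polynomial.aeval T (Polynomial.X - Polynomial.C (-1 : F)) := by
    rw [map_sub, Polynomial.aeval_X, Polynomial.aeval_C]
  have hPP : ∀ x, P (P x) = 0 → P x = 0 := by
    intro x hx
    rw [hPpol] at hx ⊢
    exact semisimple_ker (p := p) hN hT _ hx
  have hc := isCompl_ker_range hPP
  have hoB := orth_ker_range hTB (-1) (by ring)
  have hinvk : ∀ x ∈ LinearMap.ker P, T x ∈ LinearMap.ker P := by
    intro x hx
    rw [LinearMap.mem_ker, hPa] at hx ⊢
    rw [← map_add, hx, map_zero]
  have hinvr : ∀ x ∈ LinearMap.range P, T x ∈ LinearMap.range P := by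
    rintro _ ⟨x, rfl⟩
    refine ⟨T x, ?_⟩
    rw [hPa, hPa, map_add]
  apply sum_form hc (T.restrict hinvk) (fun x => rfl) (T.restrict hinvr) (fun x => rfl)
  · obtain ⟨C, hC, hCa⟩ := exists_alt_of_even h2
    refine ⟨C, hC, hCa, ?_⟩
    have hneg : ∀ v : LinearMap.ker P, (T.restrict hinvk) v = -v := by
      intro v
      apply Subtype.ext
      have h2 := v.2
      rw [LinearMap.mem_ker, hPa] at h2
      show T (v : V) = -(v : V)
      rw [eq_neg_iff_add_eq_zero]
      exact h2
    intro x y
    rw [hneg, hneg, map_neg, map_neg, LinearMap.neg_apply, neg_neg]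
  · have hunit : IsUnit ((T.restrict hinvr) * (T.restrict hinvr) - 1) := by
      apply isUnit_of_inj
      intro x hx
      have hx' : T (T (x : V)) - (x : V) = 0 := congrArg Subtype.val hx
      have h2 : T (P (x : V)) = P (x : V) := by
        rw [hPa, map_add, sub_eq_zero.mp hx', add_comm]
      have h3 := h1 _ h2
      have h4 : (x : V) ∈ LinearMap.ker P := h3
      apply Subtype.ext
      have h5 := hc.disjoint
      rw [Submodule.disjoint_def] at h5
      exact h5 _ h4 x.2
    exact exists_alt_form (B := B.restrict (LinearMap.range P))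
      (nondeg_restrict hB hc.symm (fun x hx y hy => ((hoB y hy x hx).symm))) (T := T.restrict hinvr) (fun x y => hTB _ _) hunit

theorem restrict_pow {T : V →ₗ[F] V} {U : Submodule F V} (h : ∀ x ∈ U, T x ∈ U) {N : ℕ} (hT : T ^ N = 1) :
    (T.restrict h) ^ N = 1 := by
  apply LinearMap.ext
  intro x
  apply Subtype.ext
  have h3 : ∀ k : ℕ, ((((T.restrict h) ^ k) x : U) : V) = (T ^ k) (x : V) := by
    intro k
    induction k with
    | zero => rfl
    | succ k ih =>
      rw [pow_succ', pow_succ']
      show T (((T.restrict h) ^ k) x : V) = T ((T ^ k) (x : V))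
      rw [ih]
  rw [h3, hT]
  rfl

/-- existence of an invariant alternating form for a semisimple operator -/
theorem exists_alt_ss [Finite F] {p : ℕ} [Fact p.Prime] [CharP F p] {B : LinearMap.BilinForm F V} (hB : B.Nondegenerate)
    {T : V →ₗ[F] V} (hTB : ∀ x y, B (T x) (T y) = B x y) {N : ℕ} (hN : N.Coprime p) (hT : T ^ N = 1)
    (h1 : Even (finrank F V))
    (h2 : (2 : F) ≠ 0 → Even (finrank F (LinearMap.ker (T - algebraMap F (Module.End F V) (-1))))) :
    ∃ C : LinearMap.BilinForm F V, C.Nondegenerate ∧ C.IsAlt ∧ ∀ x y, C (T x) (T y) = C x y := by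
  classical
  set P : V →ₗ[F] V := T - algebraMap F (Module.End F V) 1 with hP
  have hPa : ∀ x, P x = T x - x := by
    intro x
    rw [hP, LinearMap.sub_apply, Module.algebraMap_end_apply, one_smul]
  have hPpol : P = Polynomial.aeval T (Polynomial.X - Polynomial.C (1 : F)) := by
    rw [map_sub, Polynomial.aeval_X, Polynomial.aeval_C]
  have hPP : ∀ x, P (P x) = 0 → P x = 0 := by
    intro x hx
    rw [hPpol] at hx ⊢
    exact semisimple_ker (p := p) hN hT _ hx
  have hc := isCompl_ker_range hPP
  have hoB := orth_ker_range hTB 1 (by ring)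
  have hinvk : ∀ x ∈ LinearMap.ker P, T x ∈ LinearMap.ker P := by
    intro x hx
    rw [LinearMap.mem_ker, hPa] at hx ⊢
    rw [← map_sub, hx, map_zero]
  have hinvr : ∀ x ∈ LinearMap.range P, T x ∈ LinearMap.range P := by
    rintro _ ⟨x, rfl⟩
    refine ⟨T x, ?_⟩
    rw [hPa, hPa, map_sub]
  have hfix : ∀ x : LinearMap.range P, (T.restrict hinvr) x = x → x = 0 := by
    intro x hx
    have hx' : T (x : V) = (x : V) := congrArg Subtype.val hx
    have h4 : (x : V) ∈ LinearMap.ker P := by rw [LinearMap.mem_ker, hPa, hx', sub_self]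
    apply Subtype.ext
    have h5 := hc.disjoint
    rw [Submodule.disjoint_def] at h5
    exact h5 _ h4 x.2
  have hrange : ∃ C : LinearMap.BilinForm F (LinearMap.range P), C.Nondegenerate ∧ C.IsAlt ∧
      ∀ x y, C ((T.restrict hinvr) x) ((T.restrict hinvr) y) = C x y := by
    apply exists_alt_aux (p := p) (B := B.restrict (LinearMap.range P))
      (nondeg_restrict hB hc.symm (fun x hx y hy => ((hoB y hy x hx).symm))) (T := T.restrict hinvr) (fun x y => hTB _ _)
      hN (restrict_pow hinvr hT) hfix
    by_cases h20 : (2 : F) = 0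
    · -- characteristic 2: no eigenvalue
      have : LinearMap.ker ((T.restrict hinvr) - algebraMap F (Module.End F (LinearMap.range P)) (-1)) = ⊥ := by
        rw [LinearMap.ker_eq_bot']
        intro x hx
        apply hfix
        rw [LinearMap.sub_apply, sub_eq_zero, Module.algebraMap_end_apply] at hx
        rw [hx]
        have h3 : (-1 : F) = 1 := by
          have : (1 : F) + 1 = 0 := by rw [← h20]; norm_num
          exact neg_eq_of_add_eq_zero_left this
        rw [h3, one_smul]
      rw [this, finrank_bot]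
      exact Even.zero
    · have h3 := h2 h20
      have h4 : finrank F (LinearMap.ker ((T.restrict hinvr) - algebraMap F (Module.End F (LinearMap.range P)) (-1))) =
          finrank F (LinearMap.ker (T - algebraMap F (Module.End F V) (-1))) := by
        apply LinearEquiv.finrank_eq
        have hmem : ∀ x ∈ LinearMap.ker (T - algebraMap F (Module.End F V) (-1)), x ∈ LinearMap.range P := by
          intro x hx
          rw [LinearMap.mem_ker, LinearMap.sub_apply, sub_eq_zero, Module.algebraMap_end_apply, neg_smul, one_smul] at hx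
          refine ⟨(-(2 : F)⁻¹) • x, ?_⟩
          rw [hPa, map_smul, hx]
          rw [smul_neg, neg_smul, neg_neg, sub_neg_eq_add, ← add_smul]
          have : (2 : F)⁻¹ + (2 : F)⁻¹ = 1 := by
            rw [← two_mul, mul_inv_cancel₀ h20]
          rw [this, one_smul]
        exact
          { toFun := fun x => ⟨((x : LinearMap.range P) : V), by
              have h5 := x.2
              rw [LinearMap.mem_ker, LinearMap.sub_apply, sub_eq_zero, Module.algebraMap_end_apply] at h5
              rw [LinearMap.mem_ker, LinearMap.sub_apply, sub_eq_zero, Module.algebraMap_end_apply]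
              exact congrArg Subtype.val h5⟩
            invFun := fun y => ⟨⟨(y : V), hmem _ y.2⟩, by
              have h5 := y.2
              rw [LinearMap.mem_ker, LinearMap.sub_apply, sub_eq_zero, Module.algebraMap_end_apply] at h5
              rw [LinearMap.mem_ker, LinearMap.sub_apply, sub_eq_zero, Module.algebraMap_end_apply]
              exact Subtype.ext h5⟩
            left_inv := fun x => rfl
            right_inv := fun y => rfl
            map_add' := fun x y => rfl
            map_smul' := fun c x => rfl }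
      rw [h4]
      exact h3
  obtain ⟨C2, hC2a, hC2b, hC2c⟩ := hrange
  have heven : Even (finrank F (LinearMap.ker P)) := by
    have h3 := Alt.even_finrank C2 hC2b hC2a
    have h4 := LinearMap.finrank_range_add_finrank_ker P
    rw [← h4, Nat.even_add] at h1
    exact h1.mp h3
  apply sum_form hc (T.restrict hinvk) (fun x => rfl) (T.restrict hinvr) (fun x => rfl)
  · obtain ⟨C, hC, hCa⟩ := exists_alt_of_even heven
    refine ⟨C, hC, hCa, ?_⟩
    have hneg : ∀ v : LinearMap.ker P, (T.restrict hinvk) v = v := by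
      intro v
      apply Subtype.ext
      have h2 := v.2
      rw [LinearMap.mem_ker, hPa] at h2
      show T (v : V) = (v : V)
      rw [← sub_eq_zero]
      exact h2
    intro x y
    rw [hneg, hneg]
  · exact ⟨C2, hC2a, hC2b, hC2c⟩

/-- an operator with an invariant alternating form is similar to a symplectic matrix -/
theorem exists_sp {m : ℕ} (hm : finrank F V = 2 * m) {C : LinearMap.BilinForm F V} (hC : C.Nondegenerate) (hCa : C.IsAlt)
    {T : V →ₗ[F] V} (hT : ∀ x y, C (T x) (T y) = C x y) :
    ∃ (g : Matrix.symplecticGroup (Fin m) F) (k : V ≃ₗ[F] (Fin m ⊕ Fin m → F)), ∀ v, k (T v) = spE m F g (k v) := by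
  obtain ⟨k, hk⟩ := alt_iso hC (sympBilin_nondegenerate (m := m) (F := F)) hCa sympBilin_isAlt (by
    rw [hm, Module.finrank_fintype_fun_eq_card, Fintype.card_sum, Fintype.card_fin]; ring)
  obtain ⟨U, hU⟩ := isUnit_isometry hC hT
  let t : V ≃ₗ[F] V := LinearEquiv.ofLinear T ((U⁻¹ : (Module.End F V)ˣ) : Module.End F V) (by
    have : T * ((U⁻¹ : (Module.End F V)ˣ) : Module.End F V) = 1 := by rw [← hU]; exact U.mul_inv
    exact this) (by
    have : ((U⁻¹ : (Module.End F V)ˣ) : Module.End F V) * T = 1 := by rw [← hU]; exact U.inv_mul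
    exact this)
  obtain ⟨g, hg⟩ := spE_symplectic (e := (k.symm.trans t).trans k) (by
    intro x y
    show sympBilin m F (k (T (k.symm x))) (k (T (k.symm y))) = _
    rw [hk, hT, ← hk, k.apply_symm_apply, k.apply_symm_apply])
  refine ⟨g, k, ?_⟩
  intro v
  rw [spE_apply, hg]
  show _ = k (T (k.symm (k v)))
  rw [k.symm_apply_apply]

end Ex

end Cfsg.Agent.Lib.BForm
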