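import Mathlib
import Cfsg.Agent.Lib.BForm6
import Cfsg.Agent.Lib.Herm18

/-! Elements of prime order of symplectic groups. -/

set_option linter.all false
set_option maxHeartbeats 400000

namespace Cfsg.Agent.Lib.BForm

open Cfsg.Agent.Lib.Symp Matrix Module Cfsg.Agent.Lib.RCF

section Kd

variable {F V : Type*} [Field F] [AddCommGroup V] [Module F V] [FiniteDimensional F V]

theorem aeval_adj {B : LinearMap.BilinForm F V} (hB : B.Nondegenerate) (T : V →ₗ[F] V) (f : Polynomial F) :
    Polynomial.aeval (adj hB T) f = adj hB (Polynomial.aeval T f) := by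
  induction f using Polynomial.induction_on' with
  | add a b ha hb => rw [map_add, map_add, adj_add, ha, hb]
  | monomial n a =>
    rw [Polynomial.aeval_monomial, Polynomial.aeval_monomial, adj_mul, adj_algebraMap]
    have h1 : ∀ k : ℕ, adj hB (T ^ k) = (adj hB T) ^ k := by
      intro k
      induction k with
      | zero => rw [pow_zero, pow_zero, adj_one]
      | succ k ih => rw [pow_succ, pow_succ', adj_mul, ih]
    rw [h1]
    exact Algebra.commutes _ _

theorem finrank_ker_adj {B : LinearMap.BilinForm F V} (hB : B.Nondegenerate) (f : V →ₗ[F] V) :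
    finrank F (LinearMap.ker (adj hB f)) = finrank F (LinearMap.ker f) := by
  have h1 : LinearMap.ker (adj hB f) = B.orthogonal (LinearMap.range f) := by
    ext y
    rw [LinearMap.mem_ker, LinearMap.BilinForm.mem_orthogonal_iff]
    constructor
    · rintro h _ ⟨x, rfl⟩
      show B (f x) y = 0
      rw [adj_spec hB, h, map_zero]
    · intro h
      apply right_inj hB
      intro x
      rw [← adj_spec, map_zero]
      exact h _ ⟨x, rfl⟩
  rw [h1, LinearMap.BilinForm.finrank_orthogonal hB (LinearMap.range f)]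
  have := LinearMap.finrank_range_add_finrank_ker f
  omega

theorem kd_adj {B : LinearMap.BilinForm F V} (hB : B.Nondegenerate) (T : V →ₗ[F] V) (f : Polynomial F) :
    kd (adj hB T) f = kd T f := by
  unfold kd
  rw [aeval_adj, finrank_ker_adj hB]

theorem kd_neg_of_form {r p : ℕ} [Fact p.Prime] [CharP F p] (hr : r.Prime) (hrp : r ≠ p) {B : LinearMap.BilinForm F V}
    (hB : B.Nondegenerate) {T : V →ₗ[F] V} (hT : ∀ x y, B (T x) (T y) = B x y) (hTr : T ^ r = 1)
    (k : (ZMod r)ˣ) : kd T (pol F r (k * -1)) = kd T (pol F r k) := by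
  have h1 := kd_pow (p := p) hr hrp k (-1) hTr
  rw [val_neg_one_unit hr.pos] at h1
  have h2 : adj hB T = T ^ (r - 1) := by
    apply adj_eq
    intro x y
    rw [← hT x ((T ^ (r - 1)) y)]
    congr 1
    have h3 : T * T ^ (r - 1) = 1 := by rw [← pow_succ', Nat.sub_add_cancel hr.one_le, hTr]
    exact (LinearMap.congr_fun h3 y).symm
  rw [← h2, kd_adj hB] at h1
  exact h1

/-- similar to the inverse -/
theorem similar_inv_of_kd [Finite F] {r p : ℕ} [Fact p.Prime] [CharP F p] (hr : r.Prime) (hrp : r ≠ p) {T : V →ₗ[F] V}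
    (hTr : T ^ r = 1) (h : ∀ k, kd T (pol F r (k * -1)) = kd T (pol F r k)) :
    ∃ g : V ≃ₗ[F] V, ∀ v, g (T v) = (T ^ (r - 1)) (g v) := by
  apply similar_of_kd (p := p) hr hrp hTr (by rw [← pow_mul, mul_comm, pow_mul, hTr, one_pow]) rfl
  intro π hπ
  obtain ⟨k, rfl⟩ := pol_surj (p := p) hr hrp hπ
  have h1 := kd_pow (p := p) hr hrp (k * -1) (-1) hTr
  rw [val_neg_one_unit hr.pos, mul_assoc, neg_one_mul, neg_neg, mul_one, h] at h1
  exact h1.symm

end Kd

section SpR

variable {F : Type*} [Field F] [Finite F] {m r p : ℕ} [Fact p.Prime] [CharP F p]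

theorem exists_sp_of_kd (hr : r.Prime) (hr2 : r ≠ 2) (hrp : r ≠ p) {T : (Fin m ⊕ Fin m → F) →ₗ[F] (Fin m ⊕ Fin m → F)}
    (hTr : T ^ r = 1) (h : ∀ k, kd T (pol F r (k * -1)) = kd T (pol F r k)) :
    ∃ (g : Matrix.symplecticGroup (Fin m) F) (k : (Fin m ⊕ Fin m → F) ≃ₗ[F] (Fin m ⊕ Fin m → F)), ∀ v, k (T v) = spE m F g (k v) := by
  classical
  obtain ⟨g, hg⟩ := similar_inv_of_kd (p := p) hr hrp hTr h
  set A := LinearMap.toMatrix' T with hA
  have hAT : ∀ x, A *ᵥ x = T x := by
    intro x
    rw [← Matrix.toLin'_apply, hA, Matrix.toLin'_toMatrix']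
  have hApow : ∀ k x, (A ^ k) *ᵥ x = (T ^ k) x := by
    intro k
    induction k with
    | zero => intro x; rw [pow_zero, Matrix.one_mulVec]; rfl
    | succ k ih =>
      intro x
      rw [pow_succ, ← Matrix.mulVec_mulVec, ih, hAT, pow_succ]
      rfl
  have hAA' : A * A ^ (r - 1) = 1 := by
    rw [← pow_succ', Nat.sub_add_cancel hr.one_le]
    apply ext_mulVec
    intro x
    rw [hApow, hTr, Matrix.one_mulVec]
    rfl
  -- the matrix of `g`
  let Q : (Matrix (Fin m ⊕ Fin m) (Fin m ⊕ Fin m) F)ˣ := ⟨LinearMap.toMatrix' g.toLinearMap, LinearMap.toMatrix' g.symm.toLinearMap,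
    by rw [← LinearMap.toMatrix'_comp, LinearEquiv.comp_symm, LinearMap.toMatrix'_id],
    by rw [← LinearMap.toMatrix'_comp, LinearEquiv.symm_comp, LinearMap.toMatrix'_id]⟩
  have hQa : ∀ x, (Q : Matrix (Fin m ⊕ Fin m) (Fin m ⊕ Fin m) F) *ᵥ x = g x := by
    intro x
    show (LinearMap.toMatrix' g.toLinearMap) *ᵥ x = g x
    rw [← Matrix.toLin'_apply, Matrix.toLin'_toMatrix']
    rfl
  have hQ : (Q : Matrix (Fin m ⊕ Fin m) (Fin m ⊕ Fin m) F) * A = A ^ (r - 1) * Q := by
    apply ext_mulVec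
    intro x
    rw [← Matrix.mulVec_mulVec, ← Matrix.mulVec_mulVec, hQa, hQa, hAT, hApow, hg]
  obtain ⟨B, hB, hBT⟩ := exists_inv_form hAA' hQ
  have hBT' : ∀ x y, B (T x) (T y) = B x y := by
    intro x y
    rw [← hAT, ← hAT, hBT]
  have hfr : finrank F (Fin m ⊕ Fin m → F) = 2 * m := by
    rw [Module.finrank_fintype_fun_eq_card, Fintype.card_sum, Fintype.card_fin]; ring
  obtain ⟨C, hC, hCa, hCT⟩ := exists_alt_ss (p := p) hB hBT' ((Nat.coprime_primes hr Fact.out).mpr hrp) hTr (by rw [hfr]; exact even_two_mul m) (by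
    intro h2
    have : LinearMap.ker (T - algebraMap F (Module.End F (Fin m ⊕ Fin m → F)) (-1)) = ⊥ := by
      rw [LinearMap.ker_eq_bot']
      intro x hx
      rw [LinearMap.sub_apply, sub_eq_zero, Module.algebraMap_end_apply, neg_smul, one_smul] at hx
      have h3 : ∀ j : ℕ, (T ^ (2 * j)) x = x := by
        intro j
        induction j with
        | zero => rfl
        | succ j ih =>
          have e : 2 * (j + 1) = 2 * j + 1 + 1 := by ring
          rw [e, pow_succ, pow_succ]
          show (T ^ (2 * j)) (T (T x)) = x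
          rw [hx, map_neg, hx, neg_neg, ih]
      have hodd : Odd r := hr.odd_of_ne_two hr2
      obtain ⟨j, hj⟩ := hodd
      have h4 : (T ^ r) x = x := by rw [hTr]; rfl
      rw [hj, pow_succ'] at h4
      have h5 : (T * T ^ (2 * j)) x = T ((T ^ (2 * j)) x) := rfl
      rw [h5, h3, hx] at h4
      have h6 : (2 : F) • x = 0 := by
        rw [two_smul]
        nth_rewrite 1 [← h4]
        exact neg_add_cancel x
      exact (smul_eq_zero.mp h6).resolve_left h2
    rw [this, finrank_bot]
    exact Even.zero)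
  exact exists_sp hfr hC hCa hCT

end SpR

end Cfsg.Agent.Lib.BForm
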