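import Mathlib
import Cfsg.Agent.Lib.BForm7

/-! Palindromic polynomials and semisimple classes of symplectic groups. -/

set_option linter.all false
set_option maxHeartbeats 400000

namespace Cfsg.Agent.Lib.BForm

open Cfsg.Agent.Lib.Symp Matrix Module Cfsg.Agent.Lib.RCF
open Polynomial (X C reverse)

section Pal

variable {F : Type*} [Field F]

/-- palindromic polynomials from coefficients -/
noncomputable def palOf (n : ℕ) (b : Fin n → F) : Polynomial F :=
  ∑ j ∈ Finset.range (2 * n + 1), Polynomial.monomial j
    (if h : min j (2 * n - j) = 0 then 1 else b ⟨min j (2 * n - j) - 1, by omega⟩)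

theorem palOf_coeff (n : ℕ) (b : Fin n → F) (j : ℕ) : (palOf n b).coeff j =
    if j < 2 * n + 1 then (if h : min j (2 * n - j) = 0 then 1 else b ⟨min j (2 * n - j) - 1, by omega⟩) else 0 := by
  unfold palOf
  rw [Polynomial.finset_sum_coeff]
  simp only [Polynomial.coeff_monomial]
  rw [Finset.sum_ite_eq']
  simp only [Finset.mem_range]

theorem palOf_coeff_zero (n : ℕ) (b : Fin n → F) : (palOf n b).coeff 0 = 1 := by
  rw [palOf_coeff, if_pos (by omega), dif_pos (by omega)]

theorem palOf_natDegree (n : ℕ) (b : Fin n → F) : (palOf n b).natDegree = 2 * n := by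
  apply le_antisymm
  · rw [Polynomial.natDegree_le_iff_coeff_eq_zero]
    intro N hN
    rw [palOf_coeff, if_neg (by omega)]
  · apply Polynomial.le_natDegree_of_ne_zero
    rw [palOf_coeff, if_pos (by omega), dif_pos (by omega)]
    exact one_ne_zero

theorem palOf_monic (n : ℕ) (b : Fin n → F) : (palOf n b).Monic := by
  unfold Polynomial.Monic Polynomial.leadingCoeff
  rw [palOf_natDegree, palOf_coeff, if_pos (by omega), dif_pos (by omega)]

theorem palOf_reverse (n : ℕ) (b : Fin n → F) : (palOf n b).reverse = palOf n b := by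
  ext j
  rw [Polynomial.coeff_reverse, palOf_natDegree]
  by_cases hj : j ≤ 2 * n
  · rw [Polynomial.revAt_le hj, palOf_coeff, palOf_coeff, if_pos (by omega), if_pos (by omega)]
    have h1 : min (2 * n - j) (2 * n - (2 * n - j)) = min j (2 * n - j) := by omega
    by_cases h : min j (2 * n - j) = 0
    · rw [dif_pos h, dif_pos (by omega)]
    · rw [dif_neg h, dif_neg (by omega)]
      congr 1
      apply Fin.ext
      show min (2 * n - j) (2 * n - (2 * n - j)) - 1 = min j (2 * n - j) - 1
      rw [h1]
  · rw [Polynomial.revAt_eq_self_of_lt (by omega)]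

theorem card_pal [Fintype F] (n : ℕ) :
    Nat.card {f : Polynomial F // f.Monic ∧ f.natDegree = 2 * n ∧ f.reverse = f} = Fintype.card F ^ n := by
  have h1 : Nat.card (Fin n → F) = Fintype.card F ^ n := by
    rw [Nat.card_eq_fintype_card, Fintype.card_fun, Fintype.card_fin]
  rw [← h1]
  apply Nat.card_congr
  exact
    { toFun := fun f i => f.1.coeff (i + 1)
      invFun := fun b => ⟨palOf n b, palOf_monic n b, palOf_natDegree n b, palOf_reverse n b⟩
      left_inv := by
        rintro ⟨f, hf1, hf2, hf3⟩
        apply Subtype.ext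
        show palOf n (fun i => f.coeff (i + 1)) = f
        have hsym : ∀ j ≤ 2 * n, f.coeff (2 * n - j) = f.coeff j := by
          intro j hj
          conv_rhs => rw [← hf3]
          rw [Polynomial.coeff_reverse, hf2, Polynomial.revAt_le hj]
        have htop : f.coeff (2 * n) = 1 := by
          have := hf1
          unfold Polynomial.Monic Polynomial.leadingCoeff at this
          rwa [hf2] at this
        ext j
        rw [palOf_coeff]
        split_ifs with h2 h3
        · rcases Nat.eq_zero_or_pos j with rfl | hj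
          · rw [← hsym 0 (by omega), Nat.sub_zero, htop]
          · have : j = 2 * n := by omega
            rw [this, htop]
        · show f.coeff (min j (2 * n - j) - 1 + 1) = f.coeff j
          rw [Nat.sub_add_cancel (by omega)]
          rcases le_total j (2 * n - j) with h4 | h4
          · rw [min_eq_left h4]
          · rw [min_eq_right h4]
            exact hsym j (by omega)
        · symm
          apply Polynomial.coeff_eq_zero_of_natDegree_lt
          omega
      right_inv := by
        intro b
        funext i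
        show (palOf n b).coeff ((i : ℕ) + 1) = b i
        have hi := i.2
        rw [palOf_coeff, if_pos (by omega), dif_neg (by omega)]
        congr 1
        apply Fin.ext
        show min ((i : ℕ) + 1) (2 * n - ((i : ℕ) + 1)) - 1 = (i : ℕ)
        omega }

theorem reverse_X_add_one_pow (k : ℕ) : ((X + C (1 : F)) ^ k).reverse = (X + C (1 : F)) ^ k := by
  have h1 : (X + C (1 : F)).reverse = X + C 1 := by
    have hd : (X + C (1 : F)).natDegree = 1 := Polynomial.natDegree_X_add_C 1
    ext j
    rw [Polynomial.coeff_reverse, hd]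
    rcases Nat.lt_or_ge j 2 with h | h
    · rw [Polynomial.revAt_le (by omega)]
      interval_cases j
      · simp [Polynomial.coeff_one]
      · simp [Polynomial.coeff_one]
    · rw [Polynomial.revAt_eq_self_of_lt (by omega)]
  induction k with
  | zero => rw [pow_zero, ← Polynomial.C_1, Polynomial.reverse_C]
  | succ k ih => rw [pow_succ, Polynomial.reverse_mul_of_domain, ih, h1]

theorem even_mult {n : ℕ} (h2 : (2 : F) ≠ 0) {f : Polynomial F} (hf : f ≠ 0) (hd : f.natDegree = 2 * n) (hr : f.reverse = f) :
    Even (f.rootMultiplicity (-1)) := by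
  obtain ⟨h, hh, hnd⟩ := Polynomial.exists_eq_pow_rootMultiplicity_mul_and_not_dvd f hf (-1)
  set μ := f.rootMultiplicity (-1) with hμ
  have hX : (X - C (-1 : F)) = X + C 1 := by rw [map_neg, sub_neg_eq_add]
  rw [hX] at hh hnd
  have hh0 : h ≠ 0 := by
    rintro rfl
    exact hnd (dvd_zero _)
  have hp0 : (X + C (1 : F)) ^ μ ≠ 0 := pow_ne_zero _ (Polynomial.X_add_C_ne_zero 1)
  have hrev : h.reverse = h := by
    have h3 := hr
    rw [hh, Polynomial.reverse_mul_of_domain, reverse_X_add_one_pow] at h3
    exact mul_left_cancel₀ hp0 h3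
  have hev : h.eval (-1) ≠ 0 := by
    intro h0
    apply hnd
    rw [← hX]
    exact Polynomial.dvd_iff_isRoot.mpr h0
  have hdeg : μ + h.natDegree = 2 * n := by
    have h3 := congrArg Polynomial.natDegree hh
    rw [Polynomial.natDegree_mul hp0 hh0, Polynomial.natDegree_pow, Polynomial.natDegree_X_add_C, mul_one, hd] at h3
    exact h3.symm
  letI : Invertible (-1 : F) := ⟨-1, by ring, by ring⟩
  have h4 := Polynomial.eval₂_reverse_mul_pow (RingHom.id F) (-1) h
  rw [hrev] at h4
  have h5 : (⅟(-1 : F)) = -1 := rfl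
  rw [h5, Polynomial.eval₂_id] at h4
  have h6 : ((-1 : F)) ^ h.natDegree = 1 := by
    have h7 : h.eval (-1) * (-1) ^ h.natDegree = h.eval (-1) * 1 := by rw [mul_one]; exact h4
    exact mul_left_cancel₀ hev h7
  have h8 : Even h.natDegree := by
    by_contra hodd
    rw [Nat.not_even_iff_odd] at hodd
    rw [hodd.neg_one_pow] at h6
    apply h2
    calc (2 : F) = 1 + 1 := by norm_num
      _ = 1 + -1 := by rw [h6]
      _ = 0 := add_neg_cancel 1
  have h9 : Even (μ + h.natDegree) := by rw [hdeg]; exact even_two_mul n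
  rw [Nat.even_add] at h9
  exact h9.mpr h8

end Pal

section SpCharpoly

variable {F : Type*} [Field F] {n : ℕ}

theorem sp_reverse_charpoly (g : Matrix.symplecticGroup (Fin n) F) :
    (g : Matrix (Fin n ⊕ Fin n) (Fin n ⊕ Fin n) F).charpoly.reverse = (g : Matrix (Fin n ⊕ Fin n) (Fin n ⊕ Fin n) F).charpoly := by
  set A := (g : Matrix (Fin n ⊕ Fin n) (Fin n ⊕ Fin n) F) with hA
  have hdet : A.det = 1 := SymplecticGroup.det_eq_one g.2
  have hu : IsUnit A := (Matrix.isUnit_iff_isUnit_det _).mpr (by rw [hdet]; exact isUnit_one)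
  have h1 := Matrix.charpoly_inv A hu
  rw [hdet] at h1
  have h2 : (-1 : Polynomial F) ^ Fintype.card (Fin n ⊕ Fin n) = 1 := by
    rw [Fintype.card_sum, Fintype.card_fin, ← two_mul]
    exact (even_two_mul n).neg_one_pow
  rw [h2, one_mul, Ring.inverse_one, map_one, one_mul] at h1
  rw [Matrix.reverse_charpoly, ← h1, SymplecticGroup.inv_eq_symplectic_inv A g.2, Matrix.charpoly_mul_comm, ← mul_assoc]
  have h3 : Matrix.J (Fin n) F * (-Matrix.J (Fin n) F) = 1 := by
    rw [mul_neg, Matrix.J_squared, neg_neg]
  rw [h3, one_mul, Matrix.charpoly_transpose]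

variable [Fintype F] {p : ℕ} [Fact p.Prime] [CharP F p]

/-- every palindromic polynomial is the characteristic polynomial of a semisimple symplectic matrix -/
theorem exists_sp_charpoly {f : Polynomial F} (hf1 : f.Monic) (hf2 : f.natDegree = 2 * n) (hf3 : f.reverse = f) :
    ∃ g : Matrix.symplecticGroup (Fin n) F, (orderOf g).Coprime p ∧ (g : Matrix (Fin n ⊕ Fin n) (Fin n ⊕ Fin n) F).charpoly = f := by
  classical
  have hf0 : f.coeff 0 = 1 := by
    rw [← hf3, Polynomial.coeff_zero_reverse]
    exact hf1
  obtain ⟨g0, hg0, hg0c⟩ := exists_GL_charpoly (p := p) hf1 hf2 (by rw [hf0]; exact one_ne_zero)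
  set N := orderOf g0 with hN
  set A : Matrix (Fin (2 * n)) (Fin (2 * n)) F := (g0 : Matrix (Fin (2 * n)) (Fin (2 * n)) F) with hA
  set A' : Matrix (Fin (2 * n)) (Fin (2 * n)) F := ((g0⁻¹ : GL (Fin (2 * n)) F) : Matrix (Fin (2 * n)) (Fin (2 * n)) F) with hA'
  have hAN : A ^ N = 1 := by
    rw [hA, ← Units.val_pow_eq_pow_val, hN, pow_orderOf_eq_one, Units.val_one]
  have hA'N : A' ^ N = 1 := by
    rw [hA', ← Units.val_pow_eq_pow_val, inv_pow, hN, pow_orderOf_eq_one, inv_one, Units.val_one]
  have hAA' : A * A' = 1 := by rw [hA, hA', ← Units.val_mul, mul_inv_cancel, Units.val_one]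
  have hdet : A.det = 1 := by
    have h1 := det_charpoly A
    rw [hg0c, hf0, (even_two_mul n).neg_one_pow, one_mul] at h1
    exact h1.symm
  have hcA' : A.charpoly = A'.charpoly := by
    have hinv : A' = A⁻¹ := (Matrix.inv_eq_right_inv hAA').symm
    have h1 := Matrix.charpoly_inv A g0.isUnit
    rw [hdet, Fintype.card_fin, (even_two_mul n).neg_one_pow, one_mul, Ring.inverse_one, map_one, one_mul] at h1
    rw [hinv, h1, ← Matrix.reverse_charpoly, hg0c, hf3]
  obtain ⟨k, hk⟩ := exists_equiv_of_charpoly (p := p) hg0 hAN hA'N hcA'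
  let Q : (Matrix (Fin (2 * n)) (Fin (2 * n)) F)ˣ := ⟨LinearMap.toMatrix' k.toLinearMap, LinearMap.toMatrix' k.symm.toLinearMap,
    by rw [← LinearMap.toMatrix'_comp, LinearEquiv.comp_symm, LinearMap.toMatrix'_id],
    by rw [← LinearMap.toMatrix'_comp, LinearEquiv.symm_comp, LinearMap.toMatrix'_id]⟩
  have hQa : ∀ x, (Q : Matrix (Fin (2 * n)) (Fin (2 * n)) F) *ᵥ x = k x := by
    intro x
    show (LinearMap.toMatrix' k.toLinearMap) *ᵥ x = k x
    rw [← Matrix.toLin'_apply, Matrix.toLin'_toMatrix']
    rfl
  have hQ : (Q : Matrix (Fin (2 * n)) (Fin (2 * n)) F) * A = A' * Q := by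
    apply ext_mulVec
    intro x
    rw [← Matrix.mulVec_mulVec, ← Matrix.mulVec_mulVec, hQa, hQa, hk]
  obtain ⟨B, hB, hBT⟩ := exists_inv_form hAA' hQ
  set T : (Fin (2 * n) → F) →ₗ[F] (Fin (2 * n) → F) := Matrix.toLin' A with hT
  have hTN : T ^ N = 1 := by
    rw [hT, ← Matrix.toLin'_pow, hAN, Matrix.toLin'_one]
    rfl
  have hfr : finrank F (Fin (2 * n) → F) = 2 * n := Module.finrank_fin_fun F
  have hTc : T.charpoly = f := by rw [hT, RCF.charpoly_toLin', hg0c]
  obtain ⟨C, hC, hCa, hCT⟩ := exists_alt_ss (p := p) hB (T := T) hBT hg0 hTN (by rw [hfr]; exact even_two_mul n) (by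
    intro h2
    have h3 : LinearMap.ker (T - algebraMap F (Module.End F (Fin (2 * n) → F)) (-1)) = Module.End.maxGenEigenspace T (-1) := by
      have hPpol : (T - algebraMap F (Module.End F (Fin (2 * n) → F)) (-1)) = Polynomial.aeval T (Polynomial.X - Polynomial.C (-1 : F)) := by
        rw [map_sub, Polynomial.aeval_X, Polynomial.aeval_C]
      have hsm : T - (-1 : F) • (1 : Module.End F (Fin (2 * n) → F)) = T - algebraMap F (Module.End F (Fin (2 * n) → F)) (-1) := by
        rw [Algebra.algebraMap_eq_smul_one]
      ext x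
      rw [Module.End.mem_maxGenEigenspace, hsm]
      constructor
      · intro hx
        exact ⟨1, by rw [pow_one]; exact hx⟩
      · rintro ⟨j, hj⟩
        rw [LinearMap.mem_ker]
        -- descend
        have hdesc : ∀ j x, ((T - algebraMap F (Module.End F (Fin (2 * n) → F)) (-1)) ^ (j + 1)) x = 0 →
            (T - algebraMap F (Module.End F (Fin (2 * n) → F)) (-1)) x = 0 := by
          intro j
          induction j with
          | zero => intro x hx; rw [zero_add, pow_one] at hx; exact hx
          | succ j ih =>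
            intro x hx
            rw [pow_succ] at hx
            have h4 := ih _ hx
            rw [hPpol] at h4 ⊢
            exact semisimple_ker (p := p) hg0 hTN _ h4
        cases j with
        | zero =>
          rw [pow_zero] at hj
          have : x = 0 := hj
          rw [this, map_zero]
        | succ j => exact hdesc j x hj
    rw [h3, LinearMap.finrank_maxGenEigenspace_eq, hTc]
    exact even_mult h2 hf1.ne_zero hf2 hf3)
  obtain ⟨g, e, he⟩ := exists_sp hfr hC hCa hCT
  refine ⟨g, ?_, ?_⟩
  · apply Nat.Coprime.coprime_dvd_left _ hg0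
    apply orderOf_dvd_of_pow_eq_one
    apply spE_inj
    rw [map_pow, map_one]
    apply LinearMap.ext
    intro w
    obtain ⟨v, rfl⟩ := e.surjective w
    have h1 : ∀ j : ℕ, ((spE n F g) ^ j) (e v) = e ((T ^ j) v) := by
      intro j
      induction j with
      | zero => rfl
      | succ j ih =>
        rw [pow_succ', pow_succ']
        show (spE n F g) (((spE n F g) ^ j) (e v)) = e (T ((T ^ j) v))
        rw [ih, he]
    rw [h1, hTN]
    rfl
  · have h1 : (spE n F g).charpoly = T.charpoly := by
      have h2 : spE n F g = e.conj T := by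
        apply LinearMap.ext
        intro w
        obtain ⟨v, rfl⟩ := e.surjective w
        rw [← he, LinearEquiv.conj_apply_apply, e.symm_apply_apply]
      rw [h2, LinearEquiv.charpoly_conj]
    rw [hTc] at h1
    rw [← h1]
    exact (RCF.charpoly_toLin' _).symm

end SpCharpoly

end Cfsg.Agent.Lib.BForm
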