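import Mathlib

set_option autoImplicit false
set_option linter.all false

namespace Cfsg.Agent.Lib.AbSn

open Equiv Equiv.Perm MulAction

/-- the maximal product function -/
def f : ℕ → ℕ
  | 0 => 1
  | 1 => 1
  | 2 => 2
  | 3 => 3
  | 4 => 4
  | (n + 5) => 3 * f (n + 2)

theorem f5 (n : ℕ) : f (n + 5) = 3 * f (n + 2) := by
  rw [f]

theorem f_add (c : ℕ) (hc : 1 ≤ c) (hc4 : c ≤ 4) : ∀ b : ℕ, c * f b ≤ f (b + c) := by
  intro b
  induction b using Nat.strong_induction_on with
  | _ b ih =>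
    rcases lt_or_ge b 5 with hb | hb
    · interval_cases c <;> interval_cases b <;> decide
    · obtain ⟨n, rfl⟩ := Nat.exists_eq_add_of_le' hb
      have h1 := ih (n + 2) (by omega)
      rw [show n + 5 + c = (n + c) + 5 by ring, f5, f5, show n + c + 2 = n + 2 + c by ring]
      nlinarith

theorem f_mul (a b : ℕ) : f a * f b ≤ f (a + b) := by
  induction a using Nat.strong_induction_on generalizing b with
  | _ a ih =>
    rcases lt_or_ge a 5 with ha | ha
    · rcases Nat.eq_zero_or_pos a with h | h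
      · subst h; rw [zero_add]; show 1 * f b ≤ f b; omega
      · have h1 := f_add a h (by omega) b
        have h2 : f a = a := by interval_cases a <;> rfl
        rw [h2, add_comm a b]; exact h1
    · obtain ⟨n, rfl⟩ := Nat.exists_eq_add_of_le' ha
      have h1 := ih (n + 2) (by omega) b
      have h2 := f_add 3 (by norm_num) (by norm_num) (n + 2 + b)
      rw [f5]
      calc 3 * f (n + 2) * f b = 3 * (f (n + 2) * f b) := by ring
        _ ≤ 3 * f (n + 2 + b) := by nlinarith
        _ ≤ f (n + 2 + b + 3) := h2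
        _ = f (n + 5 + b) := by congr 1; ring

theorem le_f (a : ℕ) : a ≤ f a := by
  induction a using Nat.strong_induction_on with
  | _ a ih =>
    rcases lt_or_ge a 5 with ha | ha
    · interval_cases a <;> decide
    · obtain ⟨n, rfl⟩ := Nat.exists_eq_add_of_le' ha
      have h1 := ih (n + 2) (by omega)
      rw [f5]; omega

theorem f_zero (k : ℕ) : f (3 * k) = 3 ^ k := by
  induction k with
  | zero => rfl
  | succ k ih =>
    rcases k with _ | k
    · rfl
    · rw [show 3 * (k + 1 + 1) = (3 * k + 1) + 5 by ring, f5, show 3 * k + 1 + 2 = 3 * (k + 1) by ring, ih]; ring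

theorem f_one (k : ℕ) : f (3 * (k + 1) + 1) = 4 * 3 ^ k := by
  induction k with
  | zero => rfl
  | succ k ih =>
    rw [show 3 * (k + 1 + 1) + 1 = (3 * k + 2) + 5 by ring, f5, show 3 * k + 2 + 2 = 3 * (k + 1) + 1 by ring, ih]; ring

theorem f_two (k : ℕ) : f (3 * k + 2) = 2 * 3 ^ k := by
  induction k with
  | zero => rfl
  | succ k ih =>
    rw [show 3 * (k + 1) + 2 = (3 * k) + 5 by ring, f5, ih]; ring

theorem prod_le {ι : Type*} (s : Finset ι) (n : ι → ℕ) : ∏ i ∈ s, n i ≤ f (∑ i ∈ s, n i) := by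
  classical
  induction s using Finset.induction_on with
  | empty => simp [f]
  | insert a s ha ih =>
    rw [Finset.prod_insert ha, Finset.sum_insert ha]
    exact (Nat.mul_le_mul (le_f _) ih).trans (f_mul _ _)

variable {Ω : Type*} [Fintype Ω] [DecidableEq Ω]

/-- abelian permutation groups -/
theorem card_le_prod (A : Subgroup (Perm Ω)) (hA : IsMulCommutative A) [Fintype (orbitRel.Quotient A Ω)] :
    Nat.card A ≤ ∏ o : orbitRel.Quotient A Ω, Nat.card o.orbit := by
  classical
  have h1 : Nat.card (∀ o : orbitRel.Quotient A Ω, o.orbit) = ∏ o : orbitRel.Quotient A Ω, Nat.card o.orbit := by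
    rw [Nat.card_pi]
  rw [← h1]
  have hmem : ∀ (o : orbitRel.Quotient A Ω) (a : A), a • o.out ∈ o.orbit := by
    intro o a
    rw [orbitRel.Quotient.mem_orbit]
    have h2 : (Quotient.mk'' (a • o.out) : orbitRel.Quotient A Ω) = Quotient.mk'' o.out :=
      Quotient.sound' (mem_orbit _ a)
    rw [h2]
    exact Quotient.out_eq' o
  refine Nat.card_le_card_of_injective (fun a => fun o => (⟨a • o.out, hmem o a⟩ : o.orbit)) ?_
  intro a b hab
  apply Subtype.ext
  ext x
  let o : orbitRel.Quotient A Ω := Quotient.mk'' x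
  have h2 : a • o.out = b • o.out := congrArg Subtype.val (congrFun hab o)
  have h3 : x ∈ orbit A o.out := by
    have h4 : (Quotient.mk'' x : orbitRel.Quotient A Ω) = Quotient.mk'' o.out := (Quotient.out_eq' o).symm
    exact Quotient.exact' h4
  obtain ⟨c, hc⟩ := h3
  have hc' : c • o.out = x := hc
  show a • x = b • x
  have hcm : ∀ u v : A, u * v = v * u := fun u v => hA.is_comm.comm u v
  rw [← hc', ← mul_smul, ← mul_smul, hcm a c, hcm b c, mul_smul, mul_smul, h2]

theorem sum_orbits (A : Subgroup (Perm Ω)) [Fintype (orbitRel.Quotient A Ω)] :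
    ∑ o : orbitRel.Quotient A Ω, Nat.card o.orbit = Fintype.card Ω := by
  classical
  rw [← Nat.card_eq_fintype_card, Nat.card_congr (MulAction.selfEquivSigmaOrbits' A Ω), Nat.card_sigma]

theorem card_le_f (A : Subgroup (Perm Ω)) (hA : IsMulCommutative A) : Nat.card A ≤ f (Fintype.card Ω) := by
  classical
  have : Fintype (orbitRel.Quotient A Ω) := Fintype.ofFinite _
  have h1 := card_le_prod A hA
  have h2 := prod_le Finset.univ (fun o : orbitRel.Quotient A Ω => Nat.card o.orbit)
  rw [sum_orbits] at h2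
  exact h1.trans h2

/-- existence -/
theorem exists_ab {ι : Type*} [Fintype ι] [DecidableEq ι] (G : ι → Type) [∀ i, CommGroup (G i)] [∀ i, Fintype (G i)] [∀ i, DecidableEq (G i)]
    (N : ℕ) (hN : ∑ i, Fintype.card (G i) = N) :
    ∃ φ : (∀ i, G i) →* Perm (Fin N), Function.Injective φ ∧
      ((∀ i, ∀ g : G i, ∃ y : Perm (G i), y * y = toPermHom (G i) (G i) g) → ∀ g : ∀ i, G i, sign (φ g) = 1) := by
  classical
  have hc : Fintype.card (Σ i, G i) = N := by rw [Fintype.card_sigma]; exact hN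
  let e : (Σ i, G i) ≃ Fin N := Fintype.equivFinOfCardEq hc
  let ψ : (∀ i, G i) →* (∀ i, Perm (G i)) := MonoidHom.piMap (fun i => toPermHom (G i) (G i))
  let χ : (∀ i, Perm (G i)) →* Perm (Σ i, G i) := Equiv.Perm.sigmaCongrRightHom G
  refine ⟨(e.permCongrHom.toMonoidHom.comp (χ.comp ψ)), ?_, ?_⟩
  · have h1 : Function.Injective ψ := by
      intro a b hab
      funext i
      have h2 : toPermHom (G i) (G i) (a i) = toPermHom (G i) (G i) (b i) := congrFun hab i
      exact toPerm_injective h2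
    have h2 : Function.Injective χ := Equiv.Perm.sigmaCongrRightHom_injective
    exact e.permCongrHom.injective.comp (h2.comp h1)
  · intro hsq g
    choose y hy using fun i => hsq i (g i)
    have h3 : ψ g = y * y := by
      funext i
      exact (hy i).symm
    show sign (e.permCongrHom.toMonoidHom (χ (ψ g))) = 1
    rw [h3, map_mul, map_mul, map_mul]
    exact Int.units_mul_self _

theorem exists_sub {ι : Type*} [Fintype ι] [DecidableEq ι] (G : ι → Type) [∀ i, CommGroup (G i)] [∀ i, Fintype (G i)] [∀ i, DecidableEq (G i)]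
    (N : ℕ) (hN : ∑ i, Fintype.card (G i) = N) :
    ∃ A : Subgroup (Perm (Fin N)), IsMulCommutative A ∧ Nat.card A = ∏ i, Fintype.card (G i) := by
  classical
  obtain ⟨φ, hφ, -⟩ := exists_ab G N hN
  refine ⟨φ.range, ⟨⟨?_⟩⟩, ?_⟩
  · rintro ⟨_, a, rfl⟩ ⟨_, b, rfl⟩
    apply Subtype.ext
    show φ a * φ b = φ b * φ a
    rw [← map_mul, ← map_mul, mul_comm]
  · rw [← Nat.card_congr (MonoidHom.ofInjective hφ).toEquiv, Nat.card_eq_fintype_card, Fintype.card_pi]

theorem exists_sub_alt {ι : Type*} [Fintype ι] [DecidableEq ι] (G : ι → Type) [∀ i, CommGroup (G i)] [∀ i, Fintype (G i)] [∀ i, DecidableEq (G i)]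
    (N : ℕ) (hN : ∑ i, Fintype.card (G i) = N)
    (hsq : ∀ i, ∀ g : G i, ∃ y : Perm (G i), y * y = toPermHom (G i) (G i) g) :
    ∃ A : Subgroup (alternatingGroup (Fin N)), IsMulCommutative A ∧ Nat.card A = ∏ i, Fintype.card (G i) := by
  classical
  obtain ⟨φ, hφ, hs⟩ := exists_ab G N hN
  have hs' := hs hsq
  let φ' : (∀ i, G i) →* alternatingGroup (Fin N) := φ.codRestrict _ (fun g => Equiv.Perm.mem_alternatingGroup.2 (hs' g))
  have hφ' : Function.Injective φ' := by
    intro a b hab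
    exact hφ (congrArg Subtype.val hab)
  refine ⟨φ'.range, ⟨⟨?_⟩⟩, ?_⟩
  · rintro ⟨_, a, rfl⟩ ⟨_, b, rfl⟩
    apply Subtype.ext
    show φ' a * φ' b = φ' b * φ' a
    rw [← map_mul, ← map_mul, mul_comm]
  · rw [← Nat.card_congr (MonoidHom.ofInjective hφ').toEquiv, Nat.card_eq_fintype_card, Fintype.card_pi]

theorem exists_sub' {ι : Type*} [Fintype ι] [DecidableEq ι] (a b : ι → ℕ) (ha : ∀ i, a i ≠ 0) (hb : ∀ i, b i ≠ 0)
    (N : ℕ) (hN : ∑ i, a i * b i = N) :
    ∃ A : Subgroup (Perm (Fin N)), IsMulCommutative A ∧ Nat.card A = ∏ i, a i * b i := by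
  have : ∀ i, NeZero (a i) := fun i => ⟨ha i⟩
  have : ∀ i, NeZero (b i) := fun i => ⟨hb i⟩
  have hc : ∀ i, Fintype.card (Multiplicative (ZMod (a i) × ZMod (b i))) = a i * b i := by
    intro i
    rw [Fintype.card_multiplicative, Fintype.card_prod, ZMod.card, ZMod.card]
  obtain ⟨A, hA, hc'⟩ := exists_sub (fun i => Multiplicative (ZMod (a i) × ZMod (b i))) N (by simp only [hc]; exact hN)
  exact ⟨A, hA, by rw [hc']; simp only [hc]⟩

theorem sym_main (k : ℕ) (hk : 1 ≤ k) :
    IsGreatest {c : ℕ | ∃ A : Subgroup (Equiv.Perm (Fin (3 * k))), IsMulCommutative A ∧ Nat.card A = c} (3 ^ k) ∧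
    IsGreatest {c : ℕ | ∃ A : Subgroup (Equiv.Perm (Fin (3 * k + 1))), IsMulCommutative A ∧ Nat.card A = c}
      (4 * 3 ^ (k - 1)) ∧
    IsGreatest {c : ℕ | ∃ A : Subgroup (Equiv.Perm (Fin (3 * k + 2))), IsMulCommutative A ∧ Nat.card A = c}
      (2 * 3 ^ k) := by
  classical
  obtain ⟨k, rfl⟩ := Nat.exists_eq_add_of_le' hk
  refine ⟨⟨?_, ?_⟩, ⟨?_, ?_⟩, ⟨?_, ?_⟩⟩
  · obtain ⟨A, hA, hc⟩ := exists_sub' (fun _ : Fin (k + 1) => 3) (fun _ => 1) (by simp) (by simp) (3 * (k + 1)) (by simp; ring)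
    exact ⟨A, hA, by rw [hc]; simp⟩
  · rintro c ⟨A, hA, rfl⟩
    have := card_le_f A hA
    rwa [Fintype.card_fin, f_zero] at this
  · obtain ⟨A, hA, hc⟩ := exists_sub' (fun i : Option (Fin k) => i.elim 4 (fun _ => 3)) (fun _ => 1) (by rintro (_ | i) <;> simp) (by simp) (3 * (k + 1) + 1)
      (by rw [Fintype.sum_option]; simp; ring)
    exact ⟨A, hA, by rw [hc, Fintype.prod_option]; simp⟩
  · rintro c ⟨A, hA, rfl⟩
    have := card_le_f A hA
    rwa [Fintype.card_fin, f_one] at this
  · obtain ⟨A, hA, hc⟩ := exists_sub' (fun i : Option (Fin (k + 1)) => i.elim 2 (fun _ => 3)) (fun _ => 1) (by rintro (_ | i) <;> simp) (by simp) (3 * (k + 1) + 2)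
      (by rw [Fintype.sum_option]; simp; ring)
    exact ⟨A, hA, by rw [hc, Fintype.prod_option]; simp⟩
  · rintro c ⟨A, hA, rfl⟩
    have := card_le_f A hA
    rwa [Fintype.card_fin, f_two] at this

/-- every element of the small groups is a square of a permutation -/
theorem exists_sub_alt' {ι : Type*} [Fintype ι] [DecidableEq ι] (a b : ι → ℕ) (hab : ∀ i, (a i = 3 ∧ b i = 1) ∨ (a i = 2 ∧ b i = 2))
    (N : ℕ) (hN : ∑ i, a i * b i = N) :
    ∃ A : Subgroup (alternatingGroup (Fin N)), IsMulCommutative A ∧ Nat.card A = ∏ i, a i * b i := by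
  classical
  have : ∀ i, NeZero (a i) := fun i => ⟨by rcases hab i with h | h <;> rw [h.1] <;> norm_num⟩
  have : ∀ i, NeZero (b i) := fun i => ⟨by rcases hab i with h | h <;> rw [h.2] <;> norm_num⟩
  have hc : ∀ i, Fintype.card (Multiplicative (ZMod (a i) × ZMod (b i))) = a i * b i := by
    intro i
    rw [Fintype.card_multiplicative, Fintype.card_prod, ZMod.card, ZMod.card]
  have key1 : ∀ g : Multiplicative (ZMod 3 × ZMod 1), ∃ y : Perm (Multiplicative (ZMod 3 × ZMod 1)), y * y = toPermHom (Multiplicative (ZMod 3 × ZMod 1)) _ g := by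
    intro g
    refine ⟨toPermHom _ _ (g * g), ?_⟩
    rw [← map_mul]
    congr 1
    revert g; decide
  have key2 : ∀ g : Multiplicative (ZMod 2 × ZMod 2), ∃ y : Perm (Multiplicative (ZMod 2 × ZMod 2)), y * y = toPermHom (Multiplicative (ZMod 2 × ZMod 2)) _ g := by
    decide
  have hsq : ∀ i, ∀ g : Multiplicative (ZMod (a i) × ZMod (b i)), ∃ y : Perm (Multiplicative (ZMod (a i) × ZMod (b i))), y * y = toPermHom _ _ g := by
    intro i
    rcases hab i with h | h
    · rw [h.1, h.2]; exact key1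
    · rw [h.1, h.2]; exact key2
  obtain ⟨A, hA, hc'⟩ := exists_sub_alt (fun i => Multiplicative (ZMod (a i) × ZMod (b i))) N (by simp only [hc]; exact hN) hsq
  exact ⟨A, hA, by rw [hc']; simp only [hc]⟩

end Cfsg.Agent.Lib.AbSn
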