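import Mathlib
import Cfsg.Agent.Lib.AbSn

set_option autoImplicit false
set_option linter.all false

namespace Cfsg.Agent.Lib.AbAn

open Equiv Equiv.Perm MulAction
open Cfsg.Agent.Lib.AbSn

theorem prod_cases {ι : Type*} [DecidableEq ι] (s : Finset ι) (n : ι → ℕ) (j : ℕ) (hsum : ∑ i ∈ s, n i = 3 * (j + 2) + 2) :
    (∏ i ∈ s, n i ≤ 16 * 3 ^ j) ∨ (∃ a ∈ s, n a = 2 ∧ ∀ i ∈ s, i ≠ a → n i = 3) := by
  by_cases h1 : ∃ a ∈ s, n a ≠ 2 ∧ n a ≠ 3
  · left
    obtain ⟨a, ha, h2, h3⟩ := h1
    have e1 : n a * ∏ i ∈ s.erase a, n i = ∏ i ∈ s, n i := Finset.mul_prod_erase s n ha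
    have e2 : n a + ∑ i ∈ s.erase a, n i = 3 * (j + 2) + 2 := by rw [Finset.add_sum_erase s n ha, hsum]
    have e3 := prod_le (s.erase a) n
    rw [← e1]
    generalize n a = c at *
    generalize ∑ i ∈ s.erase a, n i = m at *
    generalize ∏ i ∈ s.erase a, n i = P at *
    rcases lt_or_ge c 6 with hc | hc
    · have h0 : c = 0 ∨ c = 1 ∨ c = 4 ∨ c = 5 := by omega
      rcases h0 with h0 | h0 | h0 | h0
      · subst h0; simp
      · subst h0
        have : m = 3 * (j + 1 + 1) + 1 := by omega
        rw [this, f_one] at e3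
        rw [one_mul]
        calc P ≤ 4 * 3 ^ (j + 1) := e3
          _ = 12 * 3 ^ j := by ring
          _ ≤ 16 * 3 ^ j := by nlinarith [pow_pos (show 0 < 3 by norm_num) j]
      · subst h0
        have : m = 3 * (j + 1) + 1 := by omega
        rw [this, f_one] at e3
        calc 4 * P ≤ 4 * (4 * 3 ^ j) := by omega
          _ = 16 * 3 ^ j := by ring
      · subst h0
        have : m = 3 * (j + 1) := by omega
        rw [this, f_zero] at e3
        calc 5 * P ≤ 5 * (3 ^ (j + 1)) := by omega
          _ = 15 * 3 ^ j := by ring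
          _ ≤ 16 * 3 ^ j := by nlinarith [pow_pos (show 0 < 3 by norm_num) j]
    · obtain ⟨c', rfl⟩ := Nat.exists_eq_add_of_le' (show 3 ≤ c by omega)
      have h4 := le_f c'
      have h5 := f_mul c' m
      have h6 : c' + m = 3 * (j + 1) + 2 := by omega
      rw [h6, f_two] at h5
      calc (c' + 3) * P ≤ (2 * c') * f m := Nat.mul_le_mul (by omega) e3
        _ ≤ 2 * (f c' * f m) := by nlinarith [Nat.mul_le_mul_right (f m) h4]
        _ ≤ 2 * (2 * 3 ^ (j + 1)) := by omega
        _ = 12 * 3 ^ j := by ring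
        _ ≤ 16 * 3 ^ j := by nlinarith [pow_pos (show 0 < 3 by norm_num) j]
  · push Not at h1
    by_cases h2 : ∃ a ∈ s, ∃ b ∈ s, a ≠ b ∧ n a = 2 ∧ n b = 2
    · left
      obtain ⟨a, ha, b, hb, hab, ha2, hb2⟩ := h2
      have hb' : b ∈ s.erase a := Finset.mem_erase.2 ⟨hab.symm, hb⟩
      have e1 : n a * ∏ i ∈ s.erase a, n i = ∏ i ∈ s, n i := Finset.mul_prod_erase s n ha
      have e2 : n a + ∑ i ∈ s.erase a, n i = 3 * (j + 2) + 2 := by rw [Finset.add_sum_erase s n ha, hsum]
      have e3 : n b * ∏ i ∈ (s.erase a).erase b, n i = ∏ i ∈ s.erase a, n i := Finset.mul_prod_erase _ n hb'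
      have e4 : n b + ∑ i ∈ (s.erase a).erase b, n i = ∑ i ∈ s.erase a, n i := Finset.add_sum_erase _ n hb'
      have e5 := prod_le ((s.erase a).erase b) n
      rw [← e1, ← e3, ha2, hb2]
      rw [← e4, ha2, hb2] at e2
      have h6 : ∑ i ∈ (s.erase a).erase b, n i = 3 * (j + 1) + 1 := by omega
      rw [h6, f_one] at e5
      calc 2 * (2 * ∏ i ∈ (s.erase a).erase b, n i) ≤ 2 * (2 * (4 * 3 ^ j)) := by omega
        _ = 16 * 3 ^ j := by ring
    · push Not at h2
      right
      by_cases h3 : ∃ a ∈ s, n a = 2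
      · obtain ⟨a, ha, ha2⟩ := h3
        refine ⟨a, ha, ha2, ?_⟩
        intro i hi hia
        by_contra hne
        have h4 : n i = 2 := by
          by_contra h5
          exact hne (h1 i hi h5)
        exact h2 a ha i hi hia.symm ha2 h4
      · push Not at h3
        exfalso
        have h4 : ∀ i ∈ s, n i = 3 := fun i hi => h1 i hi (h3 i hi)
        rw [Finset.sum_congr rfl h4, Finset.sum_const] at hsum
        simp at hsum
        omega

theorem alt_bound (j : ℕ) (A : Subgroup (alternatingGroup (Fin (3 * (j + 2) + 2)))) (hA : IsMulCommutative A) :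
    Nat.card A ≤ 16 * 3 ^ j := by
  classical
  let B : Subgroup (Perm (Fin (3 * (j + 2) + 2))) := A.map (alternatingGroup _).subtype
  have hB : IsMulCommutative B := by
    refine ⟨⟨?_⟩⟩
    rintro ⟨_, a, ha, rfl⟩ ⟨_, b, hb, rfl⟩
    apply Subtype.ext
    have := hA.is_comm.comm ⟨a, ha⟩ ⟨b, hb⟩
    have h2 : a * b = b * a := congrArg Subtype.val this
    show a.1 * b.1 = b.1 * a.1
    exact Subtype.ext_iff.1 h2
  have hcard : Nat.card A = Nat.card B := Nat.card_congr (A.equivMapOfInjective _ (Subgroup.subtype_injective _)).toEquiv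
  have hsign : ∀ b ∈ B, sign b = 1 := by
    rintro _ ⟨a, ha, rfl⟩
    exact a.2
  rw [hcard]
  have : Fintype (orbitRel.Quotient B (Fin (3 * (j + 2) + 2))) := Fintype.ofFinite _
  have h1 := card_le_prod B hB
  have h2 := sum_orbits B
  rw [Fintype.card_fin] at h2
  rcases prod_cases Finset.univ (fun o : orbitRel.Quotient B (Fin (3 * (j + 2) + 2)) => Nat.card o.orbit) j h2 with h3 | h3
  · exact h1.trans h3
  · exfalso
    obtain ⟨o, -, ho2, hrest⟩ := h3
    have hcm : ∀ u v : B, u * v = v * u := fun u v => hB.is_comm.comm u v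
    have hnormal : ∀ x : Fin (3 * (j + 2) + 2), (stabilizer B x).Normal := by
      intro x
      refine ⟨fun n hn g => ?_⟩
      rw [hcm g n, mul_assoc, mul_inv_cancel, mul_one]
      exact hn
    have hpow : ∀ (b : B) (x : Fin (3 * (j + 2) + 2)), b ^ (Nat.card (orbitRel.Quotient.orbit (Quotient.mk'' x : orbitRel.Quotient B (Fin (3 * (j + 2) + 2))))) • x = x := by
      intro b x
      have h4 : (stabilizer B x).index = Nat.card (orbitRel.Quotient.orbit (Quotient.mk'' x : orbitRel.Quotient B (Fin (3 * (j + 2) + 2)))) := by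
        rw [index_stabilizer]
        rfl
      have := hnormal x
      rw [← h4]
      exact Subgroup.pow_index_mem (stabilizer B x) b
    -- choose x in o
    let x := o.out
    have hxo : (Quotient.mk'' x : orbitRel.Quotient B (Fin (3 * (j + 2) + 2))) = o := Quotient.out_eq' o
    have horb : Nat.card (orbit B x) = 2 := by
      have : orbitRel.Quotient.orbit (Quotient.mk'' x : orbitRel.Quotient B (Fin (3 * (j + 2) + 2))) = orbit B x := rfl
      rw [← this, hxo]; exact ho2
    have hmove : ∃ b : B, b • x ≠ x := by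
      by_contra hcon
      push Not at hcon
      have h5 : orbit B x = {x} := by
        ext y
        constructor
        · rintro ⟨b, rfl⟩
          exact hcon b
        · rintro rfl
          exact mem_orbit_self _
      rw [h5] at horb
      simp at horb
    obtain ⟨b, hb⟩ := hmove
    have horb2 : orbit B x = {x, b • x} := by
      symm
      apply Set.eq_of_subset_of_ncard_le
      · intro y hy
        rcases hy with rfl | rfl
        · exact mem_orbit_self _
        · exact mem_orbit _ b
      · rw [Set.ncard_pair hb.symm]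
        exact le_of_eq horb
      · exact Set.toFinite _
    have hb2 : b • (b • x) = x := by
      have h6 := hpow b x
      rw [hxo, ho2, pow_two, mul_smul] at h6
      exact h6
    have hswap : ((b ^ 3 : B) : Perm (Fin (3 * (j + 2) + 2))) = swap x (b • x) := by
      ext1 y
      by_cases hy : y ∈ orbit B x
      · rw [horb2] at hy
        rcases hy with rfl | rfl
        · rw [swap_apply_left]
          show (b ^ 3) • x = b • x
          rw [show b ^ 3 = b * (b * b) by rw [pow_succ, pow_two, mul_assoc], mul_smul, mul_smul, hb2]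
        · rw [swap_apply_right]
          show (b ^ 3) • (b • x) = x
          rw [show b ^ 3 = b * (b * b) by rw [pow_succ, pow_two, mul_assoc], mul_smul, mul_smul, hb2, hb2]
      · have h7 : (Quotient.mk'' y : orbitRel.Quotient B (Fin (3 * (j + 2) + 2))) ≠ o := by
          intro h8
          apply hy
          rw [← hxo] at h8
          exact Quotient.exact' h8
        have h8 := hpow b y
        rw [hrest _ (Finset.mem_univ _) h7] at h8
        have h9 : y ≠ x := by
          rintro rfl
          exact hy (mem_orbit_self _)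
        have h10 : y ≠ b • x := by
          rintro rfl
          exact hy (mem_orbit _ b)
        rw [swap_apply_of_ne_of_ne h9 h10]
        exact h8
    have h11 := hsign _ (b ^ 3).2
    rw [hswap, sign_swap hb.symm] at h11
    exact absurd h11 (by decide)

theorem alt_main (k : ℕ) (hk : 2 ≤ k) :
    IsGreatest {c : ℕ | ∃ A : Subgroup (alternatingGroup (Fin (3 * k))), IsMulCommutative A ∧ Nat.card A = c} (3 ^ k) ∧
    IsGreatest {c : ℕ | ∃ A : Subgroup (alternatingGroup (Fin (3 * k + 1))), IsMulCommutative A ∧ Nat.card A = c}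
      (4 * 3 ^ (k - 1)) ∧
    IsGreatest {c : ℕ | ∃ A : Subgroup (alternatingGroup (Fin (3 * k + 2))), IsMulCommutative A ∧ Nat.card A = c}
      (16 * 3 ^ (k - 2)) := by
  classical
  obtain ⟨j, rfl⟩ := Nat.exists_eq_add_of_le' hk
  have hle : ∀ (N : ℕ) (A : Subgroup (alternatingGroup (Fin N))), IsMulCommutative A → Nat.card A ≤ f N := by
    intro N A hA
    let B : Subgroup (Perm (Fin N)) := A.map (alternatingGroup _).subtype
    have hB : IsMulCommutative B := by
      refine ⟨⟨?_⟩⟩
      rintro ⟨_, a, ha, rfl⟩ ⟨_, b, hb, rfl⟩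
      apply Subtype.ext
      have := hA.is_comm.comm ⟨a, ha⟩ ⟨b, hb⟩
      have h2 : a * b = b * a := congrArg Subtype.val this
      show a.1 * b.1 = b.1 * a.1
      exact Subtype.ext_iff.1 h2
    have hcard : Nat.card A = Nat.card B := Nat.card_congr (A.equivMapOfInjective _ (Subgroup.subtype_injective _)).toEquiv
    have := card_le_f B hB
    rw [Fintype.card_fin] at this
    rw [hcard]; exact this
  refine ⟨⟨?_, ?_⟩, ⟨?_, ?_⟩, ⟨?_, ?_⟩⟩
  · obtain ⟨A, hA, hc⟩ := exists_sub_alt' (fun _ : Fin (j + 2) => 3) (fun _ => 1) (by simp) (3 * (j + 2)) (by simp; ring)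
    exact ⟨A, hA, by rw [hc]; simp⟩
  · rintro c ⟨A, hA, rfl⟩
    have := hle _ A hA
    rwa [f_zero] at this
  · obtain ⟨A, hA, hc⟩ := exists_sub_alt' (fun i : Option (Fin (j + 1)) => i.elim 2 (fun _ => 3)) (fun i : Option (Fin (j + 1)) => i.elim 2 (fun _ => 1)) (by rintro (_ | i) <;> simp) (3 * (j + 2) + 1)
      (by rw [Fintype.sum_option]; simp; ring)
    exact ⟨A, hA, by rw [hc, Fintype.prod_option]; simp⟩
  · rintro c ⟨A, hA, rfl⟩
    have := hle _ A hA
    rwa [f_one] at this
  · obtain ⟨A, hA, hc⟩ := exists_sub_alt' (fun i : Option (Option (Fin j)) => i.elim 2 (fun i => i.elim 2 (fun _ => 3)))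
      (fun i : Option (Option (Fin j)) => i.elim 2 (fun i => i.elim 2 (fun _ => 1))) (by rintro (_ | _ | i) <;> simp) (3 * (j + 2) + 2)
      (by rw [Fintype.sum_option, Fintype.sum_option]; simp; ring)
    refine ⟨A, hA, ?_⟩
    rw [hc, Fintype.prod_option, Fintype.prod_option]; simp; ring
  · rintro c ⟨A, hA, rfl⟩
    have := alt_bound j A hA
    simpa using this

end Cfsg.Agent.Lib.AbAn
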