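import Cfsg.Agent.Lib.Hall
import Cfsg.Agent.Lib.FrobB
import Cfsg.Agent.H2.Kazarin

/-!
# Groups with an abelian 2-complement
-/

set_option autoImplicit false

namespace Cfsg.Agent.Lib.AbComp

open Subgroup Cfsg.Agent.Lib.Hall

universe u
variable {G : Type u} [Group G]

theorem of_hall [Finite G] {D : Subgroup G} (hD : IsHall ({2}ᶜ : Set ℕ) D) (P : Sylow 2 G) :
    IsComplement' (P : Subgroup G) D := by
  haveI : Fact (Nat.Prime 2) := ⟨Nat.prime_two⟩
  have h1 : ¬ 2 ∣ Nat.card D := fun h => hD.1 2 Nat.prime_two h rfl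
  have h2 : ∀ p : ℕ, p.Prime → p ∣ D.index → p = 2 := by
    intro p hp hd
    by_contra hc
    exact hD.2 p hp hc hd
  have h3 : D.index ≠ 0 := FiniteIndex.index_ne_zero
  have h4 : D.index = 2 ^ D.index.primeFactorsList.length :=
    Nat.eq_prime_pow_of_unique_prime_dvd h3 (fun {d} hd hdd => h2 d hd hdd)
  obtain ⟨k, hk⟩ := (IsPGroup.iff_card).mp P.isPGroup'
  have h5 := D.card_mul_index
  have h6 := (P : Subgroup G).card_mul_index
  have h7 : ¬ 2 ∣ (P : Subgroup G).index := P.not_dvd_index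
  set j := D.index.primeFactorsList.length with hj
  have h8 : Nat.card (P : Subgroup G) = D.index := by
    apply Nat.dvd_antisymm
    · have : Nat.card (P : Subgroup G) ∣ Nat.card D * D.index := by rw [h5, ← h6]; exact dvd_mul_right _ _
      apply Nat.Coprime.dvd_of_dvd_mul_left _ this
      rw [hk]
      exact Nat.Coprime.pow_left _ ((Nat.Prime.coprime_iff_not_dvd Nat.prime_two).mpr h1)
    · have : D.index ∣ Nat.card (P : Subgroup G) * (P : Subgroup G).index := by
        rw [h6, ← h5]; exact dvd_mul_left _ _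
      apply Nat.Coprime.dvd_of_dvd_mul_right _ this
      rw [h4]
      exact Nat.Coprime.pow_left _ ((Nat.Prime.coprime_iff_not_dvd Nat.prime_two).mpr h7)
  apply isComplement'_of_coprime
  · rw [h8, mul_comm, h5]
  · rw [hk]
    exact Nat.Coprime.pow_left _ ((Nat.Prime.coprime_iff_not_dvd Nat.prime_two).mpr h1)

theorem isHall_of_compl [Finite G] {S : Sylow 2 G} {C : Subgroup G}
    (hSC : IsComplement' (S : Subgroup G) C) : IsHall ({2}ᶜ : Set ℕ) C := by
  haveI : Fact (Nat.Prime 2) := ⟨Nat.prime_two⟩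
  have h1 : ¬ 2 ∣ Nat.card C := by
    rw [← hSC.symm.index_eq_card]; exact S.not_dvd_index
  obtain ⟨k, hk⟩ := (IsPGroup.iff_card).mp S.isPGroup'
  refine ⟨?_, ?_⟩
  · intro p hp hd e
    rw [Set.mem_singleton_iff] at e
    rw [e] at hd
    exact h1 hd
  · intro p hp hp2 hd
    rw [hSC.index_eq_card, hk] at hd
    exact hp2 ((Nat.prime_dvd_prime_iff_eq hp Nat.prime_two).mp (hp.dvd_of_dvd_pow hd))

theorem solvable [Finite G] {S : Sylow 2 G} {C : Subgroup G} (hC : IsMulCommutative C)
    (hSC : IsComplement' (S : Subgroup G) C) : Group.IsSolvable G := by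
  haveI : Fact (Nat.Prime 2) := ⟨Nat.prime_two⟩
  obtain ⟨k, hk⟩ := (IsPGroup.iff_card).mp S.isPGroup'
  have h1 : C ≤ solvableRadical G := by
    intro c hc
    have h2 : C ≤ centralizer ({c} : Set G) := by
      intro x hx
      rw [mem_centralizer_singleton_iff]
      have := hC.is_comm.comm ⟨x, hx⟩ ⟨c, hc⟩
      exact congrArg Subtype.val this
    have h3 : (centralizer ({c} : Set G)).index ∣ 2 ^ k := by
      rw [← hk, ← hSC.index_eq_card]
      exact index_dvd_of_le h2
    obtain ⟨j, -, hj⟩ := (Nat.dvd_prime_pow Nat.prime_two).mp h3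
    have h4 := H2.Kazarin.main c Nat.prime_two j hj
    exact H2.SolvRad.le_rad normalClosure_normal h4 (subset_normalClosure rfl)
  have h2 : solvableRadical G ⊔ (S : Subgroup G) = ⊤ := by
    rw [eq_top_iff, ← hSC.sup_eq_top]
    exact sup_le le_sup_right (h1.trans le_sup_left)
  have h3 := H2.SolvRad.rad_normal (G := G)
  have h4 : Group.IsSolvable ↥(solvableRadical G ⊔ (S : Subgroup G)) :=
    FrobB.isSolvable_sup (by rw [normalizer_eq_top]; exact le_top) H2.SolvRad.rad_solvable
      (CoprimeB.isSolvable_of_isPGroup S.isPGroup')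
  rw [h2] at h4
  exact Group.isSolvable_of_surjective (f := (topEquiv : (⊤ : Subgroup G) ≃* G).toMonoidHom) topEquiv.surjective

end Cfsg.Agent.Lib.AbComp
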