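import Mathlib
import Cfsg.Agent.Lib.Tor13

/-! `PSL_2(2^t) = ABA`. -/

set_option linter.all false
set_option maxHeartbeats 400000

namespace Cfsg.Agent.Lib.Aba

open Matrix Module Cfsg Cfsg.Agent.Lib.Tw Cfsg.Agent.Lib.Tor
open scoped MatrixGroups

variable {F : Type*} [Field F] [Fintype F] [DecidableEq F]

theorem exists_root [CharP F 2] (a : F) : ∃ b : F, b * b = a := by
  obtain ⟨b, hb⟩ := FiniteField.isSquare_of_char_two (ringChar.eq F 2 ▸ rfl) a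
  exact ⟨b, hb.symm⟩

/-- the element of the torus with given first column -/
theorem exists_torus {t : F} (hne : NE (cmpS t : Matrix (Fin 2) (Fin 2) F)) {x y : F} (h : x ^ 2 + t * x * y + y ^ 2 = 1) :
    ∃ a ∈ Ct (cmpS t : SL(2, F)), (a : Matrix (Fin 2) (Fin 2) F) 0 0 = x ∧ (a : Matrix (Fin 2) (Fin 2) F) 1 0 = y := by
  have htr : (cmpS t : Matrix (Fin 2) (Fin 2) F).trace = t := trace_cmp t 1
  have hb : bf (cmpS t : Matrix (Fin 2) (Fin 2) F).trace 1 (x, y) = 1 := by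
    rw [htr]
    unfold bf
    simp only
    linear_combination h
  refine ⟨fSL (cmpS t) ⟨_, hb⟩, (mem_Ct hne.ns).mpr ⟨_, _, fSL_coe _ _⟩, ?_, ?_⟩
  · show (x • (1 : Matrix (Fin 2) (Fin 2) F) + y • (Tw.cmp t 1)) 0 0 = x
    unfold Tw.cmp
    simp [Matrix.add_apply, Matrix.smul_apply]
  · show (x • (1 : Matrix (Fin 2) (Fin 2) F) + y • (Tw.cmp t 1)) 1 0 = y
    unfold Tw.cmp
    simp [Matrix.add_apply, Matrix.smul_apply]

theorem norm_ne {t : F} (ht : ∀ c : F, c ^ 2 - t * c + 1 ≠ 0) {x y : F} (h : x ^ 2 + t * x * y + y ^ 2 = 0) : x = 0 ∧ y = 0 := by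
  by_cases hx : x = 0
  · subst hx
    refine ⟨rfl, ?_⟩
    have : y ^ 2 = 0 := by linear_combination h
    exact pow_eq_zero_iff two_ne_zero |>.mp this
  · exfalso
    apply ht (-(y / x))
    field_simp
    linear_combination h

theorem aba [CharP F 2] {t : F} (ht : ∀ c : F, c ^ 2 - t * c + 1 ≠ 0) (g : SL(2, F)) :
    ∃ a ∈ Ct (cmpS t : SL(2, F)), ∃ b ∈ SL2.U F, ∃ c ∈ Ct (cmpS t : SL(2, F)), g = a * b * c := by
  have hne := ne_cmpS ht
  have h20 : (2 : F) = 0 := CharTwo.two_eq_zero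
  have hdet := g.det_coe
  rw [Matrix.det_fin_two] at hdet
  set p := (g : Matrix (Fin 2) (Fin 2) F) 0 0 with hp
  set r := (g : Matrix (Fin 2) (Fin 2) F) 0 1 with hr
  set s := (g : Matrix (Fin 2) (Fin 2) F) 1 0 with hs
  set u := (g : Matrix (Fin 2) (Fin 2) F) 1 1 with hu
  obtain ⟨a, ha⟩ := exists_root (p ^ 2 + t * p * s + s ^ 2 + 1)
  obtain ⟨b, hb⟩ := exists_root (r ^ 2 + t * r * u + u ^ 2 + 1)
  have hv : ∃ x y : F, (x ≠ 0 ∨ y ≠ 0) ∧ a * x + b * y = 0 := by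
    by_cases hab : a = 0 ∧ b = 0
    · exact ⟨1, 0, Or.inl one_ne_zero, by rw [hab.1, hab.2]; ring⟩
    · refine ⟨b, a, ?_, ?_⟩
      · by_cases h : b = 0
        · exact Or.inr (fun h' => hab ⟨h', h⟩)
        · exact Or.inl h
      · linear_combination a * b * h20
  obtain ⟨x, y, hxy, hlin⟩ := hv
  have hN : x ^ 2 + t * x * y + y ^ 2 ≠ 0 := by
    intro h
    obtain ⟨h1, h2⟩ := norm_ne ht h
    rcases hxy with h3 | h3
    · exact h3 h1
    · exact h3 h2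
  obtain ⟨k, hk⟩ := exists_root ((x ^ 2 + t * x * y + y ^ 2)⁻¹)
  have hk' : k * k * (x ^ 2 + t * x * y + y ^ 2) = 1 := by rw [hk]; exact inv_mul_cancel₀ hN
  -- both norms are one
  have h1 : (k * x) ^ 2 + t * (k * x) * (k * y) + (k * y) ^ 2 = 1 := by linear_combination hk'
  have h2 : (p * (k * x) + r * (k * y)) ^ 2 + t * (p * (k * x) + r * (k * y)) * (s * (k * x) + u * (k * y)) + (s * (k * x) + u * (k * y)) ^ 2 = 1 := by
    have h3 : k ^ 2 * (a * x + b * y) ^ 2 = 0 := by rw [hlin]; ring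
    linear_combination hk' + h3 - k ^ 2 * x ^ 2 * ha - k ^ 2 * y ^ 2 * hb + t * k ^ 2 * x * y * hdet +
      (k ^ 2 * (p * r * x * y + s * u * x * y + t * s * r * x * y) - k ^ 2 * a * b * x * y - k ^ 2 * x ^ 2 - k ^ 2 * y ^ 2) * h20
  obtain ⟨c, hc, hc0, hc1⟩ := exists_torus hne h1
  obtain ⟨a', ha', ha0, ha1⟩ := exists_torus hne h2
  refine ⟨a', ha', a'⁻¹ * g * c, ?_, c⁻¹, (Ct _).inv_mem hc, by group⟩
  have hdet' : (a'⁻¹ * g * c : SL(2, F)) = a'⁻¹ * (g * c) := mul_assoc _ _ _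
  have hgc0 : ((g * c : SL(2, F)) : Matrix (Fin 2) (Fin 2) F) 0 0 = (a' : Matrix (Fin 2) (Fin 2) F) 0 0 := by
    rw [Matrix.SpecialLinearGroup.coe_mul, Matrix.mul_apply, Fin.sum_univ_two, hc0, hc1, ha0]
  have hgc1 : ((g * c : SL(2, F)) : Matrix (Fin 2) (Fin 2) F) 1 0 = (a' : Matrix (Fin 2) (Fin 2) F) 1 0 := by
    rw [Matrix.SpecialLinearGroup.coe_mul, Matrix.mul_apply, Fin.sum_univ_two, hc0, hc1, ha1]
  have hda := a'.det_coe
  rw [Matrix.det_fin_two] at hda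
  rw [hdet']
  have e00 : ((a'⁻¹ * (g * c) : SL(2, F)) : Matrix (Fin 2) (Fin 2) F) 0 0 = 1 := by
    rw [Matrix.SpecialLinearGroup.coe_mul, Matrix.SpecialLinearGroup.coe_inv, Matrix.adjugate_fin_two, Matrix.mul_apply, Fin.sum_univ_two, hgc0, hgc1]
    simp only [Matrix.of_apply, Matrix.cons_val', Matrix.cons_val_zero, Matrix.cons_val_one, Matrix.empty_val', Matrix.cons_val_fin_one]
    linear_combination hda
  have e10 : ((a'⁻¹ * (g * c) : SL(2, F)) : Matrix (Fin 2) (Fin 2) F) 1 0 = 0 := by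
    rw [Matrix.SpecialLinearGroup.coe_mul, Matrix.SpecialLinearGroup.coe_inv, Matrix.adjugate_fin_two, Matrix.mul_apply, Fin.sum_univ_two, hgc0, hgc1]
    simp only [Matrix.of_apply, Matrix.cons_val', Matrix.cons_val_zero, Matrix.cons_val_one, Matrix.empty_val', Matrix.cons_val_fin_one]
    ring
  have e11 : ((a'⁻¹ * (g * c) : SL(2, F)) : Matrix (Fin 2) (Fin 2) F) 1 1 = 1 := by
    have hd := (a'⁻¹ * (g * c) : SL(2, F)).det_coe
    rw [Matrix.det_fin_two, e00, e10] at hd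
    linear_combination hd
  rw [SL2.mem_U_iff]
  exact ⟨e10, e00⟩

end Cfsg.Agent.Lib.Aba
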