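import Cfsg.Agent.Lib.AltSyl2

/-!
# Maximal subgroups containing Sylow 2-subgroups of alternating and symmetric groups
-/

set_option autoImplicit false

namespace Cfsg.Agent.Lib.AltSyl

open Equiv Equiv.Perm

/-! ### Uniqueness of the coatom -/

section uniq
variable {G : Type*} [Group G] [Finite G]

lemma not_uniq {S H1 H2 : Subgroup G} (h1 : H1 ≠ ⊤) (h2 : H2 ≠ ⊤) (hS1 : S ≤ H1) (hS2 : S ≤ H2) (h : H1 ⊔ H2 = ⊤) :
    ¬ ∃! M : Subgroup G, IsCoatom M ∧ S ≤ M := by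
  rintro ⟨M, ⟨hM, -⟩, hu⟩
  obtain ⟨M1, hM1, hle1⟩ := (eq_top_or_exists_le_coatom H1).resolve_left h1
  obtain ⟨M2, hM2, hle2⟩ := (eq_top_or_exists_le_coatom H2).resolve_left h2
  have e1 := hu M1 ⟨hM1, hS1.trans hle1⟩
  have e2 := hu M2 ⟨hM2, hS2.trans hle2⟩
  rw [e1] at hle1
  rw [e2] at hle2
  exact hM.1 (top_le_iff.1 (h ▸ sup_le hle1 hle2))

lemma uniq_of {S H0 : Subgroup G} (h0 : H0 ≠ ⊤) (hS : S ≤ H0) (h : ∀ M : Subgroup G, S ≤ M → ¬ M ≤ H0 → M = ⊤) :
    ∃! M : Subgroup G, IsCoatom M ∧ S ≤ M := by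
  have key : ∀ M : Subgroup G, IsCoatom M → S ≤ M → M = H0 := by
    intro M hM hSM
    by_cases hle : M ≤ H0
    · rcases hle.eq_or_lt with h1 | h1
      · exact h1
      · exact absurd (hM.2 _ h1) h0
    · exact absurd (h M hSM hle) hM.1
  obtain ⟨M1, hM1, hle1⟩ := (eq_top_or_exists_le_coatom H0).resolve_left h0
  refine ⟨M1, ⟨hM1, hS.trans hle1⟩, ?_⟩
  rintro M ⟨hM, hSM⟩
  rw [key M hM hSM, key M1 hM1 (hS.trans hle1)]

end uniq

open Pointwise in
/-- primitive groups containing a 3-cycle -/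
lemma prim_alt {Ω : Type} [Fintype Ω] [DecidableEq Ω] (L : Subgroup (Perm Ω)) (a : Ω) (ht : ∀ x, ∃ g ∈ L, g a = x)
    (hb : ∀ B : Set Ω, a ∈ B → (∀ g ∈ L, ∀ x ∈ B, g x ∈ B → ∀ y ∈ B, g y ∈ B) → (∃ b ∈ B, b ≠ a) → ∀ c, c ∈ B)
    {z : Perm Ω} (hz : IsThreeCycle z) (hzL : z ∈ L) : alternatingGroup Ω ≤ L := by
  have htr : MulAction.IsPretransitive L Ω := by
    constructor
    intro x y
    obtain ⟨g, hg, rfl⟩ := ht x
    obtain ⟨h, hh, rfl⟩ := ht y
    refine ⟨⟨h * g⁻¹, L.mul_mem hh (L.inv_mem hg)⟩, ?_⟩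
    show (h * g⁻¹) (g a) = h a
    rw [Perm.mul_apply, ← Perm.mul_apply g⁻¹ g, inv_mul_cancel, Perm.one_apply]
  have hprim : MulAction.IsPreprimitive L Ω := by
    refine MulAction.IsPreprimitive.of_isTrivialBlock_base a ?_
    intro B ha hB
    by_cases hs : B.Subsingleton
    · exact Or.inl hs
    · right
      rw [Set.eq_univ_iff_forall]
      apply hb B ha
      · intro g hg x hx hgx y hy
        have h1 := (MulAction.isBlock_iff_smul_eq_smul_of_nonempty.1 hB) (g₁ := ⟨g, hg⟩) (g₂ := 1) (by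
          refine ⟨g x, ⟨x, hx, rfl⟩, ?_⟩
          rw [one_smul]; exact hgx)
        rw [one_smul] at h1
        rw [← h1]
        exact ⟨y, hy, rfl⟩
      · rw [Set.not_subsingleton_iff] at hs
        obtain ⟨b, hb, hne⟩ := hs.exists_ne a
        exact ⟨b, hb, hne⟩
  exact alternatingGroup_le_of_isPreprimitive_of_isThreeCycle_mem hprim hz hzL

/-! ### The setup -/

/-- a Sylow subgroup in coordinates -/
structure Stp (K R : Type) [Fintype K] [DecidableEq K] [Fintype R] [DecidableEq R] (G : Type) [Group G] where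
  f : G →* Perm (Om K R)
  hf : Function.Injective f
  hA : alternatingGroup (Om K R) ≤ f.range
  S : Sylow 2 G
  T : Sylow 2 (Perm (Om K R))
  hE : EE K R ≤ T
  hS : ∀ x, x ∈ S ↔ f x ∈ T

variable {K R : Type} [Fintype K] [DecidableEq K] [Fintype R] [DecidableEq R] {G : Type} [Group G]

/-- flips -/
def fl (i : K) : Perm (Om K R) := swap (.inl (i, false)) (.inl (i, true))

lemma fl_mem (i : K) : fl i ∈ EE K R := swap_pa_mem (.inl (i, false))

lemma fl_apply (i : K) (x : Bool) : fl (R := R) i (.inl (i, x)) = .inl (i, !x) := by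
  cases x
  · exact swap_apply_left _ _
  · exact swap_apply_right _ _

lemma fl_ne (i j : K) (x : Bool) (h : j ≠ i) : fl (R := R) i (.inl (j, x)) = .inl (j, x) := by
  apply swap_apply_of_ne_of_ne <;> intro h2 <;> exact h (congrArg Prod.fst (Sum.inl.inj h2))

lemma fl_inr (i : K) (r : R) : fl (R := R) i (.inr r) = .inr r := by
  apply swap_apply_of_ne_of_ne <;> intro h2 <;> exact absurd h2 (by simp)

lemma sign_fl (i : K) : sign (fl (R := R) i) = -1 := sign_swap (fun h => by simpa using congrArg Prod.snd (Sum.inl.inj h))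

lemma sign_fl2 (i j : K) : sign (fl (R := R) i * fl j) = 1 := by rw [map_mul, sign_fl, sign_fl]; rfl

namespace Stp

variable (X : Stp K R G)

lemma exists_of_even {w : Perm (Om K R)} (h : sign w = 1) : ∃ x, X.f x = w := X.hA (mem_alternatingGroup.2 h)

lemma exists_S {w : Perm (Om K R)} (h : sign w = 1) (hw : w ∈ X.T) : ∃ x ∈ X.S, X.f x = w := by
  obtain ⟨x, rfl⟩ := X.exists_of_even h
  exact ⟨x, (X.hS x).2 hw, rfl⟩

lemma top_of_alt [Nonempty K] {M : Subgroup G} (hM : (X.S : Subgroup G) ≤ M) (h : alternatingGroup (Om K R) ≤ M.map X.f) : M = ⊤ := by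
  have hev : ∀ x, sign (X.f x) = 1 → x ∈ M := by
    intro x hx
    obtain ⟨y, hy, hyx⟩ := h (mem_alternatingGroup.2 hx)
    rw [← X.hf hyx]; exact hy
  rw [eq_top_iff]
  intro x _
  rcases Int.units_eq_one_or (sign (X.f x)) with hx | hx
  · exact hev x hx
  · obtain ⟨i⟩ := (inferInstance : Nonempty K)
    have h1 : sign (X.f x * fl i) = 1 := by rw [map_mul, hx, sign_fl]; rfl
    obtain ⟨y, hy⟩ := X.exists_of_even h1
    have h2 : X.f (x⁻¹ * y) = fl i := by rw [map_mul, hy, map_inv, inv_mul_cancel_left]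
    have h3 : x⁻¹ * y ∈ X.S := by rw [X.hS, h2]; exact X.hE (fl_mem i)
    have h4 : y ∈ M := hev y (by rw [hy]; exact h1)
    have h5 : x = y * (x⁻¹ * y)⁻¹ := by group
    rw [h5]
    exact M.mul_mem h4 (M.inv_mem (hM h3))

lemma comm [Subsingleton R] {x : G} (hx : x ∈ X.S) (a : Om K R) : X.f x (pa a) = pa (X.f x a) :=
  comm_of_norm X.T.isPGroup' X.hE (w := X.f x)
    (fun y hy => X.T.mul_mem (X.T.mul_mem ((X.hS x).1 hx) hy) (X.T.inv_mem ((X.hS x).1 hx))) a

end Stp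

end Cfsg.Agent.Lib.AltSyl
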