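import Cfsg.Agent.Lib.AltSyl3

/-!
# Maximal subgroups containing Sylow 2-subgroups: the cases
-/

set_option autoImplicit false

namespace Cfsg.Agent.Lib.AltSyl

open Equiv Equiv.Perm

variable {K R : Type} [Fintype K] [DecidableEq K] [Fintype R] [DecidableEq R] {G : Type} [Group G]

lemma fl_comm (i : K) (a : Om K R) : fl (R := R) i (pa a) = pa (fl i a) := EE_comm (fl_mem i) a

lemma tr1 (hK : 2 ≤ Fintype.card K) (i j : K) (x y : Bool) (π : Perm K) (hπ : π i = j) :
    ∃ w : Perm (Om K R), sign w = 1 ∧ (∀ a, w (pa a) = pa (w a)) ∧ w (.inl (i, x)) = .inl (j, y) ∧ (∀ r, w (.inr r) = .inr r) ∧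
      w * (lam π)⁻¹ ∈ EE K R := by
  by_cases hxy : x = y
  · refine ⟨lam π, sign_lam π, lam_pa π, ?_, fun r => rfl, ?_⟩
    · rw [lam_inl, hπ, hxy]
    · rw [mul_inv_cancel]; exact Subgroup.one_mem _
  · obtain ⟨m, hm⟩ : ∃ m, m ≠ j := Fintype.exists_ne_of_one_lt_card (by omega) j
    refine ⟨fl m * fl j * lam π, ?_, ?_, ?_, ?_, ?_⟩
    · rw [map_mul, sign_fl2, sign_lam, one_mul]
    · intro a
      rw [Perm.mul_apply, Perm.mul_apply, lam_pa, fl_comm, fl_comm]; rfl
    · rw [Perm.mul_apply, Perm.mul_apply, lam_inl, hπ, fl_apply, fl_ne m j _ hm.symm]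
      congr 2
      cases x <;> cases y <;> simp_all
    · intro r
      rw [Perm.mul_apply, Perm.mul_apply, lam_inr, fl_inr, fl_inr]
    · rw [mul_inv_cancel_right]
      exact Subgroup.mul_mem _ (fl_mem m) (fl_mem j)

lemma tr2 (hK : 3 ≤ Fintype.card K) (i j l : K) (y z : Bool) (hj : i ≠ j) (hl : i ≠ l) :
    ∃ w : Perm (Om K R), sign w = 1 ∧ (∀ a, w (pa a) = pa (w a)) ∧ (∀ x, w (.inl (i, x)) = .inl (i, x)) ∧ w (.inl (j, y)) = .inl (l, z) := by
  have hsw : swap j l i = i := swap_apply_of_ne_of_ne hj hl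
  by_cases hyz : y = z
  · refine ⟨lam (swap j l), sign_lam _, lam_pa _, ?_, ?_⟩
    · intro x; rw [lam_inl, hsw]
    · rw [lam_inl, swap_apply_left, hyz]
  · obtain ⟨m, hm⟩ : ∃ m, m ∉ ({i, l} : Finset K) := by
      by_contra hcon
      push Not at hcon
      have h1 : (Finset.univ : Finset K) ⊆ {i, l} := fun m _ => hcon m
      have h2 := Finset.card_le_card h1
      have h3 := Finset.card_le_two (a := i) (b := l)
      rw [Finset.card_univ] at h2
      omega
    simp only [Finset.mem_insert, Finset.mem_singleton, not_or] at hm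
    refine ⟨fl m * fl l * lam (swap j l), ?_, ?_, ?_, ?_⟩
    · rw [map_mul, sign_fl2, sign_lam, one_mul]
    · intro a
      rw [Perm.mul_apply, Perm.mul_apply, lam_pa, fl_comm, fl_comm]; rfl
    · intro x
      rw [Perm.mul_apply, Perm.mul_apply, lam_inl, hsw, fl_ne l i _ hl, fl_ne m i _ (Ne.symm hm.1)]
    · rw [Perm.mul_apply, Perm.mul_apply, lam_inl, swap_apply_left, fl_apply, fl_ne m l _ (Ne.symm hm.2)]
      congr 2
      cases y <;> cases z <;> simp_all

/-- the even case -/
lemma even_alt [IsEmpty R] (hK : 3 ≤ Fintype.card K) (L : Subgroup (Perm (Om K R)))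
    (hL : ∀ w : Perm (Om K R), sign w = 1 → (∀ a, w (pa a) = pa (w a)) → w ∈ L)
    {z : Perm (Om K R)} (hz : IsThreeCycle z) (hzL : z ∈ L) : alternatingGroup (Om K R) ≤ L := by
  obtain ⟨i0⟩ : Nonempty K := Fintype.card_pos_iff.1 (by omega)
  set a : Om K R := .inl (i0, false) with ha
  have hpa : pa a ≠ a := pa_ne _ _
  have ht : ∀ x, ∃ g ∈ L, g a = x := by
    rintro (⟨j, y⟩ | r)
    · obtain ⟨w, h1, h2, h3, -, -⟩ := tr1 (R := R) (by omega) i0 j false y (swap i0 j) (swap_apply_left _ _)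
      exact ⟨w, hL w h1 h2, h3⟩
    · exact (IsEmpty.false r).elim
  refine prim_alt L a ht ?_ hz hzL
  rintro B haB hB ⟨b, hbB, hba⟩
  by_cases hex : ∃ b ∈ B, b ≠ a ∧ b ≠ pa a
  · obtain ⟨b, hbB, hba, hbp⟩ := hex
    rcases b with ⟨j, y⟩ | r
    swap
    · exact (IsEmpty.false r).elim
    have hj : i0 ≠ j := by
      rintro rfl
      cases y
      · exact hba rfl
      · exact hbp rfl
    have h1 : ∀ l (z : Bool), i0 ≠ l → (.inl (l, z) : Om K R) ∈ B := by
      intro l z hl
      obtain ⟨w, h1, h2, h3, h4⟩ := tr2 (R := R) hK i0 j l y z hj hl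
      have h5 := hB w (hL w h1 h2) a haB (by rw [h3]; exact haB) _ hbB
      rwa [h4] at h5
    rintro (⟨l, z⟩ | r)
    swap
    · exact (IsEmpty.false r).elim
    by_cases hl : i0 = l
    · subst hl
      obtain ⟨w, h1, h2, h3, h4⟩ := tr2 (R := R) hK j i0 i0 false z hj.symm hj.symm
      have h5 := hB w (hL w h1 h2) _ hbB (by rw [h3]; exact hbB) a haB
      rwa [h4] at h5
    · exact h1 l z hl
  · exfalso
    push Not at hex
    have hB2 : ∀ b ∈ B, b = a ∨ b = pa a := fun b hb => by
      by_cases h : b = a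
      · exact Or.inl h
      · exact Or.inr (hex b hb h)
    have hpaB : pa a ∈ B := by rw [← hex b hbB hba]; exact hbB
    -- move the 3-cycle
    obtain ⟨x, hx⟩ : ∃ x, z x ≠ x := by
      by_contra hcon
      push Not at hcon
      have h1 : z = 1 := by ext y : 1; rw [hcon]; rfl
      have h2 := hz.orderOf
      rw [h1, orderOf_one] at h2
      omega
    obtain ⟨g, hgL, hg⟩ := ht x
    set t := g⁻¹ * z * g with htdef
    have htL : t ∈ L := L.mul_mem (L.mul_mem (L.inv_mem hgL) hzL) hgL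
    have hginv : ∀ y, g⁻¹ (g y) = y := fun y => by rw [← Perm.mul_apply, inv_mul_cancel, Perm.one_apply]
    have hta : t a ≠ a := by
      intro h
      have h1 : g⁻¹ (z (g a)) = a := h
      rw [hg] at h1
      have h2 := congrArg g h1
      rw [papp, hg] at h2
      exact hx h2
    have ht3 : ∀ y, t (t (t y)) = y := by
      intro y
      have h1 : t ^ 3 = 1 := by
        have h2 : t ^ 3 = g⁻¹ * z ^ 3 * g := by
          have h4 : t = g⁻¹ * z * g⁻¹⁻¹ := by rw [inv_inv]
          rw [h4, conj_pow, inv_inv]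
        have h3 : z ^ 3 = 1 := by rw [← hz.orderOf]; exact pow_orderOf_eq_one z
        rw [h2, h3]; group
      have h2 : (t ^ 3) y = y := by rw [h1]; rfl
      exact h2
    have hcard : t.support.card = 3 := by
      have h1 : t = g⁻¹ * z * g⁻¹⁻¹ := by rw [inv_inv]
      rw [h1, Equiv.Perm.card_support_conj, hz.card_support]
    by_cases htB : t a ∈ B
    · have h1 : t a = pa a := (hB2 _ htB).resolve_left hta
      have h2 := hB t htL a haB htB _ hpaB
      rcases hB2 _ h2 with h3 | h3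
      · have h4 := ht3 a
        rw [h1, h3, h1] at h4
        exact hpa h4
      · exact hpa (t.injective (h3.trans h1.symm))
    · have h1 : t (pa a) ∉ B := fun h => htB (hB t htL _ hpaB h _ haB)
      have hne : t a ≠ t (pa a) := fun h => hpa (t.injective h).symm
      have h2 : ({a, pa a, t a, t (pa a)} : Finset (Om K R)) ⊆ t.support := by
        intro y hy
        simp only [Finset.mem_insert, Finset.mem_singleton] at hy
        rw [Equiv.Perm.mem_support]
        rcases hy with rfl | rfl | rfl | rfl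
        · exact hta
        · intro h; rw [h] at h1; exact h1 hpaB
        · intro h; exact hta (t.injective h)
        · intro h
          have h3 := t.injective h
          rw [h3] at h1
          exact h1 hpaB
      have h3 := Finset.card_le_card h2
      rw [hcard] at h3
      have h4 : ({a, pa a, t a, t (pa a)} : Finset (Om K R)).card = 4 := by
        have e1 : a ≠ t a := fun h => htB (h ▸ haB)
        have e2 : a ≠ t (pa a) := fun h => h1 (h ▸ haB)
        have e3 : pa a ≠ t a := fun h => htB (h ▸ hpaB)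
        have e4 : pa a ≠ t (pa a) := fun h => h1 (h ▸ hpaB)
        rw [Finset.card_insert_of_notMem, Finset.card_insert_of_notMem, Finset.card_insert_of_notMem, Finset.card_singleton]
        · simp [hne]
        · simp [e3, e4]
        · simp [hpa.symm, e1, e2]
      omega

/-- mixing 3-cycles -/
def mx (p q r : Om K R) : Perm (Om K R) := swap p q * swap p r

lemma mx_three {p q r : Om K R} (h1 : p ≠ q) (h2 : p ≠ r) (h3 : q ≠ r) : IsThreeCycle (mx p q r) :=
  Equiv.Perm.isThreeCycle_swap_mul_swap_same h1 h2 h3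

lemma mx_sign {p q r : Om K R} (h1 : p ≠ q) (h2 : p ≠ r) : sign (mx p q r) = 1 := by
  rw [mx, map_mul, sign_swap h1, sign_swap h2]; rfl

lemma mx_q {p q r : Om K R} (h1 : p ≠ q) (h3 : q ≠ r) : mx p q r q = p := by
  rw [mx, Perm.mul_apply, swap_apply_of_ne_of_ne h1.symm h3, swap_apply_right]

lemma mx_r {p q r : Om K R} : mx p q r r = q := by
  rw [mx, Perm.mul_apply, swap_apply_right, swap_apply_left]

lemma mx_p {p q r : Om K R} (h2 : p ≠ r) (h3 : q ≠ r) : mx p q r p = r := by
  rw [mx, Perm.mul_apply, swap_apply_left, swap_apply_of_ne_of_ne h2.symm h3.symm]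

lemma mx_ne {p q r a : Om K R} (h1 : a ≠ p) (h2 : a ≠ q) (h3 : a ≠ r) : mx p q r a = a := by
  rw [mx, Perm.mul_apply, swap_apply_of_ne_of_ne h1 h3, swap_apply_of_ne_of_ne h1 h2]

namespace Stp

variable (X : Stp K R G)

/-- the centralizer of the pairing -/
def H1 : Subgroup G where
  carrier := {x | ∀ a, X.f x (pa a) = pa (X.f x a)}
  one_mem' := fun a => by rw [map_one]; rfl
  mul_mem' := fun {x y} hx hy a => by
    show X.f (x * y) (pa a) = pa (X.f (x * y) a)
    rw [map_mul, Perm.mul_apply, Perm.mul_apply]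
    rw [show X.f y (pa a) = pa (X.f y a) from hy a]
    exact hx _
  inv_mem' := fun {x} hx a => by
    show X.f x⁻¹ (pa a) = pa (X.f x⁻¹ a)
    rw [map_inv]
    apply (X.f x).injective
    rw [papp, show X.f x (pa ((X.f x)⁻¹ a)) = pa (X.f x ((X.f x)⁻¹ a)) from hx _, papp]

lemma mem_H1 {x : G} : x ∈ X.H1 ↔ ∀ a, X.f x (pa a) = pa (X.f x a) := Iff.rfl

lemma S_le_H1 [Subsingleton R] : (X.S : Subgroup G) ≤ X.H1 := fun _ hx => X.comm hx

lemma H1_map {w : Perm (Om K R)} (h : sign w = 1) (hw : ∀ a, w (pa a) = pa (w a)) : w ∈ X.H1.map X.f := by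
  obtain ⟨x, rfl⟩ := X.exists_of_even h
  exact ⟨x, hw, rfl⟩

lemma H1_ne (hK : 2 ≤ Fintype.card K) : X.H1 ≠ ⊤ := by
  intro h
  obtain ⟨i⟩ : Nonempty K := Fintype.card_pos_iff.1 (by omega)
  obtain ⟨l, hl⟩ : ∃ m, m ≠ i := Fintype.exists_ne_of_one_lt_card (by omega) i
  have n1 : (.inl (l, false) : Om K R) ≠ .inl (i, false) := fun h => hl (congrArg Prod.fst (Sum.inl.inj h))
  have n2 : (.inl (l, false) : Om K R) ≠ .inl (i, true) := fun h => hl (congrArg Prod.fst (Sum.inl.inj h))
  have n3 : (.inl (i, false) : Om K R) ≠ .inl (i, true) := fun h => by simpa using congrArg Prod.snd (Sum.inl.inj h)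
  obtain ⟨x, hx⟩ := X.exists_of_even (mx_sign n1 n2)
  have h1 : x ∈ X.H1 := by rw [h]; trivial
  have h2 := h1 (.inl (i, false))
  rw [hx, pa_inl, mx_q n1 n3, pa_inl] at h2
  simp only [Bool.not_false] at h2
  rw [mx_r] at h2
  exact hl (congrArg Prod.fst (Sum.inl.inj h2)).symm

end Stp

end Cfsg.Agent.Lib.AltSyl
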