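import Cfsg.Agent.Lib.AltSyl4

/-!
# Maximal subgroups containing Sylow 2-subgroups: even and odd degree
-/

set_option autoImplicit false

namespace Cfsg.Agent.Lib.AltSyl

open Equiv Equiv.Perm

variable {K R : Type} [Fintype K] [DecidableEq K] [Fintype R] [DecidableEq R] {G : Type} [Group G]

lemma card_model (n : ℕ) : Fintype.card (Om (Fin (n / 2)) (Fin (n % 2))) = n := by
  simp [Om]; omega

lemma inl_ne {i j : K} {x y : Bool} (h : i ≠ j) : (.inl (i, x) : Om K R) ≠ .inl (j, y) := fun h2 => h (congrArg Prod.fst (Sum.inl.inj h2))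

lemma ft_ne (i : K) : (.inl (i, false) : Om K R) ≠ .inl (i, true) := fun h => by simpa using congrArg Prod.snd (Sum.inl.inj h)

namespace Stp

variable (X : Stp K R G)

lemma exists_pi [Subsingleton R] {x : G} (hx : x ∈ X.S) : ∃ π : Perm K, lam π ∈ X.T ∧
    (∀ i y, ∃ y', X.f x (.inl (i, y)) = .inl (π i, y')) ∧ ∀ r, X.f x (.inr r) = .inr r := by
  obtain ⟨π, hπ⟩ := decomp (X.comm hx)
  have hT := (X.hS x).1 hx
  refine ⟨π, ?_, ?_, ?_⟩
  · have h5 := X.T.mul_mem (X.T.inv_mem (X.hE hπ)) hT
    have h6 : (X.f x * (lam π)⁻¹)⁻¹ * X.f x = lam π := by group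
    rwa [h6] at h5
  · intro i y
    have h1 := hπ (lam π (.inl (i, y)))
    have h2 : (X.f x * (lam π)⁻¹ : Perm (Om K R)) (lam π (.inl (i, y))) = X.f x (.inl (i, y)) := by
      rw [Perm.mul_apply, ← Perm.mul_apply (lam π)⁻¹, inv_mul_cancel, Perm.one_apply]
    rw [h2, lam_inl] at h1
    rcases h1 with h1 | h1
    · exact ⟨y, h1⟩
    · exact ⟨!y, h1⟩
  · intro r
    exact pa_fix (by rw [← X.comm hx, pa_inr]) (pa_inr r)

/-- stabilizer of the partition into the fibres of a map -/
def HR {α : Type} (c : Om K R → α) : Subgroup G where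
  carrier := {x | ∀ a b, c a = c b ↔ c (X.f x a) = c (X.f x b)}
  one_mem' := fun a b => by rw [map_one]; rfl
  mul_mem' := fun {x y} hx hy a b => by
    rw [map_mul, Perm.mul_apply, Perm.mul_apply]
    exact (hy a b).trans (hx _ _)
  inv_mem' := fun {x} hx a b => by
    rw [map_inv]
    have h := hx ((X.f x)⁻¹ a) ((X.f x)⁻¹ b)
    rw [papp, papp] at h
    exact h.symm

lemma HR_ne {α : Type} {c : Om K R → α} {p q r : Om K R} (h1 : p ≠ q) (h2 : p ≠ r) (h3 : q ≠ r) (hc : c q = c r) (hc2 : c p ≠ c q) :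
    X.HR c ≠ ⊤ := by
  intro h
  obtain ⟨x, hx⟩ := X.exists_of_even (mx_sign h1 h2)
  have h4 : x ∈ X.HR c := by rw [h]; trivial
  have h5 := (h4 q r).1 hc
  rw [hx, mx_q h1 h3, mx_r] at h5
  exact hc2 h5

lemma HR_map {α : Type} {c : Om K R → α} {w : Perm (Om K R)} (h : sign w = 1) (hw : ∀ a b, c a = c b ↔ c (w a) = c (w b)) :
    w ∈ (X.HR c).map X.f := by
  obtain ⟨x, rfl⟩ := X.exists_of_even h
  exact ⟨x, hw, rfl⟩

lemma exists_q [Subsingleton R] (hK : 2 ≤ Fintype.card K) : ∃ q : K → K, (∀ i, q (q i) = i) ∧ (∃ i, q i ≠ i) ∧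
    ∀ π : Perm K, lam π ∈ X.T → ∀ i, π (q i) = q (π i) := by
  obtain ⟨e, T', hE', hT'⟩ := exists_model (Ω := K) (K := Fin (Fintype.card K / 2)) (R := Fin (Fintype.card K % 2))
    (card_model _).symm (topSyl X.T X.hE)
  have : Subsingleton (Fin (Fintype.card K % 2)) := by
    rw [Fin.subsingleton_iff_le_one]; omega
  refine ⟨fun i => e.symm (pa (e i)), ?_, ?_, ?_⟩
  · intro i; simp [pa_pa]
  · refine ⟨e.symm (.inl (⟨0, by omega⟩, false)), ?_⟩
    intro h
    have h1 := e.symm.injective h
    rw [Equiv.apply_symm_apply] at h1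
    exact pa_ne _ _ h1
  · intro π hπ i
    have h1 : e.permCongrHom π ∈ T' := (hT' π).1 ((mem_topSyl X.T X.hE).2 hπ)
    have h2 := comm_of_norm T'.isPGroup' hE' (w := e.permCongrHom π)
      (fun y hy => T'.mul_mem (T'.mul_mem h1 hy) (T'.inv_mem h1)) (e i)
    have h3 : ∀ b, e.permCongrHom π b = e (π (e.symm b)) := fun b => rfl
    rw [h3, h3, Equiv.symm_apply_apply] at h2
    show π (e.symm (pa (e i))) = e.symm (pa (e (π i)))
    rw [← h2, Equiv.symm_apply_apply]

/-- even degree -/
theorem even_case [Finite G] [IsEmpty R] (hK : 3 ≤ Fintype.card K) : ¬ ∃! M : Subgroup G, IsCoatom M ∧ (X.S : Subgroup G) ≤ M := by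
  obtain ⟨q, hqq, ⟨i, hi⟩, hq⟩ := X.exists_q (by omega)
  haveI : Nonempty K := ⟨i⟩
  let idx : Om K R → K := Sum.elim Prod.fst isEmptyElim
  let c : Om K R → Sym2 K := fun a => s(idx a, q (idx a))
  have hci : ∀ j y, c (.inl (j, y)) = s(j, q j) := fun _ _ => rfl
  have hcq : ∀ j, (s(q j, q (q j)) : Sym2 K) = s(j, q j) := fun j => by rw [hqq, Sym2.eq_swap]
  obtain ⟨l, hl⟩ : ∃ m, m ∉ ({i, q i} : Finset K) := by
    by_contra hcon
    push Not at hcon
    have h1 : (Finset.univ : Finset K) ⊆ {i, q i} := fun m _ => hcon m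
    have h2 := Finset.card_le_card h1
    have h3 := Finset.card_le_two (a := i) (b := q i)
    rw [Finset.card_univ] at h2
    omega
  simp only [Finset.mem_insert, Finset.mem_singleton, not_or] at hl
  have hcl : c (.inl (l, false)) ≠ c (.inl (i, false)) := by
    rw [hci, hci]
    intro h
    rcases Sym2.eq_iff.1 h with h | h
    · exact hl.1 h.1
    · exact hl.2 h.1
  refine not_uniq (H1 := X.H1) (H2 := X.HR c) (X.H1_ne (by omega))
    (X.HR_ne (inl_ne hl.1) (inl_ne hl.1) (ft_ne i) rfl hcl) X.S_le_H1 ?_ ?_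
  · intro x hx
    obtain ⟨π, hπ, h1, -⟩ := X.exists_pi hx
    have h2 : ∀ a, c (X.f x a) = Sym2.map π (c a) := by
      rintro (⟨j, y⟩ | r)
      · obtain ⟨y', h3⟩ := h1 j y
        rw [h3, hci, hci, Sym2.map_mk]
        rw [← hq π hπ]
      · exact (IsEmpty.false r).elim
    intro a b
    rw [h2, h2]
    exact ⟨fun h => by rw [h], fun h => Sym2.map.injective π.injective h⟩
  · apply X.top_of_alt (X.S_le_H1.trans le_sup_left)
    have n1 : (.inl (q i, false) : Om K R) ≠ .inl (i, false) := inl_ne hi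
    have n2 : (.inl (q i, false) : Om K R) ≠ .inl (i, true) := inl_ne hi
    refine even_alt hK _ (fun w h1 h2 => Subgroup.map_mono le_sup_left (X.H1_map h1 h2)) (mx_three n1 n2 (ft_ne i)) ?_
    refine Subgroup.map_mono le_sup_right (X.HR_map (mx_sign n1 n2) ?_)
    have h3 : ∀ a, c (mx (.inl (q i, false)) (.inl (i, false)) (.inl (i, true)) a) = c a := by
      intro a
      by_cases ha1 : a = .inl (q i, false)
      · rw [ha1, mx_p n2 (ft_ne i), hci, hci, hcq]
      · by_cases ha2 : a = .inl (i, false)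
        · rw [ha2, mx_q n1 (ft_ne i), hci, hci, hcq]
        · by_cases ha3 : a = .inl (i, true)
          · rw [ha3, mx_r, hci, hci]
          · rw [mx_ne ha1 ha2 ha3]
    intro a b
    rw [h3, h3]

/-- the point stabilizer -/
def HI (r : R) : Subgroup G where
  carrier := {x | X.f x (.inr r) = .inr r}
  one_mem' := by
    show X.f 1 (.inr r) = .inr r
    rw [map_one]; rfl
  mul_mem' := fun {x y} hx hy => by
    show X.f (x * y) (.inr r) = .inr r
    rw [map_mul, Perm.mul_apply, show X.f y (.inr r) = .inr r from hy]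
    exact hx
  inv_mem' := fun {x} hx => by
    show X.f x⁻¹ (.inr r) = .inr r
    rw [map_inv]
    apply (X.f x).injective
    rw [papp]
    exact (show X.f x (.inr r) = .inr r from hx).symm

lemma HI_map {r : R} {w : Perm (Om K R)} (h : sign w = 1) (hw : w (.inr r) = .inr r) : w ∈ (X.HI r).map X.f := by
  obtain ⟨x, rfl⟩ := X.exists_of_even h
  exact ⟨x, hw, rfl⟩

lemma S_le_HI [Subsingleton R] (r : R) : (X.S : Subgroup G) ≤ X.HI r := fun x hx => by
  obtain ⟨π, hπ, h1, h2⟩ := X.exists_pi hx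
  exact h2 r

lemma HI_ne [Nonempty K] (r : R) : X.HI r ≠ ⊤ := by
  intro h
  obtain ⟨i⟩ := (inferInstance : Nonempty K)
  have n1 : (.inr r : Om K R) ≠ .inl (i, false) := by simp
  have n2 : (.inr r : Om K R) ≠ .inl (i, true) := by simp
  obtain ⟨x, hx⟩ := X.exists_of_even (mx_sign n1 n2)
  have h1 : x ∈ X.HI r := by rw [h]; trivial
  have h2 : X.f x (.inr r) = .inr r := h1
  rw [hx, mx_p n2 (ft_ne i)] at h2
  exact absurd h2 (by simp)

/-- odd degree, first part -/
theorem odd_not [Finite G] [Unique R] (hK : 2 ≤ Fintype.card K) (hnp : ¬ ∃ k : ℕ, Fintype.card K = 2 ^ k) :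
    ¬ ∃! M : Subgroup G, IsCoatom M ∧ (X.S : Subgroup G) ≤ M := by
  classical
  set T' := topSyl X.T X.hE with hT'
  obtain ⟨i0⟩ : Nonempty K := Fintype.card_pos_iff.1 (by omega)
  haveI : Nonempty K := ⟨i0⟩
  set O : Set K := MulAction.orbit (T' : Subgroup (Perm K)) i0 with hO
  have hOi : i0 ∈ O := MulAction.mem_orbit_self i0
  have hOne : ∃ m, m ∉ O := by
    by_contra hcon
    push Not at hcon
    obtain ⟨k, hk⟩ := T'.isPGroup'.card_orbit i0
    have h1 : O = Set.univ := Set.eq_univ_of_forall hcon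
    apply hnp
    refine ⟨k, ?_⟩
    rw [← hk, ← Nat.card_eq_fintype_card, ← Nat.card_univ (α := K), ← h1]
  obtain ⟨m, hm⟩ := hOne
  have hOT : ∀ π : Perm K, lam π ∈ X.T → ∀ j, j ∈ O ↔ π j ∈ O := by
    intro π hπ j
    have h1 : π ∈ (T' : Subgroup (Perm K)) := (mem_topSyl X.T X.hE).2 hπ
    have h2 : MulAction.orbit (T' : Subgroup (Perm K)) (π j) = MulAction.orbit (T' : Subgroup (Perm K)) j :=
      MulAction.orbit_smul (⟨π, h1⟩ : (T' : Subgroup (Perm K))) j
    rw [hO, ← MulAction.orbit_eq_iff, ← MulAction.orbit_eq_iff, h2]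
  let c : Om K R → Prop := fun a => ∃ i y, a = .inl (i, y) ∧ i ∈ O
  have hci : ∀ j y, c (.inl (j, y)) ↔ j ∈ O := by
    intro j y
    constructor
    · rintro ⟨i, y', h, hi⟩
      have e : j = i := congrArg Prod.fst (Sum.inl.inj h)
      rw [e]; exact hi
    · intro h; exact ⟨j, y, rfl, h⟩
  have hcr : ¬ c (.inr default) := by
    rintro ⟨i, y', h, hi⟩
    simp at h
  have hmi : m ≠ i0 := fun h => hm (h ▸ hOi)
  refine not_uniq (H1 := X.HI default) (H2 := X.HR c) (X.HI_ne _)
    (X.HR_ne (p := .inl (m, false)) (q := .inl (i0, false)) (r := .inl (i0, true)) (inl_ne hmi) (inl_ne hmi) (ft_ne i0)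
      (propext ((hci _ _).trans (hci _ _).symm)) (fun h => hm ((hci m false).1 (h ▸ (hci i0 false).2 hOi)))) (X.S_le_HI _) ?_ ?_
  · intro x hx
    obtain ⟨π, hπ, h1, h0⟩ := X.exists_pi hx
    have h2 : ∀ a, c (X.f x a) = c a := by
      rintro (⟨j, y⟩ | r)
      · obtain ⟨y', h3⟩ := h1 j y
        rw [h3]
        exact propext ((hci _ _).trans ((hOT π hπ j).symm.trans (hci _ _).symm))
      · rw [h0]
    intro a b
    rw [h2, h2]
  · apply X.top_of_alt ((X.S_le_HI default).trans le_sup_left)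
    have n3 : (.inr default : Om K R) ≠ .inl (m, false) := by simp
    have n4 : (.inl (i0, false) : Om K R) ≠ .inl (m, false) := inl_ne hmi.symm
    have z1 : (.inl (m, false) : Om K R) ≠ .inl (i0, false) := inl_ne hmi
    have z2 : (.inl (m, false) : Om K R) ≠ .inl (i0, true) := inl_ne hmi
    have hz1 : mx (.inl (m, false)) (.inl (i0, false)) (.inl (i0, true)) (.inr default : Om K R) = .inr default :=
      mx_ne (by simp) (by simp) (by simp)
    refine prim_alt _ (.inr default) ?_ ?_ (mx_three z1 z2 (ft_ne i0))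
      (Subgroup.map_mono le_sup_left (X.HI_map (mx_sign z1 z2) hz1))
    · -- transitivity
      have h5 : swap (.inr default : Om K R) (.inl (m, false)) * fl i0 ∈ (X.HR c).map X.f := by
        apply X.HR_map
        · rw [map_mul, sign_swap n3, sign_fl]; rfl
        · have h6 : ∀ a, c ((swap (.inr default : Om K R) (.inl (m, false)) * fl i0 : Perm (Om K R)) a) = c a := by
            rintro (⟨j, y⟩ | r)
            · rw [Perm.mul_apply]
              by_cases hj : j = i0
              · subst hj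
                rw [fl_apply, swap_apply_of_ne_of_ne (by simp) (inl_ne hmi.symm)]
                exact propext ((hci _ _).trans (hci _ _).symm)
              · rw [fl_ne _ _ _ hj]
                by_cases hjm : (.inl (j, y) : Om K R) = .inl (m, false)
                · rw [hjm, swap_apply_right]
                  exact propext ⟨fun h => absurd h hcr, fun h => absurd ((hci _ _).1 h) hm⟩
                · rw [swap_apply_of_ne_of_ne (by simp) hjm]
            · rw [Subsingleton.elim r default, Perm.mul_apply, fl_inr, swap_apply_left]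
              exact propext ⟨fun h => absurd ((hci _ _).1 h) hm, fun h => absurd h hcr⟩
          intro a b
          rw [h6, h6]
      rintro (⟨j, y⟩ | r)
      · obtain ⟨w, h7, h8, h9, h10, -⟩ := tr1 (R := R) hK m j false y (swap m j) (swap_apply_left _ _)
        refine ⟨w * (swap (.inr default : Om K R) (.inl (m, false)) * fl i0), Subgroup.mul_mem _
          (Subgroup.map_mono le_sup_left (X.HI_map h7 (h10 _))) (Subgroup.map_mono le_sup_right h5), ?_⟩
        rw [Perm.mul_apply, Perm.mul_apply, fl_inr, swap_apply_left, h9]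
      · exact ⟨1, Subgroup.one_mem _, by rw [Subsingleton.elim r default]; rfl⟩
    · rintro B haB hB ⟨b, hbB, hba⟩ cc
      rcases b with ⟨j, y⟩ | r
      swap
      · exact absurd (by rw [Subsingleton.elim r default]) hba
      rcases cc with ⟨l, z⟩ | r
      · obtain ⟨w, h7, h8, h9, h10, -⟩ := tr1 (R := R) hK j l y z (swap j l) (swap_apply_left _ _)
        have h11 := hB w (Subgroup.map_mono le_sup_left (X.HI_map h7 (h10 _))) (.inr default) haB (by rw [h10]; exact haB) _ hbB
        rwa [h9] at h11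
      · rw [Subsingleton.elim r default]; exact haB

end Stp

end Cfsg.Agent.Lib.AltSyl
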