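import Cfsg.Agent.Lib.AltSyl5

/-!
# Maximal subgroups containing Sylow 2-subgroups: degree `2 ^ k + 1`
-/

set_option autoImplicit false

namespace Cfsg.Agent.Lib.AltSyl

open Equiv Equiv.Perm

lemma card_orbit_sylow {H X : Type*} [Group H] [Finite H] [MulAction H X] {p : ℕ} [Fact p.Prime] (P : Sylow p H) (x : X) {k : ℕ}
    (h : p ^ k ∣ Nat.card (MulAction.orbit H x)) : p ^ k ∣ Nat.card (MulAction.orbit (P : Subgroup H) x) := by
  have hp : p.Prime := Fact.out
  have h1 : Nat.card (MulAction.orbit H x) * Nat.card (MulAction.stabilizer H x) = Nat.card H := by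
    rw [← Nat.card_prod]; exact Nat.card_congr (MulAction.orbitProdStabilizerEquivGroup H x)
  have h2 : Nat.card (MulAction.orbit (P : Subgroup H) x) * Nat.card (MulAction.stabilizer (P : Subgroup H) x) = Nat.card (P : Subgroup H) := by
    rw [← Nat.card_prod]; exact Nat.card_congr (MulAction.orbitProdStabilizerEquivGroup (P : Subgroup H) x)
  rw [Sylow.card_eq_multiplicity] at h2
  have h3 : Nat.card (MulAction.stabilizer (P : Subgroup H) x) ∣ Nat.card (MulAction.stabilizer H x) := by
    let φ : MulAction.stabilizer (P : Subgroup H) x →* MulAction.stabilizer H x :=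
      { toFun := fun s => ⟨((s : (P : Subgroup H)) : H), s.2⟩
        map_one' := rfl
        map_mul' := fun _ _ => rfl }
    refine Subgroup.card_dvd_of_injective φ ?_
    intro s t hst
    have h5 : ((s : (P : Subgroup H)) : H) = ((t : (P : Subgroup H)) : H) :=
      congrArg (fun z : MulAction.stabilizer H x => (z : H)) hst
    exact Subtype.ext (Subtype.ext h5)
  obtain ⟨j, hj, hj2⟩ := (Nat.dvd_prime_pow hp).1 (Dvd.intro_left _ h2)
  rw [hj2] at h2 h3
  set v := (Nat.card H).factorization p with hv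
  have h4 : p ^ (k + j) ∣ Nat.card H := by
    rw [pow_add, ← h1]; exact mul_dvd_mul h h3
  have h5 : k + j ≤ v := (hp.pow_dvd_iff_le_factorization Nat.card_pos.ne').1 h4
  have h6 : Nat.card (MulAction.orbit (P : Subgroup H) x) = p ^ (v - j) := by
    have h7 : p ^ v = p ^ (v - j) * p ^ j := by rw [← pow_add]; congr 1; omega
    rw [h7] at h2
    exact Nat.eq_of_mul_eq_mul_right (pow_pos hp.pos j) h2
  rw [h6]
  exact pow_dvd_pow p (by omega)

/-- transitivity of Sylow subgroups in prime power degree -/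
lemma sylow_trans {K : Type} [Fintype K] [DecidableEq K] {k : ℕ} (hc : Fintype.card K = 2 ^ k) (T : Sylow 2 (Perm K)) (i j : K) :
    ∃ π ∈ T, π i = j := by
  haveI : Fact (Nat.Prime 2) := ⟨Nat.prime_two⟩
  have h1 : MulAction.orbit (Perm K) i = Set.univ := by
    apply Set.eq_univ_of_forall
    intro l
    exact ⟨swap i l, swap_apply_left i l⟩
  have h2 := card_orbit_sylow T i (k := k) (by rw [h1, Nat.card_univ, Nat.card_eq_fintype_card, hc])
  have h3 : Nat.card (MulAction.orbit (T : Subgroup (Perm K)) i) = Nat.card K := by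
    apply le_antisymm
    · exact Nat.card_le_card_of_injective (fun x => (x : K)) Subtype.val_injective
    · rw [Nat.card_eq_fintype_card (α := K), hc]
      have : Nonempty (MulAction.orbit (T : Subgroup (Perm K)) i) := ⟨⟨i, MulAction.mem_orbit_self i⟩⟩
      exact Nat.le_of_dvd Nat.card_pos h2
  have h4 : (MulAction.orbit (T : Subgroup (Perm K)) i) = Set.univ := by
    apply Set.eq_of_subset_of_ncard_le (Set.subset_univ _)
    rw [Set.ncard_univ, ← h3]; rfl
  have h5 : j ∈ MulAction.orbit (T : Subgroup (Perm K)) i := by rw [h4]; trivial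
  obtain ⟨⟨π, hπ⟩, h6⟩ := h5
  exact ⟨π, hπ, h6⟩

lemma swap_commute {α : Type*} [DecidableEq α] {p q r s : α} (h1 : p ≠ r) (h2 : p ≠ s) (h3 : q ≠ r) (h4 : q ≠ s) :
    Commute (swap p q) (swap r s) := by
  have h5 := Equiv.swap_apply_apply (swap p q) r s
  rw [swap_apply_of_ne_of_ne h1.symm h3.symm, swap_apply_of_ne_of_ne h2.symm h4.symm] at h5
  show swap p q * swap r s = swap r s * swap p q
  rw [eq_mul_inv_iff_mul_eq] at h5
  exact h5.symm

variable {K R : Type} [Fintype K] [DecidableEq K] [Fintype R] [DecidableEq R] {G : Type} [Group G]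

lemma fl_eq (i : K) (x : Bool) : fl (R := R) i = swap (.inl (i, x)) (pa (.inl (i, x))) := by
  cases x
  · rfl
  · exact swap_comm _ _

lemma odd_three [Unique R] (hK : 4 ≤ Fintype.card K) (L : Subgroup (Perm (Om K R))) (hL : ∀ w ∈ EE K R, sign w = 1 → w ∈ L)
    {g : Perm (Om K R)} (hg : g ∈ L) (hg1 : g (.inr default) ≠ .inr default) : ∃ z ∈ L, IsThreeCycle z := by
  obtain ⟨v, hv⟩ := g.surjective (.inr default)
  rcases v with ⟨i0, x0⟩ | r
  swap
  · rw [Subsingleton.elim r default] at hv; exact absurd hv hg1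
  set v : Om K R := .inl (i0, x0) with hvdef
  have hpv : pa v ≠ v := pa_ne _ _
  have he : g (pa v) ≠ .inr default := fun h => hpv (g.injective (h.trans hv.symm))
  rcases hge : g (pa v) with ⟨ie, ye⟩ | r
  swap
  · exact absurd (by rw [hge, Subsingleton.elim r default]) he
  set e : Om K R := .inl (ie, ye) with hedef
  have hpe : pa e ≠ e := pa_ne _ _
  -- choose i
  obtain ⟨i, hi0, hib⟩ : ∃ i : K, i ≠ i0 ∧ ∀ x, g (.inl (i, x)) ≠ pa e := by
    obtain ⟨s, hs⟩ := g.surjective (pa e)
    let is : K := Sum.elim Prod.fst (fun _ => i0) s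
    obtain ⟨i, hi⟩ : ∃ m, m ∉ ({i0, is} : Finset K) := by
      by_contra hcon
      push Not at hcon
      have h1 : (Finset.univ : Finset K) ⊆ {i0, is} := fun m _ => hcon m
      have h2 := Finset.card_le_card h1
      have h3 := Finset.card_le_two (a := i0) (b := is)
      rw [Finset.card_univ] at h2
      omega
    simp only [Finset.mem_insert, Finset.mem_singleton, not_or] at hi
    refine ⟨i, hi.1, ?_⟩
    intro x h
    have h1 := g.injective (h.trans hs.symm)
    apply hi.2
    show i = Sum.elim Prod.fst (fun _ => i0) s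
    rw [← h1]; rfl
  set a : Om K R := .inl (i, false) with hadef
  have hpa : pa a = .inl (i, true) := rfl
  have hav : ∀ x, (.inl (i, x) : Om K R) ≠ v := fun x => inl_ne hi0
  have havp : ∀ x, (.inl (i, x) : Om K R) ≠ pa v := fun x => inl_ne hi0
  have hga : ∀ x, g (.inl (i, x)) ≠ .inr default := fun x h => hav x (g.injective (h.trans hv.symm))
  have hga2 : ∀ x, g (.inl (i, x)) ≠ e := fun x h => havp x (g.injective (h.trans hge.symm))
  -- choose j
  obtain ⟨j, hj1, hj2⟩ : ∃ j : K, j ≠ ie ∧ ∀ x y, g (.inl (i, x)) ≠ .inl (j, y) := by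
    let i1 : K := Sum.elim Prod.fst (fun _ => i0) (g (.inl (i, false)))
    let i2 : K := Sum.elim Prod.fst (fun _ => i0) (g (.inl (i, true)))
    obtain ⟨j, hj⟩ : ∃ m, m ∉ ({ie, i1, i2} : Finset K) := by
      by_contra hcon
      push Not at hcon
      have h1 : (Finset.univ : Finset K) ⊆ {ie, i1, i2} := fun m _ => hcon m
      have h2 := Finset.card_le_card h1
      have h3 := Finset.card_le_three (a := ie) (b := i1) (c := i2)
      rw [Finset.card_univ] at h2
      omega
    simp only [Finset.mem_insert, Finset.mem_singleton, not_or] at hj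
    refine ⟨j, hj.1, ?_⟩
    intro x y h
    cases x
    · apply hj.2.1
      show j = Sum.elim Prod.fst (fun _ => i0) (g (.inl (i, false)))
      rw [h]; rfl
    · apply hj.2.2
      show j = Sum.elim Prod.fst (fun _ => i0) (g (.inl (i, true)))
      rw [h]; rfl
  -- the elements
  have hy : g * (fl i0 * fl i) * g⁻¹ = swap (.inr default) e * swap (g a) (g (pa a)) := by
    rw [fl_eq i0 x0, fl_eq i false]
    have h1 := Equiv.swap_apply_apply g v (pa v)
    have h2 := Equiv.swap_apply_apply g a (pa a)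
    calc g * (swap v (pa v) * swap a (pa a)) * g⁻¹ = (g * swap v (pa v) * g⁻¹) * (g * swap a (pa a) * g⁻¹) := by group
      _ = swap (g v) (g (pa v)) * swap (g a) (g (pa a)) := by rw [h1, h2]
      _ = _ := by rw [hv, hge]
  have hx : (fl ie * fl j : Perm (Om K R)) = swap e (pa e) * fl j := by rw [fl_eq ie ye]
  have hyL : swap (.inr default) e * swap (g a) (g (pa a)) ∈ L := by
    rw [← hy]
    exact L.mul_mem (L.mul_mem hg (hL _ (Subgroup.mul_mem _ (fl_mem _) (fl_mem _)) (sign_fl2 _ _))) (L.inv_mem hg)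
  have hxL : swap e (pa e) * fl j ∈ L := by
    rw [← hx]
    exact hL _ (Subgroup.mul_mem _ (fl_mem _) (fl_mem _)) (sign_fl2 _ _)
  have hje : ∀ x, (.inl (j, x) : Om K R) ≠ e := fun x => inl_ne hj1
  have hjpe : ∀ x, (.inl (j, x) : Om K R) ≠ pa e := fun x => inl_ne hj1
  set s1 := swap e (pa e) with hs1
  set s2 := swap (.inr default) e with hs2
  set Y := swap (g a) (g (pa a)) with hY
  have c1 : Commute (fl j : Perm (Om K R)) s2 := swap_commute (by simp) (hje _) (by simp) (hje _)
  have c2 : Commute (fl j : Perm (Om K R)) Y := swap_commute (fun h => hj2 false false h.symm) (fun h => hj2 true false h.symm)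
    (fun h => hj2 false true h.symm) (fun h => hj2 true true h.symm)
  have c3 : Commute s1 (fl j : Perm (Om K R)) := swap_commute (hje _).symm (hje _).symm (hjpe _).symm (hjpe _).symm
  have c4 : Commute s1 Y := swap_commute (hga2 _).symm (hga2 _).symm (hib _).symm (hib _).symm
  have c5 : Commute s2 Y := swap_commute (hga _).symm (hga _).symm (hga2 _).symm (hga2 _).symm
  have e1 : s1 * fl j * (s2 * Y) = (s1 * s2) * (fl j * Y) := by
    rw [mul_assoc, mul_assoc, ← mul_assoc (fl j) s2, c1.eq, mul_assoc]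
  have c6 : Commute (s1 * s2) (fl j * Y) := (c3.mul_left c1.symm).mul_right (c4.mul_left c5)
  have e2 : (fl j * Y) * (fl j * Y) = 1 := by
    have h1 : (fl j : Perm (Om K R)) * fl j = 1 := EE_sq (fl_mem j)
    have h2 : Y * Y = 1 := swap_mul_self _ _
    rw [mul_assoc, ← mul_assoc Y, ← c2.eq, mul_assoc, h2, mul_one, h1]
  refine ⟨(s1 * fl j * (s2 * Y)) * (s1 * fl j * (s2 * Y)), L.mul_mem (L.mul_mem hxL hyL) (L.mul_mem hxL hyL), ?_⟩
  have e3 : (s1 * fl j * (s2 * Y)) * (s1 * fl j * (s2 * Y)) = (s1 * s2) * (s1 * s2) := by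
    rw [e1, mul_assoc, ← mul_assoc (fl j * Y), ← c6.eq, mul_assoc (s1 * s2) (fl j * Y), e2, mul_one]
  rw [e3]
  apply IsThreeCycle.isThreeCycle_sq
  rw [hs2, swap_comm (.inr default) e, hs1]
  exact Equiv.Perm.isThreeCycle_swap_mul_swap_same hpe.symm (by simp [hedef]) (by simp [hedef, pa_inl])

namespace Stp

variable (X : Stp K R G)

/-- transitivity of the Sylow subgroup in degree `2 ^ (k + 1) + 1` -/
lemma exists_delta [Unique R] {k : ℕ} (hk : 1 ≤ k) (hc : Fintype.card K = 2 ^ k) (i j : K) (x y : Bool) :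
    ∃ s ∈ X.S, sign (X.f s) = 1 ∧ X.f s (.inl (i, x)) = .inl (j, y) ∧ X.f s (.inr default) = .inr default := by
  obtain ⟨π, hπ, hij⟩ := sylow_trans hc (topSyl X.T X.hE) i j
  have hK : 2 ≤ Fintype.card K := by
    rw [hc]
    calc 2 = 2 ^ 1 := rfl
      _ ≤ 2 ^ k := Nat.pow_le_pow_right (by norm_num) hk
  obtain ⟨w, h1, h2, h3, h4, h5⟩ := tr1 (R := R) hK i j x y π hij
  have h6 : w ∈ X.T := by
    have h7 : w = (w * (lam π)⁻¹) * lam π := by group
    rw [h7]
    exact X.T.mul_mem (X.hE h5) hπ
  obtain ⟨s, hs, rfl⟩ := X.exists_S h1 h6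
  exact ⟨s, hs, h1, h3, h4 _⟩

/-- degree `2 ^ k + 1` -/
theorem odd_uniq [Finite G] [Unique R] {k : ℕ} (hk : 1 ≤ k) (hc : Fintype.card K = 2 ^ k) :
    ∃! M : Subgroup G, IsCoatom M ∧ (X.S : Subgroup G) ≤ M := by
  classical
  obtain ⟨i0⟩ : Nonempty K := Fintype.card_pos_iff.1 (by rw [hc]; exact pow_pos (by norm_num) _)
  have : Nonempty K := ⟨i0⟩
  refine uniq_of (H0 := X.HI default) (X.HI_ne _) (X.S_le_HI _) ?_
  intro M hSM hM
  apply X.top_of_alt hSM
  obtain ⟨g0, hg0M, hg0⟩ := SetLike.not_le_iff_exists.1 hM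
  have hg0' : X.f g0 (.inr default) ≠ .inr default := hg0
  set L := M.map X.f with hL
  have hEL : ∀ w ∈ EE K R, sign w = 1 → w ∈ L := by
    intro w hw hs
    obtain ⟨x, hx, rfl⟩ := X.exists_S hs (X.hE hw)
    exact ⟨x, hSM hx, rfl⟩
  have hδ : ∀ i j x y, ∃ w ∈ L, sign w = 1 ∧ w (.inl (i, x)) = .inl (j, y) ∧ w (.inr default) = .inr default := by
    intro i j x y
    obtain ⟨s, hs, h1, h2, h3⟩ := X.exists_delta hk hc i j x y
    exact ⟨X.f s, ⟨s, hSM hs, rfl⟩, h1, h2, h3⟩
  -- an even element moving the point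
  obtain ⟨g1, hg1L, hg1s, hg1⟩ : ∃ g1 ∈ L, sign g1 = 1 ∧ g1 (.inr default) ≠ .inr default := by
    rcases Int.units_eq_one_or (sign (X.f g0)) with hx | hx
    · exact ⟨X.f g0, ⟨g0, hg0M, rfl⟩, hx, hg0'⟩
    · have h1 : sign (X.f g0 * fl i0) = 1 := by rw [map_mul, hx, sign_fl]; rfl
      obtain ⟨y, hy⟩ := X.exists_of_even h1
      have h2 : X.f (g0⁻¹ * y) = fl i0 := by rw [map_mul, hy, map_inv, inv_mul_cancel_left]
      have h3 : g0⁻¹ * y ∈ X.S := by rw [X.hS, h2]; exact X.hE (fl_mem i0)
      refine ⟨X.f g0 * fl i0, ?_, h1, ?_⟩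
      · rw [← h2]
        exact L.mul_mem ⟨g0, hg0M, rfl⟩ ⟨_, hSM h3, rfl⟩
      · rw [Perm.mul_apply, fl_inr]; exact hg0'
  have ht : ∀ a, ∃ g ∈ L, sign g = 1 ∧ g (.inr default) = a := by
    rintro (⟨j, y⟩ | r)
    · rcases h : g1 (.inr default) with ⟨l, z⟩ | r
      · obtain ⟨w, hw, h1, h2, h3⟩ := hδ l j z y
        refine ⟨w * g1, L.mul_mem hw hg1L, by rw [map_mul, h1, hg1s]; rfl, ?_⟩
        rw [Perm.mul_apply, h, h2]
      · exact absurd (by rw [h, Subsingleton.elim r default]) hg1
    · exact ⟨1, L.one_mem, map_one _, by rw [Subsingleton.elim r default]; rfl⟩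
  by_cases hk1 : k = 1
  · -- degree 5
    rw [hk1, pow_one] at hc
    have hΩ : Fintype.card (Om K R) = 5 := by
      rw [Fintype.card_sum, Fintype.card_prod, hc, Fintype.card_bool, Fintype.card_unique]
    have hΩ' : Nat.card (Om K R) = 5 := by rw [Nat.card_eq_fintype_card, hΩ]
    have : IsSimpleGroup (alternatingGroup (Om K R)) := alternatingGroup.isSimpleGroup (by rw [hΩ'])
    have hA : Nat.card (alternatingGroup (Om K R)) = 60 := by
      have : Nontrivial (Om K R) := Fintype.one_lt_card_iff_nontrivial.1 (by omega)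
      rw [nat_card_alternatingGroup, hΩ']
      simp [Nat.factorial]
    have h1 : L.subgroupOf (alternatingGroup (Om K R)) = ⊤ := by
      by_contra hne
      have h2 := index_ge5 hA hne
      have h3 := (L.subgroupOf (alternatingGroup (Om K R))).card_mul_index
      rw [hA] at h3
      -- orbit on pairs
      set L0 := L.subgroupOf (alternatingGroup (Om K R)) with hL0
      let p0 : Om K R × Om K R := (.inr default, .inl (i0, false))
      have horb : MulAction.orbit L0 p0 = {p | p.1 ≠ p.2} := by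
        ext ⟨a, b⟩
        constructor
        · rintro ⟨w, hw⟩ h
          have h4 : ((w : alternatingGroup (Om K R)) : Perm (Om K R)) (.inr default) = a := congrArg Prod.fst hw
          have h5 : ((w : alternatingGroup (Om K R)) : Perm (Om K R)) (.inl (i0, false)) = b := congrArg Prod.snd hw
          have h6 : a = b := h
          rw [← h4, ← h5] at h6
          exact absurd (Equiv.injective _ h6) (by simp)
        · intro h
          have hab : a ≠ b := h
          obtain ⟨w, hw, h4, h5⟩ := ht a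
          have h6 : w⁻¹ b ≠ .inr default := by
            intro h6
            apply hab
            rw [← h5, ← h6, papp]
          rcases h7 : w⁻¹ b with ⟨j, y⟩ | r
          swap
          · exact absurd (by rw [h7, Subsingleton.elim r default]) h6
          obtain ⟨u, hu, h8, h9, h10⟩ := hδ i0 j false y
          have h11 : sign (w * u) = 1 := by rw [map_mul, h4, h8]; rfl
          refine ⟨⟨⟨w * u, mem_alternatingGroup.2 h11⟩, L.mul_mem hw hu⟩, ?_⟩
          apply Prod.ext
          · show (w * u) (.inr default) = a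
            rw [Perm.mul_apply, h10, h5]
          · show (w * u) (.inl (i0, false)) = b
            rw [Perm.mul_apply, h9, ← h7, papp]
      have hcard : Nat.card (MulAction.orbit L0 p0) = 20 := by
        rw [horb]
        have h4 : Nat.card ({p | p.1 ≠ p.2} : Set (Om K R × Om K R)) = (Finset.univ : Finset (Om K R)).offDiag.card := by
          have h5 : ({p | p.1 ≠ p.2} : Set (Om K R × Om K R)) = ((Finset.univ : Finset (Om K R)).offDiag : Set (Om K R × Om K R)) := by
            ext p; simp [Finset.mem_offDiag]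
          rw [h5]
          exact Set.ncard_coe_finset _
        rw [h4, Finset.offDiag_card, Finset.card_univ, hΩ]
      have h4 : 20 ∣ Nat.card L0 := by
        rw [← hcard]
        exact Dvd.intro _ (by rw [← Nat.card_prod]; exact Nat.card_congr (MulAction.orbitProdStabilizerEquivGroup L0 p0))
      obtain ⟨m, hm⟩ := h4
      rw [hm] at h3
      have h5 : m * L0.index = 3 := by nlinarith
      have h6 : L0.index ∣ 3 := Dvd.intro_left _ h5
      have h7 := Nat.le_of_dvd (by norm_num) h6
      omega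
    intro w hw
    have h2 : (⟨w, hw⟩ : alternatingGroup (Om K R)) ∈ L.subgroupOf (alternatingGroup (Om K R)) := by rw [h1]; trivial
    exact h2
  · -- at least 9 points
    have hK4 : 4 ≤ Fintype.card K := by
      rw [hc]
      calc 4 = 2 ^ 2 := rfl
        _ ≤ 2 ^ k := Nat.pow_le_pow_right (by norm_num) (by omega)
    obtain ⟨z, hzL, hz⟩ := odd_three hK4 L hEL hg1L hg1
    refine prim_alt L (.inr default) ?_ ?_ hz hzL
    · intro a
      obtain ⟨w, hw, h4, h5⟩ := ht a
      exact ⟨w, hw, h5⟩
    · rintro B haB hB ⟨b, hbB, hba⟩ cc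
      rcases b with ⟨j, y⟩ | r
      swap
      · exact absurd (by rw [Subsingleton.elim r default]) hba
      rcases cc with ⟨l, z⟩ | r
      · obtain ⟨w, hw, h1, h2, h3⟩ := hδ j l y z
        have h11 := hB w hw (.inr default) haB (by rw [h3]; exact haB) _ hbB
        rwa [h2] at h11
      · rw [Subsingleton.elim r default]; exact haB

end Stp

end Cfsg.Agent.Lib.AltSyl
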