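import Cfsg.Agent.Lib.AltSyl6

/-!
# Maximal subgroups containing Sylow 2-subgroups: conclusion
-/

set_option autoImplicit false

namespace Cfsg.Agent.Lib.AltSyl

open Equiv Equiv.Perm

theorem main (n : ℕ) (hn : 5 ≤ n) {G : Type} [Group G] [Finite G] (X : Stp (Fin (n / 2)) (Fin (n % 2)) G) :
    (∃! M : Subgroup G, IsCoatom M ∧ (X.S : Subgroup G) ≤ M) ↔ ∃ k : ℕ, 2 ≤ k ∧ n = 2 ^ k + 1 := by
  have h2k : ∀ k : ℕ, 2 ≤ k → 2 ^ k = 2 * 2 ^ (k - 1) := by
    intro k hk
    rw [← pow_succ']; congr 1; omega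
  rcases Nat.mod_two_eq_zero_or_one n with h | h
  · have hemp : IsEmpty (Fin (n % 2)) := by rw [h]; infer_instance
    refine iff_of_false (X.even_case (by rw [Fintype.card_fin]; omega)) ?_
    rintro ⟨k, hk, hnk⟩
    have := h2k k hk
    omega
  · letI : Unique (Fin (n % 2)) := h ▸ (inferInstance : Unique (Fin 1))
    by_cases hex : ∃ k : ℕ, Fintype.card (Fin (n / 2)) = 2 ^ k
    · obtain ⟨k, hk⟩ := hex
      have hk' := hk
      rw [Fintype.card_fin] at hk'
      have hk1 : 1 ≤ k := by
        by_contra hcon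
        have : k = 0 := by omega
        rw [this] at hk'
        omega
      refine iff_of_true (X.odd_uniq hk1 hk) ⟨k + 1, by omega, ?_⟩
      rw [pow_succ]
      omega
    · refine iff_of_false (X.odd_not (by rw [Fintype.card_fin]; omega) hex) ?_
      rintro ⟨k, hk, hnk⟩
      apply hex
      refine ⟨k - 1, ?_⟩
      rw [Fintype.card_fin]
      have := h2k k hk
      omega

theorem sym_case (n : ℕ) (hn : 5 ≤ n) (S : Sylow 2 (Perm (Fin n))) :
    (∃! M : Subgroup (Perm (Fin n)), IsCoatom M ∧ (S : Subgroup (Perm (Fin n))) ≤ M) ↔ ∃ k : ℕ, 2 ≤ k ∧ n = 2 ^ k + 1 := by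
  obtain ⟨e, T', hE, hT⟩ := exists_model (Ω := Fin n) (K := Fin (n / 2)) (R := Fin (n % 2)) (by rw [card_model, Fintype.card_fin]) S
  let X : Stp (Fin (n / 2)) (Fin (n % 2)) (Perm (Fin n)) :=
    { f := e.permCongrHom.toMonoidHom
      hf := e.permCongrHom.injective
      hA := fun w _ => ⟨e.permCongrHom.symm w, e.permCongrHom.apply_symm_apply w⟩
      S := S
      T := T'
      hE := hE
      hS := hT }
  exact main n hn X

theorem alt_case (n : ℕ) (hn : 5 ≤ n) (S : Sylow 2 (alternatingGroup (Fin n))) :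
    (∃! M : Subgroup (alternatingGroup (Fin n)), IsCoatom M ∧ (S : Subgroup (alternatingGroup (Fin n))) ≤ M) ↔
      ∃ k : ℕ, 2 ≤ k ∧ n = 2 ^ k + 1 := by
  obtain ⟨T, hTS⟩ := Sylow.exists_comap_eq_of_injective S (f := (alternatingGroup (Fin n)).subtype) Subtype.val_injective
  obtain ⟨e, T', hE, hT⟩ := exists_model (Ω := Fin n) (K := Fin (n / 2)) (R := Fin (n % 2)) (by rw [card_model, Fintype.card_fin]) T
  let X : Stp (Fin (n / 2)) (Fin (n % 2)) (alternatingGroup (Fin n)) :=
    { f := e.permCongrHom.toMonoidHom.comp (alternatingGroup (Fin n)).subtype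
      hf := e.permCongrHom.injective.comp Subtype.val_injective
      hA := fun w hw => by
        have h1 : sign (e.permCongrHom.symm w) = 1 := by
          have h2 : sign (e.permCongrHom (e.permCongrHom.symm w)) = sign (e.permCongrHom.symm w) := Equiv.Perm.sign_permCongr e _
          rw [← h2, MulEquiv.apply_symm_apply]
          exact mem_alternatingGroup.1 hw
        exact ⟨⟨e.permCongrHom.symm w, mem_alternatingGroup.2 h1⟩, e.permCongrHom.apply_symm_apply w⟩
      S := S
      T := T'
      hE := hE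
      hS := fun x => by
        have h1 : x ∈ (S : Subgroup (alternatingGroup (Fin n))) ↔
            x ∈ (T : Subgroup (Perm (Fin n))).comap (alternatingGroup (Fin n)).subtype := by rw [hTS]
        exact h1.trans (hT _) }
  exact main n hn X

end Cfsg.Agent.Lib.AltSyl
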