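import Cfsg.Agent.Lib.BlockRey
import Cfsg.Agent.Lib.BlockKB
import Cfsg.Agent.Lib.BlockLar
import Cfsg.Agent.Lib.BlockMaxB
import Cfsg.Agent.Lib.BlockIndIn
import Cfsg.Agent.Lib.BlockBFM

import Cfsg.Agent.Lib.BlkH8J

/-!
Extensions of principal block characters of a normal subgroup.
-/

set_option autoImplicit false
set_option linter.style.haveILetI false
set_option linter.unusedVariables false
set_option linter.unusedSectionVars false
set_option linter.unusedDecidableInType false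
set_option linter.unusedFintypeInType false
set_option linter.unusedSimpArgs false

namespace Cfsg.Agent.Lib.BlkH8K
open Cfsg Cfsg.Agent.Lib.BlockLoc Cfsg.Agent.Lib.BlockGA Cfsg.Agent.Lib.CharBasic
open Cfsg.Agent.Lib.BlockIdem Cfsg.Agent.Lib.BlockPP Cfsg.Agent.Lib.BlockOrth
open Cfsg.Agent.Lib.BlockRed Cfsg.Agent.Lib.BlockDef Cfsg.Agent.Lib.BlockDeg
open Cfsg.Agent.Lib.BlockNP Cfsg.Agent.Lib.BlockInd Cfsg.Agent.Lib.BlockSecond
open Cfsg.Agent.Lib.BlockFirst Cfsg.Agent.Lib.BlockHt Cfsg.Agent.Lib.BlockM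
open Cfsg.Agent.Lib.BlockCov Cfsg.Agent.Lib.BlockQuot Cfsg.Agent.Lib.CharKer
open Cfsg.Agent.Lib.BlockQuotB Cfsg.Agent.Lib.BlockMore Cfsg.Agent.Lib.BlockMoreB
open Cfsg.Agent.Lib.BlockTr Cfsg.Agent.Lib.CharNormal Cfsg.Agent.Lib.BlockCovB
open Cfsg.Agent.Lib.BlockBP Cfsg.Agent.Lib.BlockInt Cfsg.Agent.Lib.BlockSum Cfsg.Agent.Lib.BlockRk
open Cfsg.Agent.Lib.BlockFusB Cfsg.Agent.Lib.BlockMax Cfsg.Agent.Lib.CharSplit Cfsg.Agent.Lib.CharBrauer
open Cfsg.Agent.Lib.CharInd Cfsg.Agent.Lib.BlockPC Cfsg.Agent.Lib.BlockPair Cfsg.Agent.Lib.BlockPairB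
open Cfsg.Agent.Lib.BlockPairC Cfsg.Agent.Lib.BlockPairD Cfsg.Agent.Lib.BlockPairE
open Cfsg.Agent.Lib.BlockRey Cfsg.Agent.Lib.BlockPairF Cfsg.Agent.Lib.BlockFus Cfsg.Agent.Lib.BlockNilB Cfsg.Agent.Lib.BlockNil Cfsg.Agent.Lib.CharClifford
open Cfsg.Agent.Lib.BlockKB Cfsg.Agent.Lib.BlockLar Cfsg.Agent.Lib.BlockMaxB Cfsg.Agent.Lib.BlockIndIn Cfsg.Agent.Lib.BlockBFM
open Cfsg.Agent.Lib.BlkH8J
open scoped ComplexConjugate

open Cfsg.Agent.Lib.BlkH8G Cfsg.Agent.Lib.BlkH8F Cfsg.Agent.Lib.BlkH8H Cfsg.Agent.Lib.BlkH8B Cfsg.Agent.Lib.BlkH8I Cfsg.Agent.Lib.BlockCov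

section Lift

variable {p : ℕ} {M : Ideal AlgInt}

theorem loc_of_pow (hM : IsPModular p M) {z : ℂ} {n : ℕ} (hn : n ≠ 0) (h : MemLocalRing M (z ^ n)) :
    MemLocalRing M z := by
  obtain ⟨a, b, hb, hab⟩ := h
  have hb0 : (b : ℂ) ≠ 0 := coe_ne_zero_of_not_mem b hb
  obtain ⟨k, rfl⟩ := Nat.exists_eq_succ_of_ne_zero hn
  have h1 : (z * b) ^ (k + 1) = ((a * b ^ k : AlgInt) : ℂ) := by
    rw [mul_pow]
    have : z ^ (k + 1) = a / b := hab.symm ▸ rfl
    rw [this]
    push_cast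
    field_simp
    ring
  have h2 : IsIntegral ℤ (z * b) := by
    refine IsIntegral.of_pow (Nat.succ_pos k) ?_
    rw [h1]
    exact (a * b ^ k : AlgInt).2
  refine ⟨⟨z * b, h2⟩, b, hb, ?_⟩
  change z * b / b = z
  rw [mul_div_cancel_right₀ _ hb0] <;> rfl

theorem eq_one_of_max (hM : IsPModular p M) {n : ℕ} (hn : ¬ p ∣ n) {z : ℂ} (hz : z ^ n = 1)
    (h : MemLocalIdeal M (z - 1)) : z = 1 := by
  by_contra hne
  have h0 : ∑ i ∈ Finset.range n, z ^ i = 0 := by
    have := mul_neg_geom_sum z n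
    rw [hz, sub_self] at this
    rcases mul_eq_zero.1 this with h1 | h1
    · exact absurd (sub_eq_zero.1 h1).symm hne
    · exact h1
  have hn0 : n ≠ 0 := by rintro rfl; exact hn (dvd_zero p)
  have hzl : MemLocalRing M z := loc_of_isIntegral hM (isIntegral_of_pow_eq_one hn0 hz)
  have h1 : MemLocalIdeal M ((n : ℂ) - ∑ i ∈ Finset.range n, z ^ i) := by
    have : (n : ℂ) - ∑ i ∈ Finset.range n, z ^ i = ∑ i ∈ Finset.range n, (1 - z ^ i) := by
      rw [Finset.sum_sub_distrib]; simp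
    rw [this]
    refine max_sum hM _ _ fun i _ => ?_
    rw [← red_eq_iff hM (loc_one hM) (loc_pow hM hzl i), red_pow hM hzl]
    rw [← red_eq_iff hM hzl (loc_one hM)] at h
    rw [h, red_one, one_pow]
  rw [h0, sub_zero, max_natCast_iff hM] at h1
  exact hn h1

theorem root_inj (hM : IsPModular p M) {n : ℕ} (hn : ¬ p ∣ n) {z w : ℂ} (hz : z ^ n = 1)
    (hw : w ^ n = 1) (h : red hM z = red hM w) : z = w := by
  have hn0 : n ≠ 0 := by rintro rfl; exact hn (dvd_zero p)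
  have hzl : MemLocalRing M z := loc_of_isIntegral hM (isIntegral_of_pow_eq_one hn0 hz)
  have hwl : MemLocalRing M w := loc_of_isIntegral hM (isIntegral_of_pow_eq_one hn0 hw)
  have hw0 : w ≠ 0 := by
    rintro rfl
    rw [zero_pow hn0] at hw
    exact zero_ne_one hw
  have hwu : MemLocalRing M w⁻¹ := loc_of_isIntegral hM (isIntegral_of_pow_eq_one hn0 (by rw [inv_pow, hw, inv_one]))
  rw [red_eq_iff hM hzl hwl] at h
  have h1 : MemLocalIdeal M (z * w⁻¹ - 1) := by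
    have := max_mul_left hM hwu h
    have e : w⁻¹ * (z - w) = z * w⁻¹ - 1 := by field_simp
    rwa [e] at this
  have h2 := eq_one_of_max hM hn (by rw [mul_pow, inv_pow, hz, hw, inv_one, mul_one]) h1
  field_simp at h2
  exact h2

/-- Lifting homomorphisms to the residue field. -/
theorem exists_lift (hM : IsPModular p M) {Γ : Type*} [Group Γ] [Finite Γ] (τ : Γ → ResF hM)
    (h1 : τ 1 = 1) (hmul : ∀ a b, τ (a * b) = τ a * τ b) :
    ∃ μ : Γ →* ℂˣ, ∀ γ, red hM (μ γ : ℂ) = τ γ := by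
  classical
  haveI : Fact p.Prime := ⟨hM.1⟩
  haveI : CharP (ResF hM) p := inferInstance
  set n := Nat.card Γ / p ^ (Nat.card Γ).factorization p with hn
  have hn0 : n ≠ 0 := (Nat.ordCompl_pos p Nat.card_pos.ne').ne'
  have hpn : ¬ p ∣ n := Nat.not_dvd_ordCompl hM.1 Nat.card_pos.ne'
  let T : Γ →* ResF hM := ⟨⟨τ, h1⟩, hmul⟩
  have hT : ∀ γ, τ γ ^ n = 1 := by
    intro γ
    have e1 : τ γ ^ Nat.card Γ = 1 := by
      have : T (γ ^ Nat.card Γ) = T γ ^ Nat.card Γ := map_pow T γ _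
      rw [pow_card_eq_one'] at this
      rw [map_one] at this
      exact this.symm
    have e2 : Nat.card Γ = n * p ^ (Nat.card Γ).factorization p := by
      rw [mul_comm]; exact (Nat.ordProj_mul_ordCompl_eq_self _ _).symm
    rw [e2, pow_mul] at e1
    have e3 : (τ γ ^ n - 1) ^ (p ^ (Nat.card Γ).factorization p) = 0 := by
      rw [sub_pow_char_pow, e1, one_pow, sub_self]
    exact sub_eq_zero.1 (pow_eq_zero_iff (pow_ne_zero _ hM.1.ne_zero) |>.1 e3)
  have hζ := Complex.isPrimitiveRoot_exp n hn0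
  set ζ := Complex.exp (2 * Real.pi * Complex.I / n) with hζdef
  have hζl : MemLocalRing M ζ := loc_of_isIntegral hM (isIntegral_of_pow_eq_one hn0 hζ.pow_eq_one)
  have hξ : IsPrimitiveRoot (red hM ζ) n := by
    refine ⟨by rw [← red_pow hM hζl, hζ.pow_eq_one, red_one], fun l hl => ?_⟩
    rw [← red_pow hM hζl, ← red_one hM] at hl
    refine hζ.dvd_of_pow_eq_one l (root_inj hM hpn ?_ (one_pow n) hl)
    rw [← pow_mul, mul_comm, pow_mul, hζ.pow_eq_one, one_pow]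
  haveI : NeZero n := ⟨hn0⟩
  choose i hi1 hi2 using fun γ => hξ.eq_pow_of_pow_eq_one (hT γ)
  have hpow : ∀ k : ℕ, (ζ ^ k) ^ n = 1 := fun k => by
    rw [← pow_mul, mul_comm, pow_mul, hζ.pow_eq_one, one_pow]
  have hred : ∀ γ, red hM (ζ ^ i γ) = τ γ := fun γ => by rw [red_pow hM hζl, hi2]
  have hζu : ζ ≠ 0 := hζ.ne_zero hn0
  have hone : ζ ^ i 1 = 1 := root_inj hM hpn (hpow _) (one_pow n) (by rw [hred, h1, red_one])
  have hm : ∀ a b, ζ ^ i (a * b) = ζ ^ i a * ζ ^ i b := by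
    intro a b
    refine root_inj hM hpn (hpow _) (by rw [mul_pow, hpow, hpow, mul_one]) ?_
    rw [hred, hmul, red_mul hM (loc_pow hM hζl _) (loc_pow hM hζl _), hred, hred]
  refine ⟨⟨⟨fun γ => Units.mk0 (ζ ^ i γ) (pow_ne_zero _ hζu), Units.ext hone⟩,
    fun a b => Units.ext (hm a b)⟩, fun γ => hred γ⟩

end Lift

section Ext

variable {G : Type*} [Group G] [Finite G] {N : Subgroup G} [hN : N.Normal] {p : ℕ} {M : Ideal AlgInt}

theorem om_mul_of_res {ψ : IrrCharacter G} {θ : IrrCharacter N} (h : ∀ n : N, ψ.1 n = θ.1 n)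
    {a : GA ℂ G} (ha : NInv N a) (b : GA ℂ G) : om ψ.1 (a * b) = om ψ.1 a * om ψ.1 b := by
  classical
  cases nonempty_fintype G
  haveI : Fintype N := Fintype.ofFinite _
  obtain ⟨ψ, hψ⟩ := ψ
  obtain ⟨n, ρ, hρ, rfl⟩ := hψ
  simp only at h ⊢
  let σ : Representation ℂ N (Fin n → ℂ) := ρ.comp N.subtype
  have hσ : σ.character = θ.1 := funext fun x => h x
  have hdim : Module.finrank ℂ (Representation.IntertwiningMap σ σ) = 1 := by
    have h1 := classInner_char_eq_finrank σ σ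
    rw [hσ, irr_inner_self θ.2] at h1
    exact_mod_cast h1.symm
  have hcomm : ∀ x : N, (∑ g, a g • ρ g) ∘ₗ σ x = σ x ∘ₗ (∑ g, a g • ρ g) := by
    intro x
    change (∑ g, a g • ρ g) * ρ x = ρ x * (∑ g, a g • ρ g)
    rw [Finset.sum_mul, Finset.mul_sum]
    refine Fintype.sum_equiv (MulAut.conj (x : G)⁻¹).toEquiv _ _ fun g => ?_
    simp only [MulEquiv.toEquiv_eq_coe, MulEquiv.coe_toEquiv, MulAut.conj_apply, inv_inv]
    rw [smul_mul_assoc, mul_smul_comm, ← map_mul, ← map_mul]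
    have h1 : a ((x : G)⁻¹ * g * x) = a g := by
      have := ha (x : G)⁻¹ (N.inv_mem x.2) g
      rwa [inv_inv] at this
    rw [h1]
    congr 2
    group
  have hid : (⟨LinearMap.id, fun g => rfl⟩ : Representation.IntertwiningMap σ σ) ≠ 0 := by
    intro h0
    have h1 := congrArg (fun f : Representation.IntertwiningMap σ σ => f.toLinearMap) h0
    have h2 : (LinearMap.id : (Fin n → ℂ) →ₗ[ℂ] (Fin n → ℂ)) = 0 := h1
    have h3 : ρ.character 1 = 0 := by
      rw [Representation.char_one, ← LinearMap.trace_id ℂ, h2, map_zero]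
    exact isIrr_one_ne_zero (isIrrCharacter_of_rep ρ) h3
  obtain ⟨c, hc⟩ := (finrank_eq_one_iff_of_nonzero' _ hid).1 hdim ⟨∑ g, a g • ρ g, hcomm⟩
  have h2 : ∑ g, a g • ρ g = c • LinearMap.id := by
    have := congrArg (fun f : Representation.IntertwiningMap σ σ => f.toLinearMap) hc
    exact this.symm
  have h3 : (∑ g, a g * ρ.character g) = c * ρ.character 1 := by
    have h4 := congrArg (LinearMap.trace ℂ (Fin n → ℂ)) h2
    rw [map_sum, map_smul] at h4
    simp only [map_smul, smul_eq_mul] at h4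
    rw [Representation.char_one]
    rw [LinearMap.trace_id] at h4
    exact h4
  have h5 : ρ.character 1 ≠ 0 := isIrr_one_ne_zero (isIrrCharacter_of_rep ρ)
  have h1 : ∑ g, a g • ρ g = om ρ.character a • LinearMap.id := by
    rw [h2, om_eq, h3, mul_div_cancel_right₀ _ h5]
  have h2 : ∑ g, (a * b) g • ρ g = (∑ g, a g • ρ g) * (∑ g, b g • ρ g) := by
    rw [Finset.sum_mul_sum]
    simp only [ga_mul, Finset.sum_smul]
    rw [Finset.sum_comm]
    refine Finset.sum_congr rfl fun x _ => ?_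
    refine Fintype.sum_equiv (Equiv.mulLeft x⁻¹) _ _ fun y => ?_
    simp only [Equiv.coe_mulLeft]
    rw [smul_mul_smul_comm, ← map_mul, mul_inv_cancel_left]
  rw [h1] at h2
  have h4 := congrArg (LinearMap.trace ℂ (Fin n → ℂ)) h2
  have h5 : om ρ.character a • LinearMap.id * (∑ g, b g • ρ g) =
      om ρ.character a • (∑ g, b g • ρ g) := by
    rw [smul_mul_assoc]; rfl
  rw [h5, map_smul, map_sum, map_sum] at h4
  simp only [map_smul, smul_eq_mul] at h4
  change ∑ g, (a * b) g * ρ.character g = om ρ.character a * ∑ g, b g * ρ.character g at h4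
  rw [om_eq _ (a * b), h4, om_eq _ b]
  ring

end Ext

end Cfsg.Agent.Lib.BlkH8K
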