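import Cfsg.Agent.Lib.BlockRey
import Cfsg.Agent.Lib.BlockKB
import Cfsg.Agent.Lib.BlockLar
import Cfsg.Agent.Lib.BlockMaxB
import Cfsg.Agent.Lib.BlockIndIn
import Cfsg.Agent.Lib.BlockBFM

import Cfsg.Agent.Lib.BlkH8K

/-!
Extensions of principal block characters in the principal block.
-/

set_option autoImplicit false
set_option linter.style.haveILetI false
set_option linter.unusedVariables false
set_option linter.unusedSectionVars false
set_option linter.unusedDecidableInType false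
set_option linter.unusedFintypeInType false
set_option linter.unusedSimpArgs false

namespace Cfsg.Agent.Lib.BlkH8L
open Cfsg Cfsg.Agent.Lib.BlockLoc Cfsg.Agent.Lib.BlockGA Cfsg.Agent.Lib.CharBasic
open Cfsg.Agent.Lib.BlockIdem Cfsg.Agent.Lib.BlockPP Cfsg.Agent.Lib.BlockOrth
open Cfsg.Agent.Lib.BlockRed Cfsg.Agent.Lib.BlockDef Cfsg.Agent.Lib.BlockDeg
open Cfsg.Agent.Lib.BlockNP Cfsg.Agent.Lib.BlockInd Cfsg.Agent.Lib.BlockSecond
open Cfsg.Agent.Lib.BlockFirst Cfsg.Agent.Lib.BlockHt Cfsg.Agent.Lib.BlockM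
open Cfsg.Agent.Lib.BlockCov Cfsg.Agent.Lib.BlockQuot Cfsg.Agent.Lib.CharKer
open Cfsg.Agent.Lib.BlockQuotB Cfsg.Agent.Lib.BlockMore Cfsg.Agent.Lib.BlockMoreB
open Cfsg.Agent.Lib.BlockTr Cfsg.Agent.Lib.CharNormal Cfsg.Agent.Lib.BlockCovB
open Cfsg.Agent.Lib.BlockBP Cfsg.Agent.Lib.BlockInt Cfsg.Agent.Lib.BlockSum Cfsg.Agent.Lib.BlockRk
open Cfsg.Agent.Lib.BlockFusB Cfsg.Agent.Lib.BlockMax Cfsg.Agent.Lib.CharSplit Cfsg.Agent.Lib.CharBrauer
open Cfsg.Agent.Lib.CharInd Cfsg.Agent.Lib.BlockPC Cfsg.Agent.Lib.BlockPair Cfsg.Agent.Lib.BlockPairB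
open Cfsg.Agent.Lib.BlockPairC Cfsg.Agent.Lib.BlockPairD Cfsg.Agent.Lib.BlockPairE
open Cfsg.Agent.Lib.BlockRey Cfsg.Agent.Lib.BlockPairF Cfsg.Agent.Lib.BlockFus Cfsg.Agent.Lib.BlockNilB Cfsg.Agent.Lib.BlockNil Cfsg.Agent.Lib.CharClifford
open Cfsg.Agent.Lib.BlockKB Cfsg.Agent.Lib.BlockLar Cfsg.Agent.Lib.BlockMaxB Cfsg.Agent.Lib.BlockIndIn Cfsg.Agent.Lib.BlockBFM
open Cfsg.Agent.Lib.BlkH8K
open scoped ComplexConjugate

open Cfsg.Agent.Lib.BlkH8G Cfsg.Agent.Lib.BlkH8F Cfsg.Agent.Lib.BlkH8H Cfsg.Agent.Lib.BlkH8B Cfsg.Agent.Lib.BlkH8I Cfsg.Agent.Lib.BlkH8J Cfsg.Agent.Lib.BlockCov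

section Main

variable {G : Type*} [Group G] [Finite G] {N : Subgroup G} [hN : N.Normal] {p : ℕ} {M : Ideal AlgInt}

theorem om_res_eq [Fintype N] {ψ : IrrCharacter G} {θ : IrrCharacter N} (h : ∀ n : N, ψ.1 n = θ.1 n)
    {a : GA ℂ G} (hs : SC (1 : G ⧸ N) a) : om ψ.1 a = om θ.1 (resGA N a) := by
  classical
  cases nonempty_fintype G
  have h1 : a = extGA N (resGA N a) := (extGA_resGA hs.mem).symm
  rw [om_eq, om_eq]
  have h3 := extGA_sum N (resGA N a) ψ.1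
  rw [← h1] at h3
  rw [h3, show ψ.1 1 = θ.1 1 from h 1]
  congr 1
  exact Finset.sum_congr rfl fun n _ => by rw [h n]

theorem SC.pow {γ : G ⧸ N} {a : GA ℂ G} (ha : SC γ a) (n : ℕ) : SC (γ ^ n) (a ^ n) := by
  classical
  cases nonempty_fintype G
  induction n with
  | zero =>
    rw [pow_zero, pow_zero]
    intro g hg
    by_cases h : g = 1
    · rw [h]; rfl
    · rw [ga_one, if_neg h] at hg
      exact absurd rfl hg
  | succ n ih => rw [pow_succ, pow_succ]; exact ih.mul ha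

theorem NInv.one : NInv N (1 : GA ℂ G) := NInv.of_isCl IsCl.one

theorem NInv.pow {a : GA ℂ G} (ha : NInv N a) (n : ℕ) : NInv N (a ^ n) := by
  induction n with
  | zero => rw [pow_zero]; exact NInv.one
  | succ n ih => rw [pow_succ]; exact ih.mul ha

theorem om_pow_of_res {ψ : IrrCharacter G} {θ : IrrCharacter N} (h : ∀ n : N, ψ.1 n = θ.1 n)
    {a : GA ℂ G} (ha : NInv N a) (n : ℕ) : om ψ.1 (a ^ n) = om ψ.1 a ^ n := by
  induction n with
  | zero => rw [pow_zero, pow_zero]; exact om_one ψ.2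
  | succ n ih => rw [pow_succ, pow_succ, om_mul_of_res h (NInv.pow ha n), ih]

theorem loc_om_of_res (hM : IsPModular p M) {ψ : IrrCharacter G} {θ : IrrCharacter N}
    (h : ∀ n : N, ψ.1 n = θ.1 n) {γ : G ⧸ N} {a : GA ℂ G} (ha : NInv N a) (hl : IsLoc M a)
    (hs : SC γ a) : MemLocalRing M (om ψ.1 a) := by
  haveI : Fintype N := Fintype.ofFinite _
  have hn : Nat.card (G ⧸ N) ≠ 0 := Nat.card_pos.ne'
  refine loc_of_pow hM hn ?_
  rw [← om_pow_of_res h ha]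
  have hs' : SC (1 : G ⧸ N) (a ^ Nat.card (G ⧸ N)) := by
    have := SC.pow hs (Nat.card (G ⧸ N))
    rwa [pow_card_eq_one'] at this
  rw [om_res_eq h hs']
  exact loc_om hM θ.2 (NInv.pow ha _).res (resGA_loc (hl.pow hM _))

theorem om_comp_eq (hM : IsPModular p M) [Fintype N] (Z : Zs M N) {θ : IrrCharacter N}
    (hθ : θ ∈ principalBlock M N) {ψ : IrrCharacter G} (h : ∀ n : N, ψ.1 n = θ.1 n)
    {γ : G ⧸ N} {y : GA ℂ G} (hy : NInv N y) (hyl : IsLoc M y) (hys : SC γ y) :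
    MemLocalIdeal M (om ψ.1 y - aug y / aug (Z.z γ) * om ψ.1 (Z.z γ)) := by
  classical
  have hov : Over ψ θ := by
    unfold Over
    have : (fun n : N => ψ.1 (n : G)) = θ.1 := funext h
    rw [this, irr_inner_self θ.2]
    exact one_ne_zero
  have hgi : GInv (G := G) (eChi θ.1) := by
    intro x n
    have := invariant hM Z hθ x
    have h0 : cj x θ.1 = θ.1 := Subtype.ext_iff.1 this
    have h1 : θ.1 (cjAut x n) = θ.1 n := by
      have h2 := congrFun h0 n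
      rw [cj_eq_comp] at h2
      exact h2
    rw [eChi_apply, eChi_apply, h1]
  have hecl : IsCl (eT θ : GA ℂ G) := extGA_isCl hgi
  have hom : om ψ.1 (eT θ) = 1 := by
    unfold eT
    rw [om_extGA hov hgi, om_eChi, if_pos rfl]
  have hmul : ∀ a : GA ℂ G, om ψ.1 (a * eT θ) = om ψ.1 a := by
    intro a
    rw [← hecl.comm, om_mul ψ.2 hecl, hom, one_mul]
  obtain ⟨κ, hκ, e⟩ := comp_eq hM Z hθ γ hy hyl hys
  have e1 := congrArg (fun a => om ψ.1 a) e
  simp only [om_smul] at e1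
  rw [hmul, hmul] at e1
  rw [e1, ← sub_mul]
  exact max_mul_right hM hκ (loc_om_of_res hM h (Z.inv γ) (Z.loc γ) (Z.sc γ))

theorem exists_ext_principal (hM : IsPModular p M) [Fintype N] (Z : Zs M N) {θ : IrrCharacter N}
    (hθ : θ ∈ principalBlock M N) {ψ : IrrCharacter G} (h : ∀ n : N, ψ.1 n = θ.1 n) :
    ∃ χ : IrrCharacter G, (∀ n : N, χ.1 n = θ.1 n) ∧
      ∀ a : GA ℂ G, NInv N a → IsLoc M a → MemLocalIdeal M (om χ.1 a - aug a) := by
  classical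
  cases nonempty_fintype G
  haveI : Fintype (G ⧸ N) := Fintype.ofFinite _
  set t : G ⧸ N → ℂ := fun γ => om ψ.1 (Z.z γ) / aug (Z.z γ) with ht
  have homl : ∀ γ, MemLocalRing M (om ψ.1 (Z.z γ)) := fun γ =>
    loc_om_of_res hM h (Z.inv γ) (Z.loc γ) (Z.sc γ)
  have hal : ∀ γ, MemLocalRing M (aug (Z.z γ)) := fun γ => loc_aug hM (Z.loc γ)
  have hau := Z.unit
  have ha0 : ∀ γ, aug (Z.z γ) ≠ 0 := fun γ => ne_zero_of_not_max hM (hau γ)
  have htl : ∀ γ, MemLocalRing M (t γ) := fun γ => loc_div hM (homl γ) (hal γ) (hau γ)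
  have hkey : ∀ {γ : G ⧸ N} {y : GA ℂ G}, NInv N y → IsLoc M y → SC γ y →
      MemLocalIdeal M (om ψ.1 y - aug y * t γ) := by
    intro γ y hy hyl hys
    have := om_comp_eq hM Z hθ h hy hyl hys
    have e : aug y / aug (Z.z γ) * om ψ.1 (Z.z γ) = aug y * t γ := by rw [ht]; ring
    rwa [e] at this
  have ht1 : MemLocalIdeal M (t 1 - 1) := by
    have h1 : om ψ.1 (Z.z 1) = om θ.1 (resGA N (Z.z 1)) := om_res_eq h (Z.sc 1)
    have h2 := om_aug hM hθ (Z.inv 1) (Z.loc 1) (Z.sc 1)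
    rw [← h1] at h2
    have := max_div hM h2 (hal 1) (hau 1)
    have e : (om ψ.1 (Z.z 1) - aug (Z.z 1)) / aug (Z.z 1) = t 1 - 1 := by
      rw [ht]; field_simp [ha0 1]
    rwa [e] at this
  have htm : ∀ γ δ, MemLocalIdeal M (t (γ * δ) - t γ * t δ) := by
    intro γ δ
    have h1 := hkey ((Z.inv γ).mul (Z.inv δ)) ((Z.loc γ).mul hM (Z.loc δ)) ((Z.sc γ).mul (Z.sc δ))
    rw [om_mul_of_res h (Z.inv γ), aug_mul] at h1
    have hu : ¬ MemLocalIdeal M (aug (Z.z γ) * aug (Z.z δ)) :=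
      not_max_mul hM (hal γ) (hal δ) (hau γ) (hau δ)
    have h2 := max_div hM h1 (loc_mul hM (hal γ) (hal δ)) hu
    have e : (om ψ.1 (Z.z γ) * om ψ.1 (Z.z δ) - aug (Z.z γ) * aug (Z.z δ) * t (γ * δ)) /
        (aug (Z.z γ) * aug (Z.z δ)) = -(t (γ * δ) - t γ * t δ) := by
      have e1 : om ψ.1 (Z.z γ) = t γ * aug (Z.z γ) := by rw [ht]; field_simp [ha0 γ]
      have e2 : om ψ.1 (Z.z δ) = t δ * aug (Z.z δ) := by rw [ht]; field_simp [ha0 δ]
      rw [e1, e2]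
      have := ha0 γ
      have := ha0 δ
      field_simp
      ring
    rw [e, max_neg_iff] at h2
    exact h2
  obtain ⟨μ, hμ⟩ := exists_lift hM (fun γ => red hM (t γ))
    (by
      have := (red_eq_iff hM (htl 1) (loc_one hM)).2 ht1
      rw [red_one] at this
      exact this)
    (fun a b => by
      have := (red_eq_iff hM (htl (a * b)) (loc_mul hM (htl a) (htl b))).2 (htm a b)
      rw [red_mul hM (htl a) (htl b)] at this
      exact this)
  let ν : G →* ℂˣ := (μ.comp (QuotientGroup.mk' N))⁻¹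
  have hν : ∀ g : G, (ν g : ℂ) = (μ (g : G ⧸ N) : ℂ)⁻¹ := fun g => by
    simp [ν]
  let χ : IrrCharacter G := ⟨fun g => (ν g : ℂ) * ψ.1 g, isIrr_lin_mul ν ψ.2⟩
  have hχ : ∀ g, χ.1 g = (μ (g : G ⧸ N) : ℂ)⁻¹ * ψ.1 g := fun g => by rw [← hν]
  have hχ1 : χ.1 1 = ψ.1 1 := by
    rw [hχ]
    have : ((1 : G) : G ⧸ N) = 1 := rfl
    rw [this, map_one]
    simp
  refine ⟨χ, ?_, ?_⟩
  · intro n
    rw [hχ, (QuotientGroup.eq_one_iff (n : G)).2 n.2, map_one, h n]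
    simp
  · intro a ha hl
    have e1 : om χ.1 a = ∑ γ : G ⧸ N, om χ.1 (cp γ a) := by
      conv_lhs => rw [sum_cp (N := N) a]
      rw [om_sum]
    have e2 : aug a = ∑ γ : G ⧸ N, aug (cp γ a) := by
      simp only [aug_cp]
      rw [aug_eq, Finset.sum_comm]
      refine Finset.sum_congr rfl fun g _ => ?_
      rw [Finset.sum_ite_eq, if_pos (Finset.mem_univ _)]
    rw [e1, e2, ← Finset.sum_sub_distrib]
    refine max_sum hM _ _ fun γ _ => ?_
    have h1 := hkey (cp_ninv γ ha) (cp_loc hM γ hl) (cp_SC γ a)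
    have e3 : om χ.1 (cp γ a) = (μ γ : ℂ)⁻¹ * om ψ.1 (cp γ a) := by
      rw [om_eq, om_eq, hχ1, ← mul_div_assoc, Finset.mul_sum]
      congr 1
      refine Finset.sum_congr rfl fun g _ => ?_
      by_cases hg : (g : G ⧸ N) = γ
      · rw [hχ, hg]; ring
      · rw [cp_neg hg]; ring
    have hμl : MemLocalRing M (μ γ : ℂ) := by
      have : (μ γ : ℂ) ^ Nat.card (G ⧸ N) = 1 := by
        rw [← Units.val_pow_eq_pow_val, ← map_pow, pow_card_eq_one', map_one]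
        rfl
      exact loc_of_isIntegral hM (isIntegral_of_pow_eq_one Nat.card_pos.ne' this)
    have hμu : ¬ MemLocalIdeal M (μ γ : ℂ) := by
      intro hm
      have : (μ γ : ℂ) ^ Nat.card (G ⧸ N) = 1 := by
        rw [← Units.val_pow_eq_pow_val, ← map_pow, pow_card_eq_one', map_one]
        rfl
      have hn : Nat.card (G ⧸ N) ≠ 0 := Nat.card_pos.ne'
      obtain ⟨k, hk⟩ := Nat.exists_eq_succ_of_ne_zero hn
      rw [hk, Nat.succ_eq_add_one, pow_succ] at this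
      refine not_max_one hM ?_
      rw [← this]
      exact max_mul_left hM (loc_pow hM hμl k) hm
    have h2 : MemLocalIdeal M ((μ γ : ℂ) - t γ) :=
      (red_eq_iff hM hμl (htl γ)).1 (hμ γ)
    have h3 : MemLocalIdeal M (om ψ.1 (cp γ a) - aug (cp γ a) * (μ γ : ℂ)) := by
      have e4 : om ψ.1 (cp γ a) - aug (cp γ a) * (μ γ : ℂ) =
          (om ψ.1 (cp γ a) - aug (cp γ a) * t γ) - aug (cp γ a) * ((μ γ : ℂ) - t γ) := by ring
      rw [e4]
      exact max_sub hM h1 (max_mul_left hM (loc_aug hM (cp_loc hM γ hl)) h2)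
    have h4 := max_div hM h3 hμl hμu
    have hμ0 : (μ γ : ℂ) ≠ 0 := (μ γ).ne_zero
    have e5 : (om ψ.1 (cp γ a) - aug (cp γ a) * (μ γ : ℂ)) / (μ γ : ℂ) =
        om χ.1 (cp γ a) - aug (cp γ a) := by
      rw [e3]; field_simp
    rwa [e5] at h4

end Main

end Cfsg.Agent.Lib.BlkH8L
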