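import Cfsg.Agent.Lib.BlockRey
import Cfsg.Agent.Lib.BlockKB
import Cfsg.Agent.Lib.BlockLar
import Cfsg.Agent.Lib.BlockMaxB
import Cfsg.Agent.Lib.BlockIndIn
import Cfsg.Agent.Lib.BlockBFM

import Cfsg.Agent.Lib.BlkH8A
import Cfsg.Agent.Lib.BlkH8F
import Cfsg.Agent.Lib.BlkH5C
import Cfsg.Agent.Lib.PSol
import Cfsg.Agent.Lib.PSolB
import Cfsg.Agent.Lib.Cores
import Cfsg.Agent.Lib.HallHigman

/-!
Principal blocks of p-solvable groups.
-/

set_option autoImplicit false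
set_option linter.style.haveILetI false
set_option linter.unusedVariables false
set_option linter.unusedSectionVars false
set_option linter.unusedDecidableInType false
set_option linter.unusedFintypeInType false
set_option linter.unusedSimpArgs false

namespace Cfsg.Agent.Lib.BlkH8O
open Cfsg Cfsg.Agent.Lib.BlockLoc Cfsg.Agent.Lib.BlockGA Cfsg.Agent.Lib.CharBasic
open Cfsg.Agent.Lib.BlockIdem Cfsg.Agent.Lib.BlockPP Cfsg.Agent.Lib.BlockOrth
open Cfsg.Agent.Lib.BlockRed Cfsg.Agent.Lib.BlockDef Cfsg.Agent.Lib.BlockDeg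
open Cfsg.Agent.Lib.BlockNP Cfsg.Agent.Lib.BlockInd Cfsg.Agent.Lib.BlockSecond
open Cfsg.Agent.Lib.BlockFirst Cfsg.Agent.Lib.BlockHt Cfsg.Agent.Lib.BlockM
open Cfsg.Agent.Lib.BlockCov Cfsg.Agent.Lib.BlockQuot Cfsg.Agent.Lib.CharKer
open Cfsg.Agent.Lib.BlockQuotB Cfsg.Agent.Lib.BlockMore Cfsg.Agent.Lib.BlockMoreB
open Cfsg.Agent.Lib.BlockTr Cfsg.Agent.Lib.CharNormal Cfsg.Agent.Lib.BlockCovB
open Cfsg.Agent.Lib.BlockBP Cfsg.Agent.Lib.BlockInt Cfsg.Agent.Lib.BlockSum Cfsg.Agent.Lib.BlockRk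
open Cfsg.Agent.Lib.BlockFusB Cfsg.Agent.Lib.BlockMax Cfsg.Agent.Lib.CharSplit Cfsg.Agent.Lib.CharBrauer
open Cfsg.Agent.Lib.CharInd Cfsg.Agent.Lib.BlockPC Cfsg.Agent.Lib.BlockPair Cfsg.Agent.Lib.BlockPairB
open Cfsg.Agent.Lib.BlockPairC Cfsg.Agent.Lib.BlockPairD Cfsg.Agent.Lib.BlockPairE
open Cfsg.Agent.Lib.BlockRey Cfsg.Agent.Lib.BlockPairF Cfsg.Agent.Lib.BlockFus Cfsg.Agent.Lib.BlockNilB Cfsg.Agent.Lib.BlockNil Cfsg.Agent.Lib.CharClifford
open Cfsg.Agent.Lib.BlockKB Cfsg.Agent.Lib.BlockLar Cfsg.Agent.Lib.BlockMaxB Cfsg.Agent.Lib.BlockIndIn Cfsg.Agent.Lib.BlockBFM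
open Cfsg.Agent.Lib.BlkH8A Cfsg.Agent.Lib.BlkH8F Cfsg.Agent.Lib.BlkH5C Cfsg.Agent.Lib.PSol Cfsg.Agent.Lib.PSolB Cfsg.Agent.Lib.Cores Cfsg.Agent.Lib.HallHigman
open scoped ComplexConjugate

open Cfsg.Agent.Lib.BlkH8A Cfsg.Agent.Lib.BlkH8F Cfsg.Agent.Lib.BlkH5C

section Prin

variable {G : Type*} [Group G] [Finite G] {p : ℕ} {M : Ideal AlgInt}

/-- Principal blocks and normal `p'`-subgroups. -/
theorem principal_quot (hM : IsPModular p M) {N : Subgroup G} [N.Normal] (hN : ¬ p ∣ Nat.card N)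
    (χ : IrrCharacter G) : χ ∈ principalBlock M G ↔ ∃ ψ ∈ principalBlock M (G ⧸ N),
      χ = inflI (QuotientGroup.mk' N) (QuotientGroup.mk'_surjective N) ψ := by
  have hf := QuotientGroup.mk'_surjective N
  have hker : (QuotientGroup.mk' N).ker = N := QuotientGroup.ker_mk' N
  have ht : inflI (QuotientGroup.mk' N) hf (triv (G ⧸ N)) = triv G := rfl
  constructor
  · intro hχ
    have h1 : SameBlock M (triv G).1 χ.1 :=
      sameBlock_of_mem hM (principal_isPBlock M G) (triv_mem hM) hχ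
    have h2 : Triv N χ.1 := triv_of_sameBlock hM N hN h1 (fun _ _ => rfl)
    obtain ⟨ψ, hψ⟩ := (triv_iff_infl (QuotientGroup.mk' N) hf χ).1 (by rw [hker]; exact h2)
    refine ⟨ψ, ?_, hψ⟩
    have h3 : SameBlock M (inflI (QuotientGroup.mk' N) hf (triv (G ⧸ N))).1
        (inflI (QuotientGroup.mk' N) hf ψ).1 := by
      rw [ht, ← hψ]; exact h1
    have h4 := sameBlock_of_infl' hM (QuotientGroup.mk' N) hf (by rw [hker]; exact hN) h3
    rw [← blockOf_eq_of_mem hM (principal_isPBlock M (G ⧸ N)) (triv_mem hM)]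
    exact h4
  · rintro ⟨ψ, hψ, rfl⟩
    have h1 : SameBlock M (triv (G ⧸ N)).1 ψ.1 :=
      sameBlock_of_mem hM (principal_isPBlock M (G ⧸ N)) (triv_mem hM) hψ
    have h2 := sameBlock_infl hM (QuotientGroup.mk' N) hf h1
    rw [ht] at h2
    rw [← blockOf_eq_of_mem hM (principal_isPBlock M G) (triv_mem hM)]
    exact h2

/-- In a `p`-solvable group with trivial `p'`-core all characters are in the principal block. -/
theorem mem_principal (hM : IsPModular p M) [Fact p.Prime] (hsolv : IsPSolvable p G)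
    (hcore : pPrimeCore p G = ⊥) (χ : IrrCharacter G) : χ ∈ principalBlock M G := by
  haveI : (pCore p G).Normal := Cfsg.Agent.Lib.Cores.pCore_normal p
  have h := sameBlock_of_centralizer_le hM (P := pCore p G)
    (Cfsg.Agent.Lib.Cores.pCore_isPGroup p)
    (Cfsg.Agent.Lib.HallHigman.centralizer_pCore_le p hsolv hcore) (triv G) χ
  rw [← blockOf_eq_of_mem hM (principal_isPBlock M G) (triv_mem hM)]
  exact h

/-- The principal block of a `p`-solvable group. -/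
theorem principal_psolv (hM : IsPModular p M) [Fact p.Prime] (hsolv : IsPSolvable p G)
    (χ : IrrCharacter G) : χ ∈ principalBlock M G ↔ Triv (pPrimeCore p G) χ.1 := by
  haveI : (pPrimeCore p G).Normal := Cfsg.Agent.Lib.Cores.pPrimeCore_normal p
  have hN : ¬ p ∣ Nat.card (pPrimeCore p G) := Cfsg.Agent.Lib.Cores.pPrimeCore_not_dvd p
  have hf := QuotientGroup.mk'_surjective (pPrimeCore p G)
  have hker : (QuotientGroup.mk' (pPrimeCore p G)).ker = pPrimeCore p G := QuotientGroup.ker_mk' _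
  rw [principal_quot hM hN χ]
  have h1 := triv_iff_infl (QuotientGroup.mk' (pPrimeCore p G)) hf χ
  rw [hker] at h1
  rw [h1]
  constructor
  · rintro ⟨ψ, -, h⟩; exact ⟨ψ, h⟩
  · rintro ⟨ψ, h⟩
    exact ⟨ψ, mem_principal hM (Cfsg.Agent.Lib.PSol.quotient hsolv _)
      (Cfsg.Agent.Lib.Cores.pPrimeCore_quotient_pPrimeCore p) ψ, h⟩

/-- Heights in the principal block. -/
theorem height_principal (hM : IsPModular p M) {χ : IrrCharacter G} (hχ : χ ∈ principalBlock M G) :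
    blockHeight p (principalBlock M G) χ.1 = 0 ↔ ¬ p ∣ charDegree χ.1 := by
  have h0 : charDegree χ.1 ≠ 0 := charDegree_ne_zero χ.2
  have h1 : sInf ((fun ψ : IrrCharacter G => (charDegree (ψ : G → ℂ)).factorization p) ''
      (principalBlock M G)) = 0 := by
    refine Nat.sInf_eq_zero.2 (Or.inl ⟨triv G, triv_mem hM, ?_⟩)
    have h2 : charDegree (triv G).1 = 1 := charDegree_eq (by push_cast; rfl)
    change (charDegree (triv G).1).factorization p = 0
    rw [h2, Nat.factorization_one]; rfl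
  rw [blockHeight, h1, Nat.sub_zero, Nat.Prime.dvd_iff_one_le_factorization hM.1 h0]
  omega

end Prin

end Cfsg.Agent.Lib.BlkH8O
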