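import Cfsg.Agent.Lib.BlockRey
import Cfsg.Agent.Lib.BlockKB
import Cfsg.Agent.Lib.BlockLar
import Cfsg.Agent.Lib.BlockMaxB
import Cfsg.Agent.Lib.BlockIndIn
import Cfsg.Agent.Lib.BlockBFM

import Cfsg.Agent.Lib.BlkH8A
import Cfsg.Agent.Lib.BlkH8F
import Cfsg.Agent.Lib.CharLin
import Cfsg.Agent.Lib.CharFix

/-!
Counting characters above an extendible character of a minimal normal subgroup.
-/

set_option autoImplicit false
set_option linter.style.haveILetI false
set_option linter.unusedVariables false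
set_option linter.unusedSectionVars false
set_option linter.unusedDecidableInType false
set_option linter.unusedFintypeInType false
set_option linter.unusedSimpArgs false

namespace Cfsg.Agent.Lib.BlkH8Q
open Cfsg Cfsg.Agent.Lib.BlockLoc Cfsg.Agent.Lib.BlockGA Cfsg.Agent.Lib.CharBasic
open Cfsg.Agent.Lib.BlockIdem Cfsg.Agent.Lib.BlockPP Cfsg.Agent.Lib.BlockOrth
open Cfsg.Agent.Lib.BlockRed Cfsg.Agent.Lib.BlockDef Cfsg.Agent.Lib.BlockDeg
open Cfsg.Agent.Lib.BlockNP Cfsg.Agent.Lib.BlockInd Cfsg.Agent.Lib.BlockSecond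
open Cfsg.Agent.Lib.BlockFirst Cfsg.Agent.Lib.BlockHt Cfsg.Agent.Lib.BlockM
open Cfsg.Agent.Lib.BlockCov Cfsg.Agent.Lib.BlockQuot Cfsg.Agent.Lib.CharKer
open Cfsg.Agent.Lib.BlockQuotB Cfsg.Agent.Lib.BlockMore Cfsg.Agent.Lib.BlockMoreB
open Cfsg.Agent.Lib.BlockTr Cfsg.Agent.Lib.CharNormal Cfsg.Agent.Lib.BlockCovB
open Cfsg.Agent.Lib.BlockBP Cfsg.Agent.Lib.BlockInt Cfsg.Agent.Lib.BlockSum Cfsg.Agent.Lib.BlockRk
open Cfsg.Agent.Lib.BlockFusB Cfsg.Agent.Lib.BlockMax Cfsg.Agent.Lib.CharSplit Cfsg.Agent.Lib.CharBrauer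
open Cfsg.Agent.Lib.CharInd Cfsg.Agent.Lib.BlockPC Cfsg.Agent.Lib.BlockPair Cfsg.Agent.Lib.BlockPairB
open Cfsg.Agent.Lib.BlockPairC Cfsg.Agent.Lib.BlockPairD Cfsg.Agent.Lib.BlockPairE
open Cfsg.Agent.Lib.BlockRey Cfsg.Agent.Lib.BlockPairF Cfsg.Agent.Lib.BlockFus Cfsg.Agent.Lib.BlockNilB Cfsg.Agent.Lib.BlockNil Cfsg.Agent.Lib.CharClifford
open Cfsg.Agent.Lib.BlockKB Cfsg.Agent.Lib.BlockLar Cfsg.Agent.Lib.BlockMaxB Cfsg.Agent.Lib.BlockIndIn Cfsg.Agent.Lib.BlockBFM
open Cfsg.Agent.Lib.BlkH8A Cfsg.Agent.Lib.BlkH8F Cfsg.Agent.Lib.CharLin Cfsg.Agent.Lib.CharFix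
open scoped ComplexConjugate

open Cfsg.Agent.Lib.BlkH8A Cfsg.Agent.Lib.BlkH8F Cfsg.Agent.Lib.CharLin

section Cnt

variable {G : Type*} [Group G] [Finite G]

theorem le_commutator_of_min {N : Subgroup G} (hN : N.Normal)
    (hmin : ∀ M : Subgroup G, M.Normal → M ≤ N → M = ⊥ ∨ M = N)
    (hna : ¬ IsMulCommutative N) : N ≤ commutator G := by
  have h1 : (⁅N, N⁆ : Subgroup G).Normal := inferInstance
  have h2 : ⁅N, N⁆ ≤ N := Subgroup.commutator_le_left N N
  rcases hmin _ h1 h2 with h | h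
  · exfalso
    refine hna ⟨⟨fun a b => ?_⟩⟩
    have h3 := Subgroup.commutator_mem_commutator a.2 b.2
    rw [h, Subgroup.mem_bot, commutatorElement_def, mul_inv_eq_one, mul_inv_eq_iff_eq_mul] at h3
    exact Subtype.ext h3
  · rw [← h, commutator_def]
    exact Subgroup.commutator_mono le_top le_top

theorem index_le {N I : Subgroup G} [N.Normal] (hNI : N ≤ I) (hNc : N ≤ commutator G) :
    (commutator G).index ≤ I.index * (commutator (I ⧸ N.subgroupOf I)).index := by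
  have hf := QuotientGroup.mk'_surjective (N.subgroupOf I)
  set J : Subgroup I := (commutator (I ⧸ N.subgroupOf I)).comap (QuotientGroup.mk' (N.subgroupOf I)) with hJ
  have hJi : J.index = (commutator (I ⧸ N.subgroupOf I)).index :=
    Subgroup.index_comap_of_surjective _ hf
  have hle : J.map I.subtype ≤ commutator G := by
    rintro _ ⟨x, hx, rfl⟩
    have h1 : commutator (I ⧸ N.subgroupOf I) =
        (commutator I).map (QuotientGroup.mk' (N.subgroupOf I)) := by
      rw [commutator_def, commutator_def, Subgroup.map_commutator,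
        Subgroup.map_top_of_surjective _ hf]
    rw [SetLike.mem_coe, hJ, Subgroup.mem_comap, h1] at hx
    obtain ⟨y, hy, hyx⟩ := hx
    have h2 : y⁻¹ * x ∈ N.subgroupOf I := QuotientGroup.eq.1 hyx
    have h3 : (y : G) ∈ commutator G := by
      have h4 : (commutator I).map I.subtype ≤ commutator G := by
        rw [commutator_def, Subgroup.map_commutator, commutator_def]
        exact Subgroup.commutator_mono le_top le_top
      exact h4 (Subgroup.mem_map_of_mem _ hy)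
    have h5 : (x : G) = y * ((y⁻¹ * x : I) : G) := by
      push_cast
      group
    change (x : G) ∈ commutator G
    rw [h5]
    exact Subgroup.mul_mem _ h3 (hNc h2)
  have h1 := Subgroup.index_map_subtype (H := I) J
  have h2 : (commutator G).index ∣ (J.map I.subtype).index := Subgroup.index_dvd_of_le hle
  rw [h1, hJi] at h2
  rw [mul_comm]
  refine Nat.le_of_dvd ?_ h2
  exact Nat.mul_pos (Nat.pos_of_ne_zero Subgroup.FiniteIndex.index_ne_zero)
    (Nat.pos_of_ne_zero Subgroup.FiniteIndex.index_ne_zero)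

theorem card_le {N I : Subgroup G} [hN : N.Normal] (hNI : N ≤ I) (φ : IrrCharacter N)
    (hT : ∀ g : G, g ∈ I ↔ cj g φ.1 = φ.1) {ψ : IrrCharacter I}
    (hψ : ∀ n : N, ψ.1 (Subgroup.inclusion hNI n) = φ.1 n) :
    Nat.card ((I ⧸ N.subgroupOf I) →* ℂˣ) ≤
      Nat.card {χ : IrrCharacter G // charDegree χ.1 = charDegree φ.1 * I.index} := by
  classical
  haveI := Fintype.ofFinite G
  haveI := Fintype.ofFinite N
  haveI := Fintype.ofFinite I
  have hlN : ∀ (l : (I ⧸ N.subgroupOf I) →* ℂˣ) (n : N),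
      linFn (l.comp (QuotientGroup.mk' (N.subgroupOf I))) (Subgroup.inclusion hNI n) = 1 := by
    intro l n
    rw [linFn_apply, MonoidHom.comp_apply]
    have h1 : QuotientGroup.mk' (N.subgroupOf I) (Subgroup.inclusion hNI n) = 1 :=
      (QuotientGroup.eq_one_iff _).2 (by rw [Subgroup.mem_subgroupOf]; exact n.2)
    rw [h1, map_one, Units.val_one]
  have hres : ∀ l : (I ⧸ N.subgroupOf I) →* ℂˣ,
      resLe hNI (linFn (l.comp (QuotientGroup.mk' (N.subgroupOf I))) * ψ.1) = φ.1 := by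
    intro l
    funext n
    change linFn (l.comp (QuotientGroup.mk' (N.subgroupOf I))) (Subgroup.inclusion hNI n) *
      ψ.1 (Subgroup.inclusion hNI n) = φ.1 n
    rw [hlN, hψ, one_mul]
  have hne : ∀ l : (I ⧸ N.subgroupOf I) →* ℂˣ,
      classInner (resLe hNI (linFn (l.comp (QuotientGroup.mk' (N.subgroupOf I))) * ψ.1)) φ.1 ≠ 0 := by
    intro l
    rw [hres, irr_inner_self φ.2]
    exact one_ne_zero
  have hirr : ∀ l : (I ⧸ N.subgroupOf I) →* ℂˣ,
      IsIrrCharacter I (linFn (l.comp (QuotientGroup.mk' (N.subgroupOf I))) * ψ.1) :=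
    fun l => isIrr_linFn_mul _ ψ.2
  let F : ((I ⧸ N.subgroupOf I) →* ℂˣ) →
      {χ : IrrCharacter G // charDegree χ.1 = charDegree φ.1 * I.index} := fun l =>
    ⟨⟨indFun I (linFn (l.comp (QuotientGroup.mk' (N.subgroupOf I))) * ψ.1),
      ind_irr_of_inertia φ.2 hT hNI (hirr l) (hne l)⟩, by
      refine charDegree_eq ?_
      change indFun I (linFn (l.comp (QuotientGroup.mk' (N.subgroupOf I))) * ψ.1) 1 = _
      rw [Cfsg.Agent.Lib.CharInd.indFun_one, Pi.mul_apply, linFn_apply_one, one_mul]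
      have h1 := hψ 1
      rw [map_one] at h1
      rw [h1]
      push_cast
      rw [charDegree_cast (isChar_of_irr φ.2), mul_comm]⟩
  refine Nat.card_le_card_of_injective F fun l₁ l₂ h => ?_
  have h1 : indFun I (linFn (l₁.comp (QuotientGroup.mk' (N.subgroupOf I))) * ψ.1) =
      indFun I (linFn (l₂.comp (QuotientGroup.mk' (N.subgroupOf I))) * ψ.1) :=
    congrArg (fun χ : {χ : IrrCharacter G // charDegree χ.1 = charDegree φ.1 * I.index} => χ.1.1) h
  have h2 := Cfsg.Agent.Lib.CharFix.clifford_inj φ.2 hT hNI (hirr l₁) (hirr l₂) (hne l₁) (hne l₂) h1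
  -- Gallagher
  have hθ : IsIrrCharacter (N.subgroupOf I) (fun n => φ.1 ((Subgroup.subgroupOfEquivOfLe hNI) n)) :=
    isIrr_comp_surjective (Subgroup.subgroupOfEquivOfLe hNI).toMonoidHom
      (Subgroup.subgroupOfEquivOfLe hNI).surjective φ.2
  have hext : ∀ n : N.subgroupOf I, ψ.1 n = (fun n => φ.1 ((Subgroup.subgroupOfEquivOfLe hNI) n)) n :=
    fun n => hψ ((Subgroup.subgroupOfEquivOfLe hNI) n)
  have hg := Cfsg.Agent.Lib.CharClifford.gallagher hθ ψ.2 hext
  have hmem : ∀ l : (I ⧸ N.subgroupOf I) →* ℂˣ,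
      linFn (l.comp (QuotientGroup.mk' (N.subgroupOf I))) ∈
        {β : I → ℂ | IsIrrCharacter I β ∧ ∀ n ∈ N.subgroupOf I, β n = β 1} := by
    intro l
    refine ⟨linFn_isIrr _, fun n hn => ?_⟩
    rw [linFn_apply_one]
    exact hlN l ⟨n, hn⟩
  have h3 := hg.injOn (hmem l₁) (hmem l₂) h2
  have h4 := linFn_injective h3
  refine MonoidHom.ext fun q => ?_
  obtain ⟨x, rfl⟩ := QuotientGroup.mk'_surjective (N.subgroupOf I) q
  have h5 := DFunLike.congr_fun h4 x
  exact h5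

end Cnt

end Cfsg.Agent.Lib.BlkH8Q
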