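import Cfsg.Agent.Lib.BlockRey
import Cfsg.Agent.Lib.BlockKB
import Cfsg.Agent.Lib.BlockLar
import Cfsg.Agent.Lib.BlockMaxB
import Cfsg.Agent.Lib.BlockIndIn
import Cfsg.Agent.Lib.BlockBFM

import Cfsg.Agent.Lib.CharLin

/-!
Transfer of linear characters and Sylow 2-abelianizations.
-/

set_option autoImplicit false
set_option linter.style.haveILetI false
set_option linter.unusedVariables false
set_option linter.unusedSectionVars false
set_option linter.unusedDecidableInType false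
set_option linter.unusedFintypeInType false
set_option linter.unusedSimpArgs false

namespace Cfsg.Agent.Lib.BlkH8S
open Cfsg Cfsg.Agent.Lib.BlockLoc Cfsg.Agent.Lib.BlockGA Cfsg.Agent.Lib.CharBasic
open Cfsg.Agent.Lib.BlockIdem Cfsg.Agent.Lib.BlockPP Cfsg.Agent.Lib.BlockOrth
open Cfsg.Agent.Lib.BlockRed Cfsg.Agent.Lib.BlockDef Cfsg.Agent.Lib.BlockDeg
open Cfsg.Agent.Lib.BlockNP Cfsg.Agent.Lib.BlockInd Cfsg.Agent.Lib.BlockSecond
open Cfsg.Agent.Lib.BlockFirst Cfsg.Agent.Lib.BlockHt Cfsg.Agent.Lib.BlockM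
open Cfsg.Agent.Lib.BlockCov Cfsg.Agent.Lib.BlockQuot Cfsg.Agent.Lib.CharKer
open Cfsg.Agent.Lib.BlockQuotB Cfsg.Agent.Lib.BlockMore Cfsg.Agent.Lib.BlockMoreB
open Cfsg.Agent.Lib.BlockTr Cfsg.Agent.Lib.CharNormal Cfsg.Agent.Lib.BlockCovB
open Cfsg.Agent.Lib.BlockBP Cfsg.Agent.Lib.BlockInt Cfsg.Agent.Lib.BlockSum Cfsg.Agent.Lib.BlockRk
open Cfsg.Agent.Lib.BlockFusB Cfsg.Agent.Lib.BlockMax Cfsg.Agent.Lib.CharSplit Cfsg.Agent.Lib.CharBrauer
open Cfsg.Agent.Lib.CharInd Cfsg.Agent.Lib.BlockPC Cfsg.Agent.Lib.BlockPair Cfsg.Agent.Lib.BlockPairB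
open Cfsg.Agent.Lib.BlockPairC Cfsg.Agent.Lib.BlockPairD Cfsg.Agent.Lib.BlockPairE
open Cfsg.Agent.Lib.BlockRey Cfsg.Agent.Lib.BlockPairF Cfsg.Agent.Lib.BlockFus Cfsg.Agent.Lib.BlockNilB Cfsg.Agent.Lib.BlockNil Cfsg.Agent.Lib.CharClifford
open Cfsg.Agent.Lib.BlockKB Cfsg.Agent.Lib.BlockLar Cfsg.Agent.Lib.BlockMaxB Cfsg.Agent.Lib.BlockIndIn Cfsg.Agent.Lib.BlockBFM
open Cfsg.Agent.Lib.CharLin
open scoped ComplexConjugate


section Tr

open Subgroup MonoidHom

variable {G : Type*} [Group G] {A : Type*} [CommGroup A]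

theorem transfer_sq {P : Subgroup G} [P.FiniteIndex] (l : P →* A) (nu : G →* A)
    (h : ∀ x : P, nu x = l x ^ 2) (g : G) : (transfer l g) ^ 2 = nu g ^ P.index := by
  classical
  letI : Fintype (G ⧸ P) := P.fintypeQuotientOfFiniteIndex
  let T : P.LeftTransversal := default
  rw [transfer_def l T]
  unfold leftTransversals.diff
  simp only
  rw [← Finset.prod_pow]
  have h1 : ∀ q : G ⧸ P, l ⟨((T.2.leftQuotientEquiv q : T.1) : G)⁻¹ *
      (((g • T).2.leftQuotientEquiv q : (g • T).1) : G),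
        QuotientGroup.leftRel_apply.mp (Quotient.exact' ((T.2.leftQuotientEquiv.symm_apply_apply q).trans
          ((g • T).2.leftQuotientEquiv.symm_apply_apply q).symm))⟩ ^ 2 =
      (nu (T.2.leftQuotientEquiv q : T.1))⁻¹ * (nu g * nu (T.2.leftQuotientEquiv (g⁻¹ • q) : T.1)) := by
    intro q
    rw [← h]
    simp only [map_mul, map_inv]
    congr 1
    rw [smul_apply_eq_smul_apply_inv_smul, smul_eq_mul, map_mul]
  rw [Finset.prod_congr rfl fun q _ => h1 q, Finset.prod_mul_distrib, Finset.prod_mul_distrib,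
    Finset.prod_inv_distrib]
  have h2 : ∏ q : G ⧸ P, nu (T.2.leftQuotientEquiv (g⁻¹ • q) : T.1) =
      ∏ q : G ⧸ P, nu (T.2.leftQuotientEquiv q : T.1) :=
    Fintype.prod_equiv (MulAction.toPerm g⁻¹) _ _ fun q => rfl
  rw [h2, Finset.prod_const, Finset.card_univ, ← Nat.card_eq_fintype_card, ← index_eq_card,
    mul_comm (nu g ^ P.index), inv_mul_cancel_left]

theorem eq_one_of_two_odd {B : Type*} [Group B] {x : B} {m k : ℕ} (hm : Odd m) (h1 : x ^ m = 1)
    (h2 : x ^ (2 ^ k) = 1) : x = 1 := by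
  have h3 : orderOf x ∣ m := orderOf_dvd_of_pow_eq_one h1
  have h4 : orderOf x ∣ 2 ^ k := orderOf_dvd_of_pow_eq_one h2
  have h5 : Nat.Coprime m (2 ^ k) := Nat.Coprime.pow_right k (Nat.coprime_two_right.2 hm)
  exact orderOf_eq_one_iff.1 (Nat.eq_one_of_dvd_coprimes h5 h3 h4)

theorem main [Finite G] {N P : Subgroup G} [hN : N.Normal] (hsup : N ⊔ P = ⊤) (hPp : IsPGroup 2 P)
    (hPi : Odd P.index) (hP : ∀ x ∈ P, x ^ 2 ∈ (P ⊓ N) ⊔ ⁅P, P⁆)
    (hQ : ∀ x ∈ P ⊓ N, x ^ 2 ∈ ⁅P ⊓ N, P ⊓ N⁆) (hodd : Odd (Nat.card (Abelianization N))) :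
    ∀ x ∈ P, x ^ 2 ∈ ⁅P, P⁆ := by
  classical
  intro x hx
  by_contra hcon
  have hxP : (⟨x, hx⟩ : P) ^ 2 ∉ commutator P := by
    intro h
    apply hcon
    have h1 : ((⟨x, hx⟩ : P) ^ 2 : P).1 ∈ (commutator P).map P.subtype := Subgroup.mem_map_of_mem _ h
    rw [commutator_def, Subgroup.map_commutator, ← MonoidHom.range_eq_map, Subgroup.range_subtype] at h1
    exact h1
  obtain ⟨l, hl⟩ := Cfsg.Agent.Lib.CharLin.exists_lin_ne_one hxP
  -- the comm subgroup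
  have hlc : ∀ y (hy : y ∈ P), y ∈ ⁅P, P⁆ → l ⟨y, hy⟩ = 1 := by
    intro y hy hyc
    have h1 : (⟨y, hy⟩ : P) ∈ commutator P := by
      have h2 : ((⟨y, hy⟩ : P) : G) ∈ (commutator P).map P.subtype := by
        rw [commutator_def, Subgroup.map_commutator, ← MonoidHom.range_eq_map, Subgroup.range_subtype]
        exact hyc
      obtain ⟨z, hz, hzy⟩ := h2
      have : z = ⟨y, hy⟩ := Subtype.ext hzy
      exact this ▸ hz
    have h3 : commutator P ≤ l.ker := Abelianization.commutator_subset_ker l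
    exact h3 h1
  -- the extension of the square
  let f : P →* G ⧸ N := (QuotientGroup.mk' N).comp P.subtype
  have hf : Function.Surjective f := by
    intro q
    obtain ⟨g, rfl⟩ := QuotientGroup.mk'_surjective N q
    have hg : g ∈ N ⊔ P := hsup ▸ Subgroup.mem_top g
    rw [Subgroup.mem_sup_of_normal_left] at hg
    obtain ⟨n, hn, y, hy, rfl⟩ := hg
    refine ⟨⟨y, hy⟩, ?_⟩
    change QuotientGroup.mk' N y = QuotientGroup.mk' N (n * y)
    rw [map_mul, (QuotientGroup.eq_one_iff n).2 hn |> (fun h : QuotientGroup.mk' N n = 1 => h), one_mul]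
  let l2 : P →* ℂˣ := l ^ 2
  have hker : f.ker ≤ l2.ker := by
    intro y hy
    rw [MonoidHom.mem_ker] at hy ⊢
    have hyN : (y : G) ∈ N := (QuotientGroup.eq_one_iff _).1 hy
    have h1 := hQ y ⟨y.2, hyN⟩
    have h2 : (y : G) ^ 2 ∈ ⁅P, P⁆ := Subgroup.commutator_mono inf_le_left inf_le_left h1
    have h3 := hlc _ (P.pow_mem y.2 2) h2
    change l y ^ 2 = 1
    rw [← map_pow]
    exact h3
  let nu : G →* ℂˣ := (f.liftOfSurjective hf ⟨l2, hker⟩).comp (QuotientGroup.mk' N)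
  have hnu : ∀ y : P, nu y = l y ^ 2 := by
    intro y
    change (f.liftOfSurjective hf ⟨l2, hker⟩) (f y) = l y ^ 2
    rw [MonoidHom.liftOfRightInverse_comp_apply]
    rfl
  have hT := transfer_sq l nu hnu x
  -- the transfer is trivial on `P ⊓ N`
  have hTN : ∀ y ∈ P ⊓ N, transfer l y = 1 := by
    intro y hy
    obtain ⟨k, hk⟩ := IsPGroup.iff_orderOf.1 hPp ⟨y, hy.1⟩
    rw [Subgroup.orderOf_mk] at hk
    refine eq_one_of_two_odd hodd ?_ (k := k) ?_
    · have h1 : ((transfer l).comp N.subtype) ⟨y, hy.2⟩ =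
          Abelianization.lift ((transfer l).comp N.subtype) (Abelianization.of ⟨y, hy.2⟩) :=
        (Abelianization.lift_apply_of _ _).symm
      have h2 : transfer l y = ((transfer l).comp N.subtype) ⟨y, hy.2⟩ := rfl
      rw [h2, h1, ← map_pow, pow_card_eq_one', map_one]
    · rw [← map_pow, ← hk, pow_orderOf_eq_one, map_one]
  have hT2 : (transfer l x) ^ 2 = 1 := by
    rw [← map_pow]
    have h1 : (P ⊓ N) ⊔ ⁅P, P⁆ ≤ (transfer l : G →* ℂˣ).ker := by
      refine sup_le (fun y hy => hTN y hy) ?_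
      refine (Subgroup.commutator_mono le_top le_top).trans ?_
      exact Abelianization.commutator_subset_ker (transfer l : G →* ℂˣ)
    exact h1 (hP x hx)
  rw [hT2, hnu ⟨x, hx⟩, ← map_pow] at hT
  obtain ⟨k, hk⟩ := IsPGroup.iff_orderOf.1 hPp ⟨x, hx⟩
  refine hl (eq_one_of_two_odd hPi hT.symm (k := k) ?_)
  rw [← map_pow, ← pow_mul, mul_comm, pow_mul, ← hk, pow_orderOf_eq_one, one_pow, map_one]

end Tr

end Cfsg.Agent.Lib.BlkH8S
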