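import Cfsg.Agent.Lib.BlockRey
import Cfsg.Agent.Lib.BlockKB
import Cfsg.Agent.Lib.BlockLar
import Cfsg.Agent.Lib.BlockMaxB
import Cfsg.Agent.Lib.BlockIndIn
import Cfsg.Agent.Lib.BlockBFM

import Cfsg.Agent.Lib.BlkH8A
import Cfsg.Agent.Lib.BlkH8F
import Cfsg.Agent.Lib.BlkH8N
import Cfsg.Agent.Lib.CharLin
import Cfsg.Agent.Lib.CharExt
import Cfsg.Agent.Lib.PSol
import Cfsg.Agent.Lib.Cores

/-!
Characters over linear characters of normal p-subgroups; derived length.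
-/

set_option autoImplicit false
set_option linter.style.haveILetI false
set_option linter.unusedVariables false
set_option linter.unusedSectionVars false
set_option linter.unusedDecidableInType false
set_option linter.unusedFintypeInType false
set_option linter.unusedSimpArgs false

namespace Cfsg.Agent.Lib.BlkH8T
open Cfsg Cfsg.Agent.Lib.BlockLoc Cfsg.Agent.Lib.BlockGA Cfsg.Agent.Lib.CharBasic
open Cfsg.Agent.Lib.BlockIdem Cfsg.Agent.Lib.BlockPP Cfsg.Agent.Lib.BlockOrth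
open Cfsg.Agent.Lib.BlockRed Cfsg.Agent.Lib.BlockDef Cfsg.Agent.Lib.BlockDeg
open Cfsg.Agent.Lib.BlockNP Cfsg.Agent.Lib.BlockInd Cfsg.Agent.Lib.BlockSecond
open Cfsg.Agent.Lib.BlockFirst Cfsg.Agent.Lib.BlockHt Cfsg.Agent.Lib.BlockM
open Cfsg.Agent.Lib.BlockCov Cfsg.Agent.Lib.BlockQuot Cfsg.Agent.Lib.CharKer
open Cfsg.Agent.Lib.BlockQuotB Cfsg.Agent.Lib.BlockMore Cfsg.Agent.Lib.BlockMoreB
open Cfsg.Agent.Lib.BlockTr Cfsg.Agent.Lib.CharNormal Cfsg.Agent.Lib.BlockCovB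
open Cfsg.Agent.Lib.BlockBP Cfsg.Agent.Lib.BlockInt Cfsg.Agent.Lib.BlockSum Cfsg.Agent.Lib.BlockRk
open Cfsg.Agent.Lib.BlockFusB Cfsg.Agent.Lib.BlockMax Cfsg.Agent.Lib.CharSplit Cfsg.Agent.Lib.CharBrauer
open Cfsg.Agent.Lib.CharInd Cfsg.Agent.Lib.BlockPC Cfsg.Agent.Lib.BlockPair Cfsg.Agent.Lib.BlockPairB
open Cfsg.Agent.Lib.BlockPairC Cfsg.Agent.Lib.BlockPairD Cfsg.Agent.Lib.BlockPairE
open Cfsg.Agent.Lib.BlockRey Cfsg.Agent.Lib.BlockPairF Cfsg.Agent.Lib.BlockFus Cfsg.Agent.Lib.BlockNilB Cfsg.Agent.Lib.BlockNil Cfsg.Agent.Lib.CharClifford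
open Cfsg.Agent.Lib.BlockKB Cfsg.Agent.Lib.BlockLar Cfsg.Agent.Lib.BlockMaxB Cfsg.Agent.Lib.BlockIndIn Cfsg.Agent.Lib.BlockBFM
open Cfsg.Agent.Lib.BlkH8A Cfsg.Agent.Lib.BlkH8F Cfsg.Agent.Lib.BlkH8N Cfsg.Agent.Lib.CharLin Cfsg.Agent.Lib.CharExt Cfsg.Agent.Lib.PSol Cfsg.Agent.Lib.Cores
open scoped ComplexConjugate

open Cfsg.Agent.Lib.BlkH8A Cfsg.Agent.Lib.BlkH8F Cfsg.Agent.Lib.BlkH8N Cfsg.Agent.Lib.CharLin

set_option maxHeartbeats 400000

section LinC

variable {S : Type*} [Group S] [Finite S] {p : ℕ} [hp : Fact p.Prime]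

/-- A character of `p'`-degree of a `p`-group has a linear constituent. -/
theorem exists_lin_constituent (hS : IsPGroup p S) [Fintype S] {χ : S → ℂ} (hχ : IsCharacter S χ) {d : ℕ}
    (hd : χ 1 = d) (hpd : ¬ p ∣ d) : ∃ ν : S →* ℂˣ, classInner χ (linFn ν) ≠ 0 := by
  classical
  obtain ⟨m, hm⟩ := Cfsg.Agent.Lib.CharBasic.exists_mult hχ
  have h1 : d = ∑ ψ : IrrCharacter S, m ψ * charDegree ψ.1 := by
    have h2 := congrFun hm 1
    rw [hd, Finset.sum_apply] at h2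
    have h3 : (d : ℂ) = ((∑ ψ : IrrCharacter S, m ψ * charDegree ψ.1 : ℕ) : ℂ) := by
      rw [h2]
      push_cast
      refine Finset.sum_congr rfl fun ψ _ => ?_
      rw [charDegree_cast (isChar_of_irr ψ.2), Pi.smul_apply, smul_eq_mul]
    exact_mod_cast h3
  obtain ⟨ψ, hψ⟩ : ∃ ψ : IrrCharacter S, ¬ p ∣ m ψ * charDegree ψ.1 := by
    by_contra hcon
    push Not at hcon
    exact hpd (h1 ▸ Finset.dvd_sum fun ψ _ => hcon ψ)
  have h2 : ¬ p ∣ charDegree ψ.1 := fun h => hψ (Dvd.dvd.mul_left h _)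
  have h3 : m ψ ≠ 0 := by
    intro h; rw [h, zero_mul] at hψ; exact hψ (dvd_zero p)
  obtain ⟨n, hn⟩ := IsPGroup.iff_card.1 hS
  have h4 := charDegree_dvd ψ.2
  rw [hn] at h4
  obtain ⟨j, -, hj⟩ := (Nat.dvd_prime_pow hp.out).1 h4
  have h5 : charDegree ψ.1 = 1 := by
    rcases Nat.eq_zero_or_pos j with h6 | h6
    · rw [hj, h6, pow_zero]
    · exact absurd (hj ▸ dvd_pow_self p h6.ne') h2
  have h6 : ψ.1 1 = 1 := by
    rw [← charDegree_cast (isChar_of_irr ψ.2), h5, Nat.cast_one]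
  obtain ⟨ν, hν⟩ := Cfsg.Agent.Lib.CharBasic.exists_lin_of_one (isChar_of_irr ψ.2) h6
  refine ⟨ν, ?_⟩
  have h7 : linFn ν = ψ.1 := by rw [hν]; rfl
  rw [h7, hm, Cfsg.Agent.Lib.CharBasic.inner_sum_irr]
  exact_mod_cast h3

end LinC

section X

variable {T : Type*} [Group T] [Finite T] {p : ℕ} [hp : Fact p.Prime]

theorem comm_mod {N : Subgroup T} [N.Normal] (hsolv : IsPSolvable p T)
    (hdeg : ∀ β : IrrCharacter (T ⧸ N), ¬ p ∣ charDegree β.1) {S : Subgroup T} (hS : IsPGroup p S)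
    {x y : T} (hx : x ∈ S) (hy : y ∈ S) : x * y * x⁻¹ * y⁻¹ ∈ N := by
  obtain ⟨Q, hQn, hQc, hQp, hQi⟩ := ito_psolv p (Nat.card (T ⧸ N)) (T ⧸ N) le_rfl
    (Cfsg.Agent.Lib.PSol.quotient hsolv N) hdeg
  have hmem : ∀ x ∈ S, QuotientGroup.mk' N x ∈ Q := by
    intro x hx
    obtain ⟨k, hk⟩ := IsPGroup.iff_orderOf.1 hS ⟨x, hx⟩
    rw [Subgroup.orderOf_mk] at hk
    have h1 : orderOf (QuotientGroup.mk' Q (QuotientGroup.mk' N x)) ∣ p ^ k := by
      rw [← hk]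
      exact (orderOf_map_dvd _ _).trans (orderOf_map_dvd _ _)
    have h2 : orderOf (QuotientGroup.mk' Q (QuotientGroup.mk' N x)) ∣ Q.index := by
      rw [Subgroup.index_eq_card]
      exact orderOf_dvd_natCard _
    have h3 : Nat.Coprime (p ^ k) Q.index :=
      Nat.Coprime.pow_left k ((Nat.Prime.coprime_iff_not_dvd Fact.out).2 hQi)
    have h4 := Nat.eq_one_of_dvd_coprimes h3 h1 h2
    rw [orderOf_eq_one_iff] at h4
    exact (QuotientGroup.eq_one_iff _).1 h4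
  have h1 := hQc _ (hmem x hx) _ (hmem y hy)
  have h2 : QuotientGroup.mk' N (x * y * x⁻¹ * y⁻¹) = 1 := by
    rw [map_mul, map_mul, map_mul, map_inv, map_inv, h1]
    group
  exact (QuotientGroup.eq_one_iff _).1 h2

theorem lemX {N : Subgroup T} [hN : N.Normal] (hNp : IsPGroup p N) (hsolv : IsPSolvable p T)
    (l : N →* ℂˣ) (hinv : ∀ (g : T) (n : N), l ⟨g * n * g⁻¹, hN.conj_mem n n.2 g⟩ = l n)
    {ψ : IrrCharacter T} (hψ : ∀ n : N, ψ.1 n = l n * ψ.1 1)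
    (hdeg : ∀ ψ : IrrCharacter T, (∀ n : N, ψ.1 n = l n * ψ.1 1) → ¬ p ∣ charDegree ψ.1)
    {S : Subgroup T} (hS : IsPGroup p S) {x y : T} (hx : x ∈ S) (hy : y ∈ S) :
    x * y * x⁻¹ * y⁻¹ ∈ N := by
  classical
  haveI := Fintype.ofFinite T
  obtain ⟨P⟩ : Nonempty (Sylow p T) := inferInstance
  haveI := Fintype.ofFinite (P : Subgroup T)
  have hNP : N ≤ (P : Subgroup T) :=
    (Cfsg.Agent.Lib.Cores.le_pCore hN hNp).trans (Cfsg.Agent.Lib.Cores.pCore_le_sylow P)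
  obtain ⟨ν, hν⟩ := exists_lin_constituent (S := (P : Subgroup T)) P.2
    (Cfsg.Agent.Lib.CharInd.isChar_res (P : Subgroup T) (isChar_of_irr ψ.2))
    (d := charDegree ψ.1) (charDegree_cast (isChar_of_irr ψ.2)).symm (hdeg ψ hψ)
  have hνl : ∀ n : N, ν ⟨n, hNP n.2⟩ = l n := by
    intro n
    have h1 := Cfsg.Agent.Lib.CharExt.constituent_scalar
      (Cfsg.Agent.Lib.CharInd.isChar_res (P : Subgroup T) (isChar_of_irr ψ.2)) (linFn_isIrr ν) hν
      (k := ⟨n, hNP n.2⟩) (c := (l n : ℂ)) (by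
        have := linFn_norm' l n
        exact this) (hψ n)
    rw [linFn_apply_one, mul_one, linFn_apply] at h1
    exact Units.ext h1
  have hpow : ∃ k, l ^ (p ^ k) = 1 := by
    obtain ⟨k, hk⟩ := IsPGroup.iff_card.1 hNp
    refine ⟨k, MonoidHom.ext fun n => ?_⟩
    rw [MonoidHom.pow_apply, ← map_pow, ← hk, pow_card_eq_one', map_one, MonoidHom.one_apply]
  obtain ⟨k, hk⟩ := hpow
  obtain ⟨m, hm⟩ := Cfsg.Agent.Lib.CharExt.ext_of_prime_power hp.out hinv hk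
    ⟨(P : Subgroup T), hNP, ((Nat.Prime.coprime_iff_not_dvd hp.out).2 P.not_dvd_index).symm, ν, hνl⟩
  refine comm_mod hsolv (fun β => ?_) hS hx hy
  have hβ := isIrr_linFn_mul m (inflI (QuotientGroup.mk' N) (QuotientGroup.mk'_surjective N) β).2
  have h1 := hdeg ⟨_, hβ⟩ (by
    intro n
    change linFn m n * β.1 (QuotientGroup.mk' N n) = l n * (linFn m 1 * β.1 (QuotientGroup.mk' N 1))
    have h2 : QuotientGroup.mk' N (n : T) = QuotientGroup.mk' N 1 := by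
      rw [map_one]; exact (QuotientGroup.eq_one_iff _).2 n.2
    rw [h2, linFn_apply_one, one_mul, linFn_apply, hm])
  have h2 : charDegree (linFn m * (inflI (QuotientGroup.mk' N) (QuotientGroup.mk'_surjective N) β).1) =
      charDegree β.1 := by
    refine charDegree_eq ?_
    rw [Pi.mul_apply, linFn_apply_one, one_mul, charDegree_cast (isChar_of_irr β.2)]
    change β.1 (QuotientGroup.mk' N 1) = β.1 1
    rw [map_one]
  rw [← h2]
  exact h1

end X

section Y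

variable {G : Type*} [Group G] [Finite G] {p : ℕ} [hp : Fact p.Prime]

theorem lemY1 [Fintype G] {N T : Subgroup G} [hN : N.Normal] [Fintype N] [Fintype T] (l : N →* ℂˣ)
    (hT : ∀ g : G, g ∈ T ↔ cj g (linFn l) = linFn l) (hNT : N ≤ T) (φ : IrrCharacter T)
    (h4 : resLe hNT φ.1 = φ.1 1 • linFn l) :
    ∃ χ' : IrrCharacter G, classInner (fun n : N => χ'.1 n) (linFn l) ≠ 0 ∧
      charDegree χ'.1 = T.index * charDegree φ.1 := by
  classical
  have h5 : classInner (resLe hNT φ.1) (linFn l) ≠ 0 := by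
    rw [h4, Cfsg.Agent.Lib.CharBasic.classInner_smul_left, irr_inner_self (linFn_isIrr l), mul_one]
    exact isIrr_one_ne_zero φ.2
  have h6 := ind_irr_of_inertia (linFn_isIrr l) (T := T) hT hNT φ.2 h5
  refine ⟨⟨_, h6⟩, ?_, ?_⟩
  · change classInner (fun n : N => indFun T φ.1 n) (linFn l) ≠ 0
    intro h0
    have h7 : classInner (fun t : T => indFun T φ.1 t) φ.1 ≠ 0 := by
      rw [← reciprocity' T φ.1 (indFun T φ.1) (isChar_classFn (isChar_of_irr h6)),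
        irr_inner_self h6]
      exact one_ne_zero
    have h8 := isChar_sub_constituent
      (Cfsg.Agent.Lib.CharInd.isChar_res T (isChar_of_irr h6)) φ.2 h7
    obtain ⟨k, hk⟩ := exists_nat_inner (res_isChar hNT h8) (linFn_isIrr l)
    have h9 : resLe hNT ((fun t : T => indFun T φ.1 t) - φ.1) =
        (fun n : N => indFun T φ.1 n) - resLe hNT φ.1 := rfl
    rw [h9, classInner_sub_left, h0, h4, Cfsg.Agent.Lib.CharBasic.classInner_smul_left,
      irr_inner_self (linFn_isIrr l), mul_one, ← charDegree_cast (isChar_of_irr φ.2)] at hk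
    have h10 : ((k + charDegree φ.1 : ℕ) : ℂ) = 0 := by
      push_cast
      linear_combination -hk
    have h11 : k + charDegree φ.1 = 0 := by exact_mod_cast h10
    have := charDegree_pos φ.2
    omega
  · refine charDegree_eq ?_
    change indFun T φ.1 1 = _
    rw [Cfsg.Agent.Lib.CharInd.indFun_one]
    push_cast
    rw [charDegree_cast (isChar_of_irr φ.2)]

theorem lemY2 [Fintype G] {N T : Subgroup G} [hN : N.Normal] [Fintype N] [Fintype T] (l : N →* ℂˣ)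
    (hT : ∀ g : G, g ∈ T ↔ cj g (linFn l) = linFn l) (hNT : N ≤ T)
    (hNp : IsPGroup p N) (hsolv : IsPSolvable p G)
    (habove : ∀ χ : IrrCharacter G, classInner (fun n : N => χ.1 n) (linFn l) ≠ 0 →
      ¬ p ∣ charDegree χ.1) {χ : IrrCharacter G}
    (hχ : classInner (fun n : N => χ.1 n) (linFn l) ≠ 0) {S : Subgroup T} (hS : IsPGroup p S)
    {a b : T} (ha : a ∈ S) (hb : b ∈ S) : a * b * a⁻¹ * b⁻¹ ∈ N.subgroupOf T := by
  classical
  obtain ⟨ψ, hψ, h1, h2, h3⟩ := exists_clifford (linFn_isIrr l) hT hNT χ.2 hχ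
  have hl' : ∃ l' : N.subgroupOf T →* ℂˣ, ∀ (n : N.subgroupOf T) (h : ((n : T) : G) ∈ N),
      l' n = l ⟨((n : T) : G), h⟩ :=
    ⟨l.comp (Subgroup.subgroupOfEquivOfLe hNT).toMonoidHom, fun n h => rfl⟩
  obtain ⟨l', hl'⟩ := hl'
  have hinvl : ∀ (g : G), g ∈ T → ∀ n : N, l ⟨g * n * g⁻¹, hN.conj_mem n n.2 g⟩ = l n := by
    intro g hg n
    have h4 := congrFun ((hT g).1 hg) n
    exact Units.ext h4
  have hmem : ∀ n : N.subgroupOf T, ((n : T) : G) ∈ N := fun n => n.2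
  have hinv' : ∀ (g : T) (n : N.subgroupOf T),
      l' ⟨g * n * g⁻¹, (inferInstance : (N.subgroupOf T).Normal).conj_mem n n.2 g⟩ = l' n := by
    intro g n
    rw [hl' n (hmem n), ← hinvl g g.2 ⟨_, hmem n⟩]
    exact hl' _ _
  refine lemX (T := T) (N := N.subgroupOf T) (hNp.comap_of_injective _ T.subtype_injective)
    (Cfsg.Agent.Lib.PSol.subgroup hsolv T) l' hinv' (ψ := ⟨ψ, hψ⟩) ?_ ?_ hS ha hb
  · intro n
    have h4 := congrFun h3 ⟨_, hmem n⟩
    have h5 := congrFun h3 1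
    rw [Pi.smul_apply, smul_eq_mul] at h4 h5
    rw [linFn_apply_one, mul_one] at h5
    have h6 : resLe hNT ψ ⟨_, hmem n⟩ = ψ n := rfl
    have h7 : resLe hNT ψ 1 = ψ 1 := rfl
    rw [h6] at h4
    rw [h7] at h5
    change ψ n = l' n * ψ 1
    rw [h4, h5, mul_comm, hl' n (hmem n), linFn_apply]
  · intro φ hφ hd
    have hres : resLe hNT φ.1 = φ.1 1 • linFn l := by
      funext n
      have h4 := hφ ⟨⟨n, hNT n.2⟩, n.2⟩
      rw [hl' _ n.2] at h4
      rw [Pi.smul_apply, smul_eq_mul, linFn_apply, mul_comm]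
      exact h4
    obtain ⟨φ', h5, h6⟩ := lemY1 l hT hNT φ hres
    refine habove φ' h5 ?_
    rw [h6]
    exact Dvd.dvd.mul_left hd _

theorem lemY {N : Subgroup G} [hN : N.Normal] (hNp : IsPGroup p N)
    (hNc : ∀ a b : N, a * b = b * a) (hN1 : N ≠ ⊥) (hsolv : IsPSolvable p G)
    (hdeg : ∀ χ : IrrCharacter G, p ∣ charDegree χ.1 → Triv N χ.1)
    {P : Subgroup G} (hP : IsPGroup p P) {x y : G} (hx : x ∈ P) (hy : y ∈ P) :
    x * y * x⁻¹ * y⁻¹ ∈ N := by
  classical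
  haveI := Fintype.ofFinite G
  haveI := Fintype.ofFinite N
  haveI : Nontrivial N := (Subgroup.nontrivial_iff_ne_bot N).2 hN1
  obtain ⟨n₀, hn₀⟩ := exists_ne (1 : N)
  obtain ⟨l, hl⟩ := exists_lin_ne_one_of_comm hNc hn₀
  have habove : ∀ χ : IrrCharacter G, classInner (fun n : N => χ.1 n) (linFn l) ≠ 0 →
      ¬ p ∣ charDegree χ.1 := by
    intro χ hχ hd
    have ht := hdeg χ hd
    have h1 := Cfsg.Agent.Lib.CharExt.constituent_scalar
      (Cfsg.Agent.Lib.CharInd.isChar_res N (isChar_of_irr χ.2)) (linFn_isIrr l) hχ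
      (k := n₀) (c := 1) norm_one (by rw [one_mul]; exact ht n₀ n₀.2)
    rw [linFn_apply_one, mul_one, linFn_apply] at h1
    exact hl (Units.ext h1)
  obtain ⟨χ, hχ⟩ := exists_over_above (G := G) (⟨linFn l, linFn_isIrr l⟩ : IrrCharacter N)
  have hdvd := dvd_of_over hχ
  have hχ' : classInner (fun n : N => χ.1 n) (linFn l) ≠ 0 := hχ
  have hdvd2 : (inertia (linFn l)).index ∣ charDegree χ.1 := (Dvd.intro _ rfl).trans hdvd
  obtain ⟨T, hT⟩ : ∃ T : Subgroup G, T = inertia (linFn l) := ⟨_, rfl⟩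
  rw [← hT] at hdvd2
  haveI := Fintype.ofFinite T
  have hNT : N ≤ T := hT ▸ le_inertia (isChar_classFn (linFn_isChar l))
  have hTm : ∀ g : G, g ∈ T ↔ cj g (linFn l) = linFn l := by
    intro g; rw [hT]; exact mem_inertia
  have hTi : ¬ p ∣ T.index := fun hd => habove χ hχ' (hd.trans hdvd2)
  obtain ⟨S⟩ : Nonempty (Sylow p T) := inferInstance
  have hcard : Nat.card ((S : Subgroup T).map T.subtype) = p ^ (Nat.card G).factorization p := by
    rw [Nat.card_congr ((S : Subgroup T).equivMapOfInjective _ T.subtype_injective).symm.toEquiv,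
      Sylow.card_eq_multiplicity]
    congr 1
    rw [← Subgroup.card_mul_index T, Nat.factorization_mul Nat.card_pos.ne'
      Subgroup.FiniteIndex.index_ne_zero, Finsupp.add_apply,
      Nat.factorization_eq_zero_of_not_dvd hTi, add_zero]
  obtain ⟨P', hP'⟩ := hP.exists_le_sylow
  obtain ⟨g, hg⟩ := MulAction.exists_smul_eq G (Sylow.ofCard _ hcard) P'
  have hconj : ∀ z ∈ P, g⁻¹ * z * g ∈ (S : Subgroup T).map T.subtype := by
    intro z hz
    have h4 : z ∈ ((g • (Sylow.ofCard _ hcard) : Sylow p G) : Subgroup G) := hg ▸ hP' hz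
    rw [Sylow.coe_subgroup_smul, Subgroup.mem_pointwise_smul_iff_inv_smul_mem, ← map_inv,
      MulAut.smul_def, MulAut.conj_apply, inv_inv] at h4
    exact h4
  obtain ⟨a, ha, hax⟩ := hconj x hx
  obtain ⟨b, hb, hby⟩ := hconj y hy
  have hfin := lemY2 l hTm hNT hNp hsolv habove hχ' S.2 ha hb
  have h13 : (a : G) = g⁻¹ * x * g := hax
  have h14 : (b : G) = g⁻¹ * y * g := hby
  have h15 : x * y * x⁻¹ * y⁻¹ = g * ((a * b * a⁻¹ * b⁻¹ : T) : G) * g⁻¹ := by
    push_cast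
    rw [h13, h14]
    group
  rw [h15]
  exact hN.conj_mem _ hfin g

end Y

end Cfsg.Agent.Lib.BlkH8T
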