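import Cfsg.Agent.Lib.BlockRey
import Cfsg.Agent.Lib.BlockKB
import Cfsg.Agent.Lib.BlockLar
import Cfsg.Agent.Lib.BlockMaxB
import Cfsg.Agent.Lib.BlockIndIn
import Cfsg.Agent.Lib.BlockBFM

import Cfsg.Agent.Lib.BlkH8A
import Cfsg.Agent.Lib.BlkH8F
import Cfsg.Agent.Lib.BlkH8N
import Cfsg.Agent.Lib.BlkH8T
import Cfsg.Agent.Lib.CharLin
import Cfsg.Agent.Lib.CharExt
import Cfsg.Agent.Lib.PSol
import Cfsg.Agent.Lib.Cores
import Cfsg.Agent.Lib.BlkH5C

/-!
Derived length of Sylow subgroups and characters of degree divisible by p.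
-/

set_option autoImplicit false
set_option linter.style.haveILetI false
set_option linter.unusedVariables false
set_option linter.unusedSectionVars false
set_option linter.unusedDecidableInType false
set_option linter.unusedFintypeInType false
set_option linter.unusedSimpArgs false

namespace Cfsg.Agent.Lib.BlkH8U
open Cfsg Cfsg.Agent.Lib.BlockLoc Cfsg.Agent.Lib.BlockGA Cfsg.Agent.Lib.CharBasic
open Cfsg.Agent.Lib.BlockIdem Cfsg.Agent.Lib.BlockPP Cfsg.Agent.Lib.BlockOrth
open Cfsg.Agent.Lib.BlockRed Cfsg.Agent.Lib.BlockDef Cfsg.Agent.Lib.BlockDeg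
open Cfsg.Agent.Lib.BlockNP Cfsg.Agent.Lib.BlockInd Cfsg.Agent.Lib.BlockSecond
open Cfsg.Agent.Lib.BlockFirst Cfsg.Agent.Lib.BlockHt Cfsg.Agent.Lib.BlockM
open Cfsg.Agent.Lib.BlockCov Cfsg.Agent.Lib.BlockQuot Cfsg.Agent.Lib.CharKer
open Cfsg.Agent.Lib.BlockQuotB Cfsg.Agent.Lib.BlockMore Cfsg.Agent.Lib.BlockMoreB
open Cfsg.Agent.Lib.BlockTr Cfsg.Agent.Lib.CharNormal Cfsg.Agent.Lib.BlockCovB
open Cfsg.Agent.Lib.BlockBP Cfsg.Agent.Lib.BlockInt Cfsg.Agent.Lib.BlockSum Cfsg.Agent.Lib.BlockRk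
open Cfsg.Agent.Lib.BlockFusB Cfsg.Agent.Lib.BlockMax Cfsg.Agent.Lib.CharSplit Cfsg.Agent.Lib.CharBrauer
open Cfsg.Agent.Lib.CharInd Cfsg.Agent.Lib.BlockPC Cfsg.Agent.Lib.BlockPair Cfsg.Agent.Lib.BlockPairB
open Cfsg.Agent.Lib.BlockPairC Cfsg.Agent.Lib.BlockPairD Cfsg.Agent.Lib.BlockPairE
open Cfsg.Agent.Lib.BlockRey Cfsg.Agent.Lib.BlockPairF Cfsg.Agent.Lib.BlockFus Cfsg.Agent.Lib.BlockNilB Cfsg.Agent.Lib.BlockNil Cfsg.Agent.Lib.CharClifford
open Cfsg.Agent.Lib.BlockKB Cfsg.Agent.Lib.BlockLar Cfsg.Agent.Lib.BlockMaxB Cfsg.Agent.Lib.BlockIndIn Cfsg.Agent.Lib.BlockBFM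
open Cfsg.Agent.Lib.BlkH8A Cfsg.Agent.Lib.BlkH8F Cfsg.Agent.Lib.BlkH8N Cfsg.Agent.Lib.BlkH8T Cfsg.Agent.Lib.CharLin Cfsg.Agent.Lib.CharExt Cfsg.Agent.Lib.PSol Cfsg.Agent.Lib.Cores Cfsg.Agent.Lib.BlkH5C
open scoped ComplexConjugate

open Cfsg.Agent.Lib.BlkH8A Cfsg.Agent.Lib.BlkH8F Cfsg.Agent.Lib.BlkH8N Cfsg.Agent.Lib.CharLin Cfsg.Agent.Lib.BlkH8T Cfsg.Agent.Lib.BlkH5C

set_option maxHeartbeats 400000

universe uU

section Len

variable {G : Type*} [Group G] [Finite G] {p : ℕ} [hp : Fact p.Prime]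

theorem ds_mem {N : Subgroup G} [N.Normal] {P : Subgroup G} {k : ℕ}
    (h : derivedSeries (P.map (QuotientGroup.mk' N)) k = ⊥) (x : P)
    (hx : x ∈ derivedSeries P k) : (x : G) ∈ N := by
  let f : P →* P.map (QuotientGroup.mk' N) := (QuotientGroup.mk' N).subgroupMap P
  have h1 := map_derivedSeries_le_derivedSeries f k
  rw [h, le_bot_iff] at h1
  have h2 : f x ∈ (derivedSeries P k).map f := Subgroup.mem_map_of_mem f hx
  rw [h1, Subgroup.mem_bot] at h2
  have h3 : QuotientGroup.mk' N (x : G) = 1 := congrArg Subtype.val h2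
  exact (QuotientGroup.eq_one_iff _).1 h3

theorem ds_succ {N : Subgroup G} {P : Subgroup G} {k : ℕ} (hNc : ∀ a ∈ N, ∀ b ∈ N, a * b = b * a)
    (h : ∀ x : P, x ∈ derivedSeries P k → (x : G) ∈ N) : derivedSeries P (k + 1) = ⊥ := by
  rw [derivedSeries_succ, Subgroup.commutator_eq_bot_iff_le_centralizer]
  intro x hx
  rw [Subgroup.mem_centralizer_iff]
  intro y hy
  exact Subtype.ext (hNc _ (h y hy) _ (h x hx))

theorem ds_anti {P : Type*} [Group P] {a b : ℕ} (hab : a ≤ b) (h : derivedSeries P a = ⊥) :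
    derivedSeries P b = ⊥ := le_bot_iff.1 (h ▸ derivedSeries_antitone P hab)

theorem ds_one {P : Subgroup G} {N : Subgroup G}
    (h : ∀ x ∈ P, ∀ y ∈ P, x * y * x⁻¹ * y⁻¹ ∈ N) (x : P) (hx : x ∈ derivedSeries P 1) :
    (x : G) ∈ N := by
  have h1 : derivedSeries P 1 ≤ N.subgroupOf P := by
    rw [derivedSeries_one, commutator_def, Subgroup.commutator_le]
    intro a _ b _
    rw [Subgroup.mem_subgroupOf]
    exact h a a.2 b b.2
  exact h1 hx

/-- Inflation of characters of degree divisible by `p`. -/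
def inflD (N : Subgroup G) [N.Normal] :
    {χ : IrrCharacter (G ⧸ N) // p ∣ charDegree χ.1} → {χ : IrrCharacter G // p ∣ charDegree χ.1} :=
  fun χ => ⟨inflI (QuotientGroup.mk' N) (QuotientGroup.mk'_surjective N) χ.1, by
    have h : charDegree (inflI (QuotientGroup.mk' N) (QuotientGroup.mk'_surjective N) χ.1).1 =
        charDegree χ.1.1 := by
      simp only [charDegree]
      rfl
    rw [h]; exact χ.2⟩

theorem inflD_inj (N : Subgroup G) [N.Normal] : Function.Injective (inflD (p := p) N) := by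
  intro a b h
  have h1 := congrArg Subtype.val h
  exact Subtype.ext (inflI_injective _ (QuotientGroup.mk'_surjective N) h1)

theorem count_le (N : Subgroup G) [N.Normal] :
    Nat.card {χ : IrrCharacter (G ⧸ N) // p ∣ charDegree χ.1} ≤
      Nat.card {χ : IrrCharacter G // p ∣ charDegree χ.1} :=
  Nat.card_le_card_of_injective _ (inflD_inj N)

theorem triv_of_count (N : Subgroup G) [N.Normal]
    (h : Nat.card {χ : IrrCharacter (G ⧸ N) // p ∣ charDegree χ.1} =
      Nat.card {χ : IrrCharacter G // p ∣ charDegree χ.1}) (χ : IrrCharacter G)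
    (hχ : p ∣ charDegree χ.1) : Triv N χ.1 := by
  classical
  have hb : Function.Bijective (inflD (p := p) N) := by
    haveI := Fintype.ofFinite {χ : IrrCharacter (G ⧸ N) // p ∣ charDegree χ.1}
    haveI := Fintype.ofFinite {χ : IrrCharacter G // p ∣ charDegree χ.1}
    rw [Fintype.bijective_iff_injective_and_card]
    exact ⟨inflD_inj N, by rw [← Nat.card_eq_fintype_card, ← Nat.card_eq_fintype_card]; exact h⟩
  obtain ⟨ψ, hψ⟩ := hb.2 ⟨χ, hχ⟩
  have h1 : inflI (QuotientGroup.mk' N) (QuotientGroup.mk'_surjective N) ψ.1 = χ :=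
    congrArg Subtype.val hψ
  intro n hn
  rw [← h1]
  change ψ.1.1 (QuotientGroup.mk' N n) = ψ.1.1 (QuotientGroup.mk' N 1)
  have h2 : QuotientGroup.mk' N n = QuotientGroup.mk' N 1 := by
    rw [map_one]; exact (QuotientGroup.eq_one_iff _).2 hn
  rw [h2]

end Len

theorem derLen (p : ℕ) [hp : Fact p.Prime] (n : ℕ) : ∀ (G : Type uU) [Group G] [Finite G],
    Nat.card G ≤ n → IsPSolvable p G → ∀ P : Subgroup G, IsPGroup p P →
    derivedSeries P (Nat.card {χ : IrrCharacter G // p ∣ charDegree χ.1} + 1) = ⊥ := by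
  classical
  induction n with
  | zero =>
    intro G _ _ h
    have : 0 < Nat.card G := Nat.card_pos
    omega
  | succ n ih =>
    intro G _ _ hcard hsolv P hP
    rcases subsingleton_or_nontrivial G with hG | hG
    · exact Subsingleton.elim _ _
    have hq : ∀ (K : Subgroup G) [K.Normal], K ≠ ⊥ →
        derivedSeries (P.map (QuotientGroup.mk' K))
          (Nat.card {χ : IrrCharacter (G ⧸ K) // p ∣ charDegree χ.1} + 1) = ⊥ := by
      intro K hK hKb
      have h1 : Nat.card (G ⧸ K) ≤ n := by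
        have h2 := Subgroup.card_eq_card_quotient_mul_card_subgroup K
        have h3 : 1 < Nat.card K := by
          rw [Subgroup.one_lt_card_iff_ne_bot]; exact hKb
        have h4 : 0 < Nat.card (G ⧸ K) := Nat.card_pos
        nlinarith
      exact ih (G ⧸ K) h1 (Cfsg.Agent.Lib.PSol.quotient hsolv K) _ (hP.map _)
    rcases Cfsg.Agent.Lib.PSol.core_ne_bot hsolv with hK | hN
    · -- the center of the `p`-core
      haveI hKn : (pCore p G).Normal := Cfsg.Agent.Lib.Cores.pCore_normal p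
      have hKp : IsPGroup p (pCore p G) := Cfsg.Agent.Lib.Cores.pCore_isPGroup p
      haveI : Nontrivial (pCore p G) := (Subgroup.nontrivial_iff_ne_bot _).2 hK
      haveI hcn : Nontrivial (Subgroup.center (pCore p G)) := hKp.center_nontrivial
      haveI hNn : ((Subgroup.center (pCore p G)).map (pCore p G).subtype).Normal :=
        ConjAct.normal_of_characteristic_of_normal
      obtain ⟨N, hN⟩ : ∃ N, N = (Subgroup.center (pCore p G)).map (pCore p G).subtype := ⟨_, rfl⟩
      rw [← hN] at hNn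
      have hNK : N ≤ pCore p G := hN ▸ Subgroup.map_subtype_le _
      have hNp : IsPGroup p N := hKp.to_le hNK
      have hN1 : N ≠ ⊥ := by
        rw [hN, Ne, Subgroup.map_eq_bot_iff_of_injective _ (pCore p G).subtype_injective]
        exact (Subgroup.nontrivial_iff_ne_bot _).1 hcn
      have hNc : ∀ a ∈ N, ∀ b ∈ N, a * b = b * a := by
        intro a ha b hb
        rw [hN] at ha hb
        obtain ⟨a', ha', rfl⟩ := ha
        obtain ⟨b', -, rfl⟩ := hb
        have := Subgroup.mem_center_iff.1 ha' b'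
        exact congrArg Subtype.val this.symm
      by_cases hc0 : Nat.card {χ : IrrCharacter G // p ∣ charDegree χ.1} = 0
      · have h0 : ∀ χ : IrrCharacter G, ¬ p ∣ charDegree χ.1 := by
          intro χ hχ
          rw [Nat.card_eq_zero] at hc0
          rcases hc0 with h | h
          · exact h.elim ⟨χ, hχ⟩
          · exact h.not_finite inferInstance
        have h1 : ∀ x ∈ P, ∀ y ∈ P, x * y * x⁻¹ * y⁻¹ ∈ (⊥ : Subgroup G) := fun x hx y hy =>
          comm_mod (N := ⊥) hsolv (fun β hβ => h0 _ (inflD (p := p) (⊥ : Subgroup G) ⟨β, hβ⟩).2) hP hx hy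
        rw [hc0, zero_add, eq_bot_iff]
        intro x hx
        have h2 := ds_one h1 x hx
        rw [Subgroup.mem_bot] at h2 ⊢
        exact Subtype.ext h2
      rcases (count_le (G := G) (p := p) N).lt_or_eq with hlt | heq
      · have h1 := ds_anti (Nat.succ_le_of_lt hlt) (hq N hN1)
        exact ds_succ hNc fun x hx => ds_mem h1 x hx
      · have h1 : ∀ x ∈ P, ∀ y ∈ P, x * y * x⁻¹ * y⁻¹ ∈ N := fun x hx y hy =>
          lemY hNp (fun a b => Subtype.ext (hNc a a.2 b b.2)) hN1 hsolv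
            (fun χ hχ => triv_of_count N heq χ hχ) hP hx hy
        have h2 : derivedSeries P (1 + 1) = ⊥ := ds_succ hNc fun x hx => ds_one h1 x hx
        exact ds_anti (by omega) h2
    · haveI hNn : (pPrimeCore p G).Normal := Cfsg.Agent.Lib.Cores.pPrimeCore_normal p
      have h1 := ds_anti (Nat.succ_le_succ (count_le (G := G) (p := p) (pPrimeCore p G)))
        (hq (pPrimeCore p G) hN)
      rw [eq_bot_iff]
      intro x hx
      have h2 := ds_mem h1 x hx
      rw [Subgroup.mem_bot]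
      obtain ⟨k, hk⟩ := IsPGroup.iff_orderOf.1 hP x
      have h5 : orderOf (⟨_, h2⟩ : pPrimeCore p G) ∣ p ^ k := by
        rw [Subgroup.orderOf_mk, ← hk, Subgroup.orderOf_coe]
      have h6 : orderOf (⟨_, h2⟩ : pPrimeCore p G) ∣ Nat.card (pPrimeCore p G) :=
        orderOf_dvd_natCard _
      have h7 : Nat.Coprime (p ^ k) (Nat.card (pPrimeCore p G)) :=
        Nat.Coprime.pow_left k (Cfsg.Agent.Lib.Cores.pPrimeCore_coprime p).symm
      have h8 := Nat.eq_one_of_dvd_coprimes h7 h5 h6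
      rw [orderOf_eq_one_iff] at h8
      have h9 : (x : G) = 1 := congrArg (fun z : pPrimeCore p G => (z : G)) h8
      exact Subtype.ext h9

end Cfsg.Agent.Lib.BlkH8U
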