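import Cfsg.Agent.Lib.BlockRey
import Cfsg.Agent.Lib.BlockKB
import Cfsg.Agent.Lib.BlockLar
import Cfsg.Agent.Lib.BlockMaxB
import Cfsg.Agent.Lib.BlockIndIn
import Cfsg.Agent.Lib.BlockBFM

import Cfsg.Agent.Lib.BlkH8A
import Cfsg.Agent.Lib.BlkH8F
import Cfsg.Agent.Lib.BlkH8N
import Cfsg.Agent.Lib.BlkH8E

/-!
Height zero characters above a character of a normal subgroup.
-/

set_option autoImplicit false
set_option linter.style.haveILetI false
set_option linter.unusedVariables false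
set_option linter.unusedSectionVars false
set_option linter.unusedDecidableInType false
set_option linter.unusedFintypeInType false
set_option linter.unusedSimpArgs false

namespace Cfsg.Agent.Lib.BlkH8V
open Cfsg Cfsg.Agent.Lib.BlockLoc Cfsg.Agent.Lib.BlockGA Cfsg.Agent.Lib.CharBasic
open Cfsg.Agent.Lib.BlockIdem Cfsg.Agent.Lib.BlockPP Cfsg.Agent.Lib.BlockOrth
open Cfsg.Agent.Lib.BlockRed Cfsg.Agent.Lib.BlockDef Cfsg.Agent.Lib.BlockDeg
open Cfsg.Agent.Lib.BlockNP Cfsg.Agent.Lib.BlockInd Cfsg.Agent.Lib.BlockSecond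
open Cfsg.Agent.Lib.BlockFirst Cfsg.Agent.Lib.BlockHt Cfsg.Agent.Lib.BlockM
open Cfsg.Agent.Lib.BlockCov Cfsg.Agent.Lib.BlockQuot Cfsg.Agent.Lib.CharKer
open Cfsg.Agent.Lib.BlockQuotB Cfsg.Agent.Lib.BlockMore Cfsg.Agent.Lib.BlockMoreB
open Cfsg.Agent.Lib.BlockTr Cfsg.Agent.Lib.CharNormal Cfsg.Agent.Lib.BlockCovB
open Cfsg.Agent.Lib.BlockBP Cfsg.Agent.Lib.BlockInt Cfsg.Agent.Lib.BlockSum Cfsg.Agent.Lib.BlockRk
open Cfsg.Agent.Lib.BlockFusB Cfsg.Agent.Lib.BlockMax Cfsg.Agent.Lib.CharSplit Cfsg.Agent.Lib.CharBrauer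
open Cfsg.Agent.Lib.CharInd Cfsg.Agent.Lib.BlockPC Cfsg.Agent.Lib.BlockPair Cfsg.Agent.Lib.BlockPairB
open Cfsg.Agent.Lib.BlockPairC Cfsg.Agent.Lib.BlockPairD Cfsg.Agent.Lib.BlockPairE
open Cfsg.Agent.Lib.BlockRey Cfsg.Agent.Lib.BlockPairF Cfsg.Agent.Lib.BlockFus Cfsg.Agent.Lib.BlockNilB Cfsg.Agent.Lib.BlockNil Cfsg.Agent.Lib.CharClifford
open Cfsg.Agent.Lib.BlockKB Cfsg.Agent.Lib.BlockLar Cfsg.Agent.Lib.BlockMaxB Cfsg.Agent.Lib.BlockIndIn Cfsg.Agent.Lib.BlockBFM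
open Cfsg.Agent.Lib.BlkH8A Cfsg.Agent.Lib.BlkH8F Cfsg.Agent.Lib.BlkH8N Cfsg.Agent.Lib.BlkH8E
open scoped ComplexConjugate

open Cfsg.Agent.Lib.BlkH8A Cfsg.Agent.Lib.BlkH8F Cfsg.Agent.Lib.BlkH8N Cfsg.Agent.Lib.BlkH8E

set_option maxHeartbeats 400000

section K0

variable {G : Type*} [Group G] [Finite G] {p : ℕ} [hp : Fact p.Prime] {M : Ideal AlgInt}

/-- `χ(1) = e [G : T] θ(1)`. -/
theorem deg_mul {N : Subgroup G} [N.Normal] [Fintype N] {χ : IrrCharacter G}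
    {θ : IrrCharacter N} (h : Over χ θ) :
    charDegree χ.1 = (inertia θ.1).index * charDegree θ.1 * mul χ θ := by
  classical
  haveI := Fintype.ofFinite G
  have hAT : N ≤ inertia θ.1 := le_inertia (isChar_classFn (isChar_of_irr θ.2))
  haveI : Fintype (inertia θ.1) := Fintype.ofFinite _
  obtain ⟨ψ, hψ, h1, h2, h3⟩ := exists_clifford θ.2 (T := inertia θ.1)
    (fun g => mem_inertia) hAT χ.2 h
  have he := mul_spec χ θ
  have h4 : χ.1 1 = ((inertia θ.1).index : ℂ) * ψ 1 := by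
    rw [← h1, Cfsg.Agent.Lib.CharInd.indFun_one]
  have h5 : ψ 1 = mul χ θ * θ.1 1 := by
    have := congrFun h3 1
    rw [he] at this
    exact this
  have h6 : (charDegree χ.1 : ℂ) = (((inertia θ.1).index * charDegree θ.1 * mul χ θ : ℕ) : ℂ) := by
    rw [charDegree_cast (isChar_of_irr χ.2), h4, h5]
    push_cast
    rw [charDegree_cast (isChar_of_irr θ.2)]
    ring
  exact_mod_cast h6

theorem dvd_sum_mul (hM : IsPModular p M) [Fintype G] {B : Set (IrrCharacter G)} (hB : IsPBlock M B)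
    {N : Subgroup G} [hN : N.Normal] [Fintype N] (P : Subgroup G) (hP : IsPGroup p P) (hPN : ¬ P ≤ N)
    (θ : IrrCharacter N) [DecidablePred (· ∈ B)] :
    p ∣ ∑ χ ∈ Finset.univ.filter (· ∈ B), mul χ θ * charDegree χ.1 := by
  classical
  obtain ⟨x, hx, hxN⟩ := SetLike.not_le_iff_exists.1 hPN
  obtain ⟨k, hk⟩ := IsPGroup.iff_orderOf.1 hP ⟨x, hx⟩
  rw [Subgroup.orderOf_mk] at hk
  have hppx : pp p x = x := pp_eq_self hM.1 ⟨k, hk⟩
  have hpqx : pq p x = 1 := by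
    have := pp_mul_pq p x
    rw [hppx] at this
    exact mul_eq_left.1 this
  have hF : ∀ g, g ∉ N → indFun N θ.1 g = 0 := by
    intro g hg
    refine Cfsg.Agent.Lib.CharInd.indFun_eq_zero_of_not_conj N θ.1 g fun y hy => ?_
    exfalso
    apply hg
    have := hN.conj_mem _ hy y
    have h2 : y * (y⁻¹ * g * y) * y⁻¹ = g := by group
    rwa [h2] at this
  have h0 : blockPart B (indFun N θ.1) x = 0 := by
    refine blockPart_vanish hM (isLoc_eB hM hB) fun g hg => hF g fun hgN => ?_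
    rw [hppx] at hg
    obtain ⟨c, hc⟩ := isConj_iff.1 hg
    have h1 : pp p g ∈ N := pp_mem hgN
    rw [← hc] at h1
    have h2 := hN.conj_mem _ h1 c⁻¹
    have h3 : c⁻¹ * (c * x * c⁻¹) * c⁻¹⁻¹ = x := by group
    rw [h3] at h2
    exact hxN h2
  have hval : ∀ y, blockPart B (indFun N θ.1) y =
      ∑ χ ∈ Finset.univ.filter (· ∈ B), (mul χ θ : ℂ) * χ.1 y := by
    intro y
    rw [blockPart_eq]
    refine Finset.sum_congr rfl fun χ _ => ?_
    rw [Cfsg.Agent.Lib.CharInd.reciprocity _ _ _ (isChar_classFn (isChar_of_irr χ.2)),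
      ← classInner_conj_symm, mul_spec, Complex.conj_natCast]
  have h1 : MemLocalIdeal M ((∑ χ ∈ Finset.univ.filter (· ∈ B), mul χ θ * charDegree χ.1 : ℕ) : ℂ) := by
    have h2 : ((∑ χ ∈ Finset.univ.filter (· ∈ B), mul χ θ * charDegree χ.1 : ℕ) : ℂ) =
        ∑ χ ∈ Finset.univ.filter (· ∈ B), -((mul χ θ : ℂ) * (χ.1 x - χ.1 (pq p x))) := by
      have h3 := hval x
      rw [h0] at h3
      have h4 : ∀ χ : IrrCharacter G, -((mul χ θ : ℂ) * (χ.1 x - χ.1 (pq p x))) =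
          (mul χ θ : ℂ) * χ.1 1 - (mul χ θ : ℂ) * χ.1 x := by
        intro χ
        rw [hpqx]; ring
      simp only [h4]
      rw [Finset.sum_sub_distrib, ← h3, sub_zero]
      push_cast
      refine Finset.sum_congr rfl fun χ _ => ?_
      rw [charDegree_cast (isChar_of_irr χ.2)]
    rw [h2]
    refine max_sum hM _ _ fun χ _ => ?_
    rw [← neg_mul]
    refine max_mul_left hM ?_ (max_sub_pq hM (isChar_of_irr χ.2) x)
    exact loc_neg hM (loc_natCast hM _)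
  exact (max_natCast_iff hM _).1 h1

theorem dvd_sum_sq (hM : IsPModular p M) [Fintype G] {B : Set (IrrCharacter G)} (hB : IsPBlock M B)
    {N : Subgroup G} [hN : N.Normal] [Fintype N] (P : Subgroup G) (hP : IsPGroup p P) (hPN : ¬ P ≤ N)
    (θ : IrrCharacter N)
    [DecidablePred fun χ : IrrCharacter G => χ ∈ B ∧ ¬ p ∣ charDegree χ.1 ∧ Over χ θ] :
    p ∣ ∑ χ ∈ Finset.univ.filter (fun χ : IrrCharacter G => χ ∈ B ∧ ¬ p ∣ charDegree χ.1 ∧ Over χ θ),
      charDegree χ.1 ^ 2 := by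
  classical
  have h1 := dvd_sum_mul hM hB P hP hPN θ
  have h2 : p ∣ ∑ χ ∈ Finset.univ.filter (· ∈ B), (inertia θ.1).index * charDegree θ.1 * (mul χ θ * charDegree χ.1) := by
    rw [← Finset.mul_sum]
    exact Dvd.dvd.mul_left h1 _
  have h3 : ∀ χ : IrrCharacter G, (inertia θ.1).index * charDegree θ.1 * (mul χ θ * charDegree χ.1) =
      if Over χ θ then charDegree χ.1 ^ 2 else 0 := by
    intro χ
    by_cases h : Over χ θ
    · rw [if_pos h, ← mul_assoc, ← deg_mul h, sq]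
    · have h4 : mul χ θ = 0 := by
        by_contra hne
        exact h (over_iff_mul.2 hne)
      rw [if_neg h, h4, zero_mul, mul_zero]
  simp only [h3] at h2
  rw [← Finset.sum_filter, Finset.filter_filter] at h2
  have h5 : ∑ χ ∈ Finset.univ.filter (fun χ : IrrCharacter G => χ ∈ B ∧ Over χ θ), charDegree χ.1 ^ 2 =
      ∑ χ ∈ Finset.univ.filter (fun χ : IrrCharacter G => χ ∈ B ∧ ¬ p ∣ charDegree χ.1 ∧ Over χ θ),
        charDegree χ.1 ^ 2 +
      ∑ χ ∈ Finset.univ.filter (fun χ : IrrCharacter G => χ ∈ B ∧ p ∣ charDegree χ.1 ∧ Over χ θ),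
        charDegree χ.1 ^ 2 := by
    rw [← Finset.sum_union]
    · refine Finset.sum_congr ?_ fun _ _ => rfl
      ext χ
      simp only [Finset.mem_filter, Finset.mem_univ, true_and, Finset.mem_union]
      tauto
    · rw [Finset.disjoint_left]
      intro χ h6 h7
      rw [Finset.mem_filter] at h6 h7
      exact h6.2.2.1 h7.2.2.1
  rw [h5] at h2
  refine (Nat.dvd_add_left ?_).1 h2
  refine Finset.dvd_sum fun χ hχ => ?_
  rw [Finset.mem_filter] at hχ
  exact Dvd.dvd.pow hχ.2.2.1 two_ne_zero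

end K0

end Cfsg.Agent.Lib.BlkH8V
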