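import Cfsg.Agent.Lib.BlockRey
import Cfsg.Agent.Lib.BlockKB
import Cfsg.Agent.Lib.BlockLar
import Cfsg.Agent.Lib.BlockMaxB
import Cfsg.Agent.Lib.BlockIndIn
import Cfsg.Agent.Lib.BlockBFM

import Cfsg.Agent.Lib.BlkH8A
import Cfsg.Agent.Lib.BlkH8F
import Cfsg.Agent.Lib.CharLin
import Cfsg.Agent.Lib.CharCoC

/-!
Fully ramified characters.
-/

set_option autoImplicit false
set_option linter.style.haveILetI false
set_option linter.unusedVariables false
set_option linter.unusedSectionVars false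
set_option linter.unusedDecidableInType false
set_option linter.unusedFintypeInType false
set_option linter.unusedSimpArgs false

namespace Cfsg.Agent.Lib.BlkH8W
open Cfsg Cfsg.Agent.Lib.BlockLoc Cfsg.Agent.Lib.BlockGA Cfsg.Agent.Lib.CharBasic
open Cfsg.Agent.Lib.BlockIdem Cfsg.Agent.Lib.BlockPP Cfsg.Agent.Lib.BlockOrth
open Cfsg.Agent.Lib.BlockRed Cfsg.Agent.Lib.BlockDef Cfsg.Agent.Lib.BlockDeg
open Cfsg.Agent.Lib.BlockNP Cfsg.Agent.Lib.BlockInd Cfsg.Agent.Lib.BlockSecond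
open Cfsg.Agent.Lib.BlockFirst Cfsg.Agent.Lib.BlockHt Cfsg.Agent.Lib.BlockM
open Cfsg.Agent.Lib.BlockCov Cfsg.Agent.Lib.BlockQuot Cfsg.Agent.Lib.CharKer
open Cfsg.Agent.Lib.BlockQuotB Cfsg.Agent.Lib.BlockMore Cfsg.Agent.Lib.BlockMoreB
open Cfsg.Agent.Lib.BlockTr Cfsg.Agent.Lib.CharNormal Cfsg.Agent.Lib.BlockCovB
open Cfsg.Agent.Lib.BlockBP Cfsg.Agent.Lib.BlockInt Cfsg.Agent.Lib.BlockSum Cfsg.Agent.Lib.BlockRk
open Cfsg.Agent.Lib.BlockFusB Cfsg.Agent.Lib.BlockMax Cfsg.Agent.Lib.CharSplit Cfsg.Agent.Lib.CharBrauer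
open Cfsg.Agent.Lib.CharInd Cfsg.Agent.Lib.BlockPC Cfsg.Agent.Lib.BlockPair Cfsg.Agent.Lib.BlockPairB
open Cfsg.Agent.Lib.BlockPairC Cfsg.Agent.Lib.BlockPairD Cfsg.Agent.Lib.BlockPairE
open Cfsg.Agent.Lib.BlockRey Cfsg.Agent.Lib.BlockPairF Cfsg.Agent.Lib.BlockFus Cfsg.Agent.Lib.BlockNilB Cfsg.Agent.Lib.BlockNil Cfsg.Agent.Lib.CharClifford
open Cfsg.Agent.Lib.BlockKB Cfsg.Agent.Lib.BlockLar Cfsg.Agent.Lib.BlockMaxB Cfsg.Agent.Lib.BlockIndIn Cfsg.Agent.Lib.BlockBFM
open Cfsg.Agent.Lib.BlkH8A Cfsg.Agent.Lib.BlkH8F Cfsg.Agent.Lib.CharLin Cfsg.Agent.Lib.CharCoC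
open scoped ComplexConjugate

open Cfsg.Agent.Lib.BlkH8A Cfsg.Agent.Lib.BlkH8F Cfsg.Agent.Lib.CharLin

set_option maxHeartbeats 400000

section Norm

variable {D : Type*} [Group D] [Fintype D] {Z : Subgroup D} [hZ : Z.Normal]

/-- An extension does not vanish on a whole coset. -/
theorem exists_ne_zero (hab : ∀ a b : D, a * b * a⁻¹ * b⁻¹ ∈ Z) {φ : D → ℂ}
    (hφ : IsIrrCharacter D φ) {θ : Z → ℂ} (hθ : IsIrrCharacter Z θ) (hext : ∀ z : Z, φ z = θ z)
    (c : D) : ∃ z ∈ Z, φ (c * z) ≠ 0 := by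
  classical
  by_contra hcon
  push Not at hcon
  haveI : Finite (D →* ℂˣ) := by
    have : Function.Injective (fun l : D →* ℂˣ => (⟨linFn l, linFn_isIrr l⟩ : IrrCharacter D)) :=
      fun a b h => linFn_injective (congrArg Subtype.val h)
    exact Finite.of_injective _ this
  haveI : Fintype {l : D →* ℂˣ // ∀ m ∈ Z, l m = 1} := Fintype.ofFinite _
  have h1 : ∑ l : {l : D →* ℂˣ // ∀ m ∈ Z, l m = 1}, linFn l.1 c⁻¹ *
      ∑ d : D, linFn l.1 d * φ d * conj (φ d) = 0 := by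
    simp only [Finset.mul_sum]
    rw [Finset.sum_comm]
    refine Finset.sum_eq_zero fun d _ => ?_
    by_cases hd : c⁻¹ * d ∈ Z
    · have h2 := hcon _ hd
      rw [mul_inv_cancel_left] at h2
      simp only [h2, mul_zero, zero_mul, Finset.sum_const_zero]
    · have h2 := Cfsg.Agent.Lib.CharCoC.sum_lin hab hd
      have h3 : ∀ l : {l : D →* ℂˣ // ∀ m ∈ Z, l m = 1},
          linFn l.1 c⁻¹ * (linFn l.1 d * φ d * conj (φ d)) = linFn l.1 (c⁻¹ * d) * (φ d * conj (φ d)) := by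
        intro l
        simp only [linFn_apply, map_mul, Units.val_mul]
        ring
      simp only [h3]
      rw [← Finset.sum_mul, h2, zero_mul]
  have hin : ∀ l : {l : D →* ℂˣ // ∀ m ∈ Z, l m = 1},
      ∑ d : D, linFn l.1 d * φ d * conj (φ d) =
        (Nat.card D : ℂ) * classInner (linFn l.1 * φ) φ := by
    intro l
    rw [classInner_def, ← mul_assoc, mul_inv_cancel₀ (Nat.cast_ne_zero.2 Nat.card_pos.ne'), one_mul]
    rfl
  have hne : ∀ l : {l : D →* ℂˣ // ∀ m ∈ Z, l m = 1}, l ≠ ⟨1, fun _ _ => rfl⟩ →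
      classInner (linFn l.1 * φ) φ = 0 := by
    intro l hl
    refine irr_inner_ne (isIrr_linFn_mul _ hφ) hφ fun h => hl ?_
    have hg := Cfsg.Agent.Lib.CharClifford.gallagher hθ hφ hext
    have h2 : (linFn l.1 : D → ℂ) = linFn 1 := by
      refine hg.injOn ⟨linFn_isIrr _, fun n hn => ?_⟩ ⟨linFn_isIrr _, fun n hn => ?_⟩ ?_
      · rw [linFn_apply, linFn_apply, l.2 n hn, map_one]
      · rw [linFn_apply, linFn_apply]; rfl
      · change linFn l.1 * φ = linFn 1 * φ
        rw [h, linFn_one]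
        funext d
        rw [Pi.mul_apply, one_mul]
    exact Subtype.ext (linFn_injective h2)
  rw [Finset.sum_eq_single (⟨1, fun _ _ => rfl⟩ : {l : D →* ℂˣ // ∀ m ∈ Z, l m = 1})] at h1
  · rw [hin] at h1
    have h3 : (linFn (1 : D →* ℂˣ) * φ : D → ℂ) = φ := by
      rw [linFn_one]; funext d; rw [Pi.mul_apply, one_mul]
    change linFn 1 c⁻¹ * ((Nat.card D : ℂ) * classInner (linFn 1 * φ) φ) = 0 at h1
    rw [h3, irr_inner_self hφ, linFn_one, one_mul, mul_one] at h1
    exact (Nat.cast_ne_zero.2 Nat.card_pos.ne' : (Nat.card D : ℂ) ≠ 0) h1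
  · intro l _ hl
    rw [hin, hne l hl, mul_zero, mul_zero]
  · intro h; exact absurd (Finset.mem_univ _) h

end Norm

section Ram

variable {H : Type*} [Group H] [Fintype H] {Z : Subgroup H} [hZ : Z.Normal]

theorem ram (χ : IrrCharacter H) [Fintype Z] {θ : IrrCharacter Z} {e : ℕ} (he : e ^ 2 = Z.index)
    (hχ : ∀ z : Z, χ.1 z = e * θ.1 z) :
    (∀ η : IrrCharacter H, mul η θ ≠ 0 → η = χ) ∧ ∀ c, c ∉ Z → χ.1 c = 0 := by
  classical
  have hidx : Z.index ≠ 0 := Subgroup.FiniteIndex.index_ne_zero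
  have he0 : e ≠ 0 := by
    rintro rfl
    rw [← he] at hidx
    exact hidx (by norm_num)
  have hm : mul χ θ = e := by
    have h1 := mul_spec χ θ
    have h2 : (fun h : Z => χ.1 h) = (e : ℂ) • θ.1 := by
      funext z
      rw [Pi.smul_apply, smul_eq_mul, hχ]
    rw [h2, Cfsg.Agent.Lib.CharBasic.classInner_smul_left, irr_inner_self θ.2, mul_one] at h1
    exact_mod_cast h1.symm
  have hd : charDegree χ.1 = e * charDegree θ.1 := by
    refine charDegree_eq ?_
    push_cast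
    rw [charDegree_cast (isChar_of_irr θ.2)]
    exact hχ 1
  have h1 := index_mul_deg (G := H) θ
  have h2 : ∀ η : IrrCharacter H, mul η θ ≠ 0 → η = χ := by
    intro η hη
    by_contra hne
    have h3 : mul χ θ * charDegree χ.1 + mul η θ * charDegree η.1 ≤
        ∑ ψ : IrrCharacter H, mul ψ θ * charDegree ψ.1 := by
      have h4 : ∑ ψ ∈ ({χ, η} : Finset (IrrCharacter H)), mul ψ θ * charDegree ψ.1 =
          mul χ θ * charDegree χ.1 + mul η θ * charDegree η.1 := Finset.sum_pair (Ne.symm hne)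
      rw [← h4]
      exact Finset.sum_le_sum_of_subset (Finset.subset_univ _)
    rw [← h1, hm, hd, ← he] at h3
    have h5 : 0 < mul η θ * charDegree η.1 := Nat.mul_pos (Nat.pos_of_ne_zero hη) (charDegree_pos η.2)
    nlinarith
  refine ⟨h2, fun c hc => ?_⟩
  have h3 : indFun Z θ.1 c = 0 := by
    refine Cfsg.Agent.Lib.CharInd.indFun_eq_zero_of_not_conj Z θ.1 c fun y hy => ?_
    exfalso
    apply hc
    have := hZ.conj_mem _ hy y
    have h2 : y * (y⁻¹ * c * y) * y⁻¹ = c := by group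
    rwa [h2] at this
  have h4 := char_eq_sum_inner (Cfsg.Agent.Lib.CharInd.isChar_ind Z (isChar_of_irr θ.2))
  have h5 := congrFun h4 c
  rw [Finset.sum_apply, h3] at h5
  have h6 : ∀ η : IrrCharacter H, (classInner (indFun Z θ.1) η.1 • η.1) c = (mul η θ : ℂ) * η.1 c := by
    intro η
    rw [Pi.smul_apply, smul_eq_mul,
      Cfsg.Agent.Lib.CharInd.reciprocity _ _ _ (isChar_classFn (isChar_of_irr η.2)),
      ← classInner_conj_symm, mul_spec, Complex.conj_natCast]
  simp only [h6] at h5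
  rw [Finset.sum_eq_single χ] at h5
  · rw [hm] at h5
    rcases mul_eq_zero.1 h5.symm with h | h
    · exact absurd (by exact_mod_cast h) he0
    · exact h
  · intro η _ hη
    have : mul η θ = 0 := by
      by_contra h; exact hη (h2 η h)
    rw [this, Nat.cast_zero, zero_mul]
  · intro h; exact absurd (Finset.mem_univ _) h

theorem ind_vanish (χ : IrrCharacter H) [Fintype Z] {θ : IrrCharacter Z} {e : ℕ} (he : e ^ 2 = Z.index)
    (hχ : ∀ z : Z, χ.1 z = e * θ.1 z) {D : Subgroup H} [Fintype D] (hZD : Z ≤ D) {ξ : D → ℂ}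
    (hξ : IsIrrCharacter D ξ) (hext : resLe hZD ξ = θ.1) {c : H} (hc : c ∉ Z) :
    indFun D ξ c = 0 := by
  classical
  obtain ⟨h1, h2⟩ := ram χ he hχ
  have h4 := char_eq_sum_inner (Cfsg.Agent.Lib.CharInd.isChar_ind D (isChar_of_irr hξ))
  rw [congrFun h4 c, Finset.sum_apply]
  refine Finset.sum_eq_zero fun η _ => ?_
  by_cases hη : η = χ
  · rw [hη, Pi.smul_apply, h2 c hc, smul_zero]
  · have h5 : classInner (indFun D ξ) η.1 = 0 := by
      by_contra hne
      apply hη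
      apply h1
      rw [Cfsg.Agent.Lib.CharInd.reciprocity _ _ _ (isChar_classFn (isChar_of_irr η.2))] at hne
      have h7 : classInner (fun t : D => η.1 t) ξ ≠ 0 := by
        intro h0
        rw [← classInner_conj_symm, h0, map_zero] at hne
        exact hne rfl
      have h8 := isChar_sub_constituent
        (Cfsg.Agent.Lib.CharInd.isChar_res D (isChar_of_irr η.2)) hξ h7
      obtain ⟨k, hk⟩ := exists_nat_inner (res_isChar hZD h8) θ.2
      have h9 : resLe hZD ((fun t : D => η.1 t) - ξ) = (fun n : Z => η.1 n) - resLe hZD ξ := rfl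
      rw [h9, classInner_sub_left, hext, irr_inner_self θ.2, mul_spec] at hk
      intro h0
      rw [h0] at hk
      have h10 : ((k + 1 : ℕ) : ℂ) = 0 := by
        push_cast
        push_cast at hk
        linear_combination -hk
      have h11 : k + 1 = 0 := by exact_mod_cast h10
      omega
    rw [h5, zero_smul]; rfl

end Ram

end Cfsg.Agent.Lib.BlkH8W
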