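import Cfsg.Agent.Lib.BlockRey
import Cfsg.Agent.Lib.BlockKB
import Cfsg.Agent.Lib.BlockLar
import Cfsg.Agent.Lib.BlockMaxB
import Cfsg.Agent.Lib.BlockIndIn
import Cfsg.Agent.Lib.BlockBFM

import Cfsg.Agent.Lib.BlkH8A
import Cfsg.Agent.Lib.BlkH8F
import Cfsg.Agent.Lib.CharLin
import Cfsg.Agent.Lib.CharCoC
import Cfsg.Agent.Lib.BlkH8W
import Cfsg.Agent.Lib.CharExt

/-!
No self-centralizing cyclic subgroup modulo a fully ramified section.
-/

set_option autoImplicit false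
set_option linter.style.haveILetI false
set_option linter.unusedVariables false
set_option linter.unusedSectionVars false
set_option linter.unusedDecidableInType false
set_option linter.unusedFintypeInType false
set_option linter.unusedSimpArgs false

namespace Cfsg.Agent.Lib.BlkH8X
open Cfsg Cfsg.Agent.Lib.BlockLoc Cfsg.Agent.Lib.BlockGA Cfsg.Agent.Lib.CharBasic
open Cfsg.Agent.Lib.BlockIdem Cfsg.Agent.Lib.BlockPP Cfsg.Agent.Lib.BlockOrth
open Cfsg.Agent.Lib.BlockRed Cfsg.Agent.Lib.BlockDef Cfsg.Agent.Lib.BlockDeg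
open Cfsg.Agent.Lib.BlockNP Cfsg.Agent.Lib.BlockInd Cfsg.Agent.Lib.BlockSecond
open Cfsg.Agent.Lib.BlockFirst Cfsg.Agent.Lib.BlockHt Cfsg.Agent.Lib.BlockM
open Cfsg.Agent.Lib.BlockCov Cfsg.Agent.Lib.BlockQuot Cfsg.Agent.Lib.CharKer
open Cfsg.Agent.Lib.BlockQuotB Cfsg.Agent.Lib.BlockMore Cfsg.Agent.Lib.BlockMoreB
open Cfsg.Agent.Lib.BlockTr Cfsg.Agent.Lib.CharNormal Cfsg.Agent.Lib.BlockCovB
open Cfsg.Agent.Lib.BlockBP Cfsg.Agent.Lib.BlockInt Cfsg.Agent.Lib.BlockSum Cfsg.Agent.Lib.BlockRk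
open Cfsg.Agent.Lib.BlockFusB Cfsg.Agent.Lib.BlockMax Cfsg.Agent.Lib.CharSplit Cfsg.Agent.Lib.CharBrauer
open Cfsg.Agent.Lib.CharInd Cfsg.Agent.Lib.BlockPC Cfsg.Agent.Lib.BlockPair Cfsg.Agent.Lib.BlockPairB
open Cfsg.Agent.Lib.BlockPairC Cfsg.Agent.Lib.BlockPairD Cfsg.Agent.Lib.BlockPairE
open Cfsg.Agent.Lib.BlockRey Cfsg.Agent.Lib.BlockPairF Cfsg.Agent.Lib.BlockFus Cfsg.Agent.Lib.BlockNilB Cfsg.Agent.Lib.BlockNil Cfsg.Agent.Lib.CharClifford
open Cfsg.Agent.Lib.BlockKB Cfsg.Agent.Lib.BlockLar Cfsg.Agent.Lib.BlockMaxB Cfsg.Agent.Lib.BlockIndIn Cfsg.Agent.Lib.BlockBFM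
open Cfsg.Agent.Lib.BlkH8A Cfsg.Agent.Lib.BlkH8F Cfsg.Agent.Lib.CharLin Cfsg.Agent.Lib.CharCoC Cfsg.Agent.Lib.BlkH8W Cfsg.Agent.Lib.CharExt
open scoped ComplexConjugate

open Cfsg.Agent.Lib.BlkH8A Cfsg.Agent.Lib.BlkH8F Cfsg.Agent.Lib.CharLin Cfsg.Agent.Lib.BlkH8W

set_option maxHeartbeats 400000

section SC

variable {H : Type*} [Group H] [Fintype H] {Z : Subgroup H} [hZ : Z.Normal]

theorem key (χ : IrrCharacter H) [Fintype Z] {θ : IrrCharacter Z} {e : ℕ} (he : e ^ 2 = Z.index)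
    (hχ : ∀ z : Z, χ.1 z = e * θ.1 z) {D : Subgroup H} [Fintype D] (hZD : Z ≤ D)
    (hab : ∀ a b : D, a * b * a⁻¹ * b⁻¹ ∈ Z.subgroupOf D) {φ : D → ℂ} (hφ : IsIrrCharacter D φ)
    (hext : resLe hZD φ = θ.1) (c : D) (hcZ : (c : H) ∉ Z) (hcφ : φ c ≠ 0)
    (hself : ∀ x : H, (c : H)⁻¹ * (x⁻¹ * c * x) ∈ Z → x ∈ D) : False := by
  classical
  haveI : Finite (D →* ℂˣ) := by
    have : Function.Injective (fun l : D →* ℂˣ => (⟨linFn l, linFn_isIrr l⟩ : IrrCharacter D)) :=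
      fun a b h => linFn_injective (congrArg Subtype.val h)
    exact Finite.of_injective _ this
  haveI : Fintype {l : D →* ℂˣ // ∀ m ∈ Z.subgroupOf D, l m = 1} := Fintype.ofFinite _
  have hind : ∀ l : {l : D →* ℂˣ // ∀ m ∈ Z.subgroupOf D, l m = 1},
      ∑ x : H, extendByZero D (linFn l.1 * φ) (x⁻¹ * c * x) = 0 := by
    intro l
    have h1 := ind_vanish χ he hχ hZD (isIrr_linFn_mul l.1 hφ) (by
      funext z
      change linFn l.1 ⟨z, hZD z.2⟩ * φ ⟨z, hZD z.2⟩ = θ.1 z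
      have h2 := congrFun hext z
      rw [linFn_apply, l.2 ⟨z, hZD z.2⟩ (by rw [Subgroup.mem_subgroupOf]; exact z.2), Units.val_one, one_mul]
      exact h2) hcZ
    rw [Cfsg.Agent.Lib.CharInd.indFun_apply] at h1
    rcases mul_eq_zero.1 h1 with h | h
    · exact absurd h (inv_ne_zero (Nat.cast_ne_zero.2 Nat.card_pos.ne'))
    · exact h
  have hsum : ∑ l : {l : D →* ℂˣ // ∀ m ∈ Z.subgroupOf D, l m = 1}, linFn l.1 c⁻¹ *
      ∑ x : H, extendByZero D (linFn l.1 * φ) (x⁻¹ * c * x) = 0 :=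
    Finset.sum_eq_zero fun l _ => by rw [hind l, mul_zero]
  simp only [Finset.mul_sum] at hsum
  rw [Finset.sum_comm] at hsum
  have hterm : ∀ x : H, ∑ l : {l : D →* ℂˣ // ∀ m ∈ Z.subgroupOf D, l m = 1},
      linFn l.1 c⁻¹ * extendByZero D (linFn l.1 * φ) (x⁻¹ * c * x) =
      if x ∈ D then (Fintype.card {l : D →* ℂˣ // ∀ m ∈ Z.subgroupOf D, l m = 1} : ℂ) * φ c else 0 := by
    intro x
    by_cases hy : x⁻¹ * c * x ∈ D
    · have h1 : ∀ l : {l : D →* ℂˣ // ∀ m ∈ Z.subgroupOf D, l m = 1},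
          linFn l.1 c⁻¹ * extendByZero D (linFn l.1 * φ) (x⁻¹ * c * x) =
          linFn l.1 (c⁻¹ * ⟨x⁻¹ * c * x, hy⟩) * φ ⟨x⁻¹ * c * x, hy⟩ := by
        intro l
        rw [Cfsg.Agent.Lib.CharInd.ext_mem D _ hy, Pi.mul_apply]
        simp only [linFn_apply, map_mul, Units.val_mul]
        ring
      simp only [h1]
      rw [← Finset.sum_mul]
      by_cases hm : c⁻¹ * (⟨x⁻¹ * c * x, hy⟩ : D) ∈ Z.subgroupOf D
      · have hxD := hself x hm
        have h2 : ∀ l : {l : D →* ℂˣ // ∀ m ∈ Z.subgroupOf D, l m = 1},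
            linFn l.1 (c⁻¹ * ⟨x⁻¹ * c * x, hy⟩) = 1 := by
          intro l
          rw [linFn_apply, l.2 _ hm, Units.val_one]
        simp only [h2]
        rw [if_pos hxD, Finset.sum_const, Finset.card_univ, nsmul_eq_mul, mul_one]
        congr 1
        have h3 := isChar_classFn (isChar_of_irr hφ) c (⟨x, hxD⟩ : D)⁻¹
        rw [← h3]
        congr 1
        apply Subtype.ext
        simp
      · rw [Cfsg.Agent.Lib.CharCoC.sum_lin hab hm, zero_mul, if_neg]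
        intro hxD
        apply hm
        have h4 := hab (c⁻¹) (⟨x, hxD⟩ : D)⁻¹
        have h5 : c⁻¹ * (⟨x⁻¹ * c * x, hy⟩ : D) = c⁻¹ * (⟨x, hxD⟩ : D)⁻¹ * (c⁻¹)⁻¹ * ((⟨x, hxD⟩ : D)⁻¹)⁻¹ := by
          apply Subtype.ext
          simp [mul_assoc]
        rw [h5]
        exact h4
    · have h1 : ∀ l : {l : D →* ℂˣ // ∀ m ∈ Z.subgroupOf D, l m = 1},
          linFn l.1 c⁻¹ * extendByZero D (linFn l.1 * φ) (x⁻¹ * c * x) = 0 := by
        intro l
        rw [Cfsg.Agent.Lib.CharInd.ext_notMem D _ hy, mul_zero]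
      simp only [h1]
      rw [Finset.sum_const_zero, if_neg]
      intro hxD
      exact hy (D.mul_mem (D.mul_mem (D.inv_mem hxD) c.2) hxD)
  rw [Finset.sum_congr rfl fun x _ => hterm x, ← Finset.sum_filter, Finset.sum_const,
    nsmul_eq_mul] at hsum
  have hpos : 0 < Fintype.card {l : D →* ℂˣ // ∀ m ∈ Z.subgroupOf D, l m = 1} :=
    Fintype.card_pos_iff.2 ⟨⟨1, fun _ _ => rfl⟩⟩
  rcases mul_eq_zero.1 hsum with h | h
  · have h2 : (Finset.univ.filter (fun x : H => x ∈ D)).card = 0 := by exact_mod_cast h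
    rw [Finset.card_eq_zero] at h2
    have h3 : (1 : H) ∈ Finset.univ.filter (fun x : H => x ∈ D) := by
      rw [Finset.mem_filter]; exact ⟨Finset.mem_univ _, D.one_mem⟩
    rw [h2] at h3
    exact absurd h3 (Finset.notMem_empty _)
  · rcases mul_eq_zero.1 h with h | h
    · have : Fintype.card {l : D →* ℂˣ // ∀ m ∈ Z.subgroupOf D, l m = 1} = 0 := by exact_mod_cast h
      omega
    · exact hcφ h

theorem no_self_cent (hZt : Z ≠ ⊤) (χ : IrrCharacter H) [Fintype Z] {θ : IrrCharacter Z} {e : ℕ}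
    (he : e ^ 2 = Z.index) (hχ : ∀ z : Z, χ.1 z = e * θ.1 z) (C : Subgroup (H ⧸ Z))
    (hC : IsCyclic C) : Subgroup.centralizer (C : Set (H ⧸ Z)) ≠ C := by
  classical
  intro hcent
  obtain ⟨⟨c0, hc0⟩, hgen⟩ := hC.exists_generator
  have hgen' : ∀ q ∈ C, ∃ i : ℤ, c0 ^ i = q := by
    intro q hq
    obtain ⟨i, hi⟩ := hgen ⟨q, hq⟩
    exact ⟨i, congrArg Subtype.val hi⟩
  obtain ⟨c, rfl⟩ := QuotientGroup.mk'_surjective Z c0
  have hc1 : (QuotientGroup.mk' Z c : H ⧸ Z) ≠ 1 := by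
    intro h
    have hCb : C = ⊥ := by
      rw [eq_bot_iff]
      intro q hq
      obtain ⟨i, rfl⟩ := hgen' q hq
      rw [h, one_zpow]; exact Subgroup.one_mem _
    apply hZt
    rw [eq_top_iff]
    intro x _
    have h1 : QuotientGroup.mk' Z x ∈ Subgroup.centralizer (C : Set (H ⧸ Z)) := by
      rw [Subgroup.mem_centralizer_iff]
      intro y hy
      rw [hCb] at hy
      have : y = 1 := hy
      rw [this, one_mul, mul_one]
    rw [hcent, hCb, Subgroup.mem_bot] at h1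
    exact (QuotientGroup.eq_one_iff x).1 h1
  obtain ⟨D, hD⟩ : ∃ D : Subgroup H, D = C.comap (QuotientGroup.mk' Z) := ⟨_, rfl⟩
  haveI := Fintype.ofFinite D
  have hDm : ∀ x, x ∈ D ↔ QuotientGroup.mk' Z x ∈ C := fun x => by rw [hD]; rfl
  have hZD : Z ≤ D := by
    intro z hz
    rw [hDm]
    have : QuotientGroup.mk' Z z = 1 := (QuotientGroup.eq_one_iff z).2 hz
    rw [this]; exact C.one_mem
  have hab : ∀ a b : D, a * b * a⁻¹ * b⁻¹ ∈ Z.subgroupOf D := by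
    intro a b
    rw [Subgroup.mem_subgroupOf]
    apply (QuotientGroup.eq_one_iff _).1
    obtain ⟨i, hi⟩ := hgen' _ ((hDm a).1 a.2)
    obtain ⟨j, hj⟩ := hgen' _ ((hDm b).1 b.2)
    change QuotientGroup.mk' Z ((a * b * a⁻¹ * b⁻¹ : D) : H) = 1
    push_cast
    rw [map_mul, map_mul, map_mul, map_inv, map_inv, ← hi, ← hj]
    group
  have hcD : c ∈ D := (hDm c).2 hc0
  have hcyc : IsCyclic (D ⧸ Z.subgroupOf D) := by
    refine ⟨⟨QuotientGroup.mk' _ (⟨c, hcD⟩ : D), fun q => ?_⟩⟩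
    obtain ⟨d, rfl⟩ := QuotientGroup.mk'_surjective _ q
    obtain ⟨i, hi⟩ := hgen' _ ((hDm d).1 d.2)
    refine ⟨i, ?_⟩
    change (QuotientGroup.mk' _ (⟨c, hcD⟩ : D)) ^ i = QuotientGroup.mk' _ d
    rw [← map_zpow]
    apply QuotientGroup.eq.2
    rw [Subgroup.mem_subgroupOf]
    apply (QuotientGroup.eq_one_iff _).1
    change QuotientGroup.mk' Z ((((⟨c, hcD⟩ : D) ^ i)⁻¹ * d : D) : H) = 1
    push_cast
    rw [map_mul, map_inv, map_zpow, hi, inv_mul_cancel]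
  have he0 : (e : ℂ) ≠ 0 := by
    have hidx : Z.index ≠ 0 := Subgroup.FiniteIndex.index_ne_zero
    intro h
    have h2 : e = 0 := by exact_mod_cast h
    rw [← he, h2] at hidx
    exact hidx (by norm_num)
  have hinv : ∀ (g : H) (z : Z), θ.1 ⟨g * z * g⁻¹, hZ.conj_mem z z.2 g⟩ = θ.1 z := by
    intro g z
    have h1 := hχ ⟨g * z * g⁻¹, hZ.conj_mem z z.2 g⟩
    have h2 := hχ z
    have h3 := isChar_classFn (isChar_of_irr χ.2) (z : H) g
    change χ.1 (g * z * g⁻¹) = _ at h1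
    rw [h3, h2] at h1
    exact (mul_left_cancel₀ he0 h1).symm
  have hθ' : IsIrrCharacter (Z.subgroupOf D) (fun n => θ.1 ((Subgroup.subgroupOfEquivOfLe hZD) n)) :=
    isIrr_comp_surjective (Subgroup.subgroupOfEquivOfLe hZD).toMonoidHom
      (Subgroup.subgroupOfEquivOfLe hZD).surjective θ.2
  obtain ⟨φ, hφ, hext⟩ := Cfsg.Agent.Lib.CharExt.ext_of_cyclic hcyc hθ' (by
    intro g
    funext n
    exact hinv g ((Subgroup.subgroupOfEquivOfLe hZD) n))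
  obtain ⟨z, hz, hcz⟩ := exists_ne_zero hab hφ hθ' hext (⟨c, hcD⟩ : D)
  have hmk : QuotientGroup.mk' Z (((⟨c, hcD⟩ : D) * z : D) : H) = QuotientGroup.mk' Z c := by
    push_cast
    rw [map_mul]
    have : QuotientGroup.mk' Z (z : H) = 1 := (QuotientGroup.eq_one_iff _).2 hz
    rw [this, mul_one]
  refine key χ he hχ hZD hab hφ ?_ ((⟨c, hcD⟩ : D) * z) ?_ hcz ?_
  · funext y
    exact hext ⟨⟨y, hZD y.2⟩, y.2⟩
  · intro h
    apply hc1
    rw [← hmk]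
    exact (QuotientGroup.eq_one_iff _).2 h
  · intro x hx
    have h1 : QuotientGroup.mk' Z ((((⟨c, hcD⟩ : D) * z : D) : H)⁻¹ *
        (x⁻¹ * (((⟨c, hcD⟩ : D) * z : D) : H) * x)) = 1 := (QuotientGroup.eq_one_iff _).2 hx
    rw [map_mul, map_mul, map_mul, map_inv, map_inv, hmk] at h1
    rw [hDm, ← hcent, Subgroup.mem_centralizer_iff]
    intro y hy
    obtain ⟨i, rfl⟩ := hgen' y hy
    have h2 : Commute (QuotientGroup.mk' Z c) (QuotientGroup.mk' Z x) := by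
      have h3 := inv_mul_eq_one.1 h1
      -- c = x⁻¹ c x
      change QuotientGroup.mk' Z c * QuotientGroup.mk' Z x = QuotientGroup.mk' Z x * QuotientGroup.mk' Z c
      nth_rewrite 2 [h3]
      group
    exact (h2.zpow_left i).eq

end SC

end Cfsg.Agent.Lib.BlkH8X
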