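import Cfsg.Agent.Lib.BlockRey
import Cfsg.Agent.Lib.BlockKB
import Cfsg.Agent.Lib.BlockLar
import Cfsg.Agent.Lib.BlockMaxB
import Cfsg.Agent.Lib.BlockIndIn
import Cfsg.Agent.Lib.BlockBFM

import Cfsg.Agent.Lib.BlkH8A
import Cfsg.Agent.Lib.BlkH8F
import Cfsg.Agent.Lib.Tate
import Cfsg.Agent.Lib.PNilp
import Cfsg.Agent.Lib.Nilp
import Cfsg.Agent.Lib.CharKer
import Cfsg.Agent.Lib.Cores

/-!
Extension of p'-degree characters of Sylow normalizers and normal complements.
-/

set_option autoImplicit false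
set_option linter.style.haveILetI false
set_option linter.unusedVariables false
set_option linter.unusedSectionVars false
set_option linter.unusedDecidableInType false
set_option linter.unusedFintypeInType false
set_option linter.unusedSimpArgs false

namespace Cfsg.Agent.Lib.BlkH8Y
open Cfsg Cfsg.Agent.Lib.BlockLoc Cfsg.Agent.Lib.BlockGA Cfsg.Agent.Lib.CharBasic
open Cfsg.Agent.Lib.BlockIdem Cfsg.Agent.Lib.BlockPP Cfsg.Agent.Lib.BlockOrth
open Cfsg.Agent.Lib.BlockRed Cfsg.Agent.Lib.BlockDef Cfsg.Agent.Lib.BlockDeg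
open Cfsg.Agent.Lib.BlockNP Cfsg.Agent.Lib.BlockInd Cfsg.Agent.Lib.BlockSecond
open Cfsg.Agent.Lib.BlockFirst Cfsg.Agent.Lib.BlockHt Cfsg.Agent.Lib.BlockM
open Cfsg.Agent.Lib.BlockCov Cfsg.Agent.Lib.BlockQuot Cfsg.Agent.Lib.CharKer
open Cfsg.Agent.Lib.BlockQuotB Cfsg.Agent.Lib.BlockMore Cfsg.Agent.Lib.BlockMoreB
open Cfsg.Agent.Lib.BlockTr Cfsg.Agent.Lib.CharNormal Cfsg.Agent.Lib.BlockCovB
open Cfsg.Agent.Lib.BlockBP Cfsg.Agent.Lib.BlockInt Cfsg.Agent.Lib.BlockSum Cfsg.Agent.Lib.BlockRk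
open Cfsg.Agent.Lib.BlockFusB Cfsg.Agent.Lib.BlockMax Cfsg.Agent.Lib.CharSplit Cfsg.Agent.Lib.CharBrauer
open Cfsg.Agent.Lib.CharInd Cfsg.Agent.Lib.BlockPC Cfsg.Agent.Lib.BlockPair Cfsg.Agent.Lib.BlockPairB
open Cfsg.Agent.Lib.BlockPairC Cfsg.Agent.Lib.BlockPairD Cfsg.Agent.Lib.BlockPairE
open Cfsg.Agent.Lib.BlockRey Cfsg.Agent.Lib.BlockPairF Cfsg.Agent.Lib.BlockFus Cfsg.Agent.Lib.BlockNilB Cfsg.Agent.Lib.BlockNil Cfsg.Agent.Lib.CharClifford
open Cfsg.Agent.Lib.BlockKB Cfsg.Agent.Lib.BlockLar Cfsg.Agent.Lib.BlockMaxB Cfsg.Agent.Lib.BlockIndIn Cfsg.Agent.Lib.BlockBFM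
open Cfsg.Agent.Lib.BlkH8A Cfsg.Agent.Lib.BlkH8F Cfsg.Agent.Lib.Tate Cfsg.Agent.Lib.PNilp Cfsg.Agent.Lib.Nilp Cfsg.Agent.Lib.CharKer Cfsg.Agent.Lib.Cores
open scoped ComplexConjugate

open Cfsg.Agent.Lib.BlkH8A Cfsg.Agent.Lib.BlkH8F

set_option maxHeartbeats 400000

section PN

variable {X : Type*} [Group X] [Finite X] {p : ℕ} [hp : Fact p.Prime]

theorem normalizer_map_le (S : Sylow p X) (hSn : Subgroup.normalizer ((S : Subgroup X) : Set X) ≤ S)
    {K : Subgroup X} [hK : K.Normal] :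
    Subgroup.normalizer (((S : Subgroup X).map (QuotientGroup.mk' K) : Subgroup (X ⧸ K)) : Set (X ⧸ K)) ≤
      (S : Subgroup X).map (QuotientGroup.mk' K) := by
  intro q hq
  obtain ⟨r, rfl⟩ := QuotientGroup.mk'_surjective K q
  -- `r` normalizes `K ⊔ S`
  set L : Subgroup X := K ⊔ (S : Subgroup X) with hL
  have hSL : (S : Subgroup X) ≤ L := le_sup_right
  have hLm : ∀ x, x ∈ L ↔ QuotientGroup.mk' K x ∈ (S : Subgroup X).map (QuotientGroup.mk' K) := by
    intro x
    rw [hL, Subgroup.mem_sup_of_normal_left]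
    constructor
    · rintro ⟨k, hk, s, hs, rfl⟩
      refine ⟨s, hs, ?_⟩
      rw [map_mul]
      have : QuotientGroup.mk' K k = 1 := (QuotientGroup.eq_one_iff k).2 hk
      rw [this, one_mul]
    · rintro ⟨s, hs, hsx⟩
      refine ⟨x * s⁻¹, ?_, s, hs, by group⟩
      apply (QuotientGroup.eq_one_iff _).1
      change QuotientGroup.mk' K (x * s⁻¹) = 1
      rw [map_mul, map_inv, hsx, mul_inv_cancel]
  have hrS : ((r • S : Sylow p X) : Subgroup X) ≤ L := by
    intro x hx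
    rw [Sylow.coe_subgroup_smul, Subgroup.mem_pointwise_smul_iff_inv_smul_mem, ← map_inv,
      MulAut.smul_def, MulAut.conj_apply, inv_inv] at hx
    rw [hLm]
    have h1 : QuotientGroup.mk' K (r⁻¹ * x * r) ∈ (S : Subgroup X).map (QuotientGroup.mk' K) :=
      Subgroup.mem_map_of_mem _ hx
    have h2 := (Subgroup.mem_normalizer_iff.1 hq _).1 h1
    have h3 : QuotientGroup.mk' K r * QuotientGroup.mk' K (r⁻¹ * x * r) * (QuotientGroup.mk' K r)⁻¹ =
        QuotientGroup.mk' K x := by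
      rw [← map_inv, ← map_mul, ← map_mul]
      congr 1
      group
    rw [h3] at h2
    exact h2
  obtain ⟨l, hl⟩ := MulAction.exists_smul_eq L (S.subtype hSL) ((r • S).subtype hrS)
  have h4 : (l : X) • S = r • S := by
    apply Sylow.ext
    ext x
    have h5 : ∀ (hx : x ∈ L), x ∈ ((r • S : Sylow p X) : Subgroup X) ↔
        (⟨x, hx⟩ : L) ∈ ((l • S.subtype hSL : Sylow p L) : Subgroup L) := by
      intro hx
      rw [hl]
      exact Iff.rfl
    have h6 : ∀ (hx : x ∈ L), x ∈ (((l : X) • S : Sylow p X) : Subgroup X) ↔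
        (⟨x, hx⟩ : L) ∈ ((l • S.subtype hSL : Sylow p L) : Subgroup L) := by
      intro hx
      rw [Sylow.coe_subgroup_smul, Sylow.coe_subgroup_smul,
        Subgroup.mem_pointwise_smul_iff_inv_smul_mem, Subgroup.mem_pointwise_smul_iff_inv_smul_mem,
        ← map_inv, ← map_inv, MulAut.smul_def, MulAut.conj_apply, MulAut.smul_def, MulAut.conj_apply]
      exact Iff.rfl
    constructor
    · intro hx
      have hxL : x ∈ L := by
        rw [Sylow.coe_subgroup_smul, Subgroup.mem_pointwise_smul_iff_inv_smul_mem, ← map_inv,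
          MulAut.smul_def, MulAut.conj_apply, inv_inv] at hx
        have h7 := L.mul_mem (L.mul_mem l.2 (hSL hx)) (L.inv_mem l.2)
        have h8 : (l : X) * ((l : X)⁻¹ * x * l) * (l : X)⁻¹ = x := by group
        rwa [h8] at h7
      exact (h5 hxL).2 ((h6 hxL).1 hx)
    · intro hx
      exact (h6 (hrS hx)).2 ((h5 (hrS hx)).1 hx)
  have h5 : (l : X)⁻¹ * r ∈ Subgroup.normalizer ((S : Subgroup X) : Set X) := by
    refine Sylow.smul_eq_iff_mem_normalizer.1 ?_
    rw [mul_smul, ← h4, inv_smul_smul]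
  have h6 : r ∈ L := by
    have h7 := L.mul_mem l.2 (hSL (hSn h5))
    rwa [mul_inv_cancel_left] at h7
  exact (hLm r).1 h6

theorem pNil_of (S : Sylow p X) (hSn : Subgroup.normalizer ((S : Subgroup X) : Set X) ≤ S)
    {K : Subgroup X} [hK : K.Normal] (h1 : ⁅(S : Subgroup X), (S : Subgroup X)⁆ ≤ K)
    (h2 : ∀ x ∈ (S : Subgroup X), x ∈ K → x ∈ ⁅(S : Subgroup X), (S : Subgroup X)⁆) :
    Cfsg.Agent.Lib.PNilp.PNil p X := by
  classical
  have hf := QuotientGroup.mk'_surjective K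
  have hnc : Subgroup.normalizer ((S.mapSurjective hf : Subgroup (X ⧸ K)) : Set (X ⧸ K)) ≤
      Subgroup.centralizer ((S.mapSurjective hf : Subgroup (X ⧸ K)) : Set (X ⧸ K)) := by
    refine (normalizer_map_le S hSn).trans ?_
    rintro _ ⟨a, ha, rfl⟩
    rw [Subgroup.mem_centralizer_iff]
    rintro _ ⟨b, hb, rfl⟩
    have h3 : b * a * b⁻¹ * a⁻¹ ∈ K := h1 (Subgroup.commutator_mem_commutator hb ha)
    have h4 : QuotientGroup.mk' K (b * a * b⁻¹ * a⁻¹) = 1 := (QuotientGroup.eq_one_iff _).2 h3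
    rw [map_mul, map_mul, map_mul, map_inv, map_inv, mul_inv_eq_one, mul_inv_eq_iff_eq_mul] at h4
    exact h4
  have hcompl := MonoidHom.ker_transferSylow_isComplement' (S.mapSurjective hf) hnc
  obtain ⟨V, hV⟩ : ∃ V : Subgroup (X ⧸ K), V = (MonoidHom.transferSylow (S.mapSurjective hf) hnc).ker :=
    ⟨_, rfl⟩
  rw [← hV] at hcompl
  haveI hVn : V.Normal := hV ▸ MonoidHom.normal_ker _
  have hsup : V.comap (QuotientGroup.mk' K) ⊔ (S : Subgroup X) = ⊤ := by
    rw [eq_top_iff]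
    intro x _
    have h3 : QuotientGroup.mk' K x ∈ V ⊔ (S.mapSurjective hf : Subgroup (X ⧸ K)) := by
      rw [hcompl.sup_eq_top]; exact Subgroup.mem_top _
    rw [Subgroup.mem_sup_of_normal_left] at h3
    obtain ⟨v, hv, _, ⟨s, hs, rfl⟩, h4⟩ := h3
    rw [Subgroup.mem_sup_of_normal_left]
    refine ⟨x * s⁻¹, ?_, s, hs, by group⟩
    rw [Subgroup.mem_comap, map_mul, map_inv, ← h4]
    have : v * QuotientGroup.mk' K s * (QuotientGroup.mk' K s)⁻¹ = v := by group
    rw [this]; exact hv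
  have hle : V.comap (QuotientGroup.mk' K) ⊓ (S : Subgroup X) ≤
      (frattini S).map (S : Subgroup X).subtype := by
    rintro x ⟨hxV, hxS⟩
    have h3 : QuotientGroup.mk' K x ∈ V ⊓ (S.mapSurjective hf : Subgroup (X ⧸ K)) :=
      ⟨hxV, Subgroup.mem_map_of_mem _ hxS⟩
    rw [hcompl.disjoint.eq_bot, Subgroup.mem_bot] at h3
    have h4 := h2 x hxS ((QuotientGroup.eq_one_iff x).1 h3)
    have h5 := Subgroup.map_mono (f := (S : Subgroup X).subtype)
      (Cfsg.Agent.Lib.Nilp.commutator_le_frattini (G := (S : Subgroup X)) S.2)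
    rw [commutator_def, Subgroup.map_commutator, ← MonoidHom.range_eq_map, Subgroup.range_subtype] at h5
    exact h5 h4
  have hK0 := Cfsg.Agent.Lib.Tate.pNil_of_le_frattini S (V.comap (QuotientGroup.mk' K)) hle
  refine Cfsg.Agent.Lib.PNilp.PNil.of_normal (V.comap (QuotientGroup.mk' K)) ?_ hK0
  rw [Subgroup.index_comap_of_surjective _ hf, hcompl.symm.index_eq_card]
  exact IsPGroup.iff_card.1 (S.mapSurjective hf).2

end PN

section Main

variable {G : Type*} [Group G] [Finite G] {p : ℕ} [hp : Fact p.Prime]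

theorem exists_K {Nn : Subgroup G} (hext : ∀ θ : IrrCharacter Nn, ¬ p ∣ charDegree θ.1 →
      ∃ χ : IrrCharacter G, ∀ x : Nn, χ.1 x = θ.1 x) {Q : Subgroup Nn} [Q.Normal]
    (hdeg : ∀ β : IrrCharacter (Nn ⧸ Q), ¬ p ∣ charDegree β.1) :
    ∃ K : Subgroup G, K.Normal ∧ ∀ x : Nn, (x : G) ∈ K ↔ x ∈ Q := by
  classical
  haveI : Fintype (Nn ⧸ Q) := Fintype.ofFinite _
  have hf := QuotientGroup.mk'_surjective Q
  have hd : ∀ β : IrrCharacter (Nn ⧸ Q), ¬ p ∣ charDegree (inflI (QuotientGroup.mk' Q) hf β).1 := by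
    intro β
    have : charDegree (inflI (QuotientGroup.mk' Q) hf β).1 = charDegree β.1 := by
      simp only [charDegree]
      rfl
    rw [this]; exact hdeg β
  choose χ hχ using fun β : IrrCharacter (Nn ⧸ Q) => hext (inflI (QuotientGroup.mk' Q) hf β) (hd β)
  refine ⟨⨅ β, Cfsg.Agent.Lib.CharKer.kerChar (χ β).1 (isChar_of_irr (χ β).2),
    Subgroup.normal_iInf_normal fun β => Cfsg.Agent.Lib.CharKer.kerChar_normal _, fun x => ?_⟩
  rw [Subgroup.mem_iInf]
  have h1 : ∀ β, (x : G) ∈ Cfsg.Agent.Lib.CharKer.kerChar (χ β).1 (isChar_of_irr (χ β).2) ↔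
      β.1 (QuotientGroup.mk' Q x) = β.1 1 := by
    intro β
    rw [Cfsg.Agent.Lib.CharKer.mem_kerChar]
    have h2 := hχ β x
    have h3 := hχ β 1
    change (χ β).1 (x : G) = β.1 (QuotientGroup.mk' Q x) at h2
    change (χ β).1 ((1 : Nn) : G) = β.1 (QuotientGroup.mk' Q 1) at h3
    rw [map_one] at h3
    have h4 : ((1 : Nn) : G) = 1 := rfl
    rw [h4] at h3
    rw [h2, h3]
  simp only [h1]
  constructor
  · intro h
    have h2 := Cfsg.Agent.Lib.CharBasic.irr_separates h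
    exact (QuotientGroup.eq_one_iff x).1 (isConj_one_left.1 h2)
  · intro h β
    have : QuotientGroup.mk' Q x = 1 := (QuotientGroup.eq_one_iff x).2 h
    rw [this]

theorem main (P : Sylow p G)
    (hext : ∀ θ : IrrCharacter (Subgroup.normalizer ((P : Subgroup G) : Set G)), ¬ p ∣ charDegree θ.1 →
      ∃ χ : IrrCharacter G, ∀ x : Subgroup.normalizer ((P : Subgroup G) : Set G), χ.1 x = θ.1 x) :
    ∃ K : Subgroup G, K.Normal ∧ K ⊔ Subgroup.normalizer ((P : Subgroup G) : Set G) = ⊤ ∧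
      K ⊓ Subgroup.normalizer ((P : Subgroup G) : Set G) = ⊥ := by
  classical
  obtain ⟨Nn, hNn⟩ : ∃ Nn : Subgroup G, Nn = Subgroup.normalizer ((P : Subgroup G) : Set G) := ⟨_, rfl⟩
  rw [← hNn] at hext ⊢
  have hPN : (P : Subgroup G) ≤ Nn := hNn ▸ Subgroup.le_normalizer
  haveI hPn : ((P : Subgroup G).subgroupOf Nn).Normal := by
    rw [hNn]; exact Subgroup.normal_in_normalizer
  have hPi : ¬ p ∣ ((P : Subgroup G).subgroupOf Nn).index := by
    intro hd
    exact P.not_dvd_index (hd.trans (Dvd.intro _ (Subgroup.relIndex_mul_index hPN)))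
  obtain ⟨R, hRn, hR⟩ := exists_K hext (Q := (P : Subgroup G).subgroupOf Nn) (fun β hd => by
    have h1 := hd.trans (charDegree_dvd β.2)
    rw [← Subgroup.index_eq_card] at h1
    exact hPi h1)
  obtain ⟨K', hK'n, hK'⟩ := exists_K hext
    (Q := ⁅(P : Subgroup G).subgroupOf Nn, (P : Subgroup G).subgroupOf Nn⁆) (fun β hd => by
    have h1 := Cfsg.Agent.Lib.CharClifford.ito β.2
      (((P : Subgroup G).subgroupOf Nn).map (QuotientGroup.mk' _))
      (hA := hPn.map _ (QuotientGroup.mk'_surjective _)) (by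
        rintro _ ⟨a, ha, rfl⟩ _ ⟨b, hb, rfl⟩
        have h3 := Subgroup.commutator_mem_commutator ha hb
        have h4 : QuotientGroup.mk' ⁅(P : Subgroup G).subgroupOf Nn, (P : Subgroup G).subgroupOf Nn⁆
            (a * b * a⁻¹ * b⁻¹) = 1 := (QuotientGroup.eq_one_iff _).2 h3
        rw [map_mul, map_mul, map_mul, map_inv, map_inv, mul_inv_eq_one, mul_inv_eq_iff_eq_mul] at h4
        exact h4) (charDegree_cast (isChar_of_irr β.2)).symm
    exact hPi ((hd.trans h1).trans (Subgroup.index_map_dvd _ (QuotientGroup.mk'_surjective _))))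
  have hPR : (P : Subgroup G) ≤ R := fun x hx => (hR ⟨x, hPN hx⟩).2 hx
  have hS : ∀ x : R, x ∈ ((P.subtype hPR : Sylow p R) : Subgroup R) ↔ (x : G) ∈ (P : Subgroup G) :=
    fun x => Iff.rfl
  have hSn : Subgroup.normalizer (((P.subtype hPR : Sylow p R) : Subgroup R) : Set R) ≤
      ((P.subtype hPR : Sylow p R) : Subgroup R) := by
    intro x hx
    have h1 : (x : G) ∈ Nn := by
      rw [hNn, Subgroup.mem_normalizer_iff]
      intro y
      by_cases hy : y ∈ R
      · exact Subgroup.mem_normalizer_iff.1 hx ⟨y, hy⟩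
      · constructor
        · intro h; exact absurd (hPR h) hy
        · intro h
          exfalso
          apply hy
          have h2 := hRn.conj_mem _ (hPR h) (x : G)⁻¹
          have h3 : (x : G)⁻¹ * (x * y * (x : G)⁻¹) * (x : G)⁻¹⁻¹ = y := by group
          rwa [h3] at h2
    exact (hR ⟨x, h1⟩).1 x.2
  have hmapS : ((P.subtype hPR : Sylow p R) : Subgroup R).map R.subtype = (P : Subgroup G) := by
    change ((P : Subgroup G).subgroupOf R).map R.subtype = P
    rw [Subgroup.map_subgroupOf_eq_of_le hPR]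
  have hmapP : ((P : Subgroup G).subgroupOf Nn).map Nn.subtype = (P : Subgroup G) := by
    rw [Subgroup.map_subgroupOf_eq_of_le hPN]
  have hnil := pNil_of (P.subtype hPR) hSn (K := K'.subgroupOf R) (by
      rw [Subgroup.commutator_le]
      intro a ha b hb
      rw [Subgroup.mem_subgroupOf]
      have h1 := Subgroup.commutator_mem_commutator
        (show (⟨(a : G), hPN ha⟩ : Nn) ∈ (P : Subgroup G).subgroupOf Nn from ha)
        (show (⟨(b : G), hPN hb⟩ : Nn) ∈ (P : Subgroup G).subgroupOf Nn from hb)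
      exact (hK' _).2 h1) (by
      intro x hx hxK
      have h1 := (hK' ⟨x, hPN hx⟩).1 hxK
      have h2 := Subgroup.mem_map_of_mem Nn.subtype h1
      rw [Subgroup.map_commutator, hmapP, ← hmapS, ← Subgroup.map_commutator] at h2
      obtain ⟨y, hy, hyx⟩ := h2
      have h3 : y = x := Subtype.ext hyx
      exact h3 ▸ hy)
  obtain ⟨k, hk⟩ := Cfsg.Agent.Lib.PNilp.pNil_iff_core.1 hnil
  haveI := Cfsg.Agent.Lib.Cores.pPrimeCore_characteristic (G := R) p
  haveI := hRn
  refine ⟨(pPrimeCore p R).map R.subtype, ConjAct.normal_of_characteristic_of_normal, ?_, ?_⟩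
  · have h1 : pPrimeCore p R ⊔ ((P.subtype hPR : Sylow p R) : Subgroup R) = ⊤ := by
      rw [← Subgroup.index_eq_one]
      have h2 : (pPrimeCore p R ⊔ ((P.subtype hPR : Sylow p R) : Subgroup R)).index ∣ p ^ k :=
        hk ▸ Subgroup.index_dvd_of_le le_sup_left
      have h3 : ¬ p ∣ (pPrimeCore p R ⊔ ((P.subtype hPR : Sylow p R) : Subgroup R)).index := fun hd =>
        (P.subtype hPR).not_dvd_index (hd.trans (Subgroup.index_dvd_of_le le_sup_right))
      obtain ⟨j, -, hj⟩ := (Nat.dvd_prime_pow hp.out).1 h2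
      rcases Nat.eq_zero_or_pos j with h6 | h6
      · rw [hj, h6, pow_zero]
      · exact absurd (hj ▸ dvd_pow_self p h6.ne') h3
    have h2 : R ≤ (pPrimeCore p R).map R.subtype ⊔ Nn := by
      have h3 := congrArg (Subgroup.map R.subtype) h1
      rw [Subgroup.map_sup, hmapS, ← MonoidHom.range_eq_map, Subgroup.range_subtype] at h3
      exact h3.ge.trans (sup_le_sup_left hPN _)
    have h3 := Sylow.normalizer_sup_eq_top (P.subtype hPR)
    rw [hmapS, ← hNn] at h3
    rw [eq_top_iff, ← h3]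
    exact sup_le le_sup_right h2
  · rw [eq_bot_iff]
    rintro x ⟨⟨y, hy, rfl⟩, hxN⟩
    have h1 : (y : G) ∈ (P : Subgroup G) := (hR ⟨(y : G), hxN⟩).1 y.2
    rw [Subgroup.mem_bot]
    obtain ⟨m, hm⟩ := IsPGroup.iff_orderOf.1 P.2 ⟨(y : G), h1⟩
    rw [Subgroup.orderOf_mk] at hm
    have h5 : orderOf (⟨y, hy⟩ : pPrimeCore p R) ∣ p ^ m := by
      rw [Subgroup.orderOf_mk, ← hm, Subgroup.orderOf_coe]
    have h6 : orderOf (⟨y, hy⟩ : pPrimeCore p R) ∣ Nat.card (pPrimeCore p R) := orderOf_dvd_natCard _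
    have h7 : Nat.Coprime (p ^ m) (Nat.card (pPrimeCore p R)) :=
      Nat.Coprime.pow_left m (Cfsg.Agent.Lib.Cores.pPrimeCore_coprime p).symm
    have h8 := Nat.eq_one_of_dvd_coprimes h7 h5 h6
    rw [orderOf_eq_one_iff] at h8
    have h9 : y = 1 := congrArg (fun z : pPrimeCore p R => (z : R)) h8
    rw [h9]; rfl

theorem conv {N K : Subgroup G} (hK : K.Normal) (h1 : K ⊔ N = ⊤) (h2 : K ⊓ N = ⊥)
    (θ : IrrCharacter N) : ∃ χ : IrrCharacter G, ∀ x : N, χ.1 x = θ.1 x := by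
  classical
  let f : N →* G ⧸ K := (QuotientGroup.mk' K).comp N.subtype
  have hf : Function.Bijective f := by
    constructor
    · rw [injective_iff_map_eq_one]
      intro x hx
      have h3 : (x : G) ∈ K ⊓ N := ⟨(QuotientGroup.eq_one_iff _).1 hx, x.2⟩
      rw [h2, Subgroup.mem_bot] at h3
      exact Subtype.ext h3
    · intro q
      obtain ⟨g, rfl⟩ := QuotientGroup.mk'_surjective K q
      have hg : g ∈ K ⊔ N := h1 ▸ Subgroup.mem_top g
      rw [Subgroup.mem_sup_of_normal_left] at hg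
      obtain ⟨k, hk, n, hn, rfl⟩ := hg
      refine ⟨⟨n, hn⟩, ?_⟩
      change QuotientGroup.mk' K n = QuotientGroup.mk' K (k * n)
      have h3 : QuotientGroup.mk' K k = 1 := (QuotientGroup.eq_one_iff k).2 hk
      rw [map_mul, h3, one_mul]
  let e := MulEquiv.ofBijective f hf
  let g : G →* N := e.symm.toMonoidHom.comp (QuotientGroup.mk' K)
  have hg : Function.Surjective g := e.symm.surjective.comp (QuotientGroup.mk'_surjective K)
  refine ⟨⟨fun x => θ.1 (g x), isIrr_comp_surjective g hg θ.2⟩, fun x => ?_⟩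
  have h3 : g x = x := by
    change e.symm (f x) = x
    exact e.symm_apply_apply x
  change θ.1 (g x) = θ.1 x
  rw [h3]

end Main

end Cfsg.Agent.Lib.BlkH8Y
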