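import Cfsg.Agent.Lib.BlockRey
import Cfsg.Agent.Lib.BlockKB
import Cfsg.Agent.Lib.BlockLar
import Cfsg.Agent.Lib.BlockMaxB
import Cfsg.Agent.Lib.BlockIndIn
import Cfsg.Agent.Lib.BlockBFM

import Cfsg.Agent.Lib.BlkH8A
import Cfsg.Agent.Lib.BlkH8F
import Cfsg.Agent.Lib.CharLin
import Cfsg.Agent.Lib.CharKer
import Cfsg.Agent.Lib.Cores

/-!
Characters with constant difference at an element.
-/

set_option autoImplicit false
set_option linter.style.haveILetI false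
set_option linter.unusedVariables false
set_option linter.unusedSectionVars false
set_option linter.unusedDecidableInType false
set_option linter.unusedFintypeInType false
set_option linter.unusedSimpArgs false

namespace Cfsg.Agent.Lib.BlkH8Z
open Cfsg Cfsg.Agent.Lib.BlockLoc Cfsg.Agent.Lib.BlockGA Cfsg.Agent.Lib.CharBasic
open Cfsg.Agent.Lib.BlockIdem Cfsg.Agent.Lib.BlockPP Cfsg.Agent.Lib.BlockOrth
open Cfsg.Agent.Lib.BlockRed Cfsg.Agent.Lib.BlockDef Cfsg.Agent.Lib.BlockDeg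
open Cfsg.Agent.Lib.BlockNP Cfsg.Agent.Lib.BlockInd Cfsg.Agent.Lib.BlockSecond
open Cfsg.Agent.Lib.BlockFirst Cfsg.Agent.Lib.BlockHt Cfsg.Agent.Lib.BlockM
open Cfsg.Agent.Lib.BlockCov Cfsg.Agent.Lib.BlockQuot Cfsg.Agent.Lib.CharKer
open Cfsg.Agent.Lib.BlockQuotB Cfsg.Agent.Lib.BlockMore Cfsg.Agent.Lib.BlockMoreB
open Cfsg.Agent.Lib.BlockTr Cfsg.Agent.Lib.CharNormal Cfsg.Agent.Lib.BlockCovB
open Cfsg.Agent.Lib.BlockBP Cfsg.Agent.Lib.BlockInt Cfsg.Agent.Lib.BlockSum Cfsg.Agent.Lib.BlockRk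
open Cfsg.Agent.Lib.BlockFusB Cfsg.Agent.Lib.BlockMax Cfsg.Agent.Lib.CharSplit Cfsg.Agent.Lib.CharBrauer
open Cfsg.Agent.Lib.CharInd Cfsg.Agent.Lib.BlockPC Cfsg.Agent.Lib.BlockPair Cfsg.Agent.Lib.BlockPairB
open Cfsg.Agent.Lib.BlockPairC Cfsg.Agent.Lib.BlockPairD Cfsg.Agent.Lib.BlockPairE
open Cfsg.Agent.Lib.BlockRey Cfsg.Agent.Lib.BlockPairF Cfsg.Agent.Lib.BlockFus Cfsg.Agent.Lib.BlockNilB Cfsg.Agent.Lib.BlockNil Cfsg.Agent.Lib.CharClifford
open Cfsg.Agent.Lib.BlockKB Cfsg.Agent.Lib.BlockLar Cfsg.Agent.Lib.BlockMaxB Cfsg.Agent.Lib.BlockIndIn Cfsg.Agent.Lib.BlockBFM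
open Cfsg.Agent.Lib.BlkH8A Cfsg.Agent.Lib.BlkH8F Cfsg.Agent.Lib.CharLin Cfsg.Agent.Lib.CharKer Cfsg.Agent.Lib.Cores
open scoped ComplexConjugate

open Cfsg.Agent.Lib.BlkH8A Cfsg.Agent.Lib.BlkH8F Cfsg.Agent.Lib.CharLin

set_option maxHeartbeats 400000

section U

variable {G : Type*} [Group G] [Fintype G] {u : G} {c : ℂ}

theorem col1 (hu : u ≠ 1) : ∑ χ : IrrCharacter G, χ.1 u * χ.1 1 = 0 := by
  classical
  have h := Cfsg.Agent.Lib.CharBasic.column_orth_one u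
  rwa [if_neg hu] at h

theorem zeta (hu : u ≠ 1)
    (hyp : ∀ χ : IrrCharacter G, χ.1 ≠ (fun _ => (1 : ℂ)) → (χ.1 1 - χ.1 u = c ∨ χ.1 u = 0)) : c ≠ 0 := by
  classical
  intro hc
  have h1 := col1 hu
  have h2 : ∀ χ : IrrCharacter G, ∃ n : ℕ, χ.1 u * χ.1 1 = n ∧ (χ = triv G → n = 1) := by
    intro χ
    by_cases hχ : χ.1 = fun _ => (1 : ℂ)
    · refine ⟨1, ?_, fun _ => rfl⟩
      rw [hχ]; norm_num
    · rcases hyp χ hχ with h | h
      · refine ⟨charDegree χ.1 * charDegree χ.1, ?_, fun h3 => absurd (congrArg Subtype.val h3) hχ⟩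
        have h3 : χ.1 u = χ.1 1 := by rw [hc] at h; exact (sub_eq_zero.1 h).symm
        rw [h3]
        push_cast
        rw [charDegree_cast (isChar_of_irr χ.2)]
      · exact ⟨0, by rw [h]; norm_num, fun h3 => absurd (congrArg Subtype.val h3) hχ⟩
  choose n hn hn1 using h2
  simp only [hn] at h1
  have h3 : ∑ χ : IrrCharacter G, n χ = 0 := by exact_mod_cast h1
  have h4 := (Finset.sum_eq_zero_iff.1 h3) (triv G) (Finset.mem_univ _)
  rw [hn1 _ rfl] at h4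
  exact one_ne_zero h4

theorem lin_val (hyp : ∀ χ : IrrCharacter G, χ.1 ≠ (fun _ => (1 : ℂ)) → (χ.1 1 - χ.1 u = c ∨ χ.1 u = 0))
    {l : G →* ℂˣ} (hl : l ≠ 1) : (l u : ℂ) = 1 - c := by
  have h1 : (linFn l : G → ℂ) ≠ fun _ => (1 : ℂ) := by
    intro h
    apply hl
    apply linFn_injective
    rw [h, linFn_one]
  rcases hyp ⟨linFn l, linFn_isIrr l⟩ h1 with h | h
  · change linFn l 1 - linFn l u = c at h
    rw [linFn_apply_one, linFn_apply] at h
    linear_combination -h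
  · change linFn l u = 0 at h
    rw [linFn_apply] at h
    exact absurd h (Units.ne_zero _)

theorem imp (hu : u ≠ 1)
    (hyp : ∀ χ : IrrCharacter G, χ.1 ≠ (fun _ => (1 : ℂ)) → (χ.1 1 - χ.1 u = c ∨ χ.1 u = 0))
    (hG : commutator G ≠ ⊤) : c = 2 ∧ ∃ l₀ : G →* ℂˣ, l₀ ≠ 1 ∧ (l₀ u : ℂ) = -1 ∧ ∀ l : G →* ℂˣ, l = 1 ∨ l = l₀ := by
  classical
  obtain ⟨g, hg⟩ : ∃ g, g ∉ commutator G := by
    by_contra h
    push Not at h
    exact hG (top_le_iff.1 fun x _ => h x)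
  obtain ⟨l₀, hl₀⟩ := exists_lin_ne_one hg
  have hl1 : l₀ ≠ 1 := by rintro rfl; exact hl₀ rfl
  have hc := zeta hu hyp
  have h1 := lin_val hyp hl1
  have hne : (1 - c : ℂ) ≠ 0 := by rw [← h1]; exact Units.ne_zero _
  have hsq : ∀ z : ℂ, z = 1 - c → z * z = z → False := by
    intro z hz h
    rw [hz] at h
    have h2 : (1 - c) * ((1 - c) - 1) = 0 := by linear_combination h
    rcases mul_eq_zero.1 h2 with h3 | h3
    · exact hne h3
    · apply hc; linear_combination -h3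
  have hl2 : l₀ * l₀ = 1 := by
    by_contra h
    have h2 := lin_val hyp h
    rw [MonoidHom.mul_apply, Units.val_mul] at h2
    exact hsq _ h1 (h2.trans h1.symm)
  have h3 : (l₀ u : ℂ) * (l₀ u : ℂ) = 1 := by
    rw [← Units.val_mul, ← MonoidHom.mul_apply, hl2]; rfl
  have h4 : c = 2 := by
    rw [h1] at h3
    have h5 : c * (c - 2) = 0 := by linear_combination h3
    rcases mul_eq_zero.1 h5 with h6 | h6
    · exact absurd h6 hc
    · linear_combination h6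
  refine ⟨h4, l₀, hl1, by rw [h1, h4]; norm_num, fun l => ?_⟩
  by_contra hcon
  push Not at hcon
  have h5 : l * l₀ ≠ 1 := by
    intro h
    apply hcon.2
    refine MonoidHom.ext fun g => ?_
    have h6 : l g * l₀ g = 1 := DFunLike.congr_fun h g
    have h7 : l₀ g * l₀ g = 1 := DFunLike.congr_fun hl2 g
    exact mul_right_cancel (h6.trans h7.symm)
  have h6 := lin_val hyp h5
  rw [MonoidHom.mul_apply, Units.val_mul, lin_val hyp hcon.1, h1] at h6
  exact hsq _ rfl h6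

theorem lin_or {χ : IrrCharacter G} (h : charDegree χ.1 = 1) : ∃ l : G →* ℂˣ, χ.1 = linFn l := by
  have h1 : χ.1 1 = 1 := by
    rw [← charDegree_cast (isChar_of_irr χ.2), h, Nat.cast_one]
  obtain ⟨l, hl⟩ := Cfsg.Agent.Lib.CharBasic.exists_lin_of_one (isChar_of_irr χ.2) h1
  exact ⟨l, hl⟩

/-- when `c = 2`, characters of degree at least two contribute nonnegatively. -/
theorem term (hyp : ∀ χ : IrrCharacter G, χ.1 ≠ (fun _ => (1 : ℂ)) → (χ.1 1 - χ.1 u = 2 ∨ χ.1 u = 0))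
    {χ : IrrCharacter G} (h : charDegree χ.1 ≠ 1) :
    χ.1 u * χ.1 1 = ((charDegree χ.1 * (charDegree χ.1 - 2) : ℕ) : ℂ) ∨ χ.1 u = 0 := by
  have h0 := charDegree_pos χ.2
  have h1 : χ.1 ≠ fun _ => (1 : ℂ) := by
    intro h1
    apply h
    refine charDegree_eq ?_
    rw [h1]; norm_num
  rcases hyp χ h1 with h2 | h2
  · left
    have h3 : χ.1 u = χ.1 1 - 2 := by linear_combination -h2
    rw [h3, ← charDegree_cast (isChar_of_irr χ.2)]
    rw [Nat.cast_mul, Nat.cast_sub (by omega)]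
    push_cast
    ring
  · exact Or.inr h2

theorem conv (hu : u ≠ 1) (hc : c = 2)
    (hyp : ∀ χ : IrrCharacter G, χ.1 ≠ (fun _ => (1 : ℂ)) → (χ.1 1 - χ.1 u = c ∨ χ.1 u = 0)) :
    commutator G ≠ ⊤ := by
  classical
  intro hG
  rw [hc] at hyp
  have h1 := col1 hu
  have h2 : ∀ χ : IrrCharacter G, ∃ n : ℕ, χ.1 u * χ.1 1 = n ∧ (χ = triv G → n = 1) := by
    intro χ
    by_cases hχ : charDegree χ.1 = 1
    · obtain ⟨l, hl⟩ := lin_or hχ
      have h3 : l = 1 := by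
        ext g
        have h4 : commutator G ≤ l.ker := Abelianization.commutator_subset_ker l
        have h5 : g ∈ l.ker := h4 (hG ▸ Subgroup.mem_top g)
        rw [MonoidHom.mem_ker] at h5
        rw [h5]; rfl
      refine ⟨1, ?_, fun _ => rfl⟩
      rw [hl, h3, linFn_one]; norm_num
    · have hne : χ ≠ triv G := by
        rintro rfl
        exact hχ (charDegree_eq (by push_cast; rfl))
      rcases term hyp hχ with h | h
      · exact ⟨_, h, fun h3 => absurd h3 hne⟩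
      · exact ⟨0, by rw [h]; norm_num, fun h3 => absurd h3 hne⟩
  choose n hn hn1 using h2
  simp only [hn] at h1
  have h3 : ∑ χ : IrrCharacter G, n χ = 0 := by exact_mod_cast h1
  have h4 := (Finset.sum_eq_zero_iff.1 h3) (triv G) (Finset.mem_univ _)
  rw [hn1 _ rfl] at h4
  exact one_ne_zero h4

/-- The centralizer of `u` has order two. -/
theorem card_cent (hu : u ≠ 1)
    (hyp : ∀ χ : IrrCharacter G, χ.1 ≠ (fun _ => (1 : ℂ)) → (χ.1 1 - χ.1 u = c ∨ χ.1 u = 0))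
    (hG : commutator G ≠ ⊤) : Nat.card (Subgroup.centralizer ({u} : Set G)) = 2 := by
  classical
  obtain ⟨hc, l₀, hl1, hl2, hl3⟩ := imp hu hyp hG
  rw [hc] at hyp
  have hne : (⟨linFn l₀, linFn_isIrr l₀⟩ : IrrCharacter G) ≠ triv G := by
    intro h
    apply hl1
    apply linFn_injective
    rw [linFn_one]
    exact congrArg Subtype.val h
  have hcase : ∀ χ : IrrCharacter G, χ ≠ triv G → χ ≠ ⟨linFn l₀, linFn_isIrr l₀⟩ → charDegree χ.1 ≠ 1 := by
    intro χ h1 h2 h3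
    obtain ⟨l, hl⟩ := lin_or h3
    rcases hl3 l with h4 | h4
    · apply h1
      apply Subtype.ext
      rw [hl, h4, linFn_one]; rfl
    · apply h2
      apply Subtype.ext
      rw [hl, h4]
  -- nonlinear characters vanish
  have hvan : ∀ χ : IrrCharacter G, χ ≠ triv G → χ ≠ ⟨linFn l₀, linFn_isIrr l₀⟩ → χ.1 u = 0 := by
    have h1 := col1 hu
    have h2 : ∀ χ : IrrCharacter G, ∃ n : ℕ, (χ ≠ triv G → χ ≠ ⟨linFn l₀, linFn_isIrr l₀⟩ →
        χ.1 u * χ.1 1 = n) := by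
      intro χ
      by_cases ha : χ = triv G
      · exact ⟨0, fun h => absurd ha h⟩
      by_cases hb : χ = ⟨linFn l₀, linFn_isIrr l₀⟩
      · exact ⟨0, fun _ h => absurd hb h⟩
      rcases term hyp (hcase χ ha hb) with h | h
      · exact ⟨_, fun _ _ => h⟩
      · exact ⟨0, fun _ _ => by rw [h]; norm_num⟩
    choose n hn using h2
    rw [← Finset.add_sum_erase _ _ (Finset.mem_univ (triv G)),
      ← Finset.add_sum_erase _ _ (Finset.mem_erase.2 ⟨hne, Finset.mem_univ _⟩)] at h1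
    have h3 : (triv G).1 u * (triv G).1 1 = 1 := one_mul 1
    have h4 : (⟨linFn l₀, linFn_isIrr l₀⟩ : IrrCharacter G).1 u *
        (⟨linFn l₀, linFn_isIrr l₀⟩ : IrrCharacter G).1 1 = -1 := by
      change linFn l₀ u * linFn l₀ 1 = -1
      rw [linFn_apply_one, mul_one, linFn_apply, hl2]
    rw [h3, h4] at h1
    have h5 : ∑ χ ∈ (Finset.univ.erase (triv G)).erase ⟨linFn l₀, linFn_isIrr l₀⟩, χ.1 u * χ.1 1 =
        ((∑ χ ∈ (Finset.univ.erase (triv G)).erase ⟨linFn l₀, linFn_isIrr l₀⟩, n χ : ℕ) : ℂ) := by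
      push_cast
      refine Finset.sum_congr rfl fun χ hχ => ?_
      rw [Finset.mem_erase, Finset.mem_erase] at hχ
      exact hn χ hχ.2.1 hχ.1
    rw [h5] at h1
    have h6 : ((∑ χ ∈ (Finset.univ.erase (triv G)).erase ⟨linFn l₀, linFn_isIrr l₀⟩, n χ : ℕ) : ℂ) = 0 := by
      linear_combination h1
    have h7 : ∑ χ ∈ (Finset.univ.erase (triv G)).erase ⟨linFn l₀, linFn_isIrr l₀⟩, n χ = 0 := by
      exact_mod_cast h6
    intro χ ha hb
    have h8 := Finset.sum_eq_zero_iff.1 h7 χ (Finset.mem_erase.2 ⟨hb, Finset.mem_erase.2 ⟨ha, Finset.mem_univ _⟩⟩)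
    have h9 := hn χ ha hb
    rw [h8, Nat.cast_zero] at h9
    rcases mul_eq_zero.1 h9 with h | h
    · exact h
    · exact absurd h (isIrr_one_ne_zero χ.2)
  have hcol := Cfsg.Agent.Lib.CharBasic.column_orth u u
  rw [if_pos (IsConj.refl u), ← Finset.add_sum_erase _ _ (Finset.mem_univ (triv G)),
    ← Finset.add_sum_erase _ _ (Finset.mem_erase.2 ⟨hne, Finset.mem_univ _⟩)] at hcol
  have h3 : (triv G).1 u * conj ((triv G).1 u) = 1 := by
    change (1 : ℂ) * conj (1 : ℂ) = 1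
    simp
  have h4 : (⟨linFn l₀, linFn_isIrr l₀⟩ : IrrCharacter G).1 u *
      conj ((⟨linFn l₀, linFn_isIrr l₀⟩ : IrrCharacter G).1 u) = 1 := linFn_norm l₀ u
  have h5 : ∑ χ ∈ (Finset.univ.erase (triv G)).erase ⟨linFn l₀, linFn_isIrr l₀⟩,
      χ.1 u * conj (χ.1 u) = 0 := by
    refine Finset.sum_eq_zero fun χ hχ => ?_
    rw [Finset.mem_erase, Finset.mem_erase] at hχ
    rw [hvan χ hχ.2.1 hχ.1, zero_mul]
  rw [h3, h4, h5] at hcol
  have h6 : ((2 : ℕ) : ℂ) = (Nat.card (Subgroup.centralizer ({u} : Set G)) : ℂ) := by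
    rw [← hcol]; norm_num
  exact_mod_cast h6.symm

end U

end Cfsg.Agent.Lib.BlkH8Z
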