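import Cfsg.Agent.Lib.BlockInt
import Cfsg.Agent.Lib.BlockHt

/-! The Brauer–Feit bound. -/

set_option autoImplicit false
set_option linter.unusedVariables false
set_option linter.unusedSectionVars false

namespace Cfsg.Agent.Lib.BlockBF

open Cfsg Cfsg.Agent.Lib.BlockLoc Cfsg.Agent.Lib.BlockGA Cfsg.Agent.Lib.CharBasic
open Cfsg.Agent.Lib.BlockIdem Cfsg.Agent.Lib.BlockInd Cfsg.Agent.Lib.BlockHt
open Cfsg.Agent.Lib.BlockDeg Cfsg.Agent.Lib.BlockInt
open scoped ComplexConjugate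

noncomputable section

variable {G : Type*} [Group G] [Finite G] {p : ℕ} {M : Ideal AlgInt}

theorem weighted (hM : IsPModular p M) {B : Set (IrrCharacter G)} (hB : IsPBlock M B)
    [DecidablePred (· ∈ B)] :
    ∑ χ ∈ Finset.univ.filter (· ∈ B), p ^ (2 * blockHeight p B χ.1) ≤
      (p ^ blockDefect p B) ^ 2 / 4 + 1 := by
  classical
  cases nonempty_fintype G
  have hp := hM.1
  obtain ⟨χ, hχ, hht⟩ := exists_height_zero (block_nonempty hM hB) p
  obtain ⟨q, hq⟩ : ∃ q, q = p ^ blockDefect p B := ⟨_, rfl⟩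
  have hgen := gen_defect_reg hM hB hχ
  rw [← hq] at hgen ⊢
  obtain ⟨a, ha0, ha⟩ := reg_expand hM hB hχ hgen
  obtain ⟨F, hF⟩ : ∃ F : G → ℂ, F = fun x : G => if p ∣ orderOf x then (0 : ℂ) else (q : ℂ) * χ.1 x :=
    ⟨_, rfl⟩
  have hFa : F = ∑ ψ : IrrCharacter G, (a ψ : ℂ) • ψ.1 := by
    funext x
    rw [hF]
    simp only [Finset.sum_apply, Pi.smul_apply, smul_eq_mul]
    exact ha x
  have hin : ∀ ψ : IrrCharacter G, classInner F ψ.1 = a ψ := fun ψ => by
    rw [hFa]; exact inner_sum_irr _ ψ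
  -- norm
  have hnorm : (∑ ψ : IrrCharacter G, a ψ ^ 2 : ℤ) = q * a χ := by
    have h1 : classInner F F = ∑ ψ : IrrCharacter G, (a ψ : ℂ) * conj (a ψ : ℂ) := by
      conv_lhs => rw [hFa]
      exact inner_sum_sum _ _
    have h2 : classInner F F = q * classInner F χ.1 := by
      simp only [classInner_def]
      rw [mul_left_comm]
      congr 1
      rw [Finset.mul_sum]
      refine Finset.sum_congr rfl fun x _ => ?_
      rw [hF]
      simp only
      by_cases h : p ∣ orderOf x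
      · rw [if_pos h]; simp
      · rw [if_neg h, map_mul, Complex.conj_natCast]; ring
    rw [hin] at h2
    rw [h2] at h1
    have h3 : ((∑ ψ : IrrCharacter G, a ψ ^ 2 : ℤ) : ℂ) = ((q * a χ : ℤ) : ℂ) := by
      push_cast
      rw [h1]
      refine Finset.sum_congr rfl fun ψ _ => ?_
      rw [map_intCast]; ring
    exact_mod_cast h3
  -- valuations
  have hval : ∀ ψ ∈ B, ((p ^ (2 * blockHeight p B ψ.1) : ℕ) : ℤ) ≤ a ψ ^ 2 := by
    intro ψ hψ
    have h1 := inner_reg_eq (p := p) χ ψ (q : ℂ)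
    have h2 : (Nat.card G : ℂ) * (a ψ : ℂ) = (q : ℂ) * (ψ.1 1 * om ψ.1 (zr p χ.1)) := by
      rw [← hin ψ, hF, h1, om_zr_symm (isIrr_one_ne_zero χ.2) (isIrr_one_ne_zero ψ.2)]
    obtain ⟨w, hw⟩ : ∃ w, w = om ψ.1 (zr p χ.1) := ⟨_, rfl⟩
    have hwl : MemLocalRing M w := by rw [hw]; exact loc_om_zr hM ψ χ
    have hwm : ¬ MemLocalIdeal M w := by
      have h3 := (lz_ne_zero_iff hM hB hχ hψ).mpr hht
      rw [lz_eq, Ne, red_eq_zero_iff hM (loc_om_zr hM ψ χ)] at h3
      rw [hw]; exact h3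
    have hw0 : w ≠ 0 := ne_zero_of_not_max hM hwm
    rw [← hw, ← charDegree_cast (isChar_of_irr ψ.2)] at h2
    have hd0 := charDegree_ne_zero ψ.2
    have hq0 : q ≠ 0 := by rw [hq]; exact pow_ne_zero _ hp.ne_zero
    have ha0' : a ψ ≠ 0 := by
      intro h0
      rw [h0] at h2
      have h3 : (q : ℂ) * (charDegree ψ.1 * w) ≠ 0 := by
        apply mul_ne_zero (by exact_mod_cast hq0)
        exact mul_ne_zero (by exact_mod_cast hd0) hw0
      apply h3
      rw [← h2]; simp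
    have hm0 : (a ψ).natAbs ≠ 0 := Int.natAbs_ne_zero.mpr ha0'
    have hG0 : Nat.card G ≠ 0 := Nat.card_pos.ne'
    have hfac : (q * charDegree ψ.1).factorization p ≤
        (Nat.card G * (a ψ).natAbs).factorization p := by
      rcases Int.natAbs_eq (a ψ) with h3 | h3
      · apply fac_le_of_mul hM (mul_ne_zero hq0 hd0) (mul_ne_zero hG0 hm0) hwl (loc_one hM)
          (not_max_one hM)
        have h4 : (a ψ : ℂ) = ((a ψ).natAbs : ℂ) := by
          conv_lhs => rw [h3]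
          exact Int.cast_natCast _
        rw [h4] at h2
        push_cast
        linear_combination -h2
      · apply fac_le_of_mul hM (mul_ne_zero hq0 hd0) (mul_ne_zero hG0 hm0) (loc_neg hM hwl)
          (loc_one hM) (not_max_one hM)
        have h4 : (a ψ : ℂ) = -((a ψ).natAbs : ℂ) := by
          conv_lhs => rw [h3]
          rw [Int.cast_neg, Int.cast_natCast]
        rw [h4] at h2
        push_cast
        linear_combination h2
    rw [Nat.factorization_mul hq0 hd0, Nat.factorization_mul hG0 hm0, hq,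
      Nat.factorization_pow] at hfac
    simp only [Finsupp.add_apply, Finsupp.smul_apply, hp.factorization_self, smul_eq_mul,
      mul_one] at hfac
    have h5 := fac_degree_add (p := p) hψ
    have h6 : blockHeight p B ψ.1 ≤ (a ψ).natAbs.factorization p := by omega
    have h7 : p ^ blockHeight p B ψ.1 ∣ (a ψ).natAbs :=
      (pow_dvd_pow p h6).trans (Nat.ordProj_dvd _ _)
    have h8 := Nat.le_of_dvd (Nat.pos_of_ne_zero hm0) h7
    have h9 : (a ψ) ^ 2 = (((a ψ).natAbs ^ 2 : ℕ) : ℤ) := by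
      push_cast; rw [sq_abs]
    rw [h9, mul_comm, pow_mul]
    exact_mod_cast Nat.pow_le_pow_left h8 2
  -- conclusion
  have hsum : ∑ ψ ∈ (Finset.univ.filter (· ∈ B)).erase χ, a ψ ^ 2 + a χ ^ 2 = q * a χ := by
    rw [← hnorm, Finset.sum_erase_add _ _ (Finset.mem_filter.mpr ⟨Finset.mem_univ χ, hχ⟩)]
    apply Finset.sum_subset (Finset.subset_univ _)
    intro ψ _ hψ
    rw [ha0 ψ (fun h => hψ (Finset.mem_filter.mpr ⟨Finset.mem_univ _, h⟩))]
    norm_num
  have h1 : ((∑ ψ ∈ (Finset.univ.filter (· ∈ B)).erase χ,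
      p ^ (2 * blockHeight p B ψ.1) : ℕ) : ℤ) ≤
      ∑ ψ ∈ (Finset.univ.filter (· ∈ B)).erase χ, a ψ ^ 2 := by
    rw [Nat.cast_sum]
    apply Finset.sum_le_sum
    intro ψ hψ
    rw [Finset.mem_erase, Finset.mem_filter] at hψ
    exact hval ψ hψ.2.2
  have h2 : 4 * ((∑ ψ ∈ (Finset.univ.filter (· ∈ B)).erase χ,
      p ^ (2 * blockHeight p B ψ.1) : ℕ) : ℤ) ≤ (q : ℤ) ^ 2 := by
    nlinarith [sq_nonneg ((q : ℤ) - 2 * a χ)]
  have h3 : 4 * (∑ ψ ∈ (Finset.univ.filter (· ∈ B)).erase χ,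
      p ^ (2 * blockHeight p B ψ.1)) ≤ q ^ 2 := by exact_mod_cast h2
  rw [← Finset.sum_erase_add _ _ (Finset.mem_filter.mpr ⟨Finset.mem_univ χ, hχ⟩), hht]
  have h5 : p ^ (2 * 0) = 1 := by simp
  rw [h5]
  have h4 : (∑ ψ ∈ (Finset.univ.filter (· ∈ B)).erase χ,
      p ^ (2 * blockHeight p B ψ.1)) ≤ q ^ 2 / 4 := by
    rw [Nat.le_div_iff_mul_le (by norm_num), mul_comm]
    exact h3
  exact Nat.add_le_add_right h4 1

theorem bound (hM : IsPModular p M) {B : Set (IrrCharacter G)} (hB : IsPBlock M B) :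
    4 * Nat.card B ≤ p ^ (2 * blockDefect p B) + 4 := by
  classical
  have h1 := weighted hM hB
  have h2 : Nat.card B ≤ ∑ χ ∈ Finset.univ.filter (· ∈ B), p ^ (2 * blockHeight p B χ.1) := by
    have h3 : Nat.card B = ∑ χ ∈ Finset.univ.filter (· ∈ B), 1 := by
      rw [Finset.sum_const, smul_eq_mul, mul_one, Nat.card_eq_fintype_card, ← Set.toFinset_card]
      congr 1
      ext χ
      simp
    rw [h3]
    exact Finset.sum_le_sum fun χ _ => Nat.one_le_pow _ _ hM.1.pos
  have h3 : (p ^ blockDefect p B) ^ 2 = p ^ (2 * blockDefect p B) := by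
    rw [← pow_mul, mul_comm]
  rw [h3] at h1
  omega

end

end Cfsg.Agent.Lib.BlockBF
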