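import Cfsg.Agent.Lib.BlockMore
import Cfsg.Agent.Lib.CharGlaub
import Cfsg.Agent.Lib.CharCo

/-! Height zero characters over a central character: extension to the defect group. -/

set_option autoImplicit false
set_option linter.unusedVariables false
set_option linter.unusedSectionVars false

namespace Cfsg.Agent.Lib.BlockExt

open Cfsg Cfsg.Agent.Lib.BlockLoc Cfsg.Agent.Lib.BlockGA Cfsg.Agent.Lib.CharBasic
open Cfsg.Agent.Lib.BlockIdem Cfsg.Agent.Lib.BlockInd Cfsg.Agent.Lib.BlockHt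
open Cfsg.Agent.Lib.BlockDeg Cfsg.Agent.Lib.BlockDef Cfsg.Agent.Lib.BlockFirst
open Cfsg.Agent.Lib.BlockMore
open scoped ComplexConjugate

noncomputable section

variable {G : Type*} [Group G] [Finite G] {p : ℕ} {M : Ideal AlgInt}

/-- The multiplicities of `χ(· x)` on a subgroup centralized by `x` are algebraic integers. -/
theorem mult_integral [Fintype G] (D : Subgroup G) [Fintype D] {x : G} (hx : ∀ d ∈ D, Commute d x)
    {χ : G → ℂ} (hχ : IsCharacter G χ) {ν : D → ℂ} (hν : IsCharacter D ν) :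
    IsIntegral ℤ (classInner (fun d : D => χ (d * x)) ν) := by
  classical
  let Z := Subgroup.zpowers x
  have : Fintype Z := Fintype.ofFinite _
  let f : D × Z →* G := MonoidHom.noncommCoprod D.subtype Z.subtype (by
    rintro ⟨d, hd⟩ ⟨z, hz⟩
    obtain ⟨k, rfl⟩ := Subgroup.mem_zpowers_iff.mp hz
    exact (hx d hd).zpow_right k)
  have hX : IsCharacter (D × Z) (fun q => χ (f q)) := isChar_comp f hχ
  have h1 := CharGlaub.isChar_section hX hν
  have h2 := char_isIntegral h1 ⟨x, Subgroup.mem_zpowers x⟩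
  rw [classInner_def]
  convert h2 using 3
  rfl

theorem classFn_mul_comm (D : Subgroup G) {x : G} (hx : ∀ d ∈ D, Commute d x)
    {χ : G → ℂ} (hχ : IsCharacter G χ) : IsClassFunction D (fun d : D => χ (d * x)) := by
  intro a b
  have h1 := isChar_classFn hχ ((a : G) * x) (b : G)
  have h2 : (b : G) * ((a : G) * x) * (b : G)⁻¹ = ((b * a * b⁻¹ : D) : G) * x := by
    have h3 : x * (b : G)⁻¹ = (b : G)⁻¹ * x := ((hx b b.2).inv_left.eq).symm
    push_cast
    calc (b : G) * ((a : G) * x) * (b : G)⁻¹ = b * a * (x * (b : G)⁻¹) := by group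
      _ = b * a * ((b : G)⁻¹ * x) := by rw [h3]
      _ = _ := by group
  rw [h2] at h1
  exact h1

theorem extends_to_defect [hpf : Fact p.Prime] (hM : IsPModular p M) {B : Set (IrrCharacter G)}
    (hB : IsPBlock M B) {D : Subgroup G} (hD : IsDefectGroup p M B D) {Z : Subgroup G}
    (hZc : Z ≤ Subgroup.center G) (hZD : Z ≤ D) (lam : Z →* ℂˣ) {χ : IrrCharacter G} (hχ : χ ∈ B)
    (hover : ∀ z : Z, χ.1 z = χ.1 1 * (lam z : ℂ)) (h0 : blockHeight p B χ.1 = 0) :
    ∃ μ : D →* ℂˣ, ∀ z : Z, μ ⟨(z : G), hZD z.2⟩ = lam z := by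
  classical
  cases nonempty_fintype G
  cases nonempty_fintype D
  rw [isDefectGroup_iff] at hD
  obtain ⟨x, hx, hDp, hDx, -⟩ := hD
  have hunit := height_zero_unit hM hB hx hχ h0
  have hχc := isChar_of_irr χ.2
  have hcl := classFn_mul_comm D hDx hχc
  have hexp := congrFun (classFn_expand _ hcl) 1
  simp only [Finset.sum_apply, Pi.smul_apply, smul_eq_mul, OneMemClass.coe_one, one_mul] at hexp
  -- some linear constituent
  obtain ⟨ν, hν0, hνp⟩ : ∃ ν : IrrCharacter D, classInner (fun d : D => χ.1 (d * x)) ν.1 ≠ 0 ∧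
      ¬ p ∣ charDegree ν.1 := by
    by_contra hcon
    push Not at hcon
    apply hunit
    rw [hexp]
    apply max_sum hM
    intro ν _
    by_cases h : classInner (fun d : D => χ.1 (d * x)) ν.1 = 0
    · rw [h, zero_mul]; exact max_zero hM
    · apply max_mul_left hM (loc_of_isIntegral hM (mult_integral D hDx hχc (isChar_of_irr ν.2)))
      rw [← charDegree_cast (isChar_of_irr ν.2), max_natCast_iff hM]
      exact hcon ν h
  have hν1 : charDegree ν.1 = 1 := by
    have h1 := CharCo.deg_dvd_card ν.2 (charDegree_cast (isChar_of_irr ν.2)).symm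
    obtain ⟨k, hk⟩ := hDp.exists_card_eq
    rw [hk] at h1
    obtain ⟨j, -, hj⟩ := (Nat.dvd_prime_pow hpf.out).mp h1
    rcases j with _ | j
    · rw [hj, pow_zero]
    · exact absurd (hj ▸ dvd_pow_self p (Nat.succ_ne_zero j)) hνp
  obtain ⟨μ, hμ⟩ := exists_lin_of_one (isChar_of_irr ν.2) (by
    rw [← charDegree_cast (isChar_of_irr ν.2), hν1]; simp)
  refine ⟨μ, fun z => ?_⟩
  -- compare
  have hzD : (z : G) ∈ D := hZD z.2
  have hzc : ∀ g, Commute g (z : G) := fun g => Subgroup.mem_center_iff.mp (hZc z.2) g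
  have h1 : ∀ d : D, χ.1 (((⟨(z : G), hzD⟩ * d : D) : G) * x) = (lam z : ℂ) * χ.1 (d * x) := by
    intro d
    have h2 := irr_mul_central χ hzc ((d : G) * x)
    rw [hover z, mul_div_cancel_left₀ _ (char_one_ne χ.2), ← mul_assoc] at h2
    exact h2
  have h2 : classInner (fun d : D => χ.1 (d * x)) ν.1 =
      (lam z : ℂ) * conj (μ ⟨(z : G), hzD⟩ : ℂ) * classInner (fun d : D => χ.1 (d * x)) ν.1 := by
    rw [classInner_def]
    rw [mul_left_comm]
    congr 1
    rw [Finset.mul_sum]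
    refine (Fintype.sum_equiv (Equiv.mulLeft (⟨(z : G), hzD⟩ : D)) _ _ fun d => ?_).symm
    rw [Equiv.coe_mulLeft, h1, hμ]
    simp only [map_mul, Units.val_mul]
    ring
  have h3 : (lam z : ℂ) * conj (μ ⟨(z : G), hzD⟩ : ℂ) = 1 := by
    have : (1 : ℂ) * classInner (fun d : D => χ.1 (d * x)) ν.1 =
      (lam z : ℂ) * conj (μ ⟨(z : G), hzD⟩ : ℂ) * classInner (fun d : D => χ.1 (d * x)) ν.1 := by
      rw [one_mul]; exact h2
    exact (mul_right_cancel₀ hν0 this).symm
  have h4 := CharLin.linFn_norm μ ⟨(z : G), hzD⟩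
  rw [CharLin.linFn_apply] at h4
  have h5 : conj (μ ⟨(z : G), hzD⟩ : ℂ) ≠ 0 := by
    intro h; rw [h, mul_zero] at h4; exact zero_ne_one h4
  apply Units.ext
  exact mul_right_cancel₀ h5 (h4.trans h3.symm)

end

end Cfsg.Agent.Lib.BlockExt
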