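import Cfsg.Agent.Lib.CharFix
import Cfsg.Agent.Lib.CharRatio
import Cfsg.Agent.Lib.BlockMore

/-! Galois-fixed characters, odd index normal subgroups and the principal 2-block. -/

set_option autoImplicit false
set_option linter.unusedVariables false
set_option linter.unusedSectionVars false

namespace Cfsg.Agent.Lib.BlockFix

open Cfsg Cfsg.Agent.Lib.BlockLoc Cfsg.Agent.Lib.BlockGA Cfsg.Agent.Lib.CharBasic
open Cfsg.Agent.Lib.BlockIdem Cfsg.Agent.Lib.BlockInd Cfsg.Agent.Lib.BlockHt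
open Cfsg.Agent.Lib.BlockOrth Cfsg.Agent.Lib.BlockCov Cfsg.Agent.Lib.BlockMore
open Cfsg.Agent.Lib.CharFix Cfsg.Agent.Lib.CharGal Cfsg.Agent.Lib.CharInd

noncomputable section

variable {G : Type*} [Group G] [Finite G]

/-- The Galois conjugate. -/
def powI {k : ℕ} (hk : Nat.Coprime k (Nat.card G)) (χ : IrrCharacter G) : IrrCharacter G :=
  ⟨fun g => χ.1 (g ^ k), isIrr_pow_coprime hk χ.2⟩

theorem powI_eq_iff {k : ℕ} (hk : Nat.Coprime k (Nat.card G)) (χ : IrrCharacter G) :
    powI hk χ = χ ↔ PF k χ.1 := by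
  constructor
  · intro h g
    exact congrFun (congrArg Subtype.val h) g
  · intro h
    exact Subtype.ext (funext h)

/-- Fixed points modulo `p` on a Galois-stable set. -/
theorem card_fixed {p : ℕ} [hp : Fact p.Prime] {k e : ℕ} (hk : Nat.Coprime k (Nat.card G))
    (hke : k ^ (p ^ e) ≡ 1 [MOD Nat.card G]) (A : Set (IrrCharacter G))
    (hA : ∀ χ ∈ A, powI hk χ ∈ A) :
    A.ncard ≡ {χ : IrrCharacter G | χ ∈ A ∧ PF k χ.1}.ncard [MOD p] := by
  classical
  have : Fintype A := Fintype.ofFinite _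
  let f : Function.End A := fun χ => ⟨powI hk χ.1, hA χ.1 χ.2⟩
  have hfpow : ∀ (m : ℕ) (ψ : A), ((f ^ m) ψ).1.1 = fun n => ψ.1.1 (n ^ (k ^ m)) := by
    intro m
    induction m with
    | zero => intro ψ; funext n; simp only [pow_zero, pow_one]; rfl
    | succ m ih =>
      intro ψ
      funext n
      have h1 : (f ^ (m + 1)) ψ = (f ^ m) (f ψ) := by rw [pow_succ]; rfl
      rw [h1, ih]
      change ψ.1.1 ((n ^ k ^ m) ^ k) = _
      rw [← pow_mul, pow_succ]
  have hf1 : f ^ p ^ e = 1 := by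
    funext ψ
    apply Subtype.ext
    apply Subtype.ext
    rw [hfpow]
    funext n
    change ψ.1.1 (n ^ k ^ p ^ e) = ψ.1.1 n
    congr 1
    have h2 : n ^ (k ^ p ^ e) = n ^ 1 := by
      rw [pow_eq_pow_iff_modEq]
      exact hke.of_dvd (orderOf_dvd_natCard n)
    rw [h2, pow_one]
  have hcard := Equiv.Perm.card_fixedPoints_modEq hf1
  have h1 : Fintype.card A = A.ncard := by
    rw [← Nat.card_coe_set_eq, Nat.card_eq_fintype_card]
  have h2 : Fintype.card f.fixedPoints = {χ : IrrCharacter G | χ ∈ A ∧ PF k χ.1}.ncard := by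
    rw [← Nat.card_coe_set_eq, ← Nat.card_eq_fintype_card]
    refine Nat.card_congr
      { toFun := fun x => ⟨x.1.1, x.1.2, ?_⟩
        invFun := fun x => ⟨⟨x.1, x.2.1⟩, ?_⟩
        left_inv := fun x => rfl
        right_inv := fun x => rfl }
    · rw [← powI_eq_iff hk]
      exact congrArg Subtype.val x.2
    · apply Subtype.ext
      exact (powI_eq_iff hk x.1).mpr x.2.2
  rw [← h1, ← h2]
  exact hcard

variable {M : Ideal AlgInt} {p : ℕ}

theorem principal_powI {k : ℕ} (hk : Nat.Coprime k (Nat.card G)) {χ : IrrCharacter G}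
    (h : χ ∈ principalBlock M G) : powI hk χ ∈ principalBlock M G := by
  intro g
  have h1 := h (g ^ k)
  have hc : Subgroup.centralizer ({g ^ k} : Set G) = Subgroup.centralizer ({g} : Set G) := by
    apply le_antisymm
    · intro x hx
      rw [Subgroup.mem_centralizer_singleton_iff] at hx ⊢
      obtain ⟨m, hm⟩ := exists_pow_eq_self_of_coprime
        (hk.coprime_dvd_right (orderOf_dvd_natCard g))
      have h2 : Commute x (g ^ k) := hx
      have h3 : Commute x ((g ^ k) ^ m) := h2.pow_right m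
      rw [hm] at h3
      exact h3
    · intro x hx
      rw [Subgroup.mem_centralizer_singleton_iff] at hx ⊢
      have h2 : Commute x g := hx
      exact h2.pow_right k
  unfold centralChar at h1 ⊢
  rw [hc] at h1
  have h2 : (powI hk χ).1 g = χ.1 (g ^ k) := rfl
  have h3 : (powI hk χ).1 1 = χ.1 1 := by
    change χ.1 (1 ^ k) = _; rw [one_pow]
  rw [h2, h3]
  exact h1

variable {N : Subgroup G} [hN : N.Normal] [Fintype N]

theorem over_powI {k : ℕ} (hk : Nat.Coprime k (Nat.card G)) {χ : IrrCharacter G}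
    {θ : IrrCharacter N} (hθ : PF k θ.1) (h : Over χ θ) : Over (powI hk χ) θ := by
  unfold Over at h ⊢
  have h1 : (fun n : N => (powI hk χ).1 n) = fun n : N => (fun m : N => χ.1 m) (n ^ k) := by
    funext n
    rfl
  have h2 : θ.1 = fun n => θ.1 (n ^ k) := by
    funext n
    exact (hθ n).symm
  cases nonempty_fintype G
  have h3 := inner_pow (coprime_sub hk N) (fun m : N => χ.1 m) θ.1
  rw [← h1, ← h2] at h3
  rw [h3]
  exact h

/-- Parity of the number of members of `B` over `θ`. -/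
theorem parity (hidx : Odd N.index) (B : Set (IrrCharacter G)) (θ : IrrCharacter N) :
    ∃ S : ℕ, (S : ℂ) = (N.index : ℂ) * om θ.1 (resGA N (eB B)) ∧
      {χ : IrrCharacter G | χ ∈ B ∧ Over χ θ}.ncard ≡ S [MOD 2] := by
  classical
  cases nonempty_fintype G
  have hθ1 : θ.1 1 ≠ 0 := isIrr_one_ne_zero θ.2
  have hb : ∀ χ : IrrCharacter G, ∃ b : ℕ, classInner (fun n : N => χ.1 n) θ.1 * χ.1 1 =
      b * θ.1 1 ∧ (Over χ θ → Odd b) ∧ (¬ Over χ θ → b = 0) := by
    intro χ
    by_cases h : Over χ θ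
    · obtain ⟨b, hb, hbd⟩ := CharRatio.ratio θ.2 χ.2 h
      obtain ⟨m, hm⟩ := exists_nat_inner (isChar_res N (isChar_of_irr χ.2)) θ.2
      have h1 := CharClifford.degree_eq χ.2 θ.2 h
      have h2 : (b : ℂ) = m * (CharClifford.inertia θ.1).index := by
        rw [hb, hm] at h1
        exact mul_right_cancel₀ hθ1 h1
      have h3 : b = m * (CharClifford.inertia θ.1).index := by exact_mod_cast h2
      have hbo : Odd b := Odd.of_dvd_nat hidx hbd
      have hmo : Odd m := Odd.of_dvd_nat hbo ⟨_, h3⟩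
      refine ⟨m * b, ?_, fun _ => hmo.mul hbo, fun h' => absurd h h'⟩
      rw [hm, hb]; push_cast; ring
    · refine ⟨0, ?_, fun h' => absurd h' h, fun _ => rfl⟩
      unfold Over at h
      push Not at h
      rw [h]; simp
  choose b hb1 hb2 hb3 using hb
  refine ⟨∑ χ ∈ Finset.univ.filter (· ∈ B), b χ, ?_, ?_⟩
  · have h1 := blockPart_ind_one (H := N) θ B
    rw [blockPart_eq] at h1
    have h2 : ∑ χ ∈ Finset.univ.filter (· ∈ B), classInner (indFun N θ.1) χ.1 * χ.1 1 =
        ((∑ χ ∈ Finset.univ.filter (· ∈ B), b χ : ℕ) : ℂ) * θ.1 1 := by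
      rw [Nat.cast_sum, Finset.sum_mul]
      refine Finset.sum_congr rfl fun χ _ => ?_
      rw [reciprocity N θ.1 χ.1 (isChar_classFn (isChar_of_irr χ.2)), ← hb1 χ]
      obtain ⟨m, hm⟩ := exists_nat_inner (isChar_res N (isChar_of_irr χ.2)) θ.2
      rw [← classInner_conj_symm, hm, Complex.conj_natCast]
    rw [h2] at h1
    apply mul_right_cancel₀ hθ1
    rw [h1]; ring
  · have h1 : {χ : IrrCharacter G | χ ∈ B ∧ Over χ θ}.ncard =
        ∑ χ ∈ Finset.univ.filter (· ∈ B), if Over χ θ then 1 else 0 := by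
      rw [Set.ncard_eq_toFinset_card', ← Finset.sum_filter, Finset.sum_const, smul_eq_mul,
        mul_one]
      congr 1
      ext χ
      simp
    rw [h1]
    apply Nat.ModEq.symm
    rw [← Int.natCast_modEq_iff]
    push_cast
    apply Int.ModEq.sum
    intro χ _
    by_cases h : Over χ θ
    · rw [if_pos h]
      have := hb2 χ h
      have h2 : b χ ≡ 1 [MOD 2] := by
        rw [Nat.ModEq]; exact Nat.odd_iff.mp this
      exact_mod_cast (Int.natCast_modEq_iff.mpr h2)
    · rw [if_neg h, hb3 χ h]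
      rfl

theorem parity_congr (hM : IsPModular 2 M) (hidx : Odd N.index) {B : Set (IrrCharacter G)}
    (hB : IsPBlock M B) {θ θ' : IrrCharacter N} (h : SameBlock M θ.1 θ'.1) :
    {χ : IrrCharacter G | χ ∈ B ∧ Over χ θ}.ncard ≡
      {χ : IrrCharacter G | χ ∈ B ∧ Over χ θ'}.ncard [MOD 2] := by
  classical
  obtain ⟨S, hS, h1⟩ := parity hidx B θ
  obtain ⟨S', hS', h2⟩ := parity hidx B θ'
  refine h1.trans (Nat.ModEq.trans ?_ h2.symm)
  have hl : IsLoc M (resGA N (eB B)) := resGA_loc (isLoc_eB hM hB)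
  have hc : IsCl (resGA N (eB B)) := resGA_isCl N (eB_isCl B)
  have h3 := om_sub_of_sameBlock hM θ.2 θ'.2 h hc hl
  have h4 : MemLocalIdeal M (((S : ℤ) - (S' : ℤ) : ℤ) : ℂ) := by
    push_cast
    rw [hS, hS', ← mul_sub]
    exact max_mul_left hM (loc_natCast hM _) h3
  rw [max_intCast_iff hM] at h4
  apply Nat.ModEq.symm
  rw [Nat.modEq_iff_dvd]
  exact h4

theorem main (hM : IsPModular 2 M) (hidx : Odd N.index) {k e : ℕ}
    (hk : Nat.Coprime k (Nat.card G)) (hke : k ^ (2 ^ e) ≡ 1 [MOD Nat.card G])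
    (hk₂ : ∀ g : G, Odd (orderOf g) → g ^ k = g⁻¹) {θ : IrrCharacter N} (hθ : PF k θ.1)
    {χ : IrrCharacter G} (hχ : PF k χ.1) (hover : Over χ θ) :
    χ ∈ principalBlock M G ↔ θ ∈ principalBlock M N := by
  classical
  cases nonempty_fintype G
  have hB := principal_isPBlock M G
  have hb := principal_isPBlock M N
  have hOne : Over (triv G) (triv N) := by
    unfold Over
    have : classInner (fun n : N => (triv G).1 n) (triv N).1 = 1 := irr_inner_self (triv N).2
    rw [this]; exact one_ne_zero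
  have hcov : Cov (principalBlock M G) (principalBlock M N) :=
    ⟨triv G, triv_mem hM, triv N, triv_mem hM, hOne⟩
  constructor
  · intro h
    have h1 := mem_orb_of_cov hM hB hb hcov h hover
    obtain ⟨x, hx⟩ := h1
    have h2 : SameBlock M (fun _ : N => (1 : ℂ)) (CharNormal.cj x θ.1) := hx
    have h3 := sameBlock_cj (x⁻¹) h2
    rw [CharNormal.cj_inv_cj] at h3
    exact h3
  · intro h
    have hst : ∀ θ : IrrCharacter N, PF k θ.1 →
        ∀ χ ∈ {χ : IrrCharacter G | χ ∈ principalBlock M G ∧ Over χ θ}, powI hk χ ∈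
          {χ : IrrCharacter G | χ ∈ principalBlock M G ∧ Over χ θ} :=
      fun θ hθ χ hχ => ⟨principal_powI hk hχ.1, over_powI hk hθ hχ.2⟩
    have : Fact (Nat.Prime 2) := ⟨Nat.prime_two⟩
    have hT : PF k (triv N).1 := fun _ => rfl
    have h1 := card_fixed hk hke _ (hst θ hθ)
    have h2 := card_fixed hk hke _ (hst (triv N) hT)
    have h3 := parity_congr hM hidx hB (θ := triv N) (θ' := θ) h
    have h4 : {χ : IrrCharacter G | χ ∈ {χ : IrrCharacter G | χ ∈ principalBlock M G ∧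
        Over χ (triv N)} ∧ PF k χ.1} = {triv G} := by
      apply Set.eq_singleton_iff_unique_mem.mpr
      refine ⟨⟨⟨triv_mem hM, hOne⟩, fun _ => rfl⟩, ?_⟩
      rintro ψ ⟨⟨h5, h6⟩, h7⟩
      exact Subtype.ext (fixed_unique_of_ext hidx hk₂ (triv G).2 (fun _ => rfl) (triv N).2
        (fun _ => rfl) ψ.2 h7 h6 hk)
    rw [h4, Set.ncard_singleton] at h2
    have h5 := (h1.symm.trans h3.symm).trans h2
    have h6 : {χ : IrrCharacter G | χ ∈ {χ : IrrCharacter G | χ ∈ principalBlock M G ∧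
        Over χ θ} ∧ PF k χ.1}.ncard ≠ 0 := by
      intro h0
      rw [h0] at h5
      exact absurd h5 (by decide)
    obtain ⟨ψ, ⟨h7, h8⟩, h9⟩ := Set.nonempty_of_ncard_ne_zero h6
    obtain ⟨ξ, -, huniq⟩ := existsUnique_fixed_over hidx hk hk₂ θ.2 hθ
    have h10 : ψ = χ := Subtype.ext ((huniq ψ.1 ψ.2 h8 h9).trans (huniq χ.1 χ.2 hover hχ).symm)
    rw [← h10]
    exact h7

end

end Cfsg.Agent.Lib.BlockFix
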