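import Cfsg.Agent.Lib.BlockBF
import Cfsg.Agent.Lib.BlockFix
import Cfsg.Agent.Lib.CharTable

/-! Real 2-blocks of full defect are principal. -/

set_option autoImplicit false
set_option linter.unusedVariables false
set_option linter.unusedSectionVars false

namespace Cfsg.Agent.Lib.BlockReal

open Cfsg Cfsg.Agent.Lib.BlockLoc Cfsg.Agent.Lib.BlockGA Cfsg.Agent.Lib.CharBasic
open Cfsg.Agent.Lib.BlockIdem Cfsg.Agent.Lib.BlockInd Cfsg.Agent.Lib.BlockHt
open Cfsg.Agent.Lib.BlockDeg Cfsg.Agent.Lib.BlockRed Cfsg.Agent.Lib.CharTable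
open Cfsg.Agent.Lib.BlockFix
open scoped ComplexConjugate

noncomputable section

variable {G : Type*} [Group G] [Finite G] {M : Ideal AlgInt}

/-- Sum over the classes in characteristic two with the pairing `C ↔ C⁻¹`. -/
theorem sum_pairs {F : Type*} [Field F] [CharP F 2] [Fintype (ConjClasses G)]
    [DecidableEq (ConjClasses G)] [Fintype G]
    (f : ConjClasses G → F) (h1 : ∀ C, f (invPerm C) = f C)
    (h2 : ∀ C, invPerm C = C → C ≠ ConjClasses.mk 1 → f C = 0) :
    ∑ C, f C = f (ConjClasses.mk 1) := by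
  rw [← Finset.add_sum_erase _ _ (Finset.mem_univ (ConjClasses.mk (1 : G)))]
  have h3 : ∑ C ∈ Finset.univ.erase (ConjClasses.mk (1 : G)), f C = 0 := by
    have hinv1 : invPerm (ConjClasses.mk (1 : G)) = ConjClasses.mk 1 := by
      rw [invPerm_mk, inv_one]
    have hinv2 : ∀ C : ConjClasses G, invPerm (invPerm C) = C := by
      intro C
      obtain ⟨g, rfl⟩ := ConjClasses.mk_surjective C
      rw [invPerm_mk, invPerm_mk, inv_inv]
    refine Finset.sum_involution (fun C _ => invPerm C) ?_ ?_ ?_ ?_
    · intro C _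
      rw [h1 C]
      exact CharTwo.add_self_eq_zero _
    · intro C hC hne heq
      rw [Finset.mem_erase] at hC
      exact hne (h2 C heq hC.1)
    · intro C hC
      rw [Finset.mem_erase] at hC ⊢
      refine ⟨fun h => hC.1 ?_, Finset.mem_univ _⟩
      rw [← hinv2 C, h, hinv1]
    · intro C _
      exact hinv2 C
  rw [h3, add_zero]

theorem out_conj (g : G) : IsConj g (Quotient.out (ConjClasses.mk g)) := by
  have : ConjClasses.mk (Quotient.out (ConjClasses.mk g)) = ConjClasses.mk g := Quotient.out_eq _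
  exact (ConjClasses.mk_eq_mk_iff_isConj.mp this).symm

/-- A nontrivial real class of odd order elements has even size. -/
theorem even_class {x : G} (hx : x ≠ 1) (ho : ¬ 2 ∣ orderOf x) (hr : IsConj x x⁻¹) :
    2 ∣ (Subgroup.centralizer ({x} : Set G)).index := by
  classical
  cases nonempty_fintype G
  rw [← card_conj_class]
  -- fixed point free involution
  let f : {y : G // IsConj x y} → {y : G // IsConj x y} := fun y => ⟨y.1⁻¹, by
    have h1 : IsConj x⁻¹ y.1⁻¹ := isConj_inv_iff.mpr y.2
    exact hr.trans h1⟩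
  have h0 : ∑ y : {y : G // IsConj x y}, (1 : ZMod 2) = 0 := by
    refine Finset.sum_involution (fun y _ => f y) ?_ ?_ ?_ ?_
    · intro y _; decide
    · intro y _ _ heq
      have h1 : y.1⁻¹ = y.1 := congrArg Subtype.val heq
      have h2 : y.1 ^ 2 = 1 := by
        rw [pow_two]; nth_rewrite 1 [← h1]; exact inv_mul_cancel _
      have h3 := orderOf_dvd_of_pow_eq_one h2
      have h4 : orderOf y.1 = orderOf x := by
        obtain ⟨c, hc⟩ := isConj_iff.mp y.2
        rw [← hc]
        exact MulEquiv.orderOf_eq (MulAut.conj c) x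
      rw [h4] at h3
      rcases (Nat.dvd_prime Nat.prime_two).mp h3 with h5 | h5
      · exact hx (orderOf_eq_one_iff.mp h5)
      · exact ho (by rw [h5])
    · intro y _; exact Finset.mem_univ _
    · intro y _
      apply Subtype.ext
      exact inv_inv y.1
  rw [Finset.sum_const, Finset.card_univ, nsmul_eq_mul, mul_one,
    ZMod.natCast_eq_zero_iff] at h0
  rw [Nat.card_eq_fintype_card]
  exact h0

/-- Idempotent coefficients of a stable block. -/
theorem coeff_pow {k : ℕ} (hk : Nat.Coprime k (Nat.card G)) {B : Set (IrrCharacter G)}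
    (hst : ∀ χ ∈ B, powI hk χ ∈ B) (g : G) : (eB B) (g ^ k) = (eB B) g := by
  classical
  cases nonempty_fintype G
  rw [eB_eq_sum]
  simp only [ga_sum, eChi_apply]
  have hinj : Function.Injective (powI hk) := by
    intro χ ψ h
    apply Subtype.ext
    funext g
    obtain ⟨x, hx⟩ := (powCoprime hk.symm).surjective g
    have h1 := congrFun (congrArg Subtype.val h) x
    have h2 : x ^ k = g := hx
    have h3 : χ.1 (x ^ k) = ψ.1 (x ^ k) := h1
    rw [h2] at h3
    exact h3
  have himg : (Finset.univ.filter (· ∈ B)).image (powI hk) = Finset.univ.filter (· ∈ B) := by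
    apply Finset.eq_of_subset_of_card_le
    · intro χ hχ
      obtain ⟨ψ, hψ, rfl⟩ := Finset.mem_image.mp hχ
      rw [Finset.mem_filter] at hψ ⊢
      exact ⟨Finset.mem_univ _, hst ψ hψ.2⟩
    · rw [Finset.card_image_of_injective _ hinj]
  conv_rhs => rw [← himg]
  rw [Finset.sum_image (fun a _ b _ h => hinj h)]
  refine Finset.sum_congr rfl fun χ _ => ?_
  have h1 : (powI hk χ).1 1 = χ.1 1 := by
    change χ.1 (1 ^ k) = _; rw [one_pow]
  have h2 : (powI hk χ).1 g = χ.1 (g ^ k) := rfl
  rw [h1, h2]

theorem centralizer_pow {k : ℕ} (hk : Nat.Coprime k (Nat.card G)) (g : G) :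
    Subgroup.centralizer ({g ^ k} : Set G) = Subgroup.centralizer ({g} : Set G) := by
  apply le_antisymm
  · intro x hx
    rw [Subgroup.mem_centralizer_singleton_iff] at hx ⊢
    obtain ⟨m, hm⟩ := exists_pow_eq_self_of_coprime
      (hk.coprime_dvd_right (orderOf_dvd_natCard g))
    have h2 : Commute x (g ^ k) := hx
    have h3 : Commute x ((g ^ k) ^ m) := h2.pow_right m
    rw [hm] at h3
    exact h3
  · intro x hx
    rw [Subgroup.mem_centralizer_singleton_iff] at hx ⊢
    have h2 : Commute x g := hx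
    exact h2.pow_right k

theorem centralChar_powI {k : ℕ} (hk : Nat.Coprime k (Nat.card G)) (χ : IrrCharacter G) (g : G) :
    centralChar (powI hk χ).1 g = centralChar χ.1 (g ^ k) := by
  unfold centralChar
  rw [centralizer_pow hk]
  have h1 : (powI hk χ).1 1 = χ.1 1 := by
    change χ.1 (1 ^ k) = _; rw [one_pow]
  rw [h1]
  rfl

/-- **Galois-stable 2-blocks of full defect are principal**. -/
theorem main (hM : IsPModular 2 M) {k : ℕ} (hk : Nat.Coprime k (Nat.card G))
    (hk₂ : ∀ g : G, Odd (orderOf g) → g ^ k = g⁻¹) {B : Set (IrrCharacter G)}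
    (hB : IsPBlock M B) (hdef : blockDefect 2 B = (Nat.card G).factorization 2)
    (hst : ∀ χ ∈ B, powI hk χ ∈ B) : B = principalBlock M G := by
  classical
  cases nonempty_fintype G
  have hP := principal_isPBlock M G
  have : Fintype (ConjClasses G) := Fintype.ofFinite _
  have hodd : ∀ g : G, ¬ 2 ∣ orderOf g → Odd (orderOf g) := fun g h =>
    Nat.not_even_iff_odd.mp (fun h' => h (even_iff_two_dvd.mp h'))
  have hl := isLoc_eB hM hB
  -- coefficients
  have he0 : ∀ g : G, 2 ∣ orderOf g → (eF hM B) g = 0 := by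
    intro g hg
    by_contra h
    exact not_dvd_orderOf_of_eF hM hl h hg
  have heinv : ∀ g : G, (eF hM B) g⁻¹ = (eF hM B) g := by
    intro g
    by_cases hg : 2 ∣ orderOf g
    · rw [he0 g hg, he0 g⁻¹ (by rwa [orderOf_inv])]
    · have h1 := coeff_pow hk hst g
      rw [hk₂ g (hodd g hg)] at h1
      rw [eF_apply, eF_apply, ← eB_apply, ← eB_apply, h1]
  -- the central characters
  obtain ⟨χ, hχ⟩ := block_nonempty hM hB
  obtain ⟨χ₁, hχ₁, hht⟩ := exists_height_zero (block_nonempty hM hB) 2
  have hodd1 : ¬ 2 ∣ charDegree χ₁.1 := by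
    have h1 := fac_degree_add (p := 2) hχ₁
    rw [hht, hdef, add_zero] at h1
    intro h
    have h2 := Nat.prime_two.factorization_pos_of_dvd (charDegree_ne_zero χ₁.2) h
    omega
  have key : ∀ ψ : IrrCharacter G, ¬ 2 ∣ charDegree ψ.1 →
      (∀ g : G, lam hM ψ.1 (cs (ResF hM) g⁻¹) = lam hM ψ.1 (cs (ResF hM) g) ∨ 2 ∣ orderOf g) →
      lam hM ψ.1 (eF hM B) = (eF hM B) 1 := by
    intro ψ hψ hψinv
    have h1 := eq_sum_cs (eF_isCl hM B)
    have h2 : lam hM ψ.1 (eF hM B) = ∑ C : ConjClasses G,
        (eF hM B) (Quotient.out C) * lam hM ψ.1 (cs (ResF hM) (Quotient.out C)) := by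
      conv_lhs => rw [h1]
      refine (lam_sum hM ψ.2 Finset.univ (fun C : ConjClasses G =>
        (eF hM B) (Quotient.out C) • cs (ResF hM) (Quotient.out C))
        (fun C _ => (cs_isCl _).smul _)).trans ?_
      exact Finset.sum_congr rfl fun C _ => lam_smul hM ψ.2 _ (cs_isCl _)
    have hcs : ∀ {g h : G}, IsConj g h → cs (ResF hM) g = cs (ResF hM) h := by
      intro g h hgh
      apply GA.ext
      intro x
      rw [cs_apply, cs_apply]
      have : IsConj g x ↔ IsConj h x := ⟨fun h' => hgh.symm.trans h', fun h' => hgh.trans h'⟩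
      simp only [this]
    have hF : ∀ g : G, (eF hM B) (Quotient.out (ConjClasses.mk g)) *
        lam hM ψ.1 (cs (ResF hM) (Quotient.out (ConjClasses.mk g))) =
        (eF hM B) g * lam hM ψ.1 (cs (ResF hM) g) := by
      intro g
      rw [← (eF_isCl hM B).eq_of_isConj (out_conj g), hcs (out_conj g).symm]
    rw [h2, sum_pairs]
    · rw [hF, lam_cs hM ψ.2]
      have h3 : centralChar ψ.1 1 = 1 := by
        unfold centralChar
        have h4 : Subgroup.centralizer ({1} : Set G) = ⊤ := by
          rw [Subgroup.eq_top_iff']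
          intro x
          rw [Subgroup.mem_centralizer_singleton_iff]
          simp
        rw [h4, Subgroup.index_top]
        simp [isIrr_one_ne_zero ψ.2]
      rw [h3, red_one, mul_one]
    · intro C
      obtain ⟨g, rfl⟩ := ConjClasses.mk_surjective C
      rw [invPerm_mk, hF, hF, heinv]
      rcases hψinv g with h | h
      · rw [h]
      · rw [he0 g h, zero_mul, zero_mul]
    · intro C hC hC1
      obtain ⟨g, rfl⟩ := ConjClasses.mk_surjective C
      rw [hF]
      rw [invPerm_mk, ConjClasses.mk_eq_mk_iff_isConj] at hC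
      have hg1 : g ≠ 1 := by rintro rfl; exact hC1 rfl
      by_cases hg : 2 ∣ orderOf g
      · rw [he0 g hg, zero_mul]
      · have h3 := even_class hg1 hg hC.symm
        rw [lam_cs hM ψ.2]
        have h4 : MemLocalIdeal M (centralChar ψ.1 g) := by
          unfold centralChar
          rw [← charDegree_cast (isChar_of_irr ψ.2)]
          apply max_div hM _ (loc_natCast hM _) (fun h => hψ ((max_natCast_iff hM _).mp h))
          exact max_mul_right hM ((max_natCast_iff hM _).mpr h3)
            (loc_char hM (isChar_of_irr ψ.2) g)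
        rw [(red_eq_zero_iff hM (loc_of_max h4)).mpr h4, mul_zero]
  have h1 := key χ₁ hodd1 (by
    intro g
    by_cases hg : 2 ∣ orderOf g
    · exact Or.inr hg
    left
    rw [← hk₂ g (hodd g hg), lam_cs hM χ₁.2, ← centralChar_powI hk, ← lam_cs hM (powI hk χ₁).2]
    exact lam_eq_of_mem hM hB (hst χ₁ hχ₁) hχ₁ (cs_isCl g))
  rw [lam_eF_mem hM hl hχ₁] at h1
  have h2 := key (triv G) (by
    have h3 : charDegree (triv G).1 = 1 := by
      have := charDegree_cast (isChar_of_irr (triv G).2)
      have h4 : (triv G).1 1 = 1 := rfl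
      rw [h4] at this
      exact_mod_cast this
    rw [h3]; norm_num) (by
    intro g
    left
    rw [lam_cs hM (triv G).2, lam_cs hM (triv G).2]
    unfold centralChar
    rw [centralizer_inv]
    rfl)
  rw [← h1] at h2
  have h3 : triv G ∈ B := by
    by_contra h
    rw [lam_eF_not_mem hM hl h] at h2
    exact zero_ne_one h2
  exact block_eq_of_mem_of_mem hM hB hP h3 (triv_mem hM)

end

end Cfsg.Agent.Lib.BlockReal
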