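import Cfsg.Prelude.Def_BaumannBlocks
import Cfsg.Agent.Lib.Basic

/-!
The Chermak–Delgado lattice, and centrally large subgroups.
-/

set_option autoImplicit false
set_option linter.unusedSectionVars false
set_option linter.style.haveILetI false
set_option linter.unusedVariables false

namespace Cfsg.Agent.Lib.ChDel

open Cfsg Subgroup
open scoped Pointwise

universe u

variable {G : Type u} [Group G] [Finite G] {Q R A B : Subgroup G}

/-- the measure -/
noncomputable def ms (R : Subgroup G) : ℕ := Nat.card R * Nat.card (centralizer (R : Set G))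

theorem ms_pos (R : Subgroup G) : 0 < ms R := Nat.mul_pos Nat.card_pos Nat.card_pos

theorem large_iff : IsCentralizerLarge R ↔ ∀ A : Subgroup G, ms A ≤ ms R := by
  unfold IsCentralizerLarge maxCentralizerProduct
  have hb : BddAbove {k : ℕ | ∃ R : Subgroup G, Nat.card ↥R * Nat.card ↥(Subgroup.centralizer (R : Set G)) = k} := by
    refine ⟨Nat.card G * Nat.card G, ?_⟩
    rintro _ ⟨R, rfl⟩
    exact Nat.mul_le_mul (card_le_card_group R) (card_le_card_group _)
  constructor
  · intro h A
    show Nat.card A * Nat.card (centralizer (A : Set G)) ≤ Nat.card R * Nat.card (centralizer (R : Set G))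
    rw [h]
    exact le_csSup hb ⟨A, rfl⟩
  · intro h
    apply le_antisymm
    · exact le_csSup hb ⟨R, rfl⟩
    · refine csSup_le ⟨_, R, rfl⟩ ?_
      rintro _ ⟨A, rfl⟩
      exact h A

theorem cen_sup (A B : Subgroup G) : centralizer ((A ⊔ B : Subgroup G) : Set G) = centralizer (A : Set G) ⊓ centralizer (B : Set G) := by
  apply le_antisymm
  · refine le_inf (centralizer_le ?_) (centralizer_le ?_)
    · exact_mod_cast (le_sup_left : A ≤ A ⊔ B)
    · exact_mod_cast (le_sup_right : B ≤ A ⊔ B)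
  · intro x hx
    rw [mem_centralizer_iff]
    have h1 : A ⊔ B ≤ centralizer ({x} : Set G) := by
      refine sup_le (fun a ha => ?_) (fun b hb => ?_)
      · rw [mem_centralizer_singleton_iff]; exact mem_centralizer_iff.1 hx.1 a ha
      · rw [mem_centralizer_singleton_iff]; exact mem_centralizer_iff.1 hx.2 b hb
    intro y hy
    exact mem_centralizer_singleton_iff.1 (h1 hy)

theorem cen_inf (A B : Subgroup G) : centralizer (A : Set G) ⊔ centralizer (B : Set G) ≤ centralizer ((A ⊓ B : Subgroup G) : Set G) := by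
  refine sup_le (centralizer_le ?_) (centralizer_le ?_)
  · exact_mod_cast (inf_le_left : A ⊓ B ≤ A)
  · exact_mod_cast (inf_le_right : A ⊓ B ≤ B)

theorem le_cc (A : Subgroup G) : A ≤ centralizer ((centralizer (A : Set G) : Subgroup G) : Set G) := by
  intro x hx
  rw [mem_centralizer_iff]
  intro y hy
  exact (mem_centralizer_iff.1 hy x hx).symm

/-- the product formula -/
theorem card_mul (A B : Subgroup G) : Nat.card A * Nat.card B = Nat.card ((A : Set G) * (B : Set G) : Set G) * Nat.card (A ⊓ B : Subgroup G) :=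
  (Cfsg.Agent.Lib.Basic.card_mul_mul_card_inf A B).symm

/-- products inside the join -/
theorem card_prod_le (A B : Subgroup G) : Nat.card ((A : Set G) * (B : Set G) : Set G) ≤ Nat.card (A ⊔ B : Subgroup G) := by
  refine Nat.card_mono (Set.toFinite _) ?_
  rintro _ ⟨a, ha, b, hb, rfl⟩
  exact mul_mem (mem_sup_left ha) (mem_sup_right hb)

theorem submod (A B : Subgroup G) : ms A * ms B ≤ ms (A ⊔ B) * ms (A ⊓ B) := by
  have h1 := card_mul A B
  have h2 := card_mul (centralizer (A : Set G)) (centralizer (B : Set G))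
  have h3 := card_prod_le A B
  have h4 := card_prod_le (centralizer (A : Set G)) (centralizer (B : Set G))
  have h5 : Nat.card (centralizer (A : Set G) ⊔ centralizer (B : Set G) : Subgroup G) ≤ Nat.card (centralizer ((A ⊓ B : Subgroup G) : Set G)) :=
    Nat.card_mono (Set.toFinite _) (cen_inf A B)
  rw [← cen_sup] at h2
  unfold ms
  calc Nat.card A * Nat.card (centralizer (A : Set G)) * (Nat.card B * Nat.card (centralizer (B : Set G)))
      = (Nat.card A * Nat.card B) * (Nat.card (centralizer (A : Set G)) * Nat.card (centralizer (B : Set G))) := by ring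
    _ = (Nat.card ((A : Set G) * (B : Set G) : Set G) * Nat.card (A ⊓ B : Subgroup G)) *
        (Nat.card (((centralizer (A : Set G) : Subgroup G) : Set G) * ((centralizer (B : Set G) : Subgroup G) : Set G) : Set G) * Nat.card (centralizer ((A ⊔ B : Subgroup G) : Set G))) := by
          rw [h1, h2]
    _ ≤ (Nat.card (A ⊔ B : Subgroup G) * Nat.card (A ⊓ B : Subgroup G)) *
        (Nat.card (centralizer ((A ⊓ B : Subgroup G) : Set G)) * Nat.card (centralizer ((A ⊔ B : Subgroup G) : Set G))) := by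
          exact Nat.mul_le_mul (Nat.mul_le_mul_right _ h3) (Nat.mul_le_mul_right _ (h4.trans h5))
    _ = _ := by ring

theorem lattice (hQ : IsCentralizerLarge Q) (hR : IsCentralizerLarge R) :
    ((Q ⊔ R : Subgroup G) : Set G) = (Q : Set G) * (R : Set G) ∧ IsCentralizerLarge (Q ⊔ R) ∧ IsCentralizerLarge (Q ⊓ R) ∧
    ((centralizer (Q : Set G) ⊔ centralizer (R : Set G) : Subgroup G) : Set G) = (centralizer (Q : Set G) : Set G) * (centralizer (R : Set G) : Set G) ∧
    centralizer ((Q ⊓ R : Subgroup G) : Set G) = centralizer (Q : Set G) ⊔ centralizer (R : Set G) := by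
  rw [large_iff] at hQ hR
  have hsub := submod Q R
  have e0 : ms Q = ms R := le_antisymm (hR Q) (hQ R)
  have e1 : ms (Q ⊔ R) = ms Q := by
    apply le_antisymm (hQ _)
    by_contra hcon
    push Not at hcon
    have h1 : ms (Q ⊔ R) * ms (Q ⊓ R) < ms Q * ms R := by
      rw [← e0]
      exact lt_of_lt_of_le (Nat.mul_lt_mul_of_pos_right hcon (ms_pos _)) (Nat.mul_le_mul_left _ (hQ _))
    omega
  have e2 : ms (Q ⊓ R) = ms Q := by
    apply le_antisymm (hQ _)
    rw [e1, ← e0] at hsub
    exact Nat.le_of_mul_le_mul_left hsub (ms_pos Q)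
  have h1 := card_mul Q R
  have h2 := card_mul (centralizer (Q : Set G)) (centralizer (R : Set G))
  have h3 := card_prod_le Q R
  have h4 := card_prod_le (centralizer (Q : Set G)) (centralizer (R : Set G))
  have h5 : Nat.card (centralizer (Q : Set G) ⊔ centralizer (R : Set G) : Subgroup G) ≤ Nat.card (centralizer ((Q ⊓ R : Subgroup G) : Set G)) :=
    Nat.card_mono (Set.toFinite _) (cen_inf Q R)
  rw [← cen_sup] at h2
  obtain ⟨a, ha⟩ : ∃ a, a = Nat.card ((Q : Set G) * (R : Set G) : Set G) := ⟨_, rfl⟩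
  obtain ⟨a', ha'⟩ : ∃ a', a' = Nat.card (Q ⊔ R : Subgroup G) := ⟨_, rfl⟩
  obtain ⟨d, hd⟩ : ∃ d, d = Nat.card (Q ⊓ R : Subgroup G) := ⟨_, rfl⟩
  obtain ⟨b, hb⟩ : ∃ b, b = Nat.card (((centralizer (Q : Set G) : Subgroup G) : Set G) * ((centralizer (R : Set G) : Subgroup G) : Set G) : Set G) := ⟨_, rfl⟩
  obtain ⟨b'', hb''⟩ : ∃ b'', b'' = Nat.card (centralizer (Q : Set G) ⊔ centralizer (R : Set G) : Subgroup G) := ⟨_, rfl⟩
  obtain ⟨b', hb'⟩ : ∃ b', b' = Nat.card (centralizer ((Q ⊓ R : Subgroup G) : Set G)) := ⟨_, rfl⟩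
  obtain ⟨e, he⟩ : ∃ e, e = Nat.card (centralizer ((Q ⊔ R : Subgroup G) : Set G)) := ⟨_, rfl⟩
  have hdp : 0 < d := by rw [hd]; exact Nat.card_pos
  have hep : 0 < e := by rw [he]; exact Nat.card_pos
  have hap : 0 < a' := by rw [ha']; exact Nat.card_pos
  have hbp : 0 < b' := by rw [hb']; exact Nat.card_pos
  rw [← ha, ← hd] at h1
  rw [← hb, ← he] at h2
  rw [← ha, ← ha'] at h3
  rw [← hb, ← hb''] at h4
  rw [← hb'', ← hb'] at h5
  have e3 : (a' * e) * (d * b') = (a * d) * (b * e) := by
    have f1 : a' * e = ms Q := by rw [← e1, ha', he]; rfl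
    have f2 : d * b' = ms Q := by rw [← e2, hd, hb']; rfl
    rw [f1, f2, ← h1, ← h2]
    have f3 : ms Q * ms Q = ms Q * ms R := by rw [← e0]
    rw [f3]
    unfold ms
    ring
  have e4 : a' * b' = a * b := by
    apply Nat.eq_of_mul_eq_mul_left (Nat.mul_pos hdp hep)
    calc (d * e) * (a' * b') = (a' * e) * (d * b') := by ring
      _ = (a * d) * (b * e) := e3
      _ = _ := by ring
  have haa : a = a' := by
    apply le_antisymm h3
    by_contra hcon
    push Not at hcon
    have : a * b < a' * b' := lt_of_le_of_lt (Nat.mul_le_mul_left _ (h4.trans h5)) (Nat.mul_lt_mul_of_pos_right hcon hbp)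
    omega
  have hbb : b = b' := by
    rw [haa] at e4
    exact (Nat.eq_of_mul_eq_mul_left hap e4).symm
  have hb2 : b = b'' := le_antisymm h4 (by rw [hbb]; exact h5)
  have hsub1 : (Q : Set G) * (R : Set G) ⊆ ((Q ⊔ R : Subgroup G) : Set G) := by
    rintro _ ⟨a, ha, b, hb, rfl⟩
    exact mul_mem (mem_sup_left ha) (mem_sup_right hb)
  have hsub2 : ((centralizer (Q : Set G) : Subgroup G) : Set G) * ((centralizer (R : Set G) : Subgroup G) : Set G) ⊆
      ((centralizer (Q : Set G) ⊔ centralizer (R : Set G) : Subgroup G) : Set G) := by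
    rintro _ ⟨a, ha, b, hb, rfl⟩
    exact mul_mem (mem_sup_left ha) (mem_sup_right hb)
  refine ⟨?_, ?_, ?_, ?_, ?_⟩
  · symm
    refine Set.eq_of_subset_of_ncard_le hsub1 ?_ (Set.toFinite _)
    rw [← Nat.card_coe_set_eq, ← Nat.card_coe_set_eq]
    show Nat.card (Q ⊔ R : Subgroup G) ≤ Nat.card ((Q : Set G) * (R : Set G) : Set G)
    rw [← ha, ← ha', haa]
  · rw [large_iff]; intro A; rw [e1]; exact hQ A
  · rw [large_iff]; intro A; rw [e2]; exact hQ A
  · symm
    refine Set.eq_of_subset_of_ncard_le hsub2 ?_ (Set.toFinite _)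
    rw [← Nat.card_coe_set_eq, ← Nat.card_coe_set_eq]
    show Nat.card (centralizer (Q : Set G) ⊔ centralizer (R : Set G) : Subgroup G) ≤
      Nat.card (((centralizer (Q : Set G) : Subgroup G) : Set G) * ((centralizer (R : Set G) : Subgroup G) : Set G) : Set G)
    rw [← hb, ← hb'', hb2]
  · symm
    refine eq_of_le_of_card_ge (cen_inf Q R) ?_
    rw [← hb', ← hb'', ← hb2, hbb]

theorem cen_large (hQ : IsCentralizerLarge Q) : IsCentralizerLarge (centralizer (Q : Set G)) ∧
    Q = centralizer ((centralizer (Q : Set G) : Subgroup G) : Set G) := by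
  have hQ' := large_iff.1 hQ
  have h1 : Nat.card Q ≤ Nat.card (centralizer ((centralizer (Q : Set G) : Subgroup G) : Set G)) := Nat.card_mono (Set.toFinite _) (le_cc Q)
  have h2 : ms Q ≤ ms (centralizer (Q : Set G)) := by
    unfold ms
    rw [mul_comm]
    exact Nat.mul_le_mul_left _ h1
  have h3 := hQ' (centralizer (Q : Set G))
  refine ⟨large_iff.2 fun A => (hQ' A).trans h2, ?_⟩
  refine eq_of_le_of_card_ge (le_cc Q) ?_
  have h4 : Nat.card (centralizer (Q : Set G)) * Nat.card (centralizer ((centralizer (Q : Set G) : Subgroup G) : Set G)) ≤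
      Nat.card (centralizer (Q : Set G)) * Nat.card Q := by
    rw [mul_comm _ (Nat.card Q)]; exact h3
  exact Nat.le_of_mul_le_mul_left h4 Nat.card_pos

/-- the centre -/
theorem card_center (R : Subgroup G) : Nat.card (center R) = Nat.card (R ⊓ centralizer (R : Set G) : Subgroup G) := by
  have e1 : Nat.card ((center R).map R.subtype) = Nat.card (center R) := card_map_of_injective R.subtype_injective
  rw [← e1]
  congr 2
  ext x
  constructor
  · rintro ⟨y, hy, rfl⟩
    refine ⟨y.2, mem_centralizer_iff.2 fun z hz => ?_⟩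
    exact congrArg Subtype.val (mem_center_iff.1 hy ⟨z, hz⟩)
  · rintro ⟨hx, hc⟩
    refine ⟨⟨x, hx⟩, mem_center_iff.2 fun z => Subtype.ext (mem_centralizer_iff.1 hc z z.2), rfl⟩

theorem exists_large (G : Type u) [Group G] [Finite G] : ∃ Q : Subgroup G, IsCentralizerLarge Q := by
  obtain ⟨Q, hQ⟩ := Finite.exists_max (fun Q : Subgroup G => ms Q)
  exact ⟨Q, large_iff.2 hQ⟩

theorem prod_center_le (R : Subgroup G) : Nat.card R * Nat.card (center R) ≤ maxCentralizerProduct G := by
  obtain ⟨Q, hQ⟩ := exists_large G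
  have h1 : maxCentralizerProduct G = ms Q := hQ.symm
  rw [h1]
  refine le_trans ?_ (large_iff.1 hQ R)
  refine Nat.mul_le_mul_left _ ?_
  rw [card_center]
  exact Nat.card_mono (Set.toFinite _) inf_le_right

theorem exists_cl (G : Type u) [Group G] [Finite G] : ∃ R : Subgroup G, Nat.card R * Nat.card (center R) = maxCentralizerProduct G := by
  obtain ⟨Q, hQ⟩ := exists_large G
  obtain ⟨h1, h2⟩ := cen_large hQ
  obtain ⟨_, h3, _, _, _⟩ := lattice hQ h1
  refine ⟨Q ⊔ centralizer (Q : Set G), ?_⟩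
  have h4 : centralizer ((Q ⊔ centralizer (Q : Set G) : Subgroup G) : Set G) = centralizer (Q : Set G) ⊓ Q := by
    rw [cen_sup, ← h2]
  have h5 : ((Q ⊔ centralizer (Q : Set G)) ⊓ centralizer ((Q ⊔ centralizer (Q : Set G) : Subgroup G) : Set G) : Subgroup G) =
      centralizer ((Q ⊔ centralizer (Q : Set G) : Subgroup G) : Set G) := by
    rw [inf_eq_right, h4]
    exact inf_le_right.trans le_sup_left
  rw [card_center, ← h3, h5]

theorem max_eq (G : Type u) [Group G] [Finite G] : maxCentralProduct G = maxCentralizerProduct G := by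
  unfold maxCentralProduct
  have hb : BddAbove {k : ℕ | ∃ R : Subgroup G, Nat.card ↥R * Nat.card ↥(Subgroup.center ↥R) = k} := by
    refine ⟨maxCentralizerProduct G, ?_⟩
    rintro _ ⟨R, rfl⟩
    exact prod_center_le R
  obtain ⟨R, hR⟩ := exists_cl G
  apply le_antisymm
  · refine csSup_le ⟨_, R, rfl⟩ ?_
    rintro _ ⟨A, rfl⟩
    exact prod_center_le A
  · rw [← hR]
    exact le_csSup hb ⟨R, rfl⟩

theorem cl_iff : IsCentrallyLarge Q ↔ IsCentralizerLarge Q ∧ centralizer (Q : Set G) ≤ Q := by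
  unfold IsCentrallyLarge
  rw [max_eq]
  constructor
  · intro h
    obtain ⟨R, hR⟩ := exists_large G
    have h1 : maxCentralizerProduct G = ms R := hR.symm
    have h2 : ms Q ≤ maxCentralizerProduct G := by rw [h1]; exact large_iff.1 hR Q
    have h3 : Nat.card Q * Nat.card (center Q) ≤ ms Q := by
      refine Nat.mul_le_mul_left _ ?_
      rw [card_center]; exact Nat.card_mono (Set.toFinite _) inf_le_right
    have h4 : ms Q = maxCentralizerProduct G := le_antisymm h2 (by rw [← h]; exact h3)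
    refine ⟨h4, ?_⟩
    have h5 : Nat.card Q * Nat.card (centralizer (Q : Set G)) = Nat.card Q * Nat.card (center Q) := by
      rw [h]; exact h4
    have h6 := Nat.eq_of_mul_eq_mul_left Nat.card_pos h5
    rw [card_center] at h6
    have h7 : (Q ⊓ centralizer (Q : Set G) : Subgroup G) = centralizer (Q : Set G) := eq_of_le_of_card_ge inf_le_right h6.le
    rw [← h7]; exact inf_le_left
  · rintro ⟨h1, h2⟩
    rw [card_center, inf_eq_right.2 h2]
    exact h1

theorem cl_sup (hQ : IsCentrallyLarge Q) (hR : IsCentrallyLarge R) : IsCentrallyLarge (Q ⊔ R) := by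
  rw [cl_iff] at hQ hR ⊢
  obtain ⟨_, h1, _⟩ := lattice hQ.1 hR.1
  refine ⟨h1, ?_⟩
  rw [cen_sup]
  exact (inf_le_left.trans hQ.2).trans le_sup_left

theorem cl_sSup {𝒮 : Set (Subgroup G)} (hne : 𝒮.Nonempty) (h : ∀ R ∈ 𝒮, IsCentrallyLarge R) : IsCentrallyLarge (sSup 𝒮) := by
  obtain ⟨R₀, hR₀⟩ := hne
  obtain ⟨T, ⟨hT1, hT2⟩, hmax⟩ := (Set.toFinite {T : Subgroup G | IsCentrallyLarge T ∧ T ≤ sSup 𝒮}).exists_maximal ⟨R₀, h R₀ hR₀, le_sSup hR₀⟩
  have h1 : sSup 𝒮 ≤ T := by
    refine sSup_le fun R hR => ?_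
    have h2 := hmax ⟨cl_sup hT1 (h R hR), sup_le hT2 (le_sSup hR)⟩ le_sup_left
    exact le_sup_right.trans h2
  rw [le_antisymm h1 hT2]
  exact hT1

end Cfsg.Agent.Lib.ChDel
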