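import Cfsg.Agent.Lib.ChDel

/-!
Centrally large subgroups and abelian subgroups of largest order.
-/

set_option autoImplicit false
set_option linter.unusedSectionVars false
set_option linter.style.haveILetI false
set_option linter.unusedVariables false

namespace Cfsg.Agent.Lib.ChDelB

open Cfsg Subgroup Cfsg.Agent.Lib.ChDel
open scoped Pointwise commutatorElement

universe u

variable {G : Type u} [Group G] [Finite G] {Q R A B D Z S : Subgroup G}

theorem ab_iff : IsMulCommutative A ↔ A ≤ centralizer (A : Set G) := (Subgroup.le_centralizer_iff_isMulCommutative (K := A)).symm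

theorem le_cen_comm (h : A ≤ centralizer (B : Set G)) : B ≤ centralizer (A : Set G) := by
  intro b hb
  rw [mem_centralizer_iff]
  intro a ha
  exact (mem_centralizer_iff.1 (h ha) b hb).symm

theorem ab_sup (hA : A ≤ centralizer (A : Set G)) (hB : B ≤ centralizer (B : Set G)) (hAB : A ≤ centralizer (B : Set G)) :
    A ⊔ B ≤ centralizer ((A ⊔ B : Subgroup G) : Set G) := by
  rw [cen_sup]
  exact le_inf (sup_le hA (le_cen_comm hAB)) (sup_le hAB hB)

theorem cen_maxAb (hA : A ∈ maxAbelianSubgroups G) : centralizer (A : Set G) = A := by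
  obtain ⟨h1, h2⟩ := hA
  rw [ab_iff] at h1
  refine le_antisymm (fun x hx => ?_) h1
  have h3 : zpowers x ≤ centralizer (A : Set G) := by rw [zpowers_le]; exact hx
  have h4 : zpowers x ≤ centralizer ((zpowers x : Subgroup G) : Set G) := ab_iff.1 inferInstance
  have h5 := h2 (zpowers x ⊔ A) (ab_iff.2 (ab_sup h4 h1 h3))
  have h6 : A = zpowers x ⊔ A := eq_of_le_of_card_ge le_sup_right h5
  rw [h6]
  exact mem_sup_left (mem_zpowers x)

theorem card_sup_comm (h : A ≤ centralizer (B : Set G)) : Nat.card (A ⊔ B : Subgroup G) * Nat.card (A ⊓ B : Subgroup G) = Nat.card A * Nat.card B :=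
  Cfsg.Agent.Lib.Basic.card_sup_mul_card_inf ((le_cen_comm h).trans (centralizer_le_normalizer (A : Set G)))

theorem cl_abelian (hQ : IsCentrallyLarge Q) (hA : A ∈ maxAbelianSubgroups G) :
    ((Q ⊔ A : Subgroup G) : Set G) = (Q : Set G) * (A : Set G) ∧ IsCentrallyLarge (Q ⊔ A) ∧
    (Q ⊔ A) ⊓ centralizer ((Q ⊓ A : Subgroup G) : Set G) = (Q ⊓ centralizer (Q : Set G)) ⊔ A ∧
    (((Q ⊓ centralizer (Q : Set G)) ⊔ A : Subgroup G) : Set G) = ((Q ⊓ centralizer (Q : Set G) : Subgroup G) : Set G) * (A : Set G) := by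
  obtain ⟨hQl, hQc⟩ := cl_iff.1 hQ
  have hAc := cen_maxAb hA
  have hAab := hA
  obtain ⟨hAab, hAmax⟩ := hAab
  rw [ab_iff] at hAab
  obtain ⟨D, hD⟩ : ∃ D, D = Q ⊓ A := ⟨_, rfl⟩
  obtain ⟨Z, hZ⟩ : ∃ Z, Z = Q ⊓ centralizer (Q : Set G) := ⟨_, rfl⟩
  rw [← hD, ← hZ]
  have hZc : centralizer (Q : Set G) = Z := by rw [hZ, inf_eq_right.2 hQc]
  have hZQ : Z ≤ Q := by rw [hZ]; exact inf_le_left
  have hDQ : D ≤ Q := by rw [hD]; exact inf_le_left
  have hDA : D ≤ A := by rw [hD]; exact inf_le_right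
  have hZD : Z ≤ centralizer (D : Set G) := by rw [← hZc]; exact centralizer_le (by exact_mod_cast hDQ)
  have hDZ : D ≤ centralizer (Z : Set G) := le_cen_comm hZD
  have hDab : D ≤ centralizer (D : Set G) := (hDA.trans hAab).trans (centralizer_le (by exact_mod_cast hDA))
  have hZab : Z ≤ centralizer (Z : Set G) := by
    conv_lhs => rw [← hZc]
    exact centralizer_le (by exact_mod_cast hZQ)
  have hstar := ab_sup hDab hZab hDZ
  have h1 := card_sup_comm hDZ
  have h2 : Nat.card (D ⊔ Z : Subgroup G) ≤ Nat.card A := hAmax _ (ab_iff.2 hstar)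
  have h3 := card_mul Q A
  rw [← hD] at h3
  have h4 := card_prod_le Q A
  have h5 : centralizer ((Q ⊔ A : Subgroup G) : Set G) = D ⊓ Z := by
    rw [cen_sup, hZc, hAc, hD, hZ]
    apply le_antisymm
    · exact le_inf (le_inf (inf_le_left.trans inf_le_left) inf_le_right) inf_le_left
    · exact le_inf inf_le_right (inf_le_left.trans inf_le_right)
  have h6 : ms (Q ⊔ A) ≤ ms Q := large_iff.1 hQl _
  have h7 : ms (Q ⊔ A) = Nat.card (Q ⊔ A : Subgroup G) * Nat.card (D ⊓ Z : Subgroup G) := by unfold ms; rw [h5]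
  have h8 : ms Q = Nat.card Q * Nat.card Z := by unfold ms; rw [hZc]
  obtain ⟨q, hq⟩ : ∃ q, q = Nat.card Q := ⟨_, rfl⟩
  obtain ⟨a, ha⟩ : ∃ a, a = Nat.card A := ⟨_, rfl⟩
  obtain ⟨d, hd⟩ : ∃ d, d = Nat.card D := ⟨_, rfl⟩
  obtain ⟨z, hz⟩ : ∃ z, z = Nat.card Z := ⟨_, rfl⟩
  obtain ⟨i, hi⟩ : ∃ i, i = Nat.card (D ⊓ Z : Subgroup G) := ⟨_, rfl⟩
  obtain ⟨s, hs⟩ : ∃ s, s = Nat.card (D ⊔ Z : Subgroup G) := ⟨_, rfl⟩
  obtain ⟨x, hx⟩ : ∃ x, x = Nat.card ((Q : Set G) * (A : Set G) : Set G) := ⟨_, rfl⟩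
  obtain ⟨y, hy⟩ : ∃ y, y = Nat.card (Q ⊔ A : Subgroup G) := ⟨_, rfl⟩
  have dp : 0 < d := by rw [hd]; exact Nat.card_pos
  have ip : 0 < i := by rw [hi]; exact Nat.card_pos
  have qp : 0 < q := by rw [hq]; exact Nat.card_pos
  rw [← hs, ← hi, ← hd, ← hz] at h1
  rw [← hs, ← ha] at h2
  rw [← hq, ← ha, ← hx, ← hd] at h3
  rw [← hx, ← hy] at h4
  rw [← hy, ← hi] at h7
  rw [← hq, ← hz] at h8
  -- q z ≤ x i
  have h9 : q * z ≤ x * i := by
    apply Nat.le_of_mul_le_mul_left _ dp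
    calc d * (q * z) = q * (d * z) := by ring
      _ = q * (s * i) := by rw [h1]
      _ ≤ q * (a * i) := Nat.mul_le_mul_left _ (Nat.mul_le_mul_right _ h2)
      _ = (q * a) * i := by ring
      _ = (x * d) * i := by rw [h3]
      _ = d * (x * i) := by ring
  have h10 : y * i ≤ q * z := by rw [← h7, ← h8]; exact h6
  have hxy : x = y := by
    apply le_antisymm h4
    exact Nat.le_of_mul_le_mul_right (h10.trans h9) ip
  have hsa : s = a := by
    apply le_antisymm h2
    have h11 : q * z = x * i := le_antisymm h9 (by rw [hxy]; exact h10)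
    have h12 : q * (a * i) = q * (s * i) := by
      calc q * (a * i) = (q * a) * i := by ring
        _ = (x * d) * i := by rw [h3]
        _ = d * (x * i) := by ring
        _ = d * (q * z) := by rw [h11]
        _ = q * (d * z) := by ring
        _ = q * (s * i) := by rw [h1]
    exact (Nat.eq_of_mul_eq_mul_right ip (Nat.eq_of_mul_eq_mul_left qp h12)).le
  have hset : ((Q ⊔ A : Subgroup G) : Set G) = (Q : Set G) * (A : Set G) := by
    symm
    refine Set.eq_of_subset_of_ncard_le ?_ ?_ (Set.toFinite _)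
    · rintro _ ⟨a, ha, b, hb, rfl⟩
      exact mul_mem (mem_sup_left ha) (mem_sup_right hb)
    · rw [← Nat.card_coe_set_eq, ← Nat.card_coe_set_eq]
      show Nat.card (Q ⊔ A : Subgroup G) ≤ Nat.card ((Q : Set G) * (A : Set G) : Set G)
      rw [← hx, ← hy, hxy]
  have hms : ms (Q ⊔ A) = ms Q := by
    apply le_antisymm h6
    rw [h7, h8, ← hxy]; exact h9
  have hcl : IsCentrallyLarge (Q ⊔ A) := by
    rw [cl_iff, large_iff]
    refine ⟨fun B => by rw [hms]; exact large_iff.1 hQl B, ?_⟩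
    rw [h5]; exact (inf_le_left.trans hDQ).trans le_sup_left
  have hstarm : (D ⊔ Z) ∈ maxAbelianSubgroups G := by
    refine ⟨ab_iff.2 hstar, fun B hB => ?_⟩
    rw [← hs, hsa, ha]; exact hAmax B hB
  have hstarc := cen_maxAb hstarm
  have hsub : (((Q ⊔ A) ⊓ centralizer (D : Set G) : Subgroup G) : Set G) ⊆ (Z : Set G) * (A : Set G) := by
    rintro w ⟨hw1, hw2⟩
    have hw1' : w ∈ ((Q ⊔ A : Subgroup G) : Set G) := hw1
    rw [hset] at hw1'
    obtain ⟨q, hq, a, ha, rfl⟩ := hw1'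
    have haD : a ∈ centralizer (D : Set G) := (hAab.trans (centralizer_le (by exact_mod_cast hDA))) ha
    have hqD : q ∈ centralizer (D : Set G) := by
      have h13 := (centralizer (D : Set G)).mul_mem hw2 ((centralizer (D : Set G)).inv_mem haD)
      rwa [mul_inv_cancel_right] at h13
    have hqZ : q ∈ centralizer (Z : Set G) := by
      rw [mem_centralizer_iff]
      intro z hz
      have hz' : z ∈ centralizer (Q : Set G) := by rw [hZc]; exact hz
      exact (mem_centralizer_iff.1 hz' q hq).symm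
    have h14 : q ∈ centralizer ((D ⊔ Z : Subgroup G) : Set G) := by rw [cen_sup]; exact ⟨hqD, hqZ⟩
    rw [hstarc, Cfsg.Agent.Lib.Basic.mem_sup_iff_left (hZD.trans (centralizer_le_normalizer (D : Set G)))] at h14
    obtain ⟨d, hd, z, hz, rfl⟩ := h14
    have h15 : d * z = z * d := mem_centralizer_iff.1 (hZD hz) d hd
    exact ⟨z, hz, d * a, mul_mem (hDA hd) ha, by show z * (d * a) = d * z * a; rw [h15, mul_assoc]⟩
  have hsub2 : (Z : Set G) * (A : Set G) ⊆ ((Z ⊔ A : Subgroup G) : Set G) := by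
    rintro _ ⟨a, ha, b, hb, rfl⟩
    exact mul_mem (mem_sup_left ha) (mem_sup_right hb)
  have hsub3 : Z ⊔ A ≤ (Q ⊔ A) ⊓ centralizer (D : Set G) := by
    refine le_inf (sup_le_sup_right hZQ A) (sup_le hZD (hAab.trans (centralizer_le (by exact_mod_cast hDA))))
  refine ⟨hset, hcl, le_antisymm ?_ hsub3, Set.Subset.antisymm ?_ hsub2⟩
  · intro w hw
    exact hsub2 (hsub hw)
  · intro w hw
    exact hsub (hsub3 hw)

theorem cl_join (P : Type u) [Group P] [Finite P] : IsCentrallyLarge (centrallyLargeJoin P) := by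
  refine cl_sSup ?_ (fun R hR => hR)
  obtain ⟨R, hR⟩ := exists_cl P
  exact ⟨R, by rw [← max_eq] at hR; exact hR⟩

theorem exists_maxAb (P : Type u) [Group P] [Finite P] : ∃ A, A ∈ maxAbelianSubgroups P := by
  obtain ⟨A, hA, hmax⟩ := Set.exists_max_image {A : Subgroup P | IsMulCommutative A} (fun A => Nat.card A) (Set.toFinite _)
    ⟨⊥, ab_iff.2 bot_le⟩
  exact ⟨A, hA, fun B hB => hmax B hB⟩

theorem cJ_le {T : Subgroup G} (hT : IsCentrallyLarge T) (hJ : thompsonSubgroupA G ≤ T) :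
    centralizer ((thompsonSubgroupA G ⊓ centralizer (thompsonSubgroupA G : Set G) : Subgroup G) : Set G) ≤ T := by
  obtain ⟨h1, h2⟩ := cl_iff.1 hT
  have h3 := (cen_large h1).2
  conv_rhs => rw [h3]
  apply centralizer_le
  have h4 : centralizer (T : Set G) ≤ thompsonSubgroupA G ⊓ centralizer (thompsonSubgroupA G : Set G) := by
    have h5 : centralizer (T : Set G) ≤ centralizer (thompsonSubgroupA G : Set G) := centralizer_le (by exact_mod_cast hJ)
    refine le_inf ?_ h5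
    obtain ⟨A, hA⟩ := exists_maxAb G
    have h6 : A ≤ thompsonSubgroupA G := le_sSup hA
    calc centralizer (T : Set G) ≤ centralizer (thompsonSubgroupA G : Set G) := h5
      _ ≤ centralizer (A : Set G) := centralizer_le (by exact_mod_cast h6)
      _ = A := cen_maxAb hA
      _ ≤ _ := h6
  exact_mod_cast h4

theorem cen_le_join : centralizer ((thompsonSubgroupA G ⊓ centralizer (thompsonSubgroupA G : Set G) : Subgroup G) : Set G) ≤ centrallyLargeJoin G := by
  refine cJ_le (cl_join G) ?_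
  refine sSup_le fun A hA => ?_
  have h1 := (cl_abelian (cl_join G) hA).2.1
  exact le_sup_right.trans (le_sSup (a := centrallyLargeJoin G ⊔ A) h1)

theorem exists_min (hQ : IsCentrallyLarge Q) : ∃ M ≤ Q, IsMinimalCentrallyLarge M := by
  obtain ⟨M, hM1, hM2⟩ := (Set.toFinite {M : Subgroup G | IsCentrallyLarge M ∧ M ≤ Q}).exists_minimal ⟨Q, hQ, le_rfl⟩
  exact ⟨M, hM1.2, hM1.1, fun R' h1 h2 => le_antisymm h1 (hM2 ⟨h2, h1.trans hM1.2⟩ h1)⟩

theorem min_decomp (hQ : IsMinimalCentrallyLarge Q) (hR : IsCentrallyLarge R) : (Q ⊓ R) ⊔ centralizer (Q : Set G) = Q := by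
  obtain ⟨hQl, hQc⟩ := cl_iff.1 hQ.1
  obtain ⟨hRl, hRc⟩ := cl_iff.1 hR
  obtain ⟨_, _, h3, h4, h5⟩ := lattice hQl hRl
  obtain ⟨h6, h7⟩ := cen_large hQl
  obtain ⟨_, h8, _⟩ := lattice h3 h6
  apply hQ.2
  · exact sup_le inf_le_left hQc
  · rw [cl_iff]
    refine ⟨h8, ?_⟩
    rw [cen_sup, ← h7, h5]
    rintro w ⟨hw1, hw2⟩
    have hw1' : w ∈ ((centralizer (Q : Set G) ⊔ centralizer (R : Set G) : Subgroup G) : Set G) := hw1
    rw [h4] at hw1'
    obtain ⟨z, hz, z', hz', rfl⟩ := hw1'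
    have h9 : z' ∈ Q := by
      have := mul_mem (inv_mem (hQc hz)) hw2
      rwa [inv_mul_cancel_left] at this
    exact mul_mem (mem_sup_right hz) (mem_sup_left ⟨h9, hRc hz'⟩)

theorem comm_eq (h : S ⊔ Z = Q) (hZ : Z ≤ centralizer (Q : Set G)) : ⁅Q, Q⁆ = ⁅S, S⁆ := by
  have hSQ : S ≤ Q := by rw [← h]; exact le_sup_left
  apply le_antisymm
  · rw [commutator_le]
    have hZS : Z ≤ centralizer (S : Set G) := hZ.trans (centralizer_le (by exact_mod_cast hSQ))
    have hdec : ∀ g ∈ Q, ∃ s ∈ S, ∃ z ∈ Z, g = s * z := by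
      intro g hg
      rw [← h, Cfsg.Agent.Lib.Basic.mem_sup_iff_left (hZS.trans (centralizer_le_normalizer (S : Set G)))] at hg
      obtain ⟨s, hs, z, hz, e⟩ := hg
      exact ⟨s, hs, z, hz, e.symm⟩
    intro g hg k hk
    obtain ⟨s, hs, z, hz, rfl⟩ := hdec g hg
    obtain ⟨s', hs', z', hz', rfl⟩ := hdec k hk
    have h1 : (s' * z') * z = z * (s' * z') := mem_centralizer_iff.1 (hZ hz) _ hk
    have h2 : s * z' = z' * s := mem_centralizer_iff.1 (hZ hz') _ (hSQ hs)
    have h3 : ⁅s * z, s' * z'⁆ = ⁅s, s'⁆ := by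
      rw [commutatorElement_def, commutatorElement_def]
      calc s * z * (s' * z') * (s * z)⁻¹ * (s' * z')⁻¹ = s * (z * (s' * z')) * z⁻¹ * s⁻¹ * (s' * z')⁻¹ := by group
        _ = s * ((s' * z') * z) * z⁻¹ * s⁻¹ * (s' * z')⁻¹ := by rw [h1]
        _ = s * s' * z' * s⁻¹ * z'⁻¹ * s'⁻¹ := by group
        _ = s * s' * s⁻¹ * (s * z') * s⁻¹ * z'⁻¹ * s'⁻¹ := by group
        _ = s * s' * s⁻¹ * (z' * s) * s⁻¹ * z'⁻¹ * s'⁻¹ := by rw [h2]
        _ = _ := by group
    rw [h3]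
    exact commutator_mem_commutator hs hs'
  · exact commutator_mono hSQ hSQ

theorem min_card (hQ : IsMinimalCentrallyLarge Q) (hR : IsMinimalCentrallyLarge R) :
    ⁅Q, Q⁆ = ⁅R, R⁆ ∧ Nat.card Q = Nat.card R ∧ Nat.card (centralizer (Q : Set G)) = Nat.card (centralizer (R : Set G)) := by
  obtain ⟨hQl, hQc⟩ := cl_iff.1 hQ.1
  obtain ⟨hRl, hRc⟩ := cl_iff.1 hR.1
  have h1 := min_decomp hQ hR.1
  have h2 := min_decomp hR hQ.1
  rw [inf_comm] at h2
  have c1 := comm_eq h1 le_rfl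
  have c2 := comm_eq h2 le_rfl
  refine ⟨by rw [c1, c2], ?_⟩
  obtain ⟨S, hS⟩ : ∃ S, S = Q ⊓ R := ⟨_, rfl⟩
  rw [← hS] at h1 h2
  have hSQ : S ≤ Q := by rw [hS]; exact inf_le_left
  have hSR : S ≤ R := by rw [hS]; exact inf_le_right
  have key : ∀ Q : Subgroup G, S ≤ Q → centralizer (Q : Set G) ≤ Q → S ⊔ centralizer (Q : Set G) = Q →
      S ⊓ centralizer (Q : Set G) = S ⊓ centralizer (S : Set G) ∧
      Nat.card Q * Nat.card (S ⊓ centralizer (S : Set G) : Subgroup G) = Nat.card S * Nat.card (centralizer (Q : Set G)) := by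
    intro Q hSQ hQc h1
    have e1 : S ⊓ centralizer (Q : Set G) = S ⊓ centralizer (S : Set G) := by
      apply le_antisymm
      · exact inf_le_inf_left _ (centralizer_le (by exact_mod_cast hSQ))
      · rintro x ⟨hx1, hx2⟩
        refine ⟨hx1, ?_⟩
        have h3 : x ∈ centralizer ((S ⊔ centralizer (Q : Set G) : Subgroup G) : Set G) := by
          rw [cen_sup]
          refine ⟨hx2, mem_centralizer_iff.2 fun z hz => ?_⟩
          exact (mem_centralizer_iff.1 hz x (hSQ hx1)).symm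
        rwa [h1] at h3
    refine ⟨e1, ?_⟩
    have e2 := card_sup_comm (A := S) (B := centralizer (Q : Set G)) (le_cen_comm (centralizer_le (by exact_mod_cast hSQ)))
    rw [h1, e1] at e2
    exact e2
  obtain ⟨_, k1⟩ := key Q hSQ hQc h1
  obtain ⟨_, k2⟩ := key R hSR hRc h2
  have e0 : ms Q = ms R := le_antisymm (large_iff.1 hRl Q) (large_iff.1 hQl R)
  have e0' : Nat.card Q * Nat.card (centralizer (Q : Set G)) = Nat.card R * Nat.card (centralizer (R : Set G)) := e0
  obtain ⟨q, hq⟩ : ∃ q, q = Nat.card Q := ⟨_, rfl⟩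
  obtain ⟨r, hr⟩ : ∃ r, r = Nat.card R := ⟨_, rfl⟩
  obtain ⟨s, hs⟩ : ∃ s, s = Nat.card S := ⟨_, rfl⟩
  obtain ⟨z, hz⟩ : ∃ z, z = Nat.card (centralizer (Q : Set G)) := ⟨_, rfl⟩
  obtain ⟨z', hz'⟩ : ∃ z', z' = Nat.card (centralizer (R : Set G)) := ⟨_, rfl⟩
  obtain ⟨k, hk⟩ : ∃ k, k = Nat.card (S ⊓ centralizer (S : Set G) : Subgroup G) := ⟨_, rfl⟩
  have qp : 0 < q := by rw [hq]; exact Nat.card_pos
  have rp : 0 < r := by rw [hr]; exact Nat.card_pos
  have sp : 0 < s := by rw [hs]; exact Nat.card_pos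
  have zp : 0 < z := by rw [hz]; exact Nat.card_pos
  have zp' : 0 < z' := by rw [hz']; exact Nat.card_pos
  have kp : 0 < k := by rw [hk]; exact Nat.card_pos
  rw [← hk, ← hs, ← hq, ← hz] at k1
  rw [← hk, ← hs, ← hr, ← hz'] at k2
  rw [← hq, ← hr, ← hz, ← hz'] at e0' ⊢
  -- q k = s z, r k = s z', q z = r z'
  have f1 : q * z' = r * z := by
    apply Nat.eq_of_mul_eq_mul_left (Nat.mul_pos kp sp)
    calc k * s * (q * z') = (q * k) * (s * z') := by ring
      _ = (s * z) * (r * k) := by rw [k1, k2]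
      _ = k * s * (r * z) := by ring
  have f2 : q * q = r * r := by
    apply Nat.eq_of_mul_eq_mul_left (Nat.mul_pos zp zp')
    calc z * z' * (q * q) = (q * z) * (q * z') := by ring
      _ = (r * z') * (r * z) := by rw [e0', f1]
      _ = z * z' * (r * r) := by ring
  have f3 : q = r := Nat.mul_self_inj.1 f2
  refine ⟨f3, ?_⟩
  rw [f3] at e0'
  exact Nat.eq_of_mul_eq_mul_left rp e0'

theorem min_abelian (hQ : IsMinimalCentrallyLarge Q) (hab : Q ≤ centralizer (Q : Set G)) (X : Subgroup G) :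
    IsMinimalCentrallyLarge X ↔ X ∈ maxAbelianSubgroups G := by
  obtain ⟨hQl, hQc⟩ := cl_iff.1 hQ.1
  have hcQ : centralizer (Q : Set G) = Q := le_antisymm hQc hab
  have hle : ∀ B : Subgroup G, IsMulCommutative B → Nat.card B ≤ Nat.card Q := by
    intro B hB
    rw [ab_iff] at hB
    have h1 : ms B ≤ ms Q := large_iff.1 hQl B
    have h2 : Nat.card B * Nat.card B ≤ Nat.card Q * Nat.card Q := by
      calc Nat.card B * Nat.card B ≤ ms B := Nat.mul_le_mul_left _ (Nat.card_mono (Set.toFinite _) hB)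
        _ ≤ ms Q := h1
        _ = Nat.card Q * Nat.card Q := by unfold ms; rw [hcQ]
    exact Nat.mul_self_le_mul_self_iff.1 h2
  have hQb : ⁅Q, Q⁆ = ⊥ := commutator_eq_bot_iff_le_centralizer.2 hab
  constructor
  · intro hX
    obtain ⟨h1, h2, _⟩ := min_card hX hQ
    refine ⟨ab_iff.2 (commutator_eq_bot_iff_le_centralizer.1 (by rw [h1, hQb])), fun B hB => ?_⟩
    rw [h2]; exact hle B hB
  · intro hX
    have hXc := cen_maxAb hX
    have hXQ : Nat.card X = Nat.card Q := le_antisymm (hle X hX.1) (hX.2 Q (ab_iff.2 hab))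
    have hms : ms X = ms Q := by unfold ms; rw [hXc, hcQ, hXQ]
    refine ⟨cl_iff.2 ⟨large_iff.2 fun B => by rw [hms]; exact large_iff.1 hQl B, hXc.le⟩, fun R' h1 h2 => ?_⟩
    obtain ⟨M, hM1, hM2⟩ := exists_min h2
    have h3 := (min_card hM2 hQ).2.1
    have h4 : M = X := eq_of_le_of_card_ge (hM1.trans h1) (by rw [h3, hXQ])
    exact le_antisymm h1 (by rw [← h4]; exact hM1)

end Cfsg.Agent.Lib.ChDelB
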