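import Cfsg.Agent.Lib.CharCoC
import Cfsg.Agent.Lib.CharExt
import Cfsg.Agent.Lib.CharKer

set_option autoImplicit false

/-!
# Invariant characters above an invariant character: coprime layers
-/

namespace Cfsg.Agent.Lib.CharCoD

open Cfsg Cfsg.Agent.Lib.CharBasic Cfsg.Agent.Lib.CharNormal Cfsg.Agent.Lib.CharClifford
open Cfsg.Agent.Lib.CharThompson Cfsg.Agent.Lib.CharGC Cfsg.Agent.Lib.CharCo
open Cfsg.Agent.Lib.CharCoB Cfsg.Agent.Lib.CharCoC Cfsg.Agent.Lib.CharLin Cfsg.Agent.Lib.CharExt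
open scoped ComplexConjugate

noncomputable section

theorem relIndex_coprime_of_pow {Γ : Type*} [Group Γ] [Finite Γ] {H K : Subgroup Γ}
    [hn : (H.subgroupOf K).Normal] {n m : ℕ} (hpow : ∀ x ∈ K, x ^ n ∈ H) (hc : Nat.Coprime n m) :
    Nat.Coprime (H.relIndex K) m := by
  by_contra hcon
  obtain ⟨q, hq, hq1, hq2⟩ := Nat.Prime.not_coprime_iff_dvd.mp hcon
  haveI := Fact.mk hq
  have h1 : q ∣ Nat.card (K ⧸ H.subgroupOf K) := hq1
  obtain ⟨x, hx⟩ := exists_prime_orderOf_dvd_card' q h1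
  obtain ⟨y, rfl⟩ := QuotientGroup.mk_surjective x
  have h2 : (y : K ⧸ H.subgroupOf K) ^ n = 1 := by
    rw [← QuotientGroup.mk_pow, QuotientGroup.eq_one_iff, Subgroup.mem_subgroupOf]
    exact hpow y y.2
  have h3 : q ∣ n := by
    rw [← hx]
    exact orderOf_dvd_of_pow_eq_one h2
  have h4 := Nat.dvd_gcd h3 hq2
  rw [Nat.coprime_iff_gcd_eq_one.mp hc] at h4
  exact hq.one_lt.ne' (Nat.dvd_one.mp h4)

theorem card_coprime_of_pow {Γ : Type*} [Group Γ] [Finite Γ] {K : Subgroup Γ}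
    {n m : ℕ} (hpow : ∀ x ∈ K, x ^ n = 1) (hc : Nat.Coprime n m) :
    Nat.Coprime (Nat.card K) m := by
  by_contra hcon
  obtain ⟨q, hq, hq1, hq2⟩ := Nat.Prime.not_coprime_iff_dvd.mp hcon
  haveI := Fact.mk hq
  obtain ⟨y, hy⟩ := exists_prime_orderOf_dvd_card' q hq1
  have h3 : q ∣ n := by
    rw [← hy]
    exact orderOf_dvd_of_pow_eq_one (Subtype.ext (hpow y y.2))
  have h4 := Nat.dvd_gcd h3 hq2
  rw [Nat.coprime_iff_gcd_eq_one.mp hc] at h4
  exact hq.one_lt.ne' (Nat.dvd_one.mp h4)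

/-- A character with irreducible restriction is irreducible. -/
theorem isIrr_of_res_irr {A : Type*} [Group A] [Finite A] {N : Subgroup A} {χ : A → ℂ}
    (hχ : IsCharacter A χ) (h : IsIrrCharacter N (fun n : N => χ n)) : IsIrrCharacter A χ := by
  classical
  have : Fintype A := Fintype.ofFinite _
  have : Fintype N := Fintype.ofFinite _
  obtain ⟨d, hd0, hd⟩ := isIrr_one_eq h
  have hd' : χ 1 = d := hd
  have hχ0 : χ ≠ 0 := by
    intro h0
    rw [h0, Pi.zero_apply] at hd'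
    exact hd0.ne' (by exact_mod_cast hd'.symm)
  obtain ⟨ψ, hψ⟩ := char_ne_zero_exists_constituent hχ hχ0
  have h1 := isChar_sub_constituent hχ ψ.2 hψ
  have c1 : IsCharacter N (fun n : N => ψ.1 n) := CharInd.isChar_res N (isChar_of_irr ψ.2)
  have c2 : IsCharacter N (fun n : N => (χ - ψ.1) n) := CharInd.isChar_res N h1
  have hadd : ∀ φ : IrrCharacter N, classInner (fun n : N => χ n) φ.1 =
      classInner (fun n : N => ψ.1 n) φ.1 + classInner (fun n : N => (χ - ψ.1) n) φ.1 := by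
    intro φ
    rw [← classInner_add_left]
    congr 1
    funext n
    simp
  have hcon : ∀ φ : IrrCharacter N, classInner (fun n : N => ψ.1 n) φ.1 ≠ 0 ∨
      classInner (fun n : N => (χ - ψ.1) n) φ.1 ≠ 0 → φ.1 = fun n : N => χ n := by
    intro φ hφ
    by_contra hne
    have h2 := hadd φ
    rw [irr_inner_ne h φ.2 (fun h => hne h.symm)] at h2
    obtain ⟨a, ha⟩ := exists_nat_inner c1 φ.2
    obtain ⟨b, hb⟩ := exists_nat_inner c2 φ.2
    rw [ha, hb] at h2 hφ
    have h3 : a + b = 0 := by exact_mod_cast h2.symm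
    have h4 : a = 0 := by omega
    have h5 : b = 0 := by omega
    rw [h4, h5] at hφ
    simp at hφ
  have hsum := hadd ⟨_, h⟩
  rw [irr_inner_self h] at hsum
  obtain ⟨a, ha⟩ := exists_nat_inner c1 h
  obtain ⟨b, hb⟩ := exists_nat_inner c2 h
  have hab : a + b = 1 := by
    have h2 : (1 : ℂ) = a + b := by
      rw [← ha, ← hb]; exact hsum
    exact_mod_cast h2.symm
  have ha1 : a ≠ 0 := by
    rintro rfl
    have h2 : (fun n : N => ψ.1 n) ≠ 0 := by
      intro h0
      have := congrFun h0 1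
      exact isIrr_one_ne_zero ψ.2 this
    obtain ⟨φ, hφ⟩ := char_ne_zero_exists_constituent c1 h2
    have h3 := hcon φ (Or.inl hφ)
    rw [h3, ha] at hφ
    simp at hφ
  have hb0 : b = 0 := by omega
  have h2 : (fun n : N => (χ - ψ.1) n) = 0 := by
    by_contra h0
    obtain ⟨φ, hφ⟩ := char_ne_zero_exists_constituent c2 h0
    have h3 := hcon φ (Or.inr hφ)
    rw [h3, hb, hb0] at hφ
    simp at hφ
  have h3 : (χ - ψ.1) 1 = 0 := congrFun h2 1
  have h4 := CharGlaub.isChar_eq_zero_of_one h1 h3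
  have h5 : χ = ψ.1 := sub_eq_zero.mp h4
  rw [h5]
  exact ψ.2

theorem central_res {Γ : Type*} [Group Γ] [Finite Γ] {N K : Subgroup Γ} (hNK : N ≤ K)
    (hN : N ≤ Subgroup.center Γ) (χ : IrrCharacter K) (l : N →* ℂˣ)
    (h : ci (resS hNK χ.1) (linFn l) ≠ 0) (n : N) : resS hNK χ.1 n = χ.1 1 * l n := by
  classical
  have : Fintype N := Fintype.ofFinite _
  have hKN : K ≤ Subgroup.normalizer (N : Set Γ) := by
    apply le_normalizer_of
    intro k _ n hn
    have := Subgroup.mem_center_iff.mp (hN hn) k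
    rw [this, mul_inv_cancel_right]
    exact hn
  have h1 : ∀ n : N, resS hNK χ.1 n = ci (resS hNK χ.1) (linFn l) * l n := by
    intro n
    rw [res_sum hNK (isChar_of_irr χ.2) n, Finset.sum_eq_single ⟨linFn l, linFn_isIrr l⟩]
    · rfl
    · intro ψ _ hne
      have h2 : ci (resS hNK χ.1) ψ.1 = 0 := by
        by_contra h3
        obtain ⟨k, hk, hkψ⟩ := cl_conj hNK hKN χ.2 (linFn_isIrr l) ψ.2 h h3
        apply hne
        apply Subtype.ext
        rw [hkψ]
        funext x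
        refine congrArg (linFn l) (Subtype.ext ?_)
        rw [cE_coe']
        have := Subgroup.mem_center_iff.mp (hN x.2) k
        rw [this, mul_inv_cancel_right]
      rw [h2, zero_mul]
    · intro h; exact absurd (Finset.mem_univ _) h
  have h2 := h1 1
  rw [map_one, Units.val_one, mul_one] at h2
  rw [h1 n, ← h2]
  rfl

theorem central_case {Γ : Type*} [Group Γ] [Finite Γ] (G Z : Subgroup Γ) [hG : G.Normal]
    (hZG : Z ≤ G) (hZ : Z ≤ Subgroup.center Γ)
    (hcop : Nat.Coprime G.index (Z.relIndex G)) (hsolv : Group.IsSolvable (Γ ⧸ G))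
    (l : Z →* ℂˣ) :
    ∃ χ : IrrCharacter G, (∀ (x : Γ) (g : G), χ.1 ⟨x * g * x⁻¹, hG.conj_mem g g.2 x⟩ = χ.1 g) ∧
      ∀ z : Z, χ.1 ⟨z, hZG z.2⟩ = χ.1 1 * l z := by
  obtain ⟨n₁, n₂, hn, hc2, hp1⟩ := exists_split (Nat.card Z) (Z.relIndex G) Nat.card_pos.ne'
  have hcomm : ∀ z ∈ Z, ∀ x : Γ, x * z = z * x := fun z hz x => Subgroup.mem_center_iff.mp (hZ hz) x
  have hc1 : ∀ m, Nat.Coprime (Z.relIndex G) m → Nat.Coprime n₁ m := by
    intro m hm
    by_contra hcon
    obtain ⟨q, hq, hq1, hq2⟩ := Nat.Prime.not_coprime_iff_dvd.mp hcon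
    have h4 := Nat.dvd_gcd (hp1 q hq hq1) hq2
    rw [Nat.coprime_iff_gcd_eq_one.mp hm] at h4
    exact hq.one_lt.ne' (Nat.dvd_one.mp h4)
  have hc12 : Nat.Coprime n₁ n₂ := hc1 _ hc2.symm
  let Z₂ : Subgroup Γ :=
    { carrier := {z | z ∈ Z ∧ z ^ n₂ = 1}
      one_mem' := ⟨Z.one_mem, one_pow _⟩
      mul_mem' := by
        rintro a b ⟨ha, ha'⟩ ⟨hb, hb'⟩
        refine ⟨Z.mul_mem ha hb, ?_⟩
        have : Commute a b := hcomm b hb a
        rw [this.mul_pow, ha', hb', one_mul]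
      inv_mem' := by
        rintro a ⟨ha, ha'⟩
        exact ⟨Z.inv_mem ha, by rw [inv_pow, ha', inv_one]⟩ }
  have hZ₂Z : Z₂ ≤ Z := fun z hz => hz.1
  have hZ₂G : Z₂ ≤ G := hZ₂Z.trans hZG
  have hZ₂n : Z₂.Normal := by
    refine ⟨fun z hz x => ?_⟩
    rw [hcomm z hz.1 x, mul_inv_cancel_right]
    exact hz
  have hZn : Z.Normal := by
    refine ⟨fun z hz x => ?_⟩
    rw [hcomm z hz x, mul_inv_cancel_right]
    exact hz
  have hcard2 : ∀ m, Nat.Coprime n₂ m → Nat.Coprime (Nat.card Z₂) m := fun m hm =>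
    card_coprime_of_pow (fun x hx => hx.2) hm
  have hrel : ∀ m, Nat.Coprime n₁ m → Nat.Coprime (Z₂.relIndex Z) m := by
    intro m hm
    have : (Z₂.subgroupOf Z).Normal := inferInstance
    refine relIndex_coprime_of_pow (n := n₁) (fun x hx => ⟨Z.pow_mem hx _, ?_⟩) hm
    rw [← pow_mul, ← hn]
    have := pow_card_eq_one' (x := (⟨x, hx⟩ : Z))
    exact congrArg Subtype.val this
  have hmul := Subgroup.relIndex_mul_relIndex Z₂ Z G hZ₂Z hZG
  -- the Hall subgroup
  have hcopG : (Nat.card (Z₂.subgroupOf G)).Coprime (Z₂.subgroupOf G).index := by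
    have h1 : Nat.card (Z₂.subgroupOf G) = Nat.card Z₂ :=
      Nat.card_congr (Subgroup.subgroupOfEquivOfLe hZ₂G).toEquiv
    rw [h1]
    change Nat.Coprime _ (Z₂.relIndex G)
    rw [← hmul]
    exact Nat.Coprime.mul_right (hcard2 _ (hrel _ hc12).symm) (hcard2 _ hc2)
  obtain ⟨K', hK'⟩ := Subgroup.exists_right_complement'_of_coprime hcopG
  set K : Subgroup Γ := K'.map G.subtype with hK
  have hKG : K ≤ G := Subgroup.map_subtype_le _
  have hKcard : Nat.card K = Z₂.relIndex G := by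
    rw [hK, ← (Nat.card_congr (K'.equivMapOfInjective _ G.subtype_injective).toEquiv)]
    exact hK'.symm.index_eq_card.symm
  -- decomposition
  have hdec : ∀ g ∈ G, ∃ z ∈ Z₂, ∃ k ∈ K, g = z * k := by
    intro g hg
    obtain ⟨⟨⟨z, hz⟩, ⟨k, hk⟩⟩, hzk⟩ := hK'.2 ⟨g, hg⟩
    exact ⟨z, hz, k, ⟨k, hk, rfl⟩, (congrArg Subtype.val hzk).symm⟩
  have hcopK2 : Nat.Coprime (Nat.card Z₂) (Nat.card K) := by
    rw [hKcard, ← hmul]
    exact Nat.Coprime.mul_right (hcard2 _ (hrel _ hc12).symm) (hcard2 _ hc2)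
  have hinf : ∀ x, x ∈ Z₂ → x ∈ K → x = 1 := by
    intro x h1 h2
    have h3 : orderOf x ∣ Nat.card Z₂ := Subgroup.orderOf_dvd_natCard _ h1
    have h4 : orderOf x ∣ Nat.card K := Subgroup.orderOf_dvd_natCard _ h2
    have h5 := Nat.dvd_gcd h3 h4
    rw [Nat.coprime_iff_gcd_eq_one.mp hcopK2] at h5
    exact orderOf_eq_one_iff.mp (Nat.dvd_one.mp h5)
  have hKpow : ∀ g ∈ G, g ∈ K ↔ g ^ Nat.card K = 1 := by
    intro g hg
    constructor
    · intro h
      have := pow_card_eq_one' (x := (⟨g, h⟩ : K))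
      exact congrArg Subtype.val this
    · intro h
      obtain ⟨z, hz, k, hk, rfl⟩ := hdec g hg
      have hzk : Commute z k := (hcomm z hz.1 k).symm
      have hk1 : k ^ Nat.card K = 1 := by
        have := pow_card_eq_one' (x := (⟨k, hk⟩ : K))
        exact congrArg Subtype.val this
      rw [hzk.mul_pow, hk1, mul_one] at h
      have h3 : orderOf z ∣ Nat.card Z₂ := Subgroup.orderOf_dvd_natCard _ hz
      have h4 : orderOf z ∣ Nat.card K := orderOf_dvd_of_pow_eq_one h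
      have h5 := Nat.dvd_gcd h3 h4
      rw [Nat.coprime_iff_gcd_eq_one.mp hcopK2] at h5
      rw [orderOf_eq_one_iff.mp (Nat.dvd_one.mp h5), one_mul]
      exact hk
  have hKn : K.Normal := by
    refine ⟨fun k hk x => ?_⟩
    rw [hKpow _ (hG.conj_mem k (hKG hk) x), conj_pow, (hKpow k (hKG hk)).mp hk]
    group
  have hKidx : K.index = Nat.card Z₂ * G.index := by
    rw [← Subgroup.relIndex_mul_index hKG]
    congr 1
    have h1 := relIndex_mul_card' K G hKG
    have h2 := relIndex_mul_card' Z₂ G hZ₂G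
    rw [hKcard] at h1
    have h3 : 0 < Z₂.relIndex G := by rw [← hKcard]; exact Nat.card_pos
    apply Nat.eq_of_mul_eq_mul_right h3
    rw [h1, ← h2, mul_comm]
  have hcopK : (Nat.card K).Coprime K.index := by
    rw [hKidx]
    refine Nat.Coprime.mul_right hcopK2.symm ?_
    rw [hKcard, ← hmul]
    exact Nat.Coprime.mul_left (hrel _ (hc1 _ hcop.symm)) hcop.symm
  obtain ⟨S, hS⟩ := Subgroup.exists_right_complement'_of_coprime hcopK
  have hScard : Nat.card S = K.index := hS.symm.index_eq_card.symm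
  have hSK : ∀ x, x ∈ S → x ∈ K → x = 1 := by
    intro x h1 h2
    have := hS.disjoint
    rw [Subgroup.disjoint_def] at this
    exact this h2 h1
  have hSsolv : Group.IsSolvable S := by
    set f : S →* Γ ⧸ G := (QuotientGroup.mk' G).comp S.subtype with hf
    have hker : Group.IsSolvable f.ker := by
      refine Cfsg.Agent.Lib.CoprimeB.isSolvable_of_comm ⟨⟨?_⟩⟩
      rintro ⟨x, hx⟩ ⟨y, hy⟩
      rw [MonoidHom.mem_ker] at hx hy
      have hxG : (x : Γ) ∈ G := (QuotientGroup.eq_one_iff _).mp hx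
      have hyG : (y : Γ) ∈ G := (QuotientGroup.eq_one_iff _).mp hy
      apply Subtype.ext
      apply Subtype.ext
      change (x : Γ) * y = y * x
      have h1 : (x : Γ) * y * (x : Γ)⁻¹ * (y : Γ)⁻¹ ∈ K := by
        obtain ⟨z, hz, k, hk, hzk⟩ := hdec x hxG
        obtain ⟨z', hz', k', hk', hzk'⟩ := hdec y hyG
        have e : (x : Γ) * y * (x : Γ)⁻¹ * (y : Γ)⁻¹ = k * k' * k⁻¹ * k'⁻¹ := by
          have c1 := hcomm z hz.1
          have c2 := hcomm z' hz'.1
          rw [hzk, hzk']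
          calc z * k * (z' * k') * (z * k)⁻¹ * (z' * k')⁻¹
              = z * (k * z') * k' * k⁻¹ * (z⁻¹ * k'⁻¹) * z'⁻¹ := by group
            _ = z * (z' * k) * k' * k⁻¹ * (k'⁻¹ * z⁻¹) * z'⁻¹ := by
                rw [c2 k, ← hcomm z⁻¹ (Z.inv_mem hz.1) k'⁻¹]
            _ = (z * z') * (k * k' * k⁻¹ * k'⁻¹) * (z⁻¹ * z'⁻¹) := by group
            _ = (k * k' * k⁻¹ * k'⁻¹) * (z * z') * (z⁻¹ * z'⁻¹) := by
                rw [← hcomm (z * z') (Z.mul_mem hz.1 hz'.1)]
            _ = (k * k' * k⁻¹ * k'⁻¹) * (z * (z' * z⁻¹) * z'⁻¹) := by group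
            _ = (k * k' * k⁻¹ * k'⁻¹) * (z * (z⁻¹ * z') * z'⁻¹) := by
                rw [hcomm z⁻¹ (Z.inv_mem hz.1) z']
            _ = _ := by group
        rw [e]
        exact K.mul_mem (K.mul_mem (K.mul_mem hk hk') (K.inv_mem hk)) (K.inv_mem hk')
      have h2 := hSK _ (S.mul_mem (S.mul_mem (S.mul_mem x.2 y.2) (S.inv_mem x.2)) (S.inv_mem y.2)) h1
      have h3 := mul_inv_eq_one.mp h2
      rw [mul_inv_eq_iff_eq_mul] at h3
      exact h3
    haveI := hker
    haveI := hsolv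
    exact Group.isSolvable_of_ker_le_range f.ker.subtype f (by rw [Subgroup.range_subtype])
  -- the invariant character of `K`
  set N := Z ⊓ K with hN
  have hNK : N ≤ K := inf_le_right
  have hNn : N.Normal := inferInstance
  have hnorm : ∀ (X Y : Subgroup Γ) [Y.Normal], X ≤ Subgroup.normalizer (Y : Set Γ) := by
    intro X Y _
    rw [Subgroup.normalizer_eq_top]
    exact le_top
  let lN : N →* ℂˣ := l.comp (Subgroup.inclusion inf_le_left)
  obtain ⟨χ₁, hinv₁, hne⟩ := exists_inv_above hSsolv (hnorm S K) (hnorm S N) hNK (hnorm K N)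
    (by rw [hScard]; exact hcopK) ⟨linFn lN, linFn_isIrr lN⟩ (by
      intro s hs g g' hg
      refine congrArg (linFn lN) (Subtype.ext ?_)
      rw [hg, hcomm g g.2.1 s, mul_inv_cancel_right])
  have hres := central_res hNK (inf_le_left.trans hZ) χ₁ lN hne
  have hinv : ∀ (x : Γ), cjI K (hnorm ⊤ K (Subgroup.mem_top x)) χ₁ = χ₁ := by
    intro x
    obtain ⟨⟨⟨k, hk⟩, ⟨s, hs⟩⟩, hks⟩ := hS.2 x
    simp only at hks
    subst hks
    rw [cjI_mul (hnorm ⊤ K (Subgroup.mem_top k)) (hnorm ⊤ K (Subgroup.mem_top s)),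
      cjI_of_mem hk]
    exact (invI_iff (hnorm S K)).mp hinv₁ s hs
  -- the product decomposition
  let E₀ : K × Z₂ →* G :=
    { toFun := fun p => ⟨p.1 * p.2, G.mul_mem (hKG p.1.2) (hZ₂G p.2.2)⟩
      map_one' := by apply Subtype.ext; simp
      map_mul' := by
        rintro ⟨a, z⟩ ⟨b, w⟩
        apply Subtype.ext
        change (a : Γ) * b * (z * w) = a * z * (b * w)
        have := hcomm z z.2.1 b
        calc (a : Γ) * b * (z * w) = a * (b * z) * w := by group
          _ = a * (z * b) * w := by rw [this]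
          _ = _ := by group }
  have hE₀ : Function.Bijective E₀ := by
    constructor
    · rw [injective_iff_map_eq_one]
      rintro ⟨a, z⟩ h
      have h1 : (a : Γ) * z = 1 := congrArg Subtype.val h
      have h2 : (z : Γ) ∈ K := by
        rw [(mul_eq_one_iff_inv_eq.mp h1).symm]
        exact K.inv_mem a.2
      have h3 := hinf z z.2 h2
      rw [h3, mul_one] at h1
      exact Prod.ext (Subtype.ext h1) (Subtype.ext h3)
    · rintro ⟨g, hg⟩
      obtain ⟨z, hz, k, hk, rfl⟩ := hdec g hg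
      refine ⟨(⟨k, hk⟩, ⟨z, hz⟩), Subtype.ext ?_⟩
      exact hcomm z hz.1 k
  let E : K × Z₂ ≃* G := MulEquiv.ofBijective E₀ hE₀
  have hE : ∀ (k : K) (z : Z₂), ((E (k, z) : G) : Γ) = k * z := fun _ _ => rfl
  let l₂ : Z₂ →* ℂˣ := l.comp (Subgroup.inclusion hZ₂Z)
  let ψ : IrrCharacter (K × Z₂) :=
    ⟨linFn (l₂.comp (MonoidHom.snd K Z₂)) * fun p => χ₁.1 p.1,
      isIrr_linFn_mul _ (isIrr_comp_surjective (MonoidHom.fst K Z₂) Prod.fst_surjective χ₁.2)⟩
  have hψ : ∀ (k : K) (z : Z₂), ψ.1 (k, z) = l₂ z * χ₁.1 k := fun _ _ => rfl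
  set χ : IrrCharacter G := irrEquiv E.symm ψ with hχ
  have hχ' : ∀ (k : K) (z : Z₂) (g : G), (g : Γ) = k * z → χ.1 g = l₂ z * χ₁.1 k := by
    intro k z g hg
    have h1 : E.symm g = (k, z) := by
      rw [MulEquiv.symm_apply_eq]
      exact Subtype.ext hg
    rw [hχ, irrEquiv_apply, h1, hψ]
  refine ⟨χ, ?_, ?_⟩
  · intro x g
    obtain ⟨⟨k, z⟩, hkz⟩ := E.surjective g
    have h1 : (g : Γ) = k * z := by rw [← hkz, hE]
    rw [hχ' k z g h1, hχ' (cE K (hnorm ⊤ K (Subgroup.mem_top x)) k) z]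
    · congr 1
      exact congrFun (congrArg Subtype.val (hinv x)) k
    · rw [cE_coe']
      change x * (g : Γ) * x⁻¹ = x * k * x⁻¹ * z
      rw [h1]
      have := hcomm z z.2.1 x⁻¹
      calc x * ((k : Γ) * z) * x⁻¹ = x * k * (z * x⁻¹) := by group
        _ = x * k * (x⁻¹ * z) := by rw [this]
        _ = _ := by group
  · intro z
    obtain ⟨z₂, hz₂, k, hk, hzk⟩ := hdec z (hZG z.2)
    have hkZ : k ∈ Z := by
      have : k = z₂⁻¹ * z := by rw [hzk]; group
      rw [this]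
      exact Z.mul_mem (Z.inv_mem hz₂.1) z.2
    have h1 := hχ' ⟨k, hk⟩ ⟨z₂, hz₂⟩ ⟨z, hZG z.2⟩ (by rw [hzk]; exact (hcomm z₂ hz₂.1 k).symm)
    have h2 := hχ' 1 1 1 (by simp)
    rw [map_one, Units.val_one, one_mul] at h2
    have h3 := hres ⟨k, hkZ, hk⟩
    have h4 : resS hNK χ₁.1 ⟨k, hkZ, hk⟩ = χ₁.1 ⟨k, hk⟩ := rfl
    rw [h4] at h3
    rw [h1, h2, h3]
    have h5 : l z = l₂ ⟨z₂, hz₂⟩ * lN ⟨k, hkZ, hk⟩ := by
      have : z = ⟨z₂, hz₂.1⟩ * ⟨k, hkZ⟩ := Subtype.ext hzk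
      rw [this, map_mul]
      rfl
    rw [h5, Units.val_mul]
    ring

theorem linear_case {Γ : Type*} [Group Γ] [Finite Γ] (G K : Subgroup Γ) [hG : G.Normal]
    [hKn : K.Normal] (hKG : K ≤ G)
    (hcop : Nat.Coprime G.index (K.relIndex G)) (hsolv : Group.IsSolvable (Γ ⧸ G))
    (l : K →* ℂˣ) (hinv : ∀ (x : Γ) (k : K), l ⟨x * k * x⁻¹, hKn.conj_mem k k.2 x⟩ = l k) :
    ∃ χ : IrrCharacter G, (∀ (x : Γ) (g : G), χ.1 ⟨x * g * x⁻¹, hG.conj_mem g g.2 x⟩ = χ.1 g) ∧
      ∀ k : K, χ.1 ⟨k, hKG k.2⟩ = χ.1 1 * l k := by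
  set L : Subgroup Γ := l.ker.map K.subtype with hL
  have hLK : L ≤ K := Subgroup.map_subtype_le _
  have hLn : L.Normal := by
    refine ⟨?_⟩
    rintro _ ⟨k, hk, rfl⟩ x
    refine ⟨⟨x * k * x⁻¹, hKn.conj_mem k k.2 x⟩, ?_, rfl⟩
    rw [SetLike.mem_coe, MonoidHom.mem_ker] at hk ⊢
    rw [hinv, hk]
  set f : Γ →* Γ ⧸ L := QuotientGroup.mk' L with hf
  have hfs : Function.Surjective f := QuotientGroup.mk'_surjective L
  have hfk : f.ker = L := QuotientGroup.ker_mk' L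
  have hGn : (G.map f).Normal := hG.map f hfs
  have hZG : K.map f ≤ G.map f := Subgroup.map_mono hKG
  have hZc : K.map f ≤ Subgroup.center (Γ ⧸ L) := by
    rintro _ ⟨k, hk, rfl⟩
    rw [Subgroup.mem_center_iff]
    intro y
    obtain ⟨x, rfl⟩ := hfs y
    rw [← map_mul, ← map_mul]
    have h1 : (x * k)⁻¹ * (k * x) ∈ L := by
      refine ⟨⟨(x * k)⁻¹ * (k * x), ?_⟩, ?_, rfl⟩
      · have e : (x * k)⁻¹ * (k * x) = k⁻¹ * (x⁻¹ * k * x⁻¹⁻¹) := by group
        rw [e]
        exact K.mul_mem (K.inv_mem hk) (hKn.conj_mem k hk x⁻¹)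
      · rw [SetLike.mem_coe, MonoidHom.mem_ker]
        have e : (⟨(x * k)⁻¹ * (k * x), by
            have e : (x * k)⁻¹ * (k * x) = k⁻¹ * (x⁻¹ * k * x⁻¹⁻¹) := by group
            rw [e]
            exact K.mul_mem (K.inv_mem hk) (hKn.conj_mem k hk x⁻¹)⟩ : K) =
            ⟨k, hk⟩⁻¹ * ⟨x⁻¹ * k * x⁻¹⁻¹, hKn.conj_mem k hk x⁻¹⟩ := by
          apply Subtype.ext
          change (x * k)⁻¹ * (k * x) = k⁻¹ * (x⁻¹ * k * x⁻¹⁻¹)
          group
        rw [e, map_mul, map_inv, hinv x⁻¹ ⟨k, hk⟩, inv_mul_cancel]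
    exact (QuotientGroup.eq.mpr h1)
  have hcop' : Nat.Coprime (G.map f).index ((K.map f).relIndex (G.map f)) := by
    rw [Subgroup.index_map_eq _ hfs (by rw [hfk]; exact hLK.trans hKG), Subgroup.relIndex_map_map,
      hfk, sup_eq_left.mpr hLK, sup_eq_left.mpr (hLK.trans hKG)]
    exact hcop
  have hsolv' : Group.IsSolvable ((Γ ⧸ L) ⧸ (G.map f)) := by
    haveI := hsolv
    have hs : Function.Surjective (QuotientGroup.map G (G.map f) f (Subgroup.le_comap_map f G)) := by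
      intro y
      obtain ⟨y, rfl⟩ := QuotientGroup.mk_surjective y
      obtain ⟨x, rfl⟩ := hfs y
      exact ⟨x, rfl⟩
    exact Group.isSolvable_of_surjective hs
  have hfKs : Function.Surjective (f.subgroupMap K) := f.subgroupMap_surjective K
  have hker : (f.subgroupMap K).ker ≤ l.ker := by
    intro k hk
    rw [MonoidHom.mem_ker] at hk
    have h1 : f k = 1 := congrArg Subtype.val hk
    rw [← MonoidHom.mem_ker, hfk] at h1
    obtain ⟨k', hk', hkk⟩ := h1
    have : k' = k := Subtype.ext hkk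
    rwa [← this]
  let l' : K.map f →* ℂˣ := (f.subgroupMap K).liftOfSurjective hfKs ⟨l, hker⟩
  have hl' : ∀ k : K, l' (f.subgroupMap K k) = l k := fun k =>
    MonoidHom.liftOfRightInverse_comp_apply _ _ (Function.rightInverse_surjInv hfKs) ⟨l, hker⟩ k
  obtain ⟨χ', hχ'inv, hχ'⟩ := central_case (G.map f) (K.map f) hZG hZc hcop' hsolv' l'
  refine ⟨⟨fun g => χ'.1 (f.subgroupMap G g), isIrr_comp_surjective (f.subgroupMap G)
    (f.subgroupMap_surjective G) χ'.2⟩, ?_, ?_⟩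
  · intro x g
    exact hχ'inv (f x) (f.subgroupMap G g)
  · intro k
    have := hχ' (f.subgroupMap K k)
    rw [hl'] at this
    change χ'.1 (f.subgroupMap G ⟨k, hKG k.2⟩) = χ'.1 (f.subgroupMap G 1) * l k
    rw [map_one]
    exact this

set_option maxHeartbeats 2000000 in
/-- Invariant characters above, coprime layers. -/
theorem above_layers {Γ : Type*} [Group Γ] [Finite Γ] (G N : Subgroup Γ) [hG : G.Normal]
    [hN : N.Normal] (hNG : N ≤ G) (hcop : Nat.Coprime G.index (N.relIndex G))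
    (hsolv : Group.IsSolvable (Γ ⧸ G)) (θ : IrrCharacter N)
    (hinv : ∀ x : Γ, cj x θ.1 = θ.1) :
    ∃ χ : IrrCharacter G, ci (resS hNG χ.1) θ.1 ≠ 0 ∧
      ∀ (x : Γ) (g : G), χ.1 ⟨x * g * x⁻¹, hG.conj_mem g g.2 x⟩ = χ.1 g := by
  classical
  obtain ⟨θ, n, ρ, hρ, rfl⟩ := θ
  set m := Nat.card N with hm
  have hm0 : m ≠ 0 := Nat.card_pos.ne'
  haveI := finite_GM ρ hm0
  set P := prM ρ m with hP
  have hPs : Function.Surjective P := prM_surjective ρ hinv m
  set K := N.comap P with hK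
  set G' := G.comap P with hG'
  have hKG : K ≤ G' := Subgroup.comap_mono hNG
  have hcop' : Nat.Coprime G'.index (K.relIndex G') := by
    rw [hG', Subgroup.index_comap_of_surjective _ hPs]
    have h1 : K.relIndex G' = N.relIndex G := by
      rw [hK, hG', Subgroup.relIndex_comap, Subgroup.map_comap_eq_self_of_surjective hPs]
    rw [h1]
    exact hcop
  have hsolv' : Group.IsSolvable (GM ρ m ⧸ G') := by
    haveI := hsolv
    have hle : G' ≤ G.comap P := le_rfl
    have hinj : Function.Injective (QuotientGroup.map G' G P hle) := by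
      rw [← MonoidHom.ker_eq_bot_iff, eq_bot_iff]
      intro y hy
      obtain ⟨y, rfl⟩ := QuotientGroup.mk_surjective y
      rw [MonoidHom.mem_ker] at hy
      have h1 : P y ∈ G := (QuotientGroup.eq_one_iff _).mp hy
      exact (QuotientGroup.eq_one_iff _).mpr h1
    exact Group.isSolvable_of_isSolvable_injective hinj
  obtain ⟨β, hβinv, hβ⟩ := linear_case G' K hKG hcop' hsolv' (lam ρ m)⁻¹ (by
    intro x k
    rw [MonoidHom.inv_apply, MonoidHom.inv_apply, lam_inv])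
  have : Fintype (GM ρ m) := Fintype.ofFinite _
  have : Fintype N := Fintype.ofFinite _
  have : Fintype G' := Fintype.ofFinite _
  have : Fintype (K.subgroupOf G') := Fintype.ofFinite _
  let σ : Representation ℂ (GM ρ m) (Fin n → ℂ) := (ev ρ).comp (GM ρ m).subtype
  set T : GM ρ m → ℂ := σ.character with hT
  have hTc : IsCharacter (GM ρ m) T := isCharacter_of_rep _
  have hTK : ∀ x : K, T x = lam ρ m x * ρ.character ⟨P x, x.2⟩ := by
    intro x
    have h1 := lam_spec ρ m x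
    change LinearMap.trace ℂ _ (ev ρ x.1.1) = _ * LinearMap.trace ℂ _ (ρ _)
    rw [h1, ev_scal_mul, ev_emb, map_smul, smul_eq_mul]
  set τ : G' → ℂ := fun x => T x with hτ
  have hτc : IsCharacter G' τ := isChar_comp G'.subtype hTc
  set φ : K.subgroupOf G' → ℂ := fun x => linFn (lam ρ m)⁻¹ ⟨x.1.1, Subgroup.mem_subgroupOf.mp x.2⟩
    with hφ
  have hKn : (K.subgroupOf G').Normal := inferInstance
  have hprod : IsIrrCharacter (K.subgroupOf G') (φ * fun x : K.subgroupOf G' => τ x) := by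
    have h1 : (φ * fun x : K.subgroupOf G' => τ x) = fun x : K.subgroupOf G' =>
        ρ.character ⟨P x.1.1, Subgroup.mem_subgroupOf.mp x.2⟩ := by
      funext x
      rw [Pi.mul_apply]
      have h2 := hTK ⟨x.1.1, Subgroup.mem_subgroupOf.mp x.2⟩
      change linFn (lam ρ m)⁻¹ ⟨x.1.1, Subgroup.mem_subgroupOf.mp x.2⟩ * T x.1.1 = _
      rw [h2, linFn_apply, MonoidHom.inv_apply, ← mul_assoc]
      simp
    rw [h1]
    have h3 : IsIrrCharacter K (fun k : K => ρ.character ⟨P k, k.2⟩) :=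
      isIrr_comp_surjective (P.subgroupComap N)
        (MonoidHom.subgroupComap_surjective_of_surjective P N hPs) ⟨n, ρ, hρ, rfl⟩
    exact (isIrr_subgroupOf_iff hKG _).mpr h3
  have hτirr : IsIrrCharacter G' τ := by
    have h1 : IsIrrCharacter (K.subgroupOf G') (fun x : K.subgroupOf G' => τ x) := by
      have h2 : (fun x : K.subgroupOf G' => τ x) = linFn ((lam ρ m).comp
          (Subgroup.subgroupOfEquivOfLe hKG).toMonoidHom) *
            (φ * fun x : K.subgroupOf G' => τ x) := by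
        funext x
        rw [Pi.mul_apply, Pi.mul_apply, linFn_apply]
        change τ x = (lam ρ m ⟨x.1.1, Subgroup.mem_subgroupOf.mp x.2⟩ : ℂ) *
          (linFn (lam ρ m)⁻¹ ⟨x.1.1, Subgroup.mem_subgroupOf.mp x.2⟩ * τ x)
        rw [linFn_apply, MonoidHom.inv_apply, ← mul_assoc]
        simp
      rw [h2]
      exact isIrr_linFn_mul _ hprod
    exact isIrr_of_res_irr hτc h1
  have hβK : ∀ x : K.subgroupOf G', β.1 x = β.1 1 * φ x := by
    intro x
    exact hβ ⟨x.1.1, Subgroup.mem_subgroupOf.mp x.2⟩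
  obtain ⟨b, hb0, hb⟩ := isIrr_one_eq β.2
  have hφirr : IsIrrCharacter (K.subgroupOf G') φ :=
    (isIrr_subgroupOf_iff hKG (linFn (lam ρ m)⁻¹)).mpr (linFn_isIrr _)
  have hβne : classInner (indFun (K.subgroupOf G') φ) β.1 ≠ 0 := by
    rw [CharInd.reciprocity _ _ _ (isChar_classFn (isChar_of_irr β.2))]
    have h1 : (fun x : K.subgroupOf G' => β.1 x) = (b : ℂ) • φ := by
      funext x
      rw [hβK x, hb]; rfl
    rw [h1, classInner_smul_right, irr_inner_self hφirr, mul_one, Complex.conj_natCast]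
    exact Nat.cast_ne_zero.mpr hb0.ne'
  have hmain : IsIrrCharacter G' (β.1 * τ) := by
    refine gallagher_irr (N := K.subgroupOf G') hφirr ?_ (θ := fun x : K.subgroupOf G' => τ x) ?_
      hprod hτirr (fun _ => rfl) β.2 hβne
    · intro g
      funext x
      rw [cj_apply]
      change linFn (lam ρ m)⁻¹ _ = linFn (lam ρ m)⁻¹ _
      rw [linFn_apply, linFn_apply, MonoidHom.inv_apply, MonoidHom.inv_apply]
      have := lam_inv ρ m g ⟨x.1.1, Subgroup.mem_subgroupOf.mp x.2⟩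
      rw [← this]
      rfl
    · intro g
      exact cj_res g (isChar_classFn hτc)
  -- deflation
  have hval : ∀ x : GM ρ m, ∀ (hx : x ∈ K), (β.1 * τ) ⟨x, hKG hx⟩ =
      b * ρ.character ⟨P x, hx⟩ := by
    intro x hx
    rw [Pi.mul_apply]
    have h1 := hβ ⟨x, hx⟩
    have h2 := hTK ⟨x, hx⟩
    simp only at h1
    rw [h1, hb]
    change (b : ℂ) * _ * T x = _
    rw [h2, MonoidHom.inv_apply]
    have h3 : (((lam ρ m ⟨x, hx⟩)⁻¹ : ℂˣ) : ℂ) * (lam ρ m ⟨x, hx⟩ : ℂ) = 1 := by simp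
    calc (b : ℂ) * (((lam ρ m ⟨x, hx⟩)⁻¹ : ℂˣ) : ℂ) * ((lam ρ m ⟨x, hx⟩ : ℂ) *
        ρ.character ⟨P x, hx⟩) = (b : ℂ) * ((((lam ρ m ⟨x, hx⟩)⁻¹ : ℂˣ) : ℂ) *
          (lam ρ m ⟨x, hx⟩ : ℂ)) * ρ.character ⟨P x, hx⟩ := by ring
      _ = _ := by rw [h3, mul_one]
  set P' : G' →* G := P.subgroupComap G with hP'
  have hP's : Function.Surjective P' := MonoidHom.subgroupComap_surjective_of_surjective P G hPs
  obtain ⟨ψ, hψc, hψ, hψirr⟩ := CharKer.exists_deflate P' hP's (isChar_of_irr hmain) (by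
    intro z hz
    have hz1 : P z = 1 := congrArg Subtype.val hz
    have hzK : (z : GM ρ m) ∈ K := by
      rw [hK, Subgroup.mem_comap, hz1]; exact N.one_mem
    have h1 := hval z hzK
    have h2 := hval 1 K.one_mem
    have h3 : (⟨P z, hzK⟩ : N) = ⟨P 1, K.one_mem⟩ := Subtype.ext (hz1.trans (map_one P).symm)
    rw [h3, ← h2] at h1
    exact h1)
  refine ⟨⟨ψ, hψirr hmain⟩, ?_, ?_⟩
  · have h1 : resS hNG ψ = (b : ℂ) • ρ.character := by
      funext y
      obtain ⟨x, hx⟩ := hPs y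
      have hxK : x ∈ K := by rw [hK, Subgroup.mem_comap, hx]; exact y.2
      have h2 := hψ ⟨x, hKG hxK⟩
      rw [hval x hxK] at h2
      have h3 : P' ⟨x, hKG hxK⟩ = Subgroup.inclusion hNG y := Subtype.ext hx
      rw [h3] at h2
      have h4 : (⟨P x, hxK⟩ : N) = y := Subtype.ext hx
      rw [h4] at h2
      exact h2.symm
    change ci (resS hNG ψ) ρ.character ≠ 0
    rw [h1, ci_eq, classInner_smul_left, irr_inner_self ⟨n, ρ, hρ, rfl⟩, mul_one]
    exact Nat.cast_ne_zero.mpr hb0.ne'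
  · intro x g
    obtain ⟨x', hx'⟩ := hPs x
    obtain ⟨g', hg'⟩ := hP's g
    have h1 : P' ⟨x' * g' * x'⁻¹, (inferInstance : G'.Normal).conj_mem g' g'.2 x'⟩ =
        ⟨x * g * x⁻¹, hG.conj_mem g g.2 x⟩ := by
      apply Subtype.ext
      change P (x' * g' * x'⁻¹) = x * g * x⁻¹
      rw [map_mul, map_mul, map_inv, hx']
      have : P g' = g := congrArg Subtype.val hg'
      rw [this]
    change ψ _ = ψ g
    rw [← h1, ← hψ, ← hg', ← hψ, Pi.mul_apply, Pi.mul_apply, hβinv x' g']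
    congr 1
    exact isChar_classFn hTc g' x'

end

end Cfsg.Agent.Lib.CharCoD
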