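import Cfsg.Agent.Lib.CharCoD

set_option autoImplicit false

namespace Cfsg.Agent.Lib.CharCoE

open Cfsg Cfsg.Agent.Lib.CharBasic Cfsg.Agent.Lib.CharNormal Cfsg.Agent.Lib.CharClifford
open Cfsg.Agent.Lib.CharThompson Cfsg.Agent.Lib.CharGC Cfsg.Agent.Lib.CharCo
open Cfsg.Agent.Lib.CharCoB Cfsg.Agent.Lib.CharCoC Cfsg.Agent.Lib.CharLin Cfsg.Agent.Lib.CharExt
open Cfsg.Agent.Lib.CharCoD
open scoped ComplexConjugate

noncomputable section

/-- Invariant characters above, coprime layers, lower layer solvable. -/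
theorem above_layers' {Γ : Type*} [Group Γ] [Finite Γ] (G N : Subgroup Γ) [hG : G.Normal]
    [hN : N.Normal] (hNG : N ≤ G) (hcop : Nat.Coprime G.index (N.relIndex G))
    (hsolv : Group.IsSolvable (G ⧸ N.subgroupOf G)) (θ : IrrCharacter N)
    (hinv : ∀ x : Γ, cj x θ.1 = θ.1) :
    ∃ χ : IrrCharacter G, ci (resS hNG χ.1) θ.1 ≠ 0 ∧
      ∀ (x : Γ) (g : G), χ.1 ⟨x * g * x⁻¹, hG.conj_mem g g.2 x⟩ = χ.1 g := by
  set f : Γ →* Γ ⧸ N := QuotientGroup.mk' N with hf
  have hfs : Function.Surjective f := QuotientGroup.mk'_surjective N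
  have hfk : f.ker = N := QuotientGroup.ker_mk' N
  have hGn : (G.map f).Normal := hG.map f hfs
  have hrel : ∀ H : Subgroup Γ, N.relIndex H = Nat.card (H.map f) := by
    intro H
    have h1 : N = (⊥ : Subgroup (Γ ⧸ N)).comap f := by rw [MonoidHom.comap_bot, hfk]
    conv_lhs => rw [h1]
    rw [Subgroup.relIndex_comap, Subgroup.relIndex_bot_left]
  have hidx : (G.map f).index = G.index :=
    Subgroup.index_map_eq _ hfs (by rw [hfk]; exact hNG)
  have hcop' : (Nat.card (G.map f)).Coprime (G.map f).index := by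
    rw [hidx, ← hrel]
    exact hcop.symm
  obtain ⟨H', hH'⟩ := Subgroup.exists_right_complement'_of_coprime hcop'
  set H := H'.comap f with hH
  have hHmap : H.map f = H' := Subgroup.map_comap_eq_self_of_surjective hfs H'
  have hcopH : (N.relIndex G).Coprime (N.relIndex H) := by
    rw [hrel H, hHmap, ← hH'.symm.index_eq_card, hidx]
    exact hcop.symm
  have hnorm : ∀ (X Y : Subgroup Γ) [Y.Normal], X ≤ Subgroup.normalizer (Y : Set Γ) := by
    intro X Y _
    rw [Subgroup.normalizer_eq_top]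
    exact le_top
  obtain ⟨χ, hχ, hne⟩ := exists_inv_above' (hnorm H G) (hnorm H N) hNG hcopH hsolv θ (by
    intro s _ g g' hg
    have := congrFun (hinv s) g
    rw [cj_apply] at this
    rw [← this]
    exact congrArg θ.1 (Subtype.ext hg))
  refine ⟨χ, hne, ?_⟩
  intro x g
  -- `x = a h`
  obtain ⟨⟨⟨a', ha'⟩, ⟨h', hh'⟩⟩, hah⟩ := hH'.2 (f x)
  obtain ⟨a, ha, rfl⟩ := ha'
  simp only at hah
  have hx : a⁻¹ * x ∈ H := by
    rw [hH, Subgroup.mem_comap, map_mul, map_inv, ← hah, inv_mul_cancel_left]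
    exact hh'
  have h1 : cjI G (hnorm ⊤ G (Subgroup.mem_top x)) χ = χ := by
    have e : x = a * (a⁻¹ * x) := by group
    have h2 : cjI G (hnorm ⊤ G (Subgroup.mem_top (a * (a⁻¹ * x)))) χ = χ := by
      rw [cjI_mul (hnorm ⊤ G (Subgroup.mem_top a)) (hnorm ⊤ G (Subgroup.mem_top (a⁻¹ * x))),
        cjI_of_mem ha]
      exact (invI_iff (hnorm H G)).mp hχ _ hx
    simpa only [← e] using h2
  exact congrFun (congrArg Subtype.val h1) g

end

end Cfsg.Agent.Lib.CharCoE
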