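import Cfsg.Agent.Lib.CharCoE
import Cfsg.Agent.Lib.CharGlaub2

set_option autoImplicit false

namespace Cfsg.Agent.Lib.CharCoF

open Cfsg Cfsg.Agent.Lib.CharBasic Cfsg.Agent.Lib.CharNormal Cfsg.Agent.Lib.CharClifford
open Cfsg.Agent.Lib.CharThompson Cfsg.Agent.Lib.CharGC Cfsg.Agent.Lib.CharCo
open Cfsg.Agent.Lib.CharCoB Cfsg.Agent.Lib.CharCoC Cfsg.Agent.Lib.CharLin Cfsg.Agent.Lib.CharExt
open Cfsg.Agent.Lib.CharCoD
open scoped ComplexConjugate

noncomputable section

section Count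

variable {G : Type*} [Group G] [Finite G] {K H : Subgroup G} [hK : K.Normal]

/-- The isomorphism `H ≅ G/K`. -/
theorem exists_quot_equiv (hKH : K ⊔ H = ⊤) (hcop : (Nat.card K).Coprime (Nat.card H)) :
    ∃ e : H ≃* G ⧸ K, ∀ h : H, e h = ((h : G) : G ⧸ K) := by
  have hinj : Function.Injective ((QuotientGroup.mk' K).comp H.subtype) := by
    rw [injective_iff_map_eq_one]
    intro h hh
    have h1 : (h : G) ∈ K := (QuotientGroup.eq_one_iff _).mp hh
    have h2 : orderOf (h : G) ∣ Nat.card K := Subgroup.orderOf_dvd_natCard _ h1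
    have h3 : orderOf (h : G) ∣ Nat.card H := Subgroup.orderOf_dvd_natCard _ h.2
    have h4 := Nat.dvd_gcd h2 h3
    rw [Nat.coprime_iff_gcd_eq_one.mp hcop] at h4
    exact Subtype.ext (orderOf_eq_one_iff.mp (Nat.dvd_one.mp h4))
  have hsurj : Function.Surjective ((QuotientGroup.mk' K).comp H.subtype) := by
    intro q
    obtain ⟨x, rfl⟩ := QuotientGroup.mk_surjective q
    have hx : x ∈ H ⊔ K := by rw [sup_comm, hKH]; exact Subgroup.mem_top x
    rw [Subgroup.mem_sup_of_normal_right] at hx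
    obtain ⟨h, hh, k, hk, rfl⟩ := hx
    refine ⟨⟨h, hh⟩, ?_⟩
    change ((h : G) : G ⧸ K) = ((h * k : G) : G ⧸ K)
    rw [QuotientGroup.mk_mul, (QuotientGroup.eq_one_iff k).mpr hk, mul_one]
  exact ⟨MulEquiv.ofBijective _ ⟨hinj, hsurj⟩, fun _ => rfl⟩

theorem card_lin_trivial (hKH : K ⊔ H = ⊤) (hcop : (Nat.card K).Coprime (Nat.card H)) :
    Nat.card {l : G →* ℂˣ // ∀ k ∈ K, l k = 1} = Nat.card (H →* ℂˣ) := by
  obtain ⟨e, he⟩ := exists_quot_equiv hKH hcop
  apply Nat.card_congr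
  refine ⟨fun l => l.1.comp H.subtype, fun m =>
    ⟨m.comp (e.symm.toMonoidHom.comp (QuotientGroup.mk' K)), ?_⟩, ?_, ?_⟩
  · intro k hk
    rw [MonoidHom.comp_apply, MonoidHom.comp_apply, QuotientGroup.mk'_apply,
      (QuotientGroup.eq_one_iff k).mpr hk, map_one, map_one]
  · rintro ⟨l, hl⟩
    apply Subtype.ext
    apply MonoidHom.ext
    intro x
    change l ((e.symm (x : G ⧸ K) : H) : G) = l x
    have h1 : (((e.symm (x : G ⧸ K) : H) : G) : G ⧸ K) = (x : G ⧸ K) := by
      rw [← he, MulEquiv.apply_symm_apply]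
    rw [QuotientGroup.eq] at h1
    have h2 := hl _ h1
    rw [map_mul, map_inv, inv_mul_eq_one] at h2
    exact h2
  · intro m
    apply MonoidHom.ext
    intro h
    change m (e.symm ((h : G) : G ⧸ K)) = m h
    rw [← he, MulEquiv.symm_apply_apply]

theorem index_eq (hKH : K ⊔ H = ⊤) (hcop : (Nat.card K).Coprime (Nat.card H)) :
    K.index = Nat.card H := by
  obtain ⟨e, -⟩ := exists_quot_equiv hKH hcop
  rw [Subgroup.index_eq_card, Nat.card_congr e.toEquiv]

/-- Characters of degree prime to the order of a complement. -/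
theorem card_coprime_deg (hKH : K ⊔ H = ⊤) (hcop : (Nat.card K).Coprime (Nat.card H)) :
    Nat.card {χ : IrrCharacter G // (charDegree χ.1).Coprime (Nat.card H)} =
      Nat.card {θ : IrrCharacter K // ∀ x : G, cj x θ.1 = θ.1} * Nat.card (H →* ℂˣ) := by
  classical
  have : Fintype G := Fintype.ofFinite _
  have : Fintype K := Fintype.ofFinite _
  have hidx := index_eq hKH hcop
  -- canonical extensions
  have hext : ∀ θ : {θ : IrrCharacter K // ∀ x : G, cj x θ.1 = θ.1}, ∃ χ : IrrCharacter G,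
      ∀ n : K, χ.1 n = θ.1.1 n := by
    rintro ⟨θ, hθ⟩
    obtain ⟨d, -, hd⟩ := isIrr_one_eq θ.2
    obtain ⟨h1, h2⟩ := CharGlaub.coprime_det_deg (G := K) θ.2 hd
    have h3 : Nat.Coprime K.index (detOrder θ.1 * d) := by
      rw [hidx]
      exact Nat.Coprime.mul_right (hcop.symm.coprime_dvd_right h1) (hcop.symm.coprime_dvd_right h2)
    obtain ⟨χ, ⟨hχ, hres, -⟩, -⟩ := ext_of_coprime_det (G := G) (N := K) θ.2 hθ hd h3
    exact ⟨⟨χ, hχ⟩, hres⟩
  choose E hE using hext
  rw [← card_lin_trivial hKH hcop, ← Nat.card_prod]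
  symm
  have hdeg : ∀ (θ : {θ : IrrCharacter K // ∀ x : G, cj x θ.1 = θ.1}) (l : G →* ℂˣ) (d : ℕ),
      θ.1.1 1 = d → (linFn l * (E θ).1) 1 = d := by
    intro θ l d hd
    rw [Pi.mul_apply, linFn_apply_one, one_mul]
    have := hE θ 1
    rw [hd] at this
    exact this
  apply Nat.card_congr
  refine Equiv.ofBijective (fun p => ⟨⟨linFn p.2.1 * (E p.1).1, isIrr_linFn_mul p.2.1 (E p.1).2⟩,
    ?_⟩) ⟨?_, ?_⟩
  · obtain ⟨d, -, hd⟩ := isIrr_one_eq p.1.1.2
    have h1 := hdeg p.1 p.2.1 d hd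
    have h2 := CharGlaub2.charDegree_cast (isChar_of_irr (isIrr_linFn_mul p.2.1 (E p.1).2))
    rw [h1] at h2
    have h3 : charDegree (linFn p.2.1 * (E p.1).1) = d := by exact_mod_cast h2
    change (charDegree (linFn p.2.1 * (E p.1).1)).Coprime (Nat.card H)
    rw [h3]
    exact hcop.coprime_dvd_left (CharCo.deg_dvd_card p.1.1.2 hd)
  · rintro ⟨θ, l, hl⟩ ⟨θ', l', hl'⟩ h
    have h1 : linFn l * (E θ).1 = linFn l' * (E θ').1 :=
      congrArg (fun x : {χ : IrrCharacter G // (charDegree χ.1).Coprime (Nat.card H)} => x.1.1) h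
    have h2 : θ = θ' := by
      apply Subtype.ext
      apply Subtype.ext
      funext n
      have := congrFun h1 n
      rw [Pi.mul_apply, Pi.mul_apply, linFn_apply, linFn_apply, hl n n.2, hl' n n.2,
        Units.val_one, one_mul, one_mul, hE, hE] at this
      exact this
    subst h2
    have h3 := (gallagher θ.1.2 (E θ).2 (hE θ)).injOn
      (x₁ := linFn l) (x₂ := linFn l') ⟨linFn_isIrr l, fun n hn => by
        rw [linFn_apply, linFn_apply_one, hl n hn, Units.val_one]⟩ ⟨linFn_isIrr l', fun n hn => by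
        rw [linFn_apply, linFn_apply_one, hl' n hn, Units.val_one]⟩ h1
    have h4 := linFn_injective h3
    subst h4
    rfl
  · rintro ⟨χ, hχ⟩
    -- a constituent
    have hres : IsCharacter K (fun n : K => χ.1 n) := CharInd.isChar_res K (isChar_of_irr χ.2)
    have hne : (fun n : K => χ.1 n) ≠ 0 := by
      intro h0
      have := congrFun h0 1
      exact isIrr_one_ne_zero χ.2 this
    obtain ⟨θ, hθ⟩ := char_ne_zero_exists_constituent hres hne
    obtain ⟨e, he⟩ := exists_nat_inner hres θ.2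
    obtain ⟨c, hc0, hc⟩ := isIrr_one_eq χ.2
    obtain ⟨d, hd0, hd⟩ := isIrr_one_eq θ.2
    have h1 := degree_eq χ.2 θ.2 hθ
    rw [he, hd, hc] at h1
    have h2 : c = e * (inertia θ.1).index * d := by exact_mod_cast h1
    have hcc : charDegree χ.1 = c := by
      have := CharGlaub2.charDegree_cast (isChar_of_irr χ.2)
      rw [hc] at this
      exact_mod_cast this
    rw [hcc] at hχ
    have h3 : (inertia θ.1).index = 1 := by
      have h4 : (inertia θ.1).index ∣ Nat.card H := by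
        rw [← hidx]
        exact Subgroup.index_dvd_of_le (le_inertia (isChar_classFn (isChar_of_irr θ.2)))
      have h5 : (inertia θ.1).index ∣ c := by
        rw [h2]
        exact (Dvd.intro_left e rfl).mul_right d
      exact Nat.eq_one_of_dvd_coprimes hχ h5 h4
    have hinv : ∀ x : G, cj x θ.1 = θ.1 := by
      intro x
      rw [← mem_inertia, Subgroup.index_eq_one.mp h3]
      exact Subgroup.mem_top x
    set Θ : {θ : IrrCharacter K // ∀ x : G, cj x θ.1 = θ.1} := ⟨θ, hinv⟩ with hΘ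
    obtain ⟨β, ⟨hβirr, hβK⟩, hβ⟩ := (gallagher θ.2 (E Θ).2 (hE Θ)).surjOn ⟨χ.2, hθ⟩
    simp only at hβ
    obtain ⟨b, hb0, hb⟩ := isIrr_one_eq hβirr
    -- degree of `β` divides `|H|`
    have h6 : b ∣ Nat.card H := by
      obtain ⟨ψ, hψc, hψ, hψirr⟩ := CharKer.exists_quot (isChar_of_irr hβirr) hβK
      have h7 := CharCo.deg_dvd_card (hψirr hβirr) (d := b) (by rw [← hb, hψ]; rfl)
      rwa [← Subgroup.index_eq_card, hidx] at h7
    have h8 : b ∣ c := by
      have h9 := congrFun hβ 1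
      rw [Pi.mul_apply, hb, hc] at h9
      have h10 := hE Θ 1
      rw [OneMemClass.coe_one] at h10
      rw [h10] at h9
      change (b : ℂ) * θ.1 1 = c at h9
      rw [hd] at h9
      exact ⟨d, by exact_mod_cast h9.symm⟩
    have hb1 : b = 1 := Nat.eq_one_of_dvd_coprimes hχ h8 h6
    rw [hb1, Nat.cast_one] at hb
    obtain ⟨l, rfl⟩ := lin_iff.mp ⟨isChar_of_irr hβirr, hb⟩
    refine ⟨⟨Θ, l, ?_⟩, ?_⟩
    · intro k hk
      have := hβK k hk
      rw [linFn_apply_one, linFn_apply] at this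
      exact Units.ext this
    · apply Subtype.ext
      apply Subtype.ext
      exact hβ

end Count

theorem count_main {G : Type*} [Group G] [Finite G] (K H : Subgroup G) [hKn : K.Normal]
    (hKH : K ⊔ H = ⊤) (hcop : (Nat.card K).Coprime (Nat.card H)) (hsolv : Group.IsSolvable H) :
    Nat.card {χ : IrrCharacter G // (charDegree χ.1).Coprime (Nat.card H)} =
      Nat.card {η : IrrCharacter (Subgroup.normalizer (H : Set G)) //
        (charDegree η.1).Coprime (Nat.card H)} := by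
  set N := Subgroup.normalizer (H : Set G) with hN
  set C := K ⊓ Subgroup.centralizer (H : Set G) with hC
  have hHK : H ≤ Subgroup.normalizer (K : Set G) := by
    rw [Subgroup.normalizer_eq_top]; exact le_top
  have hok : Ok H K C := by
    refine ⟨hHK, hcop, fun x => ?_⟩
    rw [hC, Subgroup.mem_inf, Subgroup.mem_centralizer_iff]
    exact and_congr_right fun _ => forall₂_congr fun s _ => eq_comm
  have hdec : ∀ x : G, ∃ k ∈ K, ∃ h ∈ H, x = k * h := by
    intro x
    have hx : x ∈ K ⊔ H := by rw [hKH]; exact Subgroup.mem_top x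
    rw [Subgroup.mem_sup_of_normal_left] at hx
    obtain ⟨k, hk, h, hh, e⟩ := hx
    exact ⟨k, hk, h, hh, e.symm⟩
  have hinf : ∀ x, x ∈ K → x ∈ H → x = 1 := by
    intro x h1 h2
    have h3 : orderOf x ∣ Nat.card K := Subgroup.orderOf_dvd_natCard _ h1
    have h4 : orderOf x ∣ Nat.card H := Subgroup.orderOf_dvd_natCard _ h2
    have h5 := Nat.dvd_gcd h3 h4
    rw [Nat.coprime_iff_gcd_eq_one.mp hcop] at h5
    exact orderOf_eq_one_iff.mp (Nat.dvd_one.mp h5)
  have hHN : H ≤ N := Subgroup.le_normalizer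
  have hCN : C ≤ N := by
    intro c hc
    rw [hN, Subgroup.mem_normalizer_iff]
    intro h
    have h2 := (hok.2.2 c).mp hc
    constructor
    · intro hh
      rw [h2.2 h hh, mul_inv_cancel_right]
      exact hh
    · intro hh
      have h3 := h2.2 _ hh
      have h4 : h = c⁻¹ * (c * h * c⁻¹) * c := by group
      have h5 : c⁻¹ * (c * h * c⁻¹) * c = c * h * c⁻¹ := by
        rw [mul_assoc, ← h3]; group
      rw [h4, h5]
      exact hh
  have hCK : C ≤ K := inf_le_left
  have hNdec : ∀ x ∈ N, ∃ c ∈ C, ∃ h ∈ H, x = c * h := by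
    intro x hx
    obtain ⟨k, hk, h, hh, rfl⟩ := hdec x
    refine ⟨k, ?_, h, hh, rfl⟩
    have hkN : k ∈ N := by
      have : k = k * h * h⁻¹ := by group
      rw [this]
      exact N.mul_mem hx (N.inv_mem (hHN hh))
    rw [hok.2.2]
    refine ⟨hk, fun h' hh' => ?_⟩
    have h1 : k * h' * k⁻¹ * h'⁻¹ ∈ H :=
      H.mul_mem ((Subgroup.mem_normalizer_iff.mp hkN h').mp hh') (H.inv_mem hh')
    have h2 : k * h' * k⁻¹ * h'⁻¹ ∈ K := by
      have e : k * h' * k⁻¹ * h'⁻¹ = k * (h' * k⁻¹ * h'⁻¹) := by group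
      rw [e]
      exact K.mul_mem hk (hKn.conj_mem _ (K.inv_mem hk) h')
    have h3 := hinf _ h2 h1
    rw [mul_inv_eq_one, mul_inv_eq_iff_eq_mul] at h3
    exact h3
  -- the left side
  have hL := card_coprime_deg hKH hcop
  have e1 : Nat.card {θ : IrrCharacter K // ∀ x : G, cj x θ.1 = θ.1} =
      Nat.card (IrrCharacter C) := by
    rw [← card_inv_irr hok hsolv]
    apply Nat.card_congr
    refine Equiv.subtypeEquivRight fun θ => ?_
    rw [invI_iff hHK]
    constructor
    · intro h s hs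
      exact Subtype.ext (h s)
    · intro h x
      obtain ⟨k, hk, s, hs, rfl⟩ := hdec x
      rw [cj_mul, cj_of_mem (isChar_classFn (isChar_of_irr θ.2)) hk]
      exact congrArg Subtype.val (h s hs)
  -- the right side
  set C' := C.subgroupOf N with hC'
  set H' := H.subgroupOf N with hH'
  have hNC : N ≤ Subgroup.normalizer (C : Set G) := by
    apply le_normalizer_of
    intro x hx c hc
    obtain ⟨d, hd, h, hh, rfl⟩ := hNdec x hx
    have h1 : h * c * h⁻¹ = c := by
      rw [← ((hok.2.2 c).mp hc).2 h hh, mul_inv_cancel_right]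
    have e : d * h * c * (d * h)⁻¹ = d * (h * c * h⁻¹) * d⁻¹ := by group
    rw [e, h1]
    exact C.mul_mem (C.mul_mem hd hc) (C.inv_mem hd)
  have hC'n : C'.Normal := (Subgroup.normal_subgroupOf_iff_le_normalizer hCN).mpr hNC
  have cC : Nat.card C' = Nat.card C := Nat.card_congr (Subgroup.subgroupOfEquivOfLe hCN).toEquiv
  have cH : Nat.card H' = Nat.card H := Nat.card_congr (Subgroup.subgroupOfEquivOfLe hHN).toEquiv
  have hcop' : (Nat.card C').Coprime (Nat.card H') := by
    rw [cC, cH]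
    exact hcop.coprime_dvd_left (Subgroup.card_dvd_of_le hCK)
  have htop' : C' ⊔ H' = ⊤ := by
    rw [Subgroup.eq_top_iff']
    rintro ⟨x, hx⟩
    obtain ⟨c, hc, h, hh, rfl⟩ := hNdec x hx
    have e : (⟨c * h, hx⟩ : N) = ⟨c, hCN hc⟩ * ⟨h, hHN hh⟩ := rfl
    rw [e]
    exact mul_mem (Subgroup.mem_sup_left hc) (Subgroup.mem_sup_right hh)
  have hR := card_coprime_deg htop' hcop'
  have e2 : Nat.card {θ : IrrCharacter C' // ∀ x : N, cj x θ.1 = θ.1} =
      Nat.card (IrrCharacter C) := by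
    rw [← Nat.card_congr (irrEquiv (Subgroup.subgroupOfEquivOfLe hCN)).symm]
    apply Nat.card_congr
    refine (Equiv.subtypeUnivEquiv ?_)
    intro θ x
    obtain ⟨c, hc, h, hh, hx⟩ := hNdec x x.2
    have hx' : x = ⟨c, hCN hc⟩ * ⟨h, hHN hh⟩ := Subtype.ext hx
    rw [hx', cj_mul, cj_of_mem (isChar_classFn (isChar_of_irr θ.2)) (show (⟨c, hCN hc⟩ : N) ∈ C' from hc)]
    funext y
    rw [cj_apply]
    refine congrArg θ.1 (Subtype.ext (Subtype.ext ?_))
    change h * ((y : N) : G) * h⁻¹ = ((y : N) : G)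
    have hy : ((y : N) : G) ∈ C := y.2
    rw [← ((hok.2.2 _).mp hy).2 h hh, mul_inv_cancel_right]
  have e3 : Nat.card (H' →* ℂˣ) = Nat.card (H →* ℂˣ) := by
    apply Nat.card_congr
    exact (Subgroup.subgroupOfEquivOfLe hHN).monoidHomCongrLeftEquiv
  rw [cH, e2, e3] at hR
  rw [hL, e1, hR]

end

end Cfsg.Agent.Lib.CharCoF
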