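import Cfsg.Agent.Lib.CharFS

/-! Convolution of irreducible characters. -/

set_option autoImplicit false
set_option linter.unusedVariables false
set_option linter.unusedSectionVars false

namespace Cfsg.Agent.Lib.CharConv

open Cfsg Cfsg.Agent.Lib.CharBasic Cfsg.Agent.Lib.CharInt
open scoped ComplexConjugate

noncomputable section

/-- Convolution: `Σ_z χ(z) ψ(z⁻¹ g) = δ |G| χ(g) / χ(1)`. -/
theorem conv {G : Type*} [Group G] [Fintype G] (χ ψ : IrrCharacter G) [Decidable (χ = ψ)] (g : G) :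
    ∑ z : G, χ.1 z * ψ.1 (z⁻¹ * g) =
      if χ = ψ then (Nat.card G : ℂ) * ψ.1 g / ψ.1 1 else 0 := by
  classical
  obtain ⟨n, ρ, hρ, hψ⟩ := ψ.2
  have h5 := sum_smul_eq_scalar ρ (fun b => χ.1 b⁻¹)
    (isChar_classFn (isChar_dual (isChar_of_irr χ.2)))
  have h6 := congrArg (fun T => LinearMap.trace ℂ (Fin n → ℂ) (T * ρ g)) h5
  simp only [Finset.sum_mul, smul_mul_assoc, map_sum, map_smul, smul_eq_mul] at h6
  rw [show (LinearMap.id : (Fin n → ℂ) →ₗ[ℂ] (Fin n → ℂ)) * ρ g = ρ g from rfl] at h6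
  have h7 : ∑ z : G, χ.1 z * ψ.1 (z⁻¹ * g) =
      ∑ b : G, χ.1 b⁻¹ * LinearMap.trace ℂ (Fin n → ℂ) (ρ b * ρ g) := by
    refine Fintype.sum_equiv (Equiv.inv G) _ _ fun b => ?_
    simp only [Equiv.inv_apply, inv_inv, ← map_mul, ← hψ]
    rfl
  have h8 : ∑ b : G, χ.1 b⁻¹ * ρ.character b = if χ = ψ then (Nat.card G : ℂ) else 0 := by
    have h := irr_inner' ψ χ
    rw [classInner_def, inv_mul_eq_iff_eq_mul₀ card_ne_zero'] at h
    have h9 : ∑ b : G, χ.1 b⁻¹ * ρ.character b = ∑ b : G, ψ.1 b * conj (χ.1 b) := by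
      refine Finset.sum_congr rfl fun b _ => ?_
      rw [char_inv (isChar_of_irr χ.2), ← hψ]; ring
    rw [h9, h]
    by_cases hc : χ = ψ
    · subst hc; simp
    · rw [if_neg hc, if_neg (Ne.symm hc), mul_zero]
  rw [h7, h6, h8]
  have h10 : LinearMap.trace ℂ (Fin n → ℂ) (ρ g) = ψ.1 g := by rw [← hψ]; rfl
  have h11 : (Module.finrank ℂ (Fin n → ℂ) : ℂ) = ψ.1 1 := by
    rw [← hψ]; exact ρ.char_one.symm
  rw [h10, h11]
  split_ifs
  · ring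
  · simp

/-- Norm of an irreducible character value at most its degree. -/
theorem norm_le_one {G : Type*} [Group G] [Finite G] {χ : G → ℂ} (h : IsCharacter G χ) (g : G) :
    ‖χ g‖ ≤ ‖χ 1‖ := by
  obtain ⟨n, hn⟩ := isChar_one_eq h
  have h1 := char_norm_le h g
  rw [hn] at h1 ⊢
  simpa using h1

theorem two_comm {G : Type*} [Group G] [Finite G]
    (h : ∑ᶠ χ : IrrCharacter G, 1 / ‖(χ : G → ℂ) 1‖ ^ 2 < (2 : ℝ)) (g : G) :
    ∃ a b c d : G, (a * b * a⁻¹ * b⁻¹) * (c * d * c⁻¹ * d⁻¹) = g := by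
  classical
  cases nonempty_fintype G
  by_contra hcon
  push Not at hcon
  have hG0 : (Nat.card G : ℂ) ≠ 0 := card_ne_zero'
  have hz : ∀ z : G, (∑ χ : IrrCharacter G, χ.1 z / χ.1 1) *
      (∑ χ : IrrCharacter G, χ.1 (z⁻¹ * g) / χ.1 1) = 0 := by
    intro z
    have h1 := Lib.CharFS.card_commutator_eq z
    have h2 := Lib.CharFS.card_commutator_eq (z⁻¹ * g)
    have h3 : (Nat.card {p : G × G // p.1 * p.2 * p.1⁻¹ * p.2⁻¹ = z} : ℂ) *
      (Nat.card {p : G × G // p.1 * p.2 * p.1⁻¹ * p.2⁻¹ = z⁻¹ * g} : ℂ) = 0 := by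
      by_contra h0
      have h4 := left_ne_zero_of_mul h0
      have h5 := right_ne_zero_of_mul h0
      rw [Nat.cast_ne_zero, Nat.card_ne_zero] at h4 h5
      obtain ⟨⟨p, hp⟩⟩ := h4.1
      obtain ⟨⟨q, hq⟩⟩ := h5.1
      apply hcon p.1 p.2 q.1 q.2
      rw [hp, hq]; group
    rw [h1, h2] at h3
    have h4 : (Nat.card G : ℂ) ^ 2 * ((∑ χ : IrrCharacter G, χ.1 z / χ.1 1) *
      (∑ χ : IrrCharacter G, χ.1 (z⁻¹ * g) / χ.1 1)) = 0 := by rw [← h3]; ring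
    exact (mul_eq_zero.mp h4).resolve_left (pow_ne_zero 2 hG0)
  have hs : ∑ z : G, (∑ χ : IrrCharacter G, χ.1 z / χ.1 1) *
      (∑ χ : IrrCharacter G, χ.1 (z⁻¹ * g) / χ.1 1) =
      ∑ χ : IrrCharacter G, (Nat.card G : ℂ) * (χ.1 g / χ.1 1 ^ 3) := by
    simp only [Finset.sum_mul_sum]
    rw [Finset.sum_comm]
    refine Finset.sum_congr rfl fun χ _ => ?_
    rw [Finset.sum_comm]
    have h1 : ∀ ψ : IrrCharacter G, ∑ z : G, χ.1 z / χ.1 1 * (ψ.1 (z⁻¹ * g) / ψ.1 1) =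
        if χ = ψ then (Nat.card G : ℂ) * ψ.1 g / ψ.1 1 / (χ.1 1 * ψ.1 1) else 0 := by
      intro ψ
      have h2 : ∀ z : G, χ.1 z / χ.1 1 * (ψ.1 (z⁻¹ * g) / ψ.1 1) =
        (χ.1 z * ψ.1 (z⁻¹ * g)) / (χ.1 1 * ψ.1 1) := fun z => by ring
      simp only [h2]
      rw [← Finset.sum_div, conv]
      split_ifs <;> simp
    simp only [h1]
    rw [Finset.sum_ite_eq Finset.univ χ, if_pos (Finset.mem_univ _)]
    have := isIrr_one_ne_zero χ.2
    field_simp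
  rw [Finset.sum_eq_zero fun z _ => hz z] at hs
  rw [← Finset.mul_sum] at hs
  have hs1 := (mul_eq_zero.mp hs.symm).resolve_left hG0
  rw [finsum_eq_sum_of_fintype] at h
  obtain ⟨T, hT⟩ : ∃ T : IrrCharacter G, T = ⟨fun _ => 1, isIrr_trivial⟩ := ⟨_, rfl⟩
  rw [← Finset.add_sum_erase _ _ (Finset.mem_univ T)] at hs1 h
  have h1 : (1 : ℂ) = -∑ χ ∈ Finset.univ.erase T, χ.1 g / χ.1 1 ^ 3 := by
    have : T.1 g / T.1 1 ^ 3 = 1 := by rw [hT]; simp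
    rw [this] at hs1
    linear_combination hs1
  have h2 : (1 : ℝ) ≤ ∑ χ ∈ Finset.univ.erase T, 1 / ‖χ.1 1‖ ^ 2 := by
    calc (1 : ℝ) = ‖(1 : ℂ)‖ := by simp
      _ = ‖∑ χ ∈ Finset.univ.erase T, χ.1 g / χ.1 1 ^ 3‖ := by rw [h1, norm_neg]
      _ ≤ ∑ χ ∈ Finset.univ.erase T, ‖χ.1 g / χ.1 1 ^ 3‖ := norm_sum_le _ _
      _ ≤ _ := by
        refine Finset.sum_le_sum fun χ _ => ?_
        have hpos : 0 < ‖χ.1 1‖ := norm_pos_iff.mpr (isIrr_one_ne_zero χ.2)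
        have := norm_le_one (isChar_of_irr χ.2) g
        rw [norm_div, norm_pow, div_le_div_iff₀ (by positivity) (by positivity)]
        calc ‖χ.1 g‖ * ‖χ.1 1‖ ^ 2 ≤ ‖χ.1 1‖ * ‖χ.1 1‖ ^ 2 := by gcongr
          _ = 1 * ‖χ.1 1‖ ^ 3 := by ring
  have h3 : 1 / ‖T.1 1‖ ^ 2 = 1 := by rw [hT]; simp
  rw [h3] at h
  linarith

end

end Cfsg.Agent.Lib.CharConv
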