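import Cfsg.Agent.Lib.CharInt
import Cfsg.Agent.Lib.CharTable
import Cfsg.Agent.Lib.CharMono
import Cfsg.Prelude.Def_Transfer

set_option autoImplicit false

/-!
# Characters of extraspecial groups
-/

namespace Cfsg.Agent.Lib.CharESp

open Cfsg Representation Module Cfsg.Agent.Lib.CharBasic Cfsg.Agent.Lib.CharInt
open Cfsg.Agent.Lib.CharLin Cfsg.Agent.Lib.CharKer Cfsg.Agent.Lib.CharMono Cfsg.Agent.Lib.CharTable
open Cfsg.Agent.Lib.CharRep Cfsg.Agent.Lib.CharInd
open scoped ComplexConjugate

noncomputable section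

variable {P : Type*} [Group P] [Finite P]

theorem comm_eq {p : ℕ} (hP : IsExtraspecial p P) : commutator P = Subgroup.center P := hP.1.2.2

theorem card_center {p : ℕ} (hP : IsExtraspecial p P) : Nat.card (Subgroup.center P) = p := hP.2

/-- Some nontrivial central value forces nontriviality on every nontrivial central element. -/
theorem ne_of_center {p : ℕ} [hp : Fact p.Prime] (hP : IsExtraspecial p P) {χ : P → ℂ}
    (hχ : IsCharacter P χ) (h : ∃ z ∈ Subgroup.center P, χ z ≠ χ 1) {z : P}
    (hz : z ∈ Subgroup.center P) (hz1 : z ≠ 1) : χ z ≠ χ 1 := by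
  intro h1
  obtain ⟨w, hw, hw1⟩ := h
  apply hw1
  rw [← mem_kerChar hχ] at h1 ⊢
  have hcyc : Subgroup.zpowers z = Subgroup.center P := by
    apply Subgroup.eq_of_le_of_card_ge
    · rwa [Subgroup.zpowers_le]
    · rw [card_center hP, Nat.card_zpowers]
      have h2 : orderOf z ∣ p := by
        rw [← card_center hP, ← Subgroup.orderOf_mk _ hz]
        exact orderOf_dvd_natCard _
      rcases (Nat.dvd_prime hp.out).mp h2 with h3 | h3
      · exact absurd (orderOf_eq_one_iff.mp h3) hz1
      · exact h3.ge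
  rw [← hcyc] at hw
  exact (Subgroup.zpowers_le.mpr h1) hw

theorem vanish {p : ℕ} [hp : Fact p.Prime] (hP : IsExtraspecial p P) {χ : P → ℂ}
    (hχ : IsIrrCharacter P χ) (h : ∃ z ∈ Subgroup.center P, χ z ≠ χ 1) {x : P}
    (hx : x ∉ Subgroup.center P) : χ x = 0 := by
  obtain ⟨y, hy⟩ : ∃ y, y * x ≠ x * y := by
    by_contra hcon
    push Not at hcon
    exact hx (Subgroup.mem_center_iff.mpr hcon)
  have hz : x⁻¹ * (y * x * y⁻¹) ∈ Subgroup.center P := by
    rw [← comm_eq hP]
    have h2 := Subgroup.commutator_mem_commutator (Subgroup.mem_top x⁻¹) (Subgroup.mem_top y)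
    rw [commutatorElement_def, inv_inv] at h2
    have h3 : x⁻¹ * (y * x * y⁻¹) = x⁻¹ * y * x * y⁻¹ := by group
    rw [h3]
    exact h2
  have hz1 : x⁻¹ * (y * x * y⁻¹) ≠ 1 := by
    intro h1
    apply hy
    have : y * x * y⁻¹ = x := by
      have := congrArg (fun t => x * t) h1
      simpa using this
    rw [← mul_inv_eq_iff_eq_mul]
    exact this
  have hne := ne_of_center hP (isChar_of_irr hχ) h hz hz1
  obtain ⟨n, ρ, hρ, rfl⟩ := hχ
  obtain ⟨c, hc⟩ := center_scalar ρ _ hz
  have h1 : ρ.character x = c * ρ.character x := by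
    have h2 : ρ.character (x * (x⁻¹ * (y * x * y⁻¹))) = c * ρ.character x := by
      rw [Representation.character, map_mul, hc]
      rw [show ρ x * c • LinearMap.id = c • ρ x by
        ext; simp, map_smul]
      rfl
    rw [← h2]
    have h3 : x * (x⁻¹ * (y * x * y⁻¹)) = y * x * y⁻¹ := by group
    rw [h3, isChar_classFn (isCharacter_of_rep ρ) x y]
  have hc1 : c ≠ 1 := by
    rintro rfl
    apply hne
    rw [one_smul] at hc
    exact (char_eq_one_iff ρ _).mpr hc
  have h4 : (1 - c) * ρ.character x = 0 := by linear_combination h1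
  rcases mul_eq_zero.mp h4 with h5 | h5
  · exact absurd (sub_eq_zero.mp h5).symm hc1
  · exact h5

theorem degree {p n : ℕ} [hp : Fact p.Prime] (hP : IsExtraspecial p P)
    (hcard : Nat.card P = p ^ (2 * n + 1)) {χ : P → ℂ}
    (hχ : IsIrrCharacter P χ) (h : ∃ z ∈ Subgroup.center P, χ z ≠ χ 1) :
    χ 1 = (p : ℂ) ^ n := by
  classical
  cases nonempty_fintype P
  obtain ⟨d, hd0, hd⟩ := isIrr_one_eq hχ
  have h1 := irr_inner_self hχ
  rw [classInner_def] at h1
  have h2 : ∀ x : P, χ x * conj (χ x) = if x ∈ Subgroup.center P then (d : ℂ) ^ 2 else 0 := by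
    intro x
    by_cases hx : x ∈ Subgroup.center P
    · rw [if_pos hx]
      obtain ⟨m, ρ, hρ, hρχ⟩ := hχ
      obtain ⟨c, hc⟩ := center_scalar ρ _ hx
      have hm : m = d := by
        rw [← hρχ, Representation.char_one, finrank_fin_fun] at hd
        exact_mod_cast hd
      have h3 : ‖ρ.character x‖ = (finrank ℂ (Fin m → ℂ) : ℝ) :=
        (norm_char_eq_degree_iff ρ x).mpr ⟨c, hc⟩
      rw [← hρχ, Complex.mul_conj, Complex.normSq_eq_norm_sq, h3, finrank_fin_fun, hm]
      push_cast
      rfl
    · rw [if_neg hx, vanish hP hχ h hx, zero_mul]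
  simp only [h2] at h1
  rw [← Finset.sum_filter, Finset.sum_const, nsmul_eq_mul] at h1
  have h3 : (Finset.univ.filter (fun x : P => x ∈ Subgroup.center P)).card = p := by
    rw [← card_center hP]
    exact (Fintype.card_subtype _).symm.trans Nat.card_eq_fintype_card.symm
  rw [h3, hcard] at h1
  have hp0 : (p : ℂ) ≠ 0 := Nat.cast_ne_zero.mpr hp.out.ne_zero
  have h4 : (p : ℂ) * d ^ 2 = p ^ (2 * n + 1) := by
    have h5 : ((p ^ (2 * n + 1) : ℕ) : ℂ) ≠ 0 := by
      exact_mod_cast (pow_pos hp.out.pos _).ne'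
    rw [inv_mul_eq_one₀ h5] at h1
    rw [← h1]; push_cast; ring
  have h5 : p * d ^ 2 = p ^ (2 * n + 1) := by exact_mod_cast h4
  have h6 : d ^ 2 = (p ^ n) ^ 2 := by
    apply Nat.eq_of_mul_eq_mul_left hp.out.pos
    rw [h5]; ring
  have h7 : d = p ^ n := Nat.pow_left_injective (n := 2) (by norm_num) h6
  rw [hd, h7]; push_cast; rfl

theorem degree_or {p n : ℕ} [hp : Fact p.Prime] (hP : IsExtraspecial p P)
    (hcard : Nat.card P = p ^ (2 * n + 1)) {χ : P → ℂ} (hχ : IsIrrCharacter P χ) :
    χ 1 = 1 ∨ χ 1 = (p : ℂ) ^ n := by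
  by_cases h : ∃ z ∈ Subgroup.center P, χ z ≠ χ 1
  · exact Or.inr (degree hP hcard hχ h)
  · left
    push Not at h
    obtain ⟨l, hl⟩ := linear_of_commutator_le hχ (by
      intro a b
      apply h
      rw [← comm_eq hP]
      exact Subgroup.commutator_mem_commutator (Subgroup.mem_top a) (Subgroup.mem_top b))
    rw [hl, linFn_apply_one]

theorem n_pos {p n : ℕ} [hp : Fact p.Prime] (hP : IsExtraspecial p P)
    (hcard : Nat.card P = p ^ (2 * n + 1)) : 1 ≤ n := by
  by_contra hn
  have hn0 : n = 0 := by omega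
  subst hn0
  have h1 : Subgroup.center P = ⊤ := by
    rw [← Subgroup.card_eq_iff_eq_top, card_center hP, hcard]; simp
  have h2 : commutator P = ⊥ := by
    rw [commutator_eq_bot_iff_center_eq_top]
    exact h1
  have h3 := card_center hP
  rw [← comm_eq hP, h2, Subgroup.card_bot] at h3
  exact hp.out.one_lt.ne h3

theorem count {p n : ℕ} [hp : Fact p.Prime] (hP : IsExtraspecial p P)
    (hcard : Nat.card P = p ^ (2 * n + 1)) :
    Nat.card {χ : IrrCharacter P // χ.1 1 = (p : ℂ) ^ n} = p - 1 := by
  classical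
  cases nonempty_fintype P
  have hn := n_pos hP hcard
  have hp1 := hp.out.one_lt
  have hpn : p ^ n ≠ 1 := (Nat.one_lt_pow (by omega) hp1).ne'
  have hpnC : (p : ℂ) ^ n ≠ 1 := by exact_mod_cast hpn
  let d : IrrCharacter P → ℕ := fun χ => if χ.1 1 = 1 then 1 else p ^ n
  have hd : ∀ χ : IrrCharacter P, χ.1 1 = d χ := by
    intro χ
    by_cases h : χ.1 1 = 1
    · simp only [d, if_pos h]; rw [h]; simp
    · simp only [d, if_neg h]
      rw [(degree_or hP hcard χ.2).resolve_left h]; push_cast; rfl
  have h1 := sum_sq_degrees d hd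
  have h2 : ∑ χ : IrrCharacter P, d χ ^ 2 =
      Nat.card {χ : IrrCharacter P // χ.1 1 = 1} +
      Nat.card {χ : IrrCharacter P // χ.1 1 = (p : ℂ) ^ n} * (p ^ n) ^ 2 := by
    rw [Nat.card_eq_fintype_card, Nat.card_eq_fintype_card, Fintype.card_subtype,
      Fintype.card_subtype, ← Finset.sum_filter_add_sum_filter_not Finset.univ
      (fun χ : IrrCharacter P => χ.1 1 = 1)]
    congr 1
    · rw [Finset.card_eq_sum_ones]
      refine Finset.sum_congr rfl fun χ hχ => ?_
      simp only [d, if_pos (Finset.mem_filter.mp hχ).2]; rfl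
    · have h3 : (Finset.univ.filter (fun χ : IrrCharacter P => ¬ χ.1 1 = 1)) =
          Finset.univ.filter (fun χ : IrrCharacter P => χ.1 1 = (p : ℂ) ^ n) := by
        ext χ
        simp only [Finset.mem_filter, Finset.mem_univ, true_and]
        constructor
        · intro h; exact (degree_or hP hcard χ.2).resolve_left h
        · intro h h'; exact hpnC (h.symm.trans h')
      rw [h3, Finset.card_eq_sum_ones, Finset.sum_mul]
      refine Finset.sum_congr rfl fun χ hχ => ?_
      have h4 := (Finset.mem_filter.mp hχ).2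
      have h5 : ¬ χ.1 1 = 1 := fun h' => hpnC (h4.symm.trans h')
      simp only [d, if_neg h5, one_mul]
  have h3 : (commutator P).index = p ^ (2 * n) := by
    have h4 := (commutator P).card_mul_index
    rw [comm_eq hP, card_center hP, hcard] at h4
    rw [comm_eq hP]
    apply Nat.eq_of_mul_eq_mul_left hp.out.pos
    rw [h4]; ring
  rw [h2, card_lin, h3, hcard] at h1
  have h4 : (p ^ n) ^ 2 = p ^ (2 * n) := by ring
  rw [h4] at h1
  have h5 : p ^ (2 * n) * (1 + Nat.card {χ : IrrCharacter P // χ.1 1 = (p : ℂ) ^ n}) =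
      p ^ (2 * n) * p := by
    rw [← pow_succ, ← h1]; ring
  have h6 := Nat.eq_of_mul_eq_mul_left (pow_pos hp.out.pos _) h5
  omega

/-- Induction from a maximal abelian subgroup. -/
theorem ind_irr [Fintype P] {p n : ℕ} [hp : Fact p.Prime] (hP : IsExtraspecial p P)
    (hcard : Nat.card P = p ^ (2 * n + 1)) (A : Subgroup P) (hA : Nat.card A = p ^ (n + 1))
    {lam : A → ℂ} (hlam : IsCharacter A lam) (h1 : lam 1 = 1)
    (hZ : ∃ a : A, (a : P) ∈ Subgroup.center P ∧ lam a ≠ 1) :
    IsIrrCharacter P (indFun A lam) ∧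
      ∀ x : P, x ∉ Subgroup.center P → indFun A lam x = 0 := by
  classical
  have hchar := isChar_ind A hlam
  obtain ⟨a, haZ, ha⟩ := hZ
  have hidx : A.index = p ^ n := by
    have := A.card_mul_index
    rw [hA, hcard] at this
    apply Nat.eq_of_mul_eq_mul_left (pow_pos hp.out.pos (n + 1))
    rw [this]; ring
  have hdeg : indFun A lam 1 = (p : ℂ) ^ n := by
    rw [indFun_one, h1, hidx, mul_one]; push_cast; rfl
  have hva : indFun A lam a = (p : ℂ) ^ n * lam a := by
    rw [indFun_apply]
    have h2 : ∀ x : P, extendByZero A lam (x⁻¹ * a * x) = lam a := by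
      intro x
      have h3 : x⁻¹ * (a : P) * x = a := by
        have := Subgroup.mem_center_iff.mp haZ x
        rw [mul_assoc, ← this]; group
      rw [h3]
      exact ext_mem A lam a.2
    simp only [h2, Finset.sum_const, Finset.card_univ, nsmul_eq_mul]
    rw [← Nat.card_eq_fintype_card, hA, hcard]
    have hp0 : (p : ℂ) ≠ 0 := Nat.cast_ne_zero.mpr hp.out.ne_zero
    push_cast
    field_simp
    ring
  have hnorm : ‖lam a‖ = 1 := by
    obtain ⟨l, rfl⟩ := lin_iff.mp ⟨hlam, h1⟩
    exact linFn_norm' l a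
  -- a constituent
  have hne : indFun A lam ≠ 0 := by
    intro h0
    rw [h0] at hdeg
    have hp0 : (p : ℂ) ≠ 0 := Nat.cast_ne_zero.mpr hp.out.ne_zero
    exact (pow_ne_zero n hp0) hdeg.symm
  obtain ⟨ψ, hψ⟩ := char_ne_zero_exists_constituent hchar hne
  -- its value at `a`
  have hψa : ψ.1 a ≠ ψ.1 1 := by
    -- eigenvalue argument through representations
    intro hcon
    -- restrict to the centre: use inner products
    have hn' : ∀ φ : IrrCharacter P, classInner (indFun A lam) φ.1 ≠ 0 →
        φ.1 a = lam a * φ.1 1 := by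
      intro φ hφ
      obtain ⟨r, ρ, hρ, hρφ⟩ := φ.2
      obtain ⟨c, hc⟩ := center_scalar ρ _ haZ
      have hr1 := reciprocity' A lam φ.1 (isChar_classFn (isChar_of_irr φ.2))
      have hr2 : classInner (fun h : A => φ.1 h) lam ≠ 0 := by
        rw [← hr1]
        intro h0
        apply hφ
        rw [← classInner_conj_symm, h0, map_zero]
      -- `φ(h a) = c φ(h)`
      have hca : ∀ x : P, φ.1 (x * a) = c * φ.1 x := by
        intro x
        rw [← hρφ, Representation.character, map_mul, hc]
        rw [show ρ x * c • LinearMap.id = c • ρ x by ext; simp, map_smul]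
        rfl
      obtain ⟨l, rfl⟩ := lin_iff.mp ⟨hlam, h1⟩
      have hla : ∀ x : A, linFn l (x * a) = linFn l x * linFn l a := by
        intro x
        simp [linFn_apply]
      have h5 : classInner (fun h : A => φ.1 h) (linFn l) =
          c * conj (linFn l a) * classInner (fun h : A => φ.1 h) (linFn l) := by
        rw [classInner_def]
        have h5a : ∑ x : A, φ.1 x * conj (linFn l x) =
            ∑ x : A, φ.1 ((x * a : A) : P) * conj (linFn l (x * a)) :=
          (Equiv.sum_comp (Equiv.mulRight a) (fun x : A => φ.1 x * conj (linFn l x))).symm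
        have h5b : ∑ x : A, φ.1 ((x * a : A) : P) * conj (linFn l (x * a)) =
            c * conj (linFn l a) * ∑ x : A, φ.1 x * conj (linFn l x) := by
          rw [Finset.mul_sum]
          refine Finset.sum_congr rfl fun x _ => ?_
          rw [Subgroup.coe_mul, hca, hla, map_mul]
          ring
        have h5c := h5a.trans h5b
        calc _ = (Nat.card A : ℂ)⁻¹ * (c * conj (linFn l a) *
            ∑ x : A, φ.1 x * conj (linFn l x)) := by rw [← h5c]
          _ = _ := by ring
      have h6 : c * conj (linFn l a) = 1 := by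
        have h7 : (c * conj (linFn l a) - 1) * classInner (fun h : A => φ.1 h) (linFn l) = 0 := by
          linear_combination -h5
        rcases mul_eq_zero.mp h7 with h8 | h8
        · exact sub_eq_zero.mp h8
        · exact absurd h8 hr2
      have h9 : c = linFn l a := by
        have h10 := linFn_norm l a
        calc c = c * (linFn l a * conj (linFn l a)) := by rw [h10, mul_one]
          _ = (c * conj (linFn l a)) * linFn l a := by ring
          _ = linFn l a := by rw [h6, one_mul]
      have := hca 1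
      rw [one_mul] at this
      rw [this, h9]
    rw [hn' ψ hψ] at hcon
    apply ha
    have h0 := isIrr_one_ne_zero ψ.2
    exact mul_right_cancel₀ h0 (by rw [hcon, one_mul])
  have hψdeg := degree hP hcard ψ.2 ⟨a, haZ, hψa⟩
  -- so `ψ` is everything
  have hsub := CharNormal.isChar_sub_constituent hchar ψ.2 hψ
  have hz : indFun A lam - ψ.1 = 0 := by
    by_contra hz
    obtain ⟨φ, hφ⟩ := char_ne_zero_exists_constituent hsub hz
    have h2 := degree_le_of_constituent hsub φ.2 hφ
    obtain ⟨m, hm0, hm⟩ := isIrr_one_eq φ.2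
    rw [Pi.sub_apply, hdeg, hψdeg, sub_self, hm] at h2
    simp only [Complex.natCast_re, Complex.zero_re] at h2
    have : (0 : ℝ) < m := by exact_mod_cast hm0
    linarith
  rw [sub_eq_zero.mp hz]
  exact ⟨ψ.2, fun x hx => vanish hP ψ.2 ⟨a, haZ, hψa⟩ hx⟩

end

end Cfsg.Agent.Lib.CharESp
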