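import Cfsg.Agent.Lib.CharFix
import Cfsg.Agent.Lib.BlockMore
import Cfsg.Agent.Lib.Cores

/-! If `χ χ^σ` is irreducible for a faithful `χ`, then `F(G) = Z(G)`. -/

set_option autoImplicit false
set_option linter.unusedVariables false
set_option linter.unusedSectionVars false

namespace Cfsg.Agent.Lib.CharFitZ

open Cfsg Cfsg.Agent.Lib.CharBasic Cfsg.Agent.Lib.CharNormal Cfsg.Agent.Lib.CharInd
open Cfsg.Agent.Lib.CharClifford Cfsg.Agent.Lib.CharGal
open scoped ComplexConjugate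

noncomputable section

variable {G : Type*} [Group G] [Fintype G]

/-- Characters with a common nontrivial constituent, both containing the trivial character. -/
theorem inner_ne_one {Γ Γ' : G → ℂ} (h : IsCharacter G Γ) (h' : IsCharacter G Γ')
    (h1 : classInner Γ (fun _ => 1) ≠ 0) (h1' : classInner Γ' (fun _ => 1) ≠ 0)
    {α : G → ℂ} (hα : IsIrrCharacter G α) (hα1 : α ≠ fun _ => 1)
    (h2 : classInner Γ α ≠ 0) (h2' : classInner Γ' α ≠ 0) : classInner Γ Γ' ≠ 1 := by
  classical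
  intro hcon
  have hm : ∀ ψ : IrrCharacter G, ∃ n : ℕ, classInner Γ ψ.1 = n := fun ψ => exists_nat_inner h ψ.2
  have hm' : ∀ ψ : IrrCharacter G, ∃ n : ℕ, classInner Γ' ψ.1 = n :=
    fun ψ => exists_nat_inner h' ψ.2
  choose m hm using hm
  choose m' hm' using hm'
  rw [classFn_inner_eq_sum (isChar_classFn h) (isChar_classFn h')] at hcon
  simp only [hm, hm', map_natCast] at hcon
  have h3 : ∑ ψ : IrrCharacter G, m ψ * m' ψ = 1 := by exact_mod_cast hcon
  obtain ⟨T, hT⟩ : ∃ T : IrrCharacter G, T = ⟨fun _ => 1, isIrr_trivial⟩ := ⟨_, rfl⟩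
  obtain ⟨A, hA⟩ : ∃ A : IrrCharacter G, A = ⟨α, hα⟩ := ⟨_, rfl⟩
  have hAT : A ≠ T := by
    rw [hA, hT]
    intro h
    exact hα1 (congrArg Subtype.val h)
  have h4 : m T * m' T + m A * m' A ≤ ∑ ψ : IrrCharacter G, m ψ * m' ψ := by
    rw [← Finset.sum_pair (f := fun ψ : IrrCharacter G => m ψ * m' ψ) hAT.symm]
    exact Finset.sum_le_sum_of_subset (Finset.subset_univ _)
  have e1 : m T ≠ 0 := by
    intro h0
    apply h1
    have := hm T
    rw [h0, hT] at this
    simpa using this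
  have e2 : m' T ≠ 0 := by
    intro h0
    apply h1'
    have := hm' T
    rw [h0, hT] at this
    simpa using this
  have e3 : m A ≠ 0 := by
    intro h0
    apply h2
    have := hm A
    rw [h0, hA] at this
    simpa using this
  have e4 : m' A ≠ 0 := by
    intro h0
    apply h2'
    have := hm' A
    rw [h0, hA] at this
    simpa using this
  have h5 : 1 ≤ m T * m' T := Nat.one_le_iff_ne_zero.mpr (mul_ne_zero e1 e2)
  have h6 : 1 ≤ m A * m' A := Nat.one_le_iff_ne_zero.mpr (mul_ne_zero e3 e4)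
  omega

/-- The square `χ χ̄`. -/
def sq (χ : G → ℂ) : G → ℂ := fun g => χ g * conj (χ g)

theorem sq_isChar {χ : G → ℂ} (h : IsIrrCharacter G χ) : IsCharacter G (sq χ) :=
  isChar_mul (isChar_of_irr h) (isChar_of_irr (Lib.CharTable.isIrr_conj h))

theorem sq_inner_one {χ : G → ℂ} (h : IsIrrCharacter G χ) :
    classInner (sq χ) (fun _ => 1) = 1 := by
  refine Eq.trans ?_ (irr_inner_self h)
  rw [classInner_def, classInner_def]
  simp [sq]

theorem inner_sq {χ ψ : G → ℂ} (h : IsIrrCharacter G (fun g => χ g * ψ g)) :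
    classInner (sq χ) (sq ψ) = 1 := by
  rw [← irr_inner_self h, classInner_def, classInner_def]
  congr 1
  refine Finset.sum_congr rfl fun g _ => ?_
  simp only [sq, map_mul, Complex.conj_conj]
  ring

theorem inertia_top {χ : G → ℂ} (hχ : IsIrrCharacter G χ) {k : ℕ}
    (hk : Nat.Coprime k (Nat.card G)) (hirr : IsIrrCharacter G (fun g => χ g * χ (g ^ k)))
    (N : Subgroup G) [hN : N.Normal] [Fintype N] {θ : N → ℂ} (hθ : IsIrrCharacter N θ)
    (hover : classInner (fun n : N => χ n) θ ≠ 0) : inertia θ = ⊤ := by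
  classical
  by_contra hT
  cases nonempty_fintype (inertia θ)
  obtain ⟨T, hTdef⟩ : ∃ T : Subgroup G, T = inertia θ := ⟨_, rfl⟩
  rw [← hTdef] at hT
  haveI : Fintype T := Fintype.ofFinite _
  have hNT : N ≤ T := hTdef ▸ le_inertia (isChar_classFn (isChar_of_irr hθ))
  obtain ⟨ψ, hψ, hψχ, -, -⟩ := exists_clifford (T := T) hθ (fun g => by rw [hTdef]; rfl) hNT hχ hover
  -- Γ = ind (ψ χ̄)
  have hconjc : IsCharacter G (fun g => conj (χ g)) :=
    isChar_of_irr (Lib.CharTable.isIrr_conj hχ)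
  have h1 : sq χ = indFun T (ψ * fun t : T => conj (χ t)) := by
    rw [← indFun_mul T ψ _ (isChar_classFn hconjc), hψχ]
    rfl
  have h2 : IsCharacter T (ψ * fun t : T => conj (χ t)) :=
    isChar_mul (isChar_of_irr hψ) (isChar_res T hconjc)
  have h3 : classInner (ψ * fun t : T => conj (χ t)) (fun _ => 1) ≠ 0 := by
    have h4 : classInner (ψ * fun t : T => conj (χ t)) (fun _ => 1) =
        classInner ψ (fun t : T => χ t) := by
      rw [classInner_def, classInner_def]
      simp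
    rw [h4, ← reciprocity T ψ χ (isChar_classFn (isChar_of_irr hχ)), hψχ, irr_inner_self hχ]
    exact one_ne_zero
  have h5 := isChar_sub_constituent h2 isIrr_trivial h3
  obtain ⟨R, hR⟩ : ∃ R, R = indFun T ((ψ * fun t : T => conj (χ t)) - fun _ => 1) := ⟨_, rfl⟩
  have hRc : IsCharacter G R := hR ▸ isChar_ind T h5
  obtain ⟨D, hD⟩ : ∃ D : G → ℂ, D = indFun T (fun _ : T => (1 : ℂ)) := ⟨_, rfl⟩
  have hDc : IsCharacter G D := hD ▸ isChar_ind T isChar_trivial
  have h6 : sq χ = D + R := by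
    rw [h1, hD, hR, indFun_sub]; abel
  have hD1 : classInner D (fun _ => 1) = 1 := by
    rw [hD, reciprocity T _ _ (classFn_const 1)]
    exact irr_inner_self isIrr_trivial
  have hDdeg : D 1 = T.index := by rw [hD, indFun_one, mul_one]
  have h7 : IsCharacter G (D - fun _ => 1) :=
    isChar_sub_constituent hDc isIrr_trivial (by rw [hD1]; exact one_ne_zero)
  have h8 : (D - fun _ => 1) ≠ 0 := by
    intro h
    have := congrFun h 1
    rw [Pi.sub_apply, hDdeg, Pi.zero_apply, sub_eq_zero] at this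
    have h9 : T.index = 1 := by exact_mod_cast this
    exact hT (Subgroup.index_eq_one.mp h9)
  obtain ⟨α, hα⟩ := char_ne_zero_exists_constituent h7 h8
  have hα1 : α.1 ≠ fun _ => 1 := by
    intro h
    apply hα
    rw [h, classInner_sub_left, hD1, irr_inner_self isIrr_trivial, sub_self]
  have hDα : classInner D α.1 ≠ 0 := by
    rw [classInner_sub_left, irr_inner_ne isIrr_trivial α.2 hα1.symm, sub_zero] at hα
    exact hα
  obtain ⟨d, hd⟩ := exists_nat_inner hDc α.2
  have hd0 : d ≠ 0 := by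
    rintro rfl
    exact hDα (by rw [hd]; simp)
  have hsum : ∀ R' : G → ℂ, IsCharacter G R' → classInner (D + R') α.1 ≠ 0 := by
    intro R' hR'
    obtain ⟨r, hr⟩ := exists_nat_inner hR' α.2
    rw [classInner_add_left, hd, hr, ← Nat.cast_add]
    exact Nat.cast_ne_zero.mpr (by omega)
  have h9 : sq (fun g => χ (g ^ k)) = D + fun g => R (g ^ k) := by
    funext g
    have := congrFun h6 (g ^ k)
    simp only [sq, Pi.add_apply] at this ⊢
    rw [this]
    congr 1
    rw [hD, Lib.CharFix.indFun_pow hk]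
  have hψirr : IsIrrCharacter G (fun g => χ (g ^ k)) := isIrr_pow_coprime hk hχ
  refine inner_ne_one (sq_isChar hχ) (sq_isChar hψirr) ?_ ?_ α.2 hα1 ?_ ?_ (inner_sq hirr)
  · rw [sq_inner_one hχ]; exact one_ne_zero
  · rw [sq_inner_one hψirr]; exact one_ne_zero
  · rw [h6]; exact hsum R hRc
  · rw [h9]; exact hsum _ (isChar_pow_coprime hk hRc)

theorem abelian_central {χ : G → ℂ} (hχ : IsIrrCharacter G χ)
    (hfaith : ∀ g : G, χ g = χ 1 → g = 1) {k : ℕ}
    (hk : Nat.Coprime k (Nat.card G)) (hirr : IsIrrCharacter G (fun g => χ g * χ (g ^ k)))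
    (A : Subgroup G) [hA : A.Normal] (hab : ∀ a ∈ A, ∀ b ∈ A, a * b = b * a) :
    A ≤ Subgroup.center G := by
  classical
  cases nonempty_fintype A
  have h1 : (fun a : A => χ a) ≠ 0 := by
    intro h
    have := congrFun h 1
    exact isIrr_one_ne_zero hχ this
  obtain ⟨θ, hθ⟩ := char_ne_zero_exists_constituent (isChar_res A (isChar_of_irr hχ)) h1
  have h2 := inertia_top hχ hk hirr A θ.2 hθ
  have hinv : ∀ g : G, cj g θ.1 = θ.1 := by
    intro g
    have : g ∈ inertia θ.1 := by rw [h2]; exact Subgroup.mem_top g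
    exact mem_inertia.mp this
  have h3 := res_eq_smul hχ θ.2 hinv hθ
  obtain ⟨l, hl⟩ := irr_lin_of_comm (fun a b : A => Subtype.ext (hab a a.2 b b.2)) θ.2
  intro a ha
  rw [Subgroup.mem_center_iff]
  intro g
  have h4 : l (⟨g * a * g⁻¹, hA.conj_mem a ha g⟩ : A) = l ⟨a, ha⟩ := by
    have := congrFun (hinv g) ⟨a, ha⟩
    rw [cj_apply, hl] at this
    exact Units.ext this
  have h5 : g * a * g⁻¹ * a⁻¹ = 1 := by
    apply hfaith
    have hmem : g * a * g⁻¹ * a⁻¹ ∈ A := A.mul_mem (hA.conj_mem a ha g) (A.inv_mem ha)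
    have h6 := congrFun h3 ⟨_, hmem⟩
    have h7 := congrFun h3 1
    simp only [Pi.smul_apply, hl, smul_eq_mul] at h6 h7
    have h8 : l (⟨g * a * g⁻¹ * a⁻¹, hmem⟩ : A) = 1 := by
      have : (⟨g * a * g⁻¹ * a⁻¹, hmem⟩ : A) = ⟨g * a * g⁻¹, hA.conj_mem a ha g⟩ *
        (⟨a, ha⟩ : A)⁻¹ := rfl
      rw [this, map_mul, h4, map_inv, mul_inv_cancel]
    rw [h8] at h6
    rw [map_one] at h7
    exact h6.trans h7.symm
  rw [mul_inv_eq_one, mul_inv_eq_iff_eq_mul] at h5
  exact h5

theorem fitting_eq {χ : G → ℂ} (hχ : IsIrrCharacter G χ)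
    (hfaith : ∀ g : G, χ g = χ 1 → g = 1) {k : ℕ}
    (hk : Nat.Coprime k (Nat.card G)) (hirr : IsIrrCharacter G (fun g => χ g * χ (g ^ k))) :
    fittingSubgroup G = Subgroup.center G := by
  classical
  apply le_antisymm
  swap
  · haveI : Group.IsNilpotent (Subgroup.center G) :=
      ⟨1, Subgroup.upperCentralSeries_one_eq_top_iff.mpr inferInstance⟩
    exact Cores.le_fitting inferInstance inferInstance
  haveI hFn : (fittingSubgroup G).Normal := Cores.fitting_normal
  haveI hFnil : Group.IsNilpotent (fittingSubgroup G) := Cores.fitting_nilpotent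
  obtain ⟨F, hF⟩ : ∃ F, F = fittingSubgroup G := ⟨_, rfl⟩
  rw [← hF] at hFn hFnil ⊢
  cases nonempty_fintype F
  have h11 : χ 1 ≠ 0 := isIrr_one_ne_zero hχ
  -- the centre of F is central
  have hZF : ∀ z ∈ F, (∀ f ∈ F, f * z = z * f) → z ∈ Subgroup.center G := by
    intro z hz hzf
    have h1 : ((Subgroup.center F).map F.subtype) ≤ Subgroup.center G := by
      apply abelian_central hχ hfaith hk hirr
      rintro _ ⟨a, ha, rfl⟩ _ ⟨b, hb, rfl⟩
      exact congrArg Subtype.val (Subgroup.mem_center_iff.mp hb a)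
    apply h1
    exact ⟨⟨z, hz⟩, Subgroup.mem_center_iff.mpr fun f => Subtype.ext (hzf f f.2), rfl⟩
  by_contra hcon
  -- an element of the second centre
  obtain ⟨a, haF, haZ, hac⟩ : ∃ a ∈ F, a ∉ Subgroup.center G ∧
      ∀ f ∈ F, f * a * f⁻¹ * a⁻¹ ∈ Subgroup.center G := by
    haveI : Nontrivial (F ⧸ Subgroup.center F) := by
      rw [QuotientGroup.nontrivial_iff]
      intro h
      apply hcon
      intro f hf
      apply hZF f hf
      intro f' hf'
      have h1 : (⟨f, hf⟩ : F) ∈ Subgroup.center F := by rw [h]; exact Subgroup.mem_top _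
      exact congrArg Subtype.val (Subgroup.mem_center_iff.mp h1 ⟨f', hf'⟩)
    have h1 := Group.IsNilpotent.center_ne_bot (G := F ⧸ Subgroup.center F)
    obtain ⟨⟨y, hy⟩, hy1'⟩ := Subgroup.ne_bot_iff_exists_ne_one.mp h1
    have hy1 : y ≠ 1 := fun h => hy1' (Subtype.ext h)
    obtain ⟨a, ha⟩ := QuotientGroup.mk_surjective y
    have haZF : a ∉ Subgroup.center F := by
      intro h
      apply hy1
      rw [← ha, QuotientGroup.eq_one_iff]; exact h
    refine ⟨a, a.2, fun h => haZF ?_, fun f hf => ?_⟩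
    · rw [Subgroup.mem_center_iff] at h ⊢
      intro g
      exact Subtype.ext (h g)
    · have h2 := Subgroup.mem_center_iff.mp hy (QuotientGroup.mk (⟨f, hf⟩ : F))
      rw [← ha, ← QuotientGroup.mk_mul, ← QuotientGroup.mk_mul, eq_comm, QuotientGroup.eq] at h2
      have h3 : (⟨f, hf⟩ : F) * a * (⟨f, hf⟩ : F)⁻¹ * a⁻¹ ∈ Subgroup.center F := by
        have h4 := (inferInstance : (Subgroup.center F).Normal).conj_mem _ h2 (a * ⟨f, hf⟩)
        rwa [show a * (⟨f, hf⟩ : F) * ((a * ⟨f, hf⟩)⁻¹ * (⟨f, hf⟩ * a)) * (a * ⟨f, hf⟩)⁻¹ =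
          (⟨f, hf⟩ : F) * a * (⟨f, hf⟩ : F)⁻¹ * a⁻¹ by group] at h4
      apply hZF _ (F.mul_mem (F.mul_mem (F.mul_mem hf a.2) (F.inv_mem hf)) (F.inv_mem a.2))
      intro f' hf'
      exact congrArg Subtype.val (Subgroup.mem_center_iff.mp h3 ⟨f', hf'⟩)
  -- central character
  have hcc : ∀ z ∈ Subgroup.center G, ∀ g : G, χ (z * g) = χ z / χ 1 * χ g := by
    intro z hz g
    exact BlockMore.irr_mul_central ⟨χ, hχ⟩ (fun g => Subgroup.mem_center_iff.mp hz g) g
  -- the subgroup T and its linear character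
  let T : Subgroup G :=
    { carrier := {g | g * a * g⁻¹ * a⁻¹ ∈ Subgroup.center G}
      one_mem' := by
        change (1 : G) * a * 1⁻¹ * a⁻¹ ∈ Subgroup.center G
        simp
      mul_mem' := by
        intro g h hg hh
        change g * h * a * (g * h)⁻¹ * a⁻¹ ∈ Subgroup.center G
        change g * a * g⁻¹ * a⁻¹ ∈ Subgroup.center G at hg
        change h * a * h⁻¹ * a⁻¹ ∈ Subgroup.center G at hh
        have h1 := (inferInstance : (Subgroup.center G).Normal).conj_mem _ hh g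
        have h2 := (Subgroup.center G).mul_mem h1 hg
        rwa [show g * (h * a * h⁻¹ * a⁻¹) * g⁻¹ * (g * a * g⁻¹ * a⁻¹) =
          g * h * a * (g * h)⁻¹ * a⁻¹ by group] at h2
      inv_mem' := by
        intro g hg
        change g⁻¹ * a * g⁻¹⁻¹ * a⁻¹ ∈ Subgroup.center G
        change g * a * g⁻¹ * a⁻¹ ∈ Subgroup.center G at hg
        have h1 := (inferInstance : (Subgroup.center G).Normal).conj_mem _
          ((Subgroup.center G).inv_mem hg) g⁻¹
        rwa [show g⁻¹ * (g * a * g⁻¹ * a⁻¹)⁻¹ * g⁻¹⁻¹ = g⁻¹ * a * g⁻¹⁻¹ * a⁻¹ by group] at h1 }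
  have hTmem : ∀ g, g ∈ T ↔ g * a * g⁻¹ * a⁻¹ ∈ Subgroup.center G := fun g => Iff.rfl
  have hFT : F ≤ T := fun f hf => (hTmem f).mpr (hac f hf)
  haveI : Fintype T := Fintype.ofFinite _
  let m : T →* ℂ :=
    { toFun := fun g => χ ((g : G) * a * (g : G)⁻¹ * a⁻¹) / χ 1
      map_one' := by
        have : ((1 : T) : G) * a * ((1 : T) : G)⁻¹ * a⁻¹ = 1 := by simp
        rw [this, div_self h11]
      map_mul' := by
        intro g h
        have hh := (hTmem h).mp h.2
        have h1 : ((g * h : T) : G) * a * ((g * h : T) : G)⁻¹ * a⁻¹ =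
            ((h : G) * a * (h : G)⁻¹ * a⁻¹) * ((g : G) * a * (g : G)⁻¹ * a⁻¹) := by
          have h2 := Subgroup.mem_center_iff.mp hh (g : G)
          calc ((g * h : T) : G) * a * ((g * h : T) : G)⁻¹ * a⁻¹ =
              ((g : G) * ((h : G) * a * (h : G)⁻¹ * a⁻¹)) * (a * (g : G)⁻¹ * a⁻¹) := by
                push_cast; group
            _ = (((h : G) * a * (h : G)⁻¹ * a⁻¹) * (g : G)) * (a * (g : G)⁻¹ * a⁻¹) := by rw [h2]
            _ = _ := by group
        rw [h1, hcc _ hh]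
        ring }
  let μ : T →* ℂˣ := m.toHomUnits
  have hμv : ∀ g : T, (μ g : ℂ) = χ ((g : G) * a * (g : G)⁻¹ * a⁻¹) / χ 1 := fun g => rfl
  have hμ1 : ∀ g : T, μ g = 1 ↔ (g : G) * a = a * g := by
    intro g
    rw [Units.ext_iff, hμv, Units.val_one, div_eq_one_iff_eq h11]
    constructor
    · intro h
      have := hfaith _ h
      rw [mul_inv_eq_one, mul_inv_eq_iff_eq_mul] at this
      exact this
    · intro h
      congr 1
      rw [mul_inv_eq_one, mul_inv_eq_iff_eq_mul]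
      exact h
  -- χ vanishes where μ ≠ 1
  have hvan : ∀ g : T, μ g ≠ 1 → χ g = 0 := by
    intro g hg
    have h1 : (g : G) * a * (g : G)⁻¹ * a⁻¹ ∈ Subgroup.center G := (hTmem g).mp g.2
    obtain ⟨z, hz⟩ : ∃ z, z = (g : G) * a * (g : G)⁻¹ * a⁻¹ := ⟨_, rfl⟩
    rw [← hz] at h1
    have h2 : a⁻¹ * (g : G) * a = z * g := by
      have h3 := Subgroup.mem_center_iff.mp h1 a
      have h4 : z * a = g * a * (g : G)⁻¹ := by rw [hz]; group
      calc a⁻¹ * (g : G) * a = a⁻¹ * (g * a * (g : G)⁻¹) * g := by group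
        _ = a⁻¹ * (z * a) * g := by rw [h4]
        _ = a⁻¹ * (a * z) * g := by rw [h3]
        _ = z * g := by group
    have h3 : χ (z * g) = χ g := by
      rw [← h2]
      have := isChar_classFn (isChar_of_irr hχ) (g : G) a⁻¹
      rwa [inv_inv] at this
    rw [hcc z h1] at h3
    have h4 : χ z / χ 1 ≠ 1 := by
      intro h
      apply hg
      apply Units.ext
      rw [hμv, ← hz, h]; rfl
    have h5 : (χ z / χ 1 - 1) * χ g = 0 := by linear_combination h3
    rcases mul_eq_zero.mp h5 with h | h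
    · exact absurd (sub_eq_zero.mp h) h4
    · exact h
  -- the Clifford correspondence
  let ν : F → ℂ := resLe hFT (fun t : T => (μ t : ℂ))
  have hνv : ∀ f : F, ν f = (μ ⟨f, hFT f.2⟩ : ℂ) := fun f => rfl
  have hνirr : IsIrrCharacter F ν := by
    have : ν = fun f : F => ((μ.comp (Subgroup.inclusion hFT)) f : ℂ) := rfl
    rw [this]
    exact isIrr_lin _
  have hcommeq : ∀ b c : G, b * a * b⁻¹ * a⁻¹ ∈ Subgroup.center G → True := fun _ _ _ => trivial
  have hTin : ∀ g : G, g ∈ T ↔ cj g ν = ν := by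
    intro g
    have hgF : ∀ f : F, g * (f : G) * g⁻¹ ∈ F := fun f => hFn.conj_mem f f.2 g
    -- ν^g(f) = λ([g f g⁻¹, a]) ; [g f g⁻¹,a] = [f, g⁻¹ a g] central
    have hcj : cj g ν = ν ↔ ∀ f : F, (g * (f : G) * g⁻¹) * a * (g * (f : G) * g⁻¹)⁻¹ * a⁻¹ =
        (f : G) * a * (f : G)⁻¹ * a⁻¹ := by
      rw [cj_eq_iff]
      refine forall_congr' fun f => ?_
      rw [hνv, hνv, hμv, hμv]
      have h1 : (g * (f : G) * g⁻¹) * a * (g * (f : G) * g⁻¹)⁻¹ * a⁻¹ ∈ Subgroup.center G :=
        (hTmem _).mp (hFT (hgF f))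
      have h2 : (f : G) * a * (f : G)⁻¹ * a⁻¹ ∈ Subgroup.center G := (hTmem _).mp (hFT f.2)
      constructor
      · intro h
        have h3 : ((g * (f : G) * g⁻¹) * a * (g * (f : G) * g⁻¹)⁻¹ * a⁻¹) *
            ((f : G) * a * (f : G)⁻¹ * a⁻¹)⁻¹ = 1 := by
          apply hfaith
          have h4 := hcc _ h1 ((f : G) * a * (f : G)⁻¹ * a⁻¹)⁻¹
          have h5 := hcc _ h2 ((f : G) * a * (f : G)⁻¹ * a⁻¹)⁻¹
          rw [mul_inv_cancel] at h5
          rw [h4]
          exact (congrArg (fun x => x * χ ((f : G) * a * (f : G)⁻¹ * a⁻¹)⁻¹) h).trans h5.symm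
        rw [mul_inv_eq_one] at h3
        exact h3
      · intro h
        have h6 : (g * (f : G) * g⁻¹) * a * (g * (f : G) * g⁻¹)⁻¹ * a⁻¹ =
          (f : G) * a * (f : G)⁻¹ * a⁻¹ := h
        exact congrArg (fun x => χ x / χ 1) h6
    rw [hcj]
    have hgag : g⁻¹ * a * g ∈ F := by
      have := hFn.conj_mem a haF g⁻¹
      rwa [inv_inv] at this
    constructor
    · intro hg f
      have hz : g * a * g⁻¹ * a⁻¹ ∈ Subgroup.center G := hg
      obtain ⟨z, hzd⟩ : ∃ z, z = g * a * g⁻¹ * a⁻¹ := ⟨_, rfl⟩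
      rw [← hzd] at hz
      have hzc := Subgroup.mem_center_iff.mp hz
      have h1 : g * a * g⁻¹ = z * a := by rw [hzd]; group
      -- g⁻¹ a g = z⁻¹ a
      have h2 : g⁻¹ * a * g = z⁻¹ * a := by
        have : a = z⁻¹ * (g * a * g⁻¹) := by rw [h1]; group
        have h3 : z⁻¹ * g = g * z⁻¹ := by
          have := hzc g
          rw [inv_mul_eq_iff_eq_mul, ← mul_assoc, ← this]; group
        calc g⁻¹ * a * g = g⁻¹ * (z⁻¹ * (g * a * g⁻¹)) * g := by rw [← this]
          _ = g⁻¹ * (z⁻¹ * g) * a := by group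
          _ = g⁻¹ * (g * z⁻¹) * a := by rw [h3]
          _ = z⁻¹ * a := by group
      have h4 := (hTmem _).mp (hFT (hgF f))
      have h5 := Subgroup.mem_center_iff.mp h4 g⁻¹
      have h6 : (g * (f : G) * g⁻¹) * a * (g * (f : G) * g⁻¹)⁻¹ * a⁻¹ =
          (f : G) * (g⁻¹ * a * g) * (f : G)⁻¹ * (g⁻¹ * a * g)⁻¹ := by
        calc (g * (f : G) * g⁻¹) * a * (g * (f : G) * g⁻¹)⁻¹ * a⁻¹ =
            (g⁻¹ * ((g * (f : G) * g⁻¹) * a * (g * (f : G) * g⁻¹)⁻¹ * a⁻¹)) * g := by
              rw [h5]; group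
          _ = _ := by group
      rw [h6, h2]
      have h7 : (f : G) * z⁻¹ = z⁻¹ * f := by
        have := hzc (f : G)
        rw [eq_inv_mul_iff_mul_eq, ← mul_assoc, ← this]; group
      calc (f : G) * (z⁻¹ * a) * (f : G)⁻¹ * (z⁻¹ * a)⁻¹ =
          (f : G) * z⁻¹ * a * (f : G)⁻¹ * a⁻¹ * z := by group
        _ = z⁻¹ * ((f : G) * a * (f : G)⁻¹ * a⁻¹) * z := by rw [h7]; group
        _ = z⁻¹ * (((f : G) * a * (f : G)⁻¹ * a⁻¹) * z) := by group
        _ = z⁻¹ * (z * ((f : G) * a * (f : G)⁻¹ * a⁻¹)) := by rw [hzc]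
        _ = _ := by group
    · intro h
      -- w = (g⁻¹ a g) a⁻¹ commutes with F
      have hw : (g⁻¹ * a * g) * a⁻¹ ∈ Subgroup.center G := by
        apply hZF _ (F.mul_mem hgag (F.inv_mem haF))
        intro f hf
        have h1 := h ⟨f, hf⟩
        simp only at h1
        have h4 := (hTmem _).mp (hFT (hgF ⟨f, hf⟩))
        simp only at h4
        have h5 := Subgroup.mem_center_iff.mp h4 g⁻¹
        have h6 : (g * f * g⁻¹) * a * (g * f * g⁻¹)⁻¹ * a⁻¹ =
            f * (g⁻¹ * a * g) * f⁻¹ * (g⁻¹ * a * g)⁻¹ := by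
          calc (g * f * g⁻¹) * a * (g * f * g⁻¹)⁻¹ * a⁻¹ =
              (g⁻¹ * ((g * f * g⁻¹) * a * (g * f * g⁻¹)⁻¹ * a⁻¹)) * g := by
                rw [h5]; group
            _ = _ := by group
        rw [h6] at h1
        have h7 : f * a * f⁻¹ * a⁻¹ ∈ Subgroup.center G := hac f hf
        have h8 := Subgroup.mem_center_iff.mp h7
        obtain ⟨b, hb⟩ : ∃ b, b = g⁻¹ * a * g := ⟨_, rfl⟩
        obtain ⟨u, hu⟩ : ∃ u, u = f * a * f⁻¹ * a⁻¹ := ⟨_, rfl⟩
        rw [← hb] at h1 ⊢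
        rw [← hu] at h1 h8
        have h9 : f * b * f⁻¹ = u * b := by rw [← h1]; group
        have h10 : f * a * f⁻¹ = u * a := by rw [hu]; group
        have h11 : f * (b * a⁻¹) * f⁻¹ = b * a⁻¹ := by
          calc f * (b * a⁻¹) * f⁻¹ = (f * b * f⁻¹) * (f * a * f⁻¹)⁻¹ := by group
            _ = u * b * (u * a)⁻¹ := by rw [h9, h10]
            _ = (u * (b * a⁻¹)) * u⁻¹ := by group
            _ = ((b * a⁻¹) * u) * u⁻¹ := by rw [h8]
            _ = b * a⁻¹ := by group
        rw [mul_inv_eq_iff_eq_mul] at h11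
        exact h11
      have h12 := (inferInstance : (Subgroup.center G).Normal).conj_mem _
        ((Subgroup.center G).inv_mem hw) g
      have h13 : g * ((g⁻¹ * a * g) * a⁻¹)⁻¹ * g⁻¹ = g * a * g⁻¹ * a⁻¹ := by group
      rw [h13] at h12
      exact h12
  have hμirr : IsIrrCharacter T (fun t : T => (μ t : ℂ)) := isIrr_lin μ
  have hαirr : IsIrrCharacter G (indFun T (fun t : T => (μ t : ℂ))) := by
    apply ind_irr_of_inertia hνirr hTin hFT hμirr
    change classInner ν ν ≠ 0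
    rw [irr_inner_self hνirr]; exact one_ne_zero
  have hμne : (fun t : T => (μ t : ℂ)) ≠ fun _ => 1 := by
    intro h
    apply haZ
    apply hZF a haF
    intro f hf
    have := congrFun h ⟨f, hFT hf⟩
    exact (hμ1 ⟨f, hFT hf⟩).mp (Units.ext this)
  have hα1 : indFun T (fun t : T => (μ t : ℂ)) ≠ fun _ => 1 := by
    intro h
    have h1 := irr_inner_self (isIrr_trivial (G := G))
    conv_lhs at h1 => rw [← h]
    rw [reciprocity T _ _ (indFun_classFn T _)] at h1
    have h2 : (fun t : T => indFun T (fun t : T => (μ t : ℂ)) t) = fun _ => 1 := by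
      funext t; rw [h]
    rw [h2, irr_inner_ne hμirr isIrr_trivial hμne] at h1
    exact zero_ne_one h1
  have hψirr : IsIrrCharacter G (fun g => χ (g ^ k)) := isIrr_pow_coprime hk hχ
  have hcalc : ∀ φ : G → ℂ, IsIrrCharacter G φ → (∀ t : T, μ t ≠ 1 → φ t = 0) →
      classInner (sq φ) (indFun T (fun t : T => (μ t : ℂ))) ≠ 0 := by
    intro φ hφ hv
    rw [reciprocity' T _ _ (isChar_classFn (sq_isChar hφ))]
    have h1 : classInner (fun t : T => sq φ t) (fun t : T => (μ t : ℂ)) =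
        classInner (fun t : T => φ t) (fun t : T => φ t) := by
      rw [classInner_def, classInner_def]
      congr 1
      refine Finset.sum_congr rfl fun t _ => ?_
      by_cases h : μ t = 1
      · rw [h]; simp [sq]
      · rw [sq, hv t h]; simp
    rw [h1]
    intro h0
    have := classInner_self_eq_zero h0
    exact isIrr_one_ne_zero hφ (congrFun this 1)
  refine inner_ne_one (sq_isChar hχ) (sq_isChar hψirr) ?_ ?_ hαirr hα1 ?_ ?_ (inner_sq hirr)
  · rw [sq_inner_one hχ]; exact one_ne_zero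
  · rw [sq_inner_one hψirr]; exact one_ne_zero
  · exact hcalc χ hχ hvan
  · apply hcalc _ hψirr
    intro t ht
    have h1 : μ (t ^ k) ≠ 1 := by
      rw [map_pow]
      intro h
      apply ht
      have h2 : orderOf (μ t) ∣ k := orderOf_dvd_of_pow_eq_one h
      have h3 : orderOf (μ t) ∣ Nat.card G :=
        ((orderOf_map_dvd μ t).trans (orderOf_dvd_natCard t)).trans
          (Subgroup.card_subgroup_dvd_card T)
      have h4 := Nat.dvd_gcd h2 h3
      rw [hk.gcd_eq_one, Nat.dvd_one] at h4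
      exact orderOf_eq_one_iff.mp h4
    have := hvan (t ^ k) h1
    simpa using this

end

end Cfsg.Agent.Lib.CharFitZ
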