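import Cfsg.Agent.Lib.CharClifford
import Cfsg.Agent.Lib.CharTable
import Cfsg.Agent.Lib.Basic

set_option autoImplicit false

/-!
# Frobenius groups: characters
-/

namespace Cfsg.Agent.Lib.CharFrob

open Cfsg Representation Module Cfsg.Agent.Lib.CharBasic Cfsg.Agent.Lib.CharInd
open Cfsg.Agent.Lib.CharNormal Cfsg.Agent.Lib.CharClifford Cfsg.Agent.Lib.CharTable
open scoped ComplexConjugate

noncomputable section

section Kernel

variable {G : Type*} [Group G] [Fintype G] {K : Subgroup G} [hK : K.Normal]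

/-- If elements outside `K` act fixed-point-freely on `K`, no nontrivial irreducible character
of `K` is fixed by an element outside `K`. -/
theorem eq_one_of_cj_eq (hfpf : ∀ g : G, g ∉ K → ∀ k ∈ K, g * k = k * g → k = 1)
    {g : G} (hg : g ∉ K) {τ : K → ℂ} (hτ : IsIrrCharacter K τ) (h : cj g τ = τ) :
    τ = fun _ => 1 := by
  classical
  cases nonempty_fintype K
  have h1 := card_fixed_aut (cjAut (N := K) g)
  have h2 : Nat.card {C : ConjClasses K // ConjClasses.map (cjAut (N := K) g).toMonoidHom C = C} =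
      1 := by
    rw [Nat.card_eq_one_iff_unique]
    have hmk : ConjClasses.map (cjAut (N := K) g).toMonoidHom (ConjClasses.mk 1) =
        ConjClasses.mk (1 : K) := by
      change ConjClasses.mk (cjAut (N := K) g 1) = _
      rw [map_one]
    refine ⟨⟨?_⟩, ⟨⟨ConjClasses.mk 1, hmk⟩⟩⟩
    have key : ∀ C : ConjClasses K, ConjClasses.map (cjAut (N := K) g).toMonoidHom C = C →
        C = ConjClasses.mk 1 := by
      intro C hC
      induction C using Quotient.inductionOn with | _ k => ?_
      change ConjClasses.mk (cjAut (N := K) g k) = ConjClasses.mk k at hC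
      rw [ConjClasses.mk_eq_mk_iff_isConj, isConj_comm, isConj_iff] at hC
      obtain ⟨m, hm⟩ := hC
      have hm' : (m : G) * k * (m : G)⁻¹ = g * k * g⁻¹ := by
        have := congrArg (Subtype.val) hm
        rw [cjAut_coe] at this
        exact this
      have hk1 : (k : G) = 1 := by
        refine hfpf ((m : G)⁻¹ * g) ?_ k k.2 ?_
        · intro hmem
          apply hg
          have := K.mul_mem m.2 hmem
          rwa [mul_inv_cancel_left] at this
        · calc (m : G)⁻¹ * g * k = (m : G)⁻¹ * (g * k * g⁻¹) * g := by group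
            _ = (m : G)⁻¹ * (m * k * (m : G)⁻¹) * g := by rw [hm']
            _ = k * ((m : G)⁻¹ * g) := by group
      have : k = 1 := Subtype.ext hk1
      rw [this]; rfl
    rintro ⟨C, hC⟩ ⟨D, hD⟩
    exact Subtype.ext ((key C hC).trans (key D hD).symm)
  rw [h2, eq_comm, Nat.card_eq_one_iff_unique] at h1
  have h3 := h1.1
  have h4 : (⟨⟨τ, hτ⟩, by
      change (fun n => τ (cjAut (N := K) g n)) = τ
      rw [← cj_eq_comp]; exact h⟩ :
    {χ : IrrCharacter K // χ.1 ∘ (cjAut (N := K) g) = χ.1}) = ⟨⟨fun _ => 1, isIrr_trivial⟩, rfl⟩ :=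
    Subsingleton.elim _ _
  exact congrArg (fun x => x.1.1) h4

theorem ind_irr (hfpf : ∀ g : G, g ∉ K → ∀ k ∈ K, g * k = k * g → k = 1)
    {τ : K → ℂ} (hτ : IsIrrCharacter K τ) (hτ1 : τ ≠ fun _ => 1) :
    IsIrrCharacter G (indFun K τ) := by
  classical
  cases nonempty_fintype K
  have hin : inertia (G := G) τ = K := by
    apply le_antisymm
    · intro g hg
      by_contra hgK
      exact hτ1 (eq_one_of_cj_eq hfpf hgK hτ hg)
    · exact le_inertia (isChar_classFn (isChar_of_irr hτ))
  rw [isIrr_iff_inner_self (isChar_ind K (isChar_of_irr hτ)), ind_inner_self hτ, hin,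
    Subgroup.relIndex_self, Nat.cast_one]

end Kernel

section Complement

variable {G : Type*} [Group G] [Finite G] {K H : Subgroup G} [hK : K.Normal]

theorem exists_conj_complement (hKH' : K ⊔ H = ⊤)
    (hfpf : ∀ h ∈ H, h ≠ 1 → ∀ k ∈ K, h * k = k * h → k = 1) {g : G} (hg : g ∉ K) :
    ∃ x ∈ K, ∃ h ∈ H, h ≠ 1 ∧ g = x * h * x⁻¹ := by
  have hgt : g ∈ K ⊔ H := by rw [hKH']; trivial
  obtain ⟨k, hk, h, hh, rfl⟩ := Subgroup.mem_sup_of_normal_left.mp hgt
  have hh1 : h ≠ 1 := by
    rintro rfl
    exact hg (by simpa using hk)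
  let f : K → K := fun x => ⟨x * (h * (x : G)⁻¹ * h⁻¹), K.mul_mem x.2
    (hK.conj_mem _ (K.inv_mem x.2) h)⟩
  have hinj : Function.Injective f := by
    intro x y hxy
    have h1 : (x : G) * (h * (x : G)⁻¹ * h⁻¹) = y * (h * (y : G)⁻¹ * h⁻¹) :=
      congrArg Subtype.val hxy
    have h2 : (y : G)⁻¹ * x = 1 := by
      refine hfpf h hh hh1 _ (K.mul_mem (K.inv_mem y.2) x.2) ?_
      have h3 : (x : G) * h * (x : G)⁻¹ = y * h * (y : G)⁻¹ := by
        have := congrArg (· * h) h1
        simpa [mul_assoc] using this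
      calc h * ((y : G)⁻¹ * x) = (y : G)⁻¹ * (y * h * (y : G)⁻¹) * x := by group
        _ = (y : G)⁻¹ * (x * h * (x : G)⁻¹) * x := by rw [h3]
        _ = (y : G)⁻¹ * x * h := by group
    exact Subtype.ext (by rw [← mul_one (y : G), ← h2, mul_inv_cancel_left])
  obtain ⟨x, hx⟩ := (Finite.injective_iff_surjective.mp hinj) ⟨k, hk⟩
  refine ⟨x, x.2, h, hh, hh1, ?_⟩
  have : (x : G) * (h * (x : G)⁻¹ * h⁻¹) = k := congrArg Subtype.val hx
  rw [← this]; group

theorem fpf_of_complement (hKH' : K ⊔ H = ⊤)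
    (hfpf : ∀ h ∈ H, h ≠ 1 → ∀ k ∈ K, h * k = k * h → k = 1) :
    ∀ g : G, g ∉ K → ∀ k ∈ K, g * k = k * g → k = 1 := by
  intro g hg k hk hgk
  obtain ⟨x, hx, h, hh, hh1, rfl⟩ := exists_conj_complement hKH' hfpf hg
  have h1 : x⁻¹ * k * x = 1 := by
    refine hfpf h hh hh1 _ ?_ ?_
    · have := hK.conj_mem k hk x⁻¹
      simpa using this
    · calc h * (x⁻¹ * k * x) = x⁻¹ * (x * h * x⁻¹ * k) * x := by group
        _ = x⁻¹ * (k * (x * h * x⁻¹)) * x := by rw [hgk]
        _ = x⁻¹ * k * x * h := by group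
  have h2 : k = x * (x⁻¹ * k * x) * x⁻¹ := by group
  rw [h2, h1]; group

open Classical in
/-- Counting commuting pairs: `k(G)|G| = Σ |C_G(x)|`. -/
theorem sum_card_centralizer (G : Type*) [Group G] [Fintype G] :
    ∑ x : G, Nat.card (Subgroup.centralizer ({x} : Set G)) =
      Nat.card (ConjClasses G) * Nat.card G := by
  rw [← card_comm_eq_card_conjClasses_mul_card]
  have e : {p : G × G // Commute p.1 p.2} ≃ Σ x : G, Subgroup.centralizer ({x} : Set G) :=
    { toFun := fun p => ⟨p.1.1, ⟨p.1.2, by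
        rw [Subgroup.mem_centralizer_singleton_iff]; exact p.2.symm⟩⟩
      invFun := fun p => ⟨(p.1, p.2.1), by
        have := Subgroup.mem_centralizer_singleton_iff.mp p.2.2
        exact this.symm⟩
      left_inv := fun p => rfl
      right_inv := fun p => rfl }
  rw [Nat.card_congr e, Nat.card_sigma]

theorem class_count (hKH : K ⊓ H = ⊥) (hKH' : K ⊔ H = ⊤)
    (hfpf : ∀ h ∈ H, h ≠ 1 → ∀ k ∈ K, h * k = k * h → k = 1) :
    Nat.card H * Nat.card (ConjClasses G) + 1 =
      Nat.card H * Nat.card (ConjClasses H) + Nat.card (ConjClasses K) := by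
  classical
  cases nonempty_fintype G
  have hout := fpf_of_complement hKH' hfpf
  have hcardG : Nat.card K * Nat.card H = Nat.card G := by
    have := Basic.card_sup_of_inf_eq_bot (N := K) (H := H)
      (by rw [Subgroup.normalizer_eq_top]; exact le_top) hKH
    rw [hKH'] at this
    rw [← this]
    exact Nat.card_congr Subgroup.topEquiv.toEquiv
  -- centralizers
  have hc1 : ∀ x : K, x ≠ 1 → Nat.card (Subgroup.centralizer ({(x : G)} : Set G)) =
      Nat.card (Subgroup.centralizer ({x} : Set K)) := by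
    intro x hx
    refine Nat.card_congr ⟨fun c => ⟨⟨c.1, ?_⟩, ?_⟩, fun c => ⟨c.1, ?_⟩, fun c => rfl, fun c => rfl⟩
    · by_contra hc
      apply hx
      have h1 := Subgroup.mem_centralizer_singleton_iff.mp c.2
      exact Subtype.ext (hout c.1 hc x x.2 h1)
    · rw [Subgroup.mem_centralizer_singleton_iff]
      exact Subtype.ext (Subgroup.mem_centralizer_singleton_iff.mp c.2)
    · rw [Subgroup.mem_centralizer_singleton_iff]
      exact congrArg Subtype.val (Subgroup.mem_centralizer_singleton_iff.mp c.2)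
  have hc2 : ∀ h : H, h ≠ 1 → Nat.card (Subgroup.centralizer ({(h : G)} : Set G)) =
      Nat.card (Subgroup.centralizer ({h} : Set H)) := by
    intro h hh
    have hh' : (h : G) ≠ 1 := fun h0 => hh (Subtype.ext h0)
    have hcH : ∀ c ∈ Subgroup.centralizer ({(h : G)} : Set G), c ∈ H := by
      intro c hc
      have hct : c ∈ K ⊔ H := by rw [hKH']; trivial
      obtain ⟨k, hk, h', hh'', rfl⟩ := Subgroup.mem_sup_of_normal_left.mp hct
      have h1 := Subgroup.mem_centralizer_singleton_iff.mp hc
      -- `k h' h = h k h'`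
      have h2 : (h : G) * k * (h : G)⁻¹ * k⁻¹ ∈ K :=
        K.mul_mem (hK.conj_mem k hk h) (K.inv_mem hk)
      have h3 : k * (h' * h * h'⁻¹) = h * k := by
        calc k * (h' * h * h'⁻¹) = (k * h' * h) * h'⁻¹ := by group
          _ = (h * (k * h')) * h'⁻¹ := by rw [h1]
          _ = h * k := by group
      have h4 : (h : G)⁻¹ * (h' * h * h'⁻¹) ∈ K ⊓ H := by
        refine ⟨?_, H.mul_mem (H.inv_mem h.2) (H.mul_mem (H.mul_mem hh'' h.2) (H.inv_mem hh''))⟩
        have h5 : (h : G)⁻¹ * (h' * h * h'⁻¹) = ((h : G)⁻¹ * k⁻¹ * h) * k := by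
          calc (h : G)⁻¹ * (h' * h * h'⁻¹) = (h : G)⁻¹ * k⁻¹ * (k * (h' * h * h'⁻¹)) := by group
            _ = (h : G)⁻¹ * k⁻¹ * (h * k) := by rw [h3]
            _ = _ := by group
        rw [h5]
        have := hK.conj_mem k⁻¹ (K.inv_mem hk) (h : G)⁻¹
        rw [inv_inv] at this
        exact K.mul_mem this hk
      rw [hKH, Subgroup.mem_bot] at h4
      have h5 : h' * h * h'⁻¹ = (h : G) := by
        have := congrArg (fun z => (h : G) * z) h4
        simpa [mul_assoc] using this
      rw [h5] at h3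
      have h6 := hfpf h h.2 hh' k hk h3.symm
      rw [h6, one_mul]; exact hh''
    refine Nat.card_congr ⟨fun c => ⟨⟨c.1, hcH c.1 c.2⟩, ?_⟩, fun c => ⟨c.1, ?_⟩, fun c => rfl,
      fun c => rfl⟩
    · rw [Subgroup.mem_centralizer_singleton_iff]
      exact Subtype.ext (Subgroup.mem_centralizer_singleton_iff.mp c.2)
    · rw [Subgroup.mem_centralizer_singleton_iff]
      exact congrArg Subtype.val (Subgroup.mem_centralizer_singleton_iff.mp c.2)
  have hone : ∀ (A : Type _) [Group A], Nat.card (Subgroup.centralizer ({(1 : A)} : Set A)) =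
      Nat.card A := by
    intro A _
    have : Subgroup.centralizer ({(1 : A)} : Set A) = ⊤ := by
      ext; simp [Subgroup.mem_centralizer_singleton_iff]
    rw [this]
    exact Nat.card_congr Subgroup.topEquiv.toEquiv
  have hG := sum_card_centralizer G
  have hKs := sum_card_centralizer K
  have hHs := sum_card_centralizer H
  have hconjc : ∀ x a : G, Nat.card (Subgroup.centralizer ({x * a * x⁻¹} : Set G)) =
      Nat.card (Subgroup.centralizer ({a} : Set G)) := by
    intro x a
    refine Nat.card_congr ⟨fun c => ⟨x⁻¹ * c * x, ?_⟩, fun c => ⟨x * c * x⁻¹, ?_⟩, fun c => ?_,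
      fun c => ?_⟩
    · have h1 := Subgroup.mem_centralizer_singleton_iff.mp c.2
      rw [Subgroup.mem_centralizer_singleton_iff]
      calc x⁻¹ * c * x * a = x⁻¹ * (c * (x * a * x⁻¹)) * x := by group
        _ = x⁻¹ * ((x * a * x⁻¹) * c) * x := by rw [h1]
        _ = a * (x⁻¹ * c * x) := by group
    · have h1 := Subgroup.mem_centralizer_singleton_iff.mp c.2
      rw [Subgroup.mem_centralizer_singleton_iff]
      calc x * c * x⁻¹ * (x * a * x⁻¹) = x * (c * a) * x⁻¹ := by group
        _ = x * (a * c) * x⁻¹ := by rw [h1]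
        _ = x * a * x⁻¹ * (x * c * x⁻¹) := by group
    · apply Subtype.ext; simp; group
    · apply Subtype.ext; simp; group
  -- split the sum over `G`
  rw [← Finset.sum_filter_add_sum_filter_not Finset.univ (fun g => g ∈ K)] at hG
  have h1 : ∑ x ∈ Finset.univ.filter (fun g => g ∈ K),
      Nat.card (Subgroup.centralizer ({x} : Set G)) =
      ∑ x : K, Nat.card (Subgroup.centralizer ({(x : G)} : Set G)) :=
    Finset.sum_subtype _ (by simp) _
  have h2 : ∑ x : K, Nat.card (Subgroup.centralizer ({(x : G)} : Set G)) + Nat.card K =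
      Nat.card (ConjClasses K) * Nat.card K + Nat.card G := by
    rw [← hKs, ← Finset.add_sum_erase _ _ (Finset.mem_univ (1 : K)),
      ← Finset.add_sum_erase (f := fun x => Nat.card (Subgroup.centralizer ({x} : Set K))) _
        (Finset.mem_univ (1 : K))]
    rw [Finset.sum_congr rfl (fun x hx => hc1 x (Finset.mem_erase.mp hx).1)]
    rw [hone K]
    have : Nat.card (Subgroup.centralizer ({((1 : K) : G)} : Set G)) = Nat.card G := hone G
    rw [this]; ring
  have h3 : ∑ x ∈ Finset.univ.filter (fun g => g ∉ K),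
      Nat.card (Subgroup.centralizer ({x} : Set G)) =
      ∑ p ∈ (Finset.univ : Finset K) ×ˢ (Finset.univ.erase (1 : H)),
        Nat.card (Subgroup.centralizer ({(p.2 : G)} : Set G)) := by
    symm
    refine Finset.sum_bij (fun p _ => (p.1 : G) * p.2 * (p.1 : G)⁻¹) ?_ ?_ ?_ ?_
    · rintro ⟨k, h⟩ hp
      simp only [Finset.mem_product, Finset.mem_univ, true_and, Finset.mem_erase, ne_eq,
        and_true] at hp
      simp only [Finset.mem_filter, Finset.mem_univ, true_and]
      intro hmem
      apply hp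
      have h4 : (h : G) ∈ K := by
        have := hK.conj_mem _ hmem (k : G)⁻¹
        have h5 : (k : G)⁻¹ * (k * h * (k : G)⁻¹) * (k : G)⁻¹⁻¹ = h := by group
        rwa [h5] at this
      have h5 : (h : G) ∈ K ⊓ H := ⟨h4, h.2⟩
      rw [hKH] at h5
      exact Subtype.ext h5
    · rintro ⟨k, h⟩ hp ⟨k', h'⟩ hp' heq
      simp only [Finset.mem_product, Finset.mem_univ, true_and, Finset.mem_erase, ne_eq,
        and_true] at hp hp'
      simp only at heq
      have hk1 : (h : G)⁻¹ * h' ∈ K ⊓ H := by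
        refine ⟨?_, H.mul_mem (H.inv_mem h.2) h'.2⟩
        have h6 : (h : G)⁻¹ * h' = ((h : G)⁻¹ * ((k' : G)⁻¹ * k) * h) * ((k : G)⁻¹ * k') := by
          have h7 : (h' : G) = (k' : G)⁻¹ * (k * h * (k : G)⁻¹) * k' := by rw [heq]; group
          rw [h7]; group
        rw [h6]
        refine K.mul_mem ?_ (K.mul_mem (K.inv_mem k.2) k'.2)
        have := hK.conj_mem _ (K.mul_mem (K.inv_mem k'.2) k.2) (h : G)⁻¹
        rwa [inv_inv] at this
      rw [hKH, Subgroup.mem_bot] at hk1
      have hh : (h' : G) = h := by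
        have := congrArg (fun z => (h : G) * z) hk1
        simpa [mul_assoc] using this
      have hkk : (k : G)⁻¹ * k' = 1 := by
        refine hfpf h h.2 (fun h0 => hp (Subtype.ext h0)) _ (K.mul_mem (K.inv_mem k.2) k'.2) ?_
        rw [hh] at heq
        calc (h : G) * ((k : G)⁻¹ * k') = (k : G)⁻¹ * (k * h * (k : G)⁻¹) * k' := by group
          _ = (k : G)⁻¹ * (k' * h * (k' : G)⁻¹) * k' := by rw [heq]
          _ = (k : G)⁻¹ * k' * h := by group
      have : (k' : G) = k := by
        have := congrArg (fun z => (k : G) * z) hkk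
        simpa [mul_assoc] using this
      exact Prod.ext (Subtype.ext this.symm) (Subtype.ext hh.symm)
    · intro g hg
      simp only [Finset.mem_filter, Finset.mem_univ, true_and] at hg
      obtain ⟨x, hx, h, hh, hh1, hgx⟩ := exists_conj_complement hKH' hfpf hg
      refine ⟨(⟨x, hx⟩, ⟨h, hh⟩), ?_, hgx.symm⟩
      simp only [Finset.mem_product, Finset.mem_univ, true_and, Finset.mem_erase, ne_eq,
        and_true]
      intro h0
      exact hh1 (congrArg Subtype.val h0)
    · rintro ⟨k, h⟩ _
      exact (hconjc k h).symm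
  have h4 : ∑ p ∈ (Finset.univ : Finset K) ×ˢ (Finset.univ.erase (1 : H)),
        Nat.card (Subgroup.centralizer ({(p.2 : G)} : Set G)) + Nat.card K * Nat.card H =
      Nat.card K * (Nat.card (ConjClasses H) * Nat.card H) := by
    rw [Finset.sum_product]
    dsimp only
    rw [Finset.sum_const, Finset.card_univ, smul_eq_mul,
      ← Nat.card_eq_fintype_card, ← mul_add, ← hHs]
    congr 1
    rw [Finset.sum_congr rfl (fun x hx => hc2 x (Finset.mem_erase.mp hx).1), ← hone H, add_comm]
    exact Finset.add_sum_erase Finset.univ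
      (fun x : H => Nat.card (Subgroup.centralizer ({x} : Set H))) (Finset.mem_univ (1 : H))
  rw [h1, h3] at hG
  have h5 : 0 < Nat.card K := Nat.card_pos
  apply Nat.eq_of_mul_eq_mul_left h5
  nlinarith

end Complement

end

end Cfsg.Agent.Lib.CharFrob
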