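import Cfsg.Agent.Lib.CharSection

set_option autoImplicit false

/-!
# Brauer-Suzuki: Hall subgroups with normal complements
-/

namespace Cfsg.Agent.Lib.CharHallCompl

open Cfsg Representation Module Cfsg.Agent.Lib.CharBasic Cfsg.Agent.Lib.CharInd
open Cfsg.Agent.Lib.CharExc Cfsg.Agent.Lib.CharInt Cfsg.Agent.Lib.CharBrauer
open Cfsg.Agent.Lib.CharSplit Cfsg.Agent.Lib.CharNormal Cfsg.Agent.Lib.CharKer
open Cfsg.Agent.Lib.CharSection
open scoped ComplexConjugate

noncomputable section

variable {G : Type*} [Group G] [Finite G]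

/-- Decomposition of an element into commuting parts of coprime orders. -/
theorem exists_decomp {m n : ℕ} (hcop : Nat.Coprime m n) (x : G) (hx : orderOf x ∣ m * n) :
    ∃ u v : G, x = u * v ∧ Commute u v ∧ orderOf u ∣ m ∧ orderOf v ∣ n ∧
      u ∈ Subgroup.zpowers x ∧ v ∈ Subgroup.zpowers x := by
  have hco : IsCoprime (m : ℤ) (n : ℤ) := Nat.isCoprime_iff_coprime.mpr hcop
  obtain ⟨s, t, hst⟩ := hco
  refine ⟨x ^ (t * n : ℤ), x ^ (s * m : ℤ), ?_, (Commute.refl x).zpow_zpow _ _, ?_, ?_,
    ⟨_, rfl⟩, ⟨_, rfl⟩⟩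
  · rw [← zpow_add, show t * (n : ℤ) + s * m = 1 by linear_combination hst, zpow_one]
  · apply orderOf_dvd_of_pow_eq_one
    rw [← zpow_natCast, ← zpow_mul, show t * (n : ℤ) * (m : ℤ) = ((m * n : ℕ) : ℤ) * t by
      push_cast; ring, zpow_mul, zpow_natCast, orderOf_dvd_iff_pow_eq_one.mp hx, one_zpow]
  · apply orderOf_dvd_of_pow_eq_one
    rw [← zpow_natCast, ← zpow_mul, show s * (m : ℤ) * (n : ℤ) = ((m * n : ℕ) : ℤ) * s by
      push_cast; ring, zpow_mul, zpow_natCast, orderOf_dvd_iff_pow_eq_one.mp hx, one_zpow]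

/-- `⟨x⟩ P` is `p`-elementary if `x` is a `p'`-element centralizing the `p`-group `P`. -/
theorem isElementary_sup {p : ℕ} (hp : p.Prime) {x : G} {P : Subgroup G} (hP : IsPGroup p P)
    (hx : Nat.Coprime (orderOf x) p) (hcomm : ∀ y ∈ P, y * x = x * y) :
    IsElementary p (Subgroup.zpowers x ⊔ P : Subgroup G) := by
  have := Fact.mk hp
  set E : Subgroup G := Subgroup.zpowers x ⊔ P with hE
  have hxE : x ∈ E := Subgroup.mem_sup_left (Subgroup.mem_zpowers x)
  have hcent : ∀ e ∈ E, e * x = x * e := by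
    have : E ≤ Subgroup.centralizer ({x} : Set G) := by
      apply sup_le
      · rw [Subgroup.zpowers_le, Subgroup.mem_centralizer_singleton_iff]
      · intro y hy
        rw [Subgroup.mem_centralizer_singleton_iff]
        exact hcomm y hy
    intro e he
    exact Subgroup.mem_centralizer_singleton_iff.mp (this he)
  have hord : orderOf (⟨x, hxE⟩ : E) = orderOf x := Subgroup.orderOf_mk x hxE
  refine ⟨⟨x, hxE⟩, ?_, by rw [hord]; exact hx, ?_⟩
  · rw [Subgroup.mem_center_iff]
    intro e
    exact Subtype.ext (hcent e e.2)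
  · obtain ⟨k, hk⟩ := hP.exists_card_eq
    have hinf : Subgroup.zpowers x ⊓ P = ⊥ := by
      apply Subgroup.inf_eq_bot_of_coprime
      rw [Nat.card_zpowers, hk]
      exact Nat.Coprime.pow_right k hx
    have hcard : Nat.card E = Nat.card (Subgroup.zpowers x) * Nat.card P := by
      apply Basic.card_sup_of_inf_eq_bot _ hinf
      intro y hy
      apply Subgroup.mem_normalizer_fintype
      intro z hz
      obtain ⟨j, rfl⟩ := hz
      have : Commute y x := hcomm y hy
      have h2 : y * x ^ j * y⁻¹ = x ^ j := by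
        rw [(this.zpow_right j).eq, mul_inv_cancel_right]
      simp only [h2]
      exact ⟨j, rfl⟩
    refine ⟨k, ?_⟩
    have h1 := Subgroup.card_mul_index (Subgroup.zpowers (⟨x, hxE⟩ : E))
    rw [Nat.card_zpowers, hord, hcard, Nat.card_zpowers, hk] at h1
    exact Nat.eq_of_mul_eq_mul_left (orderOf_pos x) h1

/-- Hypotheses of the Brauer-Suzuki theorem. -/
structure Hyp (H : Subgroup G) : Prop where
  hall : Nat.Coprime (Nat.card H) H.index
  fus : ∀ x ∈ H, ∀ y ∈ H, IsConj x y → ∃ h ∈ H, h * x * h⁻¹ = y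
  elem : ∀ (E : Subgroup G) (p : ℕ), p.Prime → IsElementary p E → Nat.card E ∣ Nat.card H →
    ∃ g : G, E.map (MulAut.conj g).toMonoidHom ≤ H

theorem Hyp.centralizer_dvd {H : Subgroup G} (h : Hyp H) {x : G} (hx : x ∈ H) (B : Subgroup G)
    (hB : Nat.card B ∣ Nat.card H) (b : B) (hb : IsConj (b : G) x) :
    Nat.card (Subgroup.centralizer ({b} : Set B)) ∣
      Nat.card (Subgroup.centralizer ({(⟨x, hx⟩ : H)} : Set H)) := by
  classical
  rw [← Nat.factorization_le_iff_dvd Nat.card_pos.ne' Nat.card_pos.ne']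
  intro p
  by_cases hp : p.Prime
  swap
  · rw [Nat.factorization_eq_zero_of_not_prime _ hp]; exact Nat.zero_le _
  have := Fact.mk hp
  -- Sylow `p`-subgroup of the centralizer
  set C : Subgroup B := Subgroup.centralizer ({b} : Set B) with hC
  let P : Sylow p C := default
  obtain ⟨k, m, hm, hord⟩ := Nat.exists_eq_pow_mul_and_not_dvd (orderOf_pos b).ne' p hp.ne_one
  have hcopm : Nat.Coprime m (p ^ k) :=
    Nat.Coprime.pow_right k ((Nat.Prime.coprime_iff_not_dvd hp).mpr hm).symm
  obtain ⟨u, v, huv, hcuv, hu, hv, hub, hvb⟩ := exists_decomp hcopm b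
    (by rw [hord, mul_comm])
  -- the `p`-part `v` of `b` lies in `P`
  have hbC : b ∈ C := by rw [hC, Subgroup.mem_centralizer_singleton_iff]
  have hzC : Subgroup.zpowers b ≤ C := by rw [Subgroup.zpowers_le]; exact hbC
  have hcomC : ∀ c ∈ C, ∀ z ∈ Subgroup.zpowers b, c * z = z * c := by
    rintro c hc z ⟨j, rfl⟩
    have h1 : Commute c b := Subgroup.mem_centralizer_singleton_iff.mp hc
    exact h1.zpow_right j
  let v' : C := ⟨v, hzC hvb⟩
  have hvn : (Subgroup.zpowers v').Normal := by
    refine ⟨?_⟩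
    rintro z ⟨j, rfl⟩ g
    have h1 : g * v' ^ j * g⁻¹ = v' ^ j := by
      have h2 : Commute g v' := Subtype.ext (hcomC g g.2 v hvb)
      rw [(h2.zpow_right j).eq, mul_inv_cancel_right]
    rw [h1]
    exact ⟨j, rfl⟩
  have hvp : IsPGroup p (Subgroup.zpowers v') := by
    have h1 : orderOf v' ∣ p ^ k := by
      rw [← Subgroup.orderOf_coe]; exact hv
    obtain ⟨j, -, hj⟩ := (Nat.dvd_prime_pow hp).mp h1
    exact IsPGroup.of_card (n := j) (by rw [Nat.card_zpowers, hj])
  have hvP : v' ∈ P := by
    have h1 : IsPGroup p ((P : Subgroup C) ⊔ Subgroup.zpowers v' : Subgroup C) :=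
      P.isPGroup'.to_sup_of_normal_right hvp
    have h2 := P.is_maximal' h1 le_sup_left
    have h3 : v' ∈ (P : Subgroup C) ⊔ Subgroup.zpowers v' :=
      Subgroup.mem_sup_right (Subgroup.mem_zpowers v')
    rw [h2] at h3
    exact h3
  -- the elementary subgroup
  let P₁ : Subgroup B := (P : Subgroup C).map C.subtype
  have hP₁ : IsPGroup p P₁ := P.isPGroup'.map _
  have hucop : Nat.Coprime (orderOf u) p := by
    apply Nat.Coprime.coprime_dvd_left hu
    exact ((Nat.Prime.coprime_iff_not_dvd hp).mpr hm).symm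
  have hcomu : ∀ y ∈ P₁, y * u = u * y := by
    rintro _ ⟨c, hc, rfl⟩
    exact hcomC c c.2 u hub
  have hel := isElementary_sup hp hP₁ hucop hcomu
  set E₁ : Subgroup B := Subgroup.zpowers u ⊔ P₁ with hE₁
  have hbE : b ∈ E₁ := by
    rw [huv]
    refine E₁.mul_mem (Subgroup.mem_sup_left (Subgroup.mem_zpowers u)) (Subgroup.mem_sup_right ?_)
    exact ⟨v', hvP, rfl⟩
  let E : Subgroup G := E₁.map B.subtype
  let eE : E₁ ≃* E := E₁.equivMapOfInjective B.subtype B.subtype_injective
  have hEc : Nat.card E ∣ Nat.card H := by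
    rw [← Nat.card_congr eE.toEquiv]
    exact (Subgroup.card_subgroup_dvd_card _).trans hB
  obtain ⟨g, hg⟩ := h.elem E p hp (isElementary_of_equiv eE hel) hEc
  have hbg : g * b * g⁻¹ ∈ H := by
    apply hg
    exact ⟨b, ⟨b, hbE, rfl⟩, by simp⟩
  -- conjugate into the centralizer of `x` in `H`
  have hconj : IsConj (g * b * g⁻¹) x := by
    refine IsConj.trans ?_ hb
    rw [isConj_comm]
    exact isConj_iff.mpr ⟨g, rfl⟩
  obtain ⟨y, hyH, hy⟩ := h.fus _ hbg x hx hconj
  let φ : P →* H :=
    { toFun := fun z => ⟨y * (g * ((z : C) : B) * g⁻¹) * y⁻¹, H.mul_mem (H.mul_mem hyH (hg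
        ⟨((z : C) : B), ⟨((z : C) : B), Subgroup.mem_sup_right ⟨z, z.2, rfl⟩, rfl⟩, by simp⟩))
          (H.inv_mem hyH)⟩
      map_one' := by apply Subtype.ext; simp
      map_mul' := by
        intro a b
        apply Subtype.ext
        simp only [Subgroup.coe_mul]
        group }
  have hφinj : Function.Injective φ := by
    intro a b hab
    have h1 : y * (g * ((a : C) : B) * g⁻¹) * y⁻¹ = y * (g * ((b : C) : B) * g⁻¹) * y⁻¹ :=
      congrArg Subtype.val hab
    have h2 : (((a : C) : B) : G) = ((b : C) : B) := by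
      have h3 := mul_left_cancel (mul_right_cancel h1)
      exact mul_left_cancel (mul_right_cancel h3)
    exact Subtype.ext (Subtype.ext (Subtype.ext h2))
  have hrange : φ.range ≤ Subgroup.centralizer ({(⟨x, hx⟩ : H)} : Set H) := by
    rintro _ ⟨z, rfl⟩
    rw [Subgroup.mem_centralizer_singleton_iff]
    apply Subtype.ext
    change y * (g * ((z : C) : B) * g⁻¹) * y⁻¹ * x = x * (y * (g * ((z : C) : B) * g⁻¹) * y⁻¹)
    rw [← hy]
    have h1 : (((z : C) : B) : G) * b = b * ((z : C) : B) :=
      congrArg Subtype.val (Subgroup.mem_centralizer_singleton_iff.mp (z : C).2)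
    calc y * (g * ((z : C) : B) * g⁻¹) * y⁻¹ * (y * (g * b * g⁻¹) * y⁻¹) =
        y * g * (((z : C) : B) * b) * g⁻¹ * y⁻¹ := by group
      _ = y * g * (b * ((z : C) : B)) * g⁻¹ * y⁻¹ := by rw [h1]
      _ = _ := by group
  have hcardP : Nat.card P ∣ Nat.card (Subgroup.centralizer ({(⟨x, hx⟩ : H)} : Set H)) := by
    have h1 : Nat.card P = Nat.card φ.range :=
      Nat.card_congr (MonoidHom.ofInjective hφinj).toEquiv
    rw [h1]
    exact Subgroup.card_dvd_of_le hrange
  rw [P.card_eq_multiplicity] at hcardP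
  have h3 := (Nat.factorization_le_iff_dvd (pow_pos hp.pos _).ne' Nat.card_pos.ne').mpr hcardP p
  rw [Nat.Prime.factorization_pow hp, Finsupp.single_eq_same] at h3
  exact h3

/-- Every section contains an element of `H`. -/
theorem Hyp.exists_sec {H : Subgroup G} (h : Hyp H) (x : G) :
    ∃ y : H, InSec H.index (Nat.card H) (y : G) x := by
  have hmn : Nat.card G = H.index * Nat.card H := H.index_mul_card.symm
  obtain ⟨u, v, hx, hcomm, hu, hv, -, -⟩ := exists_decomp h.hall.symm x
    (by rw [← hmn]; exact orderOf_dvd_natCard x)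
  -- `⟨v⟩` is elementary
  have hel : IsElementary 2 (Subgroup.zpowers v) ∨ True := Or.inr trivial
  obtain ⟨p, hp, hpv⟩ : ∃ p : ℕ, p.Prime ∧ ¬ p ∣ orderOf v := by
    obtain ⟨p, hp1, hp2⟩ := Nat.exists_infinite_primes (orderOf v + 1)
    exact ⟨p, hp2, fun hd => by
      have := Nat.le_of_dvd (orderOf_pos v) hd
      omega⟩
  have hE : IsElementary p (Subgroup.zpowers v) := by
    refine ⟨⟨v, Subgroup.mem_zpowers v⟩, ?_, ?_, 0, ?_⟩
    · rw [Subgroup.mem_center_iff]
      rintro ⟨z, j, rfl⟩
      apply Subtype.ext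
      exact ((Commute.refl v).zpow_left j)
    · rw [Subgroup.orderOf_mk]
      exact ((Nat.Prime.coprime_iff_not_dvd hp).mpr hpv).symm
    · rw [pow_zero, Subgroup.index_eq_one, eq_top_iff]
      rintro ⟨z, j, rfl⟩ _
      exact ⟨j, rfl⟩
  obtain ⟨g, hg⟩ := h.elem _ p hp hE (by rw [Nat.card_zpowers]; exact hv)
  have hvH : g * v * g⁻¹ ∈ H := hg ⟨v, Subgroup.mem_zpowers v, by simp⟩
  refine ⟨⟨_, hvH⟩, v, isConj_iff.mpr ⟨g, rfl⟩, u, hx, hcomm, ?_, ?_⟩
  · exact h.hall.symm.coprime_dvd_left hu
  · exact h.hall.coprime_dvd_left hv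

theorem Hyp.sec_unique {H : Subgroup G} (h : Hyp H) {x : G} {y z : H}
    (hy : InSec H.index (Nat.card H) (y : G) x) (hz : InSec H.index (Nat.card H) (z : G) x) :
    IsConj y z := by
  have hmn : Nat.card G = H.index * Nat.card H := H.index_mul_card.symm
  obtain ⟨v, hv, u, huv, hcuv, hu, hvm⟩ := hy
  obtain ⟨v', hv', u', huv', hcuv', hu', hvm'⟩ := hz
  have hvv : v = v' := decomp_unique hmn h.hall.symm hcuv hcuv' (huv.symm.trans huv') hu hvm hu' hvm'
  rw [← hvv] at hv'
  obtain ⟨c, hc, hcy⟩ := h.fus y y.2 z z.2 (hv.symm.trans hv')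
  exact isConj_iff.mpr ⟨⟨c, hc⟩, Subtype.ext hcy⟩

theorem Hyp.sec_self {H : Subgroup G} (h : Hyp H) (y : H) :
    InSec H.index (Nat.card H) (y : G) (y : G) := by
  refine ⟨y, IsConj.refl _, 1, by simp, Commute.one_left _, by simp, ?_⟩
  rw [Subgroup.orderOf_coe]
  exact h.hall.coprime_dvd_left (orderOf_dvd_natCard y)

theorem inSec_of_isConj {m n : ℕ} {g g' x : G} (hg : IsConj g g') (h : InSec m n g x) :
    InSec m n g' x := by
  obtain ⟨v, hv, h2⟩ := h
  exact ⟨v, hv.trans hg, h2⟩

/-- The section sizes. -/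
theorem Hyp.card_sec {H : Subgroup G} (h : Hyp H) (y : H) :
    Nat.card (Subgroup.centralizer ({y} : Set H)) *
      Nat.card {x : G // InSec H.index (Nat.card H) (y : G) x} = Nat.card G := by
  classical
  cases nonempty_fintype G
  have hmn : Nat.card G = H.index * Nat.card H := H.index_mul_card.symm
  -- divisibility
  have hdvd : ∀ y : H, Nat.card G ∣ Nat.card (Subgroup.centralizer ({y} : Set H)) *
      Nat.card {x : G // InSec H.index (Nat.card H) (y : G) x} := by
    intro y
    have h1 := section_integral hmn h.hall.symm (y : G)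
      (Nat.card (Subgroup.centralizer ({y} : Set H)))
      (fun B hB b hb => h.centralizer_dvd y.2 B hB b hb) (isChar_trivial (G := G))
    rw [classInner_def] at h1
    simp only [secFn, map_one, mul_one] at h1
    rw [← Finset.sum_filter, Finset.sum_const, nsmul_eq_mul] at h1
    have h2 : (Finset.univ.filter (fun x => InSec H.index (Nat.card H) (y : G) x)).card =
        Nat.card {x : G // InSec H.index (Nat.card H) (y : G) x} :=
      (Fintype.card_subtype _).symm.trans Nat.card_eq_fintype_card.symm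
    rw [h2] at h1
    apply nat_dvd_of_isIntegral Nat.card_pos.ne'
    convert h1 using 1
    push_cast
    field_simp
  have hge : ∀ y : H, Nat.card G ≤ Nat.card (Subgroup.centralizer ({y} : Set H)) *
      Nat.card {x : G // InSec H.index (Nat.card H) (y : G) x} := by
    intro y
    apply Nat.le_of_dvd _ (hdvd y)
    apply Nat.mul_pos Nat.card_pos
    exact Nat.card_pos_iff.mpr ⟨⟨⟨y, h.sec_self y⟩⟩, inferInstance⟩
  -- the sum over classes of `H`
  have : Fintype (ConjClasses H) := Fintype.ofFinite _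
  have hsum : ∑ K : ConjClasses H,
      Nat.card {x : G // InSec H.index (Nat.card H) ((Quotient.out K : H) : G) x} = Nat.card G := by
    rw [← Nat.card_sigma]
    refine Nat.card_congr (Equiv.ofBijective (fun p => p.2.1) ⟨?_, ?_⟩)
    · rintro ⟨K, x, hx⟩ ⟨K', x', hx'⟩ heq
      simp only at heq
      subst heq
      have h1 := h.sec_unique hx hx'
      have h2 : K = K' := by
        rw [← Quotient.out_eq K, ← Quotient.out_eq K']
        exact Quotient.sound h1
      subst h2
      rfl
    · intro x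
      obtain ⟨z, hz⟩ := h.exists_sec x
      refine ⟨⟨ConjClasses.mk z, x, ?_⟩, rfl⟩
      have h1 : IsConj z (Quotient.out (ConjClasses.mk z)) := by
        rw [← ConjClasses.mk_eq_mk_iff_isConj]
        exact (Quotient.out_eq (ConjClasses.mk z)).symm
      refine inSec_of_isConj ?_ hz
      obtain ⟨c, hc⟩ := isConj_iff.mp h1
      exact isConj_iff.mpr ⟨c, congrArg Subtype.val hc⟩
  have hidx : ∀ K : ConjClasses H,
      Nat.card (Subgroup.centralizer ({(Quotient.out K : H)} : Set H)) *
        (Subgroup.centralizer ({(Quotient.out K : H)} : Set H)).index = Nat.card H := fun K =>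
    Subgroup.card_mul_index _
  have hsum2 : ∑ K : ConjClasses H,
      H.index * (Subgroup.centralizer ({(Quotient.out K : H)} : Set H)).index = Nat.card G := by
    rw [← Finset.mul_sum, hmn]
    congr 1
    have hK : ∀ K : ConjClasses H, (Subgroup.centralizer ({(Quotient.out K : H)} : Set H)).index =
        Nat.card {x : H // ConjClasses.mk x = K} := by
      intro K
      rw [← card_conj_class]
      refine Nat.card_congr (Equiv.subtypeEquivRight fun x => ?_)
      rw [← ConjClasses.mk_eq_mk_iff_isConj]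
      have : ConjClasses.mk (Quotient.out K) = K := Quotient.out_eq K
      rw [this, eq_comm]
    simp only [hK]
    rw [← Nat.card_sigma]
    exact Nat.card_congr (Equiv.sigmaFiberEquiv ConjClasses.mk)
  have hle : ∀ K ∈ (Finset.univ : Finset (ConjClasses H)),
      H.index * (Subgroup.centralizer ({(Quotient.out K : H)} : Set H)).index ≤
      Nat.card {x : G // InSec H.index (Nat.card H) ((Quotient.out K : H) : G) x} := by
    intro K _
    have h1 := hge (Quotient.out K)
    have h2 := hidx K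
    have h3 : 0 < Nat.card (Subgroup.centralizer ({(Quotient.out K : H)} : Set H)) := Nat.card_pos
    apply Nat.le_of_mul_le_mul_left _ h3
    calc _ = H.index * (Nat.card (Subgroup.centralizer ({(Quotient.out K : H)} : Set H)) *
        (Subgroup.centralizer ({(Quotient.out K : H)} : Set H)).index) := by ring
      _ = Nat.card G := by rw [h2, hmn]
      _ ≤ _ := h1
  have heq := (Finset.sum_eq_sum_iff_of_le hle).mp (hsum2.trans hsum.symm)
  -- transfer to `y`
  have h1 : IsConj y (Quotient.out (ConjClasses.mk y)) := by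
    rw [← ConjClasses.mk_eq_mk_iff_isConj]
    exact (Quotient.out_eq (ConjClasses.mk y)).symm
  obtain ⟨c, hc⟩ := isConj_iff.mp h1
  have h2 : IsConj (y : G) ((Quotient.out (ConjClasses.mk y) : H) : G) :=
    isConj_iff.mpr ⟨c, congrArg Subtype.val hc⟩
  have h3 : Nat.card {x : G // InSec H.index (Nat.card H) (y : G) x} =
      Nat.card {x : G // InSec H.index (Nat.card H)
        ((Quotient.out (ConjClasses.mk y) : H) : G) x} :=
    Nat.card_congr (Equiv.subtypeEquivRight fun x =>
      ⟨inSec_of_isConj h2, inSec_of_isConj h2.symm⟩)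
  have h4 : (Subgroup.centralizer ({y} : Set H)).index =
      (Subgroup.centralizer ({(Quotient.out (ConjClasses.mk y) : H)} : Set H)).index := by
    rw [← card_conj_class, ← card_conj_class]
    exact Nat.card_congr (Equiv.subtypeEquivRight fun x => ⟨fun h => h1.symm.trans h,
      fun h => h1.trans h⟩)
  rw [h3, ← heq _ (Finset.mem_univ _), ← h4]
  calc _ = H.index * (Nat.card (Subgroup.centralizer ({y} : Set H)) *
      (Subgroup.centralizer ({y} : Set H)).index) := by ring
    _ = Nat.card G := by rw [Subgroup.card_mul_index, hmn]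

open Classical in
/-- The extension of class functions. -/
def hat (H : Subgroup G) (φ : H → ℂ) : G → ℂ := fun x =>
  if h : ∃ y : H, InSec H.index (Nat.card H) (y : G) x then φ h.choose else 0

theorem Hyp.hat_eq {H : Subgroup G} (h : Hyp H) {φ : H → ℂ} (hφ : IsClassFunction H φ) {x : G}
    {y : H} (hy : InSec H.index (Nat.card H) (y : G) x) : hat H φ x = φ y := by
  have hex : ∃ y : H, InSec H.index (Nat.card H) (y : G) x := ⟨y, hy⟩
  rw [hat, dif_pos hex]
  exact classFn_isConj hφ (h.sec_unique hex.choose_spec hy)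

theorem Hyp.hat_classFn {H : Subgroup G} (h : Hyp H) {φ : H → ℂ} (hφ : IsClassFunction H φ) :
    IsClassFunction G (hat H φ) := by
  intro x g
  obtain ⟨y, hy⟩ := h.exists_sec x
  rw [h.hat_eq hφ hy, h.hat_eq hφ (inSec_conj hy)]

theorem Hyp.hat_gen [Fintype G] {H : Subgroup G} (h : Hyp H) {φ : H → ℂ} (hφ : IsCharacter H φ) :
    IsGeneralizedCharacter G (hat H φ) := by
  classical
  have hcl := isChar_classFn hφ
  have hmn : Nat.card G = H.index * Nat.card H := H.index_mul_card.symm
  apply brauer_characterization _ (h.hat_classFn hcl)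
  intro E q hq hE
  have hnil : Group.IsNilpotent E := isElementary_nilpotent hq hE
  have hEG : Nat.card E ∣ H.index * Nat.card H := by
    rw [← hmn]; exact Subgroup.card_subgroup_dvd_card E
  have hab : Nat.card E = Nat.gcd (Nat.card E) H.index * Nat.gcd (Nat.card E) (Nat.card H) := by
    rw [← Nat.Coprime.gcd_mul _ h.hall.symm]
    exact (Nat.gcd_eq_left hEG).symm
  have hcop' : Nat.Coprime (Nat.gcd (Nat.card E) H.index) (Nat.gcd (Nat.card E) (Nat.card H)) :=
    Nat.Coprime.coprime_dvd_left (Nat.gcd_dvd_right _ _)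
      (Nat.Coprime.coprime_dvd_right (Nat.gcd_dvd_right _ _) h.hall.symm)
  obtain ⟨A, B, hAn, hBn, hAc, hBc, hcomm, hABi, hABs, -, -⟩ := split hab hcop'
  have hAm : ∀ x ∈ A, orderOf (x : G) ∣ H.index := by
    intro x hx
    rw [Subgroup.orderOf_coe, ← Subgroup.orderOf_mk x hx]
    exact (orderOf_dvd_natCard _).trans (by rw [hAc]; exact Nat.gcd_dvd_right _ _)
  have hBm : ∀ x ∈ B, orderOf (x : G) ∣ Nat.card H := by
    intro x hx
    rw [Subgroup.orderOf_coe, ← Subgroup.orderOf_mk x hx]
    exact (orderOf_dvd_natCard _).trans (by rw [hBc]; exact Nat.gcd_dvd_right _ _)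
  -- conjugate `B` into `H`
  let eB : B ≃* B.map E.subtype := B.equivMapOfInjective E.subtype E.subtype_injective
  obtain ⟨g, hg⟩ := h.elem (B.map E.subtype) q hq
    (isElementary_of_equiv eB (isElementary_subgroup hq hE B))
    (by rw [← Nat.card_congr eB.toEquiv, hBc]; exact Nat.gcd_dvd_right _ _)
  have hBH : ∀ y : B, g * ((y : E) : G) * g⁻¹ ∈ H := fun y =>
    hg ⟨((y : E) : G), ⟨y, y.2, rfl⟩, by simp⟩
  -- the projection `E → B`
  have hcompl : Subgroup.IsComplement' A B := by
    apply Subgroup.isComplement'_of_card_mul_and_disjoint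
    · rw [hAc, hBc, ← hab]
    · rw [disjoint_iff]; exact hABi
  let eAB : A × B →* E :=
    { toFun := fun p => (p.1 : E) * p.2
      map_one' := by simp
      map_mul' := by
        rintro ⟨a, b⟩ ⟨c, d⟩
        simp only [Prod.mk_mul_mk, Subgroup.coe_mul]
        have := hcomm c c.2 b b.2
        calc (a : E) * c * (b * d) = a * (c * b) * d := by group
          _ = a * (b * c) * d := by rw [this]
          _ = _ := by group }
  have hbij : Function.Bijective eAB := by
    rw [Nat.bijective_iff_injective_and_card]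
    constructor
    · rw [injective_iff_map_eq_one]
      rintro ⟨a, b⟩ h1
      have h2 : (a : E) * b = 1 := h1
      have h3 : (a : E) = (b : E)⁻¹ := eq_inv_of_mul_eq_one_left h2
      have h4 : (a : E) ∈ A ⊓ B := ⟨a.2, by rw [h3]; exact B.inv_mem b.2⟩
      rw [hABi, Subgroup.mem_bot] at h4
      rw [h4, one_mul] at h2
      exact Prod.ext (Subtype.ext h4) (Subtype.ext h2)
    · rw [Nat.card_prod, hAc, hBc, ← hab]
  let e : A × B ≃* E := MulEquiv.ofBijective eAB hbij
  let conjH : B →* H :=
    { toFun := fun y => ⟨g * ((y : E) : G) * g⁻¹, hBH y⟩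
      map_one' := by apply Subtype.ext; simp
      map_mul' := by intro a b; apply Subtype.ext; simp }
  have hval : (fun x : E => hat H φ x) =
      fun x => φ (conjH ((MonoidHom.snd A B) (e.symm x))) := by
    funext x
    obtain ⟨⟨a, b⟩, rfl⟩ := e.surjective x
    rw [MulEquiv.symm_apply_apply]
    apply h.hat_eq hcl
    refine ⟨((b : E) : G), isConj_iff.mpr ⟨g, rfl⟩, ((a : E) : G), rfl, ?_, ?_, ?_⟩
    · exact congrArg Subtype.val (hcomm a a.2 b b.2)
    · exact h.hall.symm.coprime_dvd_left (hAm a a.2)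
    · exact h.hall.coprime_dvd_left (hBm b b.2)
  have : Fintype E := Fintype.ofFinite _
  change IsGeneralizedCharacter E (fun x : E => hat H φ x)
  rw [hval]
  exact gen_of_char (isChar_comp (conjH.comp ((MonoidHom.snd A B).comp e.symm.toMonoidHom)) hφ)

theorem Hyp.hat_mem {H : Subgroup G} (h : Hyp H) {φ : H → ℂ} (hφ : IsClassFunction H φ) (y : H) :
    hat H φ y = φ y := h.hat_eq hφ (h.sec_self y)

theorem Hyp.hat_inner [Fintype G] {H : Subgroup G} [Fintype H] (h : Hyp H) {φ ψ : H → ℂ}
    (hφ : IsClassFunction H φ) (hψ : IsClassFunction H ψ) :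
    classInner (hat H φ) (hat H ψ) = classInner φ ψ := by
  classical
  have : Fintype (ConjClasses H) := Fintype.ofFinite _
  rw [classInner_eq_sum_classes hφ hψ, classInner_def]
  have hG : (Nat.card G : ℂ) ≠ 0 := card_ne_zero'
  -- the map to classes of `H`
  choose s hs using fun x : G => h.exists_sec x
  rw [← Finset.sum_fiberwise (s := Finset.univ) (g := fun x => ConjClasses.mk (s x)),
    Finset.mul_sum]
  refine Finset.sum_congr rfl fun K _ => ?_
  have hK : ConjClasses.mk (Quotient.out K) = K := Quotient.out_eq K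
  have hfib : ∀ x, ConjClasses.mk (s x) = K ↔
      InSec H.index (Nat.card H) ((Quotient.out K : H) : G) x := by
    intro x
    constructor
    · intro hx
      have h1 : IsConj (s x) (Quotient.out K) := by
        rw [← ConjClasses.mk_eq_mk_iff_isConj, hK]; exact hx
      obtain ⟨c, hc⟩ := isConj_iff.mp h1
      exact inSec_of_isConj (isConj_iff.mpr ⟨c, congrArg Subtype.val hc⟩) (hs x)
    · intro hx
      rw [← hK, ConjClasses.mk_eq_mk_iff_isConj]
      exact h.sec_unique (hs x) hx
  rw [Finset.sum_congr rfl (fun x hx => by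
    have hx' := (hfib x).mp (Finset.mem_filter.mp hx).2
    rw [h.hat_eq hφ hx', h.hat_eq hψ hx'] :
    ∀ x ∈ Finset.univ.filter (fun x => ConjClasses.mk (s x) = K), hat H φ x * conj (hat H ψ x) =
      φ (Quotient.out K) * conj (ψ (Quotient.out K))), Finset.sum_const, nsmul_eq_mul]
  have hcard : ((Finset.univ.filter (fun x => ConjClasses.mk (s x) = K)).card : ℂ) =
      (Nat.card (Subgroup.centralizer ({Quotient.out K} : Set H)) : ℂ)⁻¹ * Nat.card G := by
    have h1 := h.card_sec (Quotient.out K)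
    have h2 : (Finset.univ.filter (fun x => ConjClasses.mk (s x) = K)).card =
        Nat.card {x : G // InSec H.index (Nat.card H) ((Quotient.out K : H) : G) x} := by
      rw [Nat.card_eq_fintype_card, Fintype.card_subtype]
      congr 1
      ext x
      simp only [Finset.mem_filter, Finset.mem_univ, true_and, hfib]
    rw [h2, ← h1]
    have h3 : (Nat.card (Subgroup.centralizer ({Quotient.out K} : Set H)) : ℂ) ≠ 0 :=
      Nat.cast_ne_zero.mpr Nat.card_pos.ne'
    push_cast
    field_simp
  rw [hcard]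
  field_simp

theorem Hyp.hat_irr [Fintype G] {H : Subgroup G} (h : Hyp H) {φ : H → ℂ}
    (hφ : IsIrrCharacter H φ) : IsIrrCharacter G (hat H φ) := by
  classical
  cases nonempty_fintype H
  have hcl := isChar_classFn (isChar_of_irr hφ)
  refine norm_one_pos (h.hat_gen (isChar_of_irr hφ)) ?_ ?_
  · rw [h.hat_inner hcl hcl, irr_inner_self hφ]
  · have h1 : hat H φ 1 = φ 1 := h.hat_mem hcl 1
    obtain ⟨d, hd, hd1⟩ := isIrr_one_eq hφ
    rw [h1, hd1]
    simpa using hd

theorem Hyp.complement {H : Subgroup G} (h : Hyp H) :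
    ∃ K : Subgroup G, K.Normal ∧ K ⊔ H = ⊤ ∧ K ⊓ H = ⊥ := by
  classical
  cases nonempty_fintype G
  cases nonempty_fintype H
  let M : Subgroup G := ⨅ φ : IrrCharacter H, kerChar (hat H φ.1) (isChar_of_irr (h.hat_irr φ.2))
  have hM : ∀ x, x ∈ M ↔ ∀ φ : IrrCharacter H, hat H φ.1 x = φ.1 1 := by
    intro x
    have h1 : ∀ φ : IrrCharacter H, hat H φ.1 1 = φ.1 1 := fun φ =>
      h.hat_mem (isChar_classFn (isChar_of_irr φ.2)) 1
    simp only [M, Subgroup.mem_iInf, mem_kerChar, h1]
  have hMn : M.Normal := by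
    apply Subgroup.normal_iInf_normal
    intro φ
    exact kerChar_normal _
  have hMH : M ⊓ H = ⊥ := by
    rw [eq_bot_iff]
    rintro x ⟨hx, hxH⟩
    have h1 : ∀ φ : IrrCharacter H, φ.1 ⟨x, hxH⟩ = φ.1 1 := by
      intro φ
      rw [← h.hat_mem (isChar_classFn (isChar_of_irr φ.2)) ⟨x, hxH⟩]
      exact (hM x).mp hx φ
    have h2 := irr_separates h1
    rw [isConj_comm, isConj_iff] at h2
    obtain ⟨c, hc⟩ := h2
    have h3 : (⟨x, hxH⟩ : H) = 1 := by rw [← hc]; simp
    exact Subgroup.mem_bot.mpr (congrArg Subtype.val h3)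
  -- the order of `M`
  have hcard : H.index ≤ Nat.card M := by
    have h1 := h.card_sec 1
    have h2 : Nat.card (Subgroup.centralizer ({(1 : H)} : Set H)) = Nat.card H := by
      have : Subgroup.centralizer ({(1 : H)} : Set H) = ⊤ := by
        ext; simp [Subgroup.mem_centralizer_singleton_iff]
      rw [this]
      exact Nat.card_congr Subgroup.topEquiv.toEquiv
    rw [h2, ← H.card_mul_index] at h1
    have h3 : Nat.card {x : G // InSec H.index (Nat.card H) (((1 : H) : H) : G) x} = H.index :=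
      Nat.eq_of_mul_eq_mul_left Nat.card_pos h1
    rw [← h3]
    refine Nat.card_le_card_of_injective
      (fun x : {x : G // InSec H.index (Nat.card H) (((1 : H) : H) : G) x} => (⟨x.1, ?_⟩ : M)) ?_
    · rw [hM]
      intro φ
      exact h.hat_eq (isChar_classFn (isChar_of_irr φ.2)) x.2
    · intro a b hab
      exact Subtype.ext (congrArg (fun z : M => (z : G)) hab)
  have hsup : Nat.card (M ⊔ H : Subgroup G) = Nat.card M * Nat.card H :=
    Basic.card_sup_of_inf_eq_bot (by rw [Subgroup.normalizer_eq_top]; exact le_top) hMH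
  refine ⟨M, hMn, ?_, hMH⟩
  apply (Subgroup.card_eq_iff_eq_top _).mp
  apply le_antisymm (Subgroup.card_le_card_group _)
  rw [hsup, ← H.index_mul_card]
  exact Nat.mul_le_mul_right _ hcard

end

end Cfsg.Agent.Lib.CharHallCompl
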