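import Cfsg.Agent.Lib.CharPermB
import Cfsg.Agent.Lib.CharClifford
import Cfsg.Agent.Lib.CharTable

/-! The action of a group on the irreducible characters and classes of a normal subgroup. -/

set_option autoImplicit false
set_option linter.unusedVariables false
set_option linter.unusedSectionVars false

namespace Cfsg.Agent.Lib.CharOrb

open Cfsg Cfsg.Agent.Lib.CharBasic Cfsg.Agent.Lib.CharNormal Cfsg.Agent.Lib.CharTable
open Cfsg.Agent.Lib.CharClifford Cfsg.Agent.Lib.CharPermB
open scoped ComplexConjugate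

noncomputable section

theorem card_orbits_eq_of_fixed {G : Type*} [Group G] [Finite G] (X Y : Type*) [MulAction G X]
    [MulAction G Y] [Finite X] [Finite Y]
    (h : ∀ g : G, Nat.card (MulAction.fixedBy X g) = Nat.card (MulAction.fixedBy Y g)) :
    Nat.card (MulAction.orbitRel.Quotient G X) = Nat.card (MulAction.orbitRel.Quotient G Y) := by
  cases nonempty_fintype G
  have h1 := inner_permChar_one (G := G) X
  have h2 := inner_permChar_one (G := G) Y
  have h3 : permChar G X = permChar G Y := by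
    funext g
    rw [permChar, permChar, h g]
  rw [h3, h2] at h1
  exact_mod_cast h1.symm

theorem fix_comm {X : Type*} (A c : Equiv.Perm X) (hAc : A * c = c * A) (hc : c * c = 1) {m : ℕ}
    (hm : Odd m) (hA : A ^ m = 1) (x : X) : (A * c) x = x ↔ A x = x ∧ c x = x := by
  constructor
  · intro h
    have h1 : ((A * c) ^ m) x = x := by
      have : ∀ k : ℕ, ((A * c) ^ k) x = x := by
        intro k
        induction k with
        | zero => rfl
        | succ k ih => rw [pow_succ, Equiv.Perm.mul_apply, h, ih]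
      exact this m
    have hcm : c ^ m = c := by
      obtain ⟨k, rfl⟩ := hm
      rw [pow_succ, pow_mul, pow_two, hc, one_pow, one_mul]
    have h2 : (A * c) ^ m = c := by
      rw [Commute.mul_pow hAc, hA, hcm, one_mul]
    rw [h2] at h1
    rw [Equiv.Perm.mul_apply, h1] at h
    exact ⟨h, h1⟩
  · rintro ⟨h1, h2⟩
    rw [Equiv.Perm.mul_apply, h2, h1]

variable {G : Type*} [Group G] {N : Subgroup G} [hN : N.Normal]

/-- The action on the irreducible characters of a normal subgroup. -/
@[reducible] def actIrr : MulAction G (IrrCharacter N) where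
  smul g θ := ⟨cj g⁻¹ θ.1, cj_isIrr g⁻¹ θ.2⟩
  one_smul θ := by
    apply Subtype.ext
    change cj (1 : G)⁻¹ θ.1 = θ.1
    rw [inv_one, cj_one]
  mul_smul g h θ := by
    apply Subtype.ext
    change cj (g * h)⁻¹ θ.1 = cj g⁻¹ (cj h⁻¹ θ.1)
    rw [mul_inv_rev, cj_mul]

/-- The action on the classes of a normal subgroup. -/
@[reducible] def actCl : MulAction G (ConjClasses N) where
  smul g C := autClass (cjAut g) C
  one_smul C := by
    obtain ⟨x, rfl⟩ := ConjClasses.mk_surjective C
    change autClass (cjAut (1 : G)) (ConjClasses.mk x) = _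
    rw [autClass_mk]
    congr 1
    apply Subtype.ext
    rw [cjAut_coe]; group
  mul_smul g h C := by
    obtain ⟨x, rfl⟩ := ConjClasses.mk_surjective C
    change autClass (cjAut (g * h)) (ConjClasses.mk x) =
      autClass (cjAut g) (autClass (cjAut h) (ConjClasses.mk x))
    rw [autClass_mk, autClass_mk, autClass_mk]
    congr 1
    apply Subtype.ext
    rw [cjAut_coe, cjAut_coe, cjAut_coe]; group

theorem smul_irr (g : G) (θ : IrrCharacter N) :
    (letI := actIrr (N := N); g • θ) = autPerm (cjAut g) θ := by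
  apply Subtype.ext
  funext n
  change cj g⁻¹ θ.1 n = θ.1 ((cjAut g).symm n)
  rw [cj_apply]
  have h : (⟨g⁻¹ * n * g⁻¹⁻¹, hN.conj_mem n n.2 g⁻¹⟩ : N) = (cjAut g).symm n := by
    apply (cjAut (N := N) g).injective
    rw [MulEquiv.apply_symm_apply]
    apply Subtype.ext
    rw [cjAut_coe]
    change g * (g⁻¹ * n * g⁻¹⁻¹) * g⁻¹ = n
    group
  rw [h]

theorem autPerm_of_mem {g : G} (hg : g ∈ N) : autPerm (cjAut (N := N) g) = 1 := by
  ext θ : 1
  have h := smul_irr g θ
  rw [← h]
  apply Subtype.ext
  change cj g⁻¹ θ.1 = θ.1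
  exact cj_of_mem (isChar_classFn (isChar_of_irr θ.2)) (N.inv_mem hg)

theorem autClass_of_mem {g : G} (hg : g ∈ N) : autClass (cjAut (N := N) g) = 1 := by
  ext C : 1
  obtain ⟨x, rfl⟩ := ConjClasses.mk_surjective C
  rw [autClass_mk, Equiv.Perm.one_apply, ConjClasses.mk_eq_mk_iff_isConj]
  refine (isConj_iff.mpr ⟨⟨g, hg⟩, ?_⟩ : IsConj x _).symm
  apply Subtype.ext
  rw [cjAut_coe]
  rfl

theorem autPerm_pow (g : G) (m : ℕ) :
    (autPerm (cjAut (N := N) g)) ^ m = autPerm (cjAut (N := N) (g ^ m)) := by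
  letI := actIrr (N := N)
  have h : ∀ g : G, autPerm (cjAut (N := N) g) = MulAction.toPermHom G (IrrCharacter N) g := by
    intro g
    ext θ : 1
    exact (smul_irr g θ).symm
  rw [h, h, map_pow]

theorem autClass_pow (g : G) (m : ℕ) :
    (autClass (cjAut (N := N) g)) ^ m = autClass (cjAut (N := N) (g ^ m)) := by
  letI := actCl (N := N)
  have h : ∀ g : G, autClass (cjAut (N := N) g) = MulAction.toPermHom G (ConjClasses N) g := by
    intro g
    ext C : 1
    rfl
  rw [h, h, map_pow]

/-- Real irreducible characters and real classes fixed by `g` are equinumerous in odd index. -/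
theorem real_fixed [Finite G] [Fintype N] (hodd : Odd N.index) (g : G) :
    Nat.card {θ : IrrCharacter N // autPerm (cjAut g) θ = θ ∧ conjPerm θ = θ} =
      Nat.card {C : ConjClasses N // autClass (cjAut g) C = C ∧ invPerm C = C} := by
  classical
  have hm : g ^ N.index ∈ N := Subgroup.pow_index_mem N g
  have h1 : (autPerm (cjAut (N := N) g)) ^ N.index = 1 := by
    rw [autPerm_pow, autPerm_of_mem hm]
  have h2 : (autClass (cjAut (N := N) g)) ^ N.index = 1 := by
    rw [autClass_pow, autClass_of_mem hm]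
  have h3 : autPerm (cjAut (N := N) g) * conjPerm = conjPerm * autPerm (cjAut (N := N) g) := by
    ext θ : 1
    apply Subtype.ext
    funext n
    rfl
  have h4 : autClass (cjAut (N := N) g) * invPerm = invPerm * autClass (cjAut (N := N) g) := by
    ext C : 1
    obtain ⟨x, rfl⟩ := ConjClasses.mk_surjective C
    change ConjClasses.mk (cjAut g x⁻¹) = ConjClasses.mk (cjAut g x)⁻¹
    rw [map_inv]
  have h5 : (conjPerm : Equiv.Perm (IrrCharacter N)) * conjPerm = 1 := by
    ext θ : 1
    exact conjPerm.left_inv θ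
  have h6 : (invPerm : Equiv.Perm (ConjClasses N)) * invPerm = 1 := by
    ext C : 1
    exact invPerm.left_inv C
  have h7 := card_fixed_eq (autPerm (cjAut (N := N) g) * conjPerm)
    (autClass (cjAut (N := N) g) * invPerm) (by
      intro χ x y hxy
      change ConjClasses.mk y = ConjClasses.mk (cjAut g x⁻¹) at hxy
      rw [ConjClasses.mk_eq_mk_iff_isConj] at hxy
      refine (classFn_isConj (isChar_classFn (isChar_of_irr
        (autPerm (cjAut (N := N) g) (conjPerm χ)).2)) hxy).trans ?_
      change conj (χ.1 ((cjAut g).symm (cjAut g x⁻¹))) = χ.1 x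
      rw [MulEquiv.symm_apply_apply, ← char_inv (isChar_of_irr χ.2), inv_inv])
  rw [Nat.card_congr (Equiv.subtypeEquivRight fun θ =>
      (fix_comm _ _ h3 h5 hodd h1 θ)), Nat.card_congr (Equiv.subtypeEquivRight fun C =>
      (fix_comm _ _ h4 h6 hodd h2 C))] at h7
  exact h7

theorem conjPerm_eq_iff [Fintype N] (θ : IrrCharacter N) : conjPerm θ = θ ↔ ∀ k, (θ.1 k).im = 0 := by
  constructor
  · intro h k
    have := congrFun (congrArg Subtype.val h) k
    exact Complex.conj_eq_iff_im.mp this
  · intro h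
    apply Subtype.ext
    funext k
    exact Complex.conj_eq_iff_im.mpr (h k)

theorem invPerm_mk_eq_iff (x : N) : invPerm (ConjClasses.mk x) = ConjClasses.mk x ↔
    IsConj x x⁻¹ := by
  rw [invPerm_mk, ConjClasses.mk_eq_mk_iff_isConj]
  exact ⟨fun h => h.symm, fun h => h.symm⟩

/-- Real irreducible characters with the `G`-action. -/
@[reducible] def actReal : MulAction G {θ : IrrCharacter N // ∀ k : N, (θ.1 k).im = 0} where
  smul g θ := ⟨⟨cj g⁻¹ θ.1.1, cj_isIrr g⁻¹ θ.1.2⟩, fun k => θ.2 _⟩
  one_smul θ := by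
    apply Subtype.ext; apply Subtype.ext
    change cj (1 : G)⁻¹ θ.1.1 = θ.1.1
    rw [inv_one, cj_one]
  mul_smul g h θ := by
    apply Subtype.ext; apply Subtype.ext
    change cj (g * h)⁻¹ θ.1.1 = cj g⁻¹ (cj h⁻¹ θ.1.1)
    rw [mul_inv_rev, cj_mul]

/-- Real classes with the `G`-action. -/
@[reducible] def actRealCl : MulAction G {C : ConjClasses N // invPerm C = C} where
  smul g C := ⟨autClass (cjAut g) C.1, by
    obtain ⟨x, hx⟩ := ConjClasses.mk_surjective C.1
    have h := C.2
    rw [← hx] at h ⊢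
    have h4 : invPerm (autClass (cjAut g) (ConjClasses.mk x)) =
      autClass (cjAut g) (invPerm (ConjClasses.mk x)) := by
      change ConjClasses.mk (cjAut g x)⁻¹ = ConjClasses.mk (cjAut g x⁻¹)
      rw [map_inv]
    rw [h4, h]⟩
  one_smul C := by
    apply Subtype.ext
    exact (actCl (N := N)).one_smul C.1
  mul_smul g h C := by
    apply Subtype.ext
    exact (actCl (N := N)).mul_smul g h C.1

theorem real_orbits [Finite G] (hodd : Odd N.index) :
    Nat.card (Quot (fun θ η : {θ : Cfsg.IrrCharacter ↥N // (∀ k : ↥N, ((θ : ↥N → ℂ) k).im = 0)} =>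
      ∃ g : G, ∀ k k' : ↥N, (k' : G) = g * (k : G) * g⁻¹ →
        (η.1 : ↥N → ℂ) k' = (θ.1 : ↥N → ℂ) k)) =
    Nat.card (Quot (fun x y : {x : ↥N // IsConj x x⁻¹} =>
      ∃ g : G, (y.1 : G) = g * x.1 * g⁻¹)) := by
  classical
  cases nonempty_fintype N
  letI := actReal (N := N)
  letI := actRealCl (N := N)
  have h1 := card_orbits_eq_of_fixed (G := G) {θ : IrrCharacter N // ∀ k : N, (θ.1 k).im = 0}
    {C : ConjClasses N // invPerm C = C} (by
      intro g
      have h2 := real_fixed hodd g
      have e1 : MulAction.fixedBy {θ : IrrCharacter N // ∀ k : N, (θ.1 k).im = 0} g ≃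
          {θ : IrrCharacter N // autPerm (cjAut g) θ = θ ∧ conjPerm θ = θ} :=
        { toFun := fun θ => ⟨θ.1.1, by
            have h3 := θ.2
            rw [MulAction.mem_fixedBy] at h3
            have h4 := congrArg Subtype.val h3
            rw [← smul_irr]
            exact h4, (conjPerm_eq_iff _).mpr θ.1.2⟩
          invFun := fun θ => ⟨⟨θ.1, (conjPerm_eq_iff _).mp θ.2.2⟩, by
            rw [MulAction.mem_fixedBy]
            apply Subtype.ext
            have h3 := θ.2.1
            rw [← smul_irr] at h3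
            exact h3⟩
          left_inv := fun θ => rfl
          right_inv := fun θ => rfl }
      have e2 : MulAction.fixedBy {C : ConjClasses N // invPerm C = C} g ≃
          {C : ConjClasses N // autClass (cjAut g) C = C ∧ invPerm C = C} :=
        { toFun := fun C => ⟨C.1.1, by
            have h3 := C.2
            rw [MulAction.mem_fixedBy] at h3
            exact congrArg Subtype.val h3, C.1.2⟩
          invFun := fun C => ⟨⟨C.1, C.2.2⟩, by
            rw [MulAction.mem_fixedBy]
            apply Subtype.ext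
            exact C.2.1⟩
          left_inv := fun θ => rfl
          right_inv := fun θ => rfl }
      rw [Nat.card_congr e1, Nat.card_congr e2, h2])
  have e1 : Quot (fun θ η : {θ : Cfsg.IrrCharacter ↥N // (∀ k : ↥N, ((θ : ↥N → ℂ) k).im = 0)} =>
      ∃ g : G, ∀ k k' : ↥N, (k' : G) = g * (k : G) * g⁻¹ →
        (η.1 : ↥N → ℂ) k' = (θ.1 : ↥N → ℂ) k) ≃
      MulAction.orbitRel.Quotient G {θ : IrrCharacter N // ∀ k : N, (θ.1 k).im = 0} := by
    refine Quot.congrRight fun θ η => ?_
    rw [MulAction.orbitRel_apply, MulAction.mem_orbit_iff]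
    have h2 : ∀ g : G, (∀ k k' : ↥N, (k' : G) = g * (k : G) * g⁻¹ →
        (η.1 : ↥N → ℂ) k' = (θ.1 : ↥N → ℂ) k) ↔ g⁻¹ • η = θ := by
      intro g
      constructor
      · intro h
        apply Subtype.ext; apply Subtype.ext
        funext k
        change cj g⁻¹⁻¹ η.1.1 k = θ.1.1 k
        rw [inv_inv, cj_apply]
        exact h k _ rfl
      · intro h k k' hk
        rw [← h]
        change η.1.1 k' = cj g⁻¹⁻¹ η.1.1 k
        rw [inv_inv, cj_apply]
        exact congrArg _ (Subtype.ext hk)
    constructor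
    · rintro ⟨g, hg⟩
      exact ⟨g⁻¹, (h2 g).mp hg⟩
    · rintro ⟨g, hg⟩
      exact ⟨g⁻¹, (h2 g⁻¹).mpr (by rw [inv_inv]; exact hg)⟩
  rw [Nat.card_congr e1, h1]
  symm
  -- classes
  let f : {x : ↥N // IsConj x x⁻¹} → {C : ConjClasses N // invPerm C = C} := fun x =>
    ⟨ConjClasses.mk x.1, (invPerm_mk_eq_iff x.1).mpr x.2⟩
  have hsm : ∀ (g : G) (x : {x : ↥N // IsConj x x⁻¹}),
      (g • f x).1 = ConjClasses.mk (cjAut g x.1) := fun g x => rfl
  refine Nat.card_congr (Equiv.ofBijective (Quot.lift (fun x => (Quotient.mk'' (f x) :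
    MulAction.orbitRel.Quotient G {C : ConjClasses N // invPerm C = C})) ?_) ⟨?_, ?_⟩)
  · rintro x y ⟨g, hg⟩
    apply Quotient.sound'
    rw [MulAction.orbitRel_apply, MulAction.mem_orbit_iff]
    refine ⟨g⁻¹, ?_⟩
    apply Subtype.ext
    rw [hsm]
    change _ = ConjClasses.mk x.1
    congr 1
    apply Subtype.ext
    rw [cjAut_coe, hg]; group
  · intro a b hab
    induction a using Quot.inductionOn with | _ x => ?_
    induction b using Quot.inductionOn with | _ y => ?_
    have h2 := Quotient.exact' hab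
    rw [MulAction.orbitRel_apply, MulAction.mem_orbit_iff] at h2
    obtain ⟨g, hg⟩ := h2
    have h3 := congrArg Subtype.val hg
    rw [hsm] at h3
    change _ = ConjClasses.mk x.1 at h3
    rw [ConjClasses.mk_eq_mk_iff_isConj] at h3
    obtain ⟨c, hc⟩ := isConj_iff.mp h3
    apply Quot.sound
    refine ⟨g⁻¹ * (c : G)⁻¹, ?_⟩
    have h4 := congrArg (fun n : N => (n : G)) hc
    simp only [Subgroup.coe_mul, Subgroup.coe_inv, cjAut_coe] at h4
    rw [← h4]; group
  · intro b
    induction b using Quotient.inductionOn' with | _ C => ?_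
    obtain ⟨x, hx⟩ := ConjClasses.mk_surjective C.1
    have hx2 : IsConj x x⁻¹ := by
      rw [← invPerm_mk_eq_iff, hx]; exact C.2
    refine ⟨Quot.mk _ ⟨x, hx2⟩, ?_⟩
    change Quotient.mk'' (f ⟨x, hx2⟩) = Quotient.mk'' C
    congr 1
    exact Subtype.ext hx

end

end Cfsg.Agent.Lib.CharOrb
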