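import Cfsg.Agent.Lib.CharMod

/-! The congruence `χ(g)^(p^n) ≡ χ(g^(p^n))` modulo `p`. -/

set_option autoImplicit false
set_option linter.unusedVariables false
set_option linter.unusedSectionVars false

namespace Cfsg.Agent.Lib.CharPPow

open Cfsg Cfsg.Agent.Lib.CharBasic Cfsg.Agent.Lib.BlockLoc Cfsg.Agent.Lib.BlockPP
open scoped ComplexConjugate

noncomputable section

theorem sum_pow_congr {p : ℕ} (hp : p.Prime) (n : ℕ) (s : Multiset ℂ)
    (hs : ∀ z ∈ s, IsIntegral ℤ z) :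
    ∃ γ : AlgInt, s.sum ^ p ^ n - (s.map (fun z => z ^ p ^ n)).sum = (p : ℂ) * (γ : ℂ) := by
  induction s using Multiset.induction_on with
  | empty => exact ⟨0, by simp [hp.ne_zero]⟩
  | cons a s ih =>
    obtain ⟨γ, hγ⟩ := ih fun z hz => hs z (Multiset.mem_cons_of_mem hz)
    have ha : IsIntegral ℤ a := hs a (Multiset.mem_cons_self a s)
    have hsum : IsIntegral ℤ s.sum := by
      apply IsIntegral.multiset_sum
      exact fun z hz => hs z (Multiset.mem_cons_of_mem hz)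
    obtain ⟨r, hr⟩ := exists_add_pow_prime_pow_eq hp (⟨a, ha⟩ : AlgInt) (⟨s.sum, hsum⟩ : AlgInt) n
    have hr' := congrArg (fun z : AlgInt => (z : ℂ)) hr
    simp only [Subalgebra.coe_add, Subalgebra.coe_pow, Subalgebra.coe_mul] at hr'
    rw [Multiset.sum_cons, Multiset.map_cons, Multiset.sum_cons]
    refine ⟨(⟨a, ha⟩ : AlgInt) * (⟨s.sum, hsum⟩ : AlgInt) * r + γ, ?_⟩
    rw [hr']
    push_cast
    rw [mul_add, ← hγ]
    ring

theorem pow_congr {G : Type*} [Group G] [Finite G] {p : ℕ} (hp : p.Prime) (n : ℕ) {χ : G → ℂ}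
    (hχ : IsCharacter G χ) (g : G) :
    ∃ γ : AlgInt, χ g ^ p ^ n - χ (g ^ p ^ n) = (p : ℂ) * (γ : ℂ) := by
  obtain ⟨s, hs1, hs2, hs3⟩ := exists_eigenvalues hχ g
  obtain ⟨γ, hγ⟩ := sum_pow_congr hp n (s.map (fun z : ℂˣ => (z : ℂ))) (by
    intro z hz
    obtain ⟨u, hu, rfl⟩ := Multiset.mem_map.mp hz
    refine isIntegral_of_pow_eq_one (orderOf_pos g).ne' (n := orderOf g) ?_
    rw [← Units.val_pow_eq_pow_val, hs1 u hu, Units.val_one])
  refine ⟨γ, ?_⟩
  rw [← hγ]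
  have h1 := hs2 1
  have h2 := hs2 ((p ^ n : ℕ) : ℤ)
  rw [zpow_one] at h1
  rw [zpow_natCast] at h2
  rw [h1, h2, Multiset.map_map]
  congr 2
  · congr 2; funext z; rw [zpow_one]

end

end Cfsg.Agent.Lib.CharPPow
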