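import Cfsg.Agent.Lib.CharSection
import Cfsg.Agent.Lib.CharKer
import Cfsg.Agent.Lib.BlockMore
import Cfsg.Agent.Lib.CharClifford

/-! Counting irreducible characters over a faithful character of a central subgroup. -/

set_option autoImplicit false
set_option linter.unusedVariables false
set_option linter.unusedSectionVars false

namespace Cfsg.Agent.Lib.CharSpecial

open Cfsg Cfsg.Agent.Lib.CharBasic Cfsg.Agent.Lib.CharNormal
open Cfsg.Agent.Lib.CharClifford
open scoped ComplexConjugate

noncomputable section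

/-- Number of classes in a conjugation-invariant set. -/
theorem card_classes_pred {H : Type*} [Group H] [Fintype H] (S : H → Prop) [DecidablePred S]
    (hS : ∀ a b : H, IsConj a b → S a → S b) :
    (Nat.card {C : ConjClasses H // ∃ h, ConjClasses.mk h = C ∧ S h} : ℂ) * Nat.card H =
      ∑ h : H, if S h then (Nat.card (Subgroup.centralizer ({h} : Set H)) : ℂ) else 0 := by
  classical
  have : Fintype (ConjClasses H) := Fintype.ofFinite _
  obtain ⟨F, hF⟩ : ∃ F : H → ℂ, F = fun h =>
    if S h then (Nat.card (Subgroup.centralizer ({h} : Set H)) : ℂ) else 0 := ⟨_, rfl⟩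
  have hcc : ∀ a b : H, Nat.card (Subgroup.centralizer ({b * a * b⁻¹} : Set H)) =
      Nat.card (Subgroup.centralizer ({a} : Set H)) := by
    intro a b
    have h1 := (Subgroup.centralizer ({b * a * b⁻¹} : Set H)).index_mul_card
    have h2 := (Subgroup.centralizer ({a} : Set H)).index_mul_card
    have h3 : (Subgroup.centralizer ({b * a * b⁻¹} : Set H)).index =
        (Subgroup.centralizer ({a} : Set H)).index := by
      rw [← card_conj_class, ← card_conj_class]
      have hab : IsConj a (b * a * b⁻¹) := isConj_iff.mpr ⟨b, rfl⟩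
      exact Nat.card_congr (Equiv.subtypeEquivRight fun y =>
        ⟨fun h => hab.trans h, fun h => hab.symm.trans h⟩)
    rw [h3] at h1
    have h4 : 0 < (Subgroup.centralizer ({a} : Set H)).index :=
      Nat.pos_of_ne_zero Subgroup.index_ne_zero_of_finite
    exact Nat.eq_of_mul_eq_mul_left h4 (h1.trans h2.symm)
  have hFc : IsClassFunction H F := by
    intro a b
    rw [hF]
    simp only [hcc]
    have hab : IsConj a (b * a * b⁻¹) := isConj_iff.mpr ⟨b, rfl⟩
    have h1 : S (b * a * b⁻¹) ↔ S a := ⟨hS _ _ hab.symm, hS _ _ hab⟩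
    simp only [h1]
  have h1 := Lib.CharSection.classInner_eq_sum_classes hFc (classFn_const (G := H) 1)
  rw [classInner_def, inv_mul_eq_iff_eq_mul₀ card_ne_zero'] at h1
  simp only [map_one, mul_one] at h1
  rw [hF] at h1
  rw [h1, mul_comm]
  congr 1
  have h2 : ∀ K : ConjClasses H, (Nat.card (Subgroup.centralizer ({Quotient.out K} : Set H)) : ℂ)⁻¹ *
      (if S (Quotient.out K) then
        (Nat.card (Subgroup.centralizer ({Quotient.out K} : Set H)) : ℂ) else 0) =
      if (∃ h, ConjClasses.mk h = K ∧ S h) then 1 else 0 := by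
    intro K
    have hK : ConjClasses.mk (Quotient.out K) = K := Quotient.out_eq K
    have h3 : S (Quotient.out K) ↔ ∃ h, ConjClasses.mk h = K ∧ S h := by
      constructor
      · intro h
        exact ⟨_, hK, h⟩
      · rintro ⟨h, hh, hS'⟩
        rw [← hK, ConjClasses.mk_eq_mk_iff_isConj] at hh
        exact hS _ _ hh hS'
    by_cases h4 : S (Quotient.out K)
    · rw [if_pos h4, if_pos (h3.mp h4), inv_mul_cancel₀ (Nat.cast_ne_zero.mpr Nat.card_pos.ne')]
    · rw [if_neg h4, if_neg (fun h => h4 (h3.mpr h)), mul_zero]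
  refine Eq.trans ?_ (Finset.sum_congr rfl fun K _ => (h2 K).symm)
  rw [← Finset.sum_filter, Finset.sum_const, nsmul_eq_mul, mul_one, Nat.card_eq_fintype_card,
    Fintype.card_subtype]

/-- A special element. -/
def Sp {G : Type*} [Group G] (N : Subgroup G) (g : G) : Prop :=
  ∀ x : G, x⁻¹ * g⁻¹ * x * g ∈ N → x * g = g * x

theorem main {G : Type*} [Group G] [Fintype G] (N : Subgroup G) [hNn : N.Normal] [Fintype N]
    (hN : N ≤ Subgroup.center G) (ψ : IrrCharacter ↥N)
    (hfaith : ∀ n : ↥N, (ψ : ↥N → ℂ) n = (ψ : ↥N → ℂ) 1 → n = 1) :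
    Nat.card {χ : IrrCharacter G // classInner (fun n : ↥N => (χ : G → ℂ) n) (ψ : ↥N → ℂ) ≠ 0} =
      Nat.card {C : ConjClasses (G ⧸ N) // ∃ g : G, ConjClasses.mk (g : G ⧸ N) = C ∧
        ∀ x : G, x⁻¹ * g⁻¹ * x * g ∈ N → x * g = g * x} := by
  classical
  cases nonempty_fintype (G ⧸ N)
  have hcz : ∀ n ∈ N, ∀ g : G, g * n = n * g := fun n hn g => Subgroup.mem_center_iff.mp (hN hn) g
  have hab : ∀ a b : N, a * b = b * a := fun a b => Subtype.ext (hcz b b.2 a)
  obtain ⟨l, hl⟩ := irr_lin_of_comm hab ψ.2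
  have hψ1 : ψ.1 1 = 1 := by rw [hl]; simp
  have hG0 : (Nat.card G : ℂ) ≠ 0 := card_ne_zero'
  have hN0 : (Nat.card N : ℂ) ≠ 0 := card_ne_zero'
  let O : IrrCharacter G → Prop := fun χ => classInner (fun n : ↥N => χ.1 n) ψ.1 ≠ 0
  -- projection
  have hproj : ∀ (χ : IrrCharacter G) (g : G), ∑ n : N, conj (ψ.1 n) * χ.1 (n * g) =
      if O χ then (Nat.card N : ℂ) * χ.1 g else 0 := by
    intro χ g
    have h1 : ∀ n : N, χ.1 (n * g) = χ.1 n / χ.1 1 * χ.1 g := fun n =>
      BlockMore.irr_mul_central χ (fun y => hcz n n.2 y) g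
    have h11 := isIrr_one_ne_zero χ.2
    have h2 : ∑ n : N, conj (ψ.1 n) * χ.1 (n * g) =
        (Nat.card N : ℂ) * classInner (fun n : N => χ.1 n) ψ.1 * (χ.1 g / χ.1 1) := by
      rw [classInner_def, ← mul_assoc, mul_inv_cancel₀ hN0, one_mul, Finset.sum_mul]
      refine Finset.sum_congr rfl fun n _ => ?_
      rw [h1]; ring
    rw [h2]
    split_ifs with h
    · have h3 := res_eq_smul χ.2 ψ.2 (fun y => by
        funext n
        rw [cj_apply]
        refine congrArg ψ.1 (Subtype.ext ?_)
        change y * (n : G) * y⁻¹ = n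
        rw [hcz n n.2 y]; group) h
      have h4 := congrFun h3 1
      simp only [Pi.smul_apply, hψ1, smul_eq_mul, mul_one, OneMemClass.coe_one] at h4
      rw [← h4]
      field_simp
    · have h3 : classInner (fun n : N => χ.1 n) ψ.1 = 0 := not_not.mp h
      rw [h3]; ring
  -- sums over characters lying over ψ
  have hcent : ∀ n ∈ N, ∀ g : G, Nat.card (Subgroup.centralizer ({n * g} : Set G)) =
      Nat.card (Subgroup.centralizer ({g} : Set G)) := by
    intro n hn g
    have : Subgroup.centralizer ({n * g} : Set G) = Subgroup.centralizer ({g} : Set G) := by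
      ext x
      rw [Subgroup.mem_centralizer_singleton_iff, Subgroup.mem_centralizer_singleton_iff,
        ← mul_assoc, hcz n hn x, mul_assoc, mul_assoc, mul_right_inj]
    rw [this]
  have hm : ∀ g : G, (Nat.card N : ℂ) * ∑ χ : IrrCharacter G,
      (if O χ then χ.1 g * conj (χ.1 g) else 0) =
      ∑ n : N, conj (ψ.1 n) * (if IsConj ((n : G) * g) g then
        (Nat.card (Subgroup.centralizer ({g} : Set G)) : ℂ) else 0) := by
    intro g
    have h1 : ∀ n : N, (if IsConj ((n : G) * g) g then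
        (Nat.card (Subgroup.centralizer ({g} : Set G)) : ℂ) else 0) =
        ∑ χ : IrrCharacter G, χ.1 ((n : G) * g) * conj (χ.1 g) := by
      intro n
      rw [column_orth, hcent n n.2]
    simp only [h1, Finset.mul_sum]
    rw [Finset.sum_comm]
    refine Finset.sum_congr rfl fun χ _ => ?_
    have h2 : ∀ n : N, conj (ψ.1 n) * (χ.1 ((n : G) * g) * conj (χ.1 g)) =
      conj (ψ.1 n) * χ.1 ((n : G) * g) * conj (χ.1 g) := fun n => by ring
    rw [Finset.sum_congr rfl fun n _ => h2 n, ← Finset.sum_mul, hproj]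
    split_ifs <;> ring
  have hmv : ∀ g : G, (Nat.card N : ℂ) * ∑ χ : IrrCharacter G,
      (if O χ then χ.1 g * conj (χ.1 g) else 0) =
      if Sp N g then (Nat.card (Subgroup.centralizer ({g} : Set G)) : ℂ) else 0 := by
    intro g
    rw [hm]
    split_ifs with hg
    · have h1 : ∀ n : N, IsConj ((n : G) * g) g ↔ n = 1 := by
        intro n
        constructor
        · intro h
          obtain ⟨x, hx⟩ := isConj_iff.mp h
          -- x (n g) x⁻¹ = g
          have h2 : x⁻¹ * g⁻¹ * x * g = (n : G)⁻¹ := by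
            have h3 : x * (n : G) = n * x := hcz n n.2 x
            have h4 : (n : G) * (x * g * x⁻¹) = g := by
              calc (n : G) * (x * g * x⁻¹) = (n * x) * g * x⁻¹ := by group
                _ = (x * n) * g * x⁻¹ := by rw [h3]
                _ = x * (n * g) * x⁻¹ := by group
                _ = g := hx
            have h5 : g⁻¹ = (x * g * x⁻¹)⁻¹ * (n : G)⁻¹ := by rw [← mul_inv_rev, h4]
            have h6 : (x * g * x⁻¹)⁻¹ * (n : G)⁻¹ = (n : G)⁻¹ * (x * g * x⁻¹)⁻¹ :=
              hcz _ (N.inv_mem n.2) _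
            calc x⁻¹ * g⁻¹ * x * g = x⁻¹ * ((n : G)⁻¹ * (x * g * x⁻¹)⁻¹) * x * g := by
                  rw [← h6, ← h5]
              _ = (x⁻¹ * (n : G)⁻¹) * x := by group
              _ = ((n : G)⁻¹ * x⁻¹) * x := by rw [hcz _ (N.inv_mem n.2) x⁻¹]
              _ = (n : G)⁻¹ := by group
          have h7 := hg x (by rw [h2]; exact N.inv_mem n.2)
          have h8 : x⁻¹ * g⁻¹ * x * g = 1 := by
            calc x⁻¹ * g⁻¹ * x * g = x⁻¹ * g⁻¹ * (x * g) := by group
              _ = x⁻¹ * g⁻¹ * (g * x) := by rw [h7]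
              _ = 1 := by group
          rw [h8] at h2
          apply Subtype.ext
          exact (inv_eq_one.mp h2.symm)
        · rintro rfl
          rw [OneMemClass.coe_one, one_mul]
      simp only [h1]
      rw [Finset.sum_congr rfl (fun n _ => by rw [mul_ite, mul_zero] : ∀ n ∈ Finset.univ,
        conj (ψ.1 n) * (if n = 1 then (Nat.card (Subgroup.centralizer ({g} : Set G)) : ℂ) else 0) =
        if n = 1 then conj (ψ.1 n) * (Nat.card (Subgroup.centralizer ({g} : Set G)) : ℂ) else 0),
        Finset.sum_ite_eq', if_pos (Finset.mem_univ _), hψ1, map_one, one_mul]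
    · -- not special
      simp only [Sp] at hg
      push Not at hg
      obtain ⟨x, hx, hxg⟩ := hg
      obtain ⟨n₀, hn₀⟩ : ∃ n₀ : N, (n₀ : G) = x⁻¹ * g⁻¹ * x * g := ⟨⟨_, hx⟩, rfl⟩
      have hn1 : n₀ ≠ 1 := by
        rintro rfl
        rw [OneMemClass.coe_one] at hn₀
        apply hxg
        have h1 : g * x * 1 = g * x * (x⁻¹ * g⁻¹ * x * g) := by rw [← hn₀]
        rw [mul_one] at h1
        rw [h1]; group
      have hψn : ψ.1 n₀ ≠ 1 := by
        intro h
        exact hn1 (hfaith n₀ (by rw [h, hψ1]))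
      -- (n n₀) g ~ n g
      have hshift : ∀ n : N, IsConj (((n₀ * n : N) : G) * g) g ↔ IsConj ((n : G) * g) g := by
        intro n
        have h1 : IsConj (((n₀ * n : N) : G) * g) ((n : G) * g) := by
          refine isConj_iff.mpr ⟨x⁻¹, ?_⟩
          have e1 := hcz n₀ n₀.2
          have e2 := hcz n n.2
          rw [inv_inv]
          push_cast
          have h2 : x⁻¹ * g * x = g * (n₀ : G)⁻¹ := by rw [hn₀]; group
          calc x⁻¹ * ((n₀ : G) * n * g) * x = (x⁻¹ * n₀) * n * g * x := by group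
            _ = (n₀ * x⁻¹) * n * g * x := by rw [e1]
            _ = n₀ * (x⁻¹ * n) * g * x := by group
            _ = n₀ * (n * x⁻¹) * g * x := by rw [e2]
            _ = n₀ * n * (x⁻¹ * g * x) := by group
            _ = n₀ * n * (g * (n₀ : G)⁻¹) := by rw [h2]
            _ = n₀ * (n * g) * (n₀ : G)⁻¹ := by group
            _ = (n * g) * n₀ * (n₀ : G)⁻¹ := by rw [e1]
            _ = n * g := by group
        exact ⟨fun h => h1.symm.trans h, fun h => h1.trans h⟩
      obtain ⟨S, hS⟩ : ∃ S, S = ∑ n : N, conj (ψ.1 n) * (if IsConj ((n : G) * g) g then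
        (Nat.card (Subgroup.centralizer ({g} : Set G)) : ℂ) else 0) := ⟨_, rfl⟩
      have h3 : S = conj (ψ.1 n₀) * S := by
        conv_lhs => rw [hS]
        conv_rhs => rw [hS]
        rw [Finset.mul_sum]
        refine (Fintype.sum_equiv (Equiv.mulLeft n₀) _ _ fun n => ?_).symm
        rw [Equiv.coe_mulLeft]
        simp only [hshift]
        have : ψ.1 (n₀ * n) = ψ.1 n₀ * ψ.1 n := by rw [hl]; simp
        rw [this, map_mul]; ring
      rw [← hS]
      have h4 : (1 - conj (ψ.1 n₀)) * S = 0 := by linear_combination h3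
      rcases mul_eq_zero.mp h4 with h | h
      · exfalso
        apply hψn
        have h5 := congrArg conj (sub_eq_zero.mp h)
        rw [map_one, Complex.conj_conj] at h5
        exact h5.symm
      · exact h
  -- the count of characters
  have hcount : (Nat.card {χ : IrrCharacter G // O χ} : ℂ) * Nat.card G =
      ∑ g : G, ∑ χ : IrrCharacter G, (if O χ then χ.1 g * conj (χ.1 g) else 0) := by
    rw [Finset.sum_comm]
    have h1 : ∀ χ : IrrCharacter G, ∑ g : G, (if O χ then χ.1 g * conj (χ.1 g) else 0) =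
        if O χ then (Nat.card G : ℂ) else 0 := by
      intro χ
      split_ifs with h
      · have h2 := irr_inner_self χ.2
        rw [classInner_def, inv_mul_eq_iff_eq_mul₀ hG0, mul_one] at h2
        exact h2
      · simp
    rw [Finset.sum_congr rfl fun χ _ => h1 χ, ← Finset.sum_filter, Finset.sum_const, nsmul_eq_mul,
      Nat.card_eq_fintype_card, Fintype.card_subtype]
  -- the classes of the quotient
  have hSpN : ∀ g : G, ∀ n ∈ N, Sp N g → Sp N (g * n) := by
    intro g n hn h x hx
    have e := hcz n hn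
    have e' := hcz _ (N.inv_mem hn)
    have h1 : x⁻¹ * (g * n)⁻¹ * x * (g * n) = x⁻¹ * g⁻¹ * x * g := by
      calc x⁻¹ * (g * n)⁻¹ * x * (g * n) = (x⁻¹ * n⁻¹) * g⁻¹ * x * g * n := by group
        _ = (n⁻¹ * x⁻¹) * g⁻¹ * x * g * n := by rw [e']
        _ = n⁻¹ * (x⁻¹ * g⁻¹ * x * g) * n := by group
        _ = ((x⁻¹ * g⁻¹ * x * g) * n⁻¹) * n := by rw [e']
        _ = _ := by group
    rw [h1] at hx
    have h2 := h x hx
    calc x * (g * n) = (x * g) * n := by group
      _ = (g * x) * n := by rw [h2]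
      _ = g * (x * n) := by group
      _ = g * (n * x) := by rw [e]
      _ = _ := by group
  let S : G ⧸ N → Prop := fun h => ∃ g : G, (g : G ⧸ N) = h ∧ Sp N g
  have hSmk : ∀ g : G, S (g : G ⧸ N) ↔ Sp N g := by
    intro g
    constructor
    · rintro ⟨g', hg', hs⟩
      rw [QuotientGroup.eq] at hg'
      have := hSpN g' _ hg' hs
      rwa [mul_inv_cancel_left] at this
    · intro h
      exact ⟨g, rfl, h⟩
  have hSconj : ∀ a b : G ⧸ N, IsConj a b → S a → S b := by
    intro a b hab' ha
    obtain ⟨c, hc⟩ := isConj_iff.mp hab'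
    obtain ⟨g, rfl⟩ := QuotientGroup.mk_surjective a
    obtain ⟨y, rfl⟩ := QuotientGroup.mk_surjective c
    rw [← hc, ← QuotientGroup.mk_mul, ← QuotientGroup.mk_inv, ← QuotientGroup.mk_mul, hSmk]
    rw [hSmk] at ha
    intro x hx
    have h1 := ha (y⁻¹ * x * y) (by
      have h2 := hNn.conj_mem _ hx y⁻¹
      rwa [show y⁻¹ * (x⁻¹ * (y * g * y⁻¹)⁻¹ * x * (y * g * y⁻¹)) * y⁻¹⁻¹ =
        (y⁻¹ * x * y)⁻¹ * g⁻¹ * (y⁻¹ * x * y) * g by group] at h2)
    calc x * (y * g * y⁻¹) = y * ((y⁻¹ * x * y) * g) * y⁻¹ := by group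
      _ = y * (g * (y⁻¹ * x * y)) * y⁻¹ := by rw [h1]
      _ = _ := by group
  have hcls := card_classes_pred S hSconj
  have hcard2 : ∀ g : G, Sp N g → (Nat.card (Subgroup.centralizer ({g} : Set G)) : ℂ) =
      Nat.card N * Nat.card (Subgroup.centralizer ({(g : G ⧸ N)} : Set (G ⧸ N))) := by
    intro g hg
    have h1 := Lib.CharKer.sum_comp_surj (QuotientGroup.mk' N) (QuotientGroup.mk'_surjective N)
      (fun h => if h ∈ Subgroup.centralizer ({(g : G ⧸ N)} : Set (G ⧸ N)) then (1 : ℂ) else 0)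
    rw [QuotientGroup.ker_mk'] at h1
    have h2 : ∀ x : G, (QuotientGroup.mk' N x ∈
        Subgroup.centralizer ({(g : G ⧸ N)} : Set (G ⧸ N))) ↔
        x ∈ Subgroup.centralizer ({g} : Set G) := by
      intro x
      rw [Subgroup.mem_centralizer_singleton_iff, Subgroup.mem_centralizer_singleton_iff]
      constructor
      · intro h
        apply hg
        rw [QuotientGroup.mk'_apply, ← QuotientGroup.mk_mul, ← QuotientGroup.mk_mul, eq_comm,
          QuotientGroup.eq] at h
        rwa [show x⁻¹ * g⁻¹ * x * g = (g * x)⁻¹ * (x * g) by group]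
      · intro h
        rw [QuotientGroup.mk'_apply, ← QuotientGroup.mk_mul, ← QuotientGroup.mk_mul, h]
    simp only [h2] at h1
    rw [← Finset.sum_filter, ← Finset.sum_filter, Finset.sum_const, Finset.sum_const,
      nsmul_eq_mul, nsmul_eq_mul, mul_one, mul_one] at h1
    rw [Nat.card_eq_fintype_card, Nat.card_eq_fintype_card (α :=
      Subgroup.centralizer ({(g : G ⧸ N)} : Set (G ⧸ N)))]
    rw [Fintype.card_subtype, Fintype.card_subtype]
    exact h1
  have hsum : ∑ g : G, ∑ χ : IrrCharacter G, (if O χ then χ.1 g * conj (χ.1 g) else 0) =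
      (Nat.card N : ℂ) * ∑ h : G ⧸ N, (if S h then
        (Nat.card (Subgroup.centralizer ({h} : Set (G ⧸ N))) : ℂ) else 0) := by
    have h1 := Lib.CharKer.sum_comp_surj (QuotientGroup.mk' N) (QuotientGroup.mk'_surjective N)
      (fun h => if S h then (Nat.card (Subgroup.centralizer ({h} : Set (G ⧸ N))) : ℂ) else 0)
    rw [QuotientGroup.ker_mk'] at h1
    rw [← h1]
    refine Finset.sum_congr rfl fun g _ => ?_
    apply mul_left_cancel₀ hN0
    rw [hmv g, QuotientGroup.mk'_apply]
    by_cases hg : Sp N g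
    · rw [if_pos hg, if_pos ((hSmk g).mpr hg), hcard2 g hg]
    · rw [if_neg hg, if_neg (fun h => hg ((hSmk g).mp h)), mul_zero]
  rw [hsum, ← hcls] at hcount
  have hcG : (Nat.card G : ℂ) = Nat.card (G ⧸ N) * Nat.card N := by
    rw [← Subgroup.index_eq_card]
    exact_mod_cast (Subgroup.index_mul_card N).symm
  have hfin : (Nat.card {χ : IrrCharacter G // O χ} : ℂ) =
      Nat.card {C : ConjClasses (G ⧸ N) // ∃ h, ConjClasses.mk h = C ∧ S h} := by
    apply mul_right_cancel₀ hG0
    rw [hcount, hcG]; ring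
  have hfin' : Nat.card {χ : IrrCharacter G // O χ} =
      Nat.card {C : ConjClasses (G ⧸ N) // ∃ h, ConjClasses.mk h = C ∧ S h} := by
    exact_mod_cast hfin
  refine hfin'.trans (Nat.card_congr (Equiv.subtypeEquivRight fun C => ?_))
  constructor
  · rintro ⟨h, hh, g, rfl, hg⟩
    exact ⟨g, hh, hg⟩
  · rintro ⟨g, hg, hs⟩
    exact ⟨(g : G ⧸ N), hg, g, rfl, hs⟩

end

end Cfsg.Agent.Lib.CharSpecial
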