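import Cfsg.Agent.Lib.CharClifford
import Cfsg.Agent.Lib.CharKer
import Cfsg.Prelude.Def_Transfer

/-! Irreducible characters nonzero on exactly two classes. -/

set_option autoImplicit false
set_option linter.unusedVariables false
set_option linter.unusedSectionVars false

namespace Cfsg.Agent.Lib.CharTwoCl

open Cfsg Cfsg.Agent.Lib.CharBasic Cfsg.Agent.Lib.CharKer Cfsg.Agent.Lib.CharNormal
open Cfsg.Agent.Lib.CharClifford
open scoped ComplexConjugate

noncomputable section

theorem main {G : Type*} [Group G] [Fintype G] (hG : 2 < Nat.card G) (χ : IrrCharacter G)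
    (hχ : Nat.card {C : ConjClasses G // ∃ g ∈ C.carrier, (χ : G → ℂ) g ≠ 0} = 2) :
    ∃ (g₀ : G) (N : Subgroup G), N.Normal ∧ g₀ ≠ 1 ∧ (∀ g, χ.1 g ≠ 0 ↔ g ∈ N) ∧
      (∀ g, g ∈ N ↔ g = 1 ∨ IsConj g₀ g) ∧
      (∀ ψ : IrrCharacter G, ψ ≠ χ → ∀ n ∈ N, ψ.1 n = ψ.1 1) ∧
      χ.1 g₀ * (Nat.card {x : G // IsConj g₀ x} : ℂ) = -χ.1 1 := by
  classical
  have hcl : ∀ (ψ : IrrCharacter G) {a b : G}, IsConj a b → ψ.1 a = ψ.1 b := fun ψ a b h =>
    classFn_isConj (isChar_classFn (isChar_of_irr ψ.2)) h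
  have h11 : χ.1 1 ≠ 0 := isIrr_one_ne_zero χ.2
  obtain ⟨y, hy, hyu⟩ := (Nat.card_eq_two_iff' (⟨ConjClasses.mk 1, 1, ConjClasses.mem_carrier_mk,
    h11⟩ : {C : ConjClasses G // ∃ g ∈ C.carrier, (χ : G → ℂ) g ≠ 0})).mp hχ
  obtain ⟨C, g₀, hg₀C, hg₀⟩ := y
  have hC : ConjClasses.mk g₀ = C := ConjClasses.mem_carrier_iff_mk_eq.mp hg₀C
  have hg1 : g₀ ≠ 1 := by
    rintro rfl
    apply hy
    apply Subtype.ext
    exact hC.symm
  have hsupp : ∀ g, χ.1 g ≠ 0 ↔ g = 1 ∨ IsConj g₀ g := by
    intro g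
    constructor
    · intro h
      by_cases h1 : g = 1
      · exact Or.inl h1
      right
      have := hyu ⟨ConjClasses.mk g, g, ConjClasses.mem_carrier_mk, h⟩ (by
        intro h2
        have h3 : ConjClasses.mk g = ConjClasses.mk 1 := congrArg Subtype.val h2
        rw [ConjClasses.mk_eq_mk_iff_isConj, isConj_one_left] at h3
        exact h1 h3)
      have h3 : ConjClasses.mk g = C := congrArg Subtype.val this
      rw [← hC, ConjClasses.mk_eq_mk_iff_isConj] at h3
      exact h3.symm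
    · rintro (rfl | h)
      · exact h11
      · rw [← hcl χ h]; exact hg₀
  obtain ⟨n, hn⟩ : ∃ n, n = Nat.card {x : G // IsConj g₀ x} := ⟨_, rfl⟩
  have hnot : ∀ g, g = 1 → ¬ IsConj g₀ g := by
    rintro g rfl h
    exact hg1 (isConj_one_left.mp h)
  have hsum : ∀ ψ : IrrCharacter G, (Nat.card G : ℂ) * classInner χ.1 ψ.1 =
      χ.1 1 * conj (ψ.1 1) + n * (χ.1 g₀ * conj (ψ.1 g₀)) := by
    intro ψ
    rw [classInner_def, ← mul_assoc, mul_inv_cancel₀ card_ne_zero', one_mul]
    have h1 : ∀ g, χ.1 g * conj (ψ.1 g) = (if g = 1 then χ.1 1 * conj (ψ.1 1) else 0) +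
        (if IsConj g₀ g then χ.1 g₀ * conj (ψ.1 g₀) else 0) := by
      intro g
      by_cases h1 : g = 1
      · rw [if_pos h1, if_neg (hnot g h1), h1, add_zero]
      · by_cases h2 : IsConj g₀ g
        · rw [if_neg h1, if_pos h2, hcl χ h2, hcl ψ h2, zero_add]
        · have h3 : χ.1 g = 0 := by
            by_contra h3
            rcases (hsupp g).mp h3 with h | h
            · exact h1 h
            · exact h2 h
          rw [if_neg h1, if_neg h2, h3, zero_mul, zero_add]
    rw [Finset.sum_congr rfl fun g _ => h1 g, Finset.sum_add_distrib, Finset.sum_ite_eq',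
      if_pos (Finset.mem_univ _), ← Finset.sum_filter, Finset.sum_const, nsmul_eq_mul, hn,
      Nat.card_eq_fintype_card, Fintype.card_subtype]
  obtain ⟨T, hT⟩ : ∃ T : IrrCharacter G, T = ⟨fun _ => 1, isIrr_trivial⟩ := ⟨_, rfl⟩
  have hTχ : T ≠ χ := by
    intro h
    have h1 : ∀ g : G, g = 1 ∨ IsConj g₀ g := by
      intro g
      rw [← hsupp, ← h, hT]
      exact one_ne_zero
    have h2 : Nat.card G = 1 + n := by
      have h3 : (Finset.univ : Finset G) = insert 1 (Finset.univ.filter fun x => IsConj g₀ x) := by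
        ext g
        simp only [Finset.mem_univ, Finset.mem_insert, Finset.mem_filter, true_and, true_iff]
        exact h1 g
      rw [Nat.card_eq_fintype_card, ← Finset.card_univ, h3, Finset.card_insert_of_notMem, hn,
        Nat.card_eq_fintype_card, Fintype.card_subtype, add_comm]
      rw [Finset.mem_filter]
      exact fun h => hnot 1 rfl h.2
    have h3 : n ∣ Nat.card G := by
      rw [hn, card_conj_class]; exact Subgroup.index_dvd_card _
    rw [h2] at h3
    have h4 : n ∣ 1 := (Nat.dvd_add_left (dvd_refl n)).mp h3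
    rw [Nat.dvd_one] at h4
    omega
  have hT0 := hsum T
  rw [irr_inner', if_neg (Ne.symm hTχ), mul_zero, hT] at hT0
  simp only [map_one, mul_one] at hT0
  have hval : χ.1 g₀ * (n : ℂ) = -χ.1 1 := by linear_combination -hT0
  have hker : ∀ ψ : IrrCharacter G, ψ ≠ χ → ψ.1 g₀ = ψ.1 1 := by
    intro ψ hψ
    have h1 := hsum ψ
    rw [irr_inner', if_neg (Ne.symm hψ), mul_zero] at h1
    have h2 : χ.1 1 * (conj (ψ.1 1) - conj (ψ.1 g₀)) = 0 := by
      linear_combination -h1 - conj (ψ.1 g₀) * hval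
    have h3 := (mul_eq_zero.mp h2).resolve_left h11
    rw [← map_sub, map_eq_zero, sub_eq_zero] at h3
    exact h3.symm
  obtain ⟨N, hN⟩ : ∃ N : Subgroup G, N = ⨅ ψ : {ψ : IrrCharacter G // ψ ≠ χ},
    kerChar ψ.1.1 (isChar_of_irr ψ.1.2) := ⟨_, rfl⟩
  have hmem : ∀ g, g ∈ N ↔ ∀ ψ : IrrCharacter G, ψ ≠ χ → ψ.1 g = ψ.1 1 := by
    intro g
    rw [hN, Subgroup.mem_iInf]
    constructor
    · intro h ψ hψ
      exact (mem_kerChar _).mp (h ⟨ψ, hψ⟩)
    · intro h ψ
      exact (mem_kerChar _).mpr (h ψ.1 ψ.2)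
  have hNn : N.Normal := by
    constructor
    intro x hx g
    rw [hmem] at hx ⊢
    intro ψ hψ
    rw [← hx ψ hψ]
    exact isChar_classFn (isChar_of_irr ψ.2) x g
  have hmem2 : ∀ g, g ∈ N ↔ g = 1 ∨ IsConj g₀ g := by
    intro g
    constructor
    · intro hg
      by_contra hcon
      push Not at hcon
      have h1 := column_orth g g₀
      rw [if_neg (fun h => hcon.2 h.symm)] at h1
      rw [hmem] at hg
      have h2 : χ.1 g = 0 := by
        by_contra h3
        rcases (hsupp g).mp h3 with h | h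
        · exact hcon.1 h
        · exact hcon.2 h
      have h3 : ∀ ψ : IrrCharacter G, ψ.1 g * conj (ψ.1 g₀) =
          ((if ψ = χ then 0 else ‖ψ.1 1‖ ^ 2 : ℝ) : ℂ) := by
        intro ψ
        split_ifs with h
        · rw [h, h2, zero_mul]; simp
        · rw [hg ψ h, hker ψ h, Complex.mul_conj']
          push_cast; rfl
      rw [Finset.sum_congr rfl fun ψ _ => h3 ψ, ← Complex.ofReal_sum, Complex.ofReal_eq_zero,
        Finset.sum_eq_zero_iff_of_nonneg (fun ψ _ => by split_ifs <;> positivity)] at h1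
      have h4 := h1 T (Finset.mem_univ _)
      rw [if_neg hTχ, hT] at h4
      simp at h4
    · rintro (rfl | h)
      · exact N.one_mem
      · rw [hmem]
        intro ψ hψ
        rw [← hcl ψ h]; exact hker ψ hψ
  refine ⟨g₀, N, hNn, hg1, fun g => (hsupp g).trans (hmem2 g).symm, hmem2, ?_, ?_⟩
  · intro ψ hψ n hn
    exact (hmem n).mp hn ψ hψ
  · rw [← hn]; exact hval

theorem min_normal {G : Type*} [Group G] [Fintype G] (hG : 2 < Nat.card G) (χ : IrrCharacter G)
    (hχ : Nat.card {C : ConjClasses G // ∃ g ∈ C.carrier, (χ : G → ℂ) g ≠ 0} = 2) :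
    ∃ N : Subgroup G, N.Normal ∧ N ≠ ⊥ ∧ (∀ K : Subgroup G, K.Normal → K ≠ ⊥ → N ≤ K) ∧
      (∃ p : ℕ, p.Prime ∧ Cfsg.IsElementaryAbelian p N) ∧
      (∀ g : G, (χ : G → ℂ) g ≠ 0 ↔ g ∈ N) ∧
      (∀ x ∈ N, ∀ y ∈ N, x ≠ 1 → y ≠ 1 → ∃ g : G, g * x * g⁻¹ = y) := by
  classical
  obtain ⟨g₀, N, hNn, hg1, hsupp, hmem, hker, hval⟩ := main hG χ hχ
  have hg₀N : g₀ ∈ N := (hmem g₀).mpr (Or.inr (IsConj.refl _))
  have htrans : ∀ x ∈ N, ∀ y ∈ N, x ≠ 1 → y ≠ 1 → ∃ g : G, g * x * g⁻¹ = y := by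
    intro x hx y hy hx1 hy1
    have h1 := ((hmem x).mp hx).resolve_left hx1
    have h2 := ((hmem y).mp hy).resolve_left hy1
    exact isConj_iff.mp (h1.symm.trans h2)
  refine ⟨N, hNn, ?_, ?_, ?_, hsupp, htrans⟩
  · intro h
    rw [h, Subgroup.mem_bot] at hg₀N
    exact hg1 hg₀N
  · intro K hK hK1
    have hle : g₀ ∈ K → N ≤ K := by
      intro h x hx
      rcases (hmem x).mp hx with h1 | h1
      · rw [h1]; exact K.one_mem
      · obtain ⟨c, hc⟩ := isConj_iff.mp h1
        rw [← hc]; exact hK.conj_mem _ h c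
    by_contra hcon
    have hgK : g₀ ∉ K := fun h => hcon (hle h)
    have hint : ∀ k ∈ K, k ∈ N → k = 1 := by
      intro k hk hkN
      by_contra hk1
      obtain ⟨c, hc⟩ := htrans k hkN g₀ hg₀N hk1 hg1
      apply hgK
      rw [← hc]; exact hK.conj_mem _ hk c
    obtain ⟨k, hk, hk1⟩ : ∃ k ∈ K, k ≠ 1 := by
      by_contra h
      push Not at h
      exact hK1 ((Subgroup.eq_bot_iff_forall K).mpr h)
    have hχk : χ.1 k = 0 := by
      by_contra h
      exact hk1 (hint k hk ((hsupp k).mp h))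
    cases nonempty_fintype (G ⧸ K)
    apply hgK
    rw [← QuotientGroup.eq_one_iff, ← isConj_one_right]
    apply irr_separates
    intro ψ
    have h1 := isIrr_infl K ψ.2
    have h2 : (⟨_, h1⟩ : IrrCharacter G) ≠ χ := by
      intro h
      have h3 := congrFun (congrArg Subtype.val h) k
      simp only at h3
      rw [hχk, (QuotientGroup.eq_one_iff k).mpr hk] at h3
      exact isIrr_one_ne_zero ψ.2 h3
    have h3 := hker _ h2 g₀ hg₀N
    simp only [QuotientGroup.mk_one] at h3
    exact h3.symm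
  · -- elementary abelian
    have hord : ∀ x ∈ N, x ≠ 1 → orderOf x = orderOf g₀ := by
      intro x hx hx1
      obtain ⟨c, hc⟩ := htrans g₀ hg₀N x hx hg1 hx1
      rw [← hc]
      exact orderOf_injective (MulAut.conj c).toMonoidHom (MulAut.conj c).injective g₀
    have hpos := orderOf_pos g₀
    have hne1 : orderOf g₀ ≠ 1 := fun h => hg1 (orderOf_eq_one_iff.mp h)
    obtain ⟨q, hq⟩ : ∃ q, q = (orderOf g₀).minFac := ⟨_, rfl⟩
    have hqp : q.Prime := hq ▸ Nat.minFac_prime hne1
    have hqd : q ∣ orderOf g₀ := hq ▸ Nat.minFac_dvd _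
    have h1 : orderOf (g₀ ^ (orderOf g₀ / q)) = q :=
      orderOf_pow_orderOf_div hpos.ne' hqd
    have h2 : orderOf g₀ = q := by
      rw [← hord (g₀ ^ (orderOf g₀ / q)) (N.pow_mem hg₀N _) ?_, h1]
      intro h
      rw [h, orderOf_one] at h1
      exact hqp.one_lt.ne h1
    have hexp : ∀ a ∈ N, a ^ q = 1 := by
      intro a ha
      by_cases ha1 : a = 1
      · rw [ha1, one_pow]
      · rw [← h2, ← hord a ha ha1, pow_orderOf_eq_one]
    haveI : Fact q.Prime := ⟨hqp⟩
    have hNp : IsPGroup q N := fun x => ⟨1, by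
      rw [pow_one]; exact Subtype.ext (hexp x x.2)⟩
    haveI : Nontrivial N := (Subgroup.nontrivial_iff_exists_ne_one N).mpr ⟨g₀, hg₀N, hg1⟩
    have hZ := hNp.center_nontrivial
    obtain ⟨z, hz⟩ := exists_ne (1 : Subgroup.center N)
    have hz1 : ((z : N) : G) ≠ 1 := fun h => hz (Subtype.ext (Subtype.ext h))
    refine ⟨q, hqp, ⟨⟨?_⟩⟩, hexp⟩
    intro a b
    by_cases ha1 : (a : G) = 1
    · have : a = 1 := Subtype.ext ha1
      rw [this, one_mul, mul_one]
    · obtain ⟨c, hc⟩ := htrans ((z : N) : G) (z : N).2 a a.2 hz1 ha1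
      have h4 := Subgroup.mem_center_iff.mp z.2 ⟨c⁻¹ * b * c, by
        have := hNn.conj_mem b b.2 c⁻¹
        rwa [inv_inv] at this⟩
      have h5 : c⁻¹ * (b : G) * c * ((z : N) : G) = ((z : N) : G) * (c⁻¹ * (b : G) * c) :=
        congrArg Subtype.val h4
      apply Subtype.ext
      rw [Subgroup.coe_mul, Subgroup.coe_mul, ← hc]
      calc c * ((z : N) : G) * c⁻¹ * (b : G) = c * (((z : N) : G) * (c⁻¹ * b * c)) * c⁻¹ := by group
        _ = c * (c⁻¹ * (b : G) * c * ((z : N) : G)) * c⁻¹ := by rw [h5]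
        _ = _ := by group

theorem faithful {G : Type*} [Group G] [Fintype G] (hG : 2 < Nat.card G) (χ : IrrCharacter G)
    (hχ : Nat.card {C : ConjClasses G // ∃ g ∈ C.carrier, (χ : G → ℂ) g ≠ 0} = 2) :
    ∀ g : G, (χ : G → ℂ) g = (χ : G → ℂ) 1 → g = 1 := by
  obtain ⟨g₀, N, hNn, hg1, hsupp, hmem, hker, hval⟩ := main hG χ hχ
  intro g hg
  by_contra hg1'
  have h11 : χ.1 1 ≠ 0 := isIrr_one_ne_zero χ.2
  have h1 : g ∈ N := (hsupp g).mp (by rw [hg]; exact h11)
  have h2 := ((hmem g).mp h1).resolve_left hg1'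
  have h3 : χ.1 g₀ = χ.1 g := classFn_isConj (isChar_classFn (isChar_of_irr χ.2)) h2
  rw [h3, hg] at hval
  have h4 : χ.1 1 * ((Nat.card {x : G // IsConj g₀ x} : ℂ) + 1) = 0 := by
    linear_combination hval
  rcases mul_eq_zero.mp h4 with h | h
  · exact h11 h
  · have : ((Nat.card {x : G // IsConj g₀ x} + 1 : ℕ) : ℂ) = 0 := by push_cast; exact h
    exact absurd this (Nat.cast_ne_zero.mpr (by omega))

theorem unique_faithful {G : Type*} [Group G] [Fintype G] (hG : 2 < Nat.card G)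
    (χ : IrrCharacter G)
    (hχ : Nat.card {C : ConjClasses G // ∃ g ∈ C.carrier, (χ : G → ℂ) g ≠ 0} = 2)
    (ψ : IrrCharacter G) (h : ∀ g : G, (ψ : G → ℂ) g = (ψ : G → ℂ) 1 → g = 1) : ψ = χ := by
  obtain ⟨g₀, N, hNn, hg1, hsupp, hmem, hker, hval⟩ := main hG χ hχ
  by_contra hne
  exact hg1 (h g₀ (hker ψ hne g₀ ((hmem g₀).mpr (Or.inr (IsConj.refl _)))))

/-! ### Centralizers and inertia groups -/

theorem sum_two {G : Type*} [Group G] [Fintype G] {f ψ : G → ℂ} (hf : IsClassFunction G f)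
    (hψ : IsClassFunction G ψ) {g₀ : G} (hg1 : g₀ ≠ 1)
    (hsupp : ∀ g, f g ≠ 0 → g = 1 ∨ IsConj g₀ g) :
    ∑ g : G, f g * conj (ψ g) = f 1 * conj (ψ 1) +
      (Nat.card {x : G // IsConj g₀ x} : ℂ) * (f g₀ * conj (ψ g₀)) := by
  classical
  have hnot : ∀ g, g = 1 → ¬ IsConj g₀ g := by
    rintro g rfl h
    exact hg1 (isConj_one_left.mp h)
  have h1 : ∀ g, f g * conj (ψ g) = (if g = 1 then f 1 * conj (ψ 1) else 0) +
      (if IsConj g₀ g then f g₀ * conj (ψ g₀) else 0) := by
    intro g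
    by_cases h1 : g = 1
    · rw [if_pos h1, if_neg (hnot g h1), h1, add_zero]
    · by_cases h2 : IsConj g₀ g
      · rw [if_neg h1, if_pos h2, classFn_isConj hf h2, classFn_isConj hψ h2, zero_add]
      · have h3 : f g = 0 := by
          by_contra h3
          rcases hsupp g h3 with h | h
          · exact h1 h
          · exact h2 h
        rw [if_neg h1, if_neg h2, h3, zero_mul, zero_add]
  rw [Finset.sum_congr rfl fun g _ => h1 g, Finset.sum_add_distrib, Finset.sum_ite_eq',
    if_pos (Finset.mem_univ _), ← Finset.sum_filter, Finset.sum_const, nsmul_eq_mul,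
    Nat.card_eq_fintype_card, Fintype.card_subtype]

theorem orders {G : Type*} [Group G] [Fintype G] (hG : 2 < Nat.card G) (χ : IrrCharacter G)
    (hχ : Nat.card {C : ConjClasses G // ∃ g ∈ C.carrier, (χ : G → ℂ) g ≠ 0} = 2)
    (p : ℕ) [hpf : Fact p.Prime] (N : Subgroup G) [N.Normal]
    (hN : ∀ g : G, g ∈ N ↔ (χ : G → ℂ) g ≠ 0) (hNp : IsPGroup p N) (hN1 : N ≠ ⊥) :
    ∃ n e k : ℕ, Nat.card N = n + 1 ∧ 0 < n ∧ ¬ p ∣ n ∧ 0 < e ∧
      Nat.card G = e ^ 2 * (n + 1) * n ∧ e ^ 2 * (n + 1) = p ^ k ∧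
      ∀ x ∈ N, x ≠ 1 → (Subgroup.centralizer ({x} : Set G)).index = n := by
  classical
  have hp := hpf.out
  obtain ⟨g₀, N', hNn, hg1, hsupp, hmem, hker, hval⟩ := main hG χ hχ
  have hNN : N' = N := by
    ext g; rw [hN, hsupp]
  subst hNN
  obtain ⟨n, hn⟩ : ∃ n, n = Nat.card {x : G // IsConj g₀ x} := ⟨_, rfl⟩
  have hn0 : 0 < n := by
    rw [hn, card_conj_class]; exact Nat.pos_of_ne_zero Subgroup.index_ne_zero_of_finite
  have hcardN : Nat.card N' = n + 1 := by
    have h3 : (Finset.univ.filter (fun x => x ∈ N') : Finset G) =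
        insert 1 (Finset.univ.filter fun x => IsConj g₀ x) := by
      ext g
      simp only [Finset.mem_univ, Finset.mem_insert, Finset.mem_filter, true_and]
      exact hmem g
    have h4 : Nat.card N' = (Finset.univ.filter (fun x => x ∈ N') : Finset G).card := by
      rw [Nat.card_eq_fintype_card, ← Fintype.card_subtype]
    rw [h4, h3, Finset.card_insert_of_notMem, hn, Nat.card_eq_fintype_card, Fintype.card_subtype]
    rw [Finset.mem_filter]
    exact fun h => hg1 (isConj_one_left.mp h.2)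
  have hpn : p ∣ n + 1 := by
    rw [← hcardN]
    obtain ⟨k, hk⟩ := hNp.exists_card_eq
    rw [hk]
    rcases k with _ | k
    · rw [pow_zero, hcardN] at hk; omega
    · exact dvd_pow_self p (Nat.succ_ne_zero k)
  have hpn' : ¬ p ∣ n := by
    intro h
    have := (Nat.dvd_add_right h).mp hpn
    exact hp.one_lt.ne' (Nat.dvd_one.mp this)
  obtain ⟨d, hd0, hd⟩ := isIrr_one_eq χ.2
  rw [← hn] at hval
  have hnC : (n : ℂ) ≠ 0 := Nat.cast_ne_zero.mpr hn0.ne'
  have hval' : χ.1 g₀ = -((d : ℂ) / n) := by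
    rw [hd] at hval
    field_simp
    linear_combination hval
  obtain ⟨e, he⟩ : ∃ e : ℕ, d = e * n := by
    have h1 := char_isIntegral (isChar_of_irr χ.2) g₀
    rw [hval'] at h1
    have h2 := h1.neg
    rw [neg_neg] at h2
    obtain ⟨e, he⟩ := Lib.CharInt.nat_dvd_of_isIntegral hn0.ne' h2
    exact ⟨e, by rw [he, mul_comm]⟩
  have he0 : 0 < e := by
    rcases Nat.eq_zero_or_pos e with h | h
    · rw [h, zero_mul] at he; omega
    · exact h
  have hval2 : χ.1 g₀ = -(e : ℂ) := by
    rw [hval', he]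
    push_cast
    field_simp
  have hcardG : Nat.card G = e ^ 2 * (n + 1) * n := by
    have h1 := sum_two (isChar_classFn (isChar_of_irr χ.2)) (isChar_classFn (isChar_of_irr χ.2))
      hg1 (fun g hg => (hmem g).mp ((hsupp g).mp hg))
    have h2 := irr_inner_self χ.2
    rw [classInner_def, inv_mul_eq_iff_eq_mul₀ card_ne_zero', h1, mul_one, hval2, hd, ← hn] at h2
    simp only [map_neg, map_natCast] at h2
    have h3 : (Nat.card G : ℂ) = ((e ^ 2 * (n + 1) * n : ℕ) : ℂ) := by
      rw [← h2, he]; push_cast; ring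
    exact_mod_cast h3
  have hclass : ∀ x ∈ N', x ≠ 1 → (Subgroup.centralizer ({x} : Set G)).index = n := by
    intro x hx hx1
    have h1 := ((hmem x).mp hx).resolve_left hx1
    rw [← card_conj_class, hn]
    apply Nat.card_congr
    exact Equiv.subtypeEquivRight fun y => ⟨fun h => h1.trans h, fun h => h1.symm.trans h⟩
  have hpp : ∃ k, e ^ 2 * (n + 1) = p ^ k := by
    refine ⟨_, Nat.eq_prime_pow_of_unique_prime_dvd (by positivity) ?_⟩
    intro q hq hqd
    by_contra hqp
    have hqN : ¬ q ∣ n + 1 := by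
      intro h
      obtain ⟨k, hk⟩ := hNp.exists_card_eq
      rw [← hcardN, hk] at h
      exact hqp ((Nat.prime_dvd_prime_iff_eq hq hp).mp (hq.dvd_of_dvd_pow h))
    have hqe : q ∣ e := by
      rcases hq.dvd_mul.mp hqd with h | h
      · exact hq.dvd_of_dvd_pow h
      · exact absurd h hqN
    haveI : Fact q.Prime := ⟨hq⟩
    obtain ⟨Q⟩ : Nonempty (Sylow q G) := inferInstance
    have hQ : ∃ k : ℕ, χ.1 1 = (Nat.card (Q : Subgroup G) : ℂ) * k := by
      apply Lib.CharInd.card_dvd_degree_of_vanish (Q : Subgroup G) (isChar_of_irr χ.2)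
      intro g hg hg1
      by_contra h
      have hgN := (hsupp g).mp h
      obtain ⟨i, hi⟩ := (IsPGroup.iff_orderOf.mp Q.isPGroup') ⟨g, hg⟩
      obtain ⟨j, hj⟩ := (IsPGroup.iff_orderOf.mp hNp) ⟨g, hgN⟩
      rw [Subgroup.orderOf_mk] at hi hj
      rw [hi] at hj
      rcases i with _ | i
      · rw [pow_zero] at hi; exact hg1 (orderOf_eq_one_iff.mp hi)
      · have : q ∣ p ^ j := hj ▸ dvd_pow_self q (Nat.succ_ne_zero i)
        exact hqp ((Nat.prime_dvd_prime_iff_eq hq hp).mp (hq.dvd_of_dvd_pow this))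
    obtain ⟨k, hk⟩ := hQ
    rw [hd] at hk
    have hk' : d = Nat.card (Q : Subgroup G) * k := by exact_mod_cast hk
    have hdvd : q ^ (Nat.card G).factorization q ∣ d := by
      rw [← Q.card_eq_multiplicity, hk']; exact dvd_mul_right _ _
    rw [hq.pow_dvd_iff_le_factorization (by omega), hcardG, he,
      Nat.factorization_mul (by positivity) (by omega),
      Nat.factorization_mul (by positivity) (by omega), Nat.factorization_mul (by omega) (by omega),
      Nat.factorization_pow] at hdvd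
    simp only [Finsupp.add_apply, Finsupp.smul_apply, smul_eq_mul] at hdvd
    have h3 : 1 ≤ e.factorization q := by
      rw [← hq.pow_dvd_iff_le_factorization (by omega), pow_one]; exact hqe
    omega
  obtain ⟨k, hk⟩ := hpp
  exact ⟨n, e, k, hcardN, hn0, hpn', he0, hcardG, hk, hclass⟩

theorem inertia_index {G : Type*} [Group G] [Fintype G] (N : Subgroup G) [hNn : N.Normal]
    (hab : ∀ a b : N, a * b = b * a) (htrans : ∀ x ∈ N, ∀ y ∈ N, x ≠ 1 → y ≠ 1 →
      ∃ g : G, g * x * g⁻¹ = y) (hN1 : N ≠ ⊥) {μ : N → ℂ} (hμ : IsIrrCharacter N μ)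
    (hμ1 : μ ≠ fun _ => 1) : (inertia μ).index + 1 = Nat.card N := by
  classical
  cases nonempty_fintype N
  obtain ⟨l, hl⟩ := irr_lin_of_comm hab hμ
  have hμ11 : μ 1 = 1 := by rw [hl]; simp
  have hG0 : (Nat.card G : ℂ) ≠ 0 := card_ne_zero'
  have hN0 : (Nat.card N : ℂ) ≠ 0 := card_ne_zero'
  obtain ⟨F, hF⟩ : ∃ F : N → ℂ, F = ∑ g : G, cj g μ := ⟨_, rfl⟩
  have hFm : ∀ m, F m = ∑ g : G, cj g μ m := by
    intro m; rw [hF, Finset.sum_apply]
  have hF1 : F 1 = Nat.card G := by
    rw [hFm]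
    have : ∀ g : G, cj g μ 1 = 1 := by
      intro g
      rw [cj_apply, ← hμ11]
      congr 1
      apply Subtype.ext
      simp
    rw [Finset.sum_congr rfl fun g _ => this g, Finset.sum_const, Finset.card_univ, nsmul_eq_mul,
      mul_one, Nat.card_eq_fintype_card]
  obtain ⟨x₀, hx₀, hx₀1⟩ : ∃ x ∈ N, x ≠ 1 := by
    by_contra h
    push Not at h
    exact hN1 ((Subgroup.eq_bot_iff_forall N).mpr h)
  obtain ⟨c, hc⟩ : ∃ c, c = F ⟨x₀, hx₀⟩ := ⟨_, rfl⟩
  have hFc : ∀ m : N, m ≠ 1 → F m = c := by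
    intro m hm
    obtain ⟨y, hy⟩ := htrans x₀ hx₀ m m.2 hx₀1 (fun h => hm (Subtype.ext h))
    rw [hc, hFm, hFm]
    refine Fintype.sum_equiv (Equiv.mulRight y) _ _ fun g => ?_
    rw [Equiv.coe_mulRight, cj_apply, cj_apply]
    congr 1
    apply Subtype.ext
    change g * (m : G) * g⁻¹ = g * y * x₀ * (g * y)⁻¹
    rw [← hy]; group
  have hgen : ∀ ψ : N → ℂ, ψ 1 = 1 → (Nat.card N : ℂ) * classInner F ψ =
      (Nat.card G - c) + c * ∑ m : N, conj (ψ m) := by
    intro ψ hψ
    rw [classInner_def, ← mul_assoc, mul_inv_cancel₀ hN0, one_mul]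
    have : ∀ m : N, F m * conj (ψ m) =
        (if m = 1 then ((Nat.card G : ℂ) - c) else 0) + c * conj (ψ m) := by
      intro m
      by_cases h : m = 1
      · rw [if_pos h, h, hF1, hψ, map_one]; ring
      · rw [if_neg h, hFc m h, zero_add]
    rw [Finset.sum_congr rfl fun m _ => this m, Finset.sum_add_distrib, Finset.sum_ite_eq',
      if_pos (Finset.mem_univ _), ← Finset.mul_sum]
  have hinner : ∀ ψ : N → ℂ, classInner F ψ = ∑ g : G, classInner (cj g μ) ψ := by
    intro ψ; rw [hF, classInner_sum_left]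
  have h1 : classInner F (fun _ => 1) = 0 := by
    rw [hinner]
    refine Finset.sum_eq_zero fun g _ => ?_
    rw [irr_inner_ne (cj_isIrr g hμ) isIrr_trivial]
    intro h
    apply hμ1
    have h2 := congrArg (cj g⁻¹) h
    rw [cj_inv_cj] at h2
    rw [h2]; rfl
  have h2 : classInner F μ = Nat.card (inertia μ) := by
    rw [hinner]
    have : ∀ g : G, classInner (cj g μ) μ = if g ∈ inertia μ then 1 else 0 := by
      intro g
      rw [irr_inner (cj_isIrr g hμ) hμ]
      simp only [mem_inertia]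
    rw [Finset.sum_congr rfl fun g _ => this g, ← Finset.sum_filter, Finset.sum_const,
      nsmul_eq_mul, mul_one, Nat.card_eq_fintype_card, Fintype.card_subtype]
  have h3 := hgen (fun _ => 1) rfl
  rw [h1, mul_zero] at h3
  simp only [map_one, Finset.sum_const, Finset.card_univ, nsmul_eq_mul, mul_one] at h3
  rw [← Nat.card_eq_fintype_card] at h3
  have h4 := hgen μ hμ11
  have h5 : ∑ m : N, conj (μ m) = 0 := by
    have h6 := irr_inner_ne (isIrr_trivial (G := N)) hμ (Ne.symm hμ1)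
    rw [classInner_def] at h6
    simpa using h6
  rw [h2, h5, mul_zero, add_zero] at h4
  -- |N| |I| = |G| - c,   |G| - c + c |N| = 0
  have h6 : (Nat.card G : ℂ) = (inertia μ).index * Nat.card (inertia μ) := by
    exact_mod_cast (Subgroup.index_mul_card (inertia μ)).symm
  have hI0 : (Nat.card (inertia μ) : ℂ) ≠ 0 := Nat.cast_ne_zero.mpr Nat.card_pos.ne'
  have h7 : (Nat.card N : ℂ) * Nat.card (inertia μ) * (((inertia μ).index : ℂ) + 1) =
      (Nat.card N : ℂ) * Nat.card (inertia μ) * Nat.card N := by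
    linear_combination (1 - Nat.card N : ℂ) * h4 - h3 - (Nat.card N : ℂ) * h6
  have h8 := mul_left_cancel₀ (mul_ne_zero hN0 hI0) h7
  exact_mod_cast h8

/-- If all irreducible characters not containing `N` in their kernel vanish at `x`, then the
centralizer orders of `x` in `G` and in `G ⧸ N` agree. -/
theorem card_centralizer_quot {G : Type*} [Group G] [Fintype G] (N : Subgroup G) [N.Normal] (x : G)
    (h : ∀ ψ : IrrCharacter G, (¬ ∀ n ∈ N, ψ.1 n = ψ.1 1) → ψ.1 x = 0) :
    Nat.card (Subgroup.centralizer ({x} : Set G)) =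
      Nat.card (Subgroup.centralizer ({(x : G ⧸ N)} : Set (G ⧸ N))) := by
  classical
  cases nonempty_fintype (G ⧸ N)
  have h1 := column_orth x x
  have h2 := column_orth (x : G ⧸ N) (x : G ⧸ N)
  rw [if_pos (IsConj.refl _)] at h1 h2
  have h3 : ∑ χ : IrrCharacter G, χ.1 x * conj (χ.1 x) =
      ∑ χ : {χ : IrrCharacter G // ∀ n ∈ N, χ.1 n = χ.1 1}, χ.1.1 x * conj (χ.1.1 x) := by
    rw [← Fintype.sum_subtype_add_sum_subtype (fun χ : IrrCharacter G => ∀ n ∈ N, χ.1 n = χ.1 1)
      (fun χ : IrrCharacter G => χ.1 x * conj (χ.1 x))]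
    rw [Finset.sum_eq_zero (s := (Finset.univ :
      Finset {χ : IrrCharacter G // ¬ ∀ n ∈ N, χ.1 n = χ.1 1}))
      (fun χ _ => by rw [h χ.1 χ.2, zero_mul]), add_zero]
  have h4 : ∑ χ : {χ : IrrCharacter G // ∀ n ∈ N, χ.1 n = χ.1 1}, χ.1.1 x * conj (χ.1.1 x) =
      ∑ ψ : IrrCharacter (G ⧸ N), ψ.1 (x : G ⧸ N) * conj (ψ.1 (x : G ⧸ N)) := by
    refine (Fintype.sum_equiv (quotEquiv N).symm _ _ fun ψ => ?_).symm
    rfl
  rw [h3, h4, h2] at h1
  exact_mod_cast h1.symm

theorem centralizer_quot {G : Type*} [Group G] [Fintype G] (hG : 2 < Nat.card G)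
    (χ : IrrCharacter G)
    (hχ : Nat.card {C : ConjClasses G // ∃ g ∈ C.carrier, (χ : G → ℂ) g ≠ 0} = 2)
    (N : Subgroup G) [N.Normal] (hN : ∀ g : G, g ∈ N ↔ (χ : G → ℂ) g ≠ 0) (x : G) (hx : x ∉ N) :
    Nat.card (Subgroup.centralizer ({x} : Set G)) =
      Nat.card (Subgroup.centralizer ({(x : G ⧸ N)} : Set (G ⧸ N))) := by
  obtain ⟨g₀, N', hNn, hg1, hsupp, hmem, hker, hval⟩ := main hG χ hχ
  apply card_centralizer_quot
  intro ψ hψ
  by_cases h : ψ = χ
  · rw [h]
    by_contra h1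
    exact hx ((hN x).mpr h1)
  · exfalso
    apply hψ
    intro n hn
    exact hker ψ h n ((hsupp n).mp ((hN n).mp hn))

theorem sylow_part {G : Type*} [Group G] [Fintype G] (hG : 2 < Nat.card G) (χ : IrrCharacter G)
    (hχ : Nat.card {C : ConjClasses G // ∃ g ∈ C.carrier, (χ : G → ℂ) g ≠ 0} = 2)
    (p : ℕ) [hpf : Fact p.Prime] (N : Subgroup G) [hNn : N.Normal]
    (hN : ∀ g : G, g ∈ N ↔ (χ : G → ℂ) g ≠ 0) (hNp : IsPGroup p N) (hN1 : N ≠ ⊥)
    (P : Sylow p G) :
    ((Subgroup.center ↥(P : Subgroup G)).map (P : Subgroup G).subtype ≤ N ∧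
        ((Subgroup.center ↥(P : Subgroup G)).map (P : Subgroup G).subtype = N ↔
          (P : Subgroup G).Normal)) ∧
      (∃ i : ℕ, Subgroup.upperCentralSeries ↥(P : Subgroup G) i =
        N.subgroupOf (P : Subgroup G)) := by
  classical
  have hp := hpf.out
  obtain ⟨n, e, k, h1, h2, h3, h4, h5, h6, h7⟩ := orders hG χ hχ p N hN hNp hN1
  obtain ⟨N', hNn', hN1', hmin, -, hsupp, htrans⟩ := min_normal hG χ hχ
  have hNN : N' = N := by
    ext g; rw [hN, hsupp]
  subst hNN
  have hG0 : Nat.card G ≠ 0 := Nat.card_pos.ne'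
  have hPcard : Nat.card (P : Subgroup G) = e ^ 2 * (n + 1) := by
    rw [P.card_eq_multiplicity, h5, h6, Nat.factorization_mul (by
      have := hp.pos; positivity) h2.ne', hp.factorization_pow]
    simp only [Finsupp.add_apply, Finsupp.single_eq_same]
    rw [Nat.factorization_eq_zero_of_not_dvd h3, add_zero]
  have hNP : N' ≤ P := hNp.le_sylow_of_normal P
  -- key bound
  have hbound : ∀ (x : G), x ∉ N' → ∀ R : Subgroup G, IsPGroup p R →
      R ≤ Subgroup.centralizer ({x} : Set G) → Nat.card R ≤ e ^ 2 := by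
    intro x hx R hR hRx
    have h8 : Nat.card R ∣ e ^ 2 * n := by
      refine (Subgroup.card_dvd_of_le hRx).trans ?_
      rw [centralizer_quot hG χ hχ N' hN x hx]
      refine (Subgroup.card_subgroup_dvd_card _).trans ?_
      have h9 := N'.index_mul_card
      rw [h1, h5] at h9
      rw [← Subgroup.index_eq_card]
      have : N'.index = e ^ 2 * n := by
        apply Nat.eq_of_mul_eq_mul_right (Nat.succ_pos n)
        rw [Nat.succ_eq_add_one, h9]; ring
      rw [this]
    obtain ⟨j, hj⟩ := hR.exists_card_eq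
    rw [hj] at h8 ⊢
    have h9 : Nat.Coprime (p ^ j) n := ((Nat.Prime.coprime_iff_not_dvd hp).mpr h3).pow_left j
    exact Nat.le_of_dvd (by positivity) (h9.dvd_of_dvd_mul_right h8)
  have hZN : (Subgroup.center ↥(P : Subgroup G)).map (P : Subgroup G).subtype ≤ N' := by
    rintro _ ⟨z, hz, rfl⟩
    by_contra hcon
    have h8 := hbound _ hcon (P : Subgroup G) P.isPGroup' (by
      intro y hy
      rw [Subgroup.mem_centralizer_singleton_iff]
      have := Subgroup.mem_center_iff.mp hz ⟨y, hy⟩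
      exact congrArg Subtype.val this)
    rw [hPcard] at h8
    have : 0 < e ^ 2 := by positivity
    nlinarith
  have hNnt : ∃ x₀ ∈ N', x₀ ≠ 1 := by
    by_contra h
    push Not at h
    exact hN1 ((Subgroup.eq_bot_iff_forall N').mpr h)
  obtain ⟨x₀, hx₀, hx₀1⟩ := hNnt
  haveI : Nontrivial (P : Subgroup G) :=
    (Subgroup.nontrivial_iff_exists_ne_one _).mpr ⟨x₀, hNP hx₀, hx₀1⟩
  refine ⟨⟨hZN, ?_, ?_⟩, ?_⟩
  · intro hZ
    have hcent : ∀ x ∈ N', x ≠ 1 → (P : Subgroup G) = Subgroup.centralizer ({x} : Set G) := by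
      intro x hx hx1
      apply Subgroup.eq_of_le_of_card_ge
      · intro y hy
        rw [Subgroup.mem_centralizer_singleton_iff]
        rw [← hZ] at hx
        obtain ⟨z, hz, rfl⟩ := hx
        have := Subgroup.mem_center_iff.mp hz ⟨y, hy⟩
        exact congrArg Subtype.val this
      · have h8 := (Subgroup.centralizer ({x} : Set G)).index_mul_card
        rw [h7 x hx hx1, h5, mul_comm] at h8
        rw [hPcard, Nat.eq_of_mul_eq_mul_right h2 h8]
    constructor
    intro y hy g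
    have h8 : g * x₀ * g⁻¹ ∈ N' := hNn.conj_mem _ hx₀ g
    have h9 : g * x₀ * g⁻¹ ≠ 1 := by
      intro h
      apply hx₀1
      calc x₀ = g⁻¹ * (g * x₀ * g⁻¹) * g := by group
        _ = 1 := by rw [h]; group
    rw [hcent _ h8 h9, Subgroup.mem_centralizer_singleton_iff]
    rw [hcent _ hx₀ hx₀1, Subgroup.mem_centralizer_singleton_iff] at hy
    calc g * y * g⁻¹ * (g * x₀ * g⁻¹) = g * (y * x₀) * g⁻¹ := by group
      _ = g * (x₀ * y) * g⁻¹ := by rw [hy]
      _ = _ := by group
  · intro hPn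
    apply le_antisymm hZN
    have hchar : ((Subgroup.center ↥(P : Subgroup G)).map (P : Subgroup G).subtype).Normal :=
      inferInstance
    apply hmin _ hchar
    intro h
    have hZ := P.isPGroup'.center_nontrivial
    rw [Subgroup.map_eq_bot_iff_of_injective _ (P : Subgroup G).subtype_injective] at h
    exact (Subgroup.nontrivial_iff_ne_bot _).mp hZ h
  · -- upper central series
    haveI : Group.IsNilpotent (P : Subgroup G) := P.isPGroup'.isNilpotent
    by_cases hall : ∀ j, Subgroup.upperCentralSeries ↥(P : Subgroup G) j ≤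
        N'.subgroupOf (P : Subgroup G)
    · obtain ⟨j, hj⟩ := Group.IsNilpotent.nilpotent (P : Subgroup G)
      refine ⟨j, le_antisymm (hall j) ?_⟩
      rw [hj]; exact le_top
    · push Not at hall
      obtain ⟨j, hj⟩ : ∃ j, j = Nat.find hall := ⟨_, rfl⟩
      have hj1 := Nat.find_spec hall
      have hj2 : ∀ i < j, Subgroup.upperCentralSeries ↥(P : Subgroup G) i ≤
          N'.subgroupOf (P : Subgroup G) := by
        intro i hi
        have := Nat.find_min hall (hj ▸ hi)
        exact not_not.mp this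
      rw [← hj] at hj1
      rcases j with _ | j
      · exact absurd (by rw [Subgroup.upperCentralSeries_zero]; exact bot_le) hj1
      · refine ⟨j, ?_⟩
        have hle := hj2 j (Nat.lt_succ_self j)
        obtain ⟨y, hy, hyN⟩ := SetLike.not_le_iff_exists.mp hj1
        rw [Subgroup.mem_upperCentralSeries_succ_iff] at hy
        rw [Subgroup.mem_subgroupOf] at hyN
        apply Subgroup.eq_of_le_of_card_ge hle
        have hcN : Nat.card (N'.subgroupOf (P : Subgroup G)) = n + 1 := by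
          rw [← h1]
          exact Nat.card_congr (Subgroup.subgroupOfEquivOfLe hNP).toEquiv
        rw [hcN]
        -- the class of y in P injects in Z_j
        have h8 : (Subgroup.centralizer ({y} : Set (P : Subgroup G))).index ≤
            Nat.card (Subgroup.upperCentralSeries ↥(P : Subgroup G) j) := by
          rw [← card_conj_class]
          let f : {x : (P : Subgroup G) // IsConj y x} →
              Subgroup.upperCentralSeries ↥(P : Subgroup G) j := fun x => ⟨y * x.1⁻¹, by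
            obtain ⟨c, hc⟩ := isConj_iff.mp x.2
            have := hy c
            rw [commutatorElement_def] at this
            rw [← hc]
            rwa [show y * (c * y * c⁻¹)⁻¹ = y * c * y⁻¹ * c⁻¹ by group]⟩
          apply Nat.card_le_card_of_injective f
          intro a b hab
          have := congrArg Subtype.val hab
          simp only [f, mul_right_inj, inv_inj] at this
          exact Subtype.ext this
        have h9 := (Subgroup.centralizer ({y} : Set (P : Subgroup G))).index_mul_card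
        have h10 : Nat.card (Subgroup.centralizer ({y} : Set (P : Subgroup G))) ≤ e ^ 2 := by
          have := hbound y hyN ((Subgroup.centralizer ({y} : Set (P : Subgroup G))).map
            (P : Subgroup G).subtype) ((P.isPGroup'.to_subgroup _).map _) (by
              rintro _ ⟨z, hz, rfl⟩
              rw [SetLike.mem_coe, Subgroup.mem_centralizer_singleton_iff] at hz
              rw [Subgroup.mem_centralizer_singleton_iff]
              exact congrArg Subtype.val hz)
          rwa [Subgroup.card_map_of_injective (P : Subgroup G).subtype_injective] at this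
        rw [hPcard] at h9
        have h11 : e ^ 2 * (n + 1) ≤ e ^ 2 *
            Nat.card (Subgroup.upperCentralSeries ↥(P : Subgroup G) j) := by
          rw [← h9, mul_comm (e ^ 2)]
          exact Nat.mul_le_mul h8 h10
        exact Nat.le_of_mul_le_mul_left h11 (by positivity)

end

end Cfsg.Agent.Lib.CharTwoCl
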