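import Cfsg.Agent.Lib.CharUniqP
import Cfsg.Agent.Lib.CharCoF
import Cfsg.Agent.Lib.CharGlaub
import Cfsg.Agent.Lib.CharClifford

set_option autoImplicit false
set_option maxHeartbeats 400000

namespace Cfsg.Agent.Lib.CharUniqN

open Cfsg Module Cfsg.Agent.Lib.CharBasic Cfsg.Agent.Lib.CharInd Cfsg.Agent.Lib.CharLin Cfsg.Agent.Lib.CharInt
open Cfsg.Agent.Lib.BlockDeg

noncomputable section

/-- counting the classes of size prime to `p` -/
theorem card_classes {G : Type*} [Group G] [Finite G] {p : ℕ} [hp : Fact p.Prime] (P : Sylow p G)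
    (hcen : ∀ x ∈ Subgroup.normalizer ((P : Subgroup G) : Set G), ∀ y ∈ (P : Subgroup G), y * x = x * y) :
    Nat.card {C : ConjClasses G // ¬ p ∣ Nat.card C.carrier} =
      Nat.card (ConjClasses (Subgroup.normalizer ((P : Subgroup G) : Set G))) := by
  classical
  have hidx : ¬ p ∣ (P : Subgroup G).index := P.not_dvd_index
  have hcc : ∀ x ∈ Subgroup.normalizer ((P : Subgroup G) : Set G), x ∈ Subgroup.centralizer ((P : Subgroup G) : Set G) :=
    fun x hx => Subgroup.mem_centralizer_iff.mpr (fun y hy => hcen x hx y hy)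
  symm
  apply Nat.card_congr
  refine Equiv.ofBijective (fun C => ⟨ConjClasses.map (Subgroup.subtype (Subgroup.normalizer ((P : Subgroup G) : Set G))) C, ?_⟩) ⟨?_, ?_⟩
  · obtain ⟨m, rfl⟩ := ConjClasses.exists_rep C
    show ¬ p ∣ Nat.card (ConjClasses.mk (m : G)).carrier
    have h1 : Nat.card (ConjClasses.mk (m : G)).carrier = (Subgroup.centralizer ({(m : G)} : Set G)).index :=
      card_conj_class (m : G)
    rw [h1]
    intro h
    apply hidx
    refine h.trans (Subgroup.index_dvd_of_le ?_)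
    intro y hy
    rw [Subgroup.mem_centralizer_singleton_iff]
    exact hcen m m.2 y hy
  · intro C D hCD
    obtain ⟨m, rfl⟩ := ConjClasses.exists_rep C
    obtain ⟨m', rfl⟩ := ConjClasses.exists_rep D
    have h1 : ConjClasses.mk (m : G) = ConjClasses.mk (m' : G) := congrArg Subtype.val hCD
    rw [ConjClasses.mk_eq_mk_iff_isConj, isConj_iff] at h1
    obtain ⟨c, hc⟩ := h1
    obtain ⟨n, hn, hn2⟩ := P.conj_eq_normalizer_conj_of_mem_centralizer (m : G) c⁻¹ (hcc _ m.2) (by
      rw [inv_inv, hc]; exact hcc _ m'.2)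
    rw [ConjClasses.mk_eq_mk_iff_isConj, isConj_iff]
    refine ⟨⟨n⁻¹, Subgroup.inv_mem _ hn⟩, Subtype.ext ?_⟩
    show n⁻¹ * (m : G) * (n⁻¹)⁻¹ = m'
    rw [inv_inv, ← hn2, inv_inv, hc]
  · rintro ⟨C, hC⟩
    obtain ⟨g, rfl⟩ := ConjClasses.exists_rep C
    letI : MulAction (P : Subgroup G) {x : G // IsConj g x} :=
      { smul := fun y x => ⟨(y : G) * x * (y : G)⁻¹, x.2.trans (isConj_iff.mpr ⟨y, rfl⟩)⟩
        one_smul := fun x => Subtype.ext (by show (1 : G) * x * (1 : G)⁻¹ = x; group)
        mul_smul := fun y z x => Subtype.ext (by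
          show ((y : G) * z) * x * ((y : G) * z)⁻¹ = (y : G) * ((z : G) * x * (z : G)⁻¹) * (y : G)⁻¹
          group) }
    obtain ⟨x, hx⟩ := P.isPGroup'.nonempty_fixed_point_of_prime_not_dvd_card {x : G // IsConj g x} hC
    have hxn : (x : G) ∈ Subgroup.normalizer ((P : Subgroup G) : Set G) := by
      have h1 : ∀ y ∈ (P : Subgroup G), y * (x : G) = (x : G) * y := by
        intro y hy
        have h2 : y * (x : G) * y⁻¹ = x := congrArg Subtype.val (hx ⟨y, hy⟩)
        calc y * (x : G) = y * (x : G) * y⁻¹ * y := by group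
          _ = _ := by rw [h2]
      rw [Subgroup.mem_normalizer_iff]
      intro y
      have h3 : ∀ y ∈ (P : Subgroup G), (x : G) * y * (x : G)⁻¹ = y := by
        intro y hy; rw [← h1 y hy]; group
      constructor
      · intro hy
        have : (x : G) * y * (x : G)⁻¹ ∈ (P : Subgroup G) := by rw [h3 y hy]; exact hy
        exact this
      · intro hy
        have h4 := h1 _ hy
        have h5 : y = (x : G) * y * (x : G)⁻¹ := by
          calc y = (x : G)⁻¹ * ((x : G) * y * (x : G)⁻¹ * x) := by group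
            _ = (x : G)⁻¹ * (x * ((x : G) * y * (x : G)⁻¹)) := by rw [h4]
            _ = _ := by group
        have h6 : (x : G) * y * (x : G)⁻¹ ∈ (P : Subgroup G) := hy
        rw [h5]; exact h6
    refine ⟨ConjClasses.mk ⟨x, hxn⟩, Subtype.ext ?_⟩
    show ConjClasses.mk (x : G) = ConjClasses.mk g
    rw [ConjClasses.mk_eq_mk_iff_isConj]
    exact x.2.symm

theorem exists_nonlinear {A : Type*} [Group A] [Fintype A] (h : ∃ a b : A, a * b ≠ b * a) :
    ∃ φ : A → ℂ, IsIrrCharacter A φ ∧ φ 1 ≠ 1 := by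
  classical
  by_contra hno
  push Not at hno
  have h1 := Cfsg.Agent.Lib.CharTable.sum_sq_degrees (G := A) (fun _ => 1) (fun χ => by rw [hno χ.1 χ.2, Nat.cast_one])
  have h2 := card_lin (G := A)
  have h3 : Nat.card {χ : IrrCharacter A // χ.1 1 = 1} = Nat.card (IrrCharacter A) :=
    Nat.card_congr (Equiv.subtypeUnivEquiv (fun χ => hno χ.1 χ.2))
  have h4 : Nat.card (IrrCharacter A) = Nat.card A := by
    rw [← h1, Nat.card_eq_fintype_card, ← Finset.card_univ, Finset.card_eq_sum_ones]
    refine Finset.sum_congr rfl fun _ _ => ?_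
    norm_num
  have h5 := (commutator A).card_mul_index
  rw [← h2, h3, h4] at h5
  have h6 : Nat.card (commutator A) = 1 := Nat.eq_of_mul_eq_mul_right Nat.card_pos (h5.trans (one_mul _).symm)
  have h7 : commutator A = ⊥ := Subgroup.card_eq_one.mp h6
  obtain ⟨a, b, hab⟩ := h
  apply hab
  have h8 : a * b * a⁻¹ * b⁻¹ ∈ commutator A :=
    Subgroup.commutator_mem_commutator (Subgroup.mem_top _) (Subgroup.mem_top _)
  rw [h7, Subgroup.mem_bot] at h8
  calc a * b = a * b * a⁻¹ * b⁻¹ * (b * a) := by group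
    _ = b * a := by rw [h8, one_mul]
section main

open Cfsg.Agent.Lib.CharNormal Cfsg.Agent.Lib.CharClifford Cfsg.Agent.Lib.CharKer Cfsg.Agent.Lib.CharExt

theorem quot_abelian {G : Type*} [Group G] [Fintype G] {p : ℕ} [hp : Fact p.Prime] (hnil : ¬ Group.IsNilpotent G)
    (N : Subgroup G) [hN : N.Normal] (hNc : (Nat.card N).Coprime p) {k : ℕ} (hidx : N.index = p ^ k)
    {χ : G → ℂ} (hχ : IsIrrCharacter G χ) (hχ1 : p ∣ charDegree χ)
    (huniq : ∀ φ : G → ℂ, IsIrrCharacter G φ → p ∣ charDegree φ → φ = χ) : ∀ a b : G ⧸ N, a * b = b * a := by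
  classical
  by_contra hno
  push Not at hno
  letI : Fintype (G ⧸ N) := Fintype.ofFinite _
  letI : Fintype N := Fintype.ofFinite _
  obtain ⟨β₀, hβ₀, hβ₀1⟩ := exists_nonlinear hno
  have hβ : IsIrrCharacter G (fun g => β₀ (g : G ⧸ N)) := isIrr_infl N hβ₀
  have hβN : ∀ n ∈ N, (fun g : G => β₀ (g : G ⧸ N)) n = (fun g : G => β₀ (g : G ⧸ N)) 1 := by
    intro n hn
    show β₀ (n : G ⧸ N) = β₀ ((1 : G) : G ⧸ N)
    rw [(QuotientGroup.eq_one_iff n).mpr hn]; rfl
  have hβd : p ∣ charDegree (fun g : G => β₀ (g : G ⧸ N)) := by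
    have h1 : charDegree (fun g : G => β₀ (g : G ⧸ N)) = charDegree β₀ := by
      apply charDegree_eq
      rw [charDegree_cast (isChar_of_irr hβ₀)]; rfl
    rw [h1]
    have h2 := charDegree_dvd hβ₀
    have h3 : Nat.card (G ⧸ N) = p ^ k := hidx
    rw [h3] at h2
    obtain ⟨j, -, hj⟩ := (Nat.dvd_prime_pow hp.out).mp h2
    rw [hj]
    apply dvd_pow_self
    rintro rfl
    apply hβ₀1
    rw [← charDegree_cast (isChar_of_irr hβ₀), hj, pow_zero, Nat.cast_one]
  have hβe := huniq _ hβ hβd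
  have hχN : ∀ n ∈ N, χ n = χ 1 := by rw [← hβe]; exact hβN
  have hχ0 : χ 1 ≠ 0 := isIrr_one_ne_zero hχ
  have claim : ∀ θ : IrrCharacter N, θ.1 = fun _ => 1 := by
    intro θ
    by_contra hθ
    obtain ⟨ψ, hψ⟩ := char_ne_zero_exists_constituent (isChar_ind N (isChar_of_irr θ.2)) (by
      intro h
      have h1 := congrFun h 1
      rw [indFun_one] at h1
      rcases mul_eq_zero.mp h1 with h2 | h2
      · exact Subgroup.index_ne_zero_of_finite (Nat.cast_eq_zero.mp h2)
      · exact isIrr_one_ne_zero θ.2 h2)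
    rw [reciprocity N _ _ (isChar_classFn (isChar_of_irr ψ.2))] at hψ
    have hψ' : classInner (fun n : N => ψ.1 n) θ.1 ≠ 0 := by
      intro h
      apply hψ
      rw [← classInner_conj_symm, h, map_zero]
    obtain ⟨d, hd0, hd⟩ := isIrr_one_eq θ.2
    by_cases hinv : ∀ g : G, cj g θ.1 = θ.1
    · obtain ⟨hdet, hdeg⟩ := Cfsg.Agent.Lib.CharGlaub.coprime_det_deg θ.2 hd
      have hcop : Nat.Coprime N.index (detOrder θ.1 * d) := by
        rw [hidx]
        apply Nat.Coprime.pow_left
        apply Nat.Coprime.mul_right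
        · exact (Nat.Coprime.coprime_dvd_left hdet hNc).symm
        · exact (Nat.Coprime.coprime_dvd_left hdeg hNc).symm
      obtain ⟨η, ⟨hη, hηN, -⟩, -⟩ := ext_of_coprime_det θ.2 hinv hd hcop
      have h1 := ((gallagher θ.2 hη hηN).mapsTo ⟨hβ, hβN⟩).1
      have h2 : charDegree ((fun g : G => β₀ (g : G ⧸ N)) * η) = charDegree (fun g : G => β₀ (g : G ⧸ N)) * charDegree η := by
        apply charDegree_eq
        rw [Nat.cast_mul, charDegree_cast (isChar_of_irr hβ), charDegree_cast (isChar_of_irr hη)]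
        rfl
      have h3 := huniq _ h1 (by
        show p ∣ charDegree ((fun g : G => β₀ (g : G ⧸ N)) * η)
        rw [h2]; exact hβd.mul_right _)
      apply hθ
      funext n
      have h4 : ((fun g : G => β₀ (g : G ⧸ N)) * η) n = χ n := congrFun h3 n
      rw [hβe, Pi.mul_apply, hηN, hχN n n.2] at h4
      exact mul_left_cancel₀ hχ0 (h4.trans (mul_one _).symm)
    · have h1 := degree_eq ψ.2 θ.2 hψ'
      obtain ⟨a, ha⟩ := exists_nat_inner (isChar_res N (isChar_of_irr ψ.2)) θ.2
      rw [ha, hd, ← charDegree_cast (isChar_of_irr ψ.2)] at h1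
      have h2 : charDegree ψ.1 = a * (inertia θ.1).index * d := by exact_mod_cast h1
      have h3 : (inertia θ.1).index ∣ p ^ k := by
        rw [← hidx]
        exact Subgroup.index_dvd_of_le (le_inertia (isChar_classFn (isChar_of_irr θ.2)))
      obtain ⟨j, -, hj⟩ := (Nat.dvd_prime_pow hp.out).mp h3
      have hj0 : j ≠ 0 := by
        rintro rfl
        rw [pow_zero, Subgroup.index_eq_one] at hj
        apply hinv
        intro g
        have : g ∈ inertia θ.1 := by rw [hj]; exact Subgroup.mem_top _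
        exact mem_inertia.mp this
      have h4 : p ∣ charDegree ψ.1 := by
        rw [h2, hj]
        exact ((dvd_pow_self p hj0).mul_left _).mul_right _
      have h5 := huniq _ ψ.2 h4
      apply hψ'
      have h6 : (fun n : N => ψ.1 n) = χ 1 • (fun _ : N => (1:ℂ)) := by
        funext n
        rw [h5, hχN n n.2, Pi.smul_apply, smul_eq_mul, mul_one]
      rw [h6, classInner_smul_left, irr_inner_ne isIrr_trivial θ.2 (fun h => hθ h.symm), mul_zero]
  apply hnil
  have h1 : ∀ n : N, n = 1 := by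
    intro n
    have h2 : IsConj n 1 := irr_separates fun φ => by rw [claim φ]
    exact isConj_one_left.mp h2
  have h2 : N = ⊥ := by
    rw [eq_bot_iff]
    intro n hn
    exact Subgroup.mem_bot.mpr (congrArg Subtype.val (h1 ⟨n, hn⟩))
  have h3 : Nat.card G = p ^ k := by rw [← hidx, h2, Subgroup.index_bot]
  exact (IsPGroup.of_card h3).isNilpotent

theorem card_compl {α : Type*} [Finite α] (q : α → Prop) :
    Nat.card {x // q x} + Nat.card {x // ¬ q x} = Nat.card α := by
  classical
  rw [← Nat.card_sum]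
  exact Nat.card_congr (Equiv.sumCompl q)

theorem main {G : Type*} [Group G] [Fintype G] (p : ℕ) [hp : Fact p.Prime] (hnil : ¬ Group.IsNilpotent G)
    (N : Subgroup G) [hN : N.Normal] (hNc : (Nat.card N).Coprime p) {k : ℕ} (hidx : N.index = p ^ k)
    (hone : Nat.card {χ : IrrCharacter G // p ∣ charDegree (χ : G → ℂ)} = 1) :
    Nat.card {C : ConjClasses G // p ∣ Nat.card C.carrier} = 1 := by
  classical
  obtain ⟨⟨χ, hχ⟩, huniq⟩ := Nat.card_eq_one_iff_exists.mp hone
  have huniq' : ∀ φ : G → ℂ, IsIrrCharacter G φ → p ∣ charDegree φ → φ = χ.1 := by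
    intro φ hφ hφp
    exact congrArg (fun x => x.1.1) (huniq ⟨⟨φ, hφ⟩, hφp⟩)
  have hab := quot_abelian hnil N hNc hidx χ.2 hχ huniq'
  obtain ⟨P⟩ : Nonempty (Sylow p G) := inferInstance
  obtain ⟨a, ha⟩ := IsPGroup.iff_card.mp P.isPGroup'
  have hPi : ¬ p ∣ (P : Subgroup G).index := P.not_dvd_index
  have hpG : p ∣ Nat.card G := hχ.trans (charDegree_dvd χ.2)
  have ha0 : a ≠ 0 := by
    rintro rfl
    have h1 := (P : Subgroup G).card_mul_index
    rw [ha, pow_zero, one_mul] at h1
    exact hPi (h1 ▸ hpG)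
  have hcop : (Nat.card N).Coprime (Nat.card (P : Subgroup G)) := by rw [ha]; exact hNc.pow_right _
  have hNP : N ⊔ (P : Subgroup G) = ⊤ := by
    rw [← Subgroup.index_eq_one]
    have h1 : (N ⊔ (P : Subgroup G)).index ∣ p ^ k := by
      rw [← hidx]; exact Subgroup.index_dvd_of_le le_sup_left
    have h2 : (N ⊔ (P : Subgroup G)).index ∣ (P : Subgroup G).index := Subgroup.index_dvd_of_le le_sup_right
    have h3 : Nat.Coprime (p ^ k) (P : Subgroup G).index :=
      Nat.Coprime.pow_left _ ((Nat.Prime.coprime_iff_not_dvd hp.out).mpr hPi)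
    exact Nat.eq_one_of_dvd_coprimes h3 h1 h2
  have hdis : ∀ x ∈ N, x ∈ (P : Subgroup G) → x = 1 := by
    intro x hx hxP
    have h1 : N ⊓ (P : Subgroup G) = ⊥ := Subgroup.inf_eq_bot_of_coprime hcop
    have h2 : x ∈ N ⊓ (P : Subgroup G) := ⟨hx, hxP⟩
    rw [h1] at h2
    exact Subgroup.mem_bot.mp h2
  have hPab : ∀ y ∈ (P : Subgroup G), ∀ z ∈ (P : Subgroup G), y * z = z * y := by
    intro y hy z hz
    have h1 : y * z * y⁻¹ * z⁻¹ ∈ N := by
      rw [← QuotientGroup.eq_one_iff]
      show (y : G ⧸ N) * (z : G ⧸ N) * (y : G ⧸ N)⁻¹ * (z : G ⧸ N)⁻¹ = 1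
      rw [hab (y : G ⧸ N) (z : G ⧸ N)]; group
    have h2 := hdis _ h1 (Subgroup.mul_mem _ (Subgroup.mul_mem _ (Subgroup.mul_mem _ hy hz) (Subgroup.inv_mem _ hy)) (Subgroup.inv_mem _ hz))
    calc y * z = (y * z * y⁻¹ * z⁻¹) * (z * y) := by group
      _ = z * y := by rw [h2, one_mul]
  have hcen : ∀ x ∈ Subgroup.normalizer ((P : Subgroup G) : Set G), ∀ y ∈ (P : Subgroup G), y * x = x * y := by
    intro x hx y hy
    have hxt : x ∈ N ⊔ (P : Subgroup G) := by rw [hNP]; exact Subgroup.mem_top _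
    obtain ⟨n, hn, z, hz, rfl⟩ := Subgroup.mem_sup_of_normal_left.mp hxt
    have hzn : z ∈ Subgroup.normalizer ((P : Subgroup G) : Set G) := Subgroup.le_normalizer hz
    have hnn : n ∈ Subgroup.normalizer ((P : Subgroup G) : Set G) := by
      have := Subgroup.mul_mem _ hx (Subgroup.inv_mem _ hzn)
      rwa [mul_inv_cancel_right] at this
    have h1 : n * y * n⁻¹ ∈ (P : Subgroup G) := (Subgroup.mem_normalizer_iff.mp hnn y).mp hy
    have h2 : n * y * n⁻¹ * y⁻¹ = 1 := by
      apply hdis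
      · have h3 : n * y * n⁻¹ * y⁻¹ = n * (y * n⁻¹ * y⁻¹) := by group
        rw [h3]
        exact N.mul_mem hn (hN.conj_mem _ (N.inv_mem hn) y)
      · exact Subgroup.mul_mem _ h1 (Subgroup.inv_mem _ hy)
    have h3 : n * y = y * n := by
      calc n * y = (n * y * n⁻¹ * y⁻¹) * (y * n) := by group
        _ = y * n := by rw [h2, one_mul]
    calc y * (n * z) = (y * n) * z := by group
      _ = n * (y * z) := by rw [← h3]; group
      _ = n * z * y := by rw [hPab y hy z hz]; group
  have hcl := card_classes P hcen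
  have hPs : Group.IsSolvable (P : Subgroup G) := by
    haveI := P.isPGroup'.isNilpotent
    infer_instance
  have h1 := Cfsg.Agent.Lib.CharCoF.count_main N (P : Subgroup G) hNP hcop hPs
  have h2 : Nat.card {η : IrrCharacter (Subgroup.normalizer ((P : Subgroup G) : Set G)) //
      (charDegree η.1).Coprime (Nat.card (P : Subgroup G))} =
      Nat.card (ConjClasses (Subgroup.normalizer ((P : Subgroup G) : Set G))) := by
    letI : Fintype (Subgroup.normalizer ((P : Subgroup G) : Set G)) := Fintype.ofFinite _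
    rw [← card_irr]
    refine Nat.card_congr (Equiv.subtypeUnivEquiv fun η => ?_)
    haveI : ((P : Subgroup G).subgroupOf (Subgroup.normalizer ((P : Subgroup G) : Set G))).Normal := Subgroup.normal_in_normalizer
    have h3 := ito η.2 ((P : Subgroup G).subgroupOf (Subgroup.normalizer ((P : Subgroup G) : Set G)))
      (fun x hx y hy => Subtype.ext (hPab x (Subgroup.mem_subgroupOf.mp hx) y (Subgroup.mem_subgroupOf.mp hy)))
      (charDegree_cast (isChar_of_irr η.2)).symm
    have h4 : ((P : Subgroup G).subgroupOf (Subgroup.normalizer ((P : Subgroup G) : Set G))).index ∣ (P : Subgroup G).index :=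
      Subgroup.relIndex_dvd_index_of_le Subgroup.le_normalizer
    rw [ha]
    apply Nat.Coprime.pow_right
    rw [Nat.coprime_comm, Nat.Prime.coprime_iff_not_dvd hp.out]
    exact fun h => hPi (h.trans (h3.trans h4))
  have h3 : Nat.card {χ : IrrCharacter G // (charDegree χ.1).Coprime (Nat.card (P : Subgroup G))} =
      Nat.card {χ : IrrCharacter G // ¬ p ∣ charDegree (χ : G → ℂ)} := by
    refine Nat.card_congr (Equiv.subtypeEquivRight fun χ => ?_)
    rw [ha, Nat.coprime_pow_right_iff (Nat.pos_of_ne_zero ha0), Nat.coprime_comm, Nat.Prime.coprime_iff_not_dvd hp.out]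
  have h4 := card_compl (fun χ : IrrCharacter G => p ∣ charDegree (χ : G → ℂ))
  have h5 := card_compl (fun C : ConjClasses G => p ∣ Nat.card C.carrier)
  have h6 := card_irr (G := G)
  rw [h3, h2, ← hcl] at h1
  rw [hone, h1, h6, ← h5] at h4
  omega

end main

end

end Cfsg.Agent.Lib.CharUniqN
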