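import Cfsg.Agent.Lib.CharESp
import Cfsg.Agent.Lib.CharRatio
import Cfsg.Agent.Lib.BlockDeg
import Cfsg.Agent.Lib.ExSp
import Cfsg.Agent.Lib.Nilp
import Cfsg.Agent.Lib.CharInt
import Cfsg.Agent.Lib.CharTable

set_option autoImplicit false
set_option maxHeartbeats 400000

namespace Cfsg.Agent.Lib.CharUniqP

open Cfsg Module Cfsg.Agent.Lib.CharBasic Cfsg.Agent.Lib.CharInd Cfsg.Agent.Lib.CharLin Cfsg.Agent.Lib.CharInt
open Cfsg.Agent.Lib.BlockDeg

noncomputable section

theorem center_ne_zero {G : Type*} [Group G] [Fintype G] {χ : G → ℂ} (hχ : IsIrrCharacter G χ) {z : G}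
    (hz : z ∈ Subgroup.center G) : χ z ≠ 0 := by
  have h0 := isIrr_one_ne_zero hχ
  obtain ⟨n, ρ, hρ, rfl⟩ := hχ
  haveI := hρ
  obtain ⟨c, hc⟩ := center_scalar ρ z hz
  intro h1
  have h2 : ρ.character z = c * ρ.character 1 := by
    show LinearMap.trace ℂ _ (ρ z) = c * LinearMap.trace ℂ _ (ρ 1)
    rw [hc, map_smul, map_one, smul_eq_mul]; rfl
  rw [h1] at h2
  have h3 : c = 0 := by
    rcases mul_eq_zero.mp h2.symm with h | h
    · exact h
    · exact absurd h h0
  apply h0
  have h4 : ρ 1 = 0 := by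
    rw [← mul_inv_cancel z, map_mul, hc, h3, zero_smul, zero_mul]
  show LinearMap.trace ℂ _ (ρ 1) = 0
  rw [h4, map_zero]

/-- the case of a `p`-group -/
theorem pgroup_case {G : Type*} [Group G] [Fintype G] {p : ℕ} [hp : Fact p.Prime] (hG : IsPGroup p G)
    {χ : G → ℂ} (hχ : IsIrrCharacter G χ) (hχ1 : p ∣ charDegree χ)
    (huniq : ∀ φ : G → ℂ, IsIrrCharacter G φ → p ∣ charDegree φ → φ = χ) : p = 2 ∧ IsExtraspecial 2 G := by
  classical
  have hp1 := hp.out.one_lt
  -- degrees
  have hdeg : ∀ φ : G → ℂ, IsIrrCharacter G φ → φ 1 = 1 ∨ p ∣ charDegree φ := by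
    intro φ hφ
    have h1 := charDegree_dvd hφ
    obtain ⟨k, hk⟩ := IsPGroup.iff_card.mp hG
    rw [hk] at h1
    obtain ⟨j, -, hj⟩ := (Nat.dvd_prime_pow hp.out).mp h1
    rcases Nat.eq_zero_or_pos j with h | h
    · left
      rw [← charDegree_cast (isChar_of_irr hφ), hj, h, pow_zero, Nat.cast_one]
    · right
      rw [hj]; exact dvd_pow_self p (by omega)
  have hχne : χ 1 ≠ 1 := by
    intro h
    have h1 : charDegree χ = 1 := charDegree_eq (by rw [h, Nat.cast_one])
    rw [h1] at hχ1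
    exact hp1.ne' (Nat.dvd_one.mp hχ1)
  -- sum of squares
  have hsum : (commutator G).index + charDegree χ ^ 2 = Nat.card G := by
    rw [← Cfsg.Agent.Lib.CharTable.sum_sq_degrees (fun φ : IrrCharacter G => charDegree φ.1) (fun φ => (charDegree_cast (isChar_of_irr φ.2)).symm),
      ← card_lin, Nat.card_eq_fintype_card, Fintype.card_subtype,
      ← Finset.sum_filter_add_sum_filter_not Finset.univ (fun φ : IrrCharacter G => φ.1 1 = 1)]
    congr 1
    · rw [Finset.card_eq_sum_ones]
      refine Finset.sum_congr rfl fun φ hφ => ?_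
      have h1 : charDegree φ.1 = 1 := charDegree_eq (by rw [(Finset.mem_filter.mp hφ).2, Nat.cast_one])
      rw [h1, one_pow]
    · have h1 : (Finset.univ.filter (fun φ : IrrCharacter G => ¬ φ.1 1 = 1)) = {(⟨χ, hχ⟩ : IrrCharacter G)} := by
        ext φ
        simp only [Finset.mem_filter, Finset.mem_univ, true_and, Finset.mem_singleton]
        constructor
        · intro h
          exact Subtype.ext (huniq φ.1 φ.2 ((hdeg φ.1 φ.2).resolve_left h))
        · rintro rfl; exact hχne
      rw [h1, Finset.sum_singleton]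
  -- twisting
  have htw : ∀ l : G →* ℂˣ, ∀ g, (l g : ℂ) * χ g = χ g := by
    intro l g
    have h1 : IsIrrCharacter G (fun g => (l g : ℂ) * χ g) := isIrr_lin_mul l hχ
    have h2 : charDegree (fun g => (l g : ℂ) * χ g) = charDegree χ := by
      apply charDegree_eq
      show (l 1 : ℂ) * χ 1 = _
      rw [map_one, Units.val_one, one_mul, charDegree_cast (isChar_of_irr hχ)]
    exact congrFun (huniq _ h1 (by rw [h2]; exact hχ1)) g
  have hZle : Subgroup.center G ≤ commutator G := by
    intro z hz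
    by_contra hzc
    obtain ⟨l, hl⟩ := exists_lin_ne_one hzc
    apply hl
    have h1 := htw l z
    have h2 := center_ne_zero hχ hz
    have h3 : (l z : ℂ) = 1 := mul_right_cancel₀ h2 (by rw [h1, one_mul])
    exact Units.ext h3
  -- arithmetic
  have hf0 : charDegree χ ≠ 0 := charDegree_ne_zero hχ
  obtain ⟨c, hc⟩ := IsPGroup.iff_card.mp (hG.to_subgroup (commutator G))
  obtain ⟨b, hb⟩ : ∃ b, charDegree χ = p ^ b := by
    have h1 := charDegree_dvd hχ
    obtain ⟨k, hk⟩ := IsPGroup.iff_card.mp hG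
    rw [hk] at h1
    obtain ⟨j, -, hj⟩ := (Nat.dvd_prime_pow hp.out).mp h1
    exact ⟨j, hj⟩
  have h1 := (commutator G).card_mul_index
  rw [← h1, hc] at hsum
  have hidx : 0 < (commutator G).index := Nat.pos_of_ne_zero Subgroup.index_ne_zero_of_finite
  have hc0 : c ≠ 0 := by
    rintro rfl
    rw [pow_zero, one_mul] at hsum
    have : charDegree χ ^ 2 = 0 := by omega
    exact hf0 (pow_eq_zero_iff (two_ne_zero) |>.mp this)
  have hpc : 1 ≤ p ^ c := Nat.one_le_pow _ _ hp.out.pos
  have h2 : (p ^ c - 1) * (commutator G).index = charDegree χ ^ 2 := by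
    rw [Nat.sub_mul, one_mul]
    omega
  have h3 : (p ^ c - 1) ∣ p ^ (2 * b) := by
    rw [mul_comm 2 b, pow_mul, ← hb, ← h2]
    exact Dvd.intro _ rfl
  obtain ⟨j, -, hj⟩ := (Nat.dvd_prime_pow hp.out).mp h3
  have hj0 : j = 0 := by
    by_contra hne
    have h4 : p ∣ p ^ c := dvd_pow_self p hc0
    have h5 : p ∣ p ^ c - 1 := by rw [hj]; exact dvd_pow_self p hne
    have h6 := (Nat.dvd_sub h4 h5)
    have h7 : p ^ c - (p ^ c - 1) = 1 := by omega
    rw [h7] at h6
    exact hp1.ne' (Nat.dvd_one.mp h6)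
  rw [hj0, pow_zero] at hj
  have hpc2 : p ^ c = 2 := by omega
  have hp2 : p = 2 := by
    have h4 : p ∣ 2 := by rw [← hpc2]; exact dvd_pow_self p hc0
    exact (Nat.prime_dvd_prime_iff_eq hp.out Nat.prime_two).mp h4
  refine ⟨hp2, ?_⟩
  subst hp2
  have hcc : Nat.card (commutator G) = 2 := by rw [hc, hpc2]
  have hle : commutator G ≤ Subgroup.center G := by
    intro x hx
    rw [Subgroup.mem_center_iff]
    intro g
    by_cases hx1 : x = 1
    · rw [hx1, mul_one, one_mul]
    have h4 : g * x * g⁻¹ ∈ commutator G := (inferInstance : (commutator G).Normal).conj_mem x hx g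
    have h5 : g * x * g⁻¹ ≠ 1 := by
      intro h
      apply hx1
      have := conj_eq_one_iff.mp h
      exact this
    have h6 : g * x * g⁻¹ = x := by
      have h7 : ∀ a b : commutator G, a ≠ 1 → b ≠ 1 → a = b := by
        intro a b ha hb
        obtain ⟨u, v, huv, huniv⟩ := Nat.card_eq_two_iff.mp hcc
        have h8 : ∀ w : commutator G, w = u ∨ w = v := fun w => by
          have : w ∈ ({u, v} : Set (commutator G)) := by rw [huniv]; trivial
          simpa using this
        rcases h8 1 with h1 | h1 <;> rcases h8 a with h2 | h2 <;> rcases h8 b with h3 | h3 <;> simp_all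
      have h9 := h7 ⟨_, h4⟩ ⟨x, hx⟩ (fun h => h5 (congrArg Subtype.val h)) (fun h => hx1 (congrArg Subtype.val h))
      exact congrArg Subtype.val h9
    calc g * x = g * x * g⁻¹ * g := by group
      _ = x * g := by rw [h6]
  have hZ : commutator G = Subgroup.center G := le_antisymm hle hZle
  have hsqZ : ∀ x : G, x ^ 2 ∈ Subgroup.center G := by
    intro x
    rw [Subgroup.mem_center_iff]
    intro y
    have h4 : x⁻¹ * y⁻¹ * x * y ∈ commutator G := by
      have h5 : x⁻¹ * y⁻¹ * x * y = ((x⁻¹ : G) * y⁻¹ * (x⁻¹)⁻¹ * (y⁻¹)⁻¹) := by group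
      rw [h5]
      exact Subgroup.commutator_mem_commutator (Subgroup.mem_top _) (Subgroup.mem_top _)
    obtain ⟨k, hk⟩ : ∃ k, k = x⁻¹ * y⁻¹ * x * y := ⟨_, rfl⟩
    rw [← hk] at h4
    have h5 : k * k = 1 := by
      have h6 : (⟨k, h4⟩ : commutator G) ^ Nat.card (commutator G) = 1 := pow_card_eq_one'
      rw [hcc, pow_two] at h6
      exact congrArg Subtype.val h6
    have h6 : x * k = k * x := (Subgroup.mem_center_iff.mp (hle h4)) x
    have h7 : y * x * k = x * y := by rw [hk]; group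
    calc y * x ^ 2 = y * x * x * (k * k) := by rw [h5, pow_two]; group
      _ = y * x * (x * k) * k := by group
      _ = (y * x * k) * x * k := by rw [h6]; group
      _ = x * y * x * k := by rw [h7]
      _ = x * (y * x * k) := by group
      _ = x ^ 2 * y := by rw [h7, pow_two]; group
  refine ⟨⟨hG, le_antisymm ?_ ?_, hZ⟩, by rw [← hZ]; exact hcc⟩
  · exact Cfsg.Agent.Lib.Nilp.frattini_le_of_elementary_quotient (p := 2) (Subgroup.center G) hle hsqZ
  · rw [← hZ]
    exact Cfsg.Agent.Lib.Nilp.commutator_le_frattini hG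
section nilp

theorem exists_proj {G : Type*} [Group G] [Finite G] [hn : Group.IsNilpotent G] {p : ℕ} [hp : Fact p.Prime]
    (hpG : p ∣ Nat.card G) (P : Sylow p G) : ∃ π : G →* (P : Subgroup G), Function.Surjective π := by
  classical
  have h1 := (Group.isNilpotent_of_finite_tfae (G := G)).out 0 4 rfl rfl
  obtain ⟨e⟩ := h1.mp hn
  have hmem : p ∈ (Nat.card G).primeFactors := Nat.mem_primeFactors.mpr ⟨hp.out, hpG, Nat.card_pos.ne'⟩
  let q : (Nat.card G).primeFactors := ⟨p, hmem⟩
  let f1 : (∀ q : (Nat.card G).primeFactors, ∀ P : Sylow q G, (↑P : Subgroup G)) →* (∀ P : Sylow p G, (↑P : Subgroup G)) :=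
    Pi.evalMonoidHom (fun q : (Nat.card G).primeFactors => ∀ P : Sylow q G, (↑P : Subgroup G)) q
  let f2 : (∀ P : Sylow p G, (↑P : Subgroup G)) →* (P : Subgroup G) := Pi.evalMonoidHom (fun P : Sylow p G => (↑P : Subgroup G)) P
  refine ⟨(f2.comp f1).comp e.symm.toMonoidHom, ?_⟩
  have hs1 : Function.Surjective f1 := Function.surjective_eval q
  have hs2 : Function.Surjective f2 := Function.surjective_eval P
  exact (hs2.comp hs1).comp e.symm.surjective

theorem pgroup_of_unique {G : Type*} [Group G] [Fintype G] [hn : Group.IsNilpotent G] {p : ℕ} [hp : Fact p.Prime]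
    {χ : G → ℂ} (hχ : IsIrrCharacter G χ) (hχ1 : p ∣ charDegree χ)
    (huniq : ∀ φ : G → ℂ, IsIrrCharacter G φ → p ∣ charDegree φ → φ = χ) : IsPGroup p G := by
  classical
  obtain ⟨P⟩ : Nonempty (Sylow p G) := inferInstance
  have hpG : p ∣ Nat.card G := hχ1.trans (charDegree_dvd hχ)
  obtain ⟨π, hπ⟩ := exists_proj hpG P
  haveI hPn : (P : Subgroup G).Normal := by
    have h1 := (Group.isNilpotent_of_finite_tfae (G := G)).out 0 3 rfl rfl
    exact h1.mp hn p hp P
  letI : Fintype (P : Subgroup G) := Fintype.ofFinite _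
  have hidx : ¬ p ∣ (P : Subgroup G).index := P.not_dvd_index
  -- constituent
  have hres : IsCharacter (P : Subgroup G) (fun x : (P : Subgroup G) => χ x) := isChar_res _ (isChar_of_irr hχ)
  obtain ⟨θ, hθ⟩ := char_ne_zero_exists_constituent hres (fun h => isIrr_one_ne_zero hχ (congrFun h 1))
  obtain ⟨b, hb1, hb2⟩ := Cfsg.Agent.Lib.CharRatio.ratio θ.2 hχ hθ
  have hθp : p ∣ charDegree θ.1 := by
    rw [← charDegree_cast (isChar_of_irr hχ), ← charDegree_cast (isChar_of_irr θ.2)] at hb1
    have h1 : charDegree χ = b * charDegree θ.1 := by exact_mod_cast hb1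
    rw [h1] at hχ1
    rcases hp.out.dvd_mul.mp hχ1 with h | h
    · exact absurd (h.trans hb2) hidx
    · exact h
  let φ : G → ℂ := fun g => θ.1 (π g)
  have hφ : IsIrrCharacter G φ := isIrr_comp_surjective π hπ θ.2
  have hφ1 : φ 1 = θ.1 1 := by show θ.1 (π 1) = _; rw [map_one]
  have hφd : charDegree φ = charDegree θ.1 := charDegree_eq (by rw [hφ1, charDegree_cast (isChar_of_irr θ.2)])
  have hφe := huniq φ hφ (by rw [hφd]; exact hθp)
  -- every linear character trivial on `P` is trivial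
  have hlin : ∀ l : G →* ℂˣ, (∀ x ∈ (P : Subgroup G), l x = 1) → ∀ g, l g = 1 := by
    intro l hl g
    have h1 : IsIrrCharacter G (fun g => (l g : ℂ) * φ g) := isIrr_lin_mul l hφ
    have h2 : charDegree (fun g => (l g : ℂ) * φ g) = charDegree φ := by
      apply charDegree_eq
      show (l 1 : ℂ) * φ 1 = _
      rw [map_one, Units.val_one, one_mul, charDegree_cast (isChar_of_irr hφ)]
    have h3 := (huniq _ h1 (by rw [h2, hφd]; exact hθp)).trans hφe.symm
    have h4 : ∀ x ∈ π.ker, l x = 1 := by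
      intro x hx
      have h5 := congrFun h3 x
      have h6 : φ x = φ 1 := by
        show θ.1 (π x) = θ.1 (π 1)
        rw [MonoidHom.mem_ker.mp hx, map_one]
      have h7 : (l x : ℂ) * φ x = φ x := h5
      have h8 : (l x : ℂ) = 1 := mul_right_cancel₀ (b := φ x) (by rw [h6]; exact isIrr_one_ne_zero hφ) (by rw [h7, one_mul])
      exact Units.ext h8
    have hP : (P : Subgroup G) ≤ l.ker := fun x hx => MonoidHom.mem_ker.mpr (hl x hx)
    have hK : π.ker ≤ l.ker := fun x hx => MonoidHom.mem_ker.mpr (h4 x hx)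
    have hKi : π.ker.index = Nat.card (P : Subgroup G) := by
      rw [Subgroup.index_ker, MonoidHom.range_eq_top.mpr hπ, Subgroup.card_top]
    have h5 : l.ker.index ∣ (P : Subgroup G).index := Subgroup.index_dvd_of_le hP
    have h6 : l.ker.index ∣ Nat.card (P : Subgroup G) := by rw [← hKi]; exact Subgroup.index_dvd_of_le hK
    obtain ⟨a, ha⟩ := IsPGroup.iff_card.mp P.isPGroup'
    have h7 : Nat.Coprime (Nat.card (P : Subgroup G)) (P : Subgroup G).index := by
      rw [ha]
      exact Nat.Coprime.pow_left _ ((Nat.Prime.coprime_iff_not_dvd hp.out).mpr hidx)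
    have h8 : l.ker.index = 1 := Nat.eq_one_of_dvd_coprimes h7 h6 h5
    have h9 : l.ker = ⊤ := Subgroup.index_eq_one.mp h8
    have h10 : g ∈ l.ker := by rw [h9]; exact Subgroup.mem_top _
    exact MonoidHom.mem_ker.mp h10
  -- the quotient by `P` is perfect and nilpotent
  by_contra hnot
  have hPtop : (P : Subgroup G) ≠ ⊤ := by
    intro h
    apply hnot
    have h1 := P.isPGroup'
    rw [IsPGroup.iff_card] at h1 ⊢
    obtain ⟨a, ha⟩ := h1
    exact ⟨a, by rw [← ha, h, Subgroup.card_top]⟩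
  haveI : Nontrivial (G ⧸ (P : Subgroup G)) := by
    rw [← not_subsingleton_iff_nontrivial]
    intro h
    exact hPtop (QuotientGroup.subsingleton_iff.mp h)
  have hcomm : commutator (G ⧸ (P : Subgroup G)) ≠ ⊤ := by
    intro h
    have h1 : Group.IsSolvable (G ⧸ (P : Subgroup G)) := inferInstance
    exact (Group.IsSolvable.commutator_lt_top_of_nontrivial (G ⧸ (P : Subgroup G))).ne h
  obtain ⟨x, hx⟩ : ∃ x : G ⧸ (P : Subgroup G), x ∉ commutator (G ⧸ (P : Subgroup G)) := by
    by_contra h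
    push Not at h
    exact hcomm (eq_top_iff.mpr fun x _ => h x)
  obtain ⟨l, hl⟩ := exists_lin_ne_one hx
  apply hl
  obtain ⟨g, rfl⟩ := QuotientGroup.mk_surjective x
  exact hlin (l.comp (QuotientGroup.mk' (P : Subgroup G))) (fun y hy => by
    show l (y : G ⧸ (P : Subgroup G)) = 1
    rw [(QuotientGroup.eq_one_iff y).mpr hy, map_one]) g

end nilp
section conv

theorem extraspecial_case {G : Type*} [Group G] [Fintype G] (hG : IsExtraspecial 2 G) :
    Nat.card {χ : IrrCharacter G // 2 ∣ charDegree (χ : G → ℂ)} = 1 := by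
  classical
  haveI : Fact (Nat.Prime 2) := ⟨Nat.prime_two⟩
  obtain ⟨z, D⟩ := Cfsg.Agent.Lib.ExSp.dat_of hG
  obtain ⟨n, hn⟩ := Cfsg.Agent.Lib.ExSp.card_odd (p := 2) (Nat.card G) G z D le_rfl
  have hn1 := Cfsg.Agent.Lib.CharESp.n_pos hG hn
  have h1 := Cfsg.Agent.Lib.CharESp.count hG hn
  have h2 : Nat.card {χ : IrrCharacter G // χ.1 1 = ((2 : ℕ) : ℂ) ^ n} = 1 := h1
  rw [← h2]
  apply Nat.card_congr
  refine Equiv.subtypeEquivRight fun χ => ?_
  constructor
  · intro h
    rcases Cfsg.Agent.Lib.CharESp.degree_or hG hn χ.2 with h3 | h3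
    · have h4 : charDegree χ.1 = 1 := charDegree_eq (by rw [h3, Nat.cast_one])
      rw [h4] at h
      norm_num at h
    · exact h3
  · intro h
    have h4 : charDegree χ.1 = 2 ^ n := charDegree_eq (by rw [h, Nat.cast_pow])
    rw [h4]
    exact dvd_pow_self 2 (by omega)

end conv

end

end Cfsg.Agent.Lib.CharUniqP
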