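import Cfsg.Agent.Lib.ChevCent

/-!
# Dominant roots in the exceptional types
-/

set_option autoImplicit false

namespace Cfsg.Agent.Lib.ChevTab

open Cfsg.Lie Cfsg.Agent.Lib.ChevAlg

/-- boolean form of `DomD` -/
def domChk (D : ChevalleyDatum) (h j0 : ℕ) (L : List ℕ) : Bool :=
  decide (D.nroots / 2 ≤ h) && decide (h < D.nroots) && decide (j0 < D.rank) && decide (D.cartan j0 h = 1) &&
  (List.range D.rank).all (fun i => i == j0 || (decide (D.cartan i h = 0) && L.contains (D.nroots - 1 - D.simple i))) &&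
  L.all (fun r => (List.range D.rank).any (fun i => !(i == j0) && (r == D.nroots - 1 - D.simple i)))

lemma domD_of {D : ChevalleyDatum} {h j0 : ℕ} {L : List ℕ} (H : domChk D h j0 L = true) : DomD D h j0 L := by
  simp only [domChk, Bool.and_eq_true, decide_eq_true_eq, List.all_eq_true, List.mem_range, Bool.or_eq_true,
    beq_iff_eq, List.contains_iff_mem, List.any_eq_true, Bool.not_eq_true', beq_eq_false_iff_ne] at H
  obtain ⟨⟨⟨⟨⟨h1, h2⟩, h3⟩, h4⟩, h5⟩, h6⟩ := H
  refine ⟨h1, h2, h3, h4, ?_, ?_, ?_⟩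
  · intro i hi hij
    rcases h5 i hi with h | h
    · exact absurd h hij
    · exact h.1
  · intro i hi hij
    rcases h5 i hi with h | h
    · exact absurd h hij
    · exact h.2
  · intro r hr
    obtain ⟨i, hi, h7, h8⟩ := h6 r hr
    exact ⟨i, hi, h7, h8⟩

lemma domE6 : DomD chevE6 (chevE6.nroots - 1) 1 [15, 29, 32, 34, 35] := domD_of (by decide +kernel)
lemma domE7 : DomD chevE7 (chevE7.nroots - 1) 0 [47, 52, 56, 59, 61, 62] := domD_of (by decide +kernel)
lemma domE8 : DomD chevE8 (chevE8.nroots - 1) 7 [77, 98, 104, 109, 113, 116, 118] := domD_of (by decide +kernel)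
lemma domF4l : DomD chevF4 (chevF4.nroots - 1) 3 [14, 20, 22] := domD_of (by decide +kernel)
lemma domF4s : DomD chevF4 44 0 [20, 22, 23] := domD_of (by decide +kernel)

lemma evenF4 : ∀ r < 48, (24 ≤ r ∨ r ∈ [20, 22, 23]) → ∀ c ∈ chevF4.commTerms r 44, c.2.1 % 2 = 0 := by
  decide +kernel

end Cfsg.Agent.Lib.ChevTab
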