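import Cfsg.Agent.Lib.Basic
import Mathlib.GroupTheory.GroupAction.Primitive

/-!
# The subgroup generated by the derangements
-/

set_option autoImplicit false

namespace Cfsg.Agent.Lib.Derange

open MulAction

variable {G Ω : Type*} [Group G] [MulAction G Ω]

theorem burnside (G Ω : Type*) [Group G] [MulAction G Ω] [Fintype G] [Finite Ω] :
    ∑ g : G, Nat.card (fixedBy Ω g) = Nat.card (orbitRel.Quotient G Ω) * Nat.card G := by
  classical
  haveI := Fintype.ofFinite Ω
  haveI : Fintype (Quotient (orbitRel G Ω)) := Fintype.ofFinite _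
  have h := sum_card_fixedBy_eq_card_orbits_mul_card_group G Ω
  rw [Nat.card_eq_fintype_card (α := G)]
  have h2 : Nat.card (orbitRel.Quotient G Ω) = Fintype.card (Quotient (orbitRel G Ω)) :=
    Nat.card_eq_fintype_card
  rw [h2, ← h]
  exact Finset.sum_congr rfl fun g _ => Nat.card_eq_fintype_card

theorem sum_sub [Fintype G] (D : Subgroup G) [DecidablePred (· ∈ D)] [Fintype D] (f : G → ℕ) :
    ∑ d : D, f d = ∑ g ∈ Finset.univ.filter (· ∈ D), f g :=
  (Finset.sum_subtype (Finset.univ.filter (· ∈ D)) (by simp) f).symm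

theorem sum_split [Fintype G] (D : Subgroup G) [DecidablePred (· ∈ D)] [Fintype D] (f : G → ℕ) :
    ∑ g : G, f g = ∑ d : D, f d + ∑ g ∈ Finset.univ.filter (¬ · ∈ D), f g := by
  rw [sum_sub, Finset.sum_filter_add_sum_filter_not]

theorem card_filter_not [Fintype G] (D : Subgroup G) [DecidablePred (· ∈ D)] [Fintype D] :
    Nat.card D + (Finset.univ.filter (¬ · ∈ D) : Finset G).card = Nat.card G := by
  have h := sum_split D (fun _ => 1)
  simp only [Finset.sum_const, smul_eq_mul, mul_one, Finset.card_univ] at h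
  rw [Nat.card_eq_fintype_card, Nat.card_eq_fintype_card]
  exact h.symm

theorem card_orbits_eq_one_iff (H X : Type*) [Group H] [MulAction H X] [Nonempty X] :
    Nat.card (orbitRel.Quotient H X) = 1 ↔ IsPretransitive H X := by
  rw [pretransitive_iff_unique_quotient_of_nonempty, Nat.card_eq_one_iff_unique]
  constructor
  · rintro ⟨h1, h2⟩
    exact ⟨@Unique.mk' _ ⟨h2.some⟩ h1⟩
  · rintro ⟨h⟩
    exact ⟨inferInstance, ⟨h.default⟩⟩

theorem key [Finite G] [Finite Ω] [Nonempty Ω] [IsPretransitive G Ω] {D : Subgroup G}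
    (hD : ∀ g : G, g ∉ D → ∃ ω : Ω, g • ω = ω) :
    IsPretransitive D Ω ∧ ∀ g : G, g ∉ D → Nat.card (fixedBy Ω g) = 1 := by
  classical
  haveI := Fintype.ofFinite G
  have h1 := burnside G Ω
  have h2 := burnside D Ω
  have h3 := (card_orbits_eq_one_iff G Ω).mpr inferInstance
  rw [h3, one_mul, sum_split D (fun g => Nat.card (fixedBy Ω g))] at h1
  have h2' : ∑ d : D, Nat.card (fixedBy Ω (d : G)) = Nat.card (orbitRel.Quotient D Ω) * Nat.card D := h2
  rw [h2'] at h1
  have h4 := card_filter_not D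
  have hge : ∀ g ∈ (Finset.univ.filter (¬ · ∈ D) : Finset G), 1 ≤ Nat.card (fixedBy Ω g) := by
    intro g hg
    obtain ⟨ω, hω⟩ := hD g (Finset.mem_filter.mp hg).2
    haveI : Nonempty (fixedBy Ω g) := ⟨⟨ω, hω⟩⟩
    exact Nat.card_pos
  have h5 : (Finset.univ.filter (¬ · ∈ D) : Finset G).card ≤
      ∑ g ∈ Finset.univ.filter (¬ · ∈ D), Nat.card (fixedBy Ω g) := by
    have := Finset.sum_le_sum hge
    simpa using this
  haveI : Nonempty (orbitRel.Quotient D Ω) := ⟨Quotient.mk'' (Classical.arbitrary Ω)⟩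
  have h6 : 1 ≤ Nat.card (orbitRel.Quotient D Ω) := Nat.card_pos
  have hDpos : 0 < Nat.card D := Nat.card_pos
  have h7 : Nat.card (orbitRel.Quotient D Ω) = 1 := by
    have : Nat.card D ≤ Nat.card (orbitRel.Quotient D Ω) * Nat.card D := Nat.le_mul_of_pos_left _ h6
    have h8 : Nat.card (orbitRel.Quotient D Ω) * Nat.card D = 1 * Nat.card D := by omega
    exact Nat.eq_of_mul_eq_mul_right hDpos h8
  refine ⟨(card_orbits_eq_one_iff D Ω).mp h7, ?_⟩
  rw [h7, one_mul] at h1
  have h8 : ∑ g ∈ (Finset.univ.filter (¬ · ∈ D) : Finset G), 1 =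
      ∑ g ∈ Finset.univ.filter (¬ · ∈ D), Nat.card (fixedBy Ω g) := by
    rw [Finset.sum_const, smul_eq_mul, mul_one]; omega
  have h9 := (Finset.sum_eq_sum_iff_of_le hge).mp h8
  intro g hg
  exact (h9 g (Finset.mem_filter.mpr ⟨Finset.mem_univ _, hg⟩)).symm

theorem card_fixedBy_prod (g : G) : Nat.card (fixedBy (Ω × Ω) g) = Nat.card (fixedBy Ω g) ^ 2 := by
  rw [pow_two, ← Nat.card_prod]
  refine Nat.card_congr
    { toFun := fun x => (⟨x.1.1, congrArg Prod.fst x.2⟩, ⟨x.1.2, congrArg Prod.snd x.2⟩)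
      invFun := fun x => ⟨(x.1.1, x.2.1), Prod.ext x.1.2 x.2.2⟩
      left_inv := fun x => rfl
      right_inv := fun x => rfl }

theorem rank_formula [Finite G] [Finite Ω] {D : Subgroup G}
    (hD : ∀ g : G, g ∉ D → Nat.card (fixedBy Ω g) = 1) :
    Nat.card (orbitRel.Quotient D (Ω × Ω)) - 1 =
      (Nat.card (orbitRel.Quotient G (Ω × Ω)) - 1) * D.index := by
  classical
  haveI := Fintype.ofFinite G
  have h1 := burnside G (Ω × Ω)
  have h2 := burnside D (Ω × Ω)
  rw [sum_split D (fun g => Nat.card (fixedBy (Ω × Ω) g))] at h1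
  have h2' : ∑ d : D, Nat.card (fixedBy (Ω × Ω) (d : G)) =
      Nat.card (orbitRel.Quotient D (Ω × Ω)) * Nat.card D := h2
  rw [h2'] at h1
  have h3 : ∑ g ∈ Finset.univ.filter (¬ · ∈ D), Nat.card (fixedBy (Ω × Ω) g) =
      (Finset.univ.filter (¬ · ∈ D) : Finset G).card := by
    rw [Finset.card_eq_sum_ones]
    apply Finset.sum_congr rfl
    intro g hg
    rw [card_fixedBy_prod, hD g (Finset.mem_filter.mp hg).2, one_pow]
  have h4 := card_filter_not D
  have h5 := D.card_mul_index
  rw [h3] at h1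
  have hDpos : 0 < Nat.card D := Nat.card_pos
  apply Nat.eq_of_mul_eq_mul_left hDpos
  have e1 : Nat.card D * (Nat.card (orbitRel.Quotient D (Ω × Ω)) - 1) =
      Nat.card (orbitRel.Quotient D (Ω × Ω)) * Nat.card D - Nat.card D := by
    rw [Nat.mul_sub, mul_one, mul_comm]
  have e2 : Nat.card D * ((Nat.card (orbitRel.Quotient G (Ω × Ω)) - 1) * D.index) =
      Nat.card (orbitRel.Quotient G (Ω × Ω)) * Nat.card G - Nat.card G := by
    rw [mul_comm (Nat.card (orbitRel.Quotient G (Ω × Ω)) - 1), ← mul_assoc, h5, Nat.mul_sub, mul_one,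
      mul_comm]
  rw [e1, e2]
  omega

/-- a group fixing a point `o` all of whose two-point stabilisers lie in `N` -/
theorem dvd_of_stab [Finite G] [Finite Ω] {N : Subgroup G} {o : Ω} (ho : ∀ g : G, g • o = o)
    (hN : ∀ β : Ω, β ≠ o → stabilizer G β ≤ N) : N.index ∣ Nat.card Ω - 1 := by
  classical
  haveI := Fintype.ofFinite Ω
  haveI : Fintype (orbitRel.Quotient G Ω) := Fintype.ofFinite _
  have h1 := Nat.card_congr (selfEquivSigmaOrbitsQuotientStabilizer G Ω)
  rw [Nat.card_sigma] at h1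
  have hq : (Quotient.mk'' o : orbitRel.Quotient G Ω).out = o := by
    have h2 : (orbitRel G Ω) (Quotient.mk'' o : orbitRel.Quotient G Ω).out o := Quotient.mk_out o
    obtain ⟨g, hg⟩ := h2
    rw [← hg]
    exact ho g
  rw [← Finset.add_sum_erase _ _ (Finset.mem_univ (Quotient.mk'' o : orbitRel.Quotient G Ω))] at h1
  have h3 : Nat.card (G ⧸ stabilizer G (Quotient.mk'' o : orbitRel.Quotient G Ω).out) = 1 := by
    rw [hq]
    have : stabilizer G o = ⊤ := by
      rw [Subgroup.eq_top_iff']; exact ho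
    rw [this]
    exact Subgroup.index_top
  rw [h3] at h1
  rw [h1, Nat.add_sub_cancel_left]
  apply Finset.dvd_sum
  intro q hq'
  have hne : q.out ≠ o := by
    intro e
    apply (Finset.mem_erase.mp hq').1
    rw [← e]
    exact (Quotient.out_eq' q).symm
  exact Subgroup.index_dvd_of_le (hN _ hne)

/-- if every element outside `D` has at most one fixed point and `G = D G_ω` then `|G : D|` divides
`n - 1` -/
theorem index_dvd [Finite G] [Finite Ω] {D : Subgroup G} [D.Normal] {ω : Ω}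
    (hD : ∀ g : G, g ∉ D → ∀ b c : Ω, g • b = b → g • c = c → b = c)
    (hG : ∀ g : G, ∃ d ∈ D, (d * g) • ω = ω) : D.index ∣ Nat.card Ω - 1 := by
  have h1 : (D.subgroupOf (stabilizer G ω)).index ∣ Nat.card Ω - 1 := by
    apply dvd_of_stab (G := stabilizer G ω) (Ω := Ω) (o := ω) (fun g => g.2)
    intro β hβ g hg
    by_contra hc
    exact hβ (hD g hc β ω hg g.2)
  have h3 : stabilizer G ω ⊔ D = ⊤ := by
    rw [Subgroup.eq_top_iff']
    intro g
    obtain ⟨d, hd, e⟩ := hG g
    have : g = d⁻¹ * (d * g) := by group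
    rw [this]
    exact Subgroup.mul_mem _ ((le_sup_right : D ≤ _) (D.inv_mem hd))
      ((le_sup_left : stabilizer G ω ≤ stabilizer G ω ⊔ D) e)
  have h2 : (D.subgroupOf (stabilizer G ω)).index = D.index := by
    have h4 := Subgroup.relIndex_sup_right (H := stabilizer G ω) (K := D)
    rw [h3, Subgroup.relIndex_top_right] at h4
    exact h4.symm
  rwa [h2] at h1

theorem fixedBy_le_one {g : G} [Finite Ω] (h : Nat.card (fixedBy Ω g) = 1) {b c : Ω} (hb : g • b = b)
    (hc : g • c = c) : b = c := by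
  haveI := (Nat.card_eq_one_iff_unique.mp h).1
  exact congrArg Subtype.val (Subsingleton.elim (⟨b, hb⟩ : fixedBy Ω g) ⟨c, hc⟩)

/-- the derangement subgroup -/
def DS (G Ω : Type*) [Group G] [MulAction G Ω] : Subgroup G :=
  Subgroup.closure {g : G | ∀ ω : Ω, g • ω ≠ ω}

instance DS_normal : (DS G Ω).Normal := by
  rw [← Subgroup.normalizer_eq_top_iff, eq_top_iff]
  refine Subgroup.le_normalizer_closure_iff.mpr ?_
  intro h _ g hg
  apply Subgroup.subset_closure
  intro ω e
  apply hg (h⁻¹ • ω)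
  rw [mul_smul, mul_smul] at e
  rw [eq_inv_smul_iff, e]

theorem not_mem_DS {g : G} (hg : g ∉ DS G Ω) : ∃ ω : Ω, g • ω = ω := by
  by_contra hc
  push Not at hc
  exact hg (Subgroup.subset_closure hc)

theorem DS_key [Finite G] [Finite Ω] [Nonempty Ω] [IsPretransitive G Ω] :
    IsPretransitive (DS G Ω) Ω ∧ ∀ g : G, g ∉ DS G Ω → Nat.card (fixedBy Ω g) = 1 :=
  key fun _ hg => not_mem_DS hg

theorem exists_D [Finite G] [Finite Ω] [Nonempty Ω] [IsPretransitive G Ω] (b c : Ω) :
    ∃ d ∈ DS G Ω, d • b = c := by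
  haveI := (DS_key (G := G) (Ω := Ω)).1
  obtain ⟨d, hd⟩ := MulAction.exists_smul_eq (DS G Ω) b c
  exact ⟨d, d.2, hd⟩

theorem DS_dvd [Finite G] [Finite Ω] [Nonempty Ω] [IsPretransitive G Ω] :
    (DS G Ω).index ∣ Nat.card Ω - 1 := by
  obtain ⟨ω⟩ := (inferInstance : Nonempty Ω)
  apply index_dvd (ω := ω)
  · intro g hg b c hb hc
    exact fixedBy_le_one (DS_key.2 g hg) hb hc
  · intro g
    obtain ⟨d, hd, e⟩ := exists_D (G := G) (g • ω) ω
    exact ⟨d, hd, by rw [mul_smul, e]⟩

/-- the sharply 2-transitive case -/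
theorem primePow_of_index_eq [Finite G] [Finite Ω] [FaithfulSMul G Ω] [IsPretransitive G Ω]
    (h2 : 2 ≤ Nat.card Ω) (hidx : (DS G Ω).index = Nat.card Ω - 1) : IsPrimePow (Nat.card Ω) := by
  classical
  haveI : Nonempty Ω := by
    by_contra hc
    rw [not_nonempty_iff] at hc
    rw [Nat.card_of_isEmpty] at h2
    omega
  obtain ⟨ω⟩ := (inferInstance : Nonempty Ω)
  set D := DS G Ω with hDdef
  set K := stabilizer G ω with hK
  -- `|K : K ∩ D| = n - 1`
  have hsup : K ⊔ D = ⊤ := by
    rw [Subgroup.eq_top_iff']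
    intro g
    obtain ⟨d, hd, e⟩ := exists_D (G := G) (g • ω) ω
    have : g = d⁻¹ * (d * g) := by group
    rw [this]
    refine Subgroup.mul_mem _ ((le_sup_right : D ≤ _) (D.inv_mem hd)) ((le_sup_left : K ≤ K ⊔ D) ?_)
    show (d * g) • ω = ω
    rw [mul_smul, e]
  have hrel : D.relIndex K = Nat.card Ω - 1 := by
    have h4 := Subgroup.relIndex_sup_right (H := K) (K := D)
    rw [hsup, Subgroup.relIndex_top_right] at h4
    rw [← h4, hidx]
  -- orbits of `K` off `ω`
  have horb : ∀ β : Ω, β ≠ ω → stabilizer G β ⊓ K ≤ D := by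
    intro β hβ g hg
    by_contra hc
    exact hβ (fixedBy_le_one (DS_key.2 g hc) hg.1 hg.2)
  have horb2 : ∀ β : Ω, β ≠ ω → D ⊓ K ≤ stabilizer G β ∧ ∀ γ : Ω, γ ≠ ω → ∃ k ∈ K, k • β = γ := by
    intro β hβ
    have h3 : (stabilizer K β).index = (orbit K β).ncard := index_stabilizer K β
    have h4 : orbit K β ⊆ {γ : Ω | γ ≠ ω} := by
      rintro _ ⟨k, rfl⟩ e
      apply hβ
      have h5 : (k : G) • β = ω := e
      have h6 : (k : G) • ω = ω := k.2
      exact smul_left_cancel (k : G) (h5.trans h6.symm)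
    have h5 : ({γ : Ω | γ ≠ ω}).ncard = Nat.card Ω - 1 := by
      have h6 := Set.ncard_add_ncard_compl ({ω} : Set Ω)
      rw [Set.ncard_singleton] at h6
      have h7 : ({γ : Ω | γ ≠ ω}) = ({ω} : Set Ω)ᶜ := by ext γ; simp
      rw [h7]; omega
    have h6 : stabilizer K β ≤ D.subgroupOf K := by
      intro k hk
      exact horb β hβ ⟨hk, k.2⟩
    have h7 : (D.subgroupOf K).index ∣ (stabilizer K β).index := Subgroup.index_dvd_of_le h6
    have h8 : (orbit K β).ncard ≤ Nat.card Ω - 1 := by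
      rw [← h5]; exact Set.ncard_le_ncard h4
    have h9 : (D.subgroupOf K).index = Nat.card Ω - 1 := hrel
    have h10 : 0 < (stabilizer K β).index := Nat.pos_of_ne_zero Subgroup.FiniteIndex.index_ne_zero
    have h11 : (stabilizer K β).index = Nat.card Ω - 1 := by
      apply le_antisymm
      · rw [h3]; exact h8
      · rw [← h9]; exact Nat.le_of_dvd h10 h7
    constructor
    · intro g hg
      have h12 : stabilizer K β = D.subgroupOf K := by
        apply Subgroup.eq_of_le_of_card_ge h6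
        have e1 := (stabilizer K β).card_mul_index
        have e2 := (D.subgroupOf K).card_mul_index
        rw [h11] at e1
        rw [h9] at e2
        have e3 : 0 < Nat.card Ω - 1 := by omega
        exact le_of_eq (Nat.eq_of_mul_eq_mul_right e3 (e2.trans e1.symm))
      have h13 : (⟨g, hg.2⟩ : K) ∈ stabilizer K β := by
        rw [h12]; exact hg.1
      exact h13
    · have h12 : orbit K β = {γ : Ω | γ ≠ ω} := by
        apply Set.eq_of_subset_of_ncard_le h4
        rw [h5, ← h3, h11]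
      intro γ hγ
      have h13 : γ ∈ orbit K β := by rw [h12]; exact hγ
      obtain ⟨k, hk⟩ := h13
      exact ⟨k, k.2, hk⟩
  -- `D` is regular
  have hreg : ∀ d ∈ D, d • ω = ω → d = 1 := by
    intro d hd hdω
    apply FaithfulSMul.eq_of_smul_eq_smul (α := Ω)
    intro β
    rw [one_smul]
    by_cases hβ : β = ω
    · rw [hβ]; exact hdω
    · exact (horb2 β hβ).1 ⟨hd, hdω⟩
  have hcard : Nat.card D = Nat.card Ω := by
    refine Nat.card_congr (Equiv.ofBijective (fun d : D => (d : G) • ω) ⟨?_, ?_⟩)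
    · intro d d' e
      have e1 : ((d' : G)⁻¹ * d) • ω = ω := by
        rw [mul_smul, inv_smul_eq_iff]; exact e
      have e2 := hreg _ (D.mul_mem (D.inv_mem d'.2) d.2) e1
      exact Subtype.ext (inv_mul_eq_one.mp e2).symm
    · intro β
      obtain ⟨d, hd, e⟩ := exists_D (G := G) ω β
      exact ⟨⟨d, hd⟩, e⟩
  rw [← hcard] at h2 ⊢
  -- all nonidentity elements of `D` are conjugate
  have hconj : ∀ d ∈ D, d ≠ 1 → ∀ d' ∈ D, d' ≠ 1 → ∃ g : G, g * d * g⁻¹ = d' := by
    intro d hd hd1 d' hd' hd1'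
    have e1 : d • ω ≠ ω := fun e => hd1 (hreg d hd e)
    have e2 : d' • ω ≠ ω := fun e => hd1' (hreg d' hd' e)
    obtain ⟨k, hk, e⟩ := (horb2 _ e1).2 _ e2
    refine ⟨k, ?_⟩
    have hkω : k⁻¹ • ω = ω := by rw [inv_smul_eq_iff]; exact hk.symm
    have e3 : (d'⁻¹ * (k * d * k⁻¹)) • ω = ω := by
      rw [mul_smul, mul_smul, mul_smul, hkω, e, inv_smul_smul]
    have hDn : D.Normal := DS_normal
    have e4 := hreg _ (D.mul_mem (D.inv_mem hd') (hDn.conj_mem d hd k)) e3
    exact (inv_mul_eq_one.mp e4).symm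
  obtain ⟨p, hp, hpd⟩ := Nat.exists_prime_and_dvd (show Nat.card D ≠ 1 by omega)
  haveI : Fact p.Prime := ⟨hp⟩
  obtain ⟨x, hx⟩ := exists_prime_orderOf_dvd_card' (G := D) p hpd
  have hx' : orderOf (x : G) = p := by rw [Subgroup.orderOf_coe, hx]
  have hx1 : (x : G) ≠ 1 := by
    intro e
    rw [e, orderOf_one] at hx'
    exact hp.one_lt.ne hx'
  have hpg : IsPGroup p D := by
    intro d
    refine ⟨1, ?_⟩
    rw [pow_one]
    by_cases hd : (d : G) = 1
    · apply Subtype.ext
      show (d : G) ^ p = 1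
      rw [hd, one_pow]
    · obtain ⟨g, hg⟩ := hconj x x.2 hx1 d d.2 hd
      apply Subtype.ext
      show (d : G) ^ p = 1
      rw [← hg, conj_pow, ← hx', pow_orderOf_eq_one]
      group
  obtain ⟨n, hn⟩ := (IsPGroup.iff_card).mp hpg
  rw [hn]
  have hn0 : n ≠ 0 := by
    rintro rfl
    rw [hn, pow_zero] at h2
    omega
  exact hp.isPrimePow.pow hn0

/-- S3549 -/
theorem imprimitive_dvd [Finite G] [Finite Ω] [Nontrivial Ω] [IsPretransitive G Ω]
    (himp : ¬ IsPreprimitive G Ω) : ∃ b m : ℕ, 1 < b ∧ 1 < m ∧ b * m = Nat.card Ω ∧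
      (DS G Ω).index ∣ b - 1 ∧ (DS G Ω).index ∣ m - 1 := by
  classical
  obtain ⟨ω⟩ := (inferInstance : Nonempty Ω)
  rw [← isCoatom_stabilizer_iff_preprimitive G ω] at himp
  have htop : stabilizer G ω ≠ ⊤ := by
    intro e
    obtain ⟨β, hβ⟩ := exists_ne ω
    obtain ⟨g, hg⟩ := MulAction.exists_smul_eq G ω β
    have : g ∈ stabilizer G ω := by rw [e]; exact Subgroup.mem_top g
    exact hβ (hg.symm.trans this)
  have hex : ∃ H : Subgroup G, stabilizer G ω < H ∧ H ≠ ⊤ := by
    by_contra hc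
    push Not at hc
    exact himp ⟨htop, fun H hH => hc H hH⟩
  obtain ⟨H, hlt, hne⟩ := hex
  have hle := hlt.le
  have hΩ : Nat.card Ω = (stabilizer G ω).index := by
    rw [index_stabilizer, orbit_eq_univ, Set.ncard_univ]
  have hm : 1 < H.index := Subgroup.one_lt_index_of_ne_top hne
  have hb : 1 < (stabilizer G ω).relIndex H := by
    have h1 : (stabilizer G ω).relIndex H ≠ 1 := by
      intro e
      rw [Subgroup.relIndex_eq_one] at e
      exact absurd e (not_le_of_gt hlt)
    have h2 : (stabilizer G ω).relIndex H ≠ 0 :=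
      Subgroup.FiniteIndex.index_ne_zero (H := (stabilizer G ω).subgroupOf H)
    omega
  refine ⟨(stabilizer G ω).relIndex H, H.index, hb, hm, ?_, ?_, ?_⟩
  · rw [hΩ]; exact Subgroup.relIndex_mul_index hle
  · -- the action of `H` on `H / G_ω`
    have h1 : ((DS G Ω).subgroupOf H).index ∣ Nat.card (H ⧸ (stabilizer G ω).subgroupOf H) - 1 := by
      apply index_dvd (ω := ((1 : H) : H ⧸ (stabilizer G ω).subgroupOf H))
      · intro h hh b c
        induction b using QuotientGroup.induction_on with | _ x => ?_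
        induction c using QuotientGroup.induction_on with | _ y => ?_
        intro e1 e2
        have f : ∀ x : H, h • (x : H ⧸ (stabilizer G ω).subgroupOf H) = x →
            (h : G) • ((x : G) • ω) = (x : G) • ω := by
          intro x e
          have e3 : ((h * x : H) : H ⧸ (stabilizer G ω).subgroupOf H) = x := e
          rw [eq_comm, QuotientGroup.eq] at e3
          have e4 : ((x : G)⁻¹ * ((h : G) * x)) • ω = ω := e3
          rw [mul_smul, inv_smul_eq_iff, mul_smul] at e4
          exact e4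
        have e5 := fixedBy_le_one (DS_key.2 (h : G) hh) (f x e1) (f y e2)
        rw [QuotientGroup.eq]
        show ((x : G)⁻¹ * y) • ω = ω
        rw [mul_smul, inv_smul_eq_iff, e5]
      · intro h
        obtain ⟨d, hd, e⟩ := exists_D (G := G) ((h : G) • ω) ω
        have h2 : d * h ∈ H := hle (by show (d * (h : G)) • ω = ω; rw [mul_smul, e])
        have h3 : d ∈ H := by
          have : d = d * h * (h : G)⁻¹ := by group
          rw [this]; exact H.mul_mem h2 (H.inv_mem h.2)
        refine ⟨⟨d, h3⟩, hd, ?_⟩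
        show (((⟨d, h3⟩ * h) * 1 : H) : H ⧸ (stabilizer G ω).subgroupOf H) = ((1 : H) : _)
        rw [eq_comm, QuotientGroup.eq]
        show ((1 : G)⁻¹ * ((d * h) * 1)) • ω = ω
        rw [mul_one, inv_one, one_mul, mul_smul, e]
    have h2 : H ⊔ DS G Ω = ⊤ := by
      rw [Subgroup.eq_top_iff']
      intro g
      obtain ⟨d, hd, e⟩ := exists_D (G := G) (g • ω) ω
      have : g = d⁻¹ * (d * g) := by group
      rw [this]
      refine Subgroup.mul_mem _ ((le_sup_right : DS G Ω ≤ _) (Subgroup.inv_mem _ hd))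
        ((le_sup_left : H ≤ H ⊔ DS G Ω) (hle ?_))
      show (d * g) • ω = ω
      rw [mul_smul, e]
    have h3 : ((DS G Ω).subgroupOf H).index = (DS G Ω).index := by
      have h4 := Subgroup.relIndex_sup_right (H := H) (K := DS G Ω)
      rw [h2, Subgroup.relIndex_top_right] at h4
      exact h4.symm
    rw [h3] at h1
    exact h1
  · -- the action of `G` on `G / H`
    have h1 : (DS G (G ⧸ H)).index ∣ Nat.card (G ⧸ H) - 1 := DS_dvd
    have h2 : DS G (G ⧸ H) ≤ DS G Ω := by
      refine (Subgroup.closure_le _).mpr ?_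
      intro g hg
      apply Subgroup.subset_closure
      intro β e
      obtain ⟨x, rfl⟩ := MulAction.exists_smul_eq G ω β
      apply hg ((x : G) : G ⧸ H)
      show ((g * x : G) : G ⧸ H) = x
      rw [eq_comm, QuotientGroup.eq]
      apply hle
      show (x⁻¹ * (g * x)) • ω = ω
      rw [mul_smul, mul_smul, e, inv_smul_smul]
    exact (Subgroup.index_dvd_of_le h2).trans h1

theorem index_le_sqrt {b m c : ℕ} (hb : 1 < b) (hm : 1 < m) (h1 : c ∣ b - 1) (h2 : c ∣ m - 1) :
    (c : ℝ) ≤ Real.sqrt ((b * m : ℕ) : ℝ) - 1 := by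
  have h3 := Nat.le_of_dvd (by omega) h1
  have h4 := Nat.le_of_dvd (by omega) h2
  have h5 : (c : ℝ) + 1 ≤ Real.sqrt ((b * m : ℕ) : ℝ) := by
    apply Real.le_sqrt_of_sq_le
    have h6 : (c + 1) ^ 2 ≤ b * m := by
      rw [pow_two]
      exact Nat.mul_le_mul (by omega) (by omega)
    exact_mod_cast h6
  linarith

end Cfsg.Agent.Lib.Derange
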