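import Mathlib
import Cfsg.Agent.Lib.OmegaFix
import Cfsg.Agent.Lib.PNilp

set_option autoImplicit false

/-! Fusion control of the elements of order dividing `p` (`4` when `p = 2`) forces a normal `p`-complement. -/

namespace Cfsg.Agent.Lib.FusOmega

open Subgroup Cfsg.Agent.Lib.OmegaFix Cfsg.Agent.Lib.PNilp
open scoped commutatorElement Pointwise

theorem key {G : Type*} [Group G] [Finite G] {p : ℕ} [Fact p.Prime] (P : Sylow p G)
    (hf : ∀ a ∈ (P : Subgroup G), (a ^ p = 1 ∨ (p = 2 ∧ a ^ 4 = 1)) → ∀ g : G, g * a * g⁻¹ ∈ (P : Subgroup G) →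
        ∃ x ∈ (P : Subgroup G), g * a * g⁻¹ = x * a * x⁻¹) (i : ℕ) :
    ∀ Q : Subgroup G, Q ≤ (Subgroup.upperCentralSeries (P : Subgroup G) i).map (P : Subgroup G).subtype →
      ∀ g ∈ normalizer (Q : Set G), (orderOf g).Coprime p → g ∈ centralizer (Q : Set G) := by
  induction i with
  | zero =>
    intro Q hQ g _ _
    rw [Subgroup.upperCentralSeries_zero, Subgroup.map_bot, le_bot_iff] at hQ
    rw [hQ, mem_centralizer_iff]
    intro x hx
    rw [show x = 1 from hx]; simp
  | succ i ih =>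
    intro Q hQ g hgN hg
    have hQP : Q ≤ (P : Subgroup G) := hQ.trans (map_subtype_le _)
    have hkN : ∀ k : ℤ, g ^ k ∈ normalizer (Q : Set G) := fun k => zpow_mem hgN k
    let X : Set G := {x | x ∈ Q ∧ (orderOf x = p ∨ (p = 2 ∧ orderOf x = 4))}
    have hXc : ∀ x ∈ X, ∀ k : ℤ, g ^ k * x * (g ^ k)⁻¹ ∈ X := by
      intro x hx k
      refine ⟨(mem_normalizer_iff.1 (hkN k) x).1 hx.1, ?_⟩
      have h1 : orderOf (g ^ k * x * (g ^ k)⁻¹) = orderOf x := (MulAut.conj (g ^ k)).orderOf_eq x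
      rw [h1]; exact hx.2
    have hcl : ∀ x ∈ X, ∀ k : ℤ, ∃ v ∈ (P : Subgroup G), g ^ k * x * (g ^ k)⁻¹ = v * x * v⁻¹ := by
      intro x hx k
      refine hf x (hQP hx.1) ?_ (g ^ k) (hQP (hXc x hx k).1)
      rcases hx.2 with h | ⟨h2, h⟩
      · left; rw [← h]; exact pow_orderOf_eq_one x
      · right; exact ⟨h2, by rw [← h]; exact pow_orderOf_eq_one x⟩
    -- generators of `M`
    let S : Set G := {w | ∃ x ∈ X, ∃ k : ℤ, w = x⁻¹ * (g ^ k * x * (g ^ k)⁻¹)}
    set M := closure S with hM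
    have hMZ : M ≤ (Subgroup.upperCentralSeries (P : Subgroup G) i).map (P : Subgroup G).subtype := by
      rw [hM, closure_le]
      rintro w ⟨x, hx, k, rfl⟩
      obtain ⟨v, hv, h1⟩ := hcl x hx k
      rw [h1]
      obtain ⟨y, hy, hyx⟩ := hQ hx.1
      have hyx' : (y : G) = x := hyx
      rw [SetLike.mem_coe, Subgroup.mem_upperCentralSeries_succ_iff] at hy
      have e1 := hy ⟨v, hv⟩
      have e3 : y⁻¹ * (⁅y, (⟨v, hv⟩ : (P : Subgroup G))⁆)⁻¹ * y⁻¹⁻¹ ∈ Subgroup.upperCentralSeries (P : Subgroup G) i :=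
        (inferInstance : (Subgroup.upperCentralSeries (P : Subgroup G) i).Normal).conj_mem _
          (inv_mem e1) y⁻¹
      refine ⟨_, e3, ?_⟩
      rw [← hyx']
      change (y : G)⁻¹ * (y * v * (y : G)⁻¹ * v⁻¹)⁻¹ * (y : G)⁻¹⁻¹ = _
      group
    have hMP : M ≤ (P : Subgroup G) := hMZ.trans (map_subtype_le _)
    have hgS : ∀ k : ℤ, ∀ w ∈ M, g ^ k * w * (g ^ k)⁻¹ ∈ M := by
      intro k
      have h0 : M ≤ M.comap (MulAut.conj (g ^ k)).toMonoidHom := by
        conv_lhs => rw [hM]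
        rw [closure_le]
        rintro w ⟨x, hx, l, rfl⟩
        refine subset_closure ⟨g ^ k * x * (g ^ k)⁻¹, hXc x hx k, l, ?_⟩
        change g ^ k * (x⁻¹ * (g ^ l * x * (g ^ l)⁻¹)) * (g ^ k)⁻¹ = _
        have hc : g ^ l * g ^ k = g ^ k * g ^ l := by rw [← zpow_add, ← zpow_add, add_comm]
        calc g ^ k * (x⁻¹ * (g ^ l * x * (g ^ l)⁻¹)) * (g ^ k)⁻¹
            = (g ^ k * x * (g ^ k)⁻¹)⁻¹ * ((g ^ k * g ^ l) * x * (g ^ k * g ^ l)⁻¹) := by group
          _ = (g ^ k * x * (g ^ k)⁻¹)⁻¹ * ((g ^ l * g ^ k) * x * (g ^ l * g ^ k)⁻¹) := by rw [hc]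
          _ = _ := by group
      intro w hw
      exact h0 hw
    have hgM : g ∈ normalizer (M : Set G) := by
      rw [mem_normalizer_iff]
      intro w
      constructor
      · intro hw
        have := hgS 1 w hw
        simpa using this
      · intro hw
        have := hgS (-1) _ hw
        have e : g ^ (-1 : ℤ) * (g * w * g⁻¹) * (g ^ (-1 : ℤ))⁻¹ = w := by
          rw [zpow_neg_one]; group
        rwa [e] at this
    have hgcM := ih M hMZ g hgM hg
    have hfix : ∀ x ∈ X, g * x = x * g := by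
      intro x hx
      set m := (x : G)⁻¹ * (g * x * g⁻¹) with hm
      have hmM : m ∈ M := subset_closure ⟨x, hx, 1, by rw [hm, zpow_one]⟩
      have hgm : Commute g m := (mem_centralizer_iff.1 hgcM m hmM).symm
      have hpow : ∀ n : ℕ, g ^ n * x * (g ^ n)⁻¹ = x * m ^ n := by
        intro n
        induction n with
        | zero => simp
        | succ n ihn =>
          have h1 : g * m ^ n = m ^ n * g := (hgm.pow_right n)
          calc g ^ (n + 1) * x * (g ^ (n + 1))⁻¹ = g * (g ^ n * x * (g ^ n)⁻¹) * g⁻¹ := by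
                rw [pow_succ']; group
            _ = g * x * m ^ n * g⁻¹ := by rw [ihn]; group
            _ = g * x * (g⁻¹ * (g * m ^ n)) * g⁻¹ := by group
            _ = g * x * (g⁻¹ * (m ^ n * g)) * g⁻¹ := by rw [h1]
            _ = (g * x * g⁻¹) * m ^ n := by group
            _ = x * m * m ^ n := by rw [hm]; group
            _ = x * m ^ (n + 1) := by rw [pow_succ']; group
      have h1 := hpow (orderOf g)
      rw [pow_orderOf_eq_one, one_mul, inv_one, mul_one] at h1
      have h2 : m ^ orderOf g = 1 := by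
        have : (x : G) * 1 = x * m ^ orderOf g := by rw [mul_one]; exact h1
        exact (mul_left_cancel this).symm
      obtain ⟨k, hk⟩ := IsPGroup.iff_orderOf.1 (P.2.to_le hMP) ⟨m, hmM⟩
      rw [Subgroup.orderOf_mk] at hk
      have h3 : orderOf m = 1 := by
        have h4 : orderOf m ∣ orderOf g := orderOf_dvd_of_pow_eq_one h2
        have h5 : (orderOf g).Coprime (p ^ k) := Nat.Coprime.pow_right k hg
        exact Nat.eq_one_of_dvd_coprimes h5 h4 (hk ▸ dvd_refl _)
      rw [orderOf_eq_one_iff, hm, inv_mul_eq_one] at h3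
      rw [mul_inv_eq_iff_eq_mul.1 h3.symm]
    have h1 : zpowers g ≤ centralizer (Q : Set G) := by
      refine omega_fix (p := p) (by rwa [Nat.card_zpowers]) (P.2.to_le hQP) (by rwa [zpowers_le]) ?_
      intro x hx hxX a ha
      have h2 := hfix x ⟨hx, hxX⟩
      obtain ⟨k, rfl⟩ := mem_zpowers_iff.1 ha
      exact ((show Commute g x from h2).zpow_left k)
    exact h1 (mem_zpowers g)

end Cfsg.Agent.Lib.FusOmega
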