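import Cfsg.Agent.Lib.Subnorm
import Mathlib

/-! the affine semilinear group of the field with nine elements (helper3) -/

set_option autoImplicit false

namespace Cfsg.Agent.Lib.H3AGL

open Cfsg Subgroup Cfsg.Agent.Lib
open scoped Pointwise

abbrev K9 := GaloisField 3 2
abbrev Au := K9 ≃ₐ[ZMod 3] K9

theorem card_au : Nat.card Au = 2 := by
  rw [IsGalois.card_aut_eq_finrank, GaloisField.finrank 3 (by norm_num)]

theorem exists_au : ∃ s : Au, s ≠ 1 := by
  have h : 1 < Nat.card Au := by rw [card_au]; norm_num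
  haveI : Nontrivial Au := Finite.one_lt_card_iff_nontrivial.1 h
  exact exists_ne 1

theorem au_eq {s t : Au} (hs : s ≠ 1) (ht : t ≠ 1) : t = s := by
  obtain ⟨x, y, hxy, hu⟩ := Nat.card_eq_two_iff.1 card_au
  have h : ∀ z : Au, z = x ∨ z = y := fun z => by
    have : z ∈ ({x, y} : Set Au) := by rw [hu]; trivial
    simpa using this
  rcases h s with h1 | h1 <;> rcases h t with h2 | h2 <;> rcases h 1 with h3 | h3 <;>
    first | (exact absurd (h1.trans h3.symm) hs) | (exact absurd (h2.trans h3.symm) ht) | (exact h2.trans h1.symm)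

theorem au_sq (s : Au) (x : K9) : s (s x) = x := by
  have h : s ^ Nat.card Au = 1 := pow_card_eq_one'
  rw [card_au] at h
  have h2 := congrArg (fun f : Au => f x) h
  rw [pow_two] at h2
  exact h2

/-- semilinear maps -/
def Hs : Subgroup (MulAut (Multiplicative K9)) where
  carrier := {f | ∃ (u : K9ˣ) (s : Au), ∀ x : K9, f (Multiplicative.ofAdd x) = Multiplicative.ofAdd ((u : K9) * s x)}
  mul_mem' := by
    rintro f f' ⟨u, s, h⟩ ⟨u', s', h'⟩
    refine ⟨u * Units.map (s : K9 →* K9) u', s * s', fun x => ?_⟩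
    rw [MulAut.mul_apply, h', h]
    congr 1
    rw [map_mul]
    simp [mul_assoc]
  one_mem' := ⟨1, 1, fun x => by simp⟩
  inv_mem' := by
    rintro f ⟨u, s, h⟩
    refine ⟨Units.map (s⁻¹ : Au) (u⁻¹), s⁻¹, fun x => ?_⟩
    apply f.injective
    rw [MulAut.apply_inv_self, h]
    congr 1
    rw [map_mul]
    have e1 : s ((s⁻¹ : Au) x) = x := s.apply_symm_apply x
    have e2 : s (((Units.map ((s⁻¹ : Au) : K9 →* K9) u⁻¹ : K9ˣ) : K9)) = ((u⁻¹ : K9ˣ) : K9) := s.apply_symm_apply _
    rw [e1]
    have e3 := e2
    rw [show s (((Units.map ((s⁻¹ : Au) : K9 →* K9) u⁻¹ : K9ˣ) : K9)) = ((u⁻¹ : K9ˣ) : K9) from e2, ← mul_assoc, Units.mul_inv, one_mul]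

/-- the additive map -/
noncomputable def elA (u : K9ˣ) (s : Au) : K9 ≃+ K9 where
  toFun x := u * s x
  invFun y := s.symm ((u⁻¹ : K9ˣ) * y)
  left_inv x := by simp
  right_inv y := by simp
  map_add' x y := by rw [map_add, mul_add]

/-- the element of `Hs` -/
noncomputable def el (u : K9ˣ) (s : Au) : Hs :=
  ⟨AddEquiv.toMultiplicative (elA u s), ⟨u, s, fun x => rfl⟩⟩

theorem el_apply (u : K9ˣ) (s : Au) (x : K9) :
    (el u s : MulAut (Multiplicative K9)) (Multiplicative.ofAdd x) = Multiplicative.ofAdd ((u : K9) * s x) := rfl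

theorem exists_el (f : Hs) : ∃ u s, f = el u s := by
  obtain ⟨f, u, s, h⟩ := f
  refine ⟨u, s, ?_⟩
  exact Subtype.ext (MulEquiv.ext fun x => h x)

theorem el_one : el 1 1 = 1 := by
  apply Subtype.ext
  apply MulEquiv.ext
  intro x
  change Multiplicative.ofAdd (((1 : K9ˣ) : K9) * (1 : Au) (Multiplicative.toAdd x)) = x
  simp

theorem hs_ext {f g : Hs} (h : ∀ x : K9, (f : MulAut (Multiplicative K9)) (Multiplicative.ofAdd x) =
    (g : MulAut (Multiplicative K9)) (Multiplicative.ofAdd x)) : f = g := by
  exact Subtype.ext (MulEquiv.ext fun x => h x)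

theorem el_sq (u : K9ˣ) (s : Au) : ∃ w : K9ˣ, el u s * el u s = el w 1 := by
  refine ⟨u * Units.map (s : K9 →* K9) u, hs_ext fun x => ?_⟩
  change Multiplicative.ofAdd ((u : K9) * s ((u : K9) * s x)) =
    Multiplicative.ofAdd (((u * Units.map (s : K9 →* K9) u : K9ˣ) : K9) * x)
  congr 1
  rw [map_mul, au_sq]
  simp [mul_assoc]

theorem el_pow (w : K9ˣ) (n : ℕ) : (el w 1) ^ n = el (w ^ n) 1 := by
  induction n with
  | zero => rw [pow_zero, pow_zero, el_one]
  | succ n ih =>
    rw [pow_succ, ih]
    apply hs_ext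
    intro x
    change Multiplicative.ofAdd (((w ^ n : K9ˣ) : K9) * ((w : K9) * x)) = Multiplicative.ofAdd (((w ^ (n + 1) : K9ˣ) : K9) * x)
    congr 1
    rw [pow_succ, Units.val_mul, mul_assoc]

theorem hs_pgroup : IsPGroup 2 Hs := by
  intro f
  obtain ⟨u, s, rfl⟩ := exists_el f
  obtain ⟨w, hw⟩ := el_sq u s
  refine ⟨4, ?_⟩
  have h1 : (2 ^ 4 : ℕ) = 2 * 8 := by norm_num
  rw [h1, pow_mul, pow_two, hw, el_pow]
  have h2 : w ^ 8 = 1 := by
    have h3 : Nat.card K9ˣ = 8 := by
      rw [Nat.card_units, GaloisField.card 3 2 (by norm_num)]; norm_num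
    have h4 : w ^ Nat.card K9ˣ = 1 := pow_card_eq_one'
    rwa [h3] at h4
  rw [h2, el_one]

/-- the group -/
abbrev GG := Multiplicative K9 ⋊[Hs.subtype] Hs

instance finite_GG : Finite GG := Finite.of_equiv _ SemidirectProduct.equivProd.symm

theorem solv : Group.IsSolvable GG := by
  haveI : Fact (Nat.Prime 2) := ⟨Nat.prime_two⟩
  have h1 : Group.IsNilpotent Hs := hs_pgroup.isNilpotent
  have h2 : Group.IsSolvable Hs := inferInstance
  have h3 : Group.IsSolvable (Multiplicative K9) := inferInstance
  exact solvable_of_ker_le_range (SemidirectProduct.inl (φ := Hs.subtype)) (SemidirectProduct.rightHom (φ := Hs.subtype))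
    (by rw [SemidirectProduct.range_inl_eq_ker_rightHom])

theorem el_mul (u v : K9ˣ) (s t : Au) : el u s * el v t = el (u * Units.map (s : K9 →* K9) v) (s * t) := by
  apply hs_ext
  intro x
  change Multiplicative.ofAdd ((u : K9) * s ((v : K9) * t x)) =
    Multiplicative.ofAdd (((u * Units.map (s : K9 →* K9) v : K9ˣ) : K9) * s (t x))
  congr 1
  rw [map_mul]
  simp [mul_assoc]

/-- elements of the group -/
noncomputable def mk (v : K9) (h : Hs) : GG := ⟨Multiplicative.ofAdd v, h⟩

theorem mk_surj (c : GG) : ∃ v h, c = mk v h := ⟨Multiplicative.toAdd c.left, c.right, rfl⟩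

theorem mk_mul (v w : K9) (u : K9ˣ) (s : Au) (h : Hs) : mk v (el u s) * mk w h = mk (v + u * s w) (el u s * h) := rfl

theorem mk_inj {v w : K9} {h k : Hs} (h1 : mk v h = mk w k) : v = w :=
  congrArg (fun z : GG => Multiplicative.toAdd z.left) h1

theorem comm_sn {G : Type*} [Group G] [Finite G] {a g : G} (h : Commute a g) :
    ((zpowers a).subgroupOf (zpowers a ⊔ zpowers g)).IsSubnormal := by
  have hle : zpowers a ⊔ zpowers g ≤ centralizer ({a} : Set G) := by
    apply sup_le
    · rw [zpowers_le, mem_centralizer_iff]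
      rintro w rfl
      rfl
    · rw [zpowers_le, mem_centralizer_iff]
      rintro w rfl
      exact h.eq
  have hn : ((zpowers a).subgroupOf (zpowers a ⊔ zpowers g)).Normal := by
    constructor
    intro n hn u
    rw [mem_subgroupOf] at hn ⊢
    obtain ⟨k, hk⟩ := mem_zpowers_iff.1 hn
    have h1 : a * (u : G) = u * a := mem_centralizer_iff.1 (hle u.2) a rfl
    have h2 : Commute a (u : G) := h1
    have h3 : ((u * n * u⁻¹ : _) : G) = n := by
      change (u : G) * n * (u : G)⁻¹ = n
      rw [← hk, ← (h2.zpow_left k).eq, mul_inv_cancel_right]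
    rw [h3]; exact hn
  exact hn.isSubnormal

theorem three_zero (x : K9) : x + x + x = 0 := by
  have h : (3 : K9) = 0 := by
    have := CharP.cast_eq_zero K9 3
    exact_mod_cast this
  linear_combination x * h

theorem conj_of {c d g : GG} (h : g * c = d * g) : IsConj c d := isConj_iff.2 ⟨g, by rw [h, mul_inv_cancel_right]⟩

theorem s4331 : ∃ (G : Type) (_ : Group G) (_ : Finite G) (A : Subgroup G), Group.IsSolvable G ∧ Nat.card A = 2 ∧
      (∀ c : G, ∃ g : G, IsConj c g ∧ (A.subgroupOf (A ⊔ Subgroup.zpowers g)).IsSubnormal) ∧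
      ¬ A ≤ Cfsg.pCore 2 G := by
  obtain ⟨s, hs⟩ := exists_au
  set a : GG := mk 0 (el 1 s) with ha
  have ha2 : a * a = 1 := by
    rw [ha, mk_mul, el_mul]
    have h1 : s * s = 1 := by
      ext x
      exact au_sq s x
    rw [h1, map_zero, mul_zero, add_zero]
    have h2 : (1 : K9ˣ) * Units.map (s : K9 →* K9) 1 = 1 := by rw [map_one, one_mul]
    rw [h2, el_one]
    rfl
  have ha1 : a ≠ 1 := by
    intro h
    apply hs
    ext x
    have h1 := congrArg (fun z : GG => (z.right : MulAut (Multiplicative K9)) (Multiplicative.ofAdd x)) h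
    have h2 : Multiplicative.ofAdd (((1 : K9ˣ) : K9) * s x) = Multiplicative.ofAdd x := h1
    have h3 : ((1 : K9ˣ) : K9) * s x = x := h2
    rw [Units.val_one, one_mul] at h3
    exact h3
  have hord : orderOf a = 2 := orderOf_eq_prime (by rw [pow_two]; exact ha2) ha1
  refine ⟨GG, inferInstance, inferInstance, zpowers a, solv, by rw [Nat.card_zpowers, hord], ?_, ?_⟩
  · intro c
    obtain ⟨v, h, rfl⟩ := mk_surj c
    by_cases hfix : ∃ w : K9, w ≠ 0 ∧ (h : MulAut (Multiplicative K9)) (Multiplicative.ofAdd w) = Multiplicative.ofAdd w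
    · obtain ⟨w, hw, hfw⟩ := hfix
      obtain ⟨u, t, rfl⟩ := exists_el h
      have hfw' : (u : K9) * t w = w := hfw
      -- conjugate to (v', (1, t))
      let W : K9ˣ := Units.mk0 w hw
      have hc1 : ∃ v' : K9, IsConj (mk v (el u t)) (mk v' (el 1 t)) := by
        refine ⟨(W⁻¹ : K9ˣ) * v, conj_of (g := mk 0 (el W⁻¹ 1)) ?_⟩
        rw [mk_mul, mk_mul, el_mul, el_mul]
        congr 1
        · simp
        · congr 1
          · apply Units.ext
            have e1 : (Units.map (t : K9 →* K9) W⁻¹ : K9ˣ) = (Units.map (t : K9 →* K9) W)⁻¹ := map_inv _ _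
            rw [e1]
            have e2 : ((Units.map (t : K9 →* K9) W : K9ˣ) : K9) = t w := rfl
            have e3 : (u : K9) = w * (t w)⁻¹ := by
              have h0 : t w ≠ 0 := by
                intro h; apply hw; exact (map_eq_zero t).1 h
              rw [eq_mul_inv_iff_mul_eq₀ h0, hfw']
            have e4 : ((Units.map ((1 : Au) : K9 →* K9) u : K9ˣ) : K9) = u := rfl
            rw [Units.val_mul, Units.val_mul, Units.val_inv_eq_inv_val, Units.val_inv_eq_inv_val, e2, e4, e3, Units.val_one, one_mul]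
            have e5 : (W : K9) = w := rfl
            rw [e5, ← mul_assoc, inv_mul_cancel₀ hw, one_mul]
      obtain ⟨v', hv'⟩ := hc1
      by_cases ht : t = 1
      · subst ht
        by_cases hv0 : v' = 0
        · refine ⟨_, hv', comm_sn ?_⟩
          rw [hv0]
          have : mk 0 (el 1 1) = (1 : GG) := by rw [el_one]; rfl
          rw [this]
          exact Commute.one_right a
        · let V : K9ˣ := Units.mk0 v' hv0
          have hc2 : IsConj (mk v' (el 1 1)) (mk 1 (el 1 1)) := by
            apply conj_of (g := mk 0 (el V⁻¹ 1))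
            rw [mk_mul, mk_mul, el_mul, el_mul]
            congr 1
            · have e5 : ((V⁻¹ : K9ˣ) : K9) = v'⁻¹ := rfl
              have e6 : (1 : Au) v' = v' := rfl
              rw [e5, e6, inv_mul_cancel₀ hv0]
              simp
            · congr 1
              rw [map_one, mul_one, one_mul]
              rfl
          refine ⟨_, hv'.trans hc2, comm_sn ?_⟩
          change a * _ = _ * a
          rw [ha, mk_mul, mk_mul, el_mul, el_mul]
          congr 1
          · simp
          · congr 1
            rw [map_one, map_one]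
      · have hts : t = s := au_eq hs ht
        subst hts
        have hc2 : IsConj (mk v' (el 1 t)) (mk (-(v' + t v')) (el 1 t)) := by
          apply conj_of (g := mk (t v' - v') (el 1 1))
          rw [mk_mul, mk_mul, el_mul, el_mul]
          congr 1
          · rw [Units.val_one, one_mul, one_mul, map_sub, au_sq]
            have e6 : (1 : Au) v' = v' := rfl
            rw [e6]
            linear_combination three_zero (t v')
          · congr 1
            rw [map_one, map_one]
        refine ⟨_, hv'.trans hc2, comm_sn ?_⟩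
        change a * _ = _ * a
        rw [ha, mk_mul, mk_mul]
        congr 1
        rw [Units.val_one, one_mul, one_mul, map_zero, add_zero, zero_add, map_neg, map_add, au_sq, add_comm]
    · -- no fixed points
      push Not at hfix
      obtain ⟨u, t, rfl⟩ := exists_el h
      have hsurj : Function.Surjective (fun x : K9 => x - (u : K9) * t x) := by
        apply Finite.surjective_of_injective
        intro x y hxy
        by_contra hne
        have hxy' : x - (u : K9) * t x = y - (u : K9) * t y := hxy
        apply hfix (x - y) (sub_ne_zero.2 hne)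
        change Multiplicative.ofAdd ((u : K9) * t (x - y)) = Multiplicative.ofAdd (x - y)
        congr 1
        rw [map_sub]
        linear_combination -hxy'
      obtain ⟨x, hx⟩ := hsurj (-v)
      have hx' : x - (u : K9) * t x = -v := hx
      have hc1 : IsConj (mk v (el u t)) (mk 0 (el u t)) := by
        apply conj_of (g := mk x (el 1 1))
        rw [mk_mul, mk_mul, el_mul, el_mul]
        congr 1
        · rw [Units.val_one, one_mul, zero_add]
          have e6 : (1 : Au) v = v := rfl
          rw [e6]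
          linear_combination hx'
        · congr 1
          rw [one_mul, map_one, mul_one]
          rfl
      refine ⟨_, hc1, ?_⟩
      haveI : Fact (Nat.Prime 2) := ⟨Nat.prime_two⟩
      let R : Subgroup GG := (SemidirectProduct.inr (φ := Hs.subtype)).range
      have hR : IsPGroup 2 R := by
        rintro ⟨_, y, rfl⟩
        obtain ⟨k, hk⟩ := hs_pgroup y
        refine ⟨k, Subtype.ext ?_⟩
        change (SemidirectProduct.inr y : GG) ^ 2 ^ k = 1
        rw [← map_pow, hk, map_one]
      have hle : zpowers a ⊔ zpowers (mk 0 (el u t)) ≤ R := by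
        apply sup_le
        · rw [zpowers_le]; exact ⟨el 1 s, rfl⟩
        · rw [zpowers_le]; exact ⟨el u t, rfl⟩
      have hp : IsPGroup 2 (zpowers a ⊔ zpowers (mk 0 (el u t)) : Subgroup GG) := hR.to_le hle
      exact Subnorm.isSubnormal_of_nilpotent hp.isNilpotent _
  · intro hle
    have haC : a ∈ pCore 2 GG := hle (mem_zpowers a)
    have hn : (pCore 2 GG).Normal := Cores.pCore_normal 2
    obtain ⟨x, hx⟩ : ∃ x : K9, s x ≠ x := by
      by_contra hcon
      push Not at hcon
      apply hs
      ext x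
      exact hcon x
    set b : GG := mk x (el 1 1) with hb
    have h1 : b * a * b⁻¹ * a⁻¹ ∈ pCore 2 GG := mul_mem (hn.conj_mem a haC b) (inv_mem haC)
    have h2 : b * a = mk (x - s x) (el 1 1) * (a * b) := by
      rw [ha, hb, mk_mul, mk_mul, mk_mul, el_mul, el_mul, el_mul]
      congr 1
      · rw [Units.val_one, one_mul, one_mul, one_mul, map_zero, zero_add, add_zero]
        have e6 : (1 : Au) (s x) = s x := rfl
        rw [e6]; ring
      · congr 1
        simp only [map_one, one_mul, mul_one]
    have h3 : b * a * b⁻¹ * a⁻¹ = mk (x - s x) (el 1 1) := by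
      rw [h2]; group
    rw [h3] at h1
    obtain ⟨k, hk⟩ := Cores.pCore_isPGroup (G := GG) 2 ⟨_, h1⟩
    have hk' : (mk (x - s x) (el 1 1)) ^ 2 ^ k = 1 := congrArg Subtype.val hk
    have hcube : (mk (x - s x) (el 1 1)) ^ 3 = 1 := by
      have e1 : (mk (x - s x) (el 1 1)) ^ 3 = mk (x - s x) (el 1 1) * mk (x - s x) (el 1 1) * mk (x - s x) (el 1 1) := by
        rw [pow_succ, pow_two]
      rw [e1, mk_mul, el_mul]
      have e2 : (1 : K9ˣ) * Units.map ((1 : Au) : K9 →* K9) 1 = 1 := by rw [map_one, one_mul]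
      rw [e2, mul_one, mk_mul, el_mul, e2, mul_one]
      have e6 : (1 : Au) (x - s x) = x - s x := rfl
      rw [e6, Units.val_one, one_mul, three_zero, el_one]
      rfl
    have h4 : orderOf (mk (x - s x) (el 1 1)) ∣ 1 := by
      have h5 := orderOf_dvd_of_pow_eq_one hk'
      have h6 := orderOf_dvd_of_pow_eq_one hcube
      have h7 : Nat.Coprime (2 ^ k) 3 := Nat.Coprime.pow_left _ (by norm_num)
      have h8 := Nat.dvd_gcd h5 h6
      rwa [h7.gcd_eq_one] at h8
    have h5 : mk (x - s x) (el 1 1) = 1 := orderOf_eq_one_iff.1 (Nat.dvd_one.1 h4)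
    have h6 : mk (x - s x) (el 1 1) = mk 0 (el 1 1) := by
      rw [h5, el_one]; rfl
    have h7 := mk_inj h6
    exact hx (sub_eq_zero.1 h7).symm

end Cfsg.Agent.Lib.H3AGL
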