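import Cfsg.Agent.Lib.H3CompB

/-!
Bender's maximal subgroup theorem (helper3).
-/

set_option autoImplicit false
set_option maxHeartbeats 400000
set_option linter.unusedVariables false
set_option linter.unusedSectionVars false

namespace Cfsg.Agent.Lib.H3Bender

open Subgroup Cfsg Cfsg.Agent.Lib.Basic Cfsg.Agent.Lib.Cores Cfsg.Agent.Lib.Components Cfsg.Agent.Lib.PComp
  Cfsg.Agent.Lib.H3Loc Cfsg.Agent.Lib.H3LocB Cfsg.Agent.Lib.H3LocC Cfsg.Agent.Lib.H3LocD Cfsg.Agent.Lib.H3LBal Cfsg.Agent.Lib.H3LBalB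
  Cfsg.Agent.Lib.H3LocG Cfsg.Agent.Lib.H3Hyp
  Cfsg.Agent.Lib.SchurZas Cfsg.Agent.Lib.H3Sig Cfsg.Agent.Lib.H3SigB Cfsg.Agent.Lib.CoprimeB Cfsg.Agent.Lib.H3SigC Cfsg.Agent.Lib.H3Misc
  Cfsg.Agent.Lib.H3CompA Cfsg.Agent.Lib.H3CompB
open scoped commutatorElement Pointwise

universe u
variable {G : Type u} [Group G] [Finite G]

theorem mem_pCore_of_fitting {r : ℕ} [Fact r.Prime] {z : G} (hz : z ∈ fittingSubgroup G) (h : ∃ k : ℕ, orderOf z = r ^ k) : z ∈ pCore r G := by
  haveI hn : Group.IsNilpotent (fittingSubgroup G) := fitting_nilpotent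
  haveI hF : (fittingSubgroup G).Normal := fitting_normal
  obtain ⟨k, hk⟩ := h
  have h1 : IsPGroup r (zpowers (⟨z, hz⟩ : fittingSubgroup G)) := by
    refine IsPGroup.of_card (n := k) ?_
    rw [Nat.card_zpowers, ← orderOf_coe, hk]
  obtain ⟨P, hP⟩ := h1.exists_le_sylow
  have hPn : (P : Subgroup (fittingSubgroup G)).Normal := inferInstance
  have hPc : (P : Subgroup (fittingSubgroup G)).Characteristic := P.characteristic_of_normal hPn
  have h2 : (P : Subgroup (fittingSubgroup G)).map (fittingSubgroup G).subtype ≤ pCore r G :=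
    le_pCore inferInstance (P.isPGroup'.map _)
  exact h2 ⟨⟨z, hz⟩, hP (mem_zpowers _), rfl⟩

/-- a cyclic group whose primary elements (for `r ≠ q`) lie in `C` -/
theorem mem_of_primary {q : ℕ} {z : G} {C : Subgroup G} (hz : (orderOf z).Coprime q)
    (h : ∀ r : ℕ, r.Prime → r ≠ q → ∀ w ∈ zpowers z, (∃ k : ℕ, orderOf w = r ^ k) → w ∈ C) : z ∈ C := by
  have h1 : (C.subgroupOf (zpowers z)) = ⊤ := by
    apply eq_top_of_sylow_le
    intro r hr
    haveI : Fact r.Prime := ⟨hr⟩
    obtain ⟨P⟩ := (inferInstance : Nonempty (Sylow r (zpowers z)))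
    refine ⟨P, ?_⟩
    intro w hw
    rw [mem_subgroupOf]
    obtain ⟨k, hk⟩ := (IsPGroup.iff_orderOf.mp P.isPGroup') ⟨w, hw⟩
    have hk' : orderOf (w : G) = r ^ k := by
      have h5 := Subgroup.orderOf_coe (⟨w, hw⟩ : (P : Subgroup (zpowers z)))
      have h6 := Subgroup.orderOf_coe w
      rw [h6, ← hk, ← h5]
    by_cases hrq : r = q
    · subst hrq
      have h2 : orderOf (w : G) ∣ orderOf z := orderOf_dvd_of_mem_zpowers w.2
      have h3 : (orderOf (w : G)).Coprime r := Nat.Coprime.coprime_dvd_left h2 hz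
      have h4 : orderOf (w : G) = 1 := by
        rw [hk'] at h3 ⊢
        exact Nat.Coprime.eq_one_of_dvd (Nat.Coprime.pow_right k h3) dvd_rfl
      rw [orderOf_eq_one_iff.mp h4]
      exact one_mem _
    · exact h r hr hrq w w.2 ⟨k, hk'⟩
  have h2 : (⟨z, mem_zpowers z⟩ : zpowers z) ∈ C.subgroupOf (zpowers z) := by rw [h1]; exact mem_top _
  exact h2

/-- `O_r(M)` as a subgroup of `G` -/
def Or (r : ℕ) (M : Subgroup G) : Subgroup G := (pCore r M).map M.subtype

theorem Or_le (r : ℕ) (M : Subgroup G) : Or r M ≤ M := map_subtype_le _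

theorem Or_pgroup (r : ℕ) (M : Subgroup G) : IsPGroup r (Or r M) := (pCore_isPGroup r).map _

theorem M_norm_Or (r : ℕ) (M : Subgroup G) : M ≤ normalizer (Or r M : Set G) := by
  haveI := pCore_characteristic (G := M) r
  exact le_normalizer.trans (norm_char _)

theorem le_Or {r : ℕ} {M P : Subgroup G} (hP : IsPGroup r P) (hPM : P ≤ M) (hn : M ≤ normalizer (P : Set G)) : P ≤ Or r M := by
  have h1 : P.subgroupOf M ≤ pCore r M := le_pCore (normal_subgroupOf_of_le_normalizer hn) (hP.of_equiv (subgroupOfEquivOfLe hPM).symm)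
  have h2 := Subgroup.map_mono (f := M.subtype) h1
  rwa [map_subgroupOf_eq_of_le hPM] at h2

theorem comm_of_norm {A B : Subgroup G} (h1 : A ≤ normalizer (B : Set G)) (h2 : B ≤ normalizer (A : Set G)) (h3 : A ⊓ B = ⊥) :
    ∀ a ∈ A, ∀ b ∈ B, a * b = b * a := by
  intro a ha b hb
  rw [← commutatorElement_eq_one_iff_mul_comm, ← mem_bot, ← h3]
  rw [commutatorElement_def]
  refine mem_inf.mpr ⟨?_, ?_⟩
  · have e : a * b * a⁻¹ * b⁻¹ = a * (b * a⁻¹ * b⁻¹) := by group
    rw [e]
    exact mul_mem ha ((mem_normalizer_iff.mp (h2 hb) _).mp (inv_mem ha))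
  · exact mul_mem ((mem_normalizer_iff.mp (h1 ha) _).mp hb) (inv_mem hb)

theorem inf_pgroups {p q : ℕ} (hp : p.Prime) (hq : q.Prime) (hne : p ≠ q) {A B : Subgroup G} (hA : IsPGroup p A) (hB : IsPGroup q B) : A ⊓ B = ⊥ := by
  rw [← card_eq_one]
  haveI : Fact p.Prime := ⟨hp⟩
  haveI : Fact q.Prime := ⟨hq⟩
  obtain ⟨m, hm⟩ := hA.exists_card_eq
  obtain ⟨n, hn⟩ := hB.exists_card_eq
  have h1 : Nat.card (A ⊓ B : Subgroup G) ∣ p ^ m := hm ▸ card_dvd_of_le inf_le_left
  have h2 : Nat.card (A ⊓ B : Subgroup G) ∣ q ^ n := hn ▸ card_dvd_of_le inf_le_right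
  exact Nat.eq_one_of_dvd_coprimes (((Nat.coprime_primes hp hq).mpr hne).pow m n) h1 h2

/-- the generalized Fitting subgroup of `M` in `G` -/
def FS (M : Subgroup G) : Subgroup G := (generalizedFittingSubgroup M).map M.subtype

theorem Or_le_FS (r : ℕ) [Fact r.Prime] (M : Subgroup G) : Or r M ≤ FS M :=
  Subgroup.map_mono ((pCore_le_fitting r).trans fitting_le_generalizedFitting)

/-- the pointwise statement: the maximal subgroups -/
structure Hyp (M N : Subgroup G) : Prop where
  hM : IsCoatom M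
  hN : IsCoatom N
  hMN : M ≠ N
  h1 : FS M ≤ N
  h2 : FS N ≤ M

theorem Hyp.symm {M N : Subgroup G} (h : Hyp M N) : Hyp N M := ⟨h.hN, h.hM, h.hMN.symm, h.h2, h.h1⟩

theorem Hyp.comm {M N : Subgroup G} (h : Hyp M N) {p q : ℕ} (hp : p.Prime) (hq : q.Prime) (hne : p ≠ q) :
    ∀ a ∈ Or p N, ∀ b ∈ Or q M, a * b = b * a := by
  haveI : Fact p.Prime := ⟨hp⟩
  haveI : Fact q.Prime := ⟨hq⟩
  refine comm_of_norm ?_ ?_ (inf_pgroups hp hq hne (Or_pgroup p N) (Or_pgroup q M))
  · exact ((Or_le_FS p N).trans h.h2).trans (M_norm_Or q M)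
  · exact ((Or_le_FS q M).trans h.h1).trans (M_norm_Or p N)

variable [IsSimpleGroup G]

theorem norm_eq {M P : Subgroup G} (hM : IsCoatom M) (hPM : P ≤ M) (hP : P ≠ ⊥) (hn : M ≤ normalizer (P : Set G)) : normalizer (P : Set G) = M := by
  rcases hM.le_iff.mp hn with h | h
  · exfalso
    have h1 : P.Normal := normalizer_eq_top_iff.mp h
    rcases h1.eq_bot_or_eq_top with h2 | h2
    · exact hP h2
    · exact hM.1 (top_le_iff.mp (h2 ▸ hPM))
  · exact h

theorem cent_le {M P : Subgroup G} (hM : IsCoatom M) (hPM : P ≤ M) (hP : P ≠ ⊥) (hn : M ≤ normalizer (P : Set G)) : centralizer (P : Set G) ≤ M := by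
  rw [← norm_eq hM hPM hP hn]
  exact centralizer_le_normalizer _

theorem main {M N : Subgroup G} (h : Hyp M N) (hF : layer M = ⊥) {p q : ℕ} (hp : p.Prime) (hq : q.Prime) (hne : p ≠ q) (hqN : Or q N ≠ ⊥) :
    Or p N ≤ Or p M := by
  haveI : Fact p.Prime := ⟨hp⟩
  haveI : Fact q.Prime := ⟨hq⟩
  -- `Y`
  set Y : Subgroup G := M ⊓ ⨅ r : {r : ℕ // r.Prime ∧ r ≠ p}, centralizer (Or (r : ℕ) M : Set G) with hY
  have memY : ∀ y, y ∈ Y ↔ y ∈ M ∧ ∀ r : ℕ, r.Prime → r ≠ p → y ∈ centralizer (Or r M : Set G) := by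
    intro y
    rw [hY, mem_inf, mem_iInf]
    exact ⟨fun h => ⟨h.1, fun r hr hrp => h.2 ⟨r, hr, hrp⟩⟩, fun h => ⟨h.1, fun r => h.2 r.1 r.2.1 r.2.2⟩⟩
  have hYM : Y ≤ M := inf_le_left
  have hYn : M ≤ normalizer (Y : Set G) := by
    intro m hm
    refine CFunA.mem_normalizer_of_le ?_
    rintro _ ⟨y, hy, rfl⟩
    change m * y * m⁻¹ ∈ Y
    obtain ⟨hy1, hy2⟩ := (memY y).mp hy
    refine (memY _).mpr ⟨mul_mem (mul_mem hm hy1) (inv_mem hm), fun r hr hrp => ?_⟩
    exact (mem_normalizer_iff.mp (centralizer_norm _ (M_norm_Or r M hm)) y).mp (hy2 r hr hrp)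
  -- `p`-elements of `Y`
  set K := opp p Y with hK
  have hKY : K ≤ Y := opp_le _ _
  have hKn : M ≤ normalizer (K : Set G) := hYn.trans (normalizer_le_normalizer_opp p Y)
  have hPNM : Or p N ≤ M := (Or_le_FS p N).trans h.h2
  have hQNM : Or q N ≤ M := (Or_le_FS q N).trans h.h2
  have hPNY : Or p N ≤ Y := by
    intro y hy
    refine (memY y).mpr ⟨hPNM hy, fun r hr hrp => ?_⟩
    rw [mem_centralizer_iff]
    exact fun z hz => (h.comm hp hr (Ne.symm hrp) y hy z hz).symm
  have hPNK : Or p N ≤ K := by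
    intro y hy
    refine mem_opp (hPNY hy) ?_
    obtain ⟨k, hk⟩ := (IsPGroup.iff_orderOf.mp (Or_pgroup p N)) ⟨y, hy⟩
    exact ⟨k, by rw [← hk, ← orderOf_coe]⟩
  -- `K` centralizes `O_q(N)`
  have hKc : K ≤ centralizer (Or q N : Set G) := by
    rw [hK, opp, closure_le]
    rintro y ⟨hyY, k, hyk⟩
    rw [SetLike.mem_coe, mem_centralizer_iff]
    intro x hx
    obtain ⟨hyM, hyc⟩ := (memY y).mp hyY
    have hxM := hQNM hx
    have hxc : ∀ r : ℕ, r.Prime → r ≠ q → ∀ z ∈ Or r M, x * z = z * x := fun r hr hrq z hz => h.comm hq hr (Ne.symm hrq) x hx z hz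
    -- z = x⁻¹ (y x y⁻¹)
    set z := x⁻¹ * (y * x * y⁻¹) with hz
    have hzM : z ∈ M := mul_mem (inv_mem hxM) (mul_mem (mul_mem hyM hxM) (inv_mem hyM))
    have hzc : ∀ r : ℕ, r.Prime → z ∈ centralizer (Or r M : Set G) := by
      intro r hr
      by_cases hrp : r = p
      · -- `x` centralizes, `y` normalizes
        subst hrp
        have hx1 : x ∈ centralizer (Or r M : Set G) := by
          rw [mem_centralizer_iff]
          exact fun w hw => (hxc r hr hne w hw).symm
        have hy1 : y ∈ normalizer (centralizer (Or r M : Set G) : Set G) := centralizer_norm _ (M_norm_Or r M hyM)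
        exact mul_mem (inv_mem hx1) ((mem_normalizer_iff.mp hy1 x).mp hx1)
      · have hy1 := hyc r hr hrp
        have hx1 : x ∈ normalizer (centralizer (Or r M : Set G) : Set G) := centralizer_norm _ (M_norm_Or r M hxM)
        have e : z = (x⁻¹ * y * x⁻¹⁻¹) * y⁻¹ := by rw [hz]; group
        rw [e]
        exact mul_mem ((mem_normalizer_iff.mp (inv_mem hx1) y).mp hy1) (inv_mem hy1)
    -- `z ∈ F(M)`
    have hzF : (⟨z, hzM⟩ : M) ∈ fittingSubgroup M := by
      have h1 : (⟨z, hzM⟩ : M) ∈ centralizer (generalizedFittingSubgroup M : Set M) := by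
        unfold generalizedFittingSubgroup
        rw [hF, bot_sup_eq, fitting_eq_iSup_pCore]
        have h2 : (⨆ r : Nat.Primes, pCore (r : ℕ) M) ≤ centralizer {(⟨z, hzM⟩ : M)} := by
          refine iSup_le fun r => ?_
          intro w hw
          rw [mem_centralizer_singleton_iff]
          exact Subtype.ext (mem_centralizer_iff.mp (hzc r r.2) w ⟨w, hw, rfl⟩)
        rw [mem_centralizer_iff]
        intro w hw
        exact mem_centralizer_singleton_iff.mp (h2 hw)
      have h3 := centralizer_generalizedFitting_le h1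
      unfold generalizedFittingSubgroup at h3
      rwa [hF, bot_sup_eq] at h3
    have hprim : ∀ r : ℕ, r.Prime → ∀ w ∈ zpowers z, (∃ k : ℕ, orderOf w = r ^ k) → w ∈ Or r M := by
      rintro r hr w hw ⟨j, hj⟩
      haveI : Fact r.Prime := ⟨hr⟩
      have hwM : w ∈ M := (zpowers_le.mpr hzM) hw
      have hwF : (⟨w, hwM⟩ : M) ∈ fittingSubgroup M := by
        obtain ⟨i, rfl⟩ := hw
        have := zpow_mem hzF i
        exact this
      exact ⟨⟨w, hwM⟩, mem_pCore_of_fitting hwF ⟨j, by rw [← orderOf_coe]; exact hj⟩, rfl⟩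
    -- z is central in `F(M)`; decompose
    obtain ⟨a, b, hab, e1, e2⟩ : ∃ a b : G, a ∈ zpowers z ∧ (b ∈ zpowers z ∧ z = a * b) ∧ (∃ k : ℕ, orderOf a = q ^ k) ∧ (orderOf b).Coprime q := by
      obtain ⟨i, m, hm, he⟩ := Nat.exists_eq_pow_mul_and_not_dvd (orderOf_pos z).ne' q hq.ne_one
      have hcop : (q ^ i).Coprime m := Nat.Coprime.pow_left _ ((Nat.Prime.coprime_iff_not_dvd hq).mpr hm)
      obtain ⟨u, v, huv⟩ : ∃ u v : ℤ, (q ^ i : ℕ) * u + (m : ℕ) * v = 1 := by
        refine ⟨Nat.gcdA (q ^ i) m, Nat.gcdB (q ^ i) m, ?_⟩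
        have := Nat.gcd_eq_gcd_ab (q ^ i) m
        rw [hcop] at this
        exact_mod_cast this.symm
      refine ⟨z ^ ((m : ℤ) * v), z ^ (((q ^ i : ℕ) : ℤ) * u), ⟨_, rfl⟩, ⟨⟨_, rfl⟩, ?_⟩, ?_, ?_⟩
      · rw [← zpow_add, add_comm, huv, zpow_one]
      · have h1 : (z ^ ((m : ℤ) * v)) ^ (q ^ i) = 1 := by
          rw [← zpow_natCast, ← zpow_mul]
          have : (m : ℤ) * v * ((q ^ i : ℕ) : ℤ) = ((orderOf z : ℕ) : ℤ) * v := by
            rw [he]; push_cast; ring
          rw [this, zpow_mul, zpow_natCast, pow_orderOf_eq_one, one_zpow]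
        obtain ⟨j, -, hj⟩ := (Nat.dvd_prime_pow hq).mp (orderOf_dvd_of_pow_eq_one h1)
        exact ⟨j, hj⟩
      · have h1 : (z ^ (((q ^ i : ℕ) : ℤ) * u)) ^ m = 1 := by
          rw [← zpow_natCast, ← zpow_mul]
          have : ((q ^ i : ℕ) : ℤ) * u * (m : ℤ) = ((orderOf z : ℕ) : ℤ) * u := by
            rw [he]; push_cast; ring
          rw [this, zpow_mul, zpow_natCast, pow_orderOf_eq_one, one_zpow]
        exact Nat.Coprime.coprime_dvd_left (orderOf_dvd_of_pow_eq_one h1) ((Nat.Prime.coprime_iff_not_dvd hq).mpr hm).symm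
    obtain ⟨hbz, hzab⟩ := e1
    obtain ⟨haq, hbq⟩ := e2
    have haM : a ∈ Or q M := hprim q hq a hab haq
    -- `b` commutes with `x`
    have hbx : b ∈ centralizer ({x} : Set G) := by
      refine mem_of_primary hbq fun r hr hrq w hw hwo => ?_
      rw [mem_centralizer_singleton_iff]
      refine (hxc r hr hrq w (hprim r hr w ?_ hwo)).symm
      exact (zpowers_le.mpr hbz) hw
    have hbx' : b * x = x * b := mem_centralizer_singleton_iff.mp hbx
    have hab' : a * b = b * a := by
      obtain ⟨i, rfl⟩ := hab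
      obtain ⟨j, rfl⟩ := hbz
      exact ((Commute.refl z).zpow_zpow i j)
    -- `b = 1`
    have hxq : ∃ k : ℕ, orderOf x = q ^ k := by
      obtain ⟨k, hk⟩ := (IsPGroup.iff_orderOf.mp (Or_pgroup q N)) ⟨x, hx⟩
      exact ⟨k, by rw [← hk, ← orderOf_coe]⟩
    have hyxy : y * x * y⁻¹ = (x * a) * b := by
      have e3 : y * x * y⁻¹ = x * z := by rw [hz]; group
      rw [e3, hzab, mul_assoc]
    have hb1 : b = 1 := by
      -- `x * a` is a `q`-element
      have hQ : IsPGroup q (Or q N ⊔ Or q M : Subgroup G) := by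
        refine IsPGroup.to_sup_of_normal_right' (Or_pgroup q N) (Or_pgroup q M) (hQNM.trans (M_norm_Or q M))
      have hxa : x * a ∈ Or q N ⊔ Or q M := mul_mem ((le_sup_left : Or q N ≤ _) hx) ((le_sup_right : Or q M ≤ _) haM)
      obtain ⟨i, hi⟩ := (IsPGroup.iff_orderOf.mp hQ) ⟨x * a, hxa⟩
      have hi' : orderOf (x * a) = q ^ i := by rw [← hi, ← orderOf_coe]
      have hcm : Commute (x * a) b := by
        change (x * a) * b = b * (x * a)
        rw [mul_assoc, hab', ← mul_assoc, ← hbx', mul_assoc]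
      have hcop : (orderOf (x * a)).Coprime (orderOf b) := by
        rw [hi']; exact Nat.Coprime.pow_left _ hbq.symm
      have h4 := hcm.orderOf_mul_eq_mul_orderOf_of_coprime hcop
      rw [← hyxy, orderOf_cj] at h4
      obtain ⟨j, hj⟩ := hxq
      have h5 : orderOf b ∣ q ^ j := by rw [← hj, h4]; exact dvd_mul_left _ _
      have h6 : orderOf b = 1 := Nat.Coprime.eq_one_of_dvd (Nat.Coprime.pow_right j hbq) h5
      exact orderOf_eq_one_iff.mp h6
    rw [hb1, mul_one] at hyxy
    -- `y` commutes with `a`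
    have hya : y * a = a * y := (mem_centralizer_iff.mp (hyc q hq (Ne.symm hne)) a haM).symm
    -- iterate
    have hiter : ∀ n : ℕ, y ^ n * x = x * a ^ n * y ^ n := by
      intro n
      induction n with
      | zero => simp
      | succ n ih =>
        have h7 : Commute y (a ^ n) := (show Commute y a from hya).pow_right n
        have h8 : y * x = x * a * y := by rw [← hyxy]; group
        calc y ^ (n + 1) * x = y * (y ^ n * x) := by rw [pow_succ']; group
          _ = y * (x * a ^ n * y ^ n) := by rw [ih]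
          _ = (y * x) * a ^ n * y ^ n := by group
          _ = x * a * (y * a ^ n) * y ^ n := by rw [h8]; group
          _ = x * a * (a ^ n * y) * y ^ n := by rw [h7.eq]
          _ = x * a ^ (n + 1) * y ^ (n + 1) := by rw [pow_succ' a, pow_succ' y]; group
    have h9 := hiter (orderOf y)
    rw [pow_orderOf_eq_one, one_mul, mul_one] at h9
    have h10 : a ^ (orderOf y) = 1 := by
      have : x * a ^ (orderOf y) = x * 1 := by rw [← h9, mul_one]
      exact mul_left_cancel this
    have h11 : a = 1 := by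
      obtain ⟨j, hj⟩ := haq
      have h12 : orderOf a ∣ p ^ k := hyk ▸ orderOf_dvd_of_pow_eq_one h10
      rw [hj] at h12
      have h13 : q ^ j = 1 := Nat.Coprime.eq_one_of_dvd (((Nat.coprime_primes hq hp).mpr (Ne.symm hne)).pow j k) h12
      exact orderOf_eq_one_iff.mp (hj.trans h13)
    rw [h11, mul_one] at hyxy
    calc x * y = (y * x * y⁻¹) * y := by rw [hyxy]
      _ = y * x := by group
  have hKN : K ≤ N := hKc.trans (cent_le h.hN (Or_le q N) hqN (M_norm_Or q N))
  have hfin : Or p N ≤ Or p K := le_Or (Or_pgroup p N) hPNK (hKN.trans (M_norm_Or p N))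
  refine hfin.trans (le_Or (Or_pgroup p K) ((Or_le p K).trans (hKY.trans hYM)) ?_)
  -- M normalizes `O_p(K)`
  haveI := pCore_characteristic (G := K) p
  exact hKn.trans (norm_char _)

theorem comp_transfer {M N : Subgroup G} (h : Hyp M N) {K : Subgroup M} (hK : IsComponent K) :
    ∃ L : Subgroup N, IsComponent L ∧ L.map N.subtype = K.map M.subtype := by
  have hKN : K.map M.subtype ≤ N := (Subgroup.map_mono ((component_le_layer hK).trans layer_le_generalizedFitting)).trans h.h1
  set EM := (layer M).map M.subtype with hEM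
  set EN := (layer N).map N.subtype with hEN
  have hEMN : EM ≤ N := (Subgroup.map_mono layer_le_generalizedFitting).trans h.h1
  have hENM : EN ≤ M := (Subgroup.map_mono layer_le_generalizedFitting).trans h.h2
  have nM : M ≤ normalizer (EM : Set G) := le_normalizer.trans (norm_char _)
  have nN : N ≤ normalizer (EN : Set G) := le_normalizer.trans (norm_char _)
  by_contra hcon
  push Not at hcon
  -- `K` centralizes the components of `N`
  set J := EM ⊔ EN with hJ
  have hJM : J ≤ M := sup_le (map_subtype_le _) hENM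
  have hJN : J ≤ N := sup_le hEMN (map_subtype_le _)
  have sM : (EM.subgroupOf J).Normal := normal_subgroupOf_of_le_normalizer (hJM.trans nM)
  have sN : (EN.subgroupOf J).Normal := normal_subgroupOf_of_le_normalizer (hJN.trans nN)
  have compJ : ∀ (M' : Subgroup G) (K' : Subgroup M') , IsComponent K' → J ≤ M' → K'.map M'.subtype ≤ J → IsComponent ((K'.map M'.subtype).subgroupOf J) := by
    intro M' K' hK' hJM' hle
    have h1 := component_comap_injective (inclusion hJM') (inclusion_injective hJM') (K := K') (by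
      intro x hx
      have : (x : G) ∈ J := hle ⟨x, hx, rfl⟩
      exact ⟨⟨x, this⟩, rfl⟩) hK'
    have h2 : K'.comap (inclusion hJM') = (K'.map M'.subtype).subgroupOf J := by
      ext x
      constructor
      · intro hx; exact ⟨_, hx, rfl⟩
      · rintro ⟨y, hy, e⟩
        have e' : y = inclusion hJM' x := Subtype.ext e
        change inclusion hJM' x ∈ K'
        rw [← e']; exact hy
    rwa [h2] at h1
  have hKJ : K.map M.subtype ≤ J := (Subgroup.map_mono (component_le_layer hK)).trans le_sup_left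
  have cK := compJ M K hK hJM hKJ
  have c1 : ∀ L : Subgroup N, IsComponent L → ∀ x ∈ K.map M.subtype, ∀ y ∈ L.map N.subtype, x * y = y * x := by
    intro L hL x hx y hy
    have hLJ : L.map N.subtype ≤ J := (Subgroup.map_mono (component_le_layer hL)).trans le_sup_right
    have cL := compJ N L hL hJN hLJ
    have hne : (K.map M.subtype).subgroupOf J ≠ (L.map N.subtype).subgroupOf J := by
      intro h1
      apply hcon L hL
      have h2 := congrArg (Subgroup.map J.subtype) h1
      rw [map_subgroupOf_eq_of_le hKJ, map_subgroupOf_eq_of_le hLJ] at h2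
      exact h2.symm
    have := comm_comps cK cL hne (x := ⟨x, hKJ hx⟩) (y := ⟨y, hLJ hy⟩) hx hy
    exact congrArg Subtype.val this
  -- `K` centralizes `O_r(N)`
  have c2 : ∀ r : ℕ, r.Prime → ∀ x ∈ K.map M.subtype, ∀ y ∈ Or r N, x * y = y * x := by
    intro r hr x hx y hy
    haveI : Fact r.Prime := ⟨hr⟩
    have hNM : Or r N ≤ M := (Or_le_FS r N).trans h.h2
    have hsol : Group.IsSolvable ((Or r N).subgroupOf M) := isSolvable_subgroupOf' _ _ (CoprimeB.isSolvable_of_isPGroup (Or_pgroup r N))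
    have hn : K ≤ normalizer ((Or r N).subgroupOf M : Set M) := by
      intro k hk
      refine CFunA.mem_normalizer_of_le ?_
      rintro _ ⟨w, hw, rfl⟩
      have hkN : (k : G) ∈ N := hKN ⟨k, hk, rfl⟩
      exact (mem_normalizer_iff.mp (M_norm_Or r N hkN) (w : G)).mp hw
    have h1 := component_le_or_commute_of_normalizes hK hsol hn
    obtain ⟨k, hk, rfl⟩ := hx
    have h2 : ⁅k, (⟨y, hNM hy⟩ : M)⁆ ∈ ⁅K, (Or r N).subgroupOf M⁆ := commutator_mem_commutator hk (show (⟨y, hNM hy⟩ : M) ∈ (Or r N).subgroupOf M from hy)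
    rw [h1, mem_bot, commutatorElement_eq_one_iff_mul_comm] at h2
    exact congrArg Subtype.val h2
  -- `K ≤ Z(F*(N))`
  have h3 : (K.map M.subtype).subgroupOf N ≤ centralizer (generalizedFittingSubgroup N : Set N) := by
    intro x hx
    have h4 : generalizedFittingSubgroup N ≤ centralizer {x} := by
      unfold generalizedFittingSubgroup
      rw [fitting_eq_iSup_pCore]
      refine sup_le (sSup_le fun L hL => ?_) (iSup_le fun r => ?_)
      · intro w hw
        rw [mem_centralizer_singleton_iff]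
        exact Subtype.ext (c1 L hL x hx w ⟨w, hw, rfl⟩).symm
      · intro w hw
        rw [mem_centralizer_singleton_iff]
        exact Subtype.ext (c2 r r.2 x hx w ⟨w, hw, rfl⟩).symm
    rw [mem_centralizer_iff]
    intro w hw
    exact mem_centralizer_singleton_iff.mp (h4 hw)
  have h5 := h3.trans centralizer_generalizedFitting_le
  have h6 : ⁅K, K⁆ = ⊥ := by
    rw [eq_bot_iff, commutator_le]
    intro x hx y hy
    rw [mem_bot, commutatorElement_eq_one_iff_mul_comm]
    have hxN : (x : G) ∈ N := hKN ⟨x, hx, rfl⟩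
    have hyN : (y : G) ∈ N := hKN ⟨y, hy, rfl⟩
    have h7 := h3 (show (⟨x, hxN⟩ : N) ∈ (K.map M.subtype).subgroupOf N from ⟨x, hx, rfl⟩)
    have h8 := mem_centralizer_iff.mp h7 _ (h5 (show (⟨y, hyN⟩ : N) ∈ (K.map M.subtype).subgroupOf N from ⟨y, hy, rfl⟩))
    exact Subtype.ext (congrArg (fun t : N => (t : G)) h8).symm
  exact component_ne_bot hK ((component_commutator hK).symm.trans h6)

theorem layer_transfer {M N : Subgroup G} (h : Hyp M N) : (layer M).map M.subtype ≤ (layer N).map N.subtype := by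
  unfold layer
  rw [map_le_iff_le_comap]
  refine sSup_le fun K hK => ?_
  rw [← map_le_iff_le_comap]
  obtain ⟨L, hL, e⟩ := comp_transfer h hK
  rw [← e]
  exact Subgroup.map_mono (le_sSup hL)

theorem layer_bot {M N : Subgroup G} (h : Hyp M N) : layer M = ⊥ := by
  by_contra hne
  have h1 : (layer M).map M.subtype = (layer N).map N.subtype := le_antisymm (layer_transfer h) (layer_transfer h.symm)
  have h2 : (layer M).map M.subtype ≠ ⊥ := by
    intro hb
    exact hne ((Subgroup.map_eq_bot_iff_of_injective _ M.subtype_injective).mp hb)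
  apply h.hMN
  rw [← norm_eq h.hM (map_subtype_le _) h2 (le_normalizer.trans (norm_char _)), h1]
  exact norm_eq h.hN (map_subtype_le _) (h1 ▸ h2) (le_normalizer.trans (norm_char _))

theorem gF_ne_bot {M : Subgroup G} (hM : M ≠ ⊥) : generalizedFittingSubgroup M ≠ ⊥ := by
  intro hb
  have h1 := centralizer_generalizedFitting_le (G := M)
  rw [hb] at h1
  apply hM
  have h2 : (⊤ : Subgroup M) = ⊥ := by
    rw [← le_bot_iff]
    refine le_trans ?_ h1
    intro x _
    rw [mem_centralizer_iff]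
    intro y hy
    have : y = 1 := hy
    rw [this]; group
  rw [eq_bot_iff]
  intro x hx
  have h3 : (⟨x, hx⟩ : M) ∈ (⊥ : Subgroup M) := h2 ▸ mem_top _
  exact congrArg Subtype.val h3

theorem exists_prime {M N : Subgroup G} (h : Hyp M N) (hMb : M ≠ ⊥) : ∃ p : ℕ, p.Prime ∧ Or p M ≠ ⊥ := by
  by_contra hcon
  push Not at hcon
  apply gF_ne_bot hMb
  unfold generalizedFittingSubgroup
  rw [layer_bot h, bot_sup_eq, fitting_eq_iSup_pCore, iSup_eq_bot]
  intro r
  exact (Subgroup.map_eq_bot_iff_of_injective _ M.subtype_injective).mp (hcon r r.2)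

theorem unique_prime {M N : Subgroup G} (h : Hyp M N) {p q : ℕ} (hp : p.Prime) (hq : q.Prime) (hpM : Or p M ≠ ⊥) (hqM : Or q M ≠ ⊥) : p = q := by
  by_contra hne
  have h1 := main h.symm (layer_bot h.symm) hp hq hne hqM
  have h2 := main h.symm (layer_bot h.symm) hq hp (Ne.symm hne) hpM
  have hqN : Or q N ≠ ⊥ := by
    intro hb; rw [hb, le_bot_iff] at h2; exact hqM h2
  have h3 := main h (layer_bot h) hp hq hne hqN
  have h4 : Or p M = Or p N := le_antisymm h1 h3
  apply h.hMN
  rw [← norm_eq h.hM (Or_le p M) hpM (M_norm_Or p M), h4]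
  exact norm_eq h.hN (Or_le p N) (h4 ▸ hpM) (M_norm_Or p N)

theorem gF_pgroup {M N : Subgroup G} (h : Hyp M N) {p : ℕ} (hp : p.Prime) (hpM : Or p M ≠ ⊥) : IsPGroup p (generalizedFittingSubgroup M) := by
  haveI : Fact p.Prime := ⟨hp⟩
  have h1 : generalizedFittingSubgroup M ≤ pCore p M := by
    unfold generalizedFittingSubgroup
    rw [layer_bot h, bot_sup_eq, fitting_eq_iSup_pCore]
    refine iSup_le fun r => ?_
    by_cases hr : Or (r : ℕ) M = ⊥
    · have := (Subgroup.map_eq_bot_iff_of_injective _ M.subtype_injective).mp hr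
      rw [this]; exact bot_le
    · rw [unique_prime h r.2 hp hr hpM]
  exact (pCore_isPGroup p).to_le h1

theorem s1312 (hna : ¬ IsMulCommutative G) (M N : Subgroup G) (hM : IsCoatom M) (hN : IsCoatom N) (hMN : M ≠ N)
    (h1 : (generalizedFittingSubgroup M).map M.subtype ≤ N) (h2 : (generalizedFittingSubgroup N).map N.subtype ≤ M) :
    ∃ p : ℕ, p.Prime ∧ IsPGroup p (generalizedFittingSubgroup M) ∧ IsPGroup p (generalizedFittingSubgroup N) := by
  have h : Hyp M N := ⟨hM, hN, hMN, h1, h2⟩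
  have hb : ∀ M' : Subgroup G, IsCoatom M' → M' ≠ ⊥ := by
    rintro M' hM' rfl
    apply hna
    -- every nontrivial cyclic subgroup is everything
    rw [isMulCommutative_iff]
    intro x y
    by_cases hx : x = 1
    · rw [hx]; group
    have h3 : zpowers x = ⊤ := hM'.2 _ (bot_lt_iff_ne_bot.mpr (by rwa [Ne, zpowers_eq_bot]))
    have h4 : y ∈ zpowers x := by rw [h3]; exact mem_top _
    obtain ⟨k, rfl⟩ := h4
    exact ((Commute.refl x).zpow_right k).eq
  obtain ⟨p, hp, hpM⟩ := exists_prime h (hb M hM)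
  obtain ⟨q, hq, hqN⟩ := exists_prime h.symm (hb N hN)
  refine ⟨p, hp, gF_pgroup h hp hpM, ?_⟩
  by_cases hpq : p = q
  · subst hpq
    exact gF_pgroup h.symm hp hqN
  · exfalso
    -- `O_q(N)` centralizes `F*(M) = O_p(M)`
    haveI : Fact p.Prime := ⟨hp⟩
    haveI : Fact q.Prime := ⟨hq⟩
    have hqM : Or q N ≤ M := (Or_le_FS q N).trans h2
    have h5 : (Or q N).subgroupOf M ≤ centralizer (generalizedFittingSubgroup M : Set M) := by
      intro x hx
      rw [mem_centralizer_iff]
      intro y hy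
      have hy2 : y ∈ pCore p M := by
        have h1 : generalizedFittingSubgroup M ≤ pCore p M := by
          unfold generalizedFittingSubgroup
          rw [layer_bot h, bot_sup_eq, fitting_eq_iSup_pCore]
          refine iSup_le fun r => ?_
          by_cases hr : Or (r : ℕ) M = ⊥
          · have := (Subgroup.map_eq_bot_iff_of_injective _ M.subtype_injective).mp hr
            rw [this]; exact bot_le
          · rw [unique_prime h r.2 hp hr hpM]
        exact h1 hy
      exact Subtype.ext (h.comm hq hp (Ne.symm hpq) x hx y ⟨y, hy2, rfl⟩).symm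
    have h6 := h5.trans centralizer_generalizedFitting_le
    have h7 : IsPGroup p ((Or q N).subgroupOf M) := (gF_pgroup h hp hpM).to_le h6
    have h8 : IsPGroup p (Or q N) := h7.of_equiv (subgroupOfEquivOfLe hqM)
    have h9 := inf_pgroups hp hq hpq h8 (Or_pgroup q N)
    rw [inf_idem] at h9
    exact hqN h9

end Cfsg.Agent.Lib.H3Bender
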