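import Mathlib
import Cfsg.Agent.Lib.Basic

/-!
Minimal normal subgroups are powers of simple groups (helper3).
-/

set_option autoImplicit false
set_option maxHeartbeats 400000
set_option linter.unusedVariables false
set_option linter.unusedSectionVars false
set_option linter.unusedFintypeInType false

namespace Cfsg.Agent.Lib.H3Socle

open Subgroup

universe u
variable {H : Type u} [Group H]

/-- conjugate of a subgroup -/
abbrev cjj (g : H) (T : Subgroup H) : Subgroup H := T.map (MulAut.conj g).toMonoidHom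

theorem mem_cjj {g x : H} {T : Subgroup H} : x ∈ cjj g T ↔ g⁻¹ * x * g ∈ T := by
  constructor
  · rintro ⟨y, hy, rfl⟩
    change g⁻¹ * (g * y * g⁻¹) * g ∈ T
    have : g⁻¹ * (g * y * g⁻¹) * g = y := by group
    rwa [this]
  · intro h
    exact ⟨_, h, by change g * (g⁻¹ * x * g) * g⁻¹ = x; group⟩

/-- internal direct products -/
theorem sup_equiv {A B : Subgroup H} (hcomm : ∀ a ∈ A, ∀ b ∈ B, a * b = b * a) (hdisj : A ⊓ B = ⊥) : Nonempty ((A ⊔ B : Subgroup H) ≃* A × B) := by
  let f : A × B →* H := A.subtype.noncommCoprod B.subtype (fun a b => hcomm a a.2 b b.2)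
  have hinj : Function.Injective f := by
    refine (MonoidHom.noncommCoprod_injective _ _ _).mpr ⟨A.subtype_injective, B.subtype_injective, ?_⟩
    rw [Subgroup.range_subtype, Subgroup.range_subtype, disjoint_iff]
    exact hdisj
  have hrange : f.range = A ⊔ B := by
    refine (MonoidHom.noncommCoprod_range _ _ _).trans ?_
    rw [Subgroup.range_subtype, Subgroup.range_subtype]
  exact ⟨(MulEquiv.subgroupCongr hrange.symm).trans (MonoidHom.ofInjective hinj).symm⟩

/-- `(Fin k → T) × T ≃* (Fin (k+1) → T)` -/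
def snocEquiv (T : Type*) [Group T] (k : ℕ) : (Fin k → T) × T ≃* (Fin (k + 1) → T) where
  toFun z := Fin.snoc z.1 z.2
  invFun f := (fun i => f i.castSucc, f (Fin.last k))
  left_inv := by
    rintro ⟨f, t⟩
    simp
  right_inv := by
    intro f
    ext i
    refine Fin.lastCases ?_ (fun i => ?_) i <;> simp
  map_mul' := by
    rintro ⟨f, t⟩ ⟨g, s⟩
    ext i
    refine Fin.lastCases ?_ (fun i => ?_) i <;> simp

theorem main [Finite H] (N : Subgroup H) [hNn : N.Normal] (hN : N ≠ ⊥) (hmin : ∀ M : Subgroup H, M.Normal → M ≤ N → M = ⊥ ∨ M = N) :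
    ∃ (T : Subgroup H) (m : ℕ), T ≤ N ∧ IsSimpleGroup T ∧ 0 < m ∧ Nonempty (N ≃* (Fin m → T)) := by
  classical
  -- minimal subgroups normalised by N
  obtain ⟨T, ⟨hTN, hT1, hTn⟩, hTmin⟩ : ∃ T : Subgroup H, (T ≤ N ∧ T ≠ ⊥ ∧ ∀ n ∈ N, ∀ t ∈ T, n * t * n⁻¹ ∈ T) ∧ ∀ K : Subgroup H, (K ≤ N ∧ K ≠ ⊥ ∧ ∀ n ∈ N, ∀ t ∈ K, n * t * n⁻¹ ∈ K) → K ≤ T → K = T := by
    obtain ⟨T, hT, hmin'⟩ := (Set.toFinite {T : Subgroup H | T ≤ N ∧ T ≠ ⊥ ∧ ∀ n ∈ N, ∀ t ∈ T, n * t * n⁻¹ ∈ T}).exists_minimal ⟨N, le_rfl, hN, fun n hn t ht => mul_mem (mul_mem hn ht) (inv_mem hn)⟩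
    exact ⟨T, hT, fun K hK hKT => le_antisymm hKT (hmin' hK hKT)⟩
  -- conjugates
  have hconj : ∀ g : H, cjj g T ≤ N ∧ cjj g T ≠ ⊥ ∧ (∀ n ∈ N, ∀ t ∈ cjj g T, n * t * n⁻¹ ∈ cjj g T) ∧ ∀ K : Subgroup H, (K ≤ N ∧ K ≠ ⊥ ∧ ∀ n ∈ N, ∀ t ∈ K, n * t * n⁻¹ ∈ K) → K ≤ cjj g T → K = cjj g T := by
    intro g
    refine ⟨?_, ?_, ?_, ?_⟩
    · rintro _ ⟨y, hy, rfl⟩
      exact hNn.conj_mem y (hTN hy) g
    · intro h
      apply hT1
      rw [eq_bot_iff]
      intro t ht
      have : g * t * g⁻¹ ∈ cjj g T := ⟨t, ht, rfl⟩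
      rw [h, mem_bot, mul_inv_eq_one, mul_eq_left] at this
      exact this
    · rintro n hn _ ⟨y, hy, rfl⟩
      have hn' : g⁻¹ * n * g ∈ N := by
        have := hNn.conj_mem n hn g⁻¹
        rwa [inv_inv] at this
      refine ⟨_, hTn _ hn' y hy, ?_⟩
      change g * (g⁻¹ * n * g * y * (g⁻¹ * n * g)⁻¹) * g⁻¹ = n * (g * y * g⁻¹) * n⁻¹
      group
    · rintro K ⟨hKN, hK1, hKn⟩ hKT
      have h1 : cjj g⁻¹ K = T := by
        apply hTmin
        · refine ⟨?_, ?_, ?_⟩
          · rintro _ ⟨y, hy, rfl⟩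
            exact hNn.conj_mem y (hKN hy) g⁻¹
          · intro h
            apply hK1
            rw [eq_bot_iff]
            intro t ht
            have : g⁻¹ * t * g⁻¹⁻¹ ∈ cjj g⁻¹ K := ⟨t, ht, rfl⟩
            rw [h, mem_bot, mul_inv_eq_one, mul_eq_left] at this
            exact this
          · rintro n hn _ ⟨y, hy, rfl⟩
            have hn' : g * n * g⁻¹ ∈ N := hNn.conj_mem n hn g
            refine ⟨_, hKn _ hn' y hy, ?_⟩
            change g⁻¹ * (g * n * g⁻¹ * y * (g * n * g⁻¹)⁻¹) * g⁻¹⁻¹ = n * (g⁻¹ * y * g⁻¹⁻¹) * n⁻¹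
            group
        · rintro _ ⟨y, hy, rfl⟩
          have := hKT hy
          rw [mem_cjj] at this
          change g⁻¹ * y * g⁻¹⁻¹ ∈ T
          rwa [inv_inv]
      rw [← h1]
      ext x
      rw [mem_cjj, mem_cjj, inv_inv]
      have : g * (g⁻¹ * x * g) * g⁻¹ = x := by group
      rw [this]
  -- commuting
  have hcommAB : ∀ A B : Subgroup H, A ≤ N → B ≤ N → (∀ n ∈ N, ∀ t ∈ A, n * t * n⁻¹ ∈ A) → (∀ n ∈ N, ∀ t ∈ B, n * t * n⁻¹ ∈ B) → A ⊓ B = ⊥ → ∀ a ∈ A, ∀ b ∈ B, a * b = b * a := by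
    intro A B hAN hBN hAn hBn hAB a ha b hb
    have h1 : a * b * a⁻¹ * b⁻¹ ∈ A ⊓ B := by
      refine mem_inf.mpr ⟨?_, ?_⟩
      · have := mul_mem ha (hAn b (hBN hb) a⁻¹ (inv_mem ha))
        simpa [mul_assoc] using this
      · exact mul_mem (hBn a (hAN ha) b hb) (inv_mem hb)
    rw [hAB, mem_bot] at h1
    have h2 : a * b = b * a := by
      have h3 : a * b * a⁻¹ = b := by rwa [mul_inv_eq_one] at h1
      rw [mul_inv_eq_iff_eq_mul] at h3
      exact h3
    exact h2
  -- maximal direct power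
  let P : Subgroup H → Prop := fun M => T ≤ M ∧ M ≤ N ∧ (∀ n ∈ N, ∀ t ∈ M, n * t * n⁻¹ ∈ M) ∧ M ≤ T ⊔ centralizer (T : Set H) ∧ ∃ k : ℕ, 0 < k ∧ Nonempty (M ≃* (Fin k → T))
  have hPT : P T := ⟨le_rfl, hTN, hTn, le_sup_left, 1, one_pos, ⟨(MulEquiv.funUnique (Fin 1) T).symm⟩⟩
  obtain ⟨M, hM, hMmax⟩ := (Set.toFinite {M : Subgroup H | P M}).exists_maximal ⟨T, hPT⟩
  obtain ⟨hTM, hMN, hMn, hMc, k, hk, ⟨eM⟩⟩ := hM
  have hall : ∀ g : H, cjj g T ≤ M := by
    intro g
    by_contra hcon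
    obtain ⟨h1, h2, h3, h4⟩ := hconj g
    have hinf : M ⊓ cjj g T = ⊥ := by
      by_contra hne
      have h5 := h4 (M ⊓ cjj g T) ⟨inf_le_left.trans hMN, hne, fun n hn t ht => mem_inf.mpr ⟨hMn n hn t (mem_inf.mp ht).1, h3 n hn t (mem_inf.mp ht).2⟩⟩ inf_le_right
      exact hcon (by rw [← h5]; exact inf_le_left)
    have hcom := hcommAB M (cjj g T) hMN h1 hMn h3 hinf
    obtain ⟨e1⟩ := sup_equiv hcom hinf
    have e2 : cjj g T ≃* T := (T.equivMapOfInjective _ (MulAut.conj g).injective).symm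
    have hP' : P (M ⊔ cjj g T) := by
      refine ⟨hTM.trans le_sup_left, sup_le hMN h1, ?_, ?_, k + 1, Nat.succ_pos k, ⟨e1.trans ((MulEquiv.prodCongr eM e2).trans (snocEquiv T k))⟩⟩
      · intro n hn t ht
        haveI : (M ⊔ cjj g T : Subgroup H) = M ⊔ cjj g T := rfl
        have h6 : (M ⊔ cjj g T).map (MulAut.conj n).toMonoidHom ≤ M ⊔ cjj g T := by
          rw [Subgroup.map_sup]
          apply sup_le_sup
          · rintro _ ⟨y, hy, rfl⟩
            exact hMn n hn y hy
          · rintro _ ⟨y, hy, rfl⟩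
            exact h3 n hn y hy
        exact h6 ⟨t, ht, rfl⟩
      · apply sup_le hMc
        refine le_trans ?_ le_sup_right
        intro b hb
        rw [mem_centralizer_iff]
        intro t ht
        exact hcom t (hTM ht) b hb
    exact hcon (le_sup_right.trans (hMmax hP' le_sup_left))
  have hMN' : M = N := by
    have h1 : normalClosure (T : Set H) ≤ M := by
      rw [normalClosure, closure_le]
      intro x hx
      rw [Group.mem_conjugatesOfSet_iff] at hx
      obtain ⟨t, ht, hc⟩ := hx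
      obtain ⟨g, hg⟩ := isConj_iff.mp hc
      exact hall g ⟨t, ht, hg⟩
    rcases hmin (normalClosure (T : Set H)) inferInstance (h1.trans hMN) with h2 | h2
    · exfalso
      apply hT1
      rw [eq_bot_iff, ← h2]
      exact le_normalClosure
    · exact le_antisymm hMN (by rw [← h2]; exact h1)
  refine ⟨T, k, hTN, ?_, hk, ⟨?_⟩⟩
  · haveI : Nontrivial T := (nontrivial_iff_ne_bot T).mpr hT1
    refine ⟨fun K hK => ?_⟩
    by_cases hKb : K = ⊥
    · exact Or.inl hKb
    right
    have h1 : K.map T.subtype = T := by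
      apply hTmin
      · refine ⟨(map_subtype_le K).trans hTN, ?_, ?_⟩
        · intro h
          exact hKb ((map_eq_bot_iff_of_injective K T.subtype_injective).mp h)
        · rintro n hn _ ⟨y, hy, rfl⟩
          have hn' : n ∈ T ⊔ centralizer (T : Set H) := hMc (by rw [hMN']; exact hn)
          -- the normaliser of K contains T and its centraliser
          have h2 : T ⊔ centralizer (T : Set H) ≤ normalizer ((K.map T.subtype : Subgroup H) : Set H) := by
            apply sup_le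
            · intro t ht
              rw [mem_normalizer_iff]
              have key : ∀ t ∈ T, ∀ x ∈ K.map T.subtype, t * x * t⁻¹ ∈ K.map T.subtype := by
                rintro t ht _ ⟨z, hz, rfl⟩
                exact ⟨_, hK.conj_mem z hz ⟨t, ht⟩, rfl⟩
              intro x
              constructor
              · exact key t ht x
              · intro h3
                have := key t⁻¹ (inv_mem ht) _ h3
                simpa [mul_assoc] using this
            · intro c hc
              rw [mem_normalizer_iff]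
              have key : ∀ c ∈ centralizer (T : Set H), ∀ x ∈ K.map T.subtype, c * x * c⁻¹ ∈ K.map T.subtype := by
                rintro c hc _ ⟨z, hz, rfl⟩
                have h3 := mem_centralizer_iff.mp hc (z : H) z.2
                have h4 : c * (z : H) * c⁻¹ = z := by rw [← h3, mul_inv_cancel_right]
                exact ⟨z, hz, h4.symm⟩
              intro x
              constructor
              · exact key c hc x
              · intro h3
                have := key c⁻¹ (inv_mem hc) _ h3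
                simpa [mul_assoc] using this
          exact (mem_normalizer_iff.mp (h2 hn') _).mp ⟨y, hy, rfl⟩
      · exact map_subtype_le K
    rw [eq_top_iff]
    intro t _
    have : (t : H) ∈ K.map T.subtype := by
      rw [h1]
      exact t.2
    obtain ⟨y, hy, hyt⟩ := this
    rw [← Subtype.ext hyt]
    exact hy
  · exact (MulEquiv.subgroupCongr hMN'.symm).trans eM

/-- a copy of a finite group in `Type` -/
theorem exists_small (T : Type*) [Group T] [Finite T] : ∃ (T' : Type) (_ : Group T'), Nonempty (T ≃* T') := by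
  haveI : Small.{0} T := Countable.toSmall T
  exact ⟨Shrink.{0} T, inferInstance, ⟨(Shrink.mulEquiv (α := T)).symm⟩⟩

theorem s0721 [Finite H] (N : Subgroup H) [hNn : N.Normal] (hN : N ≠ ⊥) (hmin : ∀ M : Subgroup H, M.Normal → M ≤ N → M = ⊥ ∨ M = N) :
    ∃ (T : Type) (_ : Group T) (m : ℕ), IsSimpleGroup T ∧ 0 < m ∧ Nonempty (N ≃* (Fin m → T)) := by
  obtain ⟨T, m, hTN, hTs, hm, ⟨e⟩⟩ := main N hN hmin
  obtain ⟨T', gT', ⟨e'⟩⟩ := exists_small T
  letI := gT'
  refine ⟨T', gT', m, ?_, hm, ⟨e.trans (MulEquiv.piCongrRight fun _ => e')⟩⟩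
  exact e'.symm.isSimpleGroup

end Cfsg.Agent.Lib.H3Socle
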