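import Mathlib
import Cfsg.Agent.Lib.PGrpF
import Cfsg.Agent.Lib.PNilp
import Cfsg.Agent.Lib.H3Socle
import Cfsg.Agent.H3.Cyc

set_option autoImplicit false
set_option linter.style.longLine false

namespace Cfsg.Agent.Lib.H3CenCyc

open Subgroup

universe u

theorem dd {n : ℕ} [NeZero n] (d : ZMod (2 * n)) (h : d + d = 0) : d = 0 ∨ d = (n : ZMod (2 * n)) := by
  have hn : 0 < n := Nat.pos_of_ne_zero (NeZero.ne n)
  haveI : NeZero (2 * n) := ⟨by omega⟩
  have h1 : ((d.val + d.val : ℕ) : ZMod (2 * n)) = 0 := by
    push_cast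
    rw [ZMod.natCast_zmod_val]
    exact h
  rw [ZMod.natCast_eq_zero_iff] at h1
  obtain ⟨c, hc⟩ := h1
  have h2 := ZMod.val_lt d
  have h3 : d.val = n * c := by
    have : 2 * n * c = n * c + n * c := by ring
    omega
  have h4 : c < 2 := by
    by_contra hcon
    have : n * 2 ≤ n * c := Nat.mul_le_mul_left n (by omega)
    omega
  have h5 : d = ((d.val : ℕ) : ZMod (2 * n)) := (ZMod.natCast_zmod_val d).symm
  have h6 : c = 0 ∨ c = 1 := by omega
  rcases h6 with rfl | rfl
  · left
    rw [h5, h3, mul_zero, Nat.cast_zero]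
  · right
    rw [h5, h3, mul_one]

theorem quat {n : ℕ} [NeZero n] (q : QuaternionGroup n) :
    (∀ r, r * q = q * r) ∨ ∃ q0 : QuaternionGroup n, ∀ r, r * q = q * r → r ∈ zpowers q0 := by
  rcases q with i | i
  · by_cases hi : i + i = 0
    · left
      rintro (j | j)
      · rw [QuaternionGroup.a_mul_a, QuaternionGroup.a_mul_a, add_comm]
      · rw [QuaternionGroup.xa_mul_a, QuaternionGroup.a_mul_xa]
        congr 1
        have : i = -i := eq_neg_of_add_eq_zero_left hi
        rw [sub_eq_add_neg, ← this]
    · right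
      refine ⟨QuaternionGroup.a 1, ?_⟩
      rintro (j | j) hr
      · refine mem_zpowers_iff.2 ⟨(j.val : ℤ), ?_⟩
        rw [zpow_natCast, QuaternionGroup.a_one_pow]
        haveI : NeZero (2 * n) := ⟨by have := NeZero.ne n; omega⟩
        rw [ZMod.natCast_zmod_val]
      · exfalso
        rw [QuaternionGroup.xa_mul_a, QuaternionGroup.a_mul_xa] at hr
        have h1 : j + i = j - i := by
          injection hr
        apply hi
        have h2 : i = -i := by
          have := add_left_cancel (h1.trans (sub_eq_add_neg j i))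
          exact this
        calc i + i = i + -i := by rw [← h2]
          _ = 0 := add_neg_cancel i
  · right
    refine ⟨QuaternionGroup.xa i, ?_⟩
    have ha : ∀ d : ZMod (2 * n), d + d = 0 → (QuaternionGroup.a d : QuaternionGroup n) ∈ zpowers (QuaternionGroup.xa i) := by
      intro d hd
      rcases dd d hd with rfl | rfl
      · exact one_mem _
      · rw [← QuaternionGroup.xa_sq i]
        exact (zpowers (QuaternionGroup.xa i)).pow_mem (mem_zpowers _) 2
    rintro (j | j) hr
    · apply ha
      rw [QuaternionGroup.xa_mul_a, QuaternionGroup.a_mul_xa] at hr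
      have h1 : i - j = i + j := by injection hr
      have h2 : -j = j := by
        rw [sub_eq_add_neg] at h1
        exact add_left_cancel h1
      calc j + j = j + -j := by rw [h2]
        _ = 0 := add_neg_cancel j
    · rw [QuaternionGroup.xa_mul_xa, QuaternionGroup.xa_mul_xa] at hr
      have h1 : (n : ZMod (2 * n)) + i - j = (n : ZMod (2 * n)) + j - i := by injection hr
      have h2 : (j - i) + (j - i) = 0 := by linear_combination (-1 : ZMod (2 * n)) * h1
      have h3 : (QuaternionGroup.xa j : QuaternionGroup n) = QuaternionGroup.xa i * QuaternionGroup.a (j - i) := by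
        rw [QuaternionGroup.xa_mul_a]
        congr 1
        ring
      rw [h3]
      exact mul_mem (mem_zpowers _) (ha _ h2)

theorem bwd {G : Type u} [Group G] [Finite G] {k m : ℕ} (hm : Odd m)
    (e : G ≃* QuaternionGroup (2 ^ k) × Multiplicative (ZMod m)) (x : G) (hx : x ∉ center G) :
    IsCyclic (centralizer ({x} : Set G)) := by
  haveI : NeZero m := ⟨by rintro rfl; exact absurd hm (by decide)⟩
  have hcom : ∀ y : G, y * x = x * y ↔ (e y).1 * (e x).1 = (e x).1 * (e y).1 := by
    intro y
    constructor
    · intro h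
      have := congrArg (fun z => (e z).1) h
      simpa [map_mul] using this
    · intro h
      apply e.injective
      rw [map_mul, map_mul]
      exact Prod.ext h (mul_comm _ _)
  rcases quat (e x).1 with h | ⟨q0, h⟩
  · exfalso
    apply hx
    rw [mem_center_iff]
    intro y
    exact (hcom y).2 (h _)
  · have hcyc : IsCyclic (zpowers q0 × Multiplicative (ZMod m)) := by
      rw [Group.isCyclic_prod_iff]
      refine ⟨inferInstance, inferInstance, ?_⟩
      have h1 : Nat.card (Multiplicative (ZMod m)) = m := by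
        rw [Nat.card_congr Multiplicative.toAdd, Nat.card_zmod]
      rw [h1]
      have h2 : Nat.card (zpowers q0) ∣ 2 ^ (k + 2) := by
        have h3 := Subgroup.card_subgroup_dvd_card (zpowers q0)
        rw [Nat.card_eq_fintype_card (α := QuaternionGroup (2 ^ k)), QuaternionGroup.card] at h3
        rw [pow_add]
        rwa [mul_comm (2 ^ k) (2 ^ 2)]
      apply Nat.Coprime.coprime_dvd_left h2
      apply Nat.Coprime.pow_left
      exact (Nat.coprime_two_left).2 hm
    let f : centralizer ({x} : Set G) →* zpowers q0 × Multiplicative (ZMod m) :=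
      { toFun := fun y => (⟨(e y).1, h _ ((hcom y).1 (mem_centralizer_singleton_iff.1 y.2))⟩, (e y).2)
        map_one' := by
          refine Prod.ext (Subtype.ext ?_) ?_
          · simp
          · simp
        map_mul' := by
          intro a b
          refine Prod.ext (Subtype.ext ?_) ?_
          · simp
          · simp }
    have hf : Function.Injective f := by
      intro a b hab
      apply Subtype.ext
      apply e.injective
      have h1 := congrArg Prod.fst hab
      have h2 := congrArg Prod.snd hab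
      exact Prod.ext (congrArg Subtype.val h1) h2
    exact isCyclic_of_injective f hf

theorem fwd {G : Type u} [Group G] [Finite G] (hG : Group.IsNilpotent G) (hna : ¬ IsMulCommutative G)
    (h : ∀ x : G, x ∉ center G → IsCyclic (centralizer ({x} : Set G))) :
    ∃ (k m : ℕ), 1 ≤ k ∧ Odd m ∧ Nonempty (G ≃* QuaternionGroup (2 ^ k) × Multiplicative (ZMod m)) := by
  have hidx : (center G).index ≠ 1 := by
    intro h1
    rw [index_eq_one] at h1
    apply hna
    refine ⟨⟨fun a b => ?_⟩⟩
    have : b ∈ center G := by rw [h1]; trivial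
    exact mem_center_iff.1 this a
  obtain ⟨p, hp, hpd⟩ := Nat.exists_prime_and_dvd hidx
  haveI : Fact p.Prime := ⟨hp⟩
  let P : Sylow p G := default
  haveI hPn : (P : Subgroup G).Normal := inferInstance
  have hPZ : ¬ (P : Subgroup G) ≤ center G := fun hle => P.not_dvd_index (hpd.trans (index_dvd_of_le hle))
  obtain ⟨x0, hx0P, hx0Z⟩ := SetLike.not_le_iff_exists.1 hPZ
  obtain ⟨N, hN, hNc, n, hn⟩ := Cfsg.Agent.Lib.PNilp.pNil_of_isNilpotent (p := p) hG
  have hdis : Disjoint (P : Subgroup G) N := by
    rw [disjoint_iff]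
    exact Subgroup.inf_eq_bot_of_coprime (Cfsg.Agent.Lib.PNilp.coprime_card_of_sylow P hNc).symm
  have hcomm : ∀ a ∈ (P : Subgroup G), ∀ b ∈ N, a * b = b * a := fun a ha b hb =>
    Subgroup.commute_of_normal_of_disjoint (P : Subgroup G) N hPn hN hdis a b ha hb
  have hsup : (P : Subgroup G) ⊔ N = ⊤ := by
    rw [← index_eq_one]
    have h1 : ((P : Subgroup G) ⊔ N).index ∣ p ^ n := hn ▸ index_dvd_of_le le_sup_right
    have h2 : ((P : Subgroup G) ⊔ N).index ∣ (P : Subgroup G).index := index_dvd_of_le le_sup_left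
    obtain ⟨j, -, hj⟩ := (Nat.dvd_prime_pow hp).1 h1
    rcases j with _ | j
    · rw [hj, pow_zero]
    · exfalso
      apply P.not_dvd_index
      refine dvd_trans ?_ h2
      rw [hj]
      exact dvd_pow_self p (Nat.succ_ne_zero j)
  have hcen : ∀ z : G, (∀ a ∈ (P : Subgroup G), a * z = z * a) → (∀ b ∈ N, b * z = z * b) → z ∈ center G := by
    intro z h1 h2
    have h3 : (P : Subgroup G) ⊔ N ≤ centralizer ({z} : Set G) := by
      apply sup_le
      · intro a ha
        exact mem_centralizer_singleton_iff.2 (h1 a ha)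
      · intro b hb
        exact mem_centralizer_singleton_iff.2 (h2 b hb)
    rw [hsup] at h3
    rw [mem_center_iff]
    intro g
    exact mem_centralizer_singleton_iff.1 (h3 (mem_top g))
  have hNcyc : IsCyclic N := by
    haveI := h x0 hx0Z
    have hle : N ≤ centralizer ({x0} : Set G) := fun b hb =>
      mem_centralizer_singleton_iff.2 (hcomm x0 hx0P b hb).symm
    exact isCyclic_of_injective (inclusion hle) (inclusion_injective hle)
  have hPnc : ¬ IsCyclic (P : Subgroup G) := by
    intro hc
    apply hx0Z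
    apply hcen
    · intro a ha
      exact congrArg Subtype.val ((IsCyclic.commGroup (α := (P : Subgroup G))).mul_comm ⟨a, ha⟩ ⟨x0, hx0P⟩)
    · intro b hb
      exact (hcomm x0 hx0P b hb).symm
  haveI : Nontrivial (P : Subgroup G) := by
    refine ⟨⟨⟨x0, hx0P⟩, 1, fun he => hx0Z ?_⟩⟩
    have : x0 = 1 := congrArg Subtype.val he
    rw [this]
    exact one_mem _
  haveI := P.isPGroup'.center_nontrivial
  obtain ⟨j, hj0, hj⟩ := (IsPGroup.nontrivial_iff_card (P.isPGroup'.to_subgroup (center (P : Subgroup G)))).1 inferInstance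
  obtain ⟨z, hz⟩ := exists_prime_orderOf_dvd_card' (G := center (P : Subgroup G)) p (by
    rw [hj]; exact dvd_pow_self p hj0.ne')
  have hzo : orderOf ((z : (P : Subgroup G)) : G) = p := by
    rw [Subgroup.orderOf_coe, Subgroup.orderOf_coe, hz]
  set w : G := ((z : (P : Subgroup G)) : G) with hw
  have hwP : w ∈ (P : Subgroup G) := (z : (P : Subgroup G)).2
  have hwZ : w ∈ center G := by
    apply hcen
    · intro a ha
      have := mem_center_iff.1 z.2 ⟨a, ha⟩
      exact congrArg Subtype.val this
    · intro b hb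
      exact (hcomm w hwP b hb).symm
  have hC : ∀ C : Subgroup G, IsCyclic C → ∀ y ∈ C, w ∈ C → orderOf y = p → y ∈ zpowers w := by
    intro C hC y hy hwC hyo
    have h1 : (⟨y, hy⟩ : C) ∈ zpowers (⟨w, hwC⟩ : C) := by
      apply Cfsg.Agent.H3.Cyc.mem_of_orderOf_dvd_card
      rw [Nat.card_zpowers, Subgroup.orderOf_mk, Subgroup.orderOf_mk, hyo, hzo]
    obtain ⟨k, hk⟩ := mem_zpowers_iff.1 h1
    exact mem_zpowers_iff.2 ⟨k, congrArg Subtype.val hk⟩
  have key : ∀ y : G, orderOf y = p → y ∈ zpowers w := by
    intro y hy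
    by_cases hyZ : y ∈ center G
    · refine hC _ (h x0 hx0Z) y ?_ ?_ hy
      · exact mem_centralizer_singleton_iff.2 (mem_center_iff.1 hyZ x0).symm
      · exact mem_centralizer_singleton_iff.2 (mem_center_iff.1 hwZ x0).symm
    · refine hC _ (h y hyZ) y ?_ ?_ hy
      · exact mem_centralizer_singleton_iff.2 rfl
      · exact mem_centralizer_singleton_iff.2 (mem_center_iff.1 hwZ y).symm
  have huniq : ∀ x y : (P : Subgroup G), orderOf x = p → orderOf y = p → x ∈ zpowers y := by
    intro x y hx hy
    have hx' : orderOf (x : G) = p := by rw [Subgroup.orderOf_coe, hx]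
    have hy' : orderOf (y : G) = p := by rw [Subgroup.orderOf_coe, hy]
    have h1 := Cfsg.Agent.H3.Cyc.mem_zpowers_of_orderOf_dvd (key x hx') (key y hy') (by rw [hx', hy'])
    obtain ⟨k, hk⟩ := mem_zpowers_iff.1 h1
    exact mem_zpowers_iff.2 ⟨k, Subtype.ext (by push_cast; exact hk)⟩
  rcases Cfsg.Agent.Lib.PGrpF.unique_imp P.isPGroup' huniq with h1 | ⟨hp2, k, ⟨e⟩⟩
  · exact absurd h1 hPnc
  · have hk : 1 ≤ k := by
      rcases Nat.eq_zero_or_pos k with rfl | hk
      · exfalso
        apply hPnc
        rw [pow_zero] at e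
        haveI := QuaternionGroup.quaternionGroup_one_isCyclic
        exact isCyclic_of_surjective e.symm e.symm.surjective
      · exact hk
    refine ⟨k, Nat.card N, hk, ?_, ?_⟩
    · rw [← Nat.not_even_iff_odd]
      intro he
      rw [hp2] at hNc
      have := Nat.Coprime.eq_one_of_dvd hNc.symm he.two_dvd
      omega
    · obtain ⟨e1⟩ := Cfsg.Agent.Lib.H3Socle.sup_equiv hcomm (disjoint_iff.1 hdis)
      have e2 : G ≃* ((P : Subgroup G) ⊔ N : Subgroup G) :=
        Subgroup.topEquiv.symm.trans (MulEquiv.subgroupCongr hsup.symm)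
      have e3 : N ≃* Multiplicative (ZMod (Nat.card N)) := (zmodCyclicMulEquiv hNcyc).symm
      exact ⟨(e2.trans e1).trans (MulEquiv.prodCongr e e3)⟩

end Cfsg.Agent.Lib.H3CenCyc
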