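import Cfsg.Agent.Lib.ConjCover
import Cfsg.Agent.Lib.ClassSizes
import Cfsg.Agent.Lib.CoprimeB
import Cfsg.Agent.Lib.ZStarE
import Cfsg.Prelude.Def_Transfer

/-! p-elements whose class size is the largest p-part (helper3) -/

set_option autoImplicit false

namespace Cfsg.Agent.Lib.H3ClsP

open Subgroup Cfsg Cfsg.Agent.Lib Cfsg.Agent.Lib.Basic Cfsg.Agent.Lib.Cores Cfsg.Agent.Lib.ClassSizes Cfsg.Agent.Lib.BlockPP
open scoped Pointwise

universe u

theorem df {C : Type u} [Group C] [Finite C] (p : ℕ) [hp : Fact p.Prime]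
    (h : ∀ y : C, ¬ p ∣ orderOf y → ¬ p ∣ (centralizer ({y} : Set C)).index) (P : Sylow p C) :
    (P : Subgroup C) ⊔ centralizer ((P : Subgroup C) : Set C) = ⊤ := by
  apply ConjCover.eq_top_of_conj_cover
  intro g
  set D := centralizer ({pq p g} : Set C) with hD
  have hpD : pp p g ∈ D := mem_centralizer_singleton.2 (pp_commute_pq p g)
  have hDi : ¬ p ∣ D.index := h _ (not_dvd_orderOf_pq hp.out g)
  have hz : IsPGroup p (zpowers (⟨pp p g, hpD⟩ : D)) := by
    obtain ⟨k, hk⟩ := exists_orderOf_pp hp.out g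
    apply IsPGroup.of_card (n := k)
    rw [Nat.card_zpowers, ← hk]
    exact (Subgroup.orderOf_mk _ _)
  obtain ⟨S, hS⟩ := hz.exists_le_sylow
  have hSp : IsPGroup p ((S : Subgroup D).map D.subtype) := S.isPGroup'.map _
  obtain ⟨T, hT⟩ := hSp.exists_le_sylow
  have hcard : Nat.card ((S : Subgroup D).map D.subtype) = Nat.card (T : Subgroup C) := by
    rw [← Nat.card_congr ((S : Subgroup D).equivMapOfInjective _ D.subtype_injective).toEquiv,
      S.card_eq_multiplicity, T.card_eq_multiplicity]
    congr 1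
    rw [← D.card_mul_index, Nat.factorization_mul Nat.card_pos.ne' index_ne_zero_of_finite, Finsupp.add_apply,
      Nat.factorization_eq_zero_of_not_dvd hDi, add_zero]
  have hTS : (S : Subgroup D).map D.subtype = T := by
    apply SetLike.coe_injective
    apply Set.eq_of_subset_of_ncard_le hT
    rw [← Nat.card_coe_set_eq, ← Nat.card_coe_set_eq]
    exact hcard.ge
  have h1 : pp p g ∈ (T : Subgroup C) := by
    rw [← hTS]
    exact ⟨⟨pp p g, hpD⟩, hS (mem_zpowers _), rfl⟩
  have h2 : pq p g ∈ centralizer ((T : Subgroup C) : Set C) := by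
    rw [mem_centralizer_iff]
    intro t ht
    have h3 : t ∈ D := by
      have : t ∈ (S : Subgroup D).map D.subtype := by rw [hTS]; exact ht
      obtain ⟨t', -, rfl⟩ := this
      exact t'.2
    exact (mem_centralizer_iff.1 h3 _ rfl).symm
  obtain ⟨c, hc⟩ := MulAction.exists_smul_eq C P T
  have hcm : ∀ t : C, t ∈ (T : Subgroup C) ↔ c⁻¹ * t * c ∈ (P : Subgroup C) := by
    intro t
    rw [← hc, Sylow.coe_subgroup_smul, SchurZas.mem_conj_smul_iff]
  refine ⟨c, ?_⟩
  have h3 : c⁻¹ * g * c = (c⁻¹ * pp p g * c) * (c⁻¹ * pq p g * c) := by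
    conv_lhs => rw [← pp_mul_pq p g]
    group
  rw [h3]
  apply mul_mem
  · exact (le_sup_left : (P : Subgroup C) ≤ _) ((hcm _).1 h1)
  · apply (le_sup_right : centralizer ((P : Subgroup C) : Set C) ≤ _)
    rw [mem_centralizer_iff]
    intro t ht
    have h4 : c * t * c⁻¹ ∈ (T : Subgroup C) := by
      rw [hcm]
      have : c⁻¹ * (c * t * c⁻¹) * c = t := by group
      rw [this]; exact ht
    have h5 := mem_centralizer_iff.1 h2 _ h4
    calc t * (c⁻¹ * pq p g * c) = c⁻¹ * ((c * t * c⁻¹) * pq p g) * c := by group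
      _ = c⁻¹ * (pq p g * (c * t * c⁻¹)) * c := by rw [h5]
      _ = (c⁻¹ * pq p g * c) * t := by group

theorem s4127 {G : Type u} [Group G] [Finite G] (p : ℕ) [hp : Fact p.Prime]
    (a : ℕ) (hmax : ∀ y : G, ¬ p ^ (a + 1) ∣ (Subgroup.centralizer ({y} : Set G)).index)
    (hx : ∃ x : G, (∃ k : ℕ, orderOf x = p ^ k) ∧ (Subgroup.centralizer ({x} : Set G)).index = p ^ a) :
    Cfsg.HasNormalPComplement p G := by
  classical
  obtain ⟨x, ⟨k, hxk⟩, hxi⟩ := hx
  set C := centralizer ({x} : Set G) with hC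
  have hCp : ∀ y : C, ¬ p ∣ orderOf y → ¬ p ∣ (centralizer ({y} : Set C)).index := by
    intro y hy hdvd
    have h1 : centralizer ({y} : Set C) = (centralizer ({(y : G)} : Set G)).subgroupOf C := by
      ext g
      rw [mem_subgroupOf, mem_centralizer_singleton, mem_centralizer_singleton]
      exact ⟨fun h => congrArg Subtype.val h, fun h => Subtype.ext h⟩
    have hcomm : Commute x (y : G) := (mem_centralizer_singleton.1 y.2).symm
    have hcop : (orderOf x).Coprime (orderOf (y : G)) := by
      rw [hxk, orderOf_coe]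
      exact Nat.Coprime.pow_left _ ((Nat.Prime.coprime_iff_not_dvd hp.out).2 hy)
    have h2 := centralizer_mul_of_coprime hcomm hcop
    apply hmax (x * y)
    rw [h2]
    have h3 : (centralizer ({x} : Set G) ⊓ centralizer ({(y : G)} : Set G)).index =
        (centralizer ({(y : G)} : Set G)).relIndex C * p ^ a := by
      rw [← hxi, ← inf_relIndex_right, inf_comm]
      exact (relIndex_mul_index inf_le_right).symm
    rw [h3]
    have h4 : p ∣ (centralizer ({(y : G)} : Set G)).relIndex C := by
      rw [h1] at hdvd; exact hdvd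
    rw [pow_succ, mul_comm (p ^ a) p]
    exact Nat.mul_dvd_mul_right h4 _
  obtain ⟨P₀⟩ := (inferInstance : Nonempty (Sylow p C))
  obtain ⟨hP₀n, K, hKn, hKp, hPK, hPKt⟩ := ConjCover.direct_factor P₀ (df p hCp P₀)
  have hcomm : ∀ u ∈ (P₀ : Subgroup C), ∀ v ∈ K, u * v = v * u := fun u hu v hv =>
    Subgroup.commute_of_normal_of_disjoint _ _ hP₀n hKn (disjoint_iff.2 hPK) u v hu hv
  -- elements of order prime to p in C lie in K
  have hKmem : ∀ y : C, ¬ p ∣ orderOf y → y ∈ K := by
    intro y hy
    have h1 : y ∈ (((P₀ : Subgroup C) ⊔ K : Subgroup C) : Set C) := by rw [hPKt]; trivial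
    rw [Subgroup.mul_normal] at h1
    obtain ⟨u, hu, v, hv, huv⟩ := h1
    change u * v = y at huv
    have h2 : Commute u v := hcomm u hu v hv
    have h3 : u = 1 := by
      obtain ⟨j, hj⟩ := P₀.isPGroup' ⟨u, hu⟩
      have hj' : u ^ p ^ j = 1 := congrArg Subtype.val hj
      have h4 : u ^ orderOf y = 1 := by
        have h5 : u ^ orderOf y * v ^ orderOf y = 1 := by
          rw [← h2.mul_pow, huv, pow_orderOf_eq_one]
        have h6 : u ^ orderOf y ∈ (P₀ : Subgroup C) ⊓ K := by
          refine ⟨(P₀ : Subgroup C).pow_mem hu _, ?_⟩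
          have h7 : u ^ orderOf y = (v ^ orderOf y)⁻¹ := eq_inv_of_mul_eq_one_left h5
          rw [h7]
          exact K.inv_mem (K.pow_mem hv _)
        rw [hPK] at h6
        exact Subgroup.mem_bot.1 h6
      have h7 : orderOf u ∣ p ^ j := orderOf_dvd_of_pow_eq_one hj'
      have h8 : orderOf u ∣ orderOf y := orderOf_dvd_of_pow_eq_one h4
      have h9 : (p ^ j).Coprime (orderOf y) := Nat.Coprime.pow_left _ ((Nat.Prime.coprime_iff_not_dvd hp.out).2 hy)
      have h10 := Nat.dvd_gcd h7 h8
      rw [h9.gcd_eq_one, Nat.dvd_one, orderOf_eq_one_iff] at h10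
      exact h10
    rw [← huv, h3, one_mul]; exact hv
  -- x lies in O_p(G)
  have hzp : IsPGroup p (zpowers x) := IsPGroup.of_card (n := k) (by rw [Nat.card_zpowers, hxk])
  obtain ⟨P, hP⟩ := hzp.exists_le_sylow
  have hxP : x ∈ (P : Subgroup G) := hP (mem_zpowers x)
  have hconjP : ∀ g : G, g * x * g⁻¹ ∈ (P : Subgroup G) := by
    intro g
    obtain ⟨c, hc, l, hl, hgl⟩ := ZStar.exists_mul_of_coprime_index (H := C) (L := (P : Subgroup G)) (by
      rw [hxi]
      apply Nat.Coprime.pow_left
      exact (Nat.Prime.coprime_iff_not_dvd hp.out).2 P.not_dvd_index) g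
    have h1 : l * x = x * l := mem_centralizer_singleton.1 hl
    have h2 : g * x * g⁻¹ = c * x * c⁻¹ := by
      rw [hgl]
      calc c * l * x * (c * l)⁻¹ = c * (l * x) * l⁻¹ * c⁻¹ := by group
        _ = c * (x * l) * l⁻¹ * c⁻¹ := by rw [h1]
        _ = c * x * c⁻¹ := by group
    rw [h2]
    exact mul_mem (mul_mem hc hxP) (inv_mem hc)
  have hxO : x ∈ pCore p G := by
    have h1 : normalClosure ({x} : Set G) ≤ (P : Subgroup G) := by
      rw [normalClosure, closure_le]
      intro y hy
      rw [Group.mem_conjugatesOfSet_iff] at hy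
      obtain ⟨z, hz, hzy⟩ := hy
      rw [Set.mem_singleton_iff] at hz
      rw [hz] at hzy
      obtain ⟨g, rfl⟩ := isConj_iff.mp hzy
      exact hconjP g
    have h2 : normalClosure ({x} : Set G) ≤ pCore p G := le_pCore normalClosure_normal (P.isPGroup'.to_le h1)
    exact h2 (subset_normalClosure rfl)
  -- Thompson's lemma
  have hOn : (pCore p G).Normal := Cores.pCore_normal p
  set K' := K.map C.subtype with hK'
  have hK'card : Nat.card K' = Nat.card K := (Nat.card_congr (K.equivMapOfInjective _ C.subtype_injective).toEquiv).symm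
  have hKO : K' ≤ centralizer (pCore p G : Set G) := by
    refine CoprimeB.thompson_PxQ (p := p) (P := zpowers x) (Q := K') (U := pCore p G) hzp ?_ (pCore_isPGroup p) ?_ ?_ ?_ ?_
    · rw [hK'card]
      exact ((Nat.Prime.coprime_iff_not_dvd hp.out).2 hKp).symm
    · rw [zpowers_le, mem_centralizer_iff]
      rintro _ ⟨u, -, rfl⟩
      exact mem_centralizer_singleton.1 u.2
    · rw [normalizer_eq_top_iff.mpr hOn]; exact le_top
    · rw [normalizer_eq_top_iff.mpr hOn]; exact le_top
    · intro u hu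
      have huC : u ∈ C := by
        rw [hC, mem_centralizer_singleton]
        exact (mem_centralizer_iff.1 hu.2 x (mem_zpowers x)).symm
      have huP : (⟨u, huC⟩ : C) ∈ (P₀ : Subgroup C) := by
        obtain ⟨j, hj⟩ := pCore_isPGroup (G := G) p ⟨u, hu.1⟩
        have hj' : u ^ p ^ j = 1 := congrArg Subtype.val hj
        have h1 : IsPGroup p (zpowers (⟨u, huC⟩ : C)) := by
          have h2 : orderOf (⟨u, huC⟩ : C) ∣ p ^ j := orderOf_dvd_of_pow_eq_one (Subtype.ext hj')
          obtain ⟨i, -, hi⟩ := (Nat.dvd_prime_pow hp.out).1 h2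
          exact IsPGroup.of_card (n := i) (by rw [Nat.card_zpowers, hi])
        obtain ⟨T, hT⟩ := h1.exists_le_sylow
        have hTP : T = P₀ := by
          obtain ⟨c, hc⟩ := MulAction.exists_smul_eq C P₀ T
          rw [← hc]
          exact Sylow.smul_eq_of_normal
        rw [← hTP]
        exact hT (mem_zpowers _)
      rw [mem_centralizer_iff]
      rintro _ ⟨v, hv, rfl⟩
      exact (congrArg Subtype.val (hcomm _ huP v hv)).symm
  -- K' is normal
  have hDn : (centralizer (pCore p G : Set G)).Normal := by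
    haveI := hOn
    infer_instance
  have hDC : centralizer (pCore p G : Set G) ≤ C := by
    intro u hu
    rw [hC, mem_centralizer_singleton]
    exact (mem_centralizer_iff.1 hu x hxO).symm
  have hK'n : K'.Normal := by
    constructor
    rintro _ ⟨v, hv, rfl⟩ g
    have h1 : g * (v : G) * g⁻¹ ∈ centralizer (pCore p G : Set G) := hDn.conj_mem _ (hKO ⟨v, hv, rfl⟩) g
    have h2 := hDC h1
    refine ⟨⟨_, h2⟩, hKmem _ ?_, rfl⟩
    have h3 : orderOf (⟨g * (v : G) * g⁻¹, h2⟩ : C) = orderOf v := by
      rw [Subgroup.orderOf_mk, ← orderOf_coe v]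
      exact orderOf_injective (MulAut.conj g).toMonoidHom (MulAut.conj g).injective (v : G)
    rw [h3]
    intro h4
    apply hKp
    exact h4.trans (by
      have := orderOf_dvd_natCard (⟨v, hv⟩ : K)
      rwa [Subgroup.orderOf_mk] at this)
  refine ⟨P, K', hK'n, ?_⟩
  -- orders
  have hcardC : Nat.card (P₀ : Subgroup C) * Nat.card K = Nat.card C := by
    have h1 : (P₀ : Subgroup C).IsComplement' K := by
      apply Subgroup.isComplement'_of_disjoint_and_mul_eq_univ (disjoint_iff.2 hPK)
      rw [← Subgroup.mul_normal, hPKt]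
      rfl
    exact h1.card_mul
  have hPcard : Nat.card (P : Subgroup G) = p ^ a * Nat.card (P₀ : Subgroup C) := by
    rw [P.card_eq_multiplicity, P₀.card_eq_multiplicity, ← C.card_mul_index, hxi,
      Nat.factorization_mul Nat.card_pos.ne' (pow_ne_zero _ hp.out.ne_zero), Finsupp.add_apply,
      hp.out.factorization_pow, Finsupp.single_eq_same, pow_add, mul_comm]
  have hcardG : Nat.card K' * Nat.card (P : Subgroup G) = Nat.card G := by
    rw [← C.card_mul_index, hxi, ← hcardC, hK'card, hPcard]; ring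
  apply Subgroup.isComplement'_of_coprime hcardG
  rw [hK'card, P.card_eq_multiplicity]
  apply Nat.Coprime.pow_right
  exact ((Nat.Prime.coprime_iff_not_dvd hp.out).2 hKp).symm

end Cfsg.Agent.Lib.H3ClsP
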