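import Cfsg.Agent.Lib.H3Misc
import Cfsg.Agent.Lib.H3LBalB
import Cfsg.Agent.Lib.ZStarB

/-!
Components of involution centralizers (helper3).
-/

set_option autoImplicit false
set_option maxHeartbeats 400000
set_option linter.unusedVariables false
set_option linter.unusedSectionVars false

namespace Cfsg.Agent.Lib.H3CompA

open Subgroup Cfsg Cfsg.Agent.Lib.Basic Cfsg.Agent.Lib.Cores Cfsg.Agent.Lib.Components Cfsg.Agent.Lib.PComp
  Cfsg.Agent.Lib.H3Loc Cfsg.Agent.Lib.H3LocB Cfsg.Agent.Lib.H3LocC Cfsg.Agent.Lib.H3LocD Cfsg.Agent.Lib.H3LBal Cfsg.Agent.Lib.H3LBalB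
  Cfsg.Agent.Lib.H3LocG Cfsg.Agent.Lib.H3Hyp
  Cfsg.Agent.Lib.SchurZas Cfsg.Agent.Lib.H3Sig Cfsg.Agent.Lib.H3SigB Cfsg.Agent.Lib.CoprimeB Cfsg.Agent.Lib.H3SigC Cfsg.Agent.Lib.H3Misc
open scoped commutatorElement Pointwise

universe u
variable {X : Type u} [Group X] [Finite X] {p : ℕ} [Fact p.Prime]

theorem comp_le_pLayer {L : Subgroup X} (hL : IsComponent L) (h2 : p ∣ Nat.card L) : L ≤ pLayer p X := by
  rw [pLayer_eq, ← opp_eq_of_quasisimple hL.2 h2]
  exact opp_mono ((component_le_layer hL).trans layer_le_LL)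

/-- if the `p`-layer centralizes the core, the `p`-components are components -/
theorem pComponent_isComponent (h : ⁅pLayer p X, pPrimeCore p X⁆ = ⊥) {K : Subgroup X} (hK : IsPComponent p K) : IsComponent K := by
  refine ⟨hK.1, ?_⟩
  have hperf := pComponent_commutator p hK
  have hq : IsQuasisimple (K.map (QuotientGroup.mk' (pPrimeCore p X))) := hK.2.1.2
  haveI hnt : Nontrivial K := by
    haveI := quasisimple_nontrivial hq
    exact ((QuotientGroup.mk' (pPrimeCore p X)).subgroupMap_surjective K).nontrivial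
  rw [quasisimple_iff]
  refine ⟨hnt, ?_, ?_⟩
  · haveI : Group.IsPerfect K := Subgroup.isPerfect_iff.2 hperf
    exact Group.IsPerfect.commutator_eq_top
  · intro N hN
    set f := (QuotientGroup.mk' (pPrimeCore p X)).subgroupMap K with hf
    have hfs : Function.Surjective f := (QuotientGroup.mk' (pPrimeCore p X)).subgroupMap_surjective K
    have hker : ∀ x : K, f x = 1 → x ∈ center K := by
      intro x hx
      have h1 : (x : X) ∈ pPrimeCore p X := (QuotientGroup.eq_one_iff _).mp (congrArg Subtype.val hx)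
      rw [mem_center_iff]
      intro y
      apply Subtype.ext
      have h2 : ⁅(y : X), (x : X)⁆ ∈ ⁅pLayer p X, pPrimeCore p X⁆ := commutator_mem_commutator (pComponent_le_pLayer p hK y.2) h1
      rw [h, mem_bot, commutatorElement_eq_one_iff_mul_comm] at h2
      exact h2
    rcases quasisimple_normal hq (N.map f) (hN.map f hfs) with h1 | h1
    · -- K = N * Z
      left
      haveI : Group.IsPerfect K := Subgroup.isPerfect_iff.2 hperf
      have h3 : N ⊔ center K = ⊤ := by
        rw [eq_top_iff]
        intro x _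
        have h4 : f x ∈ N.map f := by rw [h1]; exact mem_top _
        obtain ⟨n, hn, e⟩ := h4
        have h5 : n⁻¹ * x ∈ center K := hker _ (by rw [map_mul, map_inv, e, inv_mul_cancel])
        have : x = n * (n⁻¹ * x) := by group
        rw [this]
        exact mul_mem ((le_sup_left : N ≤ N ⊔ center K) hn) ((le_sup_right : center K ≤ N ⊔ center K) h5)
      have h6 : commutator K ≤ N := commutator_le_of_sup_center h3 (by
        haveI := hN
        exact (commutator_le_left N N))
      rw [Group.IsPerfect.commutator_eq_top] at h6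
      exact top_le_iff.mp h6
    · right
      -- image central
      intro n hn
      have h7 : ∀ y : K, ⁅n, y⁆ ∈ center K := by
        intro y
        apply hker
        rw [map_commutatorElement, commutatorElement_eq_one_iff_mul_comm]
        have := mem_center_iff.mp (h1 ⟨n, hn, rfl⟩) (f y)
        exact this.symm
      have h8 : (n : X) ∈ centralizer (K : Set X) := by
        apply cent_of_central hperf
        intro y hy
        have h9 := h7 ⟨y, hy⟩
        rw [commutatorElement_def] at h9
        have h10 : ((n * ⟨y, hy⟩ * n⁻¹ * (⟨y, hy⟩ : K)⁻¹ : K) : X) ∈ (center K).map K.subtype := ⟨_, h9, rfl⟩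
        rw [map_center_eq] at h10
        exact h10
      rw [mem_center_iff]
      intro y
      exact Subtype.ext (mem_centralizer_iff.mp h8 y y.2)

theorem pLayer_le_layer (h : ⁅pLayer p X, pPrimeCore p X⁆ = ⊥) : pLayer p X ≤ layer X := by
  refine sSup_le fun K hK => ?_
  exact component_le_layer (pComponent_isComponent h hK)

theorem subn_of_norm2 {A B C : Subgroup X} (hAB : A ≤ B) (hBC : B ≤ C) (h1 : B ≤ normalizer (A : Set X)) (h2 : C ≤ normalizer (B : Set X)) :
    (A.subgroupOf C).IsSubnormal := by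
  have hn : (B.subgroupOf C).Normal := normal_subgroupOf_of_le_normalizer h2
  refine IsSubnormal.step (A.subgroupOf C) (B.subgroupOf C) (fun x hx => hAB hx) hn.isSubnormal ?_
  refine ⟨fun x hx g => ?_⟩
  have hx' : ((x : C) : X) ∈ A := hx
  have hg' : ((g : C) : X) ∈ B := g.2
  exact (mem_normalizer_iff.mp (h1 hg') _).mp hx'

theorem comp_in_le_or {C L M : Subgroup X} (hL : IsComponent (L.subgroupOf C)) (hLC : L ≤ C) (hMC : M ≤ C) (hM : (M.subgroupOf C).IsSubnormal) :
    L ≤ M ∨ ∀ l ∈ L, ∀ m ∈ M, l * m = m * l := by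
  rcases component_le_or_commute hL hM with h | h
  · left
    intro x hx
    exact h (show (⟨x, hLC hx⟩ : C) ∈ L.subgroupOf C from hx)
  · right
    intro l hl m hm
    have h1 : ⁅(⟨l, hLC hl⟩ : C), ⟨m, hMC hm⟩⁆ ∈ ⁅L.subgroupOf C, M.subgroupOf C⁆ :=
      commutator_mem_commutator (show (⟨l, hLC hl⟩ : C) ∈ L.subgroupOf C from hl) (show (⟨m, hMC hm⟩ : C) ∈ M.subgroupOf C from hm)
    rw [h, mem_bot, commutatorElement_eq_one_iff_mul_comm] at h1
    exact congrArg Subtype.val h1

theorem mem_IK {K : Subgroup X} {x : X} : x ∈ IK K ↔ ∃ k ∈ K, k⁻¹ * x ∈ centralizer (K : Set X) := Iff.rfl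

/-- elements of the layer commute: two different components -/
theorem comm_comps {K L : Subgroup X} (hK : IsComponent K) (hL : IsComponent L) (h : K ≠ L) {x y : X} (hx : x ∈ K) (hy : y ∈ L) : x * y = y * x := by
  have h1 := component_commute_of_ne hK hL h
  rw [← commutatorElement_eq_one_iff_mul_comm, ← mem_bot, ← h1]
  exact commutator_mem_commutator hx hy

theorem trichotomy {t : X} (ht : orderOf t = 2) {L : Subgroup X} (hLt : L ≤ centralizer ({t} : Set X))
    (hL : IsComponent (L.subgroupOf (centralizer ({t} : Set X)))) (hLE : L ≤ layer X) :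
    ∃ D : Subgroup X, IsComponent D ∧ ((cj t D = D ∧ L ≤ D) ∨ (cj t D ≠ D ∧ ∃ π : D →* X, (∀ d : D, π d = (d : X) * (t * (d : X) * t⁻¹)) ∧ π.range = L)) := by
  set C := centralizer ({t} : Set X) with hC
  have hLperf : ⁅L, L⁆ = L := by
    have h1 := component_commutator hL
    have h2 := congrArg (Subgroup.map C.subtype) h1
    rw [map_commutator, map_subgroupOf_eq_of_le hLt] at h2
    exact h2
  have hLne : L ≠ ⊥ := by
    rintro rfl
    exact component_ne_bot hL (bot_subgroupOf C)
  have hlt : ∀ l ∈ L, t * l * t⁻¹ = l := by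
    intro l hl
    rw [← mem_centralizer_singleton_iff.mp (hLt hl)]; group
  have htt : t * t = 1 := by rw [← sq]; exact orderOf_dvd_iff_pow_eq_one.mp ht.dvd
  -- choose D
  obtain ⟨D, hD, hLD⟩ : ∃ D : Subgroup X, IsComponent D ∧ ¬ L ≤ centralizer (D : Set X) := by
    by_contra hcon
    push Not at hcon
    have h1 : layer X ≤ centralizer (L : Set X) := by
      refine sSup_le fun D hD => ?_
      intro d hd
      rw [mem_centralizer_iff]
      intro l hl
      exact (mem_centralizer_iff.mp (hcon D hD hl) d hd).symm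
    have h2 : ⁅L, L⁆ = ⊥ := by
      rw [commutator_eq_bot_iff_le_centralizer]
      exact hLE.trans h1
    exact hLne (hLperf.symm.trans h2)
  have hDperf := component_commutator hD
  have hCn : C ≤ normalizer ((layer X ⊓ C : Subgroup X) : Set X) := by
    refine le_normalizer_inf ?_ le_normalizer
    rw [normalizer_eq_top_iff.mpr layer_normal]; exact le_top
  have htD : IsComponent (cj t D) := cj_component hD t
  have hnD : ∀ l ∈ layer X, cj l D = D := fun l hl => mem_norm_iff.mp (layer_le_normalizer_component hD hl)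
  refine ⟨D, hD, ?_⟩
  by_cases hDt : cj t D = D
  · left
    refine ⟨hDt, ?_⟩
    have hsub : ((D ⊓ C : Subgroup X).subgroupOf C).IsSubnormal := by
      refine subn_of_norm2 (B := layer X ⊓ C) (inf_le_inf_right _ (component_le_layer hD)) inf_le_right ?_ hCn
      exact le_normalizer_inf (inf_le_left.trans (layer_le_normalizer_component hD)) (inf_le_right.trans le_normalizer)
    rcases comp_in_le_or hL hLt inf_le_right hsub with h | h
    · exact h.trans inf_le_left
    · exfalso
      apply hLD
      have htd : ∀ d ∈ D, t * d * t⁻¹ ∈ D := fun d hd => by rw [← hDt]; exact mem_cj hd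
      -- for `l ∈ L`, `l = d c`
      have dec : ∀ l ∈ L, ∃ d ∈ D, d⁻¹ * l ∈ centralizer (D : Set X) ∧ d⁻¹ * (t * d * t⁻¹) ∈ centralizer (D : Set X) := by
        intro l hl
        obtain ⟨d, hd, hc⟩ := mem_IK.mp (layer_le_IK hD (hLE hl))
        refine ⟨d, hd, hc, ?_⟩
        have h1 : t * (d⁻¹ * l) * t⁻¹ ∈ centralizer (D : Set X) := by
          rw [mem_centralizer_iff] at hc ⊢
          intro y hy
          have h2 : t⁻¹ * y * t ∈ D := by
            have h3 : y ∈ cj t D := by rw [hDt]; exact hy
            obtain ⟨z, hz, rfl⟩ := h3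
            have : t⁻¹ * (t * z * t⁻¹) * t = z := by group
            change t⁻¹ * (t * z * t⁻¹) * t ∈ D
            rw [this]; exact hz
          have h4 := hc _ h2
          calc y * (t * (d⁻¹ * l) * t⁻¹) = t * ((t⁻¹ * y * t) * (d⁻¹ * l)) * t⁻¹ := by group
            _ = t * ((d⁻¹ * l) * (t⁻¹ * y * t)) * t⁻¹ := by rw [h4]
            _ = t * (d⁻¹ * l) * t⁻¹ * y := by group
        have h5 : d⁻¹ * (t * d * t⁻¹) = (d⁻¹ * l) * (t * (d⁻¹ * l) * t⁻¹)⁻¹ := by
          calc d⁻¹ * (t * d * t⁻¹) = (d⁻¹ * l) * (t * (d⁻¹ * (t⁻¹ * l * t)) * t⁻¹)⁻¹ := by group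
            _ = (d⁻¹ * l) * (t * (d⁻¹ * l) * t⁻¹)⁻¹ := by
                have : t⁻¹ * l * t = l := by
                  rw [mul_assoc, mem_centralizer_singleton_iff.mp (hLt hl)]; group
                rw [this]
        rw [h5]
        exact mul_mem hc (inv_mem h1)
      -- commutators
      have hcomm : ∀ d ∈ D, ∀ e ∈ D, d⁻¹ * (t * d * t⁻¹) ∈ centralizer (D : Set X) → e⁻¹ * (t * e * t⁻¹) ∈ centralizer (D : Set X) →
          ⁅d, e⁆ ∈ D ⊓ C := by
        intro d hd e he h1 h2
        have hcD : ⁅d, e⁆ ∈ D := by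
          rw [commutatorElement_def]
          exact mul_mem (mul_mem (mul_mem hd he) (inv_mem hd)) (inv_mem he)
        refine mem_inf.mpr ⟨hcD, ?_⟩
        have e1 : t * ⁅d, e⁆ * t⁻¹ = ⁅d, e⁆ := by
          set z := d⁻¹ * (t * d * t⁻¹) with hz
          set w := e⁻¹ * (t * e * t⁻¹) with hw
          have hzD : z ∈ D := mul_mem (inv_mem hd) (htd d hd)
          have hwD : w ∈ D := mul_mem (inv_mem he) (htd e he)
          have f1 : t * d * t⁻¹ = d * z := by rw [hz]; group
          have f2 : t * e * t⁻¹ = e * w := by rw [hw]; group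
          have f3 : t * ⁅d, e⁆ * t⁻¹ = ⁅t * d * t⁻¹, t * e * t⁻¹⁆ := by
            rw [commutatorElement_def, commutatorElement_def]; group
          rw [f3, f1, f2]
          have c1 : Commute d z := mem_centralizer_iff.mp h1 d hd
          have c2 : Commute e z := mem_centralizer_iff.mp h1 e he
          have c3 : Commute d w := mem_centralizer_iff.mp h2 d hd
          have c4 : Commute e w := mem_centralizer_iff.mp h2 e he
          have c5 : Commute z w := mem_centralizer_iff.mp h2 z hzD
          rw [comm_aux (e := d) (f := e) (c := z) (d := w) c1 c2 c3 c4 c5]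
        rw [hC, mem_centralizer_singleton_iff]
        calc ⁅d, e⁆ * t = (t * ⁅d, e⁆ * t⁻¹) * t := by rw [e1]
          _ = t * ⁅d, e⁆ := by group
      -- `[l,m]` acts on `D` as an element commuting with `L`
      have key : ∀ l ∈ L, ∀ m ∈ L, ∀ n ∈ L, ⁅⁅l, m⁆, n⁆ ∈ centralizer (D : Set X) := by
        intro l hl m hm n hn
        obtain ⟨d, hd, hc1, hz1⟩ := dec l hl
        obtain ⟨e, he, hc2, hz2⟩ := dec m hm
        obtain ⟨g, hg, hc3, hz3⟩ := dec n hn
        have hde := hcomm d hd e he hz1 hz2
        set c := d⁻¹ * l with hcdef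
        set f := e⁻¹ * m with hfdef
        set k := g⁻¹ * n with hkdef
        have el : l = d * c := by rw [hcdef]; group
        have em : m = e * f := by rw [hfdef]; group
        have en : n = g * k := by rw [hkdef]; group
        have hde2 : ⁅d, e⁆ * n = n * ⁅d, e⁆ := (h n hn _ hde).symm
        have hdeD := (mem_inf.mp hde).1
        have hde3 : Commute ⁅d, e⁆ g := by
          -- `g = n k⁻¹`
          have h1 : Commute ⁅d, e⁆ k := mem_centralizer_iff.mp hc3 _ hdeD
          have h2 : g = n * k⁻¹ := by rw [en]; group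
          rw [h2]
          exact (show Commute ⁅d, e⁆ n from hde2).mul_right h1.inv_right
        -- [l,m] = [d,e] [c,f]
        have hlm : ⁅l, m⁆ = ⁅d, e⁆ * ⁅c, f⁆ := by
          rw [el, em, commutatorElement_def, commutatorElement_def, commutatorElement_def]
          have c1 : c * e = e * c := (mem_centralizer_iff.mp hc1 e he).symm
          have c2 : f * d⁻¹ = d⁻¹ * f := (mem_centralizer_iff.mp hc2 _ (inv_mem hd)).symm
          have c3 : c * f * c⁻¹ * f⁻¹ * e⁻¹ = e⁻¹ * (c * f * c⁻¹ * f⁻¹) := by
            have : c * f * c⁻¹ * f⁻¹ ∈ centralizer (D : Set X) := mul_mem (mul_mem (mul_mem hc1 hc2) (inv_mem hc1)) (inv_mem hc2)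
            exact (mem_centralizer_iff.mp this _ (inv_mem he)).symm
          have c4 : c⁻¹ * d⁻¹ = d⁻¹ * c⁻¹ := (mem_centralizer_iff.mp (inv_mem hc1) _ (inv_mem hd)).symm
          have c5 : c * f * c⁻¹ * d⁻¹ = d⁻¹ * (c * f * c⁻¹) := by
            have : c * f * c⁻¹ ∈ centralizer (D : Set X) := mul_mem (mul_mem hc1 hc2) (inv_mem hc1)
            exact (mem_centralizer_iff.mp this _ (inv_mem hd)).symm
          have c6 : f⁻¹ * e⁻¹ = e⁻¹ * f⁻¹ := (mem_centralizer_iff.mp (inv_mem hc2) _ (inv_mem he)).symm
          calc d * c * (e * f) * (d * c)⁻¹ * (e * f)⁻¹ = d * (c * e) * f * c⁻¹ * d⁻¹ * f⁻¹ * e⁻¹ := by group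
            _ = d * (e * c) * f * c⁻¹ * d⁻¹ * f⁻¹ * e⁻¹ := by rw [c1]
            _ = d * e * (c * f * c⁻¹ * d⁻¹) * f⁻¹ * e⁻¹ := by group
            _ = d * e * (d⁻¹ * (c * f * c⁻¹)) * f⁻¹ * e⁻¹ := by rw [c5]
            _ = d * e * d⁻¹ * (c * f * c⁻¹ * f⁻¹ * e⁻¹) := by group
            _ = d * e * d⁻¹ * (e⁻¹ * (c * f * c⁻¹ * f⁻¹)) := by rw [c3]
            _ = d * e * d⁻¹ * e⁻¹ * (c * f * c⁻¹ * f⁻¹) := by group
        have hcf : ⁅c, f⁆ ∈ centralizer (D : Set X) := by
          rw [commutatorElement_def]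
          exact mul_mem (mul_mem (mul_mem hc1 hc2) (inv_mem hc1)) (inv_mem hc2)
        have hres : ⁅⁅l, m⁆, n⁆ = ⁅⁅c, f⁆, k⁆ := by
          rw [hlm, en]
          have a1 : Commute ⁅d, e⁆ ⁅c, f⁆ := mem_centralizer_iff.mp hcf _ hdeD
          have a2 : Commute g ⁅c, f⁆ := mem_centralizer_iff.mp hcf _ hg
          have a3 : Commute ⁅d, e⁆ k := mem_centralizer_iff.mp hc3 _ hdeD
          have a4 : Commute g k := mem_centralizer_iff.mp hc3 _ hg
          generalize ⁅d, e⁆ = a at *
          generalize ⁅c, f⁆ = b at *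
          rw [commutatorElement_def, commutatorElement_def]
          have b1 : a * b * (g * k) = (g * (b * k)) * a := by
            calc a * b * (g * k) = a * (b * g) * k := by group
              _ = a * (g * b) * k := by rw [a2.eq]
              _ = (a * g) * (b * k) := by group
              _ = (g * a) * (b * k) := by rw [hde3.eq]
              _ = g * (a * (b * k)) := by group
              _ = g * ((b * k) * a) := by rw [(a1.mul_right a3).eq]
              _ = (g * (b * k)) * a := by group
          calc a * b * (g * k) * (a * b)⁻¹ * (g * k)⁻¹ = (g * (b * k)) * a * (b⁻¹ * a⁻¹) * (k⁻¹ * g⁻¹) := by rw [b1]; group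
            _ = (g * (b * k)) * a * (a⁻¹ * b⁻¹) * (k⁻¹ * g⁻¹) := by
                have : b⁻¹ * a⁻¹ = a⁻¹ * b⁻¹ := by rw [← mul_inv_rev, ← mul_inv_rev, a1.eq]
                rw [this]
            _ = g * (b * k * b⁻¹ * k⁻¹) * g⁻¹ := by group
            _ = (b * k * b⁻¹ * k⁻¹) * g * g⁻¹ := by
                have : Commute g (b * k * b⁻¹ * k⁻¹) := ((a2.mul_right a4).mul_right a2.inv_right).mul_right a4.inv_right
                rw [this.eq]
            _ = b * k * b⁻¹ * k⁻¹ := by group
        rw [hres, commutatorElement_def]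
        exact mul_mem (mul_mem (mul_mem hcf hc3) (inv_mem hcf)) (inv_mem hc3)
      have h1 : ⁅⁅L, L⁆, L⁆ ≤ centralizer (D : Set X) := by
        rw [hLperf]
        -- use generators
        have h2 : ⁅L, L⁆ ≤ centralizer (D : Set X) := by
          have h3 : L = closure {z : X | ∃ l ∈ L, ∃ m ∈ L, z = ⁅l, m⁆} := by
            conv_lhs => rw [← hLperf]
            apply le_antisymm
            · rw [commutator_le]
              intro l hl m hm
              exact subset_closure ⟨l, hl, m, hm, rfl⟩
            · rw [closure_le]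
              rintro _ ⟨l, hl, m, hm, rfl⟩
              exact commutator_mem_commutator hl hm
          -- the elements whose commutators with `L` centralize `D`
          have h4 : ∀ z ∈ L, ∀ n ∈ L, ⁅z, n⁆ ∈ centralizer (D : Set X) := by
            intro z hz
            rw [h3] at hz
            have hcn : ∀ x ∈ L, ∀ y ∈ centralizer (D : Set X), x * y * x⁻¹ ∈ centralizer (D : Set X) := by
              intro x hx y hy
              have hxn : x ∈ normalizer (D : Set X) := layer_le_normalizer_component hD (hLE hx)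
              exact (mem_normalizer_iff.mp (centralizer_norm D hxn) y).mp hy
            refine closure_induction (p := fun z _ => z ∈ L → ∀ n ∈ L, ⁅z, n⁆ ∈ centralizer (D : Set X)) ?_ ?_ ?_ ?_ hz (by rw [h3]; exact hz)
            · rintro _ ⟨l, hl, m, hm, rfl⟩ _ n hn
              exact key l hl m hm n hn
            · intro _ n hn
              rw [commutatorElement_one_left]; exact one_mem _
            · intro x y hx hy ihx ihy _ n hn
              have hxL : x ∈ L := by rw [h3]; exact hx
              have hyL : y ∈ L := by rw [h3]; exact hy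
              have e : ⁅x * y, n⁆ = (x * ⁅y, n⁆ * x⁻¹) * ⁅x, n⁆ := by
                rw [commutatorElement_def, commutatorElement_def, commutatorElement_def]; group
              rw [e]
              exact mul_mem (hcn x hxL _ (ihy hyL n hn)) (ihx hxL n hn)
            · intro x hx ihx _ n hn
              have hxL : x ∈ L := by rw [h3]; exact hx
              have e : ⁅x⁻¹, n⁆ = x⁻¹ * (⁅x, n⁆)⁻¹ * x⁻¹⁻¹ := by
                rw [commutatorElement_def, commutatorElement_def]; group
              rw [e]
              exact hcn _ (inv_mem hxL) _ (inv_mem (ihx hxL n hn))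
          rw [commutator_le]
          exact h4
        exact h2
      rw [hLperf, hLperf] at h1
      exact h1
  · right
    refine ⟨hDt, ?_⟩
    have hcom : ∀ x ∈ D, ∀ y ∈ cj t D, x * y = y * x := fun x hx y hy => comm_comps hD htD (Ne.symm hDt) hx hy
    set M := D ⊔ cj t D with hM
    have hsub : ((M ⊓ C : Subgroup X).subgroupOf C).IsSubnormal := by
      refine subn_of_norm2 (B := layer X ⊓ C) (inf_le_inf_right _ (sup_le (component_le_layer hD) (component_le_layer htD))) inf_le_right ?_ hCn
      refine le_normalizer_inf (inf_le_left.trans ?_) (inf_le_right.trans le_normalizer)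
      intro x hx
      refine CFunA.mem_normalizer_of_le ?_
      rw [Subgroup.map_sup]
      exact sup_le_sup (mem_norm_iff.mp (layer_le_normalizer_component hD hx)).le (mem_norm_iff.mp (layer_le_normalizer_component htD hx)).le
    have hcomm0 : ⁅D, D.map (MulAut.conj t).toMonoidHom⁆ = ⊥ := component_commute_of_ne hD htD (Ne.symm hDt)
    obtain ⟨π, hπ, hπk, hπr, hπc⟩ := s1314 ht hDperf hcomm0
    have hπM : π.range ≤ M ⊓ C := by
      rintro _ ⟨d, rfl⟩
      refine mem_inf.mpr ⟨?_, hπr ⟨d, rfl⟩⟩
      rw [hπ]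
      exact mul_mem ((le_sup_left : D ≤ M) d.2) ((le_sup_right : cj t D ≤ M) (mem_cj d.2))
    rcases comp_in_le_or hL hLt inf_le_right hsub with h | h
    · refine ⟨π, hπ, ?_⟩
      -- L ≤ π.range
      have h1 : L ≤ π.range := by
        rw [← hπc, ← hLperf]
        exact commutator_mono h h
      have hq : IsQuasisimple π.range := by
        haveI : Nontrivial π.range := by
          rw [nontrivial_iff_ne_bot]
          intro hb
          rw [hb, le_bot_iff] at h1
          exact hLne h1
        exact quasisimple_of_surjective hD.2 π.rangeRestrict π.rangeRestrict_surjective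
      have h2 : (L.subgroupOf π.range).IsSubnormal := by
        have h3 := hL.1.comap (inclusion hπr)
        exact h3
      rcases quasisimple_subnormal hq _ h2 with h3 | h3
      · apply le_antisymm _ h1
        intro x hx
        have h4 : (⟨x, hx⟩ : π.range) ∈ L.subgroupOf π.range := by rw [h3]; exact mem_top _
        exact h4
      · exfalso
        have h4 : ⁅L, L⁆ = ⊥ := by
          rw [eq_bot_iff, commutator_le]
          intro a ha b hb
          rw [mem_bot, commutatorElement_eq_one_iff_mul_comm]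
          have h5 := h3 (show (⟨a, h1 ha⟩ : π.range) ∈ L.subgroupOf π.range from ha)
          exact (congrArg Subtype.val (mem_center_iff.mp h5 ⟨b, h1 hb⟩)).symm
        exact hLne (hLperf.symm.trans h4)
    · exfalso
      apply hLD
      intro l hl
      have hlD : ∀ y ∈ D, l * y * l⁻¹ ∈ D := fun y hy => by rw [← hnD l (hLE hl)]; exact mem_cj hy
      apply cent_of_central hDperf
      intro y hy
      have h1 : l * (y * (t * y * t⁻¹)) = (y * (t * y * t⁻¹)) * l := by
        apply h l hl
        have := hπM ⟨⟨y, hy⟩, rfl⟩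
        rwa [hπ] at this
      have hlt' : l * t = t * l := mem_centralizer_singleton_iff.mp (hLt hl)
      have h2 : (l * y * l⁻¹) * (t * (l * y * l⁻¹) * t⁻¹) = y * (t * y * t⁻¹) := by
        have e1 : t * (l * y * l⁻¹) * t⁻¹ = l * (t * y * t⁻¹) * l⁻¹ := by
          have e2 : l⁻¹ * t⁻¹ = t⁻¹ * l⁻¹ := by rw [← mul_inv_rev, ← mul_inv_rev, hlt']
          calc t * (l * y * l⁻¹) * t⁻¹ = (t * l) * y * (l⁻¹ * t⁻¹) := by group
            _ = (l * t) * y * (t⁻¹ * l⁻¹) := by rw [hlt', e2]
            _ = l * (t * y * t⁻¹) * l⁻¹ := by group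
        rw [e1]
        calc (l * y * l⁻¹) * (l * (t * y * t⁻¹) * l⁻¹) = (l * (y * (t * y * t⁻¹))) * l⁻¹ := by group
          _ = y * (t * y * t⁻¹) := by rw [h1, mul_inv_cancel_right]
      have h3 : y⁻¹ * (l * y * l⁻¹) ∈ cj t D := by
        have e3 : y⁻¹ * (l * y * l⁻¹) = (t * y * t⁻¹) * (t * (l * y * l⁻¹) * t⁻¹)⁻¹ := by
          rw [eq_mul_inv_iff_mul_eq, mul_assoc, h2]; group
        rw [e3]
        exact mul_mem (mem_cj hy) (inv_mem (mem_cj (hlD y hy)))
      have h4 : y⁻¹ * (l * y * l⁻¹) ∈ D := mul_mem (inv_mem hy) (hlD y hy)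
      have h5 : y⁻¹ * (l * y * l⁻¹) ∈ centralizer (D : Set X) := by
        rw [mem_centralizer_iff]
        intro x hx
        exact hcom x hx _ h3
      have e4 : l * y * l⁻¹ * y⁻¹ = y * (y⁻¹ * (l * y * l⁻¹)) * y⁻¹ := by group
      have e5 : l * y * l⁻¹ * y⁻¹ = y⁻¹ * (l * y * l⁻¹) := by
        rw [e4, mem_centralizer_iff.mp h5 y hy, mul_inv_cancel_right]
      rw [e5]
      exact mem_inf.mpr ⟨h4, h5⟩

end Cfsg.Agent.Lib.H3CompA
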