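import Cfsg.Agent.Lib.H3CompA
import Cfsg.Agent.Lib.QuatSyl

/-!
Components of involution centralizers: standard subgroups, classical involutions (helper3).
-/

set_option autoImplicit false
set_option maxHeartbeats 400000
set_option linter.unusedVariables false
set_option linter.unusedSectionVars false

namespace Cfsg.Agent.Lib.H3CompB

open Subgroup Cfsg Cfsg.Agent.Lib.Basic Cfsg.Agent.Lib.Cores Cfsg.Agent.Lib.Components Cfsg.Agent.Lib.PComp
  Cfsg.Agent.Lib.H3Loc Cfsg.Agent.Lib.H3LocB Cfsg.Agent.Lib.H3LocC Cfsg.Agent.Lib.H3LocD Cfsg.Agent.Lib.H3LBal Cfsg.Agent.Lib.H3LBalB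
  Cfsg.Agent.Lib.H3LocG Cfsg.Agent.Lib.H3Hyp
  Cfsg.Agent.Lib.SchurZas Cfsg.Agent.Lib.H3Sig Cfsg.Agent.Lib.H3SigB Cfsg.Agent.Lib.CoprimeB Cfsg.Agent.Lib.H3SigC Cfsg.Agent.Lib.H3Misc
  Cfsg.Agent.Lib.H3CompA
open scoped commutatorElement Pointwise

universe u
variable {G : Type u} [Group G] [Finite G]

theorem qs_of_compIn {L C : Subgroup G} (hL : IsComponent (L.subgroupOf C)) (h : L ≤ C) : IsQuasisimple L :=
  quasisimple_of_equiv (subgroupOfEquivOfLe h) hL.2

theorem perfect_of_qs {L : Subgroup G} (h : IsQuasisimple L) : ⁅L, L⁆ = L := by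
  have h1 := component_commutator (K := (⊤ : Subgroup L)) ⟨(inferInstance : (⊤ : Subgroup L).Normal).isSubnormal, quasisimple_of_equiv topEquiv.symm h⟩
  have h2 := congrArg (Subgroup.map L.subtype) h1
  rw [map_commutator, ← MonoidHom.range_eq_map, range_subtype] at h2
  exact h2

theorem ne_bot_of_qs {L : Subgroup G} (h : IsQuasisimple L) : L ≠ ⊥ := by
  haveI := quasisimple_nontrivial h
  exact (nontrivial_iff_ne_bot L).mp inferInstance

theorem compIn_conj {L C : Subgroup G} (hL : IsComponent (L.subgroupOf C)) (h : L ≤ C) (g : G) :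
    IsComponent ((L.map (MulAut.conj g).toMonoidHom).subgroupOf (C.map (MulAut.conj g).toMonoidHom)) := by
  let e : C ≃* C.map (MulAut.conj g).toMonoidHom := C.equivMapOfInjective _ (MulAut.conj g).injective
  have h1 := component_map_equiv e hL
  have h2 : (L.subgroupOf C).map e.toMonoidHom = (L.map (MulAut.conj g).toMonoidHom).subgroupOf (C.map (MulAut.conj g).toMonoidHom) := by
    ext x
    constructor
    · rintro ⟨y, hy, rfl⟩
      exact ⟨y, hy, rfl⟩
    · rintro ⟨y, hy, e1⟩
      exact ⟨⟨y, h hy⟩, hy, Subtype.ext e1⟩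
  rwa [h2] at h1

theorem cent_conj (y g : G) : (centralizer ({y} : Set G)).map (MulAut.conj g).toMonoidHom = centralizer ({g * y * g⁻¹} : Set G) := by
  ext x
  constructor
  · rintro ⟨z, hz, rfl⟩
    rw [mem_centralizer_singleton_iff]
    have := mem_centralizer_singleton_iff.mp hz
    change (g * z * g⁻¹) * (g * y * g⁻¹) = (g * y * g⁻¹) * (g * z * g⁻¹)
    calc (g * z * g⁻¹) * (g * y * g⁻¹) = g * (z * y) * g⁻¹ := by group
      _ = g * (y * z) * g⁻¹ := by rw [this]
      _ = (g * y * g⁻¹) * (g * z * g⁻¹) := by group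
  · intro hx
    have hx' := mem_centralizer_singleton_iff.mp hx
    refine ⟨g⁻¹ * x * g, ?_, ?_⟩
    · rw [SetLike.mem_coe, mem_centralizer_singleton_iff]
      calc g⁻¹ * x * g * y = g⁻¹ * (x * (g * y * g⁻¹)) * g := by group
        _ = g⁻¹ * ((g * y * g⁻¹) * x) * g := by rw [hx']
        _ = y * (g⁻¹ * x * g) := by group
    · change g * (g⁻¹ * x * g) * g⁻¹ = x
      group

theorem s1306 {x : G} (hx : orderOf x = 2) {L : Subgroup G} (hLx : L ≤ centralizer ({x} : Set G))
    (hL : IsComponent (L.subgroupOf (centralizer ({x} : Set G))))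
    (hne : ∀ y : G, orderOf y = 2 → y ∈ centralizer (L : Set G) → L ≤ centralizer ({y} : Set G) ∧ IsComponent (L.subgroupOf (centralizer ({y} : Set G))))
    (hnc : ∀ g : G, L.map (MulAut.conj g).toMonoidHom ≠ L → ⁅L, L.map (MulAut.conj g).toMonoidHom⁆ ≠ ⊥) : IsStandardSubgroup L := by
  have hq := qs_of_compIn hL hLx
  have hxC : x ∈ centralizer (L : Set G) := by
    rw [mem_centralizer_iff]
    exact fun l hl => mem_centralizer_singleton_iff.mp (hLx hl)
  -- the key statement
  have key : ∀ g : G, ∀ y : G, orderOf y = 2 → y ∈ centralizer (L : Set G) → y ∈ (centralizer (L : Set G)).map (MulAut.conj g).toMonoidHom →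
      g ∈ normalizer (L : Set G) := by
    intro g y hy h1 h2
    by_contra hg
    have hne' : L.map (MulAut.conj g).toMonoidHom ≠ L := fun h => hg (CFunA.mem_normalizer_iff_cj.mpr h)
    obtain ⟨z, hz, e⟩ := h2
    have hzo : orderOf z = 2 := by rw [← hy, ← e]; exact (orderOf_cj g z).symm
    obtain ⟨a1, a2⟩ := hne y hy h1
    obtain ⟨b1, b2⟩ := hne z hzo hz
    have b3 := compIn_conj b2 b1 g
    have b4 : (centralizer ({z} : Set G)).map (MulAut.conj g).toMonoidHom = centralizer ({y} : Set G) := by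
      rw [cent_conj]; exact congrArg (fun t => centralizer ({t} : Set G)) e
    have b5 : L.map (MulAut.conj g).toMonoidHom ≤ centralizer ({y} : Set G) := by rw [← b4]; exact Subgroup.map_mono b1
    rw [b4] at b3
    have h3 : ⁅L.subgroupOf (centralizer ({y} : Set G)), (L.map (MulAut.conj g).toMonoidHom).subgroupOf (centralizer ({y} : Set G))⁆ = ⊥ := by
      apply component_commute_of_ne a2 b3
      intro h4
      apply hne'
      have h5 := congrArg (Subgroup.map (centralizer ({y} : Set G)).subtype) h4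
      rw [map_subgroupOf_eq_of_le a1, map_subgroupOf_eq_of_le b5] at h5
      exact h5.symm
    apply hnc g hne'
    have h6 := congrArg (Subgroup.map (centralizer ({y} : Set G)).subtype) h3
    rw [map_commutator, map_subgroupOf_eq_of_le a1, map_subgroupOf_eq_of_le b5, Subgroup.map_bot] at h6
    exact h6
  refine ⟨hq, ⟨?_, ?_⟩, hnc, ?_⟩
  · have h1 : orderOf x ∣ Nat.card (centralizer (L : Set G)) := Subgroup.orderOf_dvd_natCard _ hxC
    rw [hx] at h1
    exact even_iff_two_dvd.mpr h1
  · intro g hg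
    by_contra heven
    rw [Nat.not_odd_iff_even] at heven
    haveI : Fact (Nat.Prime 2) := ⟨Nat.prime_two⟩
    obtain ⟨y, hy⟩ := exists_prime_orderOf_dvd_card' (G := (centralizer (L : Set G) ⊓ (centralizer (L : Set G)).map (MulAut.conj g).toMonoidHom : Subgroup G)) 2
      (even_iff_two_dvd.mp heven)
    have hy' : orderOf (y : G) = 2 := by rw [orderOf_coe, hy]
    exact hg (centralizer_norm L (key g y hy' (mem_inf.mp y.2).1 (mem_inf.mp y.2).2))
  · apply le_antisymm (centralizer_norm L)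
    intro g hg
    have h1 : (centralizer (L : Set G)).map (MulAut.conj g).toMonoidHom = centralizer (L : Set G) := CFunA.mem_normalizer_iff_cj.mp hg
    exact key g x hx hxC (by rw [h1]; exact hxC)

/-! ### quasisimple groups of 2-rank one -/

theorem comm_inv_eq {L : Type u} [Group L] [Finite L] (hrk : PRankLE 2 1 L) {x y : L} (hx : orderOf x = 2) (hy : orderOf y = 2)
    (h : x * y = y * x) : x = y := by
  haveI : Fact (Nat.Prime 2) := ⟨Nat.prime_two⟩
  have h1 := ea_sup (ea_zpowers (p := 2) hx) (ea_zpowers (p := 2) hy) (by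
    rintro _ ⟨i, rfl⟩ _ ⟨j, rfl⟩
    exact ((show Commute x y from h).zpow_zpow i j))
  have h2 := hrk _ h1.1 h1.2
  have h3 : zpowers x = zpowers x ⊔ zpowers y := by
    apply eq_of_le_of_card_ge le_sup_left
    rw [Nat.card_zpowers, hx]
    simpa using h2
  have h4 : y ∈ zpowers x := by rw [h3]; exact (le_sup_right : zpowers y ≤ _) (mem_zpowers y)
  obtain ⟨k, hk⟩ := mem_zpowers_iff.mp h4
  have hx2 : x ^ (2 : ℤ) = 1 := by
    have : x ^ 2 = 1 := orderOf_dvd_iff_pow_eq_one.mp hx.dvd
    exact_mod_cast this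
  rcases Int.even_or_odd k with ⟨l, hl⟩ | ⟨l, hl⟩
  · exfalso
    have : y = 1 := by rw [← hk, hl, ← two_mul, zpow_mul, hx2, one_zpow]
    rw [this, orderOf_one] at hy
    norm_num at hy
  · rw [← hk, hl, zpow_add, zpow_mul, hx2, one_zpow, one_mul, zpow_one]

theorem core_le_center {L : Type u} [Group L] [Finite L] (hL : IsQuasisimple L) (h2 : 2 ∣ Nat.card L) : pPrimeCore 2 L ≤ center L := by
  haveI : Fact (Nat.Prime 2) := ⟨Nat.prime_two⟩
  rcases quasisimple_normal hL (pPrimeCore 2 L) inferInstance with h | h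
  · exfalso
    have h1 := pPrimeCore_coprime (G := L) 2
    rw [h, card_top] at h1
    exact (Nat.Prime.coprime_iff_not_dvd Nat.prime_two).mp h1.symm h2
  · exact h

theorem not_pNil {L : Type u} [Group L] [Finite L] (hL : IsQuasisimple L) (h2 : 2 ∣ Nat.card L) : ¬ PNilp.PNil 2 L := by
  haveI : Fact (Nat.Prime 2) := ⟨Nat.prime_two⟩
  intro h
  obtain ⟨k, hk⟩ := PNilp.pNil_iff_core.mp h
  have h3 := core_le_center hL h2
  haveI hn : (pPrimeCore 2 L).Normal := inferInstance
  have hp : IsPGroup 2 (L ⧸ pPrimeCore 2 L) := IsPGroup.of_card (n := k) (by rw [← hk]; rfl)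
  haveI s0 : Group.IsSolvable (⊤ : Subgroup (L ⧸ pPrimeCore 2 L)) := CoprimeB.isSolvable_of_isPGroup (hp.to_subgroup _)
  haveI s1 : Group.IsSolvable (L ⧸ pPrimeCore 2 L) :=
    solvable_of_surjective (f := (topEquiv : (⊤ : Subgroup (L ⧸ pPrimeCore 2 L)) ≃* _).toMonoidHom) (MulEquiv.surjective _)
  haveI s2 : Group.IsSolvable (pPrimeCore 2 L) := by
    refine CoprimeB.isSolvable_of_comm ?_
    rw [Nilp.isMulCommutative_iff_forall]
    intro x hx y hy
    exact (mem_center_iff.mp (h3 hx) y).symm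
  exact quasisimple_not_solvable hL (solvable_of_ker_le_range (pPrimeCore 2 L).subtype (QuotientGroup.mk' (pPrimeCore 2 L))
      (by rw [QuotientGroup.ker_mk', range_subtype]))

theorem rank_one_qs {L : Type u} [Group L] [Finite L] (hL : IsQuasisimple L) (h2 : 2 ∣ Nat.card L) (hrk : PRankLE 2 1 L) :
    ∃ t : L, orderOf t = 2 ∧ t ∈ center L ∧ ∃ S : Sylow 2 L, ∃ n : ℕ, Nonempty ((S : Subgroup L) ≃* QuaternionGroup (2 ^ (n + 1))) := by
  haveI hf : Fact (Nat.Prime 2) := ⟨Nat.prime_two⟩
  obtain ⟨t, ht⟩ := exists_prime_orderOf_dvd_card' (G := L) 2 h2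
  have ht2 : t ^ 2 = 1 := orderOf_dvd_iff_pow_eq_one.mp ht.dvd
  have hz := ZStar.zstar ht2 (ZStar.oddCond_of_isolated ht2 (by
    intro g hg
    symm
    exact comm_inv_eq hrk ht ((orderOf_cj g t).trans ht) hg))
  have hc := core_le_center hL h2
  have htc : t ∈ center L := by
    have h3 : t ∈ centralizer ((⊤ : Subgroup L) : Set L) := by
      apply cent_of_central
      · haveI : Group.IsPerfect L := hL.1
        have := Group.IsPerfect.commutator_eq_top (G := L)
        rwa [commutator_def] at this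
      · intro y _
        refine mem_inf.mpr ⟨mem_top _, ?_⟩
        rw [mem_centralizer_iff]
        intro z _
        exact mem_center_iff.mp (hc (hz y)) z
    rw [mem_center_iff]
    exact fun g => mem_centralizer_iff.mp h3 g (mem_top _)
  refine ⟨t, ht, htc, ?_⟩
  obtain ⟨S⟩ := (inferInstance : Nonempty (Sylow 2 L))
  refine ⟨S, ?_⟩
  have huniq : ∀ x y : (S : Subgroup L), orderOf x = 2 → orderOf y = 2 → x = y := by
    have key : ∀ x : (S : Subgroup L), orderOf x = 2 → (x : L) = t := by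
      intro x hx
      exact comm_inv_eq hrk (by rw [orderOf_coe]; exact hx) ht (mem_center_iff.mp htc _)
    intro x y hx hy
    exact Subtype.ext ((key x hx).trans (key y hy).symm)
  rcases Cfsg.Agent.Lib.PGrpD.cyclic_or_quaternion (G := (S : Subgroup L)) S.isPGroup' huniq with h | ⟨m, a, b, hm, ha, hb, h, hba, hcc⟩
  · exact absurd (QuatSyl.pNil_of_cyclic S h) (not_pNil hL h2)
  · obtain ⟨n, rfl⟩ := Nat.exists_eq_succ_of_ne_zero (by omega : m ≠ 0)
    exact ⟨n, PGrpD.quaternion_iso ha hb h hba hcc⟩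

theorem s1307 {x : G} (hx : orderOf x = 2) {L : Subgroup G} (hLx : L ≤ centralizer ({x} : Set G))
    (hL : IsComponent (L.subgroupOf (centralizer ({x} : Set G)))) (heven : Even (Nat.card L)) (hrk : PRankLE 2 1 L)
    (hne : ∀ y : G, orderOf y = 2 → y ∈ centralizer (L : Set G) → L ≤ centralizer ({y} : Set G) ∧ IsComponent (L.subgroupOf (centralizer ({y} : Set G)))) :
    ∃ t ∈ L, IsClassicalInvolution t := by
  obtain ⟨t, ht, htc, hS⟩ := rank_one_qs (qs_of_compIn hL hLx) (even_iff_two_dvd.mp heven) hrk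
  have ht' : orderOf (t : G) = 2 := by rw [orderOf_coe]; exact ht
  have htC : (t : G) ∈ centralizer (L : Set G) := by
    rw [mem_centralizer_iff]
    exact fun l hl => congrArg Subtype.val (mem_center_iff.mp htc ⟨l, hl⟩)
  obtain ⟨h1, h2⟩ := hne t ht' htC
  exact ⟨t, t.2, ht', L, h1, t.2, h2.1, hS⟩

end Cfsg.Agent.Lib.H3CompB
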