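import Cfsg.Agent.Lib.H3Hyp

/-!
Balanced families of subgroups of a solvable `p'`-group (helper3).
-/

set_option autoImplicit false
set_option maxHeartbeats 400000
set_option linter.unusedVariables false
set_option linter.unusedSectionVars false

namespace Cfsg.Agent.Lib.H3Fam

open Subgroup Cfsg Cfsg.Agent.Lib.Basic Cfsg.Agent.Lib.Cores Cfsg.Agent.Lib.Components
  Cfsg.Agent.Lib.H3LocC Cfsg.Agent.Lib.H3LocD Cfsg.Agent.Lib.H3LBal Cfsg.Agent.Lib.H3LocG Cfsg.Agent.Lib.H3Hyp
open scoped commutatorElement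

universe u
variable {G : Type u} [Group G] [Finite G] {p : ℕ} [Fact p.Prime]

/-- a balanced family, with normality -/
structure Fam (p j : ℕ) (A X : Subgroup G) (W : Subgroup G → Subgroup G) : Prop where
  le : ∀ F : Subgroup G, F ≤ A → p ^ j ≤ Nat.card F → W F ≤ X ⊓ centralizer (F : Set G)
  norm : ∀ F : Subgroup G, F ≤ A → p ^ j ≤ Nat.card F → X ⊓ centralizer (F : Set G) ≤ normalizer (W F : Set G)
  inv : ∀ F : Subgroup G, F ≤ A → p ^ j ≤ Nat.card F → A ≤ normalizer (W F : Set G)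
  bal : ∀ F F' : Subgroup G, F ≤ F' → F' ≤ A → p ^ j ≤ Nat.card F → W F ⊓ centralizer (F' : Set G) = W F'

def Th (p j : ℕ) (A : Subgroup G) (W : Subgroup G → Subgroup G) : Subgroup G :=
  ⨆ F : {F : Subgroup G // F ≤ A ∧ p ^ j ≤ Nat.card F}, W F

omit [Finite G] [Fact p.Prime] in
theorem le_Th {j : ℕ} {A : Subgroup G} {W : Subgroup G → Subgroup G} {F : Subgroup G} (h : F ≤ A) (h' : p ^ j ≤ Nat.card F) :
    W F ≤ Th p j A W := le_iSup (fun F : {F : Subgroup G // F ≤ A ∧ p ^ j ≤ Nat.card F} => W F) ⟨F, h, h'⟩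

omit [Finite G] [Fact p.Prime] in
theorem Th_le_of {j : ℕ} {A : Subgroup G} {W : Subgroup G → Subgroup G} {M : Subgroup G}
    (h : ∀ F : Subgroup G, F ≤ A → p ^ j ≤ Nat.card F → W F ≤ M) : Th p j A W ≤ M :=
  iSup_le fun F => h F.1 F.2.1 F.2.2

omit [Fact p.Prime] in
theorem norm_iSup {ι : Type*} {f : ι → Subgroup G} {x : G} (h : ∀ i, x ∈ normalizer (f i : Set G)) :
    x ∈ normalizer ((⨆ i, f i : Subgroup G) : Set G) := by
  refine CFunA.mem_normalizer_of_le ?_
  have h1 : (⨆ i, f i).map (MulAut.conj x).toMonoidHom = ⨆ i, (f i).map (MulAut.conj x).toMonoidHom :=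
    (Subgroup.gc_map_comap _).l_iSup
  rw [h1]
  exact iSup_le fun i => (CFunA.mem_normalizer_iff_cj.mp (h i)).le.trans (le_iSup f i)

theorem Fam.Th_inv {j : ℕ} {A X : Subgroup G} {W : Subgroup G → Subgroup G} (h : Fam p j A X W) :
    A ≤ normalizer (Th p j A W : Set G) := fun a ha =>
  norm_iSup fun F => h.inv F.1 F.2.1 F.2.2 ha

theorem Fam.Th_le {j : ℕ} {A X : Subgroup G} {W : Subgroup G → Subgroup G} (h : Fam p j A X W) :
    Th p j A W ≤ X := iSup_le fun F => (h.le F.1 F.2.1 F.2.2).trans inf_le_left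

theorem Fam.anti {j : ℕ} {A X : Subgroup G} {W : Subgroup G → Subgroup G} (h : Fam p j A X W) {F F' : Subgroup G}
    (h1 : F ≤ F') (h2 : F' ≤ A) (h3 : p ^ j ≤ Nat.card F) : W F' ≤ W F := by
  rw [← h.bal F F' h1 h2 h3]; exact inf_le_left

theorem inf_big {A D E : Subgroup G} {j : ℕ} (hj : p ^ (j + 2) ≤ Nat.card A) (hD : D ≤ A) (hE : E ≤ A)
    (hDc : Nat.card A ≤ Nat.card D * p) (hEc : Nat.card A ≤ Nat.card E * p) : p ^ j ≤ Nat.card (D ⊓ E : Subgroup G) := by
  have hp : p.Prime := Fact.out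
  have h1 : D.relIndex A * Nat.card D = Nat.card A := SylRel.relIndex_mul_card' hD
  have h2 : E.relIndex A * Nat.card E = Nat.card A := SylRel.relIndex_mul_card' hE
  have h3 : (D ⊓ E).relIndex A * Nat.card (D ⊓ E : Subgroup G) = Nat.card A := SylRel.relIndex_mul_card' (inf_le_left.trans hD)
  have h4 : D.relIndex A ≤ p := by
    rw [← h1, mul_comm] at hDc
    exact Nat.le_of_mul_le_mul_left hDc Nat.card_pos
  have h5 : E.relIndex A ≤ p := by
    rw [← h2, mul_comm] at hEc
    exact Nat.le_of_mul_le_mul_left hEc Nat.card_pos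
  have h6 : (D ⊓ E).relIndex A ≤ p * p := (Subgroup.relIndex_inf_le).trans (Nat.mul_le_mul h4 h5)
  have h7 : p ^ (j + 2) ≤ p ^ 2 * Nat.card (D ⊓ E : Subgroup G) := by
    calc p ^ (j + 2) ≤ Nat.card A := hj
      _ = (D ⊓ E).relIndex A * Nat.card (D ⊓ E : Subgroup G) := h3.symm
      _ ≤ p * p * Nat.card (D ⊓ E : Subgroup G) := Nat.mul_le_mul_right _ h6
      _ = _ := by ring
  rw [pow_add, mul_comm] at h7
  exact Nat.le_of_mul_le_mul_left h7 (pow_pos hp.pos 2)

theorem hyp_big {A D : Subgroup G} {j : ℕ} (hj : p ^ (j + 2) ≤ Nat.card A) (hDc : Nat.card A ≤ Nat.card D * p) :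
    p ^ j ≤ Nat.card D := by
  have hp : p.Prime := Fact.out
  have h1 : p ^ (j + 1) * p ≤ Nat.card D * p := by
    rw [← pow_succ]; exact hj.trans hDc
  have h2 := Nat.le_of_mul_le_mul_right h1 hp.pos
  exact (Nat.pow_le_pow_right hp.pos (by omega)).trans h2

set_option maxHeartbeats 1000000 in
theorem lemmaK {A : Subgroup G} (hA : IsElementaryAbelian p A) {j : ℕ} (hj : p ^ (j + 2) ≤ Nat.card A) (n : ℕ) :
    ∀ (X : Subgroup G) (W : Subgroup G → Subgroup G), Nat.card X ≤ n → Group.IsSolvable X → (Nat.card X).Coprime p →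
      A ≤ normalizer (X : Set G) → Fam p j A X W →
      (∀ F : Subgroup G, F ≤ A → p ^ j ≤ Nat.card F → Th p j A W ⊓ centralizer (F : Set G) ≤ W F) ∧
        X ≤ normalizer (Th p j A W : Set G) := by
  have hp : p.Prime := Fact.out
  induction n with
  | zero =>
    intro X W hX
    have : 0 < Nat.card X := Nat.card_pos
    omega
  | succ n ih =>
    intro X W hXn hsol hcop hAX hW
    by_cases hX1 : X = ⊥
    · refine ⟨fun F hF hFc => ?_, by rw [hX1]; exact bot_le⟩
      exact (inf_le_left.trans hW.Th_le).trans (by rw [hX1]; exact bot_le)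
    have hAp : IsPGroup p A := ea_pgroup hA
    have hcomm_lt : ⁅X, X⁆ < X := by
      haveI : Nontrivial X := (nontrivial_iff_ne_bot X).mpr hX1
      have h1 : commutator X < ⊤ := IsSolvable.commutator_lt_top_of_nontrivial X
      have h2 := (Subgroup.map_lt_map_iff_of_injective X.subtype_injective).mpr h1
      rw [commutator_def, map_commutator, ← MonoidHom.range_eq_map, range_subtype] at h2
      exact h2
    obtain ⟨N, hNmem, hNmax⟩ := (Set.toFinite {N : Subgroup G | ⁅X, X⁆ ≤ N ∧ N < X ∧ A ≤ normalizer (N : Set G)}).exists_maximal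
      ⟨⁅X, X⁆, le_rfl, hcomm_lt, CoprimeB.le_normalizer_commutator hAX hAX⟩
    obtain ⟨hN1, hN2, hN3⟩ := hNmem
    have hXN : X ≤ normalizer (N : Set G) := by
      intro x hx
      refine CFunA.mem_normalizer_of_le ?_
      rintro _ ⟨y, hy, rfl⟩
      change x * y * x⁻¹ ∈ N
      have h1 : x * y * x⁻¹ = ⁅x, y⁆ * y := by rw [commutatorElement_def]; group
      rw [h1]
      exact mul_mem (hN1 (commutator_mem_commutator hx (hN2.le hy))) hy
    have hNc : (Nat.card N).Coprime p := Nat.Coprime.coprime_dvd_left (card_dvd_of_le hN2.le) hcop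
    have hACn : ∀ C : Subgroup G, C ≤ A → A ≤ normalizer ((X ⊓ centralizer (C : Set G) : Subgroup G) : Set G) := by
      intro C hC e he
      have h1 : e ∈ centralizer (C : Set G) := mem_centralizer_iff.mpr fun b hb => ea_comm hA (hC hb) he
      refine CFunA.mem_normalizer_of_le ?_
      rintro _ ⟨x, hx, rfl⟩
      obtain ⟨hx1, hx2⟩ := mem_inf.mp hx
      exact mem_inf.mpr ⟨(mem_normalizer_iff.mp (hAX he) x).mp hx1, mul_mem (mul_mem h1 hx2) (inv_mem h1)⟩
    -- the hyperplane E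
    obtain ⟨E, hEA, hEc, hXE⟩ : ∃ E : Subgroup G, E ≤ A ∧ Nat.card A ≤ Nat.card E * p ∧ X ≤ N ⊔ (X ⊓ centralizer (E : Set G)) := by
      by_contra hcon
      push Not at hcon
      apply hN2.not_ge
      refine hyp_gen'' hA hcop hAX fun C hC hc => ?_
      have h1 := hcon C hC hc
      have h2 : N ⊔ (X ⊓ centralizer (C : Set G)) ≤ X := sup_le hN2.le inf_le_left
      have h3 : N ⊔ (X ⊓ centralizer (C : Set G)) < X := lt_of_le_of_ne h2 fun h => h1 h.ge
      have h4 := hNmax (y := N ⊔ (X ⊓ centralizer (C : Set G))) ⟨hN1.trans le_sup_left, h3, by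
        intro a ha
        refine CFunA.mem_normalizer_of_le ?_
        rw [Subgroup.map_sup, CFunA.mem_normalizer_iff_cj.mp (hN3 ha), CFunA.mem_normalizer_iff_cj.mp (hACn C hC ha)]⟩ le_sup_left
      exact le_sup_right.trans h4
    have hEbig : p ^ j ≤ Nat.card E := hyp_big hj hEc
    have hXdec : ∀ x ∈ X, ∃ y ∈ N, ∃ c ∈ X ⊓ centralizer (E : Set G), x = y * c := by
      intro x hx
      obtain ⟨y, hy, c, hc, hyc⟩ := (mem_sup_iff_left (inf_le_left.trans hXN)).mp (hXE hx)
      exact ⟨y, hy, c, hc, hyc.symm⟩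
    -- the family on N
    set WN : Subgroup G → Subgroup G := fun F => W F ⊓ N with hWN
    have hWNfam : Fam p j A N WN := by
      refine ⟨?_, ?_, ?_, ?_⟩
      · intro F hF hFc
        exact le_inf inf_le_right (inf_le_left.trans ((hW.le F hF hFc).trans inf_le_right))
      · intro F hF hFc x hx
        obtain ⟨hx1, hx2⟩ := mem_inf.mp hx
        have h1 := hW.norm F hF hFc (mem_inf.mpr ⟨hN2.le hx1, hx2⟩)
        refine CFunA.mem_normalizer_of_le ?_
        rintro _ ⟨y, hy, rfl⟩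
        exact mem_inf.mpr ⟨(mem_normalizer_iff.mp h1 y).mp hy.1, mul_mem (mul_mem hx1 hy.2) (inv_mem hx1)⟩
      · intro F hF hFc a ha
        refine CFunA.mem_normalizer_of_le ?_
        rintro _ ⟨y, hy, rfl⟩
        exact mem_inf.mpr ⟨(mem_normalizer_iff.mp (hW.inv F hF hFc ha) y).mp hy.1, (mem_normalizer_iff.mp (hN3 ha) y).mp hy.2⟩
      · intro F F' h1 h2 h3
        change W F ⊓ N ⊓ centralizer (F' : Set G) = W F' ⊓ N
        rw [← hW.bal F F' h1 h2 h3, inf_right_comm]
    have hNcard : Nat.card N ≤ n := by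
      have := card_lt_card_of_lt hN2
      omega
    obtain ⟨ih1, ih2⟩ := ih N WN hNcard (Cfsg.Agent.Lib.SchurZas.isSolvable_of_le hN2.le hsol) hNc hN3 hWNfam
    set N₀ := Th p j A WN with hN₀
    have hN₀N : N₀ ≤ N := hWNfam.Th_le
    have hN₀c : (Nat.card N₀).Coprime p := Nat.Coprime.coprime_dvd_left (card_dvd_of_le hN₀N) hNc
    have hEN₀ : X ⊓ centralizer (E : Set G) ≤ normalizer (N₀ : Set G) := by
      intro x hx
      refine CFunA.mem_normalizer_of_le ?_
      rw [Subgroup.map_le_iff_le_comap]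
      refine hyp_gen'' hA hN₀c hWNfam.Th_inv fun D hD hDc => ?_
      intro y hy
      have hbig := inf_big hj hD hEA hDc hEc
      have h1 : y ∈ WN (D ⊓ E) := ih1 (D ⊓ E) (inf_le_left.trans hD) hbig
        (mem_inf.mpr ⟨(mem_inf.mp hy).1, centralizer_le (SetLike.coe_subset_coe.mpr inf_le_left) (mem_inf.mp hy).2⟩)
      have h2 : x ∈ normalizer (W (D ⊓ E) : Set G) := hW.norm (D ⊓ E) (inf_le_left.trans hD) hbig
        (mem_inf.mpr ⟨(mem_inf.mp hx).1, centralizer_le (SetLike.coe_subset_coe.mpr inf_le_right) (mem_inf.mp hx).2⟩)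
      refine le_Th (W := WN) (inf_le_left.trans hD) hbig (mem_inf.mpr ⟨?_, ?_⟩)
      · exact (mem_normalizer_iff.mp h2 y).mp (mem_inf.mp h1).1
      · exact (mem_normalizer_iff.mp (hXN (mem_inf.mp hx).1) y).mp (mem_inf.mp h1).2
    have hXN₀ : X ≤ normalizer (N₀ : Set G) := hXE.trans (sup_le ih2 hEN₀)
    set M := W E ⊔ N₀ with hM
    have hsolE : ∀ F : Subgroup G, F ≤ A → Group.IsSolvable F := fun F hF => CoprimeB.isSolvable_of_isPGroup (hAp.to_le hF)
    have hcopF : ∀ F Y : Subgroup G, F ≤ A → Y ≤ X → (Nat.card F).Coprime (Nat.card Y) := fun F Y hF hY =>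
      (CoprimeB.card_coprime_of_isPGroup (Nat.Coprime.coprime_dvd_left (card_dvd_of_le hY) hcop) (hAp.to_le hF)).symm
    have claim1 : ∀ F : Subgroup G, F ≤ E → p ^ j ≤ Nat.card F → W F ≤ M := by
      intro F hF hFc
      have hFA := hF.trans hEA
      have hEn : E ≤ normalizer (W F : Set G) := hEA.trans (hW.inv F hFA hFc)
      have hWX : W F ≤ X := (hW.le F hFA hFc).trans inf_le_left
      have h1 := Coprime.commutator_sup_centralizer hEn (hcopF E (W F) hEA hWX) (Or.inl (hsolE E hEA))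
      rw [hW.bal F E hF hEA hFc] at h1
      rw [← h1, hM, sup_comm]
      refine sup_le_sup_left ?_ _
      have h2 : ⁅W F, E⁆ ≤ WN F := by
        refine le_inf (Coprime.commutator_le_of_normalizes hEn) ?_
        rw [commutator_le]
        intro w hw e he
        obtain ⟨y, hy, c, hc, rfl⟩ := hXdec w (hWX hw)
        have h3 : e * c = c * e := (mem_centralizer_iff.mp (mem_inf.mp hc).2) e he
        have h4 : ⁅y * c, e⁆ = y * (e * y⁻¹ * e⁻¹) := by
          rw [commutatorElement_def, mul_inv_rev]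
          calc y * c * e * (c⁻¹ * y⁻¹) * e⁻¹ = y * (c * e) * c⁻¹ * y⁻¹ * e⁻¹ := by group
            _ = _ := by rw [← h3]; group
        rw [h4]
        exact mul_mem hy ((mem_normalizer_iff.mp (hN3 (hEA he)) _).mp (inv_mem hy))
      exact h2.trans (le_Th (W := WN) hFA hFc)
    have claim2 : ∀ F : Subgroup G, F ≤ A → p ^ j ≤ Nat.card F → W F ≤ M := by
      intro F hF hFc
      have hWX : W F ≤ X := (hW.le F hF hFc).trans inf_le_left
      have h1 := hyp_gen' (X := W F) hA (Nat.Coprime.coprime_dvd_left (card_dvd_of_le hWX) hcop) (hW.inv F hF hFc) hF (R := M)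
        (fun C hFC hCA hC => by
          rw [hW.bal F C hFC hCA hFc]
          have hbig := inf_big hj hCA hEA hC hEc
          exact (hW.anti (inf_le_left : C ⊓ E ≤ C) hCA hbig).trans (claim1 _ inf_le_right hbig))
      exact fun w hw => h1 (mem_inf.mpr ⟨hw, (mem_inf.mp (hW.le F hF hFc hw)).2⟩)
    have hN₀Th : N₀ ≤ Th p j A W := Th_le_of fun F h1 h2 => (inf_le_left : W F ⊓ N ≤ W F).trans (le_Th h1 h2)
    have hETh : W E ≤ Th p j A W := le_Th hEA hEbig
    have hTh : Th p j A W = M := le_antisymm (Th_le_of claim2) (sup_le hETh hN₀Th)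
    have hThX : Th p j A W ≤ X := hW.Th_le
    constructor
    · intro F hF hFc
      refine hyp_gen' hA (Nat.Coprime.coprime_dvd_left (card_dvd_of_le hThX) hcop) hW.Th_inv hF fun D hFD hDA hDc => ?_
      refine le_trans ?_ (hW.anti hFD hDA hFc)
      have hbig := inf_big hj hDA hEA hDc hEc
      have hDEA : D ⊓ E ≤ A := inf_le_left.trans hDA
      have hDbig : p ^ j ≤ Nat.card D := hyp_big hj hDc
      intro x hx
      obtain ⟨hx1, hx2⟩ := mem_inf.mp hx
      have hx3 : x ∈ N₀ ⊔ W (D ⊓ E) := by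
        rw [hTh] at hx1
        refine (sup_le ?_ le_sup_left : M ≤ N₀ ⊔ W (D ⊓ E)) hx1
        exact (hW.anti (inf_le_right : D ⊓ E ≤ E) hEA hbig).trans le_sup_right
      have hWX : W (D ⊓ E) ≤ X := (hW.le _ hDEA hbig).trans inf_le_left
      obtain ⟨y, hy, w, hw, hyw⟩ := (mem_sup_iff_left (hWX.trans hXN₀)).mp hx3
      have hk : y * w ∈ centralizer (D : Set G) := by rw [hyw]; exact hx2
      obtain ⟨y', hy', w', hw', hyw'⟩ := Coprime.centralizer_of_product (A := D) (K := X) (X := N₀) (Y := W (D ⊓ E))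
        (hcopF D X hDA le_rfl) (Or.inl (hsolE D hDA)) (hN₀N.trans hN2.le)
        (hDA.trans hWNfam.Th_inv) (hDA.trans (hW.inv _ hDEA hbig)) hy hw hk
      rw [← hyw, hyw']
      refine mul_mem ?_ ?_
      · exact (mem_inf.mp (ih1 D hDA hDbig hy')).1
      · rw [hW.bal (D ⊓ E) D inf_le_left hDA hbig] at hw'
        exact hw'
    · rw [hTh]
      refine hXE.trans (sup_le ?_ ?_)
      · refine hyp_gen'' hA hNc hN3 fun D hD hDc => ?_
        intro x hx
        obtain ⟨hx1, hx2⟩ := mem_inf.mp hx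
        have hbig := inf_big hj hD hEA hDc hEc
        have hDEA : D ⊓ E ≤ A := inf_le_left.trans hD
        refine CFunA.mem_normalizer_of_le ?_
        rw [hM, Subgroup.map_sup, sup_le_iff]
        constructor
        · have h1 : x ∈ normalizer (W (D ⊓ E) : Set G) := hW.norm _ hDEA hbig
            (mem_inf.mpr ⟨hN2.le hx1, centralizer_le (SetLike.coe_subset_coe.mpr inf_le_left) hx2⟩)
          refine (Subgroup.map_mono (hW.anti (inf_le_right : D ⊓ E ≤ E) hEA hbig)).trans ?_
          rw [CFunA.mem_normalizer_iff_cj.mp h1]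
          exact claim2 _ hDEA hbig
        · rw [CFunA.mem_normalizer_iff_cj.mp (ih2 hx1)]
          exact le_sup_right
      · intro x hx
        refine CFunA.mem_normalizer_of_le ?_
        rw [hM, Subgroup.map_sup, CFunA.mem_normalizer_iff_cj.mp (hW.norm E hEA hEbig hx), CFunA.mem_normalizer_iff_cj.mp (hEN₀ hx)]

end Cfsg.Agent.Lib.H3Fam
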