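import Cfsg.Agent.Lib.H3GB

/-!
2-automorphisms centralizing an abelian Sylow 2-subgroup (helper3).
-/

set_option autoImplicit false
set_option maxHeartbeats 400000
set_option linter.unusedVariables false
set_option linter.unusedSectionVars false

namespace Cfsg.Agent.Lib.H3GC

open Subgroup Cfsg Cfsg.Agent.Lib.Basic Cfsg.Agent.Lib.Cores Cfsg.Agent.Lib.StrongEmb Cfsg.Agent.Lib.SylRel
  Cfsg.Agent.Lib.WCl Cfsg.Agent.Lib.CFunA Cfsg.Agent.Lib.H3Alp Cfsg.Agent.Lib.H3LocD Cfsg.Agent.Lib.PNilp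
  Cfsg.Agent.Lib.H3GA Cfsg.Agent.Lib.H3GB
open scoped commutatorElement

universe u
variable {G : Type u} [Group G] [Finite G] {p : ℕ} [Fact p.Prime]

theorem zp_trivial {Q : Subgroup G} {φ : MulAut G} (h1 : ∀ q ∈ Q, φ q = q) (h2 : ∀ n ∈ normalizer (Q : Set G), φ n * n⁻¹ ∈ DD p Q) :
    ∀ ψ ∈ zpowers φ, ∀ n ∈ normalizer (Q : Set G), ψ n * n⁻¹ ∈ DD p Q := by
  let S : Subgroup (MulAut G) :=
    { carrier := {ψ | (∀ q ∈ Q, ψ q = q) ∧ ∀ n ∈ normalizer (Q : Set G), ψ n * n⁻¹ ∈ DD p Q}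
      mul_mem' := by
        rintro a b ⟨ha1, ha2⟩ ⟨hb1, hb2⟩
        refine ⟨fun q hq => by rw [MulAut.mul_apply, hb1 q hq, ha1 q hq], fun n hn => ?_⟩
        have e : (a * b) n * n⁻¹ = a (b n * n⁻¹) * (a n * n⁻¹) := by
          rw [MulAut.mul_apply, map_mul, map_inv]; group
        rw [e]
        exact mul_mem (DD_map a ha1 (hb2 n hn)) (ha2 n hn)
      one_mem' := ⟨fun q _ => rfl, fun n _ => by rw [MulAut.one_apply, mul_inv_cancel]; exact one_mem _⟩
      inv_mem' := by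
        rintro a ⟨ha1, ha2⟩
        refine ⟨inv_fix ha1, fun n hn => ?_⟩
        have e : a⁻¹ n * n⁻¹ = a⁻¹ ((a n * n⁻¹)⁻¹) := by
          rw [mul_inv_rev, inv_inv, map_mul, map_inv, MulAut.inv_apply_self]
        rw [e]
        exact DD_map a⁻¹ (inv_fix ha1) (inv_mem (ha2 n hn)) }
  intro ψ hψ
  have h3 : zpowers φ ≤ S := by rw [zpowers_le]; exact ⟨h1, h2⟩
  exact (h3 hψ).2

theorem s4593 (hcore : pPrimeCore 2 G = ⊥) (P : Sylow 2 G) (hab : IsMulCommutative (P : Subgroup G))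
    (α : MulAut G) (h2 : ∃ j : ℕ, orderOf α = 2 ^ j) (hfix : ∀ x ∈ (P : Subgroup G), α x = x) :
    ∃ g : G, ∀ x : G, α x = g * x * g⁻¹ := by
  classical
  haveI : Fact (Nat.Prime 2) := ⟨Nat.prime_two⟩
  have hc : ∀ x ∈ (P : Subgroup G), ∀ y ∈ (P : Subgroup G), x * y = y * x := by
    intro x hx y hy
    exact congrArg Subtype.val (hab.is_comm.comm (⟨x, hx⟩ : (P : Subgroup G)) ⟨y, hy⟩)
  set N := normalizer ((P : Subgroup G) : Set G) with hN
  have hS : SylIn 2 (P : Subgroup G) ⊤ := sylIn_of_sylow P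
  have hSC : SC 2 (P : Subgroup G) := fun c hcc hcp =>
    sylIn_mem_of_norm hS trivial hcp (centralizer_le_normalizer _ hcc)
  have hPC : (P : Subgroup G) ≤ centralizer ((P : Subgroup G) : Set G) := fun x hx =>
    mem_centralizer_iff.mpr fun y hy => hc y hy x hx
  letI : CommGroup (P : Subgroup G) := { (inferInstance : Group (P : Subgroup G)) with mul_comm := hab.is_comm.comm }
  have hA : ∀ a ∈ zpowers α, ∀ q ∈ (P : Subgroup G), a q = q := by
    intro ψ hψ s hs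
    have h1 : zpowers α ≤ (MulAction.stabilizer (MulAut G) s) := by
      rw [zpowers_le]; exact hfix s hs
    exact h1 hψ
  have hex : ∀ n : N, ∃ z : (P : Subgroup G), ∃ d ∈ DD 2 (P : Subgroup G), α n * (n : G)⁻¹ = z * d := by
    intro n
    obtain ⟨z, hz, -, d, hd, h⟩ := SC_decomp hSC (comm_mem_centralizer hA n.2 (mem_zpowers α))
    exact ⟨⟨z, hz⟩, d, hd, h⟩
  choose z d hd hzd using hex
  have hDn : ∀ n ∈ N, ∀ x ∈ DD 2 (P : Subgroup G), n * x * n⁻¹ ∈ DD 2 (P : Subgroup G) := fun n hn x hx => DD_conj' hn hx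
  -- conjugation on P
  let cP : N → ((P : Subgroup G) →* (P : Subgroup G)) := fun n =>
    { toFun := fun x => ⟨(n : G) * x * (n : G)⁻¹, (mem_normalizer_iff.mp n.2 x).mp x.2⟩
      map_one' := Subtype.ext (by simp)
      map_mul' := fun x y => Subtype.ext (by simp) }
  have hcP : ∀ (n : N) (x : (P : Subgroup G)), ((cP n x : (P : Subgroup G)) : G) = (n : G) * x * (n : G)⁻¹ := fun n x => rfl
  have hz1 : ∀ n m : N, z (n * m) = z n * cP n (z m) := by
    intro n m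
    have h1 : α ((n * m : N) : G) * ((n * m : N) : G)⁻¹ =
        ((z n * cP n (z m) : (P : Subgroup G)) : G) * (((cP n (z m) : (P : Subgroup G)) : G)⁻¹ * d n * ((cP n (z m) : (P : Subgroup G)) : G) * ((n : G) * d m * (n : G)⁻¹)) := by
      have e2 : α (m : G) = z m * d m * m := by rw [← hzd m]; group
      have e3 : α (n : G) = z n * d n * n := by rw [← hzd n]; group
      rw [Subgroup.coe_mul, Subgroup.coe_mul, map_mul, e2, e3, hcP]
      group
    rw [hzd (n * m)] at h1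
    refine Subtype.ext (decomp_unique hSC P.isPGroup' (z (n * m)).2 (z n * cP n (z m)).2 (hd _) ?_ h1)
    refine mul_mem ?_ (hDn n n.2 _ (hd m))
    have e6 : ((cP n (z m) : (P : Subgroup G)) : G)⁻¹ * d n * ((cP n (z m) : (P : Subgroup G)) : G) =
        ((cP n (z m) : (P : Subgroup G)) : G)⁻¹ * d n * ((cP n (z m) : (P : Subgroup G)) : G)⁻¹⁻¹ := by rw [inv_inv]
    rw [e6]
    exact DD_conj (inv_mem (hPC (cP n (z m)).2)) (hd n)
  let CP : Subgroup N := (centralizer ((P : Subgroup G) : Set G)).subgroupOf N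
  have hz2 : ∀ c : N, c ∈ CP → z c = 1 := by
    intro c hcc
    obtain ⟨s, hs, -, e, he, hse⟩ := SC_decomp hSC (show (c : G) ∈ centralizer ((P : Subgroup G) : Set G) from hcc)
    have h1 : α (c : G) * (c : G)⁻¹ = ((1 : (P : Subgroup G)) : G) * (s * (α e * e⁻¹) * s⁻¹) := by
      rw [hse, map_mul, hfix s hs, Subgroup.coe_one]; group
    rw [hzd c] at h1
    exact Subtype.ext (decomp_unique hSC P.isPGroup' (z c).2 (1 : (P : Subgroup G)).2 (hd _)
      (DD_conj (hPC hs) (mul_mem (DD_map α hfix he) (inv_mem he))) h1)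
  have hz3 : ∀ n m : N, (n : N ⧸ CP) = m → z n = z m := by
    intro n m h
    rw [QuotientGroup.eq] at h
    have h1 : m = n * (n⁻¹ * m) := by group
    rw [h1, hz1, hz2 _ h, map_one, mul_one]
  let w : N ⧸ CP → (P : Subgroup G) := fun q => z q.out
  have hw : ∀ n : N, w (n : N ⧸ CP) = z n := fun n => hz3 _ _ (by rw [QuotientGroup.out_eq'])
  haveI : Fintype (N ⧸ CP) := Fintype.ofFinite _
  let t : (P : Subgroup G) := ∏ q : N ⧸ CP, w q
  have ht : ∀ n : N, t = (z n) ^ (Fintype.card (N ⧸ CP)) * cP n t := by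
    intro n
    have h1 : t = ∏ q : N ⧸ CP, w (n • q) := (Equiv.prod_comp (MulAction.toPerm n : Equiv.Perm (N ⧸ CP)) w).symm
    have h3 : ∀ q : N ⧸ CP, w (n • q) = z n * cP n (w q) := by
      intro q
      obtain ⟨m, rfl⟩ := QuotientGroup.mk_surjective q
      have : n • (QuotientGroup.mk m : N ⧸ CP) = ((n * m : N) : N ⧸ CP) := rfl
      rw [this, hw, hw, hz1]
    calc t = ∏ q : N ⧸ CP, w (n • q) := h1
      _ = ∏ q : N ⧸ CP, (z n * cP n (w q)) := Finset.prod_congr rfl fun q _ => h3 q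
      _ = (z n) ^ (Fintype.card (N ⧸ CP)) * cP n t := by
        rw [Finset.prod_mul_distrib, Finset.prod_const, Finset.card_univ, ← map_prod]
  have hk : (Fintype.card (N ⧸ CP)).Coprime (Nat.card (P : Subgroup G)) := by
    rw [← Nat.card_eq_fintype_card]
    have h1 : Nat.card (N ⧸ CP) = (centralizer ((P : Subgroup G) : Set G)).relIndex N := rfl
    rw [h1]
    have h3 : (centralizer ((P : Subgroup G) : Set G)).relIndex N ∣ (P : Subgroup G).index :=
      (Subgroup.relIndex_dvd_of_le_left _ hPC).trans (Subgroup.relIndex_dvd_index_of_le le_normalizer)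
    obtain ⟨j, hj⟩ := (IsPGroup.iff_card).mp P.isPGroup'
    rw [hj]
    refine Nat.Coprime.pow_right _ ?_
    refine Nat.Coprime.coprime_dvd_left h3 ?_
    exact ((Nat.Prime.coprime_iff_not_dvd Nat.prime_two).mpr P.not_dvd_index).symm
  let pw := powCoprime hk.symm
  have hpw : ∀ x : (P : Subgroup G), pw x = x ^ Fintype.card (N ⧸ CP) := fun x => rfl
  let s : (P : Subgroup G) := pw.symm t
  have hs : s ^ Fintype.card (N ⧸ CP) = t := by rw [← hpw]; exact pw.apply_symm_apply t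
  have hs2 : ∀ n : N, s = z n * cP n s := by
    intro n
    apply pw.injective
    have e := map_pow (cP n) s (Fintype.card (N ⧸ CP))
    calc pw s = t := hs
      _ = (z n) ^ (Fintype.card (N ⧸ CP)) * cP n t := ht n
      _ = (z n) ^ (Fintype.card (N ⧸ CP)) * cP n (s ^ (Fintype.card (N ⧸ CP))) := by rw [← hs]
      _ = (z n) ^ (Fintype.card (N ⧸ CP)) * (cP n s) ^ (Fintype.card (N ⧸ CP)) := by rw [e]
      _ = (z n * cP n s) ^ (Fintype.card (N ⧸ CP)) := (mul_pow _ _ _).symm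
  -- the corrected automorphism
  set β : MulAut G := MulAut.conj (s : G)⁻¹ * α with hβ
  have hβ1 : ∀ x : G, β x = (s : G)⁻¹ * α x * s := by
    intro x
    rw [hβ, MulAut.mul_apply, MulAut.conj_apply, inv_inv]
  have hβfix : ∀ x ∈ (P : Subgroup G), β x = x := by
    intro x hx
    rw [hβ1, hfix x hx, mul_assoc, hc x hx s s.2]; group
  have hcomm : Commute (MulAut.conj (s : G)⁻¹) α := by
    ext x
    rw [MulAut.mul_apply, MulAut.mul_apply, MulAut.conj_apply, MulAut.conj_apply, map_mul, map_mul, inv_inv, map_inv, hfix s s.2]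
  have hβ2 : ∃ k, orderOf β = 2 ^ k := by
    obtain ⟨j, hj⟩ := h2
    obtain ⟨i, hi⟩ := (IsPGroup.iff_orderOf.mp P.isPGroup') s
    rw [← Subgroup.orderOf_coe] at hi
    have h1 : β ^ (2 ^ (j + i)) = 1 := by
      rw [hβ, hcomm.mul_pow, ← map_pow]
      have h3 : ((s : G)⁻¹) ^ (2 ^ (j + i)) = 1 := by
        rw [inv_pow, pow_add, pow_mul', ← hi, pow_orderOf_eq_one, one_pow, inv_one]
      have h4 : α ^ (2 ^ (j + i)) = 1 := by
        rw [pow_add, pow_mul, ← hj, pow_orderOf_eq_one, one_pow]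
      rw [h3, h4, map_one, mul_one]
    obtain ⟨m, -, hm⟩ := (Nat.dvd_prime_pow Nat.prime_two).mp (orderOf_dvd_of_pow_eq_one h1)
    exact ⟨m, hm⟩
  have hβ3 : ∀ n ∈ normalizer ((P : Subgroup G) : Set G), β n * n⁻¹ ∈ DD 2 (P : Subgroup G) := by
    intro n hn
    have h1 := hzd ⟨n, hn⟩
    have h3 : α n = z ⟨n, hn⟩ * d ⟨n, hn⟩ * n := by
      have : α n * n⁻¹ = z ⟨n, hn⟩ * d ⟨n, hn⟩ := h1
      rw [← this]; group
    have h4 : (s : G) = z ⟨n, hn⟩ * (n * s * n⁻¹) := by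
      have := congrArg Subtype.val (hs2 ⟨n, hn⟩)
      exact this
    have h5 : (s : G)⁻¹ * z ⟨n, hn⟩ = (n * s * n⁻¹)⁻¹ := by
      rw [inv_mul_eq_iff_eq_mul, eq_mul_inv_iff_mul_eq]
      exact h4.symm
    have h6 : β n * n⁻¹ = (n * s * n⁻¹)⁻¹ * d ⟨n, hn⟩ * (n * s * n⁻¹)⁻¹⁻¹ := by
      rw [hβ1, h3, ← h5]
      have h7 : (s : G)⁻¹ * (z ⟨n, hn⟩ * d ⟨n, hn⟩ * n) * s * n⁻¹ = ((s : G)⁻¹ * z ⟨n, hn⟩) * d ⟨n, hn⟩ * (n * s * n⁻¹) := by group
      rw [h7, h5, inv_inv]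
    rw [h6]
    exact DD_conj (inv_mem (hPC ((mem_normalizer_iff.mp hn s).mp s.2))) (hd _)
  have hβ4 := zp_trivial hβfix hβ3
  have hfin := thmB hcore P β hβ2 hβfix (by
    intro ψ hψ Q hQ hQS n hn
    have hQP : Q = P := by
      apply le_antisymm hQ
      intro x hx
      refine hQS x (mem_centralizer_iff.mpr fun y hy => hc y (hQ hy) x hx) ?_
      obtain ⟨k, hk⟩ := (IsPGroup.iff_orderOf.mp P.isPGroup') ⟨x, hx⟩
      exact ⟨k, by rw [← hk, ← Subgroup.orderOf_coe]⟩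
    subst hQP
    exact hβ4 ψ hψ n hn)
  refine ⟨s, fun x => ?_⟩
  have h9 : β x = x := by rw [hfin]; rfl
  rw [hβ1] at h9
  calc α x = s * ((s : G)⁻¹ * α x * s) * (s : G)⁻¹ := by group
    _ = _ := by rw [h9]

end Cfsg.Agent.Lib.H3GC
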