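import Mathlib

/-! Grün's first theorem. -/

namespace Cfsg.Agent.Lib.H3Grun

open Subgroup MulAction

open scoped commutatorElement Pointwise

universe u v
variable {G : Type u} [Group G] {A : Type v} [CommGroup A]

open Classical in
/-- extension of a homomorphism by one -/
noncomputable def ext {P : Subgroup G} (φ : P →* A) (g : G) : A := if h : g ∈ P then φ ⟨g, h⟩ else 1

theorem ext_of_mem {P : Subgroup G} (φ : P →* A) {g : G} (h : g ∈ P) : ext φ g = φ ⟨g, h⟩ := by
  unfold ext; rw [dif_pos h]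

theorem ext_mul {P : Subgroup G} (φ : P →* A) {g k : G} (h : g ∈ P) (hk : k ∈ P) : ext φ (g * k) = ext φ g * ext φ k := by
  rw [ext_of_mem φ h, ext_of_mem φ hk, ext_of_mem φ (mul_mem h hk), ← map_mul]; rfl

theorem ext_pow {P : Subgroup G} (φ : P →* A) {g : G} (h : g ∈ P) (n : ℕ) : ext φ (g ^ n) = ext φ g ^ n := by
  rw [ext_of_mem φ h, ext_of_mem φ (pow_mem h n), ← map_pow]; rfl

theorem ext_conj {P : Subgroup G} (φ : P →* A) {g k : G} (h : g ∈ P) (hk : k ∈ P) : ext φ (k⁻¹ * g * k) = ext φ g := by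
  rw [ext_mul φ (mul_mem (inv_mem hk) h) hk, ext_mul φ (inv_mem hk) h, mul_comm (ext φ k⁻¹), mul_assoc,
    ← ext_mul φ (inv_mem hk) hk, inv_mul_cancel, ext_of_mem φ (one_mem _)]
  have : (⟨1, one_mem P⟩ : P) = 1 := rfl
  rw [this, map_one, mul_one]

theorem fix_iff {P : Subgroup G} (u g : G) : u • (g : G ⧸ P) = (g : G ⧸ P) ↔ g⁻¹ * u * g ∈ P := by
  have : u • (g : G ⧸ P) = ((u * g : G) : G ⧸ P) := rfl
  rw [this, eq_comm, QuotientGroup.eq, mul_assoc]

theorem fix_out {P : Subgroup G} {u : G} {c : G ⧸ P} : u • c = c ↔ c.out⁻¹ * u * c.out ∈ P := by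
  rw [← fix_iff, QuotientGroup.out_eq']

theorem mem_norm_of_conj_le [Finite G] (P : Subgroup G) (w : G) (hle : ∀ x ∈ P, w⁻¹ * x * w ∈ P) :
    w ∈ normalizer (P : Set G) := by
  rw [mem_normalizer_iff'']
  intro x
  constructor
  · exact hle x
  · intro hx
    have h5 : P.map (MulAut.conj w⁻¹).toMonoidHom = P := by
      refine Subgroup.eq_of_le_of_card_ge ?_ (le_of_eq ?_)
      · rintro _ ⟨y, hy, rfl⟩
        have := hle y hy
        simpa using this
      · exact (Nat.card_congr ((P.equivMapOfInjective _ (MulAut.conj w⁻¹).injective).toEquiv))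
    rw [← h5] at hx
    obtain ⟨y, hy, hy2⟩ := hx
    have : y = x := by
      have h6 : w⁻¹ * y * w = w⁻¹ * x * w := by simpa using hy2
      simpa using h6
    rw [← this]; exact hy

theorem transfer_eq [Finite G] (P : Subgroup G) (φ : P →* A) (u : G)
    (h1 : ∀ g : G, ∀ n : ℕ, 1 < n → n ∣ orderOf u → g⁻¹ * u ^ n * g ∈ P → ext φ (g⁻¹ * u ^ n * g) = 1) [Fintype (G ⧸ P)] [DecidableEq (G ⧸ P)] :
    MonoidHom.transfer φ u = ∏ c : G ⧸ P with u • c = c, ext φ (c.out⁻¹ * u * c.out) := by
  classical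
  haveI : Fintype (Quotient (orbitRel (zpowers u) (G ⧸ P))) := Fintype.ofFinite _
  rw [MonoidHom.transfer_eq_prod_quotient_orbitRel_zpowers_quot φ u]
  have hper : ∀ c : G ⧸ P, Function.minimalPeriod (u • ·) c ∣ orderOf u := by
    intro c
    apply Function.IsPeriodicPt.minimalPeriod_dvd
    show (u • ·)^[orderOf u] c = c
    rw [smul_iterate, pow_orderOf_eq_one]
    exact one_smul G c
  have hpos : ∀ c : G ⧸ P, 0 < Function.minimalPeriod (u • ·) c := fun c =>
    Nat.pos_of_dvd_of_pos (hper c) (orderOf_pos u)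
  have e1 : (∏ q : Quotient (orbitRel (zpowers u) (G ⧸ P)),
        φ ⟨q.out.out⁻¹ * u ^ Function.minimalPeriod (u • ·) q.out * q.out.out,
            QuotientGroup.out_conj_pow_minimalPeriod_mem P u q.out⟩) =
      ∏ q : Quotient (orbitRel (zpowers u) (G ⧸ P)) with u • q.out = q.out, ext φ (q.out.out⁻¹ * u * q.out.out) := by
    rw [Finset.prod_filter]
    refine Finset.prod_congr rfl fun q _ => ?_
    split_ifs with hq
    · have hm : Function.minimalPeriod (u • ·) q.out = 1 :=
        Function.minimalPeriod_eq_one_iff_isFixedPt.mpr hq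
      rw [← ext_of_mem, hm, pow_one]
    · have hm : 1 < Function.minimalPeriod (u • ·) q.out := by
        rcases Nat.lt_or_ge 1 (Function.minimalPeriod (u • ·) q.out) with h | h
        · exact h
        · exfalso
          have h0 := hpos q.out
          have : Function.minimalPeriod (u • ·) q.out = 1 := by omega
          exact hq (Function.minimalPeriod_eq_one_iff_isFixedPt.mp this)
      have h2 := h1 q.out.out _ hm (hper _) (QuotientGroup.out_conj_pow_minimalPeriod_mem P u q.out)
      rw [ext_of_mem φ (QuotientGroup.out_conj_pow_minimalPeriod_mem P u q.out)] at h2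
      exact h2
  rw [e1]
  refine Finset.prod_bij (fun q _ => q.out) ?_ ?_ ?_ ?_
  · intro q hq
    rw [Finset.mem_filter] at hq ⊢
    exact ⟨Finset.mem_univ _, hq.2⟩
  · intro q _ q' _ h
    exact Quotient.out_injective h
  · intro c hc
    rw [Finset.mem_filter] at hc
    have hrel : (Quotient.mk (orbitRel (zpowers u) (G ⧸ P)) c).out = c := by
      have h3 : (orbitRel (zpowers u) (G ⧸ P)) (Quotient.mk (orbitRel (zpowers u) (G ⧸ P)) c).out c :=
        Quotient.mk_out c
      rw [orbitRel_apply] at h3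
      obtain ⟨⟨w, hw⟩, hw2⟩ := h3
      obtain ⟨i, rfl⟩ := hw
      have h4 : (u ^ i : G) • c = c := by
        have : u ∈ stabilizer G c := hc.2
        exact zpow_mem this i
      rw [← hw2]
      exact h4
    refine ⟨Quotient.mk _ c, ?_, hrel⟩
    rw [Finset.mem_filter, hrel]
    exact ⟨Finset.mem_univ _, hc.2⟩
  · intro q _
    rfl

theorem key [Finite G] {p : ℕ} [Fact p.Prime] (P : Sylow p G) (φ : (P : Subgroup G) →* A) {u : G} (hu : u ∈ (P : Subgroup G))
    (huG : u ∈ commutator G) (hu1 : u ≠ 1)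
    (h1 : ∀ v ∈ (P : Subgroup G), v ∈ commutator G → orderOf v < orderOf u → ext φ v = 1)
    (h2 : ∀ x : G, ∀ v ∈ ⁅(P : Subgroup G), (P : Subgroup G)⁆, x⁻¹ * v * x ∈ (P : Subgroup G) → ext φ (x⁻¹ * v * x) = 1)
    (h3 : ∀ x ∈ normalizer ((P : Subgroup G) : Set G), ext φ (x⁻¹ * u * x) = ext φ u) :
    ∃ k : ℕ, ¬ p ∣ k ∧ ext φ u ^ k = 1 := by
  classical
  have hp : p.Prime := Fact.out
  haveI : Fintype (G ⧸ (P : Subgroup G)) := Fintype.ofFinite _
  have hup : ∃ n, orderOf u = p ^ n := by
    have := P.isPGroup' ⟨u, hu⟩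
    obtain ⟨n, hn⟩ := (IsPGroup.iff_orderOf.mp P.isPGroup') ⟨u, hu⟩
    exact ⟨n, by rw [← hn, ← orderOf_coe]⟩
  have hpow : ∀ g : G, ∀ n : ℕ, 1 < n → n ∣ orderOf u → g⁻¹ * u ^ n * g ∈ (P : Subgroup G) → ext φ (g⁻¹ * u ^ n * g) = 1 := by
    intro g n hn hd hm
    refine h1 _ hm ?_ ?_
    · have := (inferInstance : (commutator G).Normal).conj_mem (u ^ n) (pow_mem huG n) g⁻¹
      rwa [inv_inv] at this
    · have h4 : orderOf (g⁻¹ * u ^ n * g) = orderOf (u ^ n) := by
        have := orderOf_injective (MulAut.conj g⁻¹).toMonoidHom (MulAut.conj g⁻¹).injective (u ^ n)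
        simpa using this
      rw [h4, orderOf_pow_of_dvd (by omega) hd]
      exact Nat.div_lt_self (orderOf_pos u) hn
  have hpd : p ∣ orderOf u := by
    obtain ⟨n, hn⟩ := hup
    rw [hn]
    rcases n with _ | n
    · rw [pow_zero] at hn
      exact absurd (orderOf_eq_one_iff.mp hn) hu1
    · exact dvd_pow_self p (Nat.succ_ne_zero n)
  have htr := transfer_eq (P : Subgroup G) φ u hpow
  have htr1 : MonoidHom.transfer φ u = 1 := by
    have : commutator G ≤ (MonoidHom.transfer φ).ker := Abelianization.commutator_subset_ker _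
    exact this huG
  rw [htr1] at htr
  -- split
  set S1 : Finset (G ⧸ (P : Subgroup G)) := Finset.univ.filter (fun c => ∀ x : (P : Subgroup G), x • c = c) with hS1
  have hsub : ∀ c ∈ S1, u • c = c := by
    intro c hc
    rw [hS1, Finset.mem_filter] at hc
    exact hc.2 ⟨u, hu⟩
  have hsplit : (∏ c : G ⧸ (P : Subgroup G) with u • c = c, ext φ (c.out⁻¹ * u * c.out)) =
      (∏ c ∈ S1, ext φ (c.out⁻¹ * u * c.out)) *
      ∏ c : G ⧸ (P : Subgroup G) with (u • c = c ∧ c ∉ S1), ext φ (c.out⁻¹ * u * c.out) := by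
    rw [← Finset.prod_union]
    · congr 1
      ext c
      simp only [Finset.mem_filter, Finset.mem_union, Finset.mem_univ, true_and]
      constructor
      · intro h
        by_cases hc : c ∈ S1
        · exact Or.inl hc
        · exact Or.inr ⟨h, hc⟩
      · rintro (h | h)
        · exact hsub c h
        · exact h.1
    · rw [Finset.disjoint_left]
      intro c hc hc2
      rw [Finset.mem_filter] at hc2
      exact hc2.2.2 hc
  have hP1 : (∏ c ∈ S1, ext φ (c.out⁻¹ * u * c.out)) = ext φ u ^ S1.card := by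
    rw [← Finset.prod_const]
    refine Finset.prod_congr rfl fun c hc => h3 _ ?_
    rw [hS1, Finset.mem_filter] at hc
    exact mem_norm_of_conj_le _ _ fun x hx => fix_out.mp (hc.2 ⟨x, hx⟩)
  have hP2 : (∏ c : G ⧸ (P : Subgroup G) with (u • c = c ∧ c ∉ S1), ext φ (c.out⁻¹ * u * c.out)) = 1 := by
    rw [← Finset.prod_fiberwise (g := fun c : G ⧸ (P : Subgroup G) => (Quotient.mk (orbitRel (P : Subgroup G) (G ⧸ (P : Subgroup G))) c))]
    refine Finset.prod_eq_one fun O _ => ?_
    by_cases hne : ∃ c0, c0 ∈ ((Finset.univ.filter (fun c : G ⧸ (P : Subgroup G) => u • c = c ∧ c ∉ S1)).filter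
        (fun c => (Quotient.mk (orbitRel (P : Subgroup G) (G ⧸ (P : Subgroup G))) c) = O))
    swap
    · rw [Finset.prod_eq_one]
      intro c hc
      exact absurd ⟨c, hc⟩ hne
    obtain ⟨c0, hc0⟩ := hne
    simp only [Finset.mem_filter, Finset.mem_univ, true_and] at hc0
    obtain ⟨⟨hc01, hc02⟩, hc03⟩ := hc0
    have hval : ∀ c ∈ ((Finset.univ.filter (fun c : G ⧸ (P : Subgroup G) => u • c = c ∧ c ∉ S1)).filter
        (fun c => (Quotient.mk (orbitRel (P : Subgroup G) (G ⧸ (P : Subgroup G))) c) = O)),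
        ext φ (c.out⁻¹ * u * c.out) = ext φ (c0.out⁻¹ * u * c0.out) := by
      intro c hc
      simp only [Finset.mem_filter, Finset.mem_univ, true_and] at hc
      obtain ⟨⟨hc1, hc2⟩, hc3⟩ := hc
      have hrel : (orbitRel (P : Subgroup G) (G ⧸ (P : Subgroup G))) c c0 := Quotient.exact (hc3.trans hc03.symm)
      rw [orbitRel_apply] at hrel
      obtain ⟨⟨y, hy⟩, hyc⟩ := hrel
      have hyc' : ((y * c0.out : G) : G ⧸ (P : Subgroup G)) = c := by
        rw [← hyc]
        show ((y * c0.out : G) : G ⧸ (P : Subgroup G)) = y • c0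
        conv_rhs => rw [← QuotientGroup.out_eq' c0]
        rfl
      obtain ⟨⟨z, hz⟩, hzc⟩ := QuotientGroup.mk_out_eq_mul (P : Subgroup G) (y * c0.out)
      rw [hyc'] at hzc
      have hx0 : c0.out⁻¹ * u * c0.out ∈ (P : Subgroup G) := fix_out.mp hc01
      have e1 : c.out⁻¹ * u * c.out = z⁻¹ * (c0.out⁻¹ * (y⁻¹ * u * y) * c0.out) * z := by
        rw [hzc]; show (y * c0.out * z)⁻¹ * u * (y * c0.out * z) = _; group
      have hc1' : c.out⁻¹ * u * c.out ∈ (P : Subgroup G) := fix_out.mp hc1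
      have e2 : c0.out⁻¹ * (y⁻¹ * u * y) * c0.out = z * (c.out⁻¹ * u * c.out) * z⁻¹ := by rw [e1]; group
      have hm2 : c0.out⁻¹ * (y⁻¹ * u * y) * c0.out ∈ (P : Subgroup G) := by
        rw [e2]; exact mul_mem (mul_mem hz hc1') (inv_mem hz)
      rw [e1, ext_conj φ hm2 hz]
      have e3 : c0.out⁻¹ * (y⁻¹ * u * y) * c0.out = (c0.out⁻¹ * u * c0.out) * (c0.out⁻¹ * ⁅u⁻¹, y⁻¹⁆ * c0.out) := by
        simp only [commutatorElement_def]; group
      have hm3 : c0.out⁻¹ * ⁅u⁻¹, y⁻¹⁆ * c0.out ∈ (P : Subgroup G) := by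
        have : c0.out⁻¹ * ⁅u⁻¹, y⁻¹⁆ * c0.out = (c0.out⁻¹ * u * c0.out)⁻¹ * (c0.out⁻¹ * (y⁻¹ * u * y) * c0.out) := by
          simp only [commutatorElement_def]; group
        rw [this]; exact mul_mem (inv_mem hx0) hm2
      rw [e3, ext_mul φ hx0 hm3, h2 _ _ (commutator_mem_commutator (inv_mem hu) (inv_mem hy)) hm3, mul_one]
    rw [Finset.prod_congr rfl hval, Finset.prod_const]
    have hx0 : c0.out⁻¹ * u * c0.out ∈ (P : Subgroup G) := fix_out.mp hc01
    have hFp : ext φ (c0.out⁻¹ * u * c0.out) ^ p = 1 := by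
      rw [← ext_pow φ hx0]
      have e4 : (c0.out⁻¹ * u * c0.out) ^ p = c0.out⁻¹ * u ^ p * c0.out := by
        have := conj_pow (i := p) (a := c0.out⁻¹) (b := u)
        rwa [inv_inv] at this
      rw [e4]
      exact hpow _ p hp.one_lt hpd (by rw [← e4]; exact pow_mem hx0 p)
    -- count
    have hcard : p ∣ ((Finset.univ.filter (fun c : G ⧸ (P : Subgroup G) => u • c = c ∧ c ∉ S1)).filter
        (fun c => (Quotient.mk (orbitRel (P : Subgroup G) (G ⧸ (P : Subgroup G))) c) = O)).card := by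
      let u' : (P : Subgroup G) := ⟨u, hu⟩
      have hpg : IsPGroup p (zpowers u') := P.isPGroup'.to_subgroup _
      have hmod := hpg.card_modEq_card_fixedPoints (orbit (P : Subgroup G) c0)
      have horb : p ∣ Nat.card (orbit (P : Subgroup G) c0) := by
        have h5 : Nat.card (orbit (P : Subgroup G) c0) ∣ Nat.card (P : Subgroup G) := by
          rw [Nat.card_congr (orbitEquivQuotientStabilizer (P : Subgroup G) c0)]
          exact Subgroup.index_dvd_card _
        obtain ⟨n, hn⟩ := IsPGroup.iff_card.mp P.isPGroup'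
        rw [hn] at h5
        obtain ⟨m, -, hm⟩ := (Nat.dvd_prime_pow hp).mp h5
        rcases m with _ | m
        · exfalso
          apply hc02
          rw [hS1, Finset.mem_filter]
          refine ⟨Finset.mem_univ _, fun x => ?_⟩
          rw [pow_zero] at hm
          have h6 := (Nat.card_eq_one_iff_unique.mp hm).1
          have h7 := h6.elim ⟨x • c0, mem_orbit c0 x⟩ ⟨c0, mem_orbit_self c0⟩
          exact congrArg Subtype.val h7
        · rw [hm]; exact dvd_pow_self p (Nat.succ_ne_zero m)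
      have h8 : p ∣ Nat.card (fixedPoints (zpowers u') (orbit (P : Subgroup G) c0)) :=
        (Nat.ModEq.dvd_iff hmod (dvd_refl p)).mp horb
      have h9 : Nat.card (fixedPoints (zpowers u') (orbit (P : Subgroup G) c0)) =
          ((Finset.univ.filter (fun c : G ⧸ (P : Subgroup G) => u • c = c ∧ c ∉ S1)).filter
            (fun c => (Quotient.mk (orbitRel (P : Subgroup G) (G ⧸ (P : Subgroup G))) c) = O)).card := by
        rw [← Fintype.card_coe, ← Nat.card_eq_fintype_card]
        refine Nat.card_congr (Equiv.ofBijective (fun x => ⟨x.1.1, ?_⟩) ⟨?_, ?_⟩)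
        · simp only [Finset.mem_filter, Finset.mem_univ, true_and]
          have hx1 : u • x.1.1 = x.1.1 := by
            have := x.2 ⟨u', mem_zpowers u'⟩
            exact congrArg Subtype.val this
          obtain ⟨⟨y, hy⟩, hyx⟩ := x.1.2
          refine ⟨⟨hx1, fun hxS => hc02 ?_⟩, ?_⟩
          · rw [hS1, Finset.mem_filter] at hxS ⊢
            have h10 : x.1.1 = c0 := by
              have h11 := hxS.2 (⟨y, hy⟩ : (P : Subgroup G))⁻¹
              rw [← hyx] at h11 ⊢
              rw [← h11]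
              exact inv_smul_smul (⟨y, hy⟩ : (P : Subgroup G)) c0
            rw [h10] at hxS
            exact hxS
          · rw [← hc03]
            apply Quotient.sound
            show (orbitRel (P : Subgroup G) (G ⧸ (P : Subgroup G))) x.1.1 c0
            rw [orbitRel_apply]
            exact x.1.2
        · intro x y hxy
          exact Subtype.ext (Subtype.ext (congrArg (fun t => (t.1 : G ⧸ (P : Subgroup G))) hxy))
        · rintro ⟨c, hc⟩
          simp only [Finset.mem_filter, Finset.mem_univ, true_and] at hc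
          have hrel : (orbitRel (P : Subgroup G) (G ⧸ (P : Subgroup G))) c c0 := Quotient.exact (hc.2.trans hc03.symm)
          rw [orbitRel_apply] at hrel
          refine ⟨⟨⟨c, hrel⟩, ?_⟩, rfl⟩
          rintro ⟨w, i, rfl⟩
          apply Subtype.ext
          show (u' ^ i : (P : Subgroup G)) • c = c
          have h12 : u' ∈ stabilizer (P : Subgroup G) c := hc.1.1
          exact zpow_mem h12 i
      rw [← h9]
      exact h8
    obtain ⟨m, hm⟩ := hcard
    rw [hm, pow_mul, hFp, one_pow]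
  rw [hsplit, hP1, hP2, mul_one] at htr
  refine ⟨S1.card, ?_, htr.symm⟩
  have hmod := P.isPGroup'.card_modEq_card_fixedPoints (G ⧸ (P : Subgroup G))
  have hS1c : Nat.card (fixedPoints (P : Subgroup G) (G ⧸ (P : Subgroup G))) = S1.card := by
    rw [Nat.card_eq_fintype_card, Fintype.card_subtype]
    rfl
  rw [hS1c] at hmod
  intro hdvd
  have := (Nat.ModEq.dvd_iff hmod (dvd_refl p)).mpr hdvd
  exact P.not_dvd_index this

theorem grun [Finite G] {p : ℕ} [Fact p.Prime] (P : Sylow p G) (T : Subgroup G)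
    (hT1 : ∀ z v : G, v ∈ ⁅(P : Subgroup G), (P : Subgroup G)⁆ → z⁻¹ * v * z ∈ (P : Subgroup G) → z⁻¹ * v * z ∈ T)
    (hT2 : ∀ x ∈ normalizer ((P : Subgroup G) : Set G), ∀ u ∈ (P : Subgroup G), u⁻¹ * (x⁻¹ * u * x) ∈ T) :
    ∀ n : ℕ, ∀ u ∈ (P : Subgroup G), u ∈ commutator G → orderOf u ≤ n → u ∈ T := by
  have hPP : ∀ v ∈ ⁅(P : Subgroup G), (P : Subgroup G)⁆, v ∈ T := by
    intro v hv
    have h1 : v ∈ (P : Subgroup G) := commutator_le_self _ hv
    have := hT1 1 v hv (by rwa [inv_one, one_mul, mul_one])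
    rwa [inv_one, one_mul, mul_one] at this
  let K : Subgroup (P : Subgroup G) := T.subgroupOf (P : Subgroup G)
  let φ : (P : Subgroup G) →* Abelianization (P : Subgroup G) ⧸ K.map Abelianization.of :=
    (QuotientGroup.mk' _).comp Abelianization.of
  have hker : ∀ v : (P : Subgroup G), φ v = 1 ↔ (v : G) ∈ T := by
    intro v
    show (QuotientGroup.mk' (K.map Abelianization.of)) (Abelianization.of v) = 1 ↔ _
    rw [QuotientGroup.mk'_apply, QuotientGroup.eq_one_iff]
    constructor
    · rintro ⟨w, hw, hwv⟩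
      have h1 : w⁻¹ * v ∈ (Abelianization.of (G := (P : Subgroup G))).ker := by
        rw [MonoidHom.mem_ker, map_mul, map_inv, hwv, inv_mul_cancel]
      rw [Abelianization.ker_of] at h1
      have h2 : ((w⁻¹ * v : (P : Subgroup G)) : G) ∈ ⁅(P : Subgroup G), (P : Subgroup G)⁆ := by
        have h3 := mem_map_of_mem (P : Subgroup G).subtype h1
        rw [commutator_def, map_commutator, ← MonoidHom.range_eq_map, range_subtype] at h3
        exact h3
      have h4 := mul_mem (show (w : G) ∈ T from hw) (hPP _ h2)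
      have h5 : (w : G) * ((w⁻¹ * v : (P : Subgroup G)) : G) = v := by
        rw [coe_mul, coe_inv, mul_inv_cancel_left]
      rwa [h5] at h4
    · intro hv
      exact ⟨v, hv, rfl⟩
  have hext : ∀ v ∈ (P : Subgroup G), (ext φ v = 1 ↔ v ∈ T) := by
    intro v hv
    rw [ext_of_mem φ hv]
    exact hker ⟨v, hv⟩
  intro n
  induction n with
  | zero => intro u _ _ h; exact absurd h (by have := orderOf_pos u; omega)
  | succ n ih =>
    intro u hu huG hn
    by_cases hu1 : u = 1
    · rw [hu1]; exact one_mem _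
    obtain ⟨k, hk, hk2⟩ := key P φ hu huG hu1
      (fun v hv hvG hlt => (hext v hv).mpr (ih v hv hvG (by omega)))
      (fun x v hv hm => (hext _ hm).mpr (hT1 x v hv hm))
      (fun x hx => by
        have hm : x⁻¹ * u * x ∈ (P : Subgroup G) := (mem_normalizer_iff''.mp hx u).mp hu
        have h1 := (hext _ (mul_mem (inv_mem hu) hm)).mpr (hT2 x hx u hu)
        have h2 : x⁻¹ * u * x = u * (u⁻¹ * (x⁻¹ * u * x)) := by group
        rw [h2, ext_mul φ hu (mul_mem (inv_mem hu) hm), h1, mul_one])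
    rw [← ext_pow φ hu, hext _ (pow_mem hu k)] at hk2
    -- u ^ k ∈ T, k coprime to order
    obtain ⟨m, hm⟩ := (IsPGroup.iff_orderOf.mp P.isPGroup') ⟨u, hu⟩
    rw [← orderOf_coe] at hm
    have hcop : k.Coprime (orderOf u) := by
      rw [show orderOf u = p ^ m from hm]
      exact Nat.Coprime.pow_right m (((Fact.out : p.Prime).coprime_iff_not_dvd.mpr hk).symm)
    obtain ⟨j, hj⟩ := exists_pow_eq_self_of_coprime hcop
    rw [← hj]
    exact pow_mem hk2 j

end Cfsg.Agent.Lib.H3Grun
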