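import Mathlib

set_option autoImplicit false
set_option linter.style.longLine false

namespace Cfsg.Agent.Lib.H3Homo

open Finset

variable {A : Type*} [AddCommGroup A] [Finite A]

theorem pow_comm' (N : AddMonoid.End A) (k : ℕ) (v : A) : (N ^ (k + 1)) v = N ((N ^ k) v) := by
  rw [pow_succ']; rfl

/-- main computation -/
theorem core {p : ℕ} [hp : Fact p.Prime] (hp3 : 3 < p) (S : AddMonoid.End A) (hS : S ^ p = 1)
    (h1 : ∀ v : A, p • p • v = 0) (h2 : ∀ v : A, p • v = 0 → ∃ w, v = p • w) (hc : Nat.card A = p ^ 4) :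
    ∀ v : A, p • v = 0 → S v = v := by
  have hpp := hp.out
  set N : AddMonoid.End A := S - 1 with hN
  have hSN : S = N + 1 := by rw [hN, sub_add_cancel]
  have hexp := Commute.add_pow_prime_eq' hpp (Commute.one_right N)
  rw [← hSN, hS, one_pow] at hexp
  set T := ∑ k ∈ Ioo 0 p, N ^ k * 1 ^ (p - k) * ((p.choose k / p : ℕ) : AddMonoid.End A) with hT
  have hcast : ∀ (X : AddMonoid.End A) (v : A), ((p : AddMonoid.End A) * X) v = p • (X v) := by
    intro X v
    rw [← nsmul_eq_mul]; rfl
  -- `N ^ p` kills `Ω`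
  have hNp : ∀ v : A, p • v = 0 → (N ^ p) v = 0 := by
    intro v hv
    have h3 := congrArg (fun f : AddMonoid.End A => f v) hexp
    have h4 : v = (N ^ p) v + v + ((p : AddMonoid.End A) * T) v := h3
    rw [hcast, ← map_nsmul, hv, map_zero, add_zero] at h4
    have h5 : (N ^ p) v + v = 0 + v := by rw [zero_add]; exact h4.symm
    exact add_right_cancel h5
  -- Ω
  let mp : A →+ A := nsmulAddMonoidHom p
  have hker : ∀ v : A, v ∈ mp.ker ↔ p • v = 0 := fun v => Iff.rfl
  have hrange : mp.range = mp.ker := by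
    ext v
    constructor
    · rintro ⟨w, rfl⟩
      exact h1 w
    · intro hv
      obtain ⟨w, hw⟩ := h2 v hv
      exact ⟨w, hw.symm⟩
  have hcard : Nat.card mp.ker = p ^ 2 := by
    have h3 : Nat.card mp.ker * Nat.card mp.range = Nat.card A := by
      rw [mul_comm]
      have h4 := AddSubgroup.card_mul_index mp.ker
      rw [AddSubgroup.index_ker] at h4
      rw [mul_comm, h4]
    rw [hrange, hc] at h3
    have h5 : Nat.card mp.ker ^ 2 = (p ^ 2) ^ 2 := by rw [sq, h3]; ring
    exact Nat.pow_left_injective (n := 2) (by norm_num) h5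
  have hNΩ : ∀ v : A, p • v = 0 → p • (N v) = 0 := by
    intro v hv
    rw [← map_nsmul, hv, map_zero]
  let NΩ : mp.ker →+ A := (N : A →+ A).comp mp.ker.subtype
  have h3 : ∀ v : A, p • v = 0 → N (N v) = 0 := by
    by_cases hz : ∀ v : A, p • v = 0 → N v = 0
    · intro v hv
      rw [hz v hv, map_zero]
    · push Not at hz
      obtain ⟨v0, hv0, hv0'⟩ := hz
      -- a nonzero element of the image killed by `N`
      obtain ⟨u, huM, hu0, huN⟩ : ∃ u : A, u ∈ NΩ.range ∧ u ≠ 0 ∧ N u = 0 := by
        have hex : ∃ k : ℕ, (N ^ (k + 1)) v0 = 0 := ⟨p - 1, by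
          rw [Nat.sub_add_cancel hpp.one_lt.le]; exact hNp v0 hv0⟩
        classical
        let k := Nat.find hex
        have hk : (N ^ (k + 1)) v0 = 0 := Nat.find_spec hex
        have hk0 : k ≠ 0 := by
          intro h0
          rw [h0, zero_add, pow_one] at hk
          exact hv0' hk
        obtain ⟨j, hj⟩ := Nat.exists_eq_succ_of_ne_zero hk0
        have hkj : ¬ (N ^ (j + 1)) v0 = 0 := Nat.find_min hex (by omega)
        have hpj : p • (N ^ j) v0 = 0 := by rw [← map_nsmul, hv0, map_zero]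
        refine ⟨(N ^ (j + 1)) v0, ⟨⟨(N ^ j) v0, hpj⟩, ?_⟩, hkj, ?_⟩
        · rw [pow_comm']; rfl
        · rw [hj] at hk
          rw [← pow_comm']; exact hk
      -- orders
      have hM1 : Nat.card NΩ.ker * Nat.card NΩ.range = p ^ 2 := by
        have h4 := AddSubgroup.card_mul_index NΩ.ker
        rw [AddSubgroup.index_ker, hcard] at h4
        exact h4
      obtain ⟨w, hw⟩ := huM
      have hu : p • u = 0 := by
        rw [← hw]; exact hNΩ w w.2
      have hkne : Nat.card NΩ.ker ≠ 1 := by
        intro h4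
        have h5 : (⟨⟨u, hu⟩, huN⟩ : NΩ.ker) = 0 := by
          haveI := (Nat.card_eq_one_iff_unique.1 h4).1
          exact Subsingleton.elim _ _
        exact hu0 (congrArg (fun z : NΩ.ker => ((z : mp.ker) : A)) h5)
      have hrne : Nat.card NΩ.range ≠ 1 := by
        intro h4
        have h5 : (⟨u, ⟨w, hw⟩⟩ : NΩ.range) = 0 := by
          haveI := (Nat.card_eq_one_iff_unique.1 h4).1
          exact Subsingleton.elim _ _
        exact hu0 (congrArg (fun z : NΩ.range => (z : A)) h5)
      have hr : Nat.card NΩ.range = p := by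
        have h4 : Nat.card NΩ.range ∣ p ^ 2 := Dvd.intro_left _ hM1
        obtain ⟨i, hi, hi'⟩ := (Nat.dvd_prime_pow hpp).1 h4
        have h5 : i = 0 ∨ i = 1 ∨ i = 2 := by omega
        rcases h5 with rfl | rfl | rfl
        · exact absurd (by rw [hi', pow_zero]) hrne
        · rw [hi', pow_one]
        · exfalso
          rw [hi'] at hM1
          have : 0 < p ^ 2 := pow_pos hpp.pos 2
          exact hkne (Nat.eq_of_mul_eq_mul_right this (by rw [hM1, one_mul]))
      haveI : Fact (Nat.card NΩ.range).Prime := ⟨by rw [hr]; exact hpp⟩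
      -- the image is generated by `u`
      have hgen : NΩ.range ≤ (N : A →+ A).ker := by
        have h4 := AddSubgroup.eq_bot_or_eq_top_of_prime_card (((N : A →+ A).ker).addSubgroupOf NΩ.range)
        rcases h4 with h4 | h4
        · exfalso
          have h5 : (⟨u, ⟨w, hw⟩⟩ : NΩ.range) ∈ (((N : A →+ A).ker).addSubgroupOf NΩ.range) := huN
          rw [h4, AddSubgroup.mem_bot] at h5
          exact hu0 (congrArg (fun z : NΩ.range => (z : A)) h5)
        · exact (AddSubgroup.addSubgroupOf_eq_top).1 h4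
      intro v hv
      exact hgen ⟨⟨v, hv⟩, rfl⟩
  -- consequences
  have h4 : (p : AddMonoid.End A) * (N * N) = 0 := by
    ext v
    rw [hcast]
    change p • (N (N v)) = 0
    rw [← map_nsmul, ← map_nsmul]
    exact h3 _ (h1 v)
  have h5 : N ^ 4 = 0 := by
    ext v
    change N (N (N (N v))) = 0
    apply h3
    have := congrArg (fun f : AddMonoid.End A => f v) h4
    rw [hcast] at this
    exact this
  have h6 : N ^ p = 0 := by
    obtain ⟨j, rfl⟩ := Nat.exists_eq_add_of_le (show 4 ≤ p by omega)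
    rw [pow_add, h5, zero_mul]
  have h7 : (p : AddMonoid.End A) * T = (p : AddMonoid.End A) * N := by
    rw [hT, mul_sum, Finset.sum_eq_single 1]
    · rw [pow_one, one_pow, mul_one, Nat.choose_one_right, Nat.div_self hpp.pos, Nat.cast_one, mul_one]
    · intro k hk hk1
      rw [mem_Ioo] at hk
      obtain ⟨j, rfl⟩ := Nat.exists_eq_add_of_le (show 2 ≤ k by omega)
      rw [one_pow, mul_one, pow_add, sq, ← mul_assoc, ← mul_assoc, h4, zero_mul, zero_mul]
    · intro h
      exact absurd (mem_Ioo.2 ⟨one_pos, hpp.one_lt⟩) h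
  rw [h6, zero_add, h7] at hexp
  have h8 : (p : AddMonoid.End A) * N = 0 := by
    have : (1 : AddMonoid.End A) + 0 = 1 + (p : AddMonoid.End A) * N := by rw [add_zero]; exact hexp
    exact (add_left_cancel this).symm
  intro v hv
  obtain ⟨w, rfl⟩ := h2 v hv
  have h9 : N (p • w) = 0 := by
    rw [map_nsmul]
    have := congrArg (fun f : AddMonoid.End A => f w) h8
    rw [hcast] at this
    exact this
  rw [hSN]
  change N (p • w) + p • w = p • w
  rw [h9, zero_add]

theorem main {p : ℕ} [Fact p.Prime] (hp : 3 < p)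
    (a : MulAut (Multiplicative (ZMod (p ^ 2) × ZMod (p ^ 2)))) (ha : orderOf a = p)
    (x : Multiplicative (ZMod (p ^ 2) × ZMod (p ^ 2))) (hx : orderOf x = p) : a x = x := by
  have hpp : p.Prime := Fact.out
  haveI : NeZero (p ^ 2) := ⟨pow_ne_zero 2 hpp.ne_zero⟩
  let S : AddMonoid.End (ZMod (p ^ 2) × ZMod (p ^ 2)) := MonoidHom.toAdditive a.toMonoidHom
  have hSpow : ∀ (k : ℕ) (v : ZMod (p ^ 2) × ZMod (p ^ 2)), (S ^ k) v = Multiplicative.toAdd ((a ^ k) (Multiplicative.ofAdd v)) := by
    intro k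
    induction k with
    | zero => intro v; rfl
    | succ k ih =>
      intro v
      have e1 : S ^ (k + 1) = S * S ^ k := pow_succ' S k
      have e2 : a ^ (k + 1) = a * a ^ k := pow_succ' a k
      rw [e1, e2]
      change S ((S ^ k) v) = _
      rw [ih v]; rfl
  have hz : ∀ r : ZMod (p ^ 2), p • p • r = 0 := by
    intro r
    rw [← mul_nsmul', nsmul_eq_mul, ← sq, ZMod.natCast_self, zero_mul]
  have hap : a ^ p = 1 := orderOf_dvd_iff_pow_eq_one.1 (by rw [ha])
  have h := core hp S (DFunLike.ext _ _ (fun v => by rw [hSpow, hap]; rfl))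
    (fun v => Prod.ext (hz v.1) (hz v.2)) (by
      rintro ⟨r, s⟩ hrs
      have key : ∀ r : ZMod (p ^ 2), p • r = 0 → ∃ w : ZMod (p ^ 2), r = p • w := by
        intro r hr
        have h1 : ((p * r.val : ℕ) : ZMod (p ^ 2)) = 0 := by
          rw [Nat.cast_mul, ZMod.natCast_zmod_val, ← nsmul_eq_mul]; exact hr
        rw [ZMod.natCast_eq_zero_iff] at h1
        have h2 : p ∣ r.val := by
          have h3 : p * p ∣ p * r.val := dvd_trans (dvd_of_eq (sq p).symm) h1
          exact Nat.dvd_of_mul_dvd_mul_left hpp.pos h3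
        obtain ⟨c, hc⟩ := h2
        refine ⟨(c : ZMod (p ^ 2)), ?_⟩
        rw [nsmul_eq_mul, ← Nat.cast_mul, ← hc, ZMod.natCast_zmod_val]
      obtain ⟨w1, hw1⟩ := key r (congrArg Prod.fst hrs)
      obtain ⟨w2, hw2⟩ := key s (congrArg Prod.snd hrs)
      exact ⟨(w1, w2), Prod.ext hw1 hw2⟩)
    (by rw [Nat.card_prod, Nat.card_zmod]; ring)
    (Multiplicative.toAdd x) (by
      have := pow_orderOf_eq_one x
      rw [hx] at this
      exact this)
  exact h

end Cfsg.Agent.Lib.H3Homo
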