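import Cfsg.Agent.Lib.H3LocG

/-!
Generation by centralizers of hyperplanes, and families of subgroups on a solvable p'-group (helper3).
-/

set_option autoImplicit false
set_option maxHeartbeats 400000
set_option linter.unusedVariables false
set_option linter.unusedSectionVars false

namespace Cfsg.Agent.Lib.H3Hyp

open Subgroup Cfsg Cfsg.Agent.Lib.Basic Cfsg.Agent.Lib.Cores Cfsg.Agent.Lib.Components
  Cfsg.Agent.Lib.H3LocC Cfsg.Agent.Lib.H3LocD Cfsg.Agent.Lib.H3LBal Cfsg.Agent.Lib.H3LocG
open scoped commutatorElement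

universe u
variable {G : Type u} [Group G] [Finite G] {p : ℕ} [Fact p.Prime]

theorem ea_pgroup {A : Subgroup G} (hA : IsElementaryAbelian p A) : IsPGroup p A := by
  intro a
  exact ⟨1, Subtype.ext (by rw [pow_one]; exact hA.2 a a.2)⟩

omit [Finite G] [Fact p.Prime] in
theorem ea_le {A B : Subgroup G} (hA : IsElementaryAbelian p A) (h : B ≤ A) : IsElementaryAbelian p B :=
  ⟨⟨⟨fun a b => Subtype.ext (ea_comm hA (h a.2) (h b.2))⟩⟩, fun b hb => hA.2 b (h hb)⟩

theorem card_sup_zpowers {A B : Subgroup G} (hA : IsElementaryAbelian p A) (hB : B ≤ A) {a : G} (ha : a ∈ A) (haB : a ∉ B) :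
    Nat.card (B ⊔ zpowers a : Subgroup G) = Nat.card B * p := by
  have ha1 : a ≠ 1 := fun h => haB (by rw [h]; exact one_mem _)
  have hao := ea_order hA ha ha1
  have h1 : B ⊓ zpowers a = ⊥ := by
    rw [eq_bot_iff]
    intro x hx
    obtain ⟨hx1, hx2⟩ := mem_inf.mp hx
    by_contra hne
    have hne' : x ≠ 1 := fun h => hne (mem_bot.mpr h)
    have h2 : zpowers x = zpowers a := by
      refine Subgroup.eq_of_le_of_card_ge (zpowers_le.mpr hx2) ?_
      rw [Nat.card_zpowers, Nat.card_zpowers, hao, ea_order hA (hB hx1) hne']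
    have h3 : a ∈ zpowers x := by rw [h2]; exact mem_zpowers a
    exact haB ((zpowers_le.mpr hx1) h3)
  have h2 : Nat.card (B ⊔ zpowers a : Subgroup G) ∣ Nat.card B * Nat.card (zpowers a) :=
    card_sup_dvd (by
      rw [zpowers_le]
      refine centralizer_le_normalizer _ (mem_centralizer_iff.mpr fun b hb => ea_comm hA (hB hb) ha))
  rw [Nat.card_zpowers, hao] at h2
  refine le_antisymm (Nat.le_of_dvd (Nat.mul_pos Nat.card_pos (Fact.out : p.Prime).pos) h2) ?_
  -- injectivity of the product map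
  have h3 : Function.Injective (fun x : B × zpowers a => (⟨(x.1 : G) * x.2, mul_mem (mem_sup_left x.1.2) (mem_sup_right x.2.2)⟩ : (B ⊔ zpowers a : Subgroup G))) := by
    rintro ⟨x, y⟩ ⟨x', y'⟩ h
    have h4 : (x : G) * y = x' * y' := congrArg Subtype.val h
    have h5 : (x' : G)⁻¹ * x = y' * (y : G)⁻¹ := by
      calc (x' : G)⁻¹ * x = (x' : G)⁻¹ * (x * y) * (y : G)⁻¹ := by group
        _ = _ := by rw [h4]; group
    have h6 : (x' : G)⁻¹ * x ∈ B ⊓ zpowers a := mem_inf.mpr ⟨mul_mem (inv_mem x'.2) x.2, by rw [h5]; exact mul_mem y'.2 (inv_mem y.2)⟩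
    rw [h1, mem_bot] at h6
    have h7 : (x : G) = x' := (inv_mul_eq_one.mp h6).symm
    rw [h6] at h5
    have h8 : (y' : G) = y := (mul_inv_eq_one.mp h5.symm)
    exact Prod.ext (Subtype.ext h7) (Subtype.ext h8.symm)
  have h4 := Nat.card_le_card_of_injective _ h3
  rw [Nat.card_prod, Nat.card_zpowers, hao] at h4
  exact h4

/-- noncyclic two-generated subgroup avoiding `B` -/
theorem two_gen {A B : Subgroup G} (hA : IsElementaryAbelian p A) (hB : B ≤ A) (hi : Nat.card B * p < Nat.card A) :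
    ∃ E : Subgroup G, E ≤ A ∧ Nat.card E = p ^ 2 ∧ E ⊓ B = ⊥ := by
  have hp : p.Prime := Fact.out
  have h1 : ∃ a ∈ A, a ∉ B := by
    by_contra hcon
    push Not at hcon
    have h2 : A = B := le_antisymm (fun a ha => hcon a ha) hB
    rw [h2] at hi
    have : Nat.card B * 1 ≤ Nat.card B * p := Nat.mul_le_mul_left _ hp.one_lt.le
    omega
  obtain ⟨a, ha, haB⟩ := h1
  have hc1 := card_sup_zpowers hA hB ha haB
  have hB' : B ⊔ zpowers a ≤ A := sup_le hB (zpowers_le.mpr ha)
  have h2 : ∃ b ∈ A, b ∉ B ⊔ zpowers a := by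
    by_contra hcon
    push Not at hcon
    have h2 : A = B ⊔ zpowers a := le_antisymm (fun a ha => hcon a ha) hB'
    rw [← hc1, ← h2] at hi
    exact lt_irrefl _ hi
  obtain ⟨b, hb, hbB⟩ := h2
  have ha1 : a ≠ 1 := fun h => haB (by rw [h]; exact one_mem _)
  have hao := ea_order hA ha ha1
  have hba : b ∉ zpowers a := fun h => hbB (mem_sup_right h)
  have hE : zpowers a ⊔ zpowers b ≤ A := sup_le (zpowers_le.mpr ha) (zpowers_le.mpr hb)
  refine ⟨zpowers a ⊔ zpowers b, hE, ?_, ?_⟩
  · rw [card_sup_zpowers hA (zpowers_le.mpr ha) hb hba, Nat.card_zpowers, hao, pow_two]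
  · rw [eq_bot_iff]
    intro x hx
    obtain ⟨hx1, hx2⟩ := mem_inf.mp hx
    have hn : zpowers b ≤ normalizer (zpowers a : Set G) := by
      rw [zpowers_le]
      refine centralizer_le_normalizer _ (mem_centralizer_iff.mpr fun c hc => ea_comm hA ((zpowers_le.mpr ha) hc) hb)
    obtain ⟨y, hy, z, hz, hyz⟩ := (mem_sup_iff_left hn).mp hx1
    have hzB : z ∈ B ⊔ zpowers a := by
      have : z = y⁻¹ * x := by rw [← hyz]; group
      rw [this]
      exact mul_mem (inv_mem (mem_sup_right hy)) (mem_sup_left hx2)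
    have hz1 : z = 1 := by
      by_contra hne
      have hzA : z ∈ A := (zpowers_le.mpr hb) hz
      have hb1 : b ≠ 1 := fun h => hbB (by rw [h]; exact one_mem _)
      have h3 : zpowers z = zpowers b := by
        refine Subgroup.eq_of_le_of_card_ge (zpowers_le.mpr hz) ?_
        rw [Nat.card_zpowers, Nat.card_zpowers, ea_order hA hb hb1, ea_order hA hzA hne]
      have h4 : b ∈ zpowers z := by rw [h3]; exact mem_zpowers b
      exact hbB ((zpowers_le.mpr hzB) h4)
    rw [hz1, mul_one] at hyz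
    have hxa : x ∈ zpowers a := by rw [← hyz]; exact hy
    by_contra hne
    have hne' : x ≠ 1 := fun h => hne (mem_bot.mpr h)
    have h3 : zpowers x = zpowers a := by
      refine Subgroup.eq_of_le_of_card_ge (zpowers_le.mpr hxa) ?_
      rw [Nat.card_zpowers, Nat.card_zpowers, hao, ea_order hA (hB hx2) hne']
    have h4 : a ∈ zpowers x := by rw [h3]; exact mem_zpowers a
    exact haB ((zpowers_le.mpr hx2) h4)

theorem centralizer_sup' (B C : Subgroup G) :
    centralizer ((B ⊔ C : Subgroup G) : Set G) = centralizer (B : Set G) ⊓ centralizer (C : Set G) := by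
  apply le_antisymm
  · exact le_inf (centralizer_le (SetLike.coe_subset_coe.mpr le_sup_left)) (centralizer_le (SetLike.coe_subset_coe.mpr le_sup_right))
  · intro x hx
    obtain ⟨h1, h2⟩ := mem_inf.mp hx
    have h3 : B ⊔ C ≤ centralizer ({x} : Set G) := by
      refine sup_le (fun b hb => ?_) (fun c hc => ?_)
      · rw [mem_centralizer_singleton_iff]; exact mem_centralizer_iff.mp h1 b hb
      · rw [mem_centralizer_singleton_iff]; exact mem_centralizer_iff.mp h2 c hc
    rw [mem_centralizer_iff]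
    intro y hy
    exact mem_centralizer_singleton_iff.mp (h3 hy)

/-- generation by centralizers of hyperplanes containing `B` -/
theorem hyp_gen {A X : Subgroup G} (hA : IsElementaryAbelian p A) (hX : (Nat.card X).Coprime p)
    (hAX : A ≤ normalizer (X : Set G)) (n : ℕ) : ∀ B : Subgroup G, B ≤ A → Nat.card A - Nat.card B ≤ n →
    ∀ R : Subgroup G, (∀ C : Subgroup G, B ≤ C → C ≤ A → Nat.card A ≤ Nat.card C * p → X ⊓ centralizer (C : Set G) ≤ R) →
      X ⊓ centralizer (B : Set G) ≤ R := by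
  have hp : p.Prime := Fact.out
  induction n with
  | zero =>
    intro B hB hn R hR
    refine hR B le_rfl hB ?_
    have h1 : Nat.card A ≤ Nat.card B := Nat.sub_eq_zero_iff_le.mp (Nat.le_zero.mp hn)
    exact h1.trans (Nat.le_mul_of_pos_right _ hp.pos)
  | succ n ih =>
    intro B hB hn R hR
    by_cases hi : Nat.card A ≤ Nat.card B * p
    · exact hR B le_rfl hB hi
    · push Not at hi
      obtain ⟨E, hEA, hEc, hEB⟩ := two_gen hA hB hi
      have hEn : E ≤ normalizer ((X ⊓ centralizer (B : Set G) : Subgroup G) : Set G) := by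
        intro e he
        have h1 : e ∈ centralizer (B : Set G) := mem_centralizer_iff.mpr fun b hb => ea_comm hA (hB hb) (hEA he)
        refine CFunA.mem_normalizer_of_le ?_
        rintro _ ⟨x, hx, rfl⟩
        obtain ⟨hx1, hx2⟩ := mem_inf.mp hx
        exact mem_inf.mpr ⟨(mem_normalizer_iff.mp (hAX (hEA he)) x).mp hx1, mul_mem (mul_mem h1 hx2) (inv_mem h1)⟩
      have hgen := CoprimeB.gen_of_elementary (E := E) (K := X ⊓ centralizer (B : Set G)) hp hEc (fun x hx => hA.2 x (hEA hx)) hEn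
        (Nat.Coprime.coprime_dvd_left (card_dvd_of_le inf_le_left) hX)
      rw [← hgen, CoprimeB.genCent, closure_le]
      rintro x ⟨hx, e, he, he1, hex⟩
      obtain ⟨hx1, hx2⟩ := mem_inf.mp hx
      have heB : e ∉ B := by
        intro h
        have h1 : e ∈ E ⊓ B := mem_inf.mpr ⟨he, h⟩
        rw [hEB, mem_bot] at h1
        exact he1 h1
      have hBe : B ⊔ zpowers e ≤ A := sup_le hB (zpowers_le.mpr (hEA he))
      have hc := card_sup_zpowers hA hB (hEA he) heB
      have hlt : Nat.card B < Nat.card (B ⊔ zpowers e : Subgroup G) := by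
        rw [hc]
        have h1 : Nat.card B * 1 < Nat.card B * p := Nat.mul_lt_mul_of_pos_left hp.one_lt Nat.card_pos
        omega
      have hle : Nat.card (B ⊔ zpowers e : Subgroup G) ≤ Nat.card A := Subgroup.card_le_of_le hBe
      refine ih (B ⊔ zpowers e) hBe (by omega) R (fun C h1 h2 h3 => hR C (le_sup_left.trans h1) h2 h3) ?_
      refine mem_inf.mpr ⟨hx1, ?_⟩
      rw [centralizer_sup']
      refine mem_inf.mpr ⟨hx2, ?_⟩
      rw [mem_centralizer_iff]
      intro y hy
      obtain ⟨j, rfl⟩ := mem_zpowers_iff.mp hy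
      exact (show Commute e x from hex).zpow_left j

theorem hyp_gen' {A X : Subgroup G} (hA : IsElementaryAbelian p A) (hX : (Nat.card X).Coprime p)
    (hAX : A ≤ normalizer (X : Set G)) {B : Subgroup G} (hB : B ≤ A)
    {R : Subgroup G} (hR : ∀ C : Subgroup G, B ≤ C → C ≤ A → Nat.card A ≤ Nat.card C * p → X ⊓ centralizer (C : Set G) ≤ R) :
      X ⊓ centralizer (B : Set G) ≤ R := hyp_gen hA hX hAX _ B hB le_rfl R hR

theorem hyp_gen'' {A X : Subgroup G} (hA : IsElementaryAbelian p A) (hX : (Nat.card X).Coprime p)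
    (hAX : A ≤ normalizer (X : Set G))
    {R : Subgroup G} (hR : ∀ C : Subgroup G, C ≤ A → Nat.card A ≤ Nat.card C * p → X ⊓ centralizer (C : Set G) ≤ R) :
      X ≤ R := by
  have h := hyp_gen' hA hX hAX (bot_le : (⊥ : Subgroup G) ≤ A) (R := R) (fun C _ h1 h2 => hR C h1 h2)
  intro x hx
  exact h (mem_inf.mpr ⟨hx, mem_centralizer_iff.mpr fun y hy => by
    have : y = 1 := hy
    rw [this]; group⟩)

theorem s1324 (A X : Subgroup G) (hA : IsElementaryAbelian p A) (hX : ¬ p ∣ Nat.card X) (hAX : A ≤ normalizer (X : Set G)) :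
    X = ⨆ B : {B : Subgroup G // B ≤ A ∧ B.relIndex A ≤ p}, X ⊓ centralizer ((B : Subgroup G) : Set G) := by
  have hp : p.Prime := Fact.out
  apply le_antisymm
  · refine hyp_gen'' hA ((hp.coprime_iff_not_dvd).mpr hX).symm hAX fun C hC hc => ?_
    refine le_iSup (fun B : {B : Subgroup G // B ≤ A ∧ B.relIndex A ≤ p} => X ⊓ centralizer ((B : Subgroup G) : Set G)) ⟨C, hC, ?_⟩
    have h1 : C.relIndex A * Nat.card C = Nat.card A := SylRel.relIndex_mul_card' hC
    rw [← h1, mul_comm] at hc
    exact Nat.le_of_mul_le_mul_left hc Nat.card_pos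
  · exact iSup_le fun B => inf_le_left

end Cfsg.Agent.Lib.H3Hyp
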