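import Cfsg.Agent.Lib.H3LocE

/-!
Unbalanced components and local balance (helper3).
-/

set_option autoImplicit false
set_option maxHeartbeats 400000
set_option linter.unusedVariables false
set_option linter.unusedSectionVars false

namespace Cfsg.Agent.Lib.H3LocF

open Subgroup Cfsg Cfsg.Agent.Lib.Basic Cfsg.Agent.Lib.Cores Cfsg.Agent.Lib.Components Cfsg.Agent.Lib.PComp
  Cfsg.Agent.Lib.PCon Cfsg.Agent.Lib.PConB Cfsg.Agent.Lib.SylRel
  Cfsg.Agent.Lib.H3Loc Cfsg.Agent.Lib.H3LocB Cfsg.Agent.Lib.H3LocC Cfsg.Agent.Lib.H3LocD Cfsg.Agent.Lib.H3Ext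
  Cfsg.Agent.Lib.H3LBal Cfsg.Agent.Lib.H3LBalB Cfsg.Agent.Lib.H3LocE
open scoped commutatorElement

universe u
variable {G : Type u} [Group G] [Finite G]

theorem s1328 (H : Subgroup G) (hO : pPrimeCore 2 H = ⊥) (t : G) (ht : orderOf t = 2) (htH : t ∈ normalizer (H : Set G))
    (Y : Subgroup G) (hY1 : Y ≠ ⊥) (hY : Y ≤ Op 2 (H ⊓ centralizer ({t} : Set G))) :
    ∃ E : Subgroup H, IsComponent E ∧ (E.map H.subtype).map (MulAut.conj t).toMonoidHom = E.map H.subtype ∧
      Y ≤ normalizer ((E.map H.subtype : Subgroup G) : Set G) ∧ ¬ (t ∈ centralizer ((E.map H.subtype : Subgroup G) : Set G)) ∧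
      ¬ (Y ≤ centralizer ((E.map H.subtype : Subgroup G) : Set G)) := by
  haveI : Fact (Nat.Prime 2) := ⟨Nat.prime_two⟩
  set G₁ := H ⊔ zpowers t with hG₁
  have hHG : H ≤ G₁ := le_sup_left
  have htG : t ∈ G₁ := mem_sup_right (mem_zpowers t)
  have hGn : G₁ ≤ normalizer (H : Set G) := sup_le le_normalizer (zpowers_le.mpr htH)
  haveI hHn : (H.subgroupOf G₁).Normal := normal_subgroupOf_of_le_normalizer hGn
  have hsq : ∀ g ∈ G₁, g ^ 2 ∈ H := by
    intro g hg
    obtain ⟨h, hh, v, hv, hhv⟩ := (mem_sup_iff_left (by rwa [zpowers_le] : zpowers t ≤ normalizer (H : Set G))).mp hg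
    have h1 : v ^ 2 = 1 := by
      obtain ⟨j, rfl⟩ := mem_zpowers_iff.mp hv
      have : (t ^ j) ^ 2 = (t ^ 2) ^ j := by
        rw [← zpow_natCast, ← zpow_natCast, ← zpow_mul, ← zpow_mul, mul_comm]
      rw [this, ← ht, pow_orderOf_eq_one, one_zpow]
    have hvn : v ∈ normalizer (H : Set G) := (zpowers_le.mpr htH) hv
    have h2 : g ^ 2 = h * (v * h * v⁻¹) * v ^ 2 := by rw [← hhv, pow_two, pow_two]; group
    rw [h2, h1, mul_one]
    exact mul_mem hh ((mem_normalizer_iff.mp hvn h).mp hh)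
  have hO1 : pPrimeCore 2 G₁ = ⊥ := by
    rw [eq_bot_iff]
    intro m hm
    have hcop := pPrimeCore_coprime (G := G₁) 2
    have h1 : m ^ 2 ∈ pPrimeCore 2 G₁ ⊓ H.subgroupOf G₁ := ⟨pow_mem hm 2, hsq m m.2⟩
    have h2 : pPrimeCore 2 G₁ ⊓ H.subgroupOf G₁ = ⊥ := by
      have h3 : ((pPrimeCore 2 G₁ ⊓ H.subgroupOf G₁).map G₁.subtype) ≤ Op 2 H := by
        refine le_Op ?_ ?_ ?_
        · rintro _ ⟨x, hx, rfl⟩; exact hx.2
        · intro h hh
          have h4 : (⟨h, hHG hh⟩ : G₁) ∈ normalizer ((pPrimeCore 2 G₁ ⊓ H.subgroupOf G₁ : Subgroup G₁) : Set G₁) := by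
            rw [normalizer_eq_top_iff.mpr (inferInstance : (pPrimeCore 2 G₁ ⊓ H.subgroupOf G₁).Normal)]; trivial
          exact le_normalizer_map G₁.subtype ⟨_, h4, rfl⟩
        · rw [card_map_of_injective G₁.subtype_injective]
          exact Nat.Coprime.coprime_dvd_left (card_dvd_of_le inf_le_left) hcop
      have h5 : Op 2 H = ⊥ := by rw [Op, hO, Subgroup.map_bot]
      rw [h5, le_bot_iff, Subgroup.map_eq_bot_iff, ker_subtype, le_bot_iff] at h3
      exact h3
    rw [h2, mem_bot] at h1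
    have h6 : (orderOf m).Coprime 2 := by
      have := orderOf_dvd_natCard (⟨m, hm⟩ : pPrimeCore 2 G₁)
      rw [← Subgroup.orderOf_coe] at this
      exact Nat.Coprime.coprime_dvd_left this hcop
    have h7 : orderOf m ∣ 2 := orderOf_dvd_of_pow_eq_one h1
    have h8 : orderOf m = 1 := Nat.eq_one_of_dvd_coprimes h6 dvd_rfl h7
    rw [mem_bot]; exact orderOf_eq_one_iff.mp h8
  set t₁ : G₁ := ⟨t, htG⟩ with ht₁
  have ht₁o : orderOf t₁ = 2 := by rw [← ht, ← Subgroup.orderOf_coe]
  have hYH : Y ≤ H := hY.trans ((Op_le _).trans inf_le_left)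
  have hYG : Y ≤ G₁ := hYH.trans hHG
  set C := H ⊓ centralizer ({t} : Set G) with hC
  have hCG : C ≤ G₁ := inf_le_left.trans hHG
  have hYc : Y.subgroupOf G₁ ≤ centralizerPPrimeCore 2 t₁ := by
    have h1 : (Op 2 C).subgroupOf G₁ ≤ Op 2 (centralizer ({t₁} : Set G₁)) := by
      refine le_Op ?_ ?_ ?_
      · intro x hx
        have h2 : (x : G) ∈ centralizer ({t} : Set G) := (mem_inf.mp (Op_le C hx)).2
        rw [mem_centralizer_singleton_iff] at h2 ⊢
        exact Subtype.ext h2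
      · intro g hg
        rw [mem_centralizer_singleton_iff] at hg
        have hg' : (g : G) * t = t * g := congrArg Subtype.val hg
        have hgC : (g : G) ∈ normalizer (C : Set G) := by
          refine CFunA.mem_normalizer_of_le ?_
          rintro _ ⟨c, hc, rfl⟩
          obtain ⟨h3, h4⟩ := mem_inf.mp hc
          refine mem_inf.mpr ⟨(mem_normalizer_iff.mp (hGn g.2) c).mp h3, ?_⟩
          rw [mem_centralizer_singleton_iff] at h4 ⊢
          change (g : G) * c * (g : G)⁻¹ * t = t * ((g : G) * c * (g : G)⁻¹)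
          have h5 : (g : G)⁻¹ * t = t * (g : G)⁻¹ := by
            rw [inv_mul_eq_iff_eq_mul, ← mul_assoc, hg', mul_inv_cancel_right]
          calc (g : G) * c * (g : G)⁻¹ * t = (g : G) * c * ((g : G)⁻¹ * t) := by group
            _ = (g : G) * (c * t) * (g : G)⁻¹ := by rw [h5]; group
            _ = ((g : G) * t) * c * (g : G)⁻¹ := by rw [h4]; group
            _ = _ := by rw [hg']; group
        have h6 := Op_norm (p := 2) hgC
        rw [mem_normalizer_iff] at h6 ⊢
        intro x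
        exact h6 x
      · have h7 : Nat.card ((Op 2 C).subgroupOf G₁) = Nat.card (Op 2 C) :=
          Nat.card_congr (subgroupOfEquivOfLe ((Op_le C).trans hCG)).toEquiv
        rw [h7]; exact Op_card C
    intro y hy
    exact h1 (hY hy)
  have hY1' : Y.subgroupOf G₁ ≠ ⊥ := by
    intro h
    apply hY1
    have h1 := congrArg (Subgroup.map G₁.subtype) h
    rwa [map_subgroupOf_eq_of_le hYG, Subgroup.map_bot] at h1
  obtain ⟨E, hE, h1, h2, h3, h4⟩ := s1328_aux hO1 t₁ ht₁o (Y.subgroupOf G₁) hY1' hYc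
  -- E ≤ H
  have hEH : E ≤ H.subgroupOf G₁ := by
    have h5 : commutator G₁ ≤ H.subgroupOf G₁ := by
      refine Subgroup.Normal.commutator_le_of_self_sup_commutative_eq_top (N := H.subgroupOf G₁) (H := zpowers t₁) ?_ inferInstance
      apply Subgroup.map_injective G₁.subtype_injective
      rw [Subgroup.map_sup, map_subgroupOf_eq_of_le hHG, MonoidHom.map_zpowers, ← MonoidHom.range_eq_map, range_subtype]
      rfl
    have h6 := component_commutator hE
    rw [← h6]
    refine le_trans ?_ h5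
    rw [commutator_def]
    exact commutator_mono le_top le_top
  have hmap : (E.comap (inclusion hHG)).map H.subtype = E.map G₁.subtype := by
    ext x
    constructor
    · rintro ⟨y, hy, rfl⟩
      exact ⟨_, hy, rfl⟩
    · rintro ⟨y, hy, rfl⟩
      exact ⟨⟨y, hEH hy⟩, hy, rfl⟩
  refine ⟨E.comap (inclusion hHG), ?_, ?_, ?_, ?_, ?_⟩
  · refine component_comap_injective _ (inclusion_injective hHG) ?_ hE
    rw [incl_range]; exact hEH
  · rw [hmap, ← mem_norm_iff]
    exact le_normalizer_map G₁.subtype ⟨_, h1, rfl⟩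
  · rw [hmap]
    intro y hy
    exact le_normalizer_map G₁.subtype ⟨⟨y, hYG hy⟩, h2 hy, rfl⟩
  · rw [hmap]
    intro h5
    apply h3
    rw [mem_centralizer_iff] at h5 ⊢
    intro e he
    exact Subtype.ext (h5 e ⟨e, he, rfl⟩)
  · rw [hmap]
    intro h5
    apply h4
    intro y hy
    have h6 := h5 hy
    rw [mem_centralizer_iff] at h6 ⊢
    intro e he
    exact Subtype.ext (h6 e ⟨e, he, rfl⟩)

end Cfsg.Agent.Lib.H3LocF
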