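import Cfsg.Agent.Lib.H3LocF

/-!
Local `k`-balance of components implies `k`-balance (helper3).
-/

set_option autoImplicit false
set_option maxHeartbeats 400000
set_option linter.unusedVariables false
set_option linter.unusedSectionVars false

namespace Cfsg.Agent.Lib.H3LocG

open Subgroup Cfsg Cfsg.Agent.Lib.Basic Cfsg.Agent.Lib.Cores Cfsg.Agent.Lib.Components Cfsg.Agent.Lib.PComp
  Cfsg.Agent.Lib.PCon Cfsg.Agent.Lib.PConB Cfsg.Agent.Lib.SylRel
  Cfsg.Agent.Lib.H3Loc Cfsg.Agent.Lib.H3LocB Cfsg.Agent.Lib.H3LocC Cfsg.Agent.Lib.H3LocD Cfsg.Agent.Lib.H3Ext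
  Cfsg.Agent.Lib.H3LBal Cfsg.Agent.Lib.H3LBalB Cfsg.Agent.Lib.H3LocE
open scoped commutatorElement

universe u
variable {G : Type u} [Group G] [Finite G] {p : ℕ} [Fact p.Prime]

theorem eq_bot_of_core_cent (hO : pPrimeCore p G = ⊥) {Y : Subgroup G} (hYc : (Nat.card Y).Coprime p)
    (hYU : Y ≤ centralizer (pCore p G : Set G)) (h1 : ∀ E : Subgroup G, IsComponent E → Y ≤ centralizer (E : Set G)) : Y = ⊥ := by
  have hp : p.Prime := Fact.out
  have h2 : Y ≤ centralizer (layer G : Set G) := by
    rw [le_centralizer_iff]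
    unfold layer
    exact sSup_le fun E hE => le_centralizer_iff.mp (h1 E hE)
  have h3 : Y ≤ centralizer (generalizedFittingSubgroup G : Set G) := fun y hy => centralizer_gF hO (hYU hy) (h2 hy)
  have h5 : Y ≤ pCore p G := by
    have h6 : centralizer (generalizedFittingSubgroup G : Set G) ≤ fittingSubgroup G := by
      haveI hgn : (generalizedFittingSubgroup G).Normal := generalizedFitting_normal
      refine le_fitting inferInstance (isNilpotent_of_isMulCommutative ⟨⟨fun a b => Subtype.ext ?_⟩⟩)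
      exact (mem_centralizer_iff.mp b.2) _ (centralizer_generalizedFitting_le a.2)
    rw [fitting_eq_pCore hO] at h6
    exact h3.trans h6
  have h6 : IsPGroup p Y := (pCore_isPGroup p).to_le h5
  obtain ⟨k, hk⟩ := h6.exists_card_eq
  rw [hk] at hYc
  have h7 : k = 0 := by
    by_contra h0
    have h8 : p ∣ 1 := by
      rw [← Nat.Coprime.gcd_eq_one hYc]
      exact Nat.dvd_gcd (dvd_pow_self p h0) dvd_rfl
    exact hp.one_lt.ne' (Nat.dvd_one.mp h8)
  rw [h7, pow_zero] at hk
  exact Subgroup.card_eq_one.mp hk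

/-- action of the normalizer of `K` on `K / Z(K)` -/
noncomputable def rho (K : Subgroup G) : normalizer (K : Set G) →* MulAut (K ⧸ center K) := (autQ K).comp K.normalizerMonoidHom

omit [Finite G] in
theorem rho_mk (K : Subgroup G) (n : normalizer (K : Set G)) (y : K) :
    rho K n (QuotientGroup.mk y) = QuotientGroup.mk (⟨(n : G) * y * (n : G)⁻¹, (mem_normalizer_iff.mp n.2 y).mp y.2⟩ : K) := rfl

theorem rho_eq_one {K : Subgroup G} (hK : ⁅K, K⁆ = K) {n : normalizer (K : Set G)} (h : rho K n = 1) : (n : G) ∈ centralizer (K : Set G) := by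
  apply cent_of_central hK
  intro y hy
  have h1 : rho K n (QuotientGroup.mk (⟨y, hy⟩ : K)) = QuotientGroup.mk (⟨y, hy⟩ : K) := by rw [h]; rfl
  rw [rho_mk] at h1
  have h2 := QuotientGroup.eq.mp h1.symm
  have h3 : y⁻¹ * ((n : G) * y * (n : G)⁻¹) ∈ (center K).map K.subtype := ⟨_, h2, rfl⟩
  rw [map_center_eq] at h3
  have h4 := (mem_centralizer_iff.mp (mem_inf.mp h3).2) y hy
  have h5 : (n : G) * y * (n : G)⁻¹ * y⁻¹ = y * (y⁻¹ * ((n : G) * y * (n : G)⁻¹)) * y⁻¹ := by group
  rw [h5, h4, mul_inv_cancel_right]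
  exact h3

omit [Finite G] in
theorem ea_order {A : Subgroup G} (hA : IsElementaryAbelian p A) {a : G} (ha : a ∈ A) (h1 : a ≠ 1) : orderOf a = p :=
  orderOf_eq_prime (hA.2 a ha) h1

omit [Finite G] [Fact p.Prime] in
theorem ea_comm {A : Subgroup G} (hA : IsElementaryAbelian p A) {a b : G} (ha : a ∈ A) (hb : b ∈ A) : a * b = b * a :=
  congrArg Subtype.val (hA.1.is_comm.comm (⟨a, ha⟩ : A) ⟨b, hb⟩)

theorem zp_pgroup {a : G} (h : orderOf a = p) : IsPGroup p (zpowers a) :=
  IsPGroup.of_card (n := 1) (by rw [Nat.card_zpowers, h, pow_one])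

omit [Finite G] in
theorem norm_of_eq {K : Subgroup G} {a : G} (h : ⁅K, zpowers a⁆ = K) : a ∈ normalizer (K : Set G) := by
  have h1 := Coprime.le_normalizer_commutator_right (zpowers a) K
  rw [h] at h1
  exact h1 (mem_zpowers a)

theorem local_lemma (hO : pPrimeCore p G = ⊥) (K : Subgroup G) (hK : IsComponent K) {k : ℕ} (hk : 1 ≤ k) (A : Subgroup G)
    (hA : IsElementaryAbelian p A) (hAk : Nat.card A = p ^ k) (hloc : IsLocallyKBalanced p k (K ⧸ center K))
    (hcase : ∀ a ∈ A, a ≠ 1 → ⁅K, zpowers a⁆ = K) : signalizerDelta p A ≤ centralizer (K : Set G) := by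
  have hp : p.Prime := Fact.out
  set D := signalizerDelta p A with hD
  have hDa : ∀ a ∈ A, a ≠ 1 → D ≤ centralizerPPrimeCore p a := fun a ha h1 => iInf_le _ (⟨a, ha, h1⟩ : {a : G // a ∈ A ∧ a ≠ 1})
  have hA1 : ∃ a ∈ A, a ≠ 1 := by
    by_contra hcon
    push Not at hcon
    have h1 : A = ⊥ := by rw [eq_bot_iff]; intro a ha; exact mem_bot.mpr (hcon a ha)
    rw [h1, card_bot] at hAk
    have : 1 < p ^ k := Nat.one_lt_pow (by omega) hp.one_lt
    omega
  obtain ⟨a₀, ha₀, ha₀1⟩ := hA1
  have hperf := component_commutator hK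
  have hDK : D ≤ normalizer (K : Set G) :=
    ((hDa a₀ ha₀ ha₀1).trans core_le_LLs).trans (LLs_norm_component hO (zp_pgroup (ea_order hA ha₀ ha₀1)) hK)
  have hAK : A ≤ normalizer (K : Set G) := by
    intro a ha
    by_cases h1 : a = 1
    · rw [h1]; exact one_mem _
    · exact norm_of_eq (hcase a ha h1)
  have hDC : ∀ a ∈ A, ∀ d ∈ D, d * a = a * d := by
    intro a ha d hd
    by_cases h1 : a = 1
    · rw [h1]; group
    · exact mem_centralizer_singleton_iff.mp (Op_le _ (hDa a ha h1 hd))
  set N := normalizer (K : Set G) with hN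
  set H := K ⊔ (A ⊔ D) with hH
  have hADN : A ⊔ D ≤ N := sup_le hAK hDK
  have hHN : H ≤ N := sup_le le_normalizer hADN
  have hKH : K ≤ H := le_sup_left
  have hAH : A ≤ H := le_sup_left.trans le_sup_right
  have hDH : D ≤ H := le_sup_right.trans le_sup_right
  set r : H →* MulAut (K ⧸ center K) := (rho K).comp (inclusion hHN) with hr
  set Ht : Subgroup (MulAut (K ⧸ center K)) := r.range with hHt
  have hInn : (MulAut.conj : (K ⧸ center K) →* MulAut (K ⧸ center K)).range ≤ Ht := by
    rintro _ ⟨q, rfl⟩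
    obtain ⟨l, rfl⟩ := QuotientGroup.mk_surjective q
    refine ⟨⟨l, hKH l.2⟩, ?_⟩
    ext x
    obtain ⟨x, rfl⟩ := QuotientGroup.mk_surjective x
    rfl
  set f : H →* Ht := r.rangeRestrict with hf
  have hfs : Function.Surjective f := MonoidHom.rangeRestrict_surjective r
  have hf1 : ∀ h : H, f h = 1 → (h : G) ∈ centralizer (K : Set G) := by
    intro h h1
    have h2 : rho K (inclusion hHN h) = 1 := congrArg Subtype.val h1
    exact rho_eq_one hperf h2
  set g : A →* Ht := f.comp (inclusion hAH) with hg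
  have hginj : Function.Injective g := by
    rw [injective_iff_map_eq_one]
    intro a ha
    have h1 := hf1 _ ha
    by_contra hne
    have hne' : (a : G) ≠ 1 := fun h => hne (Subtype.ext h)
    have h2 : ⁅K, zpowers (a : G)⁆ = ⊥ := by
      rw [commutator_eq_bot_iff_le_centralizer, le_centralizer_iff, zpowers_le]; exact h1
    rw [hcase a a.2 hne'] at h2
    exact component_ne_bot hK h2
  have hAt1 : IsElementaryAbelian p g.range := by
    refine ⟨⟨⟨?_⟩⟩, ?_⟩
    · rintro ⟨_, a, rfl⟩ ⟨_, b, rfl⟩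
      apply Subtype.ext
      change g a * g b = g b * g a
      rw [← map_mul, ← map_mul]
      congr 1
      exact Subtype.ext (ea_comm hA a.2 b.2)
    · rintro _ ⟨a, rfl⟩
      rw [← map_pow]
      have : a ^ p = 1 := Subtype.ext (hA.2 a a.2)
      rw [this, map_one]
  have hAt2 : Nat.card g.range = p ^ k := by
    rw [← hAk]
    exact (Nat.card_congr (MonoidHom.ofInjective hginj).toEquiv).symm
  have hbal := hloc Ht hInn g.range hAt1 hAt2
  have hDt : (D.subgroupOf H).map f ≤ signalizerDelta p g.range := by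
    refine le_iInf fun ⟨at', hat, hat1⟩ => ?_
    obtain ⟨a, rfl⟩ := hat
    have ha1 : (a : G) ≠ 1 := by
      intro h
      apply hat1
      have : a = 1 := Subtype.ext h
      rw [this, map_one]
    change (D.subgroupOf H).map f ≤ Op p (centralizer ({g a} : Set Ht))
    set Z := K ⊓ centralizer (K : Set G) with hZ
    have haN : (a : G) ∈ normalizer (K : Set G) := hAK a.2
    have hZn : ∀ n ∈ normalizer (K : Set G), n ∈ normalizer (Z : Set G) := by
      intro n hn
      rw [mem_norm_iff]
      have h1 := mem_norm_iff.mp hn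
      have h2 := PCon.map_centralizer_equiv (MulAut.conj n) K
      have h3 : cj n Z = cj n K ⊓ cj n (centralizer (K : Set G)) := Subgroup.map_inf _ _ _ (MulAut.conj n).injective
      rw [h3, h1]
      have h4 : cj n (centralizer (K : Set G)) = centralizer ((cj n K : Subgroup G) : Set G) := h2
      rw [h4, h1]
    have hZU : Z ≤ pCore p G := center_le_pCore hO hK.1
    have hZp : IsPGroup p Z := (pCore_isPGroup p).to_le hZU
    have hao := ea_order hA a.2 ha1
    have hWU : centralizerPPrimeCore p (a : G) ≤ centralizer (pCore p G : Set G) :=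
      core_le_LLs.trans (LLs_centralizes_pCore _ (zp_pgroup hao))
    set P1 := zpowers (a : G) ⊔ Z with hP1
    have hP1p : IsPGroup p P1 := IsPGroup.to_sup_of_normal_right' (zp_pgroup hao) hZp (by rw [zpowers_le]; exact hZn _ haN)
    set W1 := Op p (centralizer (P1 : Set G)) with hW1
    have hCP1 : centralizer (P1 : Set G) ≤ centralizer ({(a : G)} : Set G) :=
      centralizer_le (Set.singleton_subset_iff.mpr ((le_sup_left : zpowers (a : G) ≤ P1) (mem_zpowers _)))
    have hWW1 : centralizerPPrimeCore p (a : G) ≤ W1 := by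
      refine le_Op ?_ ?_ (Op_card _)
      · rw [le_centralizer_iff, hP1, sup_le_iff]
        constructor
        · rw [zpowers_le, mem_centralizer_iff]
          intro w hw
          exact (mem_centralizer_singleton_iff.mp (Op_le _ hw))
        · exact hZU.trans (le_centralizer_iff.mp hWU)
      · intro g hg
        exact Op_norm (le_normalizer (hCP1 hg))
    have hDW1 : D ≤ W1 := (hDa a a.2 ha1).trans hWW1
    have hW1n : ∀ l ∈ normalizer (P1 : Set G), l ∈ normalizer (W1 : Set G) := fun l hl => Op_norm (centralizer_norm P1 hl)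
    have hW1x : W1 ≤ centralizer ({(a : G)} : Set G) := (Op_le _).trans hCP1
    set M := (K ⊓ W1) ⊔ D with hM
    have hMW : M ≤ W1 := sup_le inf_le_right hDW1
    have hMH : M ≤ H := sup_le (inf_le_left.trans hKH) hDH
    refine le_trans (Subgroup.map_mono (show D.subgroupOf H ≤ M.subgroupOf H from fun x hx => (le_sup_right : D ≤ M) hx)) ?_
    refine le_Op ?_ ?_ ?_
    · rintro _ ⟨w, hw, rfl⟩
      rw [mem_centralizer_singleton_iff]
      change f w * f (inclusion hAH a) = f (inclusion hAH a) * f w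
      rw [← map_mul, ← map_mul]
      congr 1
      exact Subtype.ext (mem_centralizer_singleton_iff.mp (hW1x (hMW hw)))
    · intro q hq
      obtain ⟨x, rfl⟩ := hfs q
      rw [mem_centralizer_singleton_iff] at hq
      obtain ⟨l, hl, v, hv, hlv⟩ := (mem_sup_iff_left hADN).mp x.2
      -- v normalizes and commutes with a
      have hva : v * a = a * v := by
        have h1 : A ⊔ D ≤ centralizer ({(a : G)} : Set G) := by
          refine sup_le (fun b hb => ?_) (fun d hd => ?_)
          · rw [mem_centralizer_singleton_iff]; exact ea_comm hA hb a.2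
          · rw [mem_centralizer_singleton_iff]; exact hDC a a.2 d hd
        exact mem_centralizer_singleton_iff.mp (h1 hv)
      have hq2 : l * a * l⁻¹ * (a : G)⁻¹ ∈ centralizer (K : Set G) := by
        have h1 : f (x * inclusion hAH a * (inclusion hAH a * x)⁻¹) = 1 := by
          rw [map_mul, map_inv, map_mul, map_mul, mul_inv_eq_one]; exact hq
        have h2 := hf1 _ h1
        have h3 : ((x * inclusion hAH a * (inclusion hAH a * x)⁻¹ : H) : G) = l * a * l⁻¹ * (a : G)⁻¹ := by
          change (x : G) * a * ((a : G) * x)⁻¹ = _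
          rw [← hlv]
          calc l * v * a * (a * (l * v))⁻¹ = l * (v * a) * v⁻¹ * l⁻¹ * (a : G)⁻¹ := by group
            _ = _ := by rw [hva]; group
        rwa [h3] at h2
      have hq4 : l * a * l⁻¹ * (a : G)⁻¹ ∈ Z := by
        refine mem_inf.mpr ⟨?_, hq2⟩
        have h1 : l * a * l⁻¹ * (a : G)⁻¹ = l * (a * l⁻¹ * (a : G)⁻¹) := by group
        rw [h1]
        exact mul_mem hl ((mem_normalizer_iff.mp haN _).mp (inv_mem hl))
      have hlP1 : l ∈ normalizer (P1 : Set G) := by
        refine CFunA.mem_normalizer_of_le ?_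
        rw [hP1, Subgroup.map_sup, sup_le_iff]
        constructor
        · rw [MonoidHom.map_zpowers, zpowers_le]
          change l * a * l⁻¹ ∈ _
          have h3 : l * a * l⁻¹ = (l * a * l⁻¹ * (a : G)⁻¹) * a := by group
          rw [h3]
          exact mul_mem ((le_sup_right : Z ≤ P1) hq4) ((le_sup_left : zpowers (a : G) ≤ P1) (mem_zpowers _))
        · have h3 := mem_norm_iff.mp (hZn l (le_normalizer hl))
          exact h3.le.trans le_sup_right
      have hvP1 : v ∈ normalizer (P1 : Set G) := by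
        refine CFunA.mem_normalizer_of_le ?_
        rw [hP1, Subgroup.map_sup, sup_le_iff]
        constructor
        · rw [MonoidHom.map_zpowers, zpowers_le]
          change v * a * v⁻¹ ∈ _
          rw [hva, mul_inv_cancel_right]
          exact (le_sup_left : zpowers (a : G) ≤ P1) (mem_zpowers _)
        · have h3 := mem_norm_iff.mp (hZn v (hADN hv))
          exact h3.le.trans le_sup_right
      have hKW : ∀ y ∈ N, y ∈ normalizer (P1 : Set G) → ∀ w ∈ K ⊓ W1, y * w * y⁻¹ ∈ K ⊓ W1 := by
        intro y hy hy2 w hw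
        exact mem_inf.mpr ⟨(mem_normalizer_iff.mp hy w).mp hw.1, (mem_normalizer_iff.mp (hW1n y hy2) w).mp hw.2⟩
      have hlM : ∀ w ∈ M, l * w * l⁻¹ ∈ M := by
        have h1 : M ≤ M.comap (MulAut.conj l).toMonoidHom := by
          refine sup_le (fun w hw => ?_) (fun d hd => ?_)
          · exact (le_sup_left : K ⊓ W1 ≤ M) (hKW l (le_normalizer hl) hlP1 w hw)
          · change l * d * l⁻¹ ∈ M
            have h2 : l * d * l⁻¹ = (l * d * l⁻¹ * d⁻¹) * d := by group
            rw [h2]
            refine mul_mem ((le_sup_left : K ⊓ W1 ≤ M) (mem_inf.mpr ⟨?_, ?_⟩)) ((le_sup_right : D ≤ M) hd)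
            · have h3 : l * d * l⁻¹ * d⁻¹ = l * (d * l⁻¹ * d⁻¹) := by group
              rw [h3]
              exact mul_mem hl ((mem_normalizer_iff.mp (hDK hd) _).mp (inv_mem hl))
            · exact mul_mem ((mem_normalizer_iff.mp (hW1n l hlP1) d).mp (hDW1 hd)) (inv_mem (hDW1 hd))
        exact fun w hw => h1 hw
      have hvM : ∀ w ∈ M, v * w * v⁻¹ ∈ M := by
        have h1 : M ≤ M.comap (MulAut.conj v).toMonoidHom := by
          refine sup_le (fun w hw => ?_) (fun d hd => ?_)
          · exact (le_sup_left : K ⊓ W1 ≤ M) (hKW v (hADN hv) hvP1 w hw)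
          · change v * d * v⁻¹ ∈ M
            have h2 : v ∈ normalizer (D : Set G) := by
              refine (sup_le (fun b hb => ?_) le_normalizer : A ⊔ D ≤ normalizer (D : Set G)) hv
              refine centralizer_le_normalizer _ (mem_centralizer_iff.mpr fun d hd => hDC b hb d hd)
            exact (le_sup_right : D ≤ M) ((mem_normalizer_iff.mp h2 d).mp hd)
        exact fun w hw => h1 hw
      refine CFunA.mem_normalizer_of_le ?_
      rintro _ ⟨_, ⟨w, hw, rfl⟩, rfl⟩
      refine ⟨x * w * x⁻¹, ?_, ?_⟩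
      · change (x : G) * w * (x : G)⁻¹ ∈ M
        have h1 : (x : G) * w * (x : G)⁻¹ = l * (v * w * v⁻¹) * l⁻¹ := by rw [← hlv]; group
        rw [h1]
        exact hlM _ (hvM _ hw)
      · change f (x * w * x⁻¹) = f x * f w * (f x)⁻¹
        rw [map_mul, map_mul, map_inv]
    · have h1 : Nat.card ((M.subgroupOf H).map f) ∣ Nat.card M := by
        rw [← Nat.card_congr (subgroupOfEquivOfLe hMH).toEquiv]
        exact card_map_dvd _ _
      exact Nat.Coprime.coprime_dvd_left (h1.trans (card_dvd_of_le hMW)) (Op_card _)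
  rw [hbal] at hDt
  intro d hd
  have h1 : f ⟨d, hDH hd⟩ ∈ (D.subgroupOf H).map f := ⟨⟨d, hDH hd⟩, hd, rfl⟩
  exact hf1 _ (mem_bot.mp (hDt h1))

theorem delta_eq_bot (hO : pPrimeCore p G = ⊥) {k : ℕ} (hk : 1 ≤ k) (A : Subgroup G)
    (hA : IsElementaryAbelian p A) (hAk : Nat.card A = p ^ k)
    (hloc : ∀ K : Subgroup G, IsComponent K → IsLocallyKBalanced p k (K ⧸ center K)) : signalizerDelta p A = ⊥ := by
  have hp : p.Prime := Fact.out
  have hDa : ∀ a ∈ A, a ≠ 1 → signalizerDelta p A ≤ centralizerPPrimeCore p a := fun a ha h1 => iInf_le _ (⟨a, ha, h1⟩ : {a : G // a ∈ A ∧ a ≠ 1})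
  have hA1 : ∃ a ∈ A, a ≠ 1 := by
    by_contra hcon
    push Not at hcon
    have h1 : A = ⊥ := by rw [eq_bot_iff]; intro a ha; exact mem_bot.mpr (hcon a ha)
    rw [h1, card_bot] at hAk
    have : 1 < p ^ k := Nat.one_lt_pow (by omega) hp.one_lt
    omega
  obtain ⟨a₀, ha₀, ha₀1⟩ := hA1
  have h0 := hDa a₀ ha₀ ha₀1
  refine eq_bot_of_core_cent hO ?_ ?_ ?_
  · exact Nat.Coprime.coprime_dvd_left (card_dvd_of_le h0) (Op_card (centralizer ({a₀} : Set G)))
  · exact (h0.trans core_le_LLs).trans (LLs_centralizes_pCore _ (zp_pgroup (ea_order hA ha₀ ha₀1)))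
  · intro K hK
    by_cases hcase : ∀ a ∈ A, a ≠ 1 → ⁅K, zpowers a⁆ = K
    · exact local_lemma hO K hK hk A hA hAk (hloc K hK) hcase
    · push Not at hcase
      obtain ⟨a, ha, ha1, hne⟩ := hcase
      have h2 := s1270 hO a (ea_order hA ha ha1) K hK hne
      rw [commutator_eq_bot_iff_le_centralizer] at h2
      exact (hDa a ha ha1).trans (le_centralizer_iff.mp h2)

theorem cent_core_image (C : Type u) [Group C] [Finite C] {a : C} (ha : orderOf a = p) :
    (centralizerPPrimeCore p a).map (QuotientGroup.mk' (pPrimeCore p C)) ≤ centralizerPPrimeCore p (QuotientGroup.mk' (pPrimeCore p C) a) := by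
  set π := QuotientGroup.mk' (pPrimeCore p C) with hπ
  have hle : centralizer ({π a} : Set (C ⧸ pPrimeCore p C)) ≤ (centralizer ({a} : Set C)).map π := by
    have h1 := ThompsonP.centralizer_map_le (p := p) (X := zpowers a) (O := pPrimeCore p C) (zp_pgroup ha) (pPrimeCore_coprime p)
    rw [MonoidHom.map_zpowers] at h1
    have h2 : centralizer ((zpowers (π a) : Subgroup _) : Set (C ⧸ pPrimeCore p C)) = centralizer ({π a} : Set (C ⧸ pPrimeCore p C)) := by
      rw [zpowers_eq_closure, centralizer_closure]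
    have h3 : centralizer ((zpowers a : Subgroup _) : Set C) = centralizer ({a} : Set C) := by
      rw [zpowers_eq_closure, centralizer_closure]
    rw [h2, h3] at h1
    exact h1
  change (Op p (centralizer ({a} : Set C))).map π ≤ Op p (centralizer ({π a} : Set (C ⧸ pPrimeCore p C)))
  refine le_Op ?_ ?_ ?_
  · rintro _ ⟨x, hx, rfl⟩
    have := mem_centralizer_singleton_iff.mp (Op_le _ hx)
    rw [mem_centralizer_singleton_iff, ← map_mul, ← map_mul, this]
  · intro y hy
    obtain ⟨c, hc, rfl⟩ := hle hy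
    exact le_normalizer_map π ⟨c, Op_norm (le_normalizer hc), rfl⟩
  · exact Nat.Coprime.coprime_dvd_left (card_map_dvd _ _) (Op_card _)

theorem s1298 (k : ℕ) (hk : 1 ≤ k)
    (h : ∀ x : G, orderOf x = p → ∀ K : Subgroup (centralizer ({x} : Set G) ⧸ pPrimeCore p (centralizer ({x} : Set G))),
      IsComponent K → IsLocallyKBalanced p k (K ⧸ center K)) : IsKBalanced p k G := by
  intro A hA hAk b hb hAb
  set C := centralizer ({b} : Set G) with hC
  have hAC : A ≤ C := by
    intro a ha
    rw [mem_centralizer_singleton_iff]; exact hAb a ha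
  set π := QuotientGroup.mk' (pPrimeCore p C) with hπ
  set AC := A.subgroupOf C with hACd
  have hACp : IsPGroup p AC := by
    refine (IsPGroup.of_card (n := k) ?_)
    rw [Nat.card_congr (subgroupOfEquivOfLe hAC).toEquiv, hAk]
  have hinj : Function.Injective (π.comp AC.subtype) := by
    rw [injective_iff_map_eq_one]
    intro a ha
    have h1 : (a : C) ∈ pPrimeCore p C := (QuotientGroup.eq_one_iff _).mp ha
    have h2 : (a : C) ∈ pPrimeCore p C ⊓ AC := mem_inf.mpr ⟨h1, a.2⟩
    rw [core_inf_p hACp, mem_bot] at h2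
    exact Subtype.ext h2
  have hEA : IsElementaryAbelian p (AC.map π) := by
    refine ⟨⟨⟨?_⟩⟩, ?_⟩
    · rintro ⟨_, a, ha, rfl⟩ ⟨_, b, hb, rfl⟩
      apply Subtype.ext
      change π a * π b = π b * π a
      rw [← map_mul, ← map_mul]
      congr 1
      exact Subtype.ext (ea_comm hA ha hb)
    · rintro _ ⟨a, ha, rfl⟩
      rw [← map_pow]
      have : a ^ p = 1 := Subtype.ext (hA.2 a ha)
      rw [this, map_one]
  have hcard : Nat.card (AC.map π) = p ^ k := by
    have h1 : AC.map π = (π.comp AC.subtype).range := by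
      rw [MonoidHom.range_comp, range_subtype]
    rw [h1, ← Nat.card_congr (MonoidHom.ofInjective hinj).toEquiv, Nat.card_congr (subgroupOfEquivOfLe hAC).toEquiv, hAk]
  have hbot := delta_eq_bot (pPrimeCore_quotient_pPrimeCore p) hk (AC.map π) hEA hcard (h b hb)
  intro d hd
  obtain ⟨hd1, hd2⟩ := mem_inf.mp hd
  have hdC : d ∈ C := hd2
  have key : π ⟨d, hdC⟩ ∈ signalizerDelta p (AC.map π) := by
    unfold signalizerDelta
    rw [mem_iInf]
    rintro ⟨_, ⟨a, ha, rfl⟩, ha1⟩
    have ha1' : (a : G) ≠ 1 := by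
      intro h
      apply ha1
      have : a = 1 := Subtype.ext h
      rw [this, map_one]
    have hao : orderOf a = p := by
      have h1 := ea_order hA ha ha1'
      have h2 : orderOf (a : G) = orderOf a := Subgroup.orderOf_coe a
      rw [← h2]; exact h1
    apply cent_core_image C hao
    refine ⟨⟨d, hdC⟩, ?_, rfl⟩
    -- in the centralizer core inside C
    have h1 : (Op p (centralizer ({(a : G)} : Set G)) ⊓ C).subgroupOf C ≤ Op p (centralizer ({a} : Set C)) := by
      refine le_Op ?_ ?_ ?_
      · intro x hx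
        have h2 := mem_centralizer_singleton_iff.mp (Op_le _ (mem_inf.mp hx).1)
        rw [mem_centralizer_singleton_iff]
        exact Subtype.ext h2
      · intro y hy
        have hy' : (y : G) ∈ centralizer ({(a : G)} : Set G) := by
          rw [mem_centralizer_singleton_iff] at hy ⊢
          exact congrArg Subtype.val hy
        have h3 : (y : G) ∈ normalizer (Op p (centralizer ({(a : G)} : Set G)) : Set G) := Op_norm (le_normalizer hy')
        refine CFunA.mem_normalizer_of_le ?_
        rintro _ ⟨w, hw, rfl⟩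
        have hw' := mem_inf.mp hw
        exact mem_inf.mpr ⟨(mem_normalizer_iff.mp h3 w).mp hw'.1, (y * w * y⁻¹).2⟩
      · rw [Nat.card_congr (subgroupOfEquivOfLe (inf_le_right : Op p (centralizer ({(a : G)} : Set G)) ⊓ C ≤ C)).toEquiv]
        exact Nat.Coprime.coprime_dvd_left (card_dvd_of_le inf_le_left) (Op_card _)
    apply h1
    refine mem_inf.mpr ⟨?_, hdC⟩
    unfold signalizerDelta at hd1
    rw [mem_iInf] at hd1
    exact hd1 ⟨a, ha, ha1'⟩
  rw [hbot, mem_bot] at key
  exact ⟨⟨d, hdC⟩, (QuotientGroup.eq_one_iff _).mp key, rfl⟩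

/-! ### balance for involutions -/

theorem delta_two {A : Subgroup G} {x : G} (hx : x ∈ A) (hx1 : x ≠ 1) (hA : ∀ a ∈ A, a = 1 ∨ a = x) :
    signalizerDelta 2 A = centralizerPPrimeCore 2 x := by
  apply le_antisymm
  · exact iInf_le _ (⟨x, hx, hx1⟩ : {a : G // a ∈ A ∧ a ≠ 1})
  · refine le_iInf fun ⟨a, ha, ha1⟩ => ?_
    rcases hA a ha with h | h
    · exact absurd h ha1
    · subst h; exact le_rfl

theorem exists_two {A : Subgroup G} (h : Nat.card A = 2 ^ 1) : ∃ x ∈ A, x ≠ 1 ∧ orderOf x = 2 ∧ ∀ a ∈ A, a = 1 ∨ a = x := by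
  rw [pow_one] at h
  haveI : Nontrivial A := Finite.one_lt_card_iff_nontrivial.mp (by omega)
  obtain ⟨x, hx⟩ := exists_ne (1 : A)
  have h2 : orderOf x = 2 := by
    have h3 := orderOf_dvd_natCard x
    rw [h] at h3
    rcases (Nat.dvd_prime Nat.prime_two).mp h3 with h4 | h4
    · exact absurd (orderOf_eq_one_iff.mp h4) hx
    · exact h4
  refine ⟨x, x.2, fun hh => hx (Subtype.ext hh), by rw [Subgroup.orderOf_coe, h2], fun a ha => ?_⟩
  by_contra hcon
  push Not at hcon
  have h5 : ({1, x, ⟨a, ha⟩} : Set A).ncard ≤ Nat.card A := by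
    rw [← Set.ncard_univ]; exact Set.ncard_le_ncard (Set.subset_univ _)
  have h6 : ({1, x, ⟨a, ha⟩} : Set A).ncard = 3 := by
    rw [Set.ncard_eq_three]
    refine ⟨1, x, ⟨a, ha⟩, Ne.symm hx, ?_, ?_, rfl⟩
    · intro hh; exact hcon.1 (congrArg Subtype.val hh).symm
    · intro hh; exact hcon.2 (congrArg Subtype.val hh).symm
  omega

theorem s1300 : IsBalanced G ↔ IsKBalanced 2 1 G := by
  constructor
  · intro h A hA hAk b hb hAb
    obtain ⟨x, hx, hx1, hxo, hA2⟩ := exists_two hAk
    rw [delta_two hx hx1 hA2, h x b hxo hb (hAb x hx)]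
    exact inf_le_left
  · intro h x y hx hy hxy
    have key : ∀ x y : G, orderOf x = 2 → orderOf y = 2 → x * y = y * x →
        centralizerPPrimeCore 2 x ⊓ centralizer {y} ≤ centralizerPPrimeCore 2 y ⊓ centralizer {x} := by
      intro x y hx hy hxy
      have hx1 : x ≠ 1 := by rintro rfl; rw [orderOf_one] at hx; omega
      have hmem : ∀ a ∈ zpowers x, a = 1 ∨ a = x := by
        intro a ha
        obtain ⟨j, rfl⟩ := mem_zpowers_iff.mp ha
        rcases Int.even_or_odd j with ⟨i, hi⟩ | ⟨i, hi⟩
        · left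
          rw [hi, ← two_mul, zpow_mul]
          have : x ^ (2 : ℤ) = 1 := by
            have := pow_orderOf_eq_one x; rw [hx] at this; exact_mod_cast this
          rw [this, one_zpow]
        · right
          rw [hi, zpow_add, zpow_mul, zpow_one]
          have : x ^ (2 : ℤ) = 1 := by
            have := pow_orderOf_eq_one x; rw [hx] at this; exact_mod_cast this
          rw [this, one_zpow, one_mul]
      have h1 := h (zpowers x) ⟨inferInstance, fun a ha => by
        rcases hmem a ha with h | h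
        · rw [h, one_pow]
        · rw [h, ← hx, pow_orderOf_eq_one]⟩ (by rw [Nat.card_zpowers, hx, pow_one]) y hy (by
          intro a ha
          rcases hmem a ha with h | h
          · rw [h]; group
          · rw [h, hxy])
      rw [delta_two (mem_zpowers x) hx1 hmem] at h1
      refine le_inf h1 (inf_le_left.trans (Op_le _))
    exact le_antisymm (key x y hx hy hxy) (key y x hy hx hxy.symm)

theorem locallyKBalanced_of {K : Type u} [Group K] [Finite K] (h : IsLocallyBalanced K) : IsLocallyKBalanced 2 1 K := by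
  intro H hH A hA hAk
  obtain ⟨x, hx, hx1, hxo, hA2⟩ := exists_two hAk
  rw [delta_two hx hx1 hA2]
  exact h H hH x hxo

theorem s1297 (h : ∀ x : G, orderOf x = 2 → ∀ K : Subgroup (centralizer ({x} : Set G) ⧸ oddCore (centralizer ({x} : Set G))),
      IsComponent K → IsLocallyBalanced (K ⧸ center K)) : IsBalanced G := by
  haveI : Fact (Nat.Prime 2) := ⟨Nat.prime_two⟩
  exact s1300.mpr (s1298 1 le_rfl fun x hx K hK => locallyKBalanced_of (h x hx K hK))

end Cfsg.Agent.Lib.H3LocG
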