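import Cfsg.Agent.Lib.QuatApp
import Mathlib.LinearAlgebra.Matrix.SpecialLinearGroup
import Cfsg.Agent.Lib.SL2
import Cfsg.Agent.Lib.SylRel

/-!
Groups with quaternion Sylow 2-subgroups: SL(2,3) sections, helper3.
-/

set_option autoImplicit false
set_option linter.style.haveILetI false
set_option linter.unusedVariables false
set_option linter.unusedSectionVars false
set_option linter.unusedSimpArgs false

namespace Cfsg.Agent.Lib.QuatSL
open Cfsg Subgroup

universe u

variable {G : Type u} [Group G]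

/-- relations of SL(2,3) modulo the central part of `g` -/
structure Rel (i j g : G) : Prop where
  i4 : i ^ 4 = 1
  j2 : j * j = i ^ 2
  ji : j * i = i ^ 3 * j
  gi : g * i = j * g
  gj : g * j = i * j * g

abbrev T := Fin 4 × Fin 2 × Fin 3

def F (i j g : G) (v : T) : G := i ^ (v.1 : ℕ) * j ^ (v.2.1 : ℕ) * g ^ (v.2.2 : ℕ)

def sI (v : T) : T := (v.1 + 1, v.2.1, v.2.2)
def sJ (v : T) : T := (if v.2.1 = 0 then -v.1 else 2 - v.1, v.2.1 + 1, v.2.2)
def tA : Fin 4 → Fin 2 → Fin 4 := ![![0, 1], ![0, 1], ![2, 3], ![2, 3]]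
def tB : Fin 4 → Fin 2 → Fin 2 := ![![0, 1], ![1, 0], ![0, 1], ![1, 0]]
def sG (v : T) : T := (tA v.1 v.2.1, tB v.1 v.2.1, v.2.2 + 1)

variable {i j g : G}

theorem Rel.i2c (h : Rel i j g) : j * i ^ 2 = i ^ 2 * j := by
  rw [← h.j2]; group

theorem Rel.ji' (h : Rel i j g) : j * i ^ 3 = i * j := by
  calc j * i ^ 3 = j * i * i ^ 2 := by rw [mul_assoc, ← pow_succ']
    _ = i ^ 3 * (j * i ^ 2) := by rw [h.ji, mul_assoc]
    _ = i ^ 3 * i ^ 2 * j := by rw [h.i2c, mul_assoc]
    _ = i ^ 4 * i * j := by rw [← pow_add, ← pow_succ]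
    _ = i * j := by rw [h.i4, one_mul]

theorem Rel.qI (h : Rel i j g) (a : Fin 4) : i * i ^ (a : ℕ) = i ^ ((a + 1 : Fin 4) : ℕ) := by
  rw [← pow_succ']
  fin_cases a
  · rfl
  · rfl
  · rfl
  · show i ^ (3 + 1) = i ^ 0
    rw [pow_zero]; exact h.i4

theorem Rel.qJ (h : Rel i j g) (a : Fin 4) (b : Fin 2) : j * (i ^ (a : ℕ) * j ^ (b : ℕ)) =
    i ^ ((if b = 0 then -a else 2 - a : Fin 4) : ℕ) * j ^ ((b + 1 : Fin 2) : ℕ) := by
  fin_cases a <;> fin_cases b
  · show j * (i ^ 0 * j ^ 0) = i ^ 0 * j ^ 1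
    group
  · show j * (i ^ 0 * j ^ 1) = i ^ 2 * j ^ 0
    rw [pow_zero, pow_one, one_mul, h.j2, pow_zero, mul_one]
  · show j * (i ^ 1 * j ^ 0) = i ^ 3 * j ^ 1
    rw [pow_zero, pow_one, mul_one, h.ji, pow_one]
  · show j * (i ^ 1 * j ^ 1) = i ^ 1 * j ^ 0
    rw [pow_one, pow_one, pow_zero, mul_one, ← mul_assoc, h.ji, mul_assoc, h.j2, ← pow_add]
    show i ^ (4 + 1) = i
    rw [pow_succ, h.i4, one_mul]
  · show j * (i ^ 2 * j ^ 0) = i ^ 2 * j ^ 1
    rw [pow_zero, mul_one, h.i2c, pow_one]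
  · show j * (i ^ 2 * j ^ 1) = i ^ 0 * j ^ 0
    rw [pow_one, ← mul_assoc, h.i2c, mul_assoc, h.j2, ← pow_add, pow_zero, pow_zero, one_mul]
    exact h.i4
  · show j * (i ^ 3 * j ^ 0) = i ^ 1 * j ^ 1
    rw [pow_zero, mul_one, h.ji', pow_one, pow_one]
  · show j * (i ^ 3 * j ^ 1) = i ^ 3 * j ^ 0
    rw [pow_one, ← mul_assoc, h.ji', mul_assoc, h.j2, pow_zero, mul_one, ← pow_succ']

theorem Rel.qG (h : Rel i j g) (a : Fin 4) (b : Fin 2) : g * (i ^ (a : ℕ) * j ^ (b : ℕ)) =
    i ^ (tA a b : ℕ) * j ^ (tB a b : ℕ) * g := by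
  have e1 : ∀ n : ℕ, g * i ^ n = j ^ n * g := by
    intro n
    induction n with
    | zero => group
    | succ n ih => rw [pow_succ, ← mul_assoc, ih, mul_assoc, h.gi, ← mul_assoc, ← pow_succ]
  have e2 : j ^ 2 = i ^ 2 := by rw [sq, h.j2]
  have e3 : j ^ 3 = i ^ 2 * j := by rw [pow_succ, e2]
  have e4 : j * (i * j) = i := by
    have := h.qJ 1 1
    simpa using this
  fin_cases a <;> fin_cases b
  · show g * (i ^ 0 * j ^ 0) = i ^ 0 * j ^ 0 * g
    group
  · show g * (i ^ 0 * j ^ 1) = i ^ 1 * j ^ 1 * g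
    rw [pow_zero, one_mul, pow_one, pow_one, h.gj]
  · show g * (i ^ 1 * j ^ 0) = i ^ 0 * j ^ 1 * g
    rw [pow_zero, mul_one, e1, pow_zero, one_mul]
  · show g * (i ^ 1 * j ^ 1) = i ^ 1 * j ^ 0 * g
    rw [← mul_assoc, e1, pow_one, pow_one, mul_assoc, h.gj, pow_zero, mul_one, ← mul_assoc, e4]
  · show g * (i ^ 2 * j ^ 0) = i ^ 2 * j ^ 0 * g
    rw [pow_zero, mul_one, e1, e2]
  · show g * (i ^ 2 * j ^ 1) = i ^ 3 * j ^ 1 * g
    rw [← mul_assoc, e1, e2, pow_one, mul_assoc, h.gj, ← mul_assoc, ← mul_assoc, ← pow_succ]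
  · show g * (i ^ 3 * j ^ 0) = i ^ 2 * j ^ 1 * g
    rw [pow_zero, mul_one, e1, e3, pow_one]
  · show g * (i ^ 3 * j ^ 1) = i ^ 3 * j ^ 0 * g
    rw [← mul_assoc, e1, e3, pow_one, mul_assoc, h.gj, pow_zero, mul_one, ← mul_assoc, mul_assoc (i ^ 2), e4, ← pow_succ]

theorem Rel.stepI (h : Rel i j g) (v : T) : ∃ k ∈ zpowers (g ^ 3), i * F i j g v = F i j g (sI v) * k := by
  refine ⟨1, one_mem _, ?_⟩
  unfold F sI
  rw [mul_one, mul_assoc, ← mul_assoc, h.qI, ← mul_assoc]

theorem Rel.stepJ (h : Rel i j g) (v : T) : ∃ k ∈ zpowers (g ^ 3), j * F i j g v = F i j g (sJ v) * k := by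
  refine ⟨1, one_mem _, ?_⟩
  unfold F sJ
  rw [mul_one, ← mul_assoc, h.qJ]

theorem Rel.stepG (h : Rel i j g) (v : T) : ∃ k ∈ zpowers (g ^ 3), g * F i j g v = F i j g (sG v) * k := by
  obtain ⟨a, b, c⟩ := v
  unfold F sG
  simp only
  rw [← mul_assoc, h.qG, mul_assoc, ← pow_succ']
  fin_cases c
  · exact ⟨1, one_mem _, by rw [mul_one]; rfl⟩
  · exact ⟨1, one_mem _, by rw [mul_one]; rfl⟩
  · exact ⟨g ^ 3, mem_zpowers _, by
      show _ * g ^ 3 = _ * g ^ 0 * g ^ 3
      rw [pow_zero, mul_one]⟩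

abbrev Y := Matrix.SpecialLinearGroup (Fin 2) (ZMod 3)

def mI : Y := ⟨!![0, 2; 1, 0], by decide⟩
def mJ : Y := ⟨!![1, 1; 1, 2], by decide⟩
def mG : Y := ⟨!![1, 1; 0, 1], by decide⟩

theorem relY : Rel mI mJ mG := by
  refine ⟨?_, ?_, ?_, ?_, ?_⟩ <;> (apply Subtype.ext; decide)

theorem mG3 : mG ^ 3 = 1 := by apply Subtype.ext; decide

theorem FY_inj : ∀ v : T, F mI mJ mG v = 1 → v = (0, 0, 0) := by
  decide

/-- the good set -/
def Good (i j g : G) (x : G) (y : Y) : Prop :=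
  ∀ v : T, ∃ w : T, (∃ k ∈ zpowers (g ^ 3), x * F i j g v = F i j g w * k) ∧ y * F mI mJ mG v = F mI mJ mG w

theorem Good.mul {x x' : G} {y y' : Y} (hx : Good i j g x y) (hx' : Good i j g x' y') : Good i j g (x * x') (y * y') := by
  intro v
  obtain ⟨w, ⟨k, hk, h1⟩, h2⟩ := hx' v
  obtain ⟨w', ⟨k', hk', h1'⟩, h2'⟩ := hx w
  refine ⟨w', ⟨k' * k, mul_mem hk' hk, ?_⟩, ?_⟩
  · rw [mul_assoc, h1, ← mul_assoc, h1', mul_assoc]
  · rw [mul_assoc, h2, h2']

theorem Good.pow {x : G} {y : Y} (hx : Good i j g x y) (n : ℕ) : Good i j g (x ^ n) (y ^ n) := by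
  induction n with
  | zero => intro v; exact ⟨v, ⟨1, one_mem _, by rw [pow_zero, one_mul, mul_one]⟩, by rw [pow_zero, one_mul]⟩
  | succ n ih => rw [pow_succ, pow_succ]; exact ih.mul hx

theorem good_of_step (σ : T → T) {x : G} {y : Y} (h1 : ∀ v : T, ∃ k ∈ zpowers (g ^ 3), x * F i j g v = F i j g (σ v) * k)
    (h2 : ∀ v : T, ∃ k ∈ zpowers (mG ^ 3), y * F mI mJ mG v = F mI mJ mG (σ v) * k) : Good i j g x y := by
  intro v
  obtain ⟨k, hk, hk2⟩ := h2 v
  rw [mG3, zpowers_one_eq_bot, mem_bot] at hk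
  rw [hk, mul_one] at hk2
  exact ⟨σ v, h1 v, hk2⟩

variable [Finite G]

/-- the graph -/
def D (i j g : G) : Subgroup (G × Y) where
  carrier := {u | Good i j g u.1 u.2}
  mul_mem' := fun {a b} ha hb => Good.mul ha hb
  one_mem' := fun v => ⟨v, ⟨1, one_mem _, by simp⟩, by simp⟩
  inv_mem' := by
    intro a ha
    have h1 : a⁻¹ = a ^ (orderOf a - 1) := by
      rw [inv_eq_iff_mul_eq_one, ← pow_succ', Nat.sub_add_cancel (orderOf_pos a), pow_orderOf_eq_one]
    show Good i j g a⁻¹.1 a⁻¹.2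
    rw [h1]
    exact Good.pow ha _

theorem mem_gen (h : Rel i j g) : ∀ w : T, F i j g w ∈ closure ({i, j, g} : Set G) := by
  intro w
  unfold F
  exact mul_mem (mul_mem (pow_mem (subset_closure (by simp)) _) (pow_mem (subset_closure (by simp)) _))
    (pow_mem (subset_closure (by simp)) _)

theorem section_iso (h : Rel i j g)
    (hinj : ∀ v w : T, ∀ k ∈ zpowers (g ^ 3), F i j g v = F i j g w * k → v = w) :
    ∃ hK : ((zpowers (g ^ 3)).subgroupOf (closure ({i, j, g} : Set G))).Normal,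
      Nonempty ((closure ({i, j, g} : Set G) ⧸ (zpowers (g ^ 3)).subgroupOf (closure ({i, j, g} : Set G))) ≃* Y) := by
  classical
  have hF0 : F i j g (0, 0, 0) = 1 := by unfold F; simp
  have hFY0 : F mI mJ mG (0, 0, 0) = 1 := by unfold F; simp
  set H := closure ({i, j, g} : Set G) with hH
  -- the subgroup generated
  set E : Subgroup (G × Y) := closure {(i, mI), (j, mJ), (g, mG)} with hE
  have hED : E ≤ D i j g := by
    rw [hE, closure_le]
    rintro _ (rfl | rfl | rfl)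
    · exact good_of_step sI h.stepI relY.stepI
    · exact good_of_step sJ h.stepJ relY.stepJ
    · exact good_of_step sG h.stepG relY.stepG
  have hE1 : E.map (MonoidHom.fst G Y) = H := by
    rw [hE, MonoidHom.map_closure, hH]
    congr 1
    ext x
    simp only [Set.mem_image, Set.mem_insert_iff, Set.mem_singleton_iff]
    constructor
    · rintro ⟨_, (rfl | rfl | rfl), rfl⟩ <;> simp
    · rintro (rfl | rfl | rfl)
      · exact ⟨_, Or.inl rfl, rfl⟩
      · exact ⟨_, Or.inr (Or.inl rfl), rfl⟩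
      · exact ⟨_, Or.inr (Or.inr rfl), rfl⟩
  have huniq : ∀ x : G, ∀ y y' : Y, (x, y) ∈ E → (x, y') ∈ E → y = y' := by
    intro x y y' h1 h2
    have h3 : (x, y)⁻¹ * (x, y') ∈ E := mul_mem (inv_mem h1) h2
    have h4 : Good i j g (x⁻¹ * x) (y⁻¹ * y') := hED h3
    rw [inv_mul_cancel] at h4
    obtain ⟨w, ⟨k, hk, h5⟩, h6⟩ := h4 (0, 0, 0)
    rw [one_mul] at h5
    have := hinj _ _ k hk h5
    rw [← this, hFY0, mul_one, inv_mul_eq_one] at h6
    exact h6
  have hex : ∀ x : H, ∃ y : Y, ((x : G), y) ∈ E := by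
    rintro ⟨x, hx⟩
    rw [← hE1] at hx
    obtain ⟨⟨x', y⟩, h1, rfl⟩ := hx
    exact ⟨y, h1⟩
  choose f hf using hex
  let ψ : H →* Y := MonoidHom.mk' f (fun a b => by
    refine huniq (a * b : G) _ _ (hf (a * b)) ?_
    exact mul_mem (hf a) (hf b))
  have hψi : ψ ⟨i, subset_closure (by simp)⟩ = mI := huniq i _ _ (hf ⟨i, _⟩) (subset_closure (by simp))
  have hψj : ψ ⟨j, subset_closure (by simp)⟩ = mJ := huniq j _ _ (hf ⟨j, _⟩) (subset_closure (by simp))
  have hψg : ψ ⟨g, subset_closure (by simp)⟩ = mG := huniq g _ _ (hf ⟨g, _⟩) (subset_closure (by simp))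
  have hsurj : Function.Surjective ψ := by
    have h1 : ∀ w : T, F mI mJ mG w ∈ ψ.range := by
      intro w
      unfold F
      refine mul_mem (mul_mem (pow_mem ?_ _) (pow_mem ?_ _)) (pow_mem ?_ _)
      · exact ⟨_, hψi⟩
      · exact ⟨_, hψj⟩
      · exact ⟨_, hψg⟩
    rw [← MonoidHom.range_eq_top]
    have h2 : Function.Injective (F mI mJ mG) := by decide
    have h3 : Nat.card Y = 24 := by
      haveI : Fact (Nat.Prime 3) := ⟨by norm_num⟩
      have := Cfsg.Agent.Lib.SL2.card_SL2_eq (F := ZMod 3)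
      rw [ZMod.card] at this
      exact this
    have h4 : Nat.card Y ≤ Nat.card ψ.range := by
      rw [h3]
      have h5 := Nat.card_le_card_of_injective (fun w : T => (⟨F mI mJ mG w, h1 w⟩ : ψ.range)) (fun a b hab => h2 (congrArg Subtype.val hab))
      have h6 : Nat.card T = 24 := by simp [T]
      omega
    exact Subgroup.eq_top_of_card_eq _ (le_antisymm (Subgroup.card_le_card_group _) h4)
  have hker : ψ.ker = (zpowers (g ^ 3)).subgroupOf H := by
    ext ⟨x, hx⟩
    rw [MonoidHom.mem_ker, mem_subgroupOf]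
    constructor
    · intro h1
      have h2 : (x, ψ ⟨x, hx⟩) ∈ E := hf ⟨x, hx⟩
      rw [h1] at h2
      obtain ⟨w, ⟨k, hk, h5⟩, h6⟩ := (hED h2 : Good i j g x 1) (0, 0, 0)
      rw [hFY0, one_mul] at h6
      rw [FY_inj w h6.symm, hF0, mul_one, one_mul] at h5
      have h5' : x = k := h5
      show x ∈ _
      rw [h5']; exact hk
    · rintro ⟨n, hn⟩
      have h1 : (⟨x, hx⟩ : H) = (⟨g, subset_closure (by simp)⟩ ^ 3) ^ n := by
        apply Subtype.ext
        rw [coe_zpow, coe_pow]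
        exact hn.symm
      rw [h1, map_zpow, map_pow, hψg, mG3, one_zpow]
  rw [← hker]
  exact ⟨inferInstance, ⟨QuotientGroup.quotientKerEquivOfSurjective ψ hsurj⟩⟩

open Cfsg.Agent.Lib.QuatSyl Cfsg.Agent.Lib.PNilp

section Exist
variable {S : Sylow 2 G} {m : ℕ} {a b : G}

theorem pow4_of_not_mem (h : QS S m a b) {s : G} (hs : s ∈ (S : Subgroup G)) (hsa : s ∉ zpowers a) :
    s ^ 2 = a ^ (2 ^ m) := by
  rcases h.cases hs with h1 | ⟨u, hu, rfl⟩
  · exact absurd h1 hsa
  · have h2 := h.inv hu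
    have h3 : b * u = u⁻¹ * b := by
      calc b * u = b * u * b⁻¹ * b := by group
        _ = _ := by rw [h2]
    calc (u * b) ^ 2 = u * (b * u) * b := by rw [sq]; group
      _ = u * (u⁻¹ * b) * b := by rw [h3]
      _ = b ^ 2 := by rw [sq]; group
      _ = _ := h.hb2

theorem cent_of_sq {g x : G} (ho : (orderOf g).Coprime 2) (h : g ^ 2 * x = x * g ^ 2) : g * x = x * g := by
  have hc : g ^ 2 ∈ centralizer ({x} : Set G) := QuatSyl.mem_cent.mpr h
  obtain ⟨j, hj⟩ := exists_pow_eq_self_of_coprime ho.symm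
  have : g ∈ centralizer ({x} : Set G) := by rw [← hj]; exact pow_mem hc j
  exact QuatSyl.mem_cent.mp this

theorem cent_of_inv {g x : G} (ho : (orderOf g).Coprime 2) (hx : x ^ 2 ≠ 1) (h : g * x * g⁻¹ = x ∨ g * x * g⁻¹ = x⁻¹) :
    g * x = x * g := by
  rcases h with h | h
  · rw [mul_inv_eq_iff_eq_mul] at h; exact h
  · apply cent_of_sq ho
    have h1 : g * x = x⁻¹ * g := by rw [mul_inv_eq_iff_eq_mul] at h; exact h
    have h2 : g * x⁻¹ = x * g := by
      have h3 : (g * x * g⁻¹)⁻¹ = x := by rw [h, inv_inv]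
      have h4 : g * x⁻¹ * g⁻¹ = x := by
        calc g * x⁻¹ * g⁻¹ = (g * x * g⁻¹)⁻¹ := by group
          _ = x := h3
      rw [mul_inv_eq_iff_eq_mul] at h4; exact h4
    rw [sq, mul_assoc, h1, ← mul_assoc, h2, mul_assoc]

/-- no elements of order 8 in a 2-group moved by an odd element -/
theorem pow4_eq_one (h : QS S m a b) {Q : Subgroup G} (hQ : Q ≤ (S : Subgroup G)) {g : G}
    (hg : g ∈ normalizer (Q : Set G)) (ho : (orderOf g).Coprime 2) (hgc : g ∉ centralizer (Q : Set G)) :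
    ∀ c ∈ Q, c ^ 4 = 1 := by
  intro c hc
  by_contra hc4
  apply hgc
  have hout : ∀ x ∈ Q, x ^ 4 ≠ 1 → x ∈ zpowers a := by
    intro x hx hx4
    by_contra hxa
    apply hx4
    have h1 := pow4_of_not_mem h (hQ hx) hxa
    rw [show (4 : ℕ) = 2 * 2 from rfl, pow_mul, h1, h.z_sq]
  have hconj : ∀ x ∈ Q, g * x * g⁻¹ ∈ Q := fun x hx => (mem_normalizer_iff.mp hg x).mp hx
  have hc8 : ∀ x ∈ Q, x ^ 4 ≠ 1 → g * x = x * g := by
    intro x hx hx4
    have h1 : g * x * g⁻¹ ∈ zpowers a := hout _ (hconj x hx) (by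
      rw [conj_pow]; intro h2; apply hx4
      calc x ^ 4 = g⁻¹ * (g * x ^ 4 * g⁻¹) * g := by group
        _ = 1 := by rw [h2]; group)
    have hx2 : x ^ 2 ≠ 1 := by
      intro h2; apply hx4
      rw [show (4 : ℕ) = 2 * 2 from rfl, pow_mul, h2, one_pow]
    exact cent_of_inv ho hx2 (h.fusion (hout x hx hx4) hx2 h1 rfl)
  have hC : ∀ x ∈ Q, x ∈ zpowers a → g * x = x * g := by
    intro x hx hxa
    by_cases hx4 : x ^ 4 = 1
    · have hca := hout c hc hc4
      have h1 : (c * x) ^ 4 ≠ 1 := by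
        have h2 : c * x = x * c := comm_zpowers hca hxa
        rw [Commute.mul_pow h2, hx4, mul_one]; exact hc4
      have h2 := hc8 _ (mul_mem hc hx) h1
      have h3 := hc8 c hc hc4
      have h4 : c * (g * x) = c * (x * g) := by
        calc c * (g * x) = (c * g) * x := by group
          _ = (g * c) * x := by rw [h3]
          _ = g * (c * x) := by group
          _ = c * x * g := h2
          _ = _ := by group
      exact mul_left_cancel h4
    · exact hc8 x hx hx4
  rw [mem_centralizer_iff]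
  intro q hq
  by_cases hqa : q ∈ zpowers a
  · exact (hC q hq hqa).symm
  have hq1 : g * q * g⁻¹ ∉ zpowers a := by
    intro h1
    have h2 := hC _ (hconj q hq) h1
    apply hqa
    have h3 : g * q * g⁻¹ = q := by
      have h4 : g * (g * q * g⁻¹) * g⁻¹ = g * q * g⁻¹ := by rw [h2]; group
      have h5 : g * (g * q * g⁻¹) = g * (q * g) * g⁻¹ := by
        calc g * (g * q * g⁻¹) = (g * q * g⁻¹) * g := h2
          _ = g * (q * g) * g⁻¹ := by group
      have h6 : g * q * g⁻¹ = q := by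
        calc g * q * g⁻¹ = g⁻¹ * (g * (g * q * g⁻¹)) := by group
          _ = g⁻¹ * (g * (q * g) * g⁻¹) := by rw [h5]
          _ = q := by group
      exact h6
    rwa [h3] at h1
  -- quotient element
  have hc'a : g * q * g⁻¹ * q⁻¹ ∈ zpowers a := by
    rcases h.cases (hQ hq) with h1 | ⟨u, hu, hqu⟩
    · exact absurd h1 hqa
    rcases h.cases (hQ (hconj q hq)) with h1 | ⟨u', hu', hqu'⟩
    · exact absurd h1 hq1
    rw [hqu']
    have : u' * b * q⁻¹ = u' * u⁻¹ := by rw [hqu]; group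
    rw [this]
    exact mul_mem hu' (inv_mem hu)
  set c' := g * q * g⁻¹ * q⁻¹ with hc'
  have hc'Q : c' ∈ Q := mul_mem (hconj q hq) (inv_mem hq)
  have hc'g := hC c' hc'Q hc'a
  have hgq : g * q = c' * q * g := by rw [hc']; group
  have hpow : ∀ n : ℕ, g ^ n * q = c' ^ n * q * g ^ n := by
    intro n
    induction n with
    | zero => group
    | succ n ih =>
      have h1 : g * c' ^ n = c' ^ n * g := (Commute.pow_right hc'g n)
      calc g ^ (n+1) * q = g * (g ^ n * q) := by rw [pow_succ']; group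
        _ = g * (c' ^ n * q * g ^ n) := by rw [ih]
        _ = (g * c' ^ n) * q * g ^ n := by group
        _ = c' ^ n * (g * q) * g ^ n := by rw [h1]; group
        _ = c' ^ n * (c' * q * g) * g ^ n := by rw [hgq]
        _ = _ := by rw [pow_succ, pow_succ']; group
  have h1 := hpow (orderOf g)
  rw [pow_orderOf_eq_one, one_mul, mul_one, right_eq_mul] at h1
  -- c' = 1
  obtain ⟨k, hk⟩ := S.isPGroup' ⟨c', hQ hc'Q⟩
  have hk' : c' ^ 2 ^ k = 1 := congrArg Subtype.val hk
  have h2 : c' = 1 := by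
    have h3 : orderOf c' ∣ 1 := by
      have h4 := Nat.dvd_gcd (orderOf_dvd_of_pow_eq_one h1) (orderOf_dvd_of_pow_eq_one hk')
      rwa [(Nat.Coprime.pow_right k ho : (orderOf g).Coprime (2 ^ k))] at h4
    exact orderOf_eq_one_iff.mp (Nat.dvd_one.mp h3)
  rw [h2, one_mul] at hgq
  exact hgq.symm

theorem exists_rel (h : QS S m a b) (hn : ¬ PNil 2 G) :
    ∃ i j g : G, i ∈ (S : Subgroup G) ∧ j ∈ (S : Subgroup G) ∧ (orderOf g).Coprime 2 ∧ i ^ 2 ≠ 1 ∧ j ∉ zpowers i ∧ Rel i j g := by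
  rw [pNil_iff_frobCond] at hn
  unfold FrobCond at hn
  push Not at hn
  obtain ⟨Q, hQ, g, hg, ho, hgc⟩ := hn
  obtain ⟨T, hT⟩ := hQ.exists_le_sylow
  obtain ⟨x, hx⟩ := MulAction.exists_smul_eq G T S
  set Q' := Q.map (MulAut.conj x).toMonoidHom with hQ'
  have hQS : Q' ≤ (S : Subgroup G) := by
    rintro _ ⟨q, hq, rfl⟩
    rw [← hx]; exact ⟨q, hT hq, rfl⟩
  set g' := x * g * x⁻¹ with hg'
  have hgn : g' ∈ normalizer (Q' : Set G) := by
    apply mem_normalizer_fin
    rintro _ ⟨q, hq, rfl⟩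
    refine ⟨g * q * g⁻¹, (mem_normalizer_iff.mp hg q).mp hq, ?_⟩
    change x * (g * q * g⁻¹) * x⁻¹ = g' * (x * q * x⁻¹) * g'⁻¹
    rw [hg']; group
  have hgo : (orderOf g').Coprime 2 := by
    rw [hg', Cfsg.Agent.Lib.BlockHt.orderOf_conj]; exact ho
  have hgc' : g' ∉ centralizer (Q' : Set G) := by
    intro h3; apply hgc
    rw [mem_centralizer_iff] at h3 ⊢
    intro q hq
    have h4 := h3 (x * q * x⁻¹) ⟨q, hq, rfl⟩
    rw [hg'] at h4
    calc q * g = x⁻¹ * (x * q * x⁻¹ * (x * g * x⁻¹)) * x := by group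
      _ = x⁻¹ * (x * g * x⁻¹ * (x * q * x⁻¹)) * x := by rw [h4]
      _ = g * q := by group
  clear_value Q' g'
  have h4 := pow4_eq_one h hQS hgn hgo hgc'
  have hconj : ∀ x ∈ Q', g' * x * g'⁻¹ ∈ Q' := fun x hx => (mem_normalizer_iff.mp hgn x).mp hx
  set z := a ^ (2 ^ m) with hz
  -- an element moved
  obtain ⟨i, hi, hig⟩ : ∃ i ∈ Q', ¬ g' * i = i * g' := by
    by_contra hcon
    push Not at hcon
    exact hgc' (mem_centralizer_iff.mpr fun q hq => (hcon q hq).symm)
  have hiS := hQS hi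
  have hsq : ∀ y ∈ Q', y ^ 2 = 1 ∨ y ^ 2 = z := by
    intro y hy
    by_cases h1 : y ^ 2 = 1
    · exact Or.inl h1
    · right
      exact h.eq_z (pow_mem (hQS hy) 2) (by rw [← pow_mul]; exact h4 y hy) h1
  have hzc : ∀ y ∈ Q', y ^ 2 = 1 → y = 1 ∨ y = z := by
    intro y hy hy2
    by_cases h1 : y = 1
    · exact Or.inl h1
    · exact Or.inr (h.eq_z (hQS hy) hy2 h1)
  have hgz : g' * z * g'⁻¹ = z := by
    -- z is the square of some element of Q'
    have hi2 : i ^ 2 ≠ 1 := by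
      intro h1
      rcases hzc i hi h1 with h2 | h2
      · apply hig; rw [h2, mul_one, one_mul]
      · -- i = z, then g' z g'⁻¹ = z
        have h3 : g' * i * g'⁻¹ = i := by
          rcases hzc _ (hconj i hi) (by rw [conj_pow, h1]; group) with h5 | h5
          · exfalso
            apply h.z_ne
            have : i = 1 := by
              calc i = g'⁻¹ * (g' * i * g'⁻¹) * g' := by group
                _ = 1 := by rw [h5]; group
            rw [← hz, ← h2, this]
          · rw [h5, h2]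
        apply hig
        rw [mul_inv_eq_iff_eq_mul] at h3; exact h3
    have h1 : i ^ 2 = z := (hsq i hi).resolve_left hi2
    have h2 : (g' * i * g'⁻¹) ^ 2 = z := by
      refine (hsq _ (hconj i hi)).resolve_left ?_
      rw [conj_pow]; intro h3; apply hi2
      calc i ^ 2 = g'⁻¹ * (g' * i ^ 2 * g'⁻¹) * g' := by group
        _ = 1 := by rw [h3]; group
    rw [conj_pow, h1] at h2
    exact h2
  have hi2 : i ^ 2 = z := by
    refine (hsq i hi).resolve_left fun h1 => ?_
    rcases hzc i hi h1 with h2 | h2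
    · apply hig; rw [h2, mul_one, one_mul]
    · apply hig; rw [h2]
      rw [mul_inv_eq_iff_eq_mul] at hgz; exact hgz
  have hzne : z ≠ 1 := h.z_ne
  have hz2 : z ^ 2 = 1 := h.z_sq
  -- cyclic subgroup elements
  have hzp : ∀ y : G, y ^ 2 = z → ∀ w ∈ zpowers y, w = 1 ∨ w = z ∨ w = y ∨ w = y⁻¹ := by
    intro y hy w hw
    have hy4 : y ^ 4 = 1 := by rw [show (4 : ℕ) = 2 * 2 from rfl, pow_mul, hy, hz2]
    obtain ⟨n, rfl⟩ : ∃ n : ℕ, y ^ n = w := by
      rw [← mem_powers_iff_mem_zpowers] at hw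
      exact hw
    have h5 : y ^ n = y ^ (n % 4) := by
      conv_lhs => rw [← Nat.div_add_mod n 4, pow_add, pow_mul, hy4, one_pow, one_mul]
    rw [h5]
    have h6 : n % 4 < 4 := Nat.mod_lt _ (by norm_num)
    interval_cases (n % 4)
    · left; rw [pow_zero]
    · right; right; left; rw [pow_one]
    · right; left; exact hy
    · right; right; right
      rw [eq_inv_iff_mul_eq_one, ← pow_succ]; exact hy4
  have hinv : ∀ y : G, y ^ 2 = z → y⁻¹ = y * z := by
    intro y hy
    rw [inv_eq_iff_mul_eq_one, ← mul_assoc, ← sq, hy, ← sq, hz2]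
  have hzcomm : ∀ y ∈ Q', y * z = z * y := fun y hy => h.z_comm (hQS hy)
  -- cardinality of Q'
  have hcardQ : Nat.card Q' ≤ 8 := by
    have h1 : Nat.card (Q' ⊓ zpowers a : Subgroup G) ≤ 4 := by
      haveI hcyc : IsCyclic (Q' ⊓ zpowers a : Subgroup G) :=
        isCyclic_of_injective (Subgroup.inclusion (inf_le_right : Q' ⊓ zpowers a ≤ zpowers a)) (Subgroup.inclusion_injective _)
      obtain ⟨c, hc⟩ := IsCyclic.exists_generator (α := (Q' ⊓ zpowers a : Subgroup G))
      rw [← orderOf_eq_card_of_forall_mem_zpowers hc]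
      apply Nat.le_of_dvd (by norm_num)
      apply orderOf_dvd_of_pow_eq_one
      apply Subtype.ext
      rw [coe_pow]
      exact h4 _ c.2.1
    have h2 : (zpowers a).relIndex Q' ≤ 2 := by
      have h3 : (zpowers a).relIndex (S : Subgroup G) = 2 := h.index
      have h5 := relIndex_le_of_le_right (H := zpowers a) hQS (by rw [h3]; norm_num)
      omega
    have h3 := Cfsg.Agent.Lib.SylRel.relIndex_mul_card' (inf_le_left : Q' ⊓ zpowers a ≤ Q')
    have h5 : (Q' ⊓ zpowers a).relIndex Q' = (zpowers a).relIndex Q' := inf_relIndex_left _ _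
    rw [h5] at h3
    rw [← h3]
    calc (zpowers a).relIndex Q' * Nat.card (Q' ⊓ zpowers a : Subgroup G) ≤ 2 * 4 := Nat.mul_le_mul h2 h1
      _ = 8 := rfl
  -- the subgroup generated by an element of order 4 has index 2
  have hidx : ∀ u ∈ Q', ∀ v ∈ Q', u ^ 2 = z → v ∉ zpowers u → ∀ w ∈ Q', w ∉ zpowers u → w * v⁻¹ ∈ zpowers u := by
    intro u hu v hv hu2 hvu w hw hwu
    have hule : zpowers u ≤ Q' := zpowers_le.mpr hu
    have hord : Nat.card (zpowers u) = 4 := by
      rw [Nat.card_zpowers]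
      refine orderOf_eq_prime_pow (p := 2) (n := 1) ?_ ?_
      · rw [pow_one, hu2]; exact hzne
      · rw [show 2 ^ (1 + 1) = 2 * 2 from rfl, pow_mul, hu2, hz2]
    have hdvd := card_dvd_of_le hule
    rw [hord] at hdvd
    obtain ⟨c, hc⟩ := hdvd
    have hcpos : 0 < Nat.card Q' := Nat.card_pos
    have hc2 : c = 2 := by
      have : c ≤ 2 := by omega
      interval_cases c
      · omega
      · exfalso
        have h5 : zpowers u = Q' := Subgroup.eq_of_le_of_card_ge hule (by rw [hord]; omega)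
        rw [h5] at hvu; exact hvu hv
      · rfl
    have hi2' : ((zpowers u).subgroupOf Q').index = 2 := by
      have h5 := Cfsg.Agent.Lib.SylRel.relIndex_mul_card' hule
      rw [hord, hc, hc2] at h5
      have h6 : (zpowers u).relIndex Q' = 2 := by omega
      exact h6
    have h6 := (Subgroup.mul_mem_iff_of_index_two hi2' (a := (⟨w, hw⟩ : Q')) (b := (⟨v, hv⟩ : Q')⁻¹)).mpr (by
      rw [inv_mem_iff]
      simp only [mem_subgroupOf]
      exact ⟨fun h7 => absurd h7 hwu, fun h7 => absurd h7 hvu⟩)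
    exact h6
  have hi21 : i ^ 2 ≠ 1 := by rw [hi2]; exact hzne
  have hi4 : i ^ 4 = 1 := h4 i hi
  have hzone : ∀ y : G, y ^ 2 = z → y ≠ 1 ∧ y ≠ z := by
    intro y hy
    constructor
    · rintro rfl; rw [one_pow] at hy; exact hzne hy.symm
    · rintro rfl; rw [hz2] at hy; exact hzne hy.symm
  set j := g' * i * g'⁻¹ with hj
  have hjQ : j ∈ Q' := hconj i hi
  have hj2 : j ^ 2 = z := by rw [hj, conj_pow, hi2, hgz]
  have hji : j ∉ zpowers i := by
    intro h1
    rcases hzp i hi2 j h1 with h2 | h2 | h2 | h2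
    · exact (hzone j hj2).1 h2
    · exact (hzone j hj2).2 h2
    · exact hig (cent_of_inv hgo hi21 (Or.inl h2))
    · exact hig (cent_of_inv hgo hi21 (Or.inr h2))
  have hinv3 : i⁻¹ = i ^ 3 := by
    rw [inv_eq_iff_mul_eq_one, ← pow_succ']; exact hi4
  have hjij : j * i = i ^ 3 * j := by
    have h1 : j * i ∉ zpowers i := by
      intro h2
      apply hji
      have := mul_mem h2 (inv_mem (mem_zpowers i))
      rwa [mul_inv_cancel_right] at this
    have h2 := hidx i hi j hjQ hi2 hji (j * i) (mul_mem hjQ hi) h1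
    rcases hzp i hi2 _ h2 with h3 | h3 | h3 | h3
    · exfalso
      apply (hzone i hi2).1
      calc i = j⁻¹ * (j * i * j⁻¹) * j := by group
        _ = 1 := by rw [h3]; group
    · exfalso
      apply (hzone i hi2).2
      calc i = j⁻¹ * (j * i * j⁻¹) * j := by group
        _ = j⁻¹ * (z * j) := by rw [h3]; group
        _ = z := by rw [← hzcomm j hjQ]; group
    · exfalso
      rw [mul_inv_eq_iff_eq_mul] at h3
      have h5 : (i * j) ^ 2 = 1 := by
        have hcm : Commute i j := h3.symm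
        rw [hcm.mul_pow, hi2, hj2, ← sq, hz2]
      rcases hzc _ (mul_mem hi hjQ) h5 with h6 | h6
      · apply hji
        rw [eq_inv_of_mul_eq_one_right h6]
        exact inv_mem (mem_zpowers i)
      · apply hji
        have : j = i⁻¹ * (i * j) := by group
        rw [this, h6, ← hi2]
        exact mul_mem (inv_mem (mem_zpowers i)) (pow_mem (mem_zpowers i) 2)
    · rw [mul_inv_eq_iff_eq_mul] at h3
      rw [h3, hinv3]
  have hgi : g' * i = j * g' := by rw [hj]; group
  set l := g' * j * g'⁻¹ with hl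
  have hlQ : l ∈ Q' := hconj j hjQ
  have hl2 : l ^ 2 = z := by rw [hl, conj_pow, hj2, hgz]
  have hlj : l ∉ zpowers j := by
    intro h1
    have h0 : g' * j = j * g' → False := by
      intro h2
      apply hig
      have h3 : i = g'⁻¹ * j * g' := by rw [hj]; group
      have h5 : g'⁻¹ * j * g' = j := by rw [mul_assoc, ← h2]; group
      have h6 : i = j := h3.trans h5
      rw [hgi, ← h6]
    rcases hzp j hj2 l h1 with h2 | h2 | h2 | h2
    · exact (hzone l hl2).1 h2
    · exact (hzone l hl2).2 h2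
    · exact h0 (cent_of_inv hgo (by rw [hj2]; exact hzne) (Or.inl h2))
    · exact h0 (cent_of_inv hgo (by rw [hj2]; exact hzne) (Or.inr h2))
  have hli : l ∉ zpowers i := by
    intro h1
    have h2 : g' ^ 2 * i * (g' ^ 2)⁻¹ = l := by rw [hl, hj, sq]; group
    have hgo2 : (orderOf (g' ^ 2)).Coprime 2 := Nat.Coprime.coprime_dvd_left (orderOf_pow_dvd 2) hgo
    rcases hzp i hi2 l h1 with h3 | h3 | h3 | h3
    · exact (hzone l hl2).1 h3
    · exact (hzone l hl2).2 h3
    · exact hig (cent_of_sq hgo (cent_of_inv hgo2 hi21 (Or.inl (h2.trans h3))))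
    · exact hig (cent_of_sq hgo (cent_of_inv hgo2 hi21 (Or.inr (h2.trans h3))))
  have hgj : g' * j = l * g' := by rw [hl]; group
  have hjsq : j * j = i ^ 2 := by rw [← sq, hj2, hi2]
  have h7 := hidx i hi j hjQ hi2 hji l hlQ hli
  rcases hzp i hi2 _ h7 with h8 | h8 | h8 | h8
  · exfalso
    rw [mul_inv_eq_one] at h8
    rw [h8] at hlj
    exact hlj (mem_zpowers j)
  · exfalso
    rw [mul_inv_eq_iff_eq_mul] at h8
    apply hlj
    rw [h8, ← hj2]
    exact mul_mem (pow_mem (mem_zpowers j) 2) (mem_zpowers j)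
  · rw [mul_inv_eq_iff_eq_mul] at h8
    refine ⟨i, j, g', hiS, hQS hjQ, hgo, hi21, hji, ⟨hi4, hjsq, hjij, hgi, ?_⟩⟩
    rw [hgj, h8]
  · rw [mul_inv_eq_iff_eq_mul, hinv3, ← hjij] at h8
    have hjij' : j * i * j = i := by
      rw [hjij, mul_assoc, hjsq, ← pow_add]
      show i ^ (4 + 1) = i
      rw [pow_succ, hi4, one_mul]
    have hgji : g' * (j * i) = i * g' := by
      rw [← mul_assoc, hgj, h8, mul_assoc, hgi, ← mul_assoc, hjij']
    refine ⟨i, j * i, g'⁻¹, hiS, mul_mem (hQS hjQ) hiS, by rw [orderOf_inv]; exact hgo, hi21, ?_, ⟨hi4, ?_, ?_, ?_, ?_⟩⟩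
    · intro h2
      apply hji
      have := mul_mem h2 (inv_mem (mem_zpowers i))
      rwa [mul_inv_cancel_right] at this
    · rw [← mul_assoc, hjij', sq]
    · rw [hjij, ← hjij, ← mul_assoc, ← hjij, mul_assoc]
    · rw [inv_mul_eq_iff_eq_mul, ← mul_assoc, hgji]; group
    · rw [inv_mul_eq_iff_eq_mul]
      have h9 : i * (j * i) = j := by
        rw [hjij, ← mul_assoc, ← pow_succ', hi4, one_mul]
      rw [h9, ← mul_assoc, hgj, h8]; group
end Exist

theorem Rel.g3 (h : Rel i j g) : g ^ 3 * i = i * g ^ 3 := by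
  have hjij' : j * i * j = i := by
    rw [h.ji, mul_assoc, h.j2, ← pow_add]
    show i ^ (4 + 1) = i
    rw [pow_succ, h.i4, one_mul]
  have h1 : g * (i * j) = i * g := by
    rw [← mul_assoc, h.gi, mul_assoc, h.gj, ← mul_assoc, ← mul_assoc, hjij']
  calc g ^ 3 * i = g * (g * (g * i)) := by rw [pow_succ, sq]; group
    _ = g * (g * (j * g)) := by rw [h.gi]
    _ = g * ((g * j) * g) := by group
    _ = g * (i * j) * g ^ 2 := by rw [h.gj, sq]; group
    _ = i * g ^ 3 := by rw [h1, pow_succ g 2, mul_assoc, ← pow_succ', ← pow_succ]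

theorem s0106 {S : Sylow 2 G} {m : ℕ} {a b : G} (hq : QS S m a b) (hn : ¬ PNil 2 G) :
    ∃ (H K : Subgroup G) (hK : (K.subgroupOf H).Normal), Nonempty ((H ⧸ K.subgroupOf H) ≃* Y) := by
  obtain ⟨i, j, g, hi, hj, ho, hi2, hji, h⟩ := exists_rel hq hn
  obtain ⟨hK, hiso⟩ := section_iso h (by
    rintro ⟨a1, b1, c1⟩ ⟨a2, b2, c2⟩ k hk he
    unfold F at he
    simp only at he
    have hinter : ∀ x ∈ (S : Subgroup G), x ∈ zpowers g → x = 1 := by
      intro x hx hxg
      obtain ⟨n, hn⟩ := S.isPGroup' ⟨x, hx⟩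
      have hn' : x ^ 2 ^ n = 1 := congrArg Subtype.val hn
      have h1 : orderOf x ∣ orderOf g := by
        have := card_dvd_of_le ((zpowers_le).mpr hxg)
        rwa [Nat.card_zpowers, Nat.card_zpowers] at this
      have h4 := Nat.dvd_gcd h1 (orderOf_dvd_of_pow_eq_one hn')
      rw [(Nat.Coprime.pow_right n ho : (orderOf g).Coprime (2 ^ n))] at h4
      exact orderOf_eq_one_iff.mp (Nat.dvd_one.mp h4)
    have hkg : k ∈ zpowers g := (zpowers_le.mpr (pow_mem (mem_zpowers g) 3)) hk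
    set q1 := i ^ (a1 : ℕ) * j ^ (b1 : ℕ) with hq1
    set q2 := i ^ (a2 : ℕ) * j ^ (b2 : ℕ) with hq2
    have hq1S : q1 ∈ (S : Subgroup G) := mul_mem (pow_mem hi _) (pow_mem hj _)
    have hq2S : q2 ∈ (S : Subgroup G) := mul_mem (pow_mem hi _) (pow_mem hj _)
    have e1 : q2⁻¹ * q1 = g ^ (c2 : ℕ) * k * (g ^ (c1 : ℕ))⁻¹ := by
      rw [eq_mul_inv_iff_mul_eq, mul_assoc, he]; group
    have e2 : q2⁻¹ * q1 = 1 := hinter _ (mul_mem (inv_mem hq2S) hq1S) (by
      rw [e1]; exact mul_mem (mul_mem (pow_mem (mem_zpowers g) _) hkg) (inv_mem (pow_mem (mem_zpowers g) _)))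
    have e3 : q1 = q2 := (inv_mul_eq_one.mp e2).symm
    have e4 : g ^ (c1 : ℕ) = g ^ (c2 : ℕ) * k := by
      have he' : q1 * g ^ (c1 : ℕ) = q2 * g ^ (c2 : ℕ) * k := he
      rw [e3, mul_assoc q2] at he'
      exact mul_left_cancel he'
    have hoi : orderOf i = 4 := by
      refine orderOf_eq_prime_pow (p := 2) (n := 1) ?_ ?_
      · rw [pow_one]; exact hi2
      · exact h.i4
    have hb : b1 = b2 := by
      have h5 : j ^ (b1 : ℕ) * (j ^ (b2 : ℕ))⁻¹ = (i ^ (a1 : ℕ))⁻¹ * i ^ (a2 : ℕ) := by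
        rw [mul_inv_eq_iff_eq_mul, mul_assoc, ← hq2, ← e3, hq1]; group
      have h6 : j ^ (b1 : ℕ) * (j ^ (b2 : ℕ))⁻¹ ∈ zpowers i := by
        rw [h5]; exact mul_mem (inv_mem (pow_mem (mem_zpowers i) _)) (pow_mem (mem_zpowers i) _)
      fin_cases b1 <;> fin_cases b2
      · rfl
      · exfalso; apply hji
        have h7 : (j ^ 0 * (j ^ 1)⁻¹ : G) ∈ zpowers i := h6
        rw [pow_zero, one_mul, pow_one, inv_mem_iff] at h7; exact h7
      · exfalso; apply hji
        have h7 : (j ^ 1 * (j ^ 0)⁻¹ : G) ∈ zpowers i := h6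
        rw [pow_zero, inv_one, mul_one, pow_one] at h7; exact h7
      · rfl
    have ha : a1 = a2 := by
      have h5 : i ^ (a1 : ℕ) = i ^ (a2 : ℕ) := by
        rw [hq1, hq2, hb] at e3
        exact mul_right_cancel e3
      have h6 := (pow_inj_mod (x := i)).mp h5
      rw [hoi, Nat.mod_eq_of_lt a1.2, Nat.mod_eq_of_lt a2.2] at h6
      exact Fin.ext h6
    have hc : c1 = c2 := by
      have hk3 : k * i = i * k := by
        have : g ^ 3 ∈ centralizer ({i} : Set G) := QuatSyl.mem_cent.mpr h.g3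
        exact QuatSyl.mem_cent.mp ((zpowers_le.mpr this) hk)
      have hk3' : k⁻¹ * i = i * k⁻¹ := by
        rw [inv_mul_eq_iff_eq_mul, ← mul_assoc, hk3]; group
      have hni : ¬ g * i = i * g := by
        intro h5
        have h6 : j = i := by
          have := h.gi
          rw [h5] at this
          exact (mul_right_cancel this).symm
        rw [h6] at hji
        exact hji (mem_zpowers i)
      have hni2 : ¬ g ^ 2 * i = i * g ^ 2 := fun h5 => hni (cent_of_sq ho h5)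
      have hkc : Commute g k := by
        obtain ⟨n, rfl⟩ := mem_zpowers_iff.mp hkg
        exact Commute.zpow_right (Commute.refl g) n
      fin_cases c1 <;> fin_cases c2
      · rfl
      · exfalso
        have h5 : (g ^ 0 : G) = g ^ 1 * k := e4
        rw [pow_zero, pow_one] at h5
        have h6 : g = k⁻¹ := eq_inv_of_mul_eq_one_left h5.symm
        rw [h6] at hni; exact hni hk3'
      · exfalso
        have h5 : (g ^ 0 : G) = g ^ 2 * k := e4
        rw [pow_zero] at h5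
        have h6 : g ^ 2 = k⁻¹ := eq_inv_of_mul_eq_one_left h5.symm
        rw [h6] at hni2; exact hni2 hk3'
      · exfalso
        have h5 : (g ^ 1 : G) = g ^ 0 * k := e4
        rw [pow_one, pow_zero, one_mul] at h5
        rw [h5] at hni; exact hni hk3
      · rfl
      · exfalso
        have h5 : (g ^ 1 : G) = g ^ 2 * k := e4
        rw [pow_one, sq, mul_assoc] at h5
        have h7 : g * k = 1 := by
          have : g * (g * k) = g * 1 := by rw [← h5, mul_one]
          exact mul_left_cancel this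
        have h6 : g = k⁻¹ := eq_inv_of_mul_eq_one_left h7
        rw [h6] at hni; exact hni hk3'
      · exfalso
        have h5 : (g ^ 2 : G) = g ^ 0 * k := e4
        rw [pow_zero, one_mul] at h5
        rw [h5] at hni2; exact hni2 hk3
      · exfalso
        have h5 : (g ^ 2 : G) = g ^ 1 * k := e4
        rw [pow_one, sq] at h5
        have h6 : g = k := mul_left_cancel h5
        rw [h6] at hni; exact hni hk3
      · rfl
    rw [ha, hb, hc])
  exact ⟨_, _, hK, hiso⟩



end Cfsg.Agent.Lib.QuatSL
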