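import Cfsg.Agent.Lib.H3SigC
import Cfsg.Agent.Lib.QuatSL
import Cfsg.Agent.Lib.CharBurnside
import Cfsg.Agent.Lib.PGrpK
import Cfsg.Agent.Lib.PGrpE

/-!
Assorted results on components and connectivity (helper3).
-/

set_option autoImplicit false
set_option maxHeartbeats 400000
set_option linter.unusedVariables false
set_option linter.unusedSectionVars false

namespace Cfsg.Agent.Lib.H3Misc

open Subgroup Cfsg Cfsg.Agent.Lib.Basic Cfsg.Agent.Lib.Cores Cfsg.Agent.Lib.Components
  Cfsg.Agent.Lib.H3Loc Cfsg.Agent.Lib.H3LocC Cfsg.Agent.Lib.H3LocD Cfsg.Agent.Lib.H3LBal Cfsg.Agent.Lib.H3LocG Cfsg.Agent.Lib.H3Hyp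
  Cfsg.Agent.Lib.SchurZas Cfsg.Agent.Lib.H3Sig Cfsg.Agent.Lib.H3SigB Cfsg.Agent.Lib.CoprimeB Cfsg.Agent.Lib.H3SigC
open scoped commutatorElement Pointwise

section sl
open Cfsg.Agent.Lib.QuatSL

theorem decA : ∀ v : T, (F mI mJ mG v) ^ 3 = 1 → F mI mJ mG v ≠ 1 →
    (F mI mJ mG v * mI * (F mI mJ mG v)⁻¹ * mI⁻¹) ^ 3 ≠ 1 ∨ (F mI mJ mG v * mJ * (F mI mJ mG v)⁻¹ * mJ⁻¹) ^ 3 ≠ 1 := by
  decide

theorem decB : ∀ v : T, (F mI mJ mG v) ^ 2 = 1 → F mI mJ mG v = 1 ∨ F mI mJ mG v = mI ^ 2 := by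
  decide

theorem F_surj : ∀ y : Y, ∃ v : T, F mI mJ mG v = y := by
  have h2 : Function.Injective (F mI mJ mG) := by decide
  have h3 : Nat.card Y = 24 := by
    haveI : Fact (Nat.Prime 3) := ⟨by norm_num⟩
    have := Cfsg.Agent.Lib.SL2.card_SL2_eq (F := ZMod 3)
    rw [ZMod.card] at this
    exact this
  have h4 : Nat.card T = 24 := by
    rw [Nat.card_eq_fintype_card]; rfl
  haveI : Finite Y := Nat.finite_of_card_ne_zero (by rw [h3]; norm_num)
  exact (Function.Injective.bijective_of_nat_card_le h2 (by rw [h3, h4])).2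

theorem cardY : Nat.card Y = 24 := by
  haveI : Fact (Nat.Prime 3) := ⟨by norm_num⟩
  have := Cfsg.Agent.Lib.SL2.card_SL2_eq (F := ZMod 3)
  rw [ZMod.card] at this
  exact this

theorem coreY : pPrimeCore 2 Y = ⊥ := by
  haveI : Finite Y := Nat.finite_of_card_ne_zero (by rw [cardY]; norm_num)
  haveI h0 := pPrimeCore_normal (G := Y) 2
  have h1 : (Nat.card (pPrimeCore 2 Y)).Coprime 2 := pPrimeCore_coprime 2
  have h2 : Nat.card (pPrimeCore 2 Y) ∣ 3 := by
    have h3 : Nat.card (pPrimeCore 2 Y) ∣ 2 ^ 3 * 3 := by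
      have := Subgroup.card_subgroup_dvd_card (pPrimeCore 2 Y)
      rw [cardY] at this
      exact this
    exact (Nat.Coprime.pow_right 3 h1).dvd_of_dvd_mul_left h3
  have h3 : ∀ x ∈ pPrimeCore 2 Y, x ^ 3 = 1 := by
    intro x hx
    exact orderOf_dvd_iff_pow_eq_one.mp ((Subgroup.orderOf_dvd_natCard _ hx).trans h2)
  rw [eq_bot_iff]
  intro x hx
  rw [mem_bot]
  by_contra hne
  obtain ⟨v, rfl⟩ := F_surj x
  have key : ∀ w : Y, (F mI mJ mG v * w * (F mI mJ mG v)⁻¹ * w⁻¹) ^ 3 = 1 := by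
    intro w
    apply h3
    have e : F mI mJ mG v * w * (F mI mJ mG v)⁻¹ * w⁻¹ = F mI mJ mG v * (w * (F mI mJ mG v)⁻¹ * w⁻¹) := by group
    rw [e]
    exact mul_mem hx (h0.conj_mem _ (inv_mem hx) w)
  rcases decA v (h3 _ hx) hne with h | h
  · exact h (key _)
  · exact h (key _)

theorem s1303 : IsPConstrained 2 Y ∧ pPrimeCore 2 Y = ⊥ ∧ (∀ t : Y, orderOf t = 2 → t ∈ center Y) ∧
    ∃ Q : Subgroup Y, Nat.card Q = 3 ∧ ¬ (Q ≤ pPrimeCore 2 Y) := by
  haveI : Finite Y := Nat.finite_of_card_ne_zero (by rw [cardY]; norm_num)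
  refine ⟨?_, coreY, ?_, zpowers mG, ?_, ?_⟩
  · rw [PCon.isPConstrained_iff_cst coreY, cst_iff_layer coreY, layer_eq_bot_iff]
    intro L hL
    have hs : Group.IsSolvable Y := CharBurnside.burnside_paqb _ Y 2 3 3 1 (by norm_num) (by norm_num) (by rw [cardY]; norm_num) rfl
    haveI := hs
    exact component_not_solvable hL (inferInstance)
  · intro t ht
    obtain ⟨v, rfl⟩ := F_surj t
    have h1 := decB v (orderOf_dvd_iff_pow_eq_one.mp (by rw [ht]))
    rcases h1 with h1 | h1
    · rw [h1]; exact one_mem _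
    · rw [h1]
      rw [mem_center_iff]
      intro g
      apply Subtype.ext
      have e : ((mI ^ 2 : Y) : Matrix (Fin 2) (Fin 2) (ZMod 3)) = -1 := by decide
      rw [Matrix.SpecialLinearGroup.coe_mul, Matrix.SpecialLinearGroup.coe_mul]
      change _ * ((mI ^ 2 : Y) : Matrix (Fin 2) (Fin 2) (ZMod 3)) = ((mI ^ 2 : Y) : Matrix (Fin 2) (Fin 2) (ZMod 3)) * _
      rw [e, mul_neg, neg_mul, mul_one, one_mul]
  · rw [Nat.card_zpowers]
    haveI : Fact (Nat.Prime 3) := ⟨by norm_num⟩
    exact orderOf_eq_prime mG3 (by decide)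
  · rw [coreY, le_bot_iff, zpowers_eq_bot]
    decide

end sl

universe u
variable {G : Type u} [Group G] [Finite G] {p : ℕ} [Fact p.Prime]

theorem s1314 {x : G} (hx : orderOf x = 2) {L : Subgroup G} (hperf : ⁅L, L⁆ = L)
    (hcomm : ⁅L, L.map (MulAut.conj x).toMonoidHom⁆ = ⊥) :
    ∃ π : L →* G, (∀ l : L, π l = (l : G) * (x * (l : G) * x⁻¹)) ∧ π.ker ≤ center L ∧ π.range ≤ centralizer ({x} : Set G) ∧
      ⁅(L ⊔ L.map (MulAut.conj x).toMonoidHom) ⊓ centralizer ({x} : Set G), (L ⊔ L.map (MulAut.conj x).toMonoidHom) ⊓ centralizer ({x} : Set G)⁆ = π.range := by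
  have hxx : x * x = 1 := by rw [← sq, ← hx]; exact pow_orderOf_eq_one x
  have hxi : x⁻¹ = x := inv_eq_of_mul_eq_one_left hxx
  have hc : ∀ l ∈ L, ∀ m ∈ L, l * (x * m * x⁻¹) = (x * m * x⁻¹) * l := by
    intro l hl m hm
    rw [← commutatorElement_eq_one_iff_mul_comm, ← mem_bot, ← hcomm]
    exact commutator_mem_commutator hl ⟨m, hm, rfl⟩
  let π : L →* G := MonoidHom.mk' (fun l => (l : G) * (x * (l : G) * x⁻¹)) (by
    intro a b
    have := hc b b.2 a a.2
    change ((a : G) * b) * (x * ((a : G) * b) * x⁻¹) = (a * (x * a * x⁻¹)) * (b * (x * b * x⁻¹))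
    calc ((a : G) * b) * (x * ((a : G) * b) * x⁻¹) = a * (b * (x * a * x⁻¹)) * (x * b * x⁻¹) := by group
      _ = a * ((x * a * x⁻¹) * b) * (x * b * x⁻¹) := by rw [this]
      _ = (a * (x * a * x⁻¹)) * (b * (x * b * x⁻¹)) := by group)
  have hπ : ∀ l : L, π l = (l : G) * (x * (l : G) * x⁻¹) := fun l => rfl
  refine ⟨π, hπ, ?_, ?_, ?_⟩
  · intro l hl
    rw [MonoidHom.mem_ker, hπ] at hl
    rw [mem_center_iff]
    intro m
    apply Subtype.ext
    have h1 := hc m m.2 l l.2
    have h2 : x * (l : G) * x⁻¹ = (l : G)⁻¹ := (inv_eq_of_mul_eq_one_right hl).symm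
    rw [h2] at h1
    change (m : G) * l = l * m
    have h3 : (l : G) * (m * (l : G)⁻¹) * l = l * ((l : G)⁻¹ * m) * l := by rw [h1]
    have e1 : (l : G) * (m * (l : G)⁻¹) * l = l * m := by group
    have e2 : (l : G) * ((l : G)⁻¹ * m) * l = m * l := by group
    rw [e1, e2] at h3
    exact h3.symm
  · rintro _ ⟨l, rfl⟩
    rw [mem_centralizer_singleton_iff, hπ]
    have h1 := hc l l.2 l l.2
    calc (l : G) * (x * l * x⁻¹) * x = (x * l * x⁻¹) * l * x := by rw [h1]
      _ = x * l * (x⁻¹ * l * x) := by group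
      _ = x * l * (x * l * x⁻¹) := by rw [hxi]
      _ = x * (l * (x * l * x⁻¹)) := by group
  · set L' := L.map (MulAut.conj x).toMonoidHom with hL'
    set C := (L ⊔ L') ⊓ centralizer ({x} : Set G) with hC
    have hmem : ∀ g, g ∈ L ⊔ L' → ∃ a ∈ L, ∃ b ∈ L, g = a * (x * b * x⁻¹) := by
      intro g hg
      have hn : L' ≤ normalizer (L : Set G) := by
        rintro _ ⟨b, hb, rfl⟩
        refine CFunA.mem_normalizer_of_le ?_
        rintro _ ⟨a, ha, rfl⟩
        change (x * b * x⁻¹) * a * (x * b * x⁻¹)⁻¹ ∈ L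
        rw [← hc a ha b hb, mul_inv_cancel_right]
        exact ha
      obtain ⟨a, ha, y, hy, e⟩ := (mem_sup_iff_left hn).mp hg
      obtain ⟨b, hb, rfl⟩ := hy
      exact ⟨a, ha, b, hb, e.symm⟩
    -- elements of C
    have hCel : ∀ g ∈ C, ∃ l : L, ∃ z : G, g = π l * z ∧ (∀ a ∈ L, a * z = z * a) ∧ (∀ a ∈ L, (x * a * x⁻¹) * z = z * (x * a * x⁻¹)) := by
      intro g hg
      obtain ⟨hg1, hg2⟩ := mem_inf.mp hg
      obtain ⟨a, ha, b, hb, rfl⟩ := hmem g hg1
      have h1 : x * (a * (x * b * x⁻¹)) * x⁻¹ = a * (x * b * x⁻¹) := by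
        have h2 := mem_centralizer_singleton_iff.mp hg2
        rw [← h2]; group
      have h3 : x * (a * (x * b * x⁻¹)) * x⁻¹ = (x * a * x⁻¹) * b := by
        calc x * (a * (x * b * x⁻¹)) * x⁻¹ = (x * a * x⁻¹) * ((x * x) * b * (x * x)⁻¹) := by group
          _ = (x * a * x⁻¹) * b := by rw [hxx]; group
      rw [h3, ← hc b hb a ha] at h1
      -- b * a^x = a * b^x
      set z := a⁻¹ * b with hz
      have hzz : z = x * (b * a⁻¹) * x⁻¹ := by
        have h5 : a⁻¹ * (b * (x * a * x⁻¹)) * (x * a * x⁻¹)⁻¹ = a⁻¹ * (a * (x * b * x⁻¹)) * (x * a * x⁻¹)⁻¹ := by rw [h1]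
        calc z = a⁻¹ * (b * (x * a * x⁻¹)) * (x * a * x⁻¹)⁻¹ := by rw [hz]; group
          _ = a⁻¹ * (a * (x * b * x⁻¹)) * (x * a * x⁻¹)⁻¹ := h5
          _ = x * (b * a⁻¹) * x⁻¹ := by group
      have hzL : z ∈ L := mul_mem (inv_mem ha) hb
      have hz1 : ∀ c ∈ L, c * z = z * c := by
        intro c hcc
        rw [hzz]
        exact hc c hcc _ (mul_mem hb (inv_mem ha))
      have hz2 : ∀ c ∈ L, (x * c * x⁻¹) * z = z * (x * c * x⁻¹) := fun c hcc => (hc z hzL c hcc).symm
      refine ⟨⟨a, ha⟩, x * z * x⁻¹, ?_, ?_, ?_⟩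
      · rw [hπ]
        change a * (x * b * x⁻¹) = a * (x * a * x⁻¹) * (x * z * x⁻¹)
        rw [hz]; group
      · intro c hcc
        exact hc c hcc z hzL
      · intro c hcc
        have := hz1 c hcc
        calc (x * c * x⁻¹) * (x * z * x⁻¹) = x * (c * z) * x⁻¹ := by group
          _ = x * (z * c) * x⁻¹ := by rw [this]
          _ = (x * z * x⁻¹) * (x * c * x⁻¹) := by group
    apply le_antisymm
    · rw [commutator_le]
      intro g hg h hh
      obtain ⟨l, z, rfl, hz1, hz2⟩ := hCel g hg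
      obtain ⟨m, w, rfl, hw1, hw2⟩ := hCel h hh
      have cen : ∀ y ∈ L ⊔ L', y * z = z * y := by
        intro y hy
        obtain ⟨a, ha, b, hb, rfl⟩ := hmem y hy
        rw [mul_assoc, hz2 b hb, ← mul_assoc, hz1 a ha, mul_assoc]
      have cenw : ∀ y ∈ L ⊔ L', y * w = w * y := by
        intro y hy
        obtain ⟨a, ha, b, hb, rfl⟩ := hmem y hy
        rw [mul_assoc, hw2 b hb, ← mul_assoc, hw1 a ha, mul_assoc]
      have hπm : ∀ l : L, π l ∈ L ⊔ L' := fun l => by
        rw [hπ]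
        exact mul_mem ((le_sup_left : L ≤ L ⊔ L') l.2) ((le_sup_right : L' ≤ L ⊔ L') ⟨l, l.2, rfl⟩)
      have hzm : z ∈ L ⊔ L' := by
        have h1 := mul_mem (inv_mem (hπm l)) (mem_inf.mp hg).1
        rwa [inv_mul_cancel_left] at h1
      have e : ⁅π l * z, π m * w⁆ = ⁅π l, π m⁆ := by
        have c1 : z * π m = π m * z := (cen _ (hπm m)).symm
        have c2 : z * w = w * z := (cenw z hzm)
        have c3 : π l * w = w * π l := cenw _ (hπm l)
        have c4 : π m * w = w * π m := cenw _ (hπm m)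
        have c5 : z * (π m * w) = (π m * w) * z := by rw [← mul_assoc, c1, mul_assoc, c2, mul_assoc]
        rw [commutatorElement_def, commutatorElement_def]
        calc π l * z * (π m * w) * (π l * z)⁻¹ * (π m * w)⁻¹ = π l * (z * (π m * w)) * z⁻¹ * (π l)⁻¹ * (π m * w)⁻¹ := by group
          _ = π l * π m * w * (π l)⁻¹ * (π m * w)⁻¹ := by rw [c5]; group
          _ = π l * π m * (w * (π l)⁻¹) * (π m * w)⁻¹ := by group
          _ = π l * π m * ((π l)⁻¹ * w) * (π m * w)⁻¹ := by
              have : w * (π l)⁻¹ = (π l)⁻¹ * w := by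
                rw [eq_inv_mul_iff_mul_eq, ← mul_assoc, c3]; group
              rw [this]
          _ = π l * π m * (π l)⁻¹ * (π m)⁻¹ := by group
      rw [e, ← map_commutatorElement]
      exact ⟨_, rfl⟩
    · rintro _ ⟨l, rfl⟩
      have hl : (l : G) ∈ ⁅L, L⁆ := by rw [hperf]; exact l.2
      have h1 : π.range ≤ C := by
        rintro _ ⟨l, rfl⟩
        refine mem_inf.mpr ⟨?_, ?_⟩
        · rw [hπ]
          exact mul_mem ((le_sup_left : L ≤ L ⊔ L') l.2) ((le_sup_right : L' ≤ L ⊔ L') ⟨l, l.2, rfl⟩)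
        · rw [mem_centralizer_singleton_iff, hπ]
          have h1 := hc l l.2 l l.2
          calc (l : G) * (x * l * x⁻¹) * x = (x * l * x⁻¹) * l * x := by rw [h1]
            _ = x * l * (x⁻¹ * l * x) := by group
            _ = x * l * (x * l * x⁻¹) := by rw [hxi]
            _ = x * (l * (x * l * x⁻¹)) := by group
      have h2 : ⁅π.range, π.range⁆ ≤ ⁅C, C⁆ := commutator_mono h1 h1
      apply h2
      have h3 : (⁅(⊤ : Subgroup L), ⊤⁆ : Subgroup L) = ⊤ := by
        apply Subgroup.map_injective L.subtype_injective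
        rw [map_commutator, ← MonoidHom.range_eq_map, range_subtype, hperf]
      have h4 : ⁅π.range, π.range⁆ = π.range := by
        rw [MonoidHom.range_eq_map, ← map_commutator, h3]
      rw [h4]
      exact ⟨l, rfl⟩

/-! ### connectivity -/

theorem s1335 (k : ℕ) (H : Subgroup G) (P : Sylow p H) (hP : ¬ PRankLE p (k - 1) (P : Subgroup H))
    (hΓ : (∀ X : Subgroup G, X ≤ (P : Subgroup H).map H.subtype → ¬ PRankLE p (k - 1) X → normalizer (X : Set G) ≤ H)) :
    ∃ Q : Sylow p G, (Q : Subgroup G) = (P : Subgroup H).map H.subtype := by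
  set R := (P : Subgroup H).map H.subtype with hR
  have hRp : IsPGroup p R := P.2.map _
  obtain ⟨Q, hQ⟩ := hRp.exists_le_sylow
  refine ⟨Q, ?_⟩
  have hN : normalizer (R : Set G) ≤ H := by
    refine hΓ R le_rfl ?_
    intro h
    apply hP
    intro A hA hA2
    have e := A.equivMapOfInjective ((P : Subgroup H).equivMapOfInjective H.subtype H.subtype_injective).toMonoidHom (MulEquiv.injective _)
    have h1 := h (A.map ((P : Subgroup H).equivMapOfInjective H.subtype H.subtype_injective).toMonoidHom) ?_ ?_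
    · rwa [← Nat.card_congr e.toEquiv] at h1
    · rw [Nilp.isMulCommutative_iff_forall] at hA ⊢
      rintro _ ⟨x, hx, rfl⟩ _ ⟨y, hy, rfl⟩
      rw [← map_mul, hA x hx y hy, map_mul]
    · rintro _ ⟨x, hx, rfl⟩
      rw [← map_pow, hA2 x hx, map_one]
  by_contra hne
  have hlt : R < (Q : Subgroup G) := lt_of_le_of_ne hQ fun h => hne h.symm
  have h3 := PNilp.lt_inf_normalizer (Q.2.isNilpotent) hlt
  have h4 : normalizer (R : Set G) ⊓ Q = R := by
    symm
    refine (isSyl_of_sylow P).eq_of_le (inf_le_left.trans hN) (Q.2.to_le inf_le_right) ?_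
    exact le_inf le_normalizer hQ
  rw [inf_comm, h4] at h3
  exact lt_irrefl _ h3

/-! ### commuting graphs -/

/-- adjacency in the commuting graph -/
def KRel (p k : ℕ) (X : Type u) [Group X] : Subgroup X → Subgroup X → Prop := fun A B : Subgroup X => IsElementaryAbelian p A ∧ p ^ k ≤ Nat.card A ∧
  IsElementaryAbelian p B ∧ p ^ k ≤ Nat.card B ∧ ∀ a ∈ A, ∀ b ∈ B, a * b = b * a

theorem KRel.symm {k : ℕ} {A B : Subgroup G} (h : KRel p k G A B) : KRel p k G B A :=
  ⟨h.2.2.1, h.2.2.2.1, h.1, h.2.1, fun a ha b hb => (h.2.2.2.2 b hb a ha).symm⟩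

theorem rt_symm {k : ℕ} {A B : Subgroup G} (h : Relation.ReflTransGen (KRel p k G) A B) : Relation.ReflTransGen (KRel p k G) B A := by
  induction h with
  | refl => exact Relation.ReflTransGen.refl
  | tail _ h2 ih => exact Relation.ReflTransGen.head h2.symm ih

theorem orderOf_cj (g y : G) : orderOf (g * y * g⁻¹) = orderOf y :=
  orderOf_injective (MulAut.conj g).toMonoidHom (MulAut.conj g).injective y

theorem ea_conj {A : Subgroup G} (h : IsElementaryAbelian p A) (g : G) : IsElementaryAbelian p (A.map (MulAut.conj g).toMonoidHom) := by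
  refine ⟨?_, ?_⟩
  · have h1 := h.1
    rw [Nilp.isMulCommutative_iff_forall] at h1 ⊢
    rintro _ ⟨x, hx, rfl⟩ _ ⟨y, hy, rfl⟩
    rw [← map_mul, h1 x hx y hy, map_mul]
  · rintro _ ⟨x, hx, rfl⟩
    rw [← map_pow, h.2 x hx, map_one]

theorem KRel.conj {k : ℕ} {A B : Subgroup G} (h : KRel p k G A B) (g : G) :
    KRel p k G (A.map (MulAut.conj g).toMonoidHom) (B.map (MulAut.conj g).toMonoidHom) := by
  obtain ⟨h1, h2, h3, h4, h5⟩ := h
  refine ⟨ea_conj h1 g, by rwa [card_conj], ea_conj h3 g, by rwa [card_conj], ?_⟩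
  rintro _ ⟨x, hx, rfl⟩ _ ⟨y, hy, rfl⟩
  rw [← map_mul, h5 x hx y hy, map_mul]

theorem rt_conj {k : ℕ} {A B : Subgroup G} (h : Relation.ReflTransGen (KRel p k G) A B) (g : G) :
    Relation.ReflTransGen (KRel p k G) (A.map (MulAut.conj g).toMonoidHom) (B.map (MulAut.conj g).toMonoidHom) := by
  induction h with
  | refl => exact Relation.ReflTransGen.refl
  | tail _ h2 ih => exact Relation.ReflTransGen.tail ih (h2.conj g)

theorem ea_dvd {k : ℕ} (hk : 1 ≤ k) {A : Subgroup G} (h : IsElementaryAbelian p A) (hc : p ^ k ≤ Nat.card A) : p ∣ Nat.card A := by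
  obtain ⟨m, hm⟩ := (ea_pgroup h).exists_card_eq
  have h1 : m ≠ 0 := by
    rintro rfl
    rw [hm, pow_zero] at hc
    have h2 := Nat.one_lt_pow (by omega : k ≠ 0) (Fact.out : p.Prime).one_lt
    omega
  rw [hm]
  exact dvd_pow_self p h1

theorem ea_zpowers {x : G} (hx : orderOf x = p) : IsElementaryAbelian p (zpowers x) := by
  refine ⟨?_, ?_⟩
  · rw [Nilp.isMulCommutative_iff_forall]
    rintro _ ⟨a, rfl⟩ _ ⟨b, rfl⟩
    exact ((Commute.refl x).zpow_zpow a b)
  · rintro _ ⟨a, rfl⟩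
    change (x ^ a) ^ p = 1
    rw [← zpow_natCast, ← zpow_mul, mul_comm, zpow_mul, zpow_natCast]
    have : x ^ p = 1 := orderOf_dvd_iff_pow_eq_one.mp hx.dvd
    rw [this, one_zpow]

theorem conn_in_pgroup {A B S : Subgroup G} (hS : IsPGroup p S) (hA : IsElementaryAbelian p A) (hB : IsElementaryAbelian p B)
    (hAc : p ^ 1 ≤ Nat.card A) (hBc : p ^ 1 ≤ Nat.card B) (hAS : A ≤ S) (hBS : B ≤ S) : Relation.ReflTransGen (KRel p 1 G) A B := by
  have hp : p.Prime := Fact.out
  haveI : Nontrivial S := by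
    rw [nontrivial_iff_ne_bot]
    rintro rfl
    have h1 := card_le_of_le hAS
    rw [card_bot] at h1
    rw [pow_one] at hAc
    have := hp.two_le
    omega
  haveI := hS.center_nontrivial
  obtain ⟨z, hz⟩ : ∃ z : center S, orderOf z = p := by
    apply exists_prime_orderOf_dvd_card'
    obtain ⟨m, hm⟩ := (hS.to_subgroup (center S)).exists_card_eq
    have h1 : m ≠ 0 := by
      rintro rfl
      rw [pow_zero] at hm
      have h2 := Finite.one_lt_card (α := center S)
      omega
    rw [hm]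
    exact dvd_pow_self p h1
  have hz1 : orderOf ((z : S) : G) = p := by
    rw [orderOf_coe, orderOf_coe, hz]
  have hcz : ∀ a ∈ S, a * ((z : S) : G) = ((z : S) : G) * a := fun a ha =>
    congrArg Subtype.val (mem_center_iff.mp z.2 ⟨a, ha⟩)
  have hcz' : ∀ a ∈ S, ∀ y ∈ zpowers ((z : S) : G), a * y = y * a := by
    rintro a ha _ ⟨k, rfl⟩
    exact ((show Commute a ((z : S) : G) from hcz a ha).zpow_right k)
  have hZc : p ^ 1 ≤ Nat.card (zpowers ((z : S) : G)) := by rw [Nat.card_zpowers, hz1, pow_one]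
  refine Relation.ReflTransGen.tail (Relation.ReflTransGen.single (b := zpowers ((z : S) : G)) ?_) ?_
  · exact ⟨hA, hAc, ea_zpowers hz1, hZc, fun a ha y hy => hcz' a (hAS ha) y hy⟩
  · exact ⟨ea_zpowers hz1, hZc, hB, hBc, fun y hy b hb => (hcz' b (hBS hb) y hy).symm⟩

theorem s1336_iff : (∃ H : Subgroup G, H ≠ ⊤ ∧ p ∣ Nat.card H ∧ ∀ g : G, g ∉ H → ¬ p ∣ Nat.card (H ⊓ H.map (MulAut.conj g).toMonoidHom : Subgroup G)) ↔
    ¬ ∀ E E' : Subgroup G, IsElementaryAbelian p E → p ^ 1 ≤ Nat.card E → IsElementaryAbelian p E' → p ^ 1 ≤ Nat.card E' →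
      Relation.ReflTransGen (KRel p 1 G) E E' := by
  have hp : p.Prime := Fact.out
  constructor
  · rintro ⟨H, hH, hpH, hs⟩ hconn
    obtain ⟨x, hx⟩ := exists_prime_orderOf_dvd_card' (G := H) p hpH
    have hx' : orderOf (x : G) = p := by rw [orderOf_coe, hx]
    have hcE : p ^ 1 ≤ Nat.card (zpowers (x : G)) := by rw [Nat.card_zpowers, hx', pow_one]
    obtain ⟨g, hg⟩ : ∃ g : G, g ∉ H := by
      by_contra h
      push Not at h
      exact hH (eq_top_iff.mpr fun g _ => h g)
    have key : ∀ F : Subgroup G, Relation.ReflTransGen (KRel p 1 G) (zpowers (x : G)) F → F ≤ H := by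
      intro F hF
      induction hF with
      | refl => exact zpowers_le.mpr x.2
      | tail _ h2 ih =>
        intro f hf
        by_contra hfH
        obtain ⟨h3, h4, h5, h6, h7⟩ := h2
        refine hs f hfH ((ea_dvd le_rfl h3 h4).trans (card_dvd_of_le (le_inf ih ?_)))
        intro b hb
        refine ⟨b, ih hb, ?_⟩
        change f * b * f⁻¹ = b
        rw [← h7 b hb f hf, mul_inv_cancel_right]
    have h8 := key _ (hconn _ ((zpowers (x : G)).map (MulAut.conj g).toMonoidHom) (ea_zpowers hx') hcE (ea_conj (ea_zpowers hx') g) (by rwa [card_conj]))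
    have h9 : p ∣ Nat.card ((zpowers (x : G)).map (MulAut.conj g).toMonoidHom) := by rw [card_conj, Nat.card_zpowers, hx']
    exact hs g hg (h9.trans (card_dvd_of_le (le_inf h8 (Subgroup.map_mono (zpowers_le.mpr x.2)))))
  · intro h
    push Not at h
    obtain ⟨E, E', hE, hEc, hE', hEc', hnot⟩ := h
    let H : Subgroup G :=
      { carrier := {g | Relation.ReflTransGen (KRel p 1 G) E (E.map (MulAut.conj g).toMonoidHom)}
        one_mem' := by
          change Relation.ReflTransGen (KRel p 1 G) E (E.map (MulAut.conj 1).toMonoidHom)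
          rw [map_conj_one]
        mul_mem' := by
          intro a b ha hb
          have h1 := rt_conj hb a
          rw [map_conj_conj] at h1
          exact Relation.ReflTransGen.trans ha h1
        inv_mem' := by
          intro a ha
          have h1 := rt_conj ha a⁻¹
          rw [map_conj_conj, inv_mul_cancel, map_conj_one] at h1
          exact rt_symm h1 }
    have hmem : ∀ g, g ∈ H ↔ Relation.ReflTransGen (KRel p 1 G) E (E.map (MulAut.conj g).toMonoidHom) := fun g => Iff.rfl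
    obtain ⟨S, hS⟩ := (ea_pgroup hE).exists_le_sylow
    have hSH : (S : Subgroup G) ≤ H := by
      intro s hs
      rw [hmem]
      refine conn_in_pgroup S.2 hE (ea_conj hE s) hEc (by rwa [card_conj]) hS ?_
      rintro _ ⟨x, hx, rfl⟩
      exact mul_mem (mul_mem hs (hS hx)) (inv_mem hs)
    have star : ∀ x : G, x ∈ H → orderOf x = p → Relation.ReflTransGen (KRel p 1 G) E (zpowers x) := by
      intro x hx hxo
      have h1 : IsPGroup p (zpowers (⟨x, hx⟩ : H)) := by
        refine IsPGroup.of_card (n := 1) ?_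
        rw [Nat.card_zpowers, ← orderOf_coe, hxo, pow_one]
      obtain ⟨T, hT⟩ := h1.exists_le_sylow
      obtain ⟨h, hh⟩ := MulAction.exists_smul_eq H (S.subtype hSH) T
      have h2 : ((h : G)⁻¹ * x * h) ∈ (S : Subgroup G) := by
        have h3 : (⟨x, hx⟩ : H) ∈ (T : Subgroup H) := hT (mem_zpowers _)
        rw [← hh, Sylow.coe_subgroup_smul] at h3
        obtain ⟨y, hy, e⟩ := h3
        have e' : (h : G) * y * (h : G)⁻¹ = x := congrArg Subtype.val e
        have : (h : G)⁻¹ * x * h = y := by rw [← e']; group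
        rw [this]
        exact hy
      have h4 : orderOf ((h : G)⁻¹ * x * h) = p := by
        have := orderOf_cj (h : G)⁻¹ x
        rw [inv_inv] at this
        exact this.trans hxo
      have h5 : Relation.ReflTransGen (KRel p 1 G) E (zpowers ((h : G)⁻¹ * x * h)) :=
        conn_in_pgroup S.2 hE (ea_zpowers h4) hEc (by rw [Nat.card_zpowers, h4, pow_one]) hS (zpowers_le.mpr h2)
      have h6 := rt_conj h5 (h : G)
      rw [MonoidHom.map_zpowers] at h6
      have h7 : (MulAut.conj (h : G)).toMonoidHom ((h : G)⁻¹ * x * h) = x := by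
        change (h : G) * ((h : G)⁻¹ * x * h) * (h : G)⁻¹ = x
        group
      rw [h7] at h6
      exact Relation.ReflTransGen.trans ((hmem h).mp h.2) h6
    refine ⟨H, ?_, ?_, ?_⟩
    · intro htop
      obtain ⟨S', hS'⟩ := (ea_pgroup hE').exists_le_sylow
      obtain ⟨g, hg⟩ := MulAction.exists_smul_eq G S S'
      apply hnot
      have h1 : g ∈ H := by rw [htop]; exact mem_top _
      refine Relation.ReflTransGen.trans ((hmem g).mp h1) ?_
      refine conn_in_pgroup S'.2 (ea_conj hE g) hE' (by rwa [card_conj]) hEc' ?_ hS'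
      rw [← hg, Sylow.coe_subgroup_smul]
      rintro _ ⟨x, hx, rfl⟩
      exact ⟨x, hS hx, rfl⟩
    · exact (ea_dvd le_rfl hE hEc).trans (card_dvd_of_le (hS.trans hSH))
    · intro g hg hdvd
      obtain ⟨x, hx⟩ := exists_prime_orderOf_dvd_card' (G := (H ⊓ H.map (MulAut.conj g).toMonoidHom : Subgroup G)) p hdvd
      have hx' : orderOf (x : G) = p := by rw [orderOf_coe, hx]
      obtain ⟨h1, h2⟩ := mem_inf.mp x.2
      obtain ⟨y, hy, e⟩ := h2
      have hyo : orderOf y = p := by
        have h3 := orderOf_cj g y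
        rw [← hx', ← e]
        exact h3.symm
      have h4 := rt_conj (star y hy hyo) g
      rw [MonoidHom.map_zpowers, e] at h4
      exact hg ((hmem g).mpr (Relation.ReflTransGen.trans (star x h1 hx') (rt_symm h4)))

theorem ea_sup {A B : Subgroup G} (hA : IsElementaryAbelian p A) (hB : IsElementaryAbelian p B) (h : ∀ a ∈ A, ∀ b ∈ B, a * b = b * a) :
    IsElementaryAbelian p (A ⊔ B) := by
  have hn : B ≤ normalizer (A : Set G) := by
    intro b hb
    refine CFunA.mem_normalizer_of_le ?_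
    rintro _ ⟨a, ha, rfl⟩
    change b * a * b⁻¹ ∈ A
    rw [← h a ha b hb, mul_inv_cancel_right]
    exact ha
  have hm : ∀ x ∈ A ⊔ B, ∃ a ∈ A, ∃ b ∈ B, x = a * b := by
    intro x hx
    obtain ⟨a, ha, b, hb, e⟩ := (mem_sup_iff_left hn).mp hx
    exact ⟨a, ha, b, hb, e.symm⟩
  refine ⟨?_, ?_⟩
  · rw [Nilp.isMulCommutative_iff_forall]
    intro x hx y hy
    obtain ⟨a, ha, b, hb, rfl⟩ := hm x hx
    obtain ⟨c, hc, d, hd, rfl⟩ := hm y hy
    have h1 := ea_comm hA ha hc
    have h2 := ea_comm hB hb hd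
    have h3 := h c hc b hb
    have h4 := h a ha d hd
    calc a * b * (c * d) = a * (b * c) * d := by group
      _ = a * (c * b) * d := by rw [h3]
      _ = (a * c) * (b * d) := by group
      _ = (c * a) * (d * b) := by rw [h1, h2]
      _ = c * (a * d) * b := by group
      _ = c * (d * a) * b := by rw [h4]
      _ = c * d * (a * b) := by group
  · intro x hx
    obtain ⟨a, ha, b, hb, rfl⟩ := hm x hx
    rw [(show Commute a b from h a ha b hb).mul_pow, hA.2 a ha, hB.2 b hb, one_mul]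

theorem rank_sub {k : ℕ} (h : ¬ PRankLE p k G) : ∃ E : Subgroup G, IsElementaryAbelian p E ∧ p ^ (k + 1) ≤ Nat.card E := by
  unfold PRankLE at h
  push Not at h
  obtain ⟨A, hA, hA2, hc⟩ := h
  have hea : IsElementaryAbelian p A := ⟨hA, hA2⟩
  refine ⟨A, hea, ?_⟩
  obtain ⟨m, hm⟩ := (ea_pgroup hea).exists_card_eq
  rw [hm] at hc ⊢
  have h1 := (Nat.pow_lt_pow_iff_right (Fact.out : p.Prime).one_lt).mp hc
  exact Nat.pow_le_pow_right (Fact.out : p.Prime).pos h1

theorem exists_normal_ea (hP : IsPGroup p G) (hrk : ¬ PRankLE p 2 G) : ∃ U : Subgroup G, U.Normal ∧ IsElementaryAbelian p U ∧ Nat.card U = p ^ 2 := by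
  obtain ⟨E, hE, hEc⟩ := rank_sub hrk
  have hp : p.Prime := Fact.out
  by_cases h2 : p = 2
  · subst h2
    obtain ⟨E₀, hE₀, hc⟩ := H3SF.exists_sub (ea_pgroup hE) hEc
    obtain ⟨V, W, hVn, hVc, hV2, -⟩ := PGrpK.exists_klein hP ⟨E₀, by rw [hc]; norm_num, fun e he => hE.2 e (hE₀ he)⟩
    refine ⟨V, hVn, ⟨?_, hV2⟩, by rw [hVc]; norm_num⟩
    rw [Nilp.isMulCommutative_iff_forall]
    intro x hx y hy
    have hx2 := hV2 x hx
    have hy2 := hV2 y hy
    have hxy := hV2 _ (mul_mem hx hy)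
    rw [sq] at hx2 hy2 hxy
    have e1 : x⁻¹ = x := inv_eq_of_mul_eq_one_left hx2
    have e2 : y⁻¹ = y := inv_eq_of_mul_eq_one_left hy2
    have e3 : (x * y)⁻¹ = x * y := inv_eq_of_mul_eq_one_left hxy
    rw [mul_inv_rev, e1, e2] at e3
    exact e3.symm
  · obtain ⟨A, -, hAn, hAe, hAc⟩ := PGrpE.exists_normal_rank_two h2 hP ⊤ (by
      intro hcyc
      haveI : IsCyclic G := isCyclic_of_surjective (topEquiv : (⊤ : Subgroup G) ≃* G) (topEquiv).surjective
      haveI : IsCyclic E := inferInstance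
      obtain ⟨g, hg⟩ := IsCyclic.exists_generator (α := E)
      have h3 := orderOf_eq_card_of_forall_mem_zpowers hg
      have h4 : orderOf g ∣ p := orderOf_dvd_iff_pow_eq_one.mpr (Subtype.ext (hE.2 g g.2))
      rw [h3] at h4
      have h5 := (Nat.le_of_dvd hp.pos h4).trans' hEc
      have h6 : p ^ 1 < p ^ (2 + 1) := Nat.pow_lt_pow_right hp.one_lt (by norm_num)
      rw [pow_one] at h6
      omega)
    exact ⟨A, hAn, hAe, hAc⟩

theorem s1337 (hP : IsPGroup p G) (hrk : ¬ PRankLE p 2 G) : ∃ U : Subgroup G, U.Normal ∧ IsElementaryAbelian p U ∧ Nat.card U = p ^ 2 ∧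
    ∀ X : Subgroup G, IsElementaryAbelian p X → p ^ 2 ≤ Nat.card X →
      (Relation.ReflTransGen (KRel p 2 G) X U ↔ ¬ PRankLE p 2 (centralizer (X : Set G))) := by
  have hp : p.Prime := Fact.out
  obtain ⟨U, hUn, hUe, hUc⟩ := exists_normal_ea hP hrk
  have hidx : (centralizer (U : Set G)).index ≤ p := by
    have := PGrpB.index_centralizer_le hP 2 U hUn hUc
    simpa using this
  have hCE : ∀ E : Subgroup G, p ^ 3 ≤ Nat.card E → p ^ 2 ≤ Nat.card (E ⊓ centralizer (U : Set G) : Subgroup G) := by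
    intro E hE
    have h3 := relIndex_mul_card (H := E ⊓ centralizer (U : Set G)) (K := E) inf_le_left
    rw [inf_relIndex_left] at h3
    have h4 : (centralizer (U : Set G)).relIndex E ≤ p := (PGrpK.relIndex_le_index _ _).trans hidx
    have h5 : p * p ^ 2 ≤ p * Nat.card (E ⊓ centralizer (U : Set G) : Subgroup G) := by
      calc p * p ^ 2 = p ^ 3 := by ring
        _ ≤ Nat.card E := hE
        _ = (centralizer (U : Set G)).relIndex E * Nat.card (E ⊓ centralizer (U : Set G) : Subgroup G) := h3.symm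
        _ ≤ _ := Nat.mul_le_mul_right _ h4
    exact Nat.le_of_mul_le_mul_left h5 hp.pos
  refine ⟨U, hUn, hUe, hUc, fun X hX hXc => ⟨?_, ?_⟩⟩
  · intro hconn hle
    -- `X` is isolated
    have hiso : ∀ Y : Subgroup G, KRel p 2 G X Y → Y = X := by
      intro Y ⟨_, _, hY, hYc, hcom⟩
      have h1 := ea_sup hX hY hcom
      have h2 : X ⊔ Y ≤ centralizer (X : Set G) := by
        refine sup_le ?_ ?_
        · intro x hx
          rw [mem_centralizer_iff]
          exact fun y hy => ea_comm hX hy hx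
        · intro y hy
          rw [mem_centralizer_iff]
          exact fun x hx => hcom x hx y hy
      have h3 := hle ((X ⊔ Y).subgroupOf (centralizer (X : Set G))) ?_ ?_
      · rw [Nat.card_congr (subgroupOfEquivOfLe h2).toEquiv] at h3
        have h4 : X = X ⊔ Y := eq_of_le_of_card_ge le_sup_left (h3.trans hXc)
        have h5 : Y ≤ X := by rw [h4]; exact le_sup_right
        refine eq_of_le_of_card_ge h5 ?_
        rw [h4]
        exact h3.trans hYc
      · rw [Nilp.isMulCommutative_iff_forall]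
        intro x hx y hy
        exact Subtype.ext (ea_comm h1 (mem_subgroupOf.mp hx) (mem_subgroupOf.mp hy))
      · intro x hx
        exact Subtype.ext (h1.2 x (mem_subgroupOf.mp hx))
    have hXU : U = X := by
      have : ∀ Y, Relation.ReflTransGen (KRel p 2 G) X Y → Y = X := by
        intro Y hY
        induction hY with
        | refl => rfl
        | tail _ h2 ih => rw [ih] at h2; exact hiso _ h2
      exact this U hconn
    rw [← hXU] at hle
    obtain ⟨E, hE, hEc⟩ := rank_sub hrk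
    have h6 := hCE E hEc
    have hEC : IsElementaryAbelian p (E ⊓ centralizer (U : Set G) : Subgroup G) := by
      have := hE.1
      refine ⟨?_, fun x hx => hE.2 x (mem_inf.mp hx).1⟩
      rw [Nilp.isMulCommutative_iff_forall]
      exact fun x hx y hy => ea_comm hE (mem_inf.mp hx).1 (mem_inf.mp hy).1
    have h7 : U = E ⊓ centralizer (U : Set G) := by
      refine (hXU.trans (hiso _ ⟨hX, hXc, hEC, h6, ?_⟩).symm)
      intro a ha b hb
      rw [← hXU] at ha
      exact mem_centralizer_iff.mp (mem_inf.mp hb).2 a ha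
    have h8 : U ≤ E := by rw [h7]; exact inf_le_left
    have h9 : E ≤ centralizer (U : Set G) := by
      intro x hx
      rw [mem_centralizer_iff]
      exact fun u hu => ea_comm hE (h8 hu) hx
    have h10 : E ≤ U := by rw [h7]; exact le_inf le_rfl h9
    have h11 := card_le_of_le h10
    rw [hUc] at h11
    have h12 : p ^ 2 < p ^ (2 + 1) := Nat.pow_lt_pow_right hp.one_lt (by norm_num)
    omega
  · intro hnot
    obtain ⟨A', hA', hAc'⟩ := rank_sub hnot
    set E := A'.map (centralizer (X : Set G)).subtype with hE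
    have hEe : IsElementaryAbelian p E := by
      refine ⟨?_, ?_⟩
      · rw [Nilp.isMulCommutative_iff_forall]
        rintro _ ⟨x, hx, rfl⟩ _ ⟨y, hy, rfl⟩
        exact congrArg Subtype.val (ea_comm hA' hx hy)
      · rintro _ ⟨x, hx, rfl⟩
        rw [← map_pow, hA'.2 x hx, map_one]
    have hEc : p ^ 3 ≤ Nat.card E := by
      rw [hE, card_map_of_injective (centralizer (X : Set G)).subtype_injective]
      exact hAc'
    have h6 := hCE E hEc
    have hEC : IsElementaryAbelian p (E ⊓ centralizer (U : Set G) : Subgroup G) := by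
      refine ⟨?_, fun x hx => hEe.2 x (mem_inf.mp hx).1⟩
      rw [Nilp.isMulCommutative_iff_forall]
      exact fun x hx y hy => ea_comm hEe (mem_inf.mp hx).1 (mem_inf.mp hy).1
    have hE2 : p ^ 2 ≤ Nat.card E := (Nat.pow_le_pow_right hp.pos (by norm_num)).trans hEc
    refine Relation.ReflTransGen.tail (b := E ⊓ centralizer (U : Set G)) (Relation.ReflTransGen.tail (b := E) (Relation.ReflTransGen.single ?_) ?_) ?_
    · refine ⟨hX, hXc, hEe, hE2, ?_⟩
      rintro x hx _ ⟨y, hy, rfl⟩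
      exact mem_centralizer_iff.mp y.2 x hx
    · exact ⟨hEe, hE2, hEC, h6, fun x hx y hy => ea_comm hEe hx (mem_inf.mp hy).1⟩
    · exact ⟨hEC, h6, hUe, hUc.ge, fun x hx u hu => (mem_centralizer_iff.mp (mem_inf.mp hx).2 u hu).symm⟩

end Cfsg.Agent.Lib.H3Misc
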