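import Cfsg.Agent.Lib.Subnorm
import Mathlib

/-! three-cycles in S_8 (helper3) -/

set_option autoImplicit false

namespace Cfsg.Agent.Lib.H3S8

open Equiv.Perm Cfsg
open scoped Pointwise

/-- three points -/
theorem exists_three (c : Equiv.Perm (Fin 8)) : ∃ x y z : Fin 8, x ≠ y ∧ x ≠ z ∧ y ≠ z ∧
    ((c x = x ∧ c y = y ∧ c z = z) ∨ (c x = y ∧ c y = z ∧ c z = x) ∨
      (∀ u ∈ ({x, y, z} : Finset (Fin 8)), ∀ v ∈ ({x, y, z} : Finset (Fin 8)), c u ≠ v)) := by
  classical
  by_cases hF : 3 ≤ (Finset.univ.filter (fun x => c x = x)).card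
  · obtain ⟨S, hS, hSc⟩ := Finset.exists_subset_card_eq hF
    obtain ⟨x, y, z, hxy, hxz, hyz, rfl⟩ := Finset.card_eq_three.1 hSc
    refine ⟨x, y, z, hxy, hxz, hyz, Or.inl ⟨?_, ?_, ?_⟩⟩
    · exact (Finset.mem_filter.1 (hS (by simp))).2
    · exact (Finset.mem_filter.1 (hS (by simp))).2
    · exact (Finset.mem_filter.1 (hS (by simp))).2
  · have hM : 6 ≤ (Finset.univ.filter (fun x => c x ≠ x)).card := by
      have h1 := Finset.card_filter_add_card_filter_not (s := (Finset.univ : Finset (Fin 8))) (fun x => c x = x)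
      rw [Finset.card_univ, Fintype.card_fin] at h1
      have h2 : (Finset.univ.filter (fun x => ¬ c x = x)).card = (Finset.univ.filter (fun x => c x ≠ x)).card := rfl
      omega
    by_cases h3 : ∃ x, c x ≠ x ∧ c (c (c x)) = x
    · obtain ⟨x, hx, hx3⟩ := h3
      refine ⟨x, c x, c (c x), Ne.symm hx, ?_, ?_, Or.inr (Or.inl ⟨rfl, rfl, hx3⟩)⟩
      · intro h
        rw [← h] at hx3
        exact hx hx3
      · intro h
        exact hx (c.injective h).symm
    · push Not at h3
      have hne : (Finset.univ.filter (fun x => c x ≠ x)).Nonempty := Finset.card_pos.1 (by omega)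
      obtain ⟨x, hx⟩ := hne
      have hx1 : c x ≠ x := (Finset.mem_filter.1 hx).2
      -- the second point
      obtain ⟨y, hy1, hyx, hycx, hycx', E, hE, hEc⟩ : ∃ y, c y ≠ y ∧ y ≠ x ∧ y ≠ c x ∧ c y ≠ x ∧ ∃ E : Finset (Fin 8),
          (∀ z, z ∉ E → z ≠ x ∧ z ≠ y ∧ z ≠ c x ∧ z ≠ c y ∧ c z ≠ x ∧ c z ≠ y) ∧ E.card ≤ 5 := by
        by_cases h2 : c (c x) = x
        · obtain ⟨y, hy⟩ : ∃ y, y ∈ (Finset.univ.filter (fun x => c x ≠ x)) \ ({x, c x} : Finset (Fin 8)) := by
            have h4 : 0 < ((Finset.univ.filter (fun x => c x ≠ x)) \ ({x, c x} : Finset (Fin 8))).card := by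
              have h5 := Finset.le_card_sdiff ({x, c x} : Finset (Fin 8)) (Finset.univ.filter (fun x => c x ≠ x))
              have h6 : ({x, c x} : Finset (Fin 8)).card ≤ 2 := Finset.card_le_two
              omega
            exact Finset.card_pos.1 h4
          rw [Finset.mem_sdiff, Finset.mem_filter, Finset.mem_insert, Finset.mem_singleton] at hy
          push Not at hy
          obtain ⟨⟨-, hy1⟩, hy2, hy3⟩ := hy
          refine ⟨y, hy1, hy2, hy3, ?_, {x, c x, y, c y, c.symm y}, ?_, Finset.card_le_five⟩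
          · intro h
            apply hy3
            rw [← h2] at h
            exact c.injective h
          · intro z hz
            simp only [Finset.mem_insert, Finset.mem_singleton, not_or] at hz
            obtain ⟨z1, z2, z3, z4, z5⟩ := hz
            refine ⟨z1, z3, z2, z4, ?_, ?_⟩
            · intro h
              rw [← h2] at h
              exact z2 (c.injective h)
            · intro h
              exact z5 (by rw [← h, Equiv.symm_apply_apply])
        · refine ⟨c (c x), ?_, h2, ?_, h3 x hx1, {x, c x, c.symm x, c (c x), c (c (c x))}, ?_, Finset.card_le_five⟩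
          · intro h; exact hx1 (c.injective (c.injective h))
          · intro h; exact hx1 (c.injective h)
          · intro z hz
            simp only [Finset.mem_insert, Finset.mem_singleton, not_or] at hz
            obtain ⟨z1, z2, z3, z4, z5⟩ := hz
            refine ⟨z1, z4, z2, z5, ?_, ?_⟩
            · intro h
              exact z3 (by rw [← h, Equiv.symm_apply_apply])
            · intro h
              exact z2 (c.injective h)
      obtain ⟨z, hz⟩ : ∃ z, z ∈ (Finset.univ.filter (fun x => c x ≠ x)) \ E := by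
        have h4 : 0 < ((Finset.univ.filter (fun x => c x ≠ x)) \ E).card := by
          have h5 := Finset.le_card_sdiff E (Finset.univ.filter (fun x => c x ≠ x))
          omega
        exact Finset.card_pos.1 h4
      rw [Finset.mem_sdiff, Finset.mem_filter] at hz
      obtain ⟨⟨-, hz1⟩, hzE⟩ := hz
      obtain ⟨e1, e2, e3, e4, e5, e6⟩ := hE z hzE
      refine ⟨x, y, z, hyx.symm, e1.symm, e2.symm, Or.inr (Or.inr ?_)⟩
      intro u hu v hv
      simp only [Finset.mem_insert, Finset.mem_singleton] at hu hv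
      rcases hu with rfl | rfl | rfl <;> rcases hv with rfl | rfl | rfl
      · exact hx1
      · exact hycx.symm
      · exact e3.symm
      · exact hycx'
      · exact hy1
      · exact e4.symm
      · exact e5
      · exact e6
      · exact hz1

theorem main (σ : Equiv.Perm (Fin 8)) (hσ : σ.IsThreeCycle) (c : Equiv.Perm (Fin 8)) :
    ∃ g : Equiv.Perm (Fin 8), IsConj c g ∧ Commute σ (g * σ * g⁻¹) := by
  classical
  have hσ3 : ∀ w, σ (σ (σ w)) = w := by
    intro w
    have h1 : σ ^ 3 = 1 := by rw [← hσ.orderOf]; exact pow_orderOf_eq_one σ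
    have h2 := congrArg (fun f : Equiv.Perm (Fin 8) => f w) h1
    simpa [pow_succ] using h2
  obtain ⟨a, ha⟩ : ∃ a, σ a ≠ a := by
    have h1 : σ.support.card = 3 := hσ.card_support
    have h2 : σ.support.Nonempty := Finset.card_pos.1 (by omega)
    obtain ⟨a, ha⟩ := h2
    exact ⟨a, mem_support.1 ha⟩
  have h12 : a ≠ σ a := Ne.symm ha
  have h13 : a ≠ σ (σ a) := by
    intro h
    have := hσ3 a
    rw [← h] at this
    exact ha this
  have h23 : σ a ≠ σ (σ a) := fun h => ha (σ.injective h).symm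
  have hsupp : ∀ w, σ w ≠ w → w = a ∨ w = σ a ∨ w = σ (σ a) := by
    have h1 : ({a, σ a, σ (σ a)} : Finset (Fin 8)) = σ.support := by
      apply Finset.eq_of_subset_of_card_le
      · intro w hw
        simp only [Finset.mem_insert, Finset.mem_singleton] at hw
        rw [mem_support]
        rcases hw with rfl | rfl | rfl
        · exact ha
        · exact h23.symm
        · rw [hσ3]; exact h13
      · rw [hσ.card_support]
        exact (Finset.card_eq_three.2 ⟨_, _, _, h12, h13, h23, rfl⟩).ge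
    intro w hw
    have h2 : w ∈ σ.support := mem_support.2 hw
    rw [← h1] at h2
    simpa using h2
  obtain ⟨x, y, z, hxy, hxz, hyz, hcase⟩ := exists_three c
  -- the conjugating element
  obtain ⟨τ, h1, h2, h3⟩ : ∃ τ : Equiv.Perm (Fin 8), τ x = a ∧ τ y = σ a ∧ τ z = σ (σ a) := by
    have htr : MulAction.IsMultiplyPretransitive (Equiv.Perm (Fin 8)) (Fin 8) 3 := Equiv.Perm.isMultiplyPretransitive _ _
    let e1 : Fin 3 ↪ Fin 8 := ⟨![x, y, z], by
      intro i j hij
      fin_cases i <;> fin_cases j <;> simp_all⟩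
    let e2 : Fin 3 ↪ Fin 8 := ⟨![a, σ a, σ (σ a)], by
      intro i j hij
      fin_cases i <;> fin_cases j <;> first | rfl | (exfalso; simp at hij; first | exact h12 hij | exact h13 hij | exact h23 hij | exact h12 hij.symm | exact h13 hij.symm | exact h23 hij.symm)⟩
    obtain ⟨τ, hτ⟩ := htr.exists_smul_eq e1 e2
    refine ⟨τ, ?_, ?_, ?_⟩
    · exact DFunLike.congr_fun hτ 0
    · exact DFunLike.congr_fun hτ 1
    · exact DFunLike.congr_fun hτ 2
  refine ⟨τ * c * τ⁻¹, isConj_iff.2 ⟨τ, rfl⟩, ?_⟩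
  set g := τ * c * τ⁻¹ with hg
  have hgτ : ∀ w, g (τ w) = τ (c w) := by
    intro w
    rw [hg]
    simp
  have hcomm_of : Commute σ g → Commute σ (g * σ * g⁻¹) := by
    intro h
    have : g * σ * g⁻¹ = σ := by rw [← h.eq, mul_inv_cancel_right]
    rw [this]
  rcases hcase with ⟨cx, cy, cz⟩ | ⟨cx, cy, cz⟩ | hdis
  · apply hcomm_of
    apply Equiv.Perm.Disjoint.commute
    intro w
    by_cases hw : σ w = w
    · left; exact hw
    · right
      rcases hsupp w hw with h | h | h
      · rw [h, ← h1, hgτ, cx]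
      · rw [h, ← h2, hgτ, cy]
      · rw [h, ← h3, hgτ, cz]
  · apply hcomm_of
    have hd : Commute σ (g * σ⁻¹) := by
      apply Equiv.Perm.Disjoint.commute
      intro w
      by_cases hw : σ w = w
      · left; exact hw
      · right
        rw [Equiv.Perm.mul_apply]
        rcases hsupp w hw with h | h | h
        · have e : σ⁻¹ w = σ (σ a) := by rw [Equiv.Perm.inv_eq_iff_eq, hσ3, h]
          rw [e, ← h3, hgτ, cz, h1, h]
        · have e : σ⁻¹ w = a := by rw [Equiv.Perm.inv_eq_iff_eq, h]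
          rw [e, ← h1, hgτ, cx, h2, h]
        · have e : σ⁻¹ w = σ a := by rw [Equiv.Perm.inv_eq_iff_eq, h]
          rw [e, ← h2, hgτ, cy, h3, h]
    have h4 : g = (g * σ⁻¹) * σ := by group
    rw [h4]
    exact hd.mul_right (Commute.refl σ)
  · apply Equiv.Perm.Disjoint.commute
    intro w
    by_cases hw : σ w = w
    · left; exact hw
    · right
      rw [Equiv.Perm.mul_apply, Equiv.Perm.mul_apply]
      have hgi : g (g⁻¹ w) = w := g.apply_symm_apply w
      have hne : σ (g⁻¹ w) = g⁻¹ w := by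
        by_contra hcon
        -- both w and g⁻¹ w lie in the support
        obtain ⟨u, hu, hu2⟩ : ∃ u ∈ ({x, y, z} : Finset (Fin 8)), τ u = g⁻¹ w := by
          rcases hsupp _ hcon with h | h | h
          · exact ⟨x, by simp, by rw [h1, h]⟩
          · exact ⟨y, by simp, by rw [h2, h]⟩
          · exact ⟨z, by simp, by rw [h3, h]⟩
        obtain ⟨v, hv, hv2⟩ : ∃ v ∈ ({x, y, z} : Finset (Fin 8)), τ v = w := by
          rcases hsupp _ hw with h | h | h
          · exact ⟨x, by simp, by rw [h1, h]⟩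
          · exact ⟨y, by simp, by rw [h2, h]⟩
          · exact ⟨z, by simp, by rw [h3, h]⟩
        apply hdis u hu v hv
        apply τ.injective
        rw [← hgτ, hu2, hv2, hgi]
      rw [hne, hgi]

theorem subn (σ g : Equiv.Perm (Fin 8)) (h : Commute σ (g * σ * g⁻¹)) :
    ((Subgroup.zpowers σ).subgroupOf (Subgroup.zpowers σ ⊔ MulAut.conj g • Subgroup.zpowers σ)).IsSubnormal := by
  have hle : Subgroup.zpowers σ ⊔ MulAut.conj g • Subgroup.zpowers σ ≤ Subgroup.centralizer ({σ} : Set (Equiv.Perm (Fin 8))) := by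
    apply sup_le
    · rw [Subgroup.zpowers_le, Subgroup.mem_centralizer_iff]
      rintro w rfl
      rfl
    · intro w hw
      rw [SchurZas.mem_conj_smul_iff] at hw
      obtain ⟨k, hk⟩ := Subgroup.mem_zpowers_iff.1 hw
      have h1 : w = (g * σ * g⁻¹) ^ k := by
        rw [conj_zpow, hk]; group
      rw [h1, Subgroup.mem_centralizer_iff]
      rintro v rfl
      exact (h.zpow_right k).eq
  have hn : ((Subgroup.zpowers σ).subgroupOf (Subgroup.zpowers σ ⊔ MulAut.conj g • Subgroup.zpowers σ)).Normal := by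
    constructor
    intro n hn u
    rw [Subgroup.mem_subgroupOf] at hn ⊢
    obtain ⟨k, hk⟩ := Subgroup.mem_zpowers_iff.1 hn
    have h1 : σ * (u : Equiv.Perm (Fin 8)) = u * σ := Subgroup.mem_centralizer_iff.1 (hle u.2) σ rfl
    have h2 : Commute σ (u : Equiv.Perm (Fin 8)) := h1
    have h3 : ((u * n * u⁻¹ : _) : Equiv.Perm (Fin 8)) = n := by
      change (u : Equiv.Perm (Fin 8)) * n * (u : Equiv.Perm (Fin 8))⁻¹ = n
      rw [← hk, ← (h2.zpow_left k).eq, mul_inv_cancel_right]
    rw [h3]; exact hn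
  exact hn.isSubnormal

theorem core : Cfsg.pCore 3 (Equiv.Perm (Fin 8)) = ⊥ := by
  haveI : Fact (Nat.Prime 3) := ⟨Nat.prime_three⟩
  have hp := Cfsg.Agent.Lib.Cores.pCore_isPGroup (G := Equiv.Perm (Fin 8)) 3
  have hn : (pCore 3 (Equiv.Perm (Fin 8))).Normal := Cfsg.Agent.Lib.Cores.pCore_normal 3
  have h1 := hp.card_modEq_card_fixedPoints (Fin 8)
  have h2 : (MulAction.fixedPoints (pCore 3 (Equiv.Perm (Fin 8))) (Fin 8)).Nonempty := by
    by_contra hne
    rw [Set.not_nonempty_iff_eq_empty] at hne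
    rw [hne] at h1
    simp [Nat.ModEq] at h1
  obtain ⟨x, hx⟩ := h2
  rw [eq_bot_iff]
  intro n hN
  rw [Subgroup.mem_bot]
  ext1 y
  obtain ⟨g, hg⟩ : ∃ g : Equiv.Perm (Fin 8), g x = y := ⟨Equiv.swap x y, Equiv.swap_apply_left x y⟩
  have h3 : g⁻¹ * n * g ∈ pCore 3 (Equiv.Perm (Fin 8)) := by
    have := hn.conj_mem n hN g⁻¹
    rwa [inv_inv] at this
  have h4 : (g⁻¹ * n * g) x = x := hx ⟨_, h3⟩
  rw [Equiv.Perm.mul_apply, Equiv.Perm.mul_apply, hg, Equiv.Perm.inv_eq_iff_eq, hg] at h4
  exact h4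

end Cfsg.Agent.Lib.H3S8
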