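import Cfsg.Agent.Lib.H3Fam

/-!
The `k`-balanced signalizer functor (helper3).
-/

set_option autoImplicit false
set_option maxHeartbeats 400000
set_option linter.unusedVariables false
set_option linter.unusedSectionVars false

namespace Cfsg.Agent.Lib.H3SF

open Subgroup Cfsg Cfsg.Agent.Lib.Basic Cfsg.Agent.Lib.Cores Cfsg.Agent.Lib.Components
  Cfsg.Agent.Lib.H3LocC Cfsg.Agent.Lib.H3LocD Cfsg.Agent.Lib.H3LBal Cfsg.Agent.Lib.H3LocG Cfsg.Agent.Lib.H3Hyp
  Cfsg.Agent.Lib.H3Fam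
open scoped commutatorElement

universe u
variable {G : Type u} [Group G] [Finite G] {p : ℕ} [Fact p.Prime]

theorem delta_le {F : Subgroup G} {f : G} (hf : f ∈ F) (h1 : f ≠ 1) : signalizerDelta p F ≤ centralizerPPrimeCore p f :=
  iInf_le _ (⟨f, hf, h1⟩ : {a : G // a ∈ F ∧ a ≠ 1})

theorem mem_delta {F : Subgroup G} {x : G} (h : ∀ f ∈ F, f ≠ 1 → x ∈ centralizerPPrimeCore p f) : x ∈ signalizerDelta p F := by
  unfold signalizerDelta
  rw [mem_iInf]
  exact fun f => h f.1 f.2.1 f.2.2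

theorem delta_anti {F F' : Subgroup G} (h : F ≤ F') : signalizerDelta p F' ≤ signalizerDelta p F :=
  fun x hx => mem_delta fun f hf h1 => delta_le (h hf) h1 hx

theorem delta_cent {F : Subgroup G} : signalizerDelta p F ≤ centralizer (F : Set G) := by
  intro x hx
  rw [mem_centralizer_iff]
  intro f hf
  by_cases h1 : f = 1
  · rw [h1]; group
  · exact (mem_centralizer_singleton_iff.mp (Op_le _ (delta_le hf h1 hx))).symm

theorem delta_norm {F : Subgroup G} : centralizer (F : Set G) ≤ normalizer (signalizerDelta p F : Set G) := by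
  intro x hx
  refine CFunA.mem_normalizer_of_le ?_
  rintro _ ⟨y, hy, rfl⟩
  refine mem_delta fun f hf h1 => ?_
  have h2 : x ∈ centralizer ({f} : Set G) := by
    rw [mem_centralizer_singleton_iff]; exact (mem_centralizer_iff.mp hx f hf).symm
  exact (mem_normalizer_iff.mp (Op_norm (le_normalizer h2)) y).mp (delta_le hf h1 hy)

theorem exists_sub {F : Subgroup G} (hF : IsPGroup p F) {k : ℕ} (h : p ^ k ≤ Nat.card F) : ∃ F₀ : Subgroup G, F₀ ≤ F ∧ Nat.card F₀ = p ^ k := by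
  obtain ⟨m, hm⟩ := hF.exists_card_eq
  have h1 : k ≤ m := by
    rw [hm] at h
    exact (Nat.pow_le_pow_iff_right (Fact.out : p.Prime).one_lt).mp h
  obtain ⟨K, hK⟩ := Sylow.exists_subgroup_card_pow_prime (G := F) p (n := k) (by rw [hm]; exact pow_dvd_pow p h1)
  exact ⟨K.map F.subtype, map_subtype_le _, by rw [card_map_of_injective F.subtype_injective, hK]⟩

section kb

variable {k : ℕ} (hk : 1 ≤ k) (hbal : IsKBalanced p k G) {A : Subgroup G} (hA : IsElementaryAbelian p A)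

include hbal hA

theorem kbal {F : Subgroup G} (hF : F ≤ A) (hFc : p ^ k ≤ Nat.card F) {a : G} (ha : a ∈ A) (ha1 : a ≠ 1) :
    signalizerDelta p F ⊓ centralizer {a} ≤ centralizerPPrimeCore p a := by
  obtain ⟨F₀, hF₀, hc⟩ := exists_sub ((ea_pgroup hA).to_le hF) hFc
  exact (inf_le_inf_right _ (delta_anti hF₀)).trans (hbal F₀ (ea_le hA (hF₀.trans hF)) hc a (ea_order hA ha ha1)
    fun b hb => ea_comm hA (hF (hF₀ hb)) ha)

theorem kfam {a : G} (ha : a ∈ A) (ha1 : a ≠ 1) :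
    Fam p k A (centralizerPPrimeCore p a) (fun F => signalizerDelta p F ⊓ centralizer {a}) := by
  have haA : A ≤ centralizer ({a} : Set G) := fun b hb => by
    rw [mem_centralizer_singleton_iff]; exact ea_comm hA hb ha
  refine ⟨?_, ?_, ?_, ?_⟩
  · intro F hF hFc
    exact le_inf (kbal hbal hA hF hFc ha ha1) (inf_le_left.trans delta_cent)
  · intro F hF hFc x hx
    obtain ⟨hx1, hx2⟩ := mem_inf.mp hx
    have h1 := delta_norm (p := p) hx2
    refine CFunA.mem_normalizer_of_le ?_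
    rintro _ ⟨y, hy, rfl⟩
    obtain ⟨hy1, hy2⟩ := mem_inf.mp hy
    have hx3 : x ∈ centralizer ({a} : Set G) := Op_le _ hx1
    exact mem_inf.mpr ⟨(mem_normalizer_iff.mp h1 y).mp hy1, mul_mem (mul_mem hx3 hy2) (inv_mem hx3)⟩
  · intro F hF hFc x hx
    have hx2 : x ∈ centralizer (F : Set G) := mem_centralizer_iff.mpr fun f hf => ea_comm hA (hF hf) hx
    have h1 := delta_norm (p := p) hx2
    refine CFunA.mem_normalizer_of_le ?_
    rintro _ ⟨y, hy, rfl⟩
    obtain ⟨hy1, hy2⟩ := mem_inf.mp hy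
    exact mem_inf.mpr ⟨(mem_normalizer_iff.mp h1 y).mp hy1, mul_mem (mul_mem (haA hx) hy2) (inv_mem (haA hx))⟩
  · intro F F' h1 h2 h3
    apply le_antisymm
    · intro x hx
      obtain ⟨hx12, hx3⟩ := mem_inf.mp hx
      obtain ⟨hx1, hx2⟩ := mem_inf.mp hx12
      refine mem_inf.mpr ⟨mem_delta fun f hf hf1 => ?_, hx2⟩
      refine kbal hbal hA (h1.trans h2) h3 (h2 hf) hf1 (mem_inf.mpr ⟨hx1, ?_⟩)
      rw [mem_centralizer_singleton_iff]
      exact (mem_centralizer_iff.mp hx3 f hf).symm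
    · intro x hx
      obtain ⟨hx1, hx2⟩ := mem_inf.mp hx
      exact mem_inf.mpr ⟨mem_inf.mpr ⟨delta_anti h1 hx1, hx2⟩, delta_cent hx1⟩

end kb

theorem s1299 (k : ℕ) (hk : 1 ≤ k) (hbal : IsKBalanced p k G) (A : Subgroup G) (hA : IsElementaryAbelian p A)
    (hAk : p ^ (k + 2) ≤ Nat.card A) (hsolv : ∀ a ∈ A, a ≠ 1 → Group.IsSolvable (centralizerPPrimeCore p a)) :
    IsSignalizerFunctor p A (fun a => ⨆ D : {D : Subgroup G // D ≤ A ∧ Nat.card D = p ^ k},
      signalizerDelta p (D : Subgroup G) ⊓ centralizer {a}) := by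
  have hp : p.Prime := Fact.out
  have hTh : ∀ a : G, (⨆ D : {D : Subgroup G // D ≤ A ∧ Nat.card D = p ^ k}, signalizerDelta p (D : Subgroup G) ⊓ centralizer {a}) =
      Th p k A (fun F => signalizerDelta p F ⊓ centralizer {a}) := by
    intro a
    apply le_antisymm
    · exact iSup_le fun D => le_Th (W := fun F => signalizerDelta p F ⊓ centralizer {a}) D.2.1 D.2.2.ge
    · refine Th_le_of fun F hF hFc => ?_
      obtain ⟨F₀, hF₀, hc⟩ := exists_sub ((ea_pgroup hA).to_le hF) hFc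
      exact (inf_le_inf_right _ (delta_anti hF₀)).trans
        (le_iSup (fun D : {D : Subgroup G // D ≤ A ∧ Nat.card D = p ^ k} => signalizerDelta p (D : Subgroup G) ⊓ centralizer {a})
          ⟨F₀, hF₀.trans hF, hc⟩)
  have hpc : ∀ a : G, (Nat.card (centralizerPPrimeCore p a)).Coprime p := fun a => Op_card _
  have hAn : ∀ a ∈ A, A ≤ normalizer (centralizerPPrimeCore p a : Set G) := fun a ha b hb =>
    Op_norm (le_normalizer (by rw [mem_centralizer_singleton_iff]; exact ea_comm hA hb ha))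
  refine ⟨fun a ha ha1 => ?_, fun a ha ha1 => ?_, fun a ha ha1 b hb x hx => ?_, fun a ha ha1 b hb hb1 => ?_⟩
  · exact iSup_le fun D => inf_le_right
  · change ¬ p ∣ Nat.card (⨆ D : {D : Subgroup G // D ≤ A ∧ Nat.card D = p ^ k}, signalizerDelta p (D : Subgroup G) ⊓ centralizer {a} : Subgroup G)
    rw [hTh a]
    have h1 := card_dvd_of_le (kfam hbal hA ha ha1).Th_le
    intro h2
    exact (hp.coprime_iff_not_dvd.mp (hpc a).symm) (h2.trans h1)
  · change b * x * b⁻¹ ∈ (⨆ D : {D : Subgroup G // D ≤ A ∧ Nat.card D = p ^ k}, signalizerDelta p (D : Subgroup G) ⊓ centralizer {a} : Subgroup G)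
    have hx' : x ∈ (⨆ D : {D : Subgroup G // D ≤ A ∧ Nat.card D = p ^ k}, signalizerDelta p (D : Subgroup G) ⊓ centralizer {a} : Subgroup G) := hx
    rw [hTh a] at hx' ⊢
    exact (mem_normalizer_iff.mp ((kfam hbal hA ha ha1).Th_inv hb) x).mp hx'
  · change (⨆ D : {D : Subgroup G // D ≤ A ∧ Nat.card D = p ^ k}, signalizerDelta p (D : Subgroup G) ⊓ centralizer {a} : Subgroup G) ⊓ centralizer {b} ≤
      (⨆ D : {D : Subgroup G // D ≤ A ∧ Nat.card D = p ^ k}, signalizerDelta p (D : Subgroup G) ⊓ centralizer {b} : Subgroup G)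
    rw [hTh a, hTh b]
    have hfa := kfam hbal hA ha ha1
    have hfb := kfam hbal hA hb hb1
    obtain ⟨h1, -⟩ := lemmaK hA hAk _ (centralizerPPrimeCore p a) _ le_rfl (hsolv a ha ha1) (hpc a) (hAn a ha) hfa
    refine hyp_gen'' hA (Nat.Coprime.coprime_dvd_left (card_dvd_of_le (inf_le_left.trans hfa.Th_le)) (hpc a)) ?_ fun D hD hDc => ?_
    · intro c hc
      have h2 := hfa.Th_inv hc
      have h3 : c ∈ centralizer ({b} : Set G) := by rw [mem_centralizer_singleton_iff]; exact ea_comm hA hc hb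
      refine CFunA.mem_normalizer_of_le ?_
      rintro _ ⟨y, hy, rfl⟩
      exact mem_inf.mpr ⟨(mem_normalizer_iff.mp h2 y).mp (mem_inf.mp hy).1, mul_mem (mul_mem h3 (mem_inf.mp hy).2) (inv_mem h3)⟩
    · intro x hx
      obtain ⟨hx12, hx3⟩ := mem_inf.mp hx
      obtain ⟨hx1, hx2⟩ := mem_inf.mp hx12
      have hDbig := hyp_big hAk hDc
      have h2 := h1 D hD hDbig (mem_inf.mpr ⟨hx1, hx3⟩)
      exact le_Th (W := fun F => signalizerDelta p F ⊓ centralizer {b}) hD hDbig (mem_inf.mpr ⟨(mem_inf.mp h2).1, hx2⟩)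

end Cfsg.Agent.Lib.H3SF
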