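import Cfsg.Agent.Lib.H3Hyp

/-!
Solvable signalizer functors: families and transitivity (helper3).
-/

set_option autoImplicit false
set_option maxHeartbeats 400000
set_option linter.unusedVariables false
set_option linter.unusedSectionVars false

namespace Cfsg.Agent.Lib.H3Sig

open Subgroup Cfsg Cfsg.Agent.Lib.Basic Cfsg.Agent.Lib.Cores Cfsg.Agent.Lib.Components
  Cfsg.Agent.Lib.H3LocC Cfsg.Agent.Lib.H3LocD Cfsg.Agent.Lib.H3LBal Cfsg.Agent.Lib.H3LocG Cfsg.Agent.Lib.H3Hyp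
  Cfsg.Agent.Lib.SchurZas
open scoped commutatorElement

universe u
variable {G : Type u} [Group G] [Finite G] {p : ℕ} [Fact p.Prime] {A : Subgroup G}

omit [Finite G] in
theorem norm_of_forall {X : Subgroup G} (h : ∀ b ∈ A, ∀ x ∈ X, b * x * b⁻¹ ∈ X) : A ≤ normalizer (X : Set G) := by
  intro b hb
  rw [mem_normalizer_iff]
  intro x
  refine ⟨h b hb x, fun hx => ?_⟩
  have := h b⁻¹ (inv_mem hb) _ hx
  have e : b⁻¹ * (b * x * b⁻¹) * b⁻¹⁻¹ = x := by group
  rwa [e] at this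

omit [Finite G] [Fact p.Prime] in
theorem forall_of_norm {X : Subgroup G} (h : A ≤ normalizer (X : Set G)) : ∀ b ∈ A, ∀ x ∈ X, b * x * b⁻¹ ∈ X :=
  fun b hb x hx => (mem_normalizer_iff.mp (h hb) x).mp hx

theorem cop_of {X : Subgroup G} (h : ¬ p ∣ Nat.card X) : (Nat.card X).Coprime p :=
  (((Fact.out : p.Prime).coprime_iff_not_dvd).mpr h).symm

theorem not_dvd_of {X : Subgroup G} (h : (Nat.card X).Coprime p) : ¬ p ∣ Nat.card X :=
  ((Fact.out : p.Prime).coprime_iff_not_dvd).mp h.symm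

variable {θ : G → Subgroup G}

/-- membership in the family -/
theorem mem_fam {U : Subgroup G} : U ∈ signalizerFamily p A θ ↔
    Group.IsSolvable U ∧ ¬ p ∣ Nat.card U ∧ (∀ b ∈ A, ∀ u ∈ U, b * u * b⁻¹ ∈ U) ∧ ∀ a ∈ A, a ≠ 1 → U ⊓ centralizer {a} ≤ θ a := Iff.rfl

theorem fam_le {U V : Subgroup G} (hU : U ∈ signalizerFamily p A θ) (hV : V ≤ U) (hn : A ≤ normalizer (V : Set G)) :
    V ∈ signalizerFamily p A θ := by
  obtain ⟨h1, h2, h3, h4⟩ := hU
  refine ⟨isSolvable_of_le hV h1, fun h => h2 (h.trans (card_dvd_of_le hV)), forall_of_norm hn, fun a ha h => (inf_le_inf_right _ hV).trans (h4 a ha h)⟩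

theorem fam_theta (hθ : IsSolvableSignalizerFunctor p A θ) {a : G} (ha : a ∈ A) (h1 : a ≠ 1) : θ a ∈ signalizerFamily p A θ :=
  ⟨hθ.2 a ha h1, hθ.1.2.1 a ha h1, hθ.1.2.2.1 a ha h1, fun b hb hb1 => hθ.1.2.2.2 a ha h1 b hb hb1⟩

theorem ea_sub_pgroup (hA : IsElementaryAbelian p A) {B : Subgroup G} (hB : B ≤ A) : IsPGroup p B := (ea_pgroup hA).to_le hB

theorem solv_A (hA : IsElementaryAbelian p A) : Group.IsSolvable A := CoprimeB.isSolvable_of_isPGroup (ea_pgroup hA)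

theorem cop_A (hA : IsElementaryAbelian p A) {X : Subgroup G} (hX : ¬ p ∣ Nat.card X) : (Nat.card A).Coprime (Nat.card X) :=
  (CoprimeB.card_coprime_of_isPGroup (cop_of hX) (ea_pgroup hA)).symm

theorem s1280 (hA : IsElementaryAbelian p A) {X Y : Subgroup G} (hX : X ∈ signalizerFamily p A θ) (hY : Y ∈ signalizerFamily p A θ)
    (hn : Y ≤ normalizer (X : Set G)) : X ⊔ Y ∈ signalizerFamily p A θ := by
  have hp : p.Prime := Fact.out
  obtain ⟨h1, h2, h3, h4⟩ := hX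
  obtain ⟨k1, k2, k3, k4⟩ := hY
  have hXn := norm_of_forall h3
  have hYn := norm_of_forall k3
  have hcop : (Nat.card (X ⊔ Y : Subgroup G)).Coprime p := card_sup_coprime hn (cop_of h2) (cop_of k2)
  refine ⟨?_, not_dvd_of hcop, ?_, ?_⟩
  · -- solvable
    haveI : (X.subgroupOf (X ⊔ Y)).Normal := normal_subgroupOf_of_le_normalizer (sup_le le_normalizer hn)
    haveI s1 : Group.IsSolvable X := h1
    haveI s2 : Group.IsSolvable Y := k1
    haveI s3 : Group.IsSolvable (X.subgroupOf (X ⊔ Y)) := isSolvable_subgroupOf' _ _ h1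
    have hsurj : Function.Surjective ((QuotientGroup.mk' (X.subgroupOf (X ⊔ Y))).comp (inclusion (le_sup_right : Y ≤ X ⊔ Y))) := by
      intro q
      obtain ⟨g, rfl⟩ := QuotientGroup.mk'_surjective _ q
      obtain ⟨x, hx, y, hy, hxy⟩ := (mem_sup_iff_left hn).mp g.2
      refine ⟨⟨y, hy⟩, ?_⟩
      apply QuotientGroup.eq.mpr
      change (y⁻¹ : G) * g ∈ X
      have : y⁻¹ * (g : G) = y⁻¹ * x * y⁻¹⁻¹ := by rw [← hxy]; group
      rw [this]
      exact (mem_normalizer_iff.mp (inv_mem (hn hy)) x).mp hx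
    haveI s4 : Group.IsSolvable ((X ⊔ Y : Subgroup G) ⧸ X.subgroupOf (X ⊔ Y)) := solvable_of_surjective hsurj
    exact solvable_of_ker_le_range (X.subgroupOf (X ⊔ Y)).subtype (QuotientGroup.mk' (X.subgroupOf (X ⊔ Y)))
      (by rw [QuotientGroup.ker_mk', range_subtype])
  · apply forall_of_norm
    intro b hb
    refine CFunA.mem_normalizer_of_le ?_
    rw [Subgroup.map_sup, CFunA.mem_normalizer_iff_cj.mp (hXn hb), CFunA.mem_normalizer_iff_cj.mp (hYn hb)]
  · intro a ha ha1 z hz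
    obtain ⟨hz1, hz2⟩ := mem_inf.mp hz
    obtain ⟨x, hx, y, hy, hxy⟩ := (mem_sup_iff_left hn).mp hz1
    have hza : zpowers a ≤ A := zpowers_le.mpr ha
    have hcc : centralizer ((zpowers a : Subgroup G) : Set G) = centralizer {a} := by
      rw [zpowers_eq_closure, centralizer_closure]
    have hk : x * y ∈ centralizer ((zpowers a : Subgroup G) : Set G) := by rw [hcc, hxy]; exact hz2
    have hcop2 : (Nat.card (zpowers a)).Coprime (Nat.card (X ⊔ Y : Subgroup G)) :=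
      (CoprimeB.card_coprime_of_isPGroup hcop (ea_sub_pgroup hA hza)).symm
    obtain ⟨x', hx', y', hy', hxy'⟩ := Coprime.centralizer_of_product hcop2 (Or.inl (CoprimeB.isSolvable_of_isPGroup (ea_sub_pgroup hA hza)))
      (le_sup_left : X ≤ X ⊔ Y) (hza.trans hXn) (hza.trans hYn) hx hy hk
    rw [hcc] at hx' hy'
    rw [← hxy, hxy']
    exact mul_mem (h4 a ha ha1 hx') (k4 a ha ha1 hy')

theorem s1281 (hA : IsElementaryAbelian p A) (hθ : IsSolvableSignalizerFunctor p A θ) (N : Subgroup G) [N.Normal]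
    {a b : G} (ha : a ∈ A) (ha1 : a ≠ 1) (hb : b ∈ A) (hb1 : b ≠ 1) :
    (θ a).map (QuotientGroup.mk' N) ⊓ centralizer {QuotientGroup.mk' N b} ≤ (θ b).map (QuotientGroup.mk' N) := by
  rintro _ ⟨⟨x, hx, rfl⟩, h2⟩
  have h3 : QuotientGroup.mk' N x * QuotientGroup.mk' N b = QuotientGroup.mk' N b * QuotientGroup.mk' N x := mem_centralizer_singleton_iff.mp h2
  have hbn : b ∈ normalizer (θ a : Set G) := norm_of_forall (hθ.1.2.2.1 a ha ha1) hb
  have hza : zpowers b ≤ A := zpowers_le.mpr hb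
  have hcc : centralizer ((zpowers b : Subgroup G) : Set G) = centralizer {b} := by
    rw [zpowers_eq_closure, centralizer_closure]
  have hnD : zpowers b ≤ normalizer ((N ⊓ θ a : Subgroup G) : Set G) := by
    rw [zpowers_le]
    refine CFunA.mem_normalizer_of_le ?_
    rintro _ ⟨y, hy, rfl⟩
    exact mem_inf.mpr ⟨(inferInstance : N.Normal).conj_mem _ (mem_inf.mp hy).1 _, (mem_normalizer_iff.mp hbn y).mp (mem_inf.mp hy).2⟩
  have hcop2 : (Nat.card (zpowers b)).Coprime (Nat.card (N ⊓ θ a : Subgroup G)) :=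
    (CoprimeB.card_coprime_of_isPGroup (Nat.Coprime.coprime_dvd_left (card_dvd_of_le inf_le_right) (cop_of (hθ.1.2.1 a ha ha1)))
      (ea_sub_pgroup hA hza)).symm
  have hcomm : ∀ c ∈ zpowers b, x⁻¹ * (c * x * c⁻¹) ∈ N ⊓ θ a := by
    intro c hc
    refine mem_inf.mpr ⟨?_, ?_⟩
    · rw [← QuotientGroup.ker_mk' N, MonoidHom.mem_ker, map_mul, map_mul, map_mul, map_inv, map_inv]
      obtain ⟨j, rfl⟩ := mem_zpowers_iff.mp hc
      have h4 : Commute (QuotientGroup.mk' N x) (QuotientGroup.mk' N (b ^ j)) := by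
        rw [map_zpow]; exact (show Commute (QuotientGroup.mk' N x) (QuotientGroup.mk' N b) from h3).zpow_right j
      rw [← h4.eq]; group
    · have hcn : c ∈ normalizer (θ a : Set G) := norm_of_forall (hθ.1.2.2.1 a ha ha1) (hza hc)
      exact mul_mem (inv_mem hx) ((mem_normalizer_iff.mp hcn x).mp hx)
  obtain ⟨d, hd, hxd⟩ := Coprime.exists_mem_centralizer_coset hnD hcop2 (Or.inl (CoprimeB.isSolvable_of_isPGroup (ea_sub_pgroup hA hza))) x hcomm
  rw [hcc] at hxd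
  refine ⟨x * d, hθ.1.2.2.2 a ha ha1 b hb hb1 (mem_inf.mpr ⟨mul_mem hx (mem_inf.mp hd).2, hxd⟩), ?_⟩
  have : QuotientGroup.mk' N d = 1 := (QuotientGroup.eq_one_iff _).mpr (mem_inf.mp hd).1
  rw [map_mul, this, mul_one]

theorem mem_inf_iff {B : Subgroup G} {x : G} : x ∈ signalizerInf B θ ↔ ∀ b ∈ B, b ≠ 1 → x ∈ θ b := by
  unfold signalizerInf
  rw [mem_iInf]
  exact ⟨fun h b hb h1 => h ⟨b, hb, h1⟩, fun h b => h b.1 b.2.1 b.2.2⟩

theorem fam_cent_le {X : Subgroup G} (hX : X ∈ signalizerFamily p A θ) {D : Subgroup G} (hD : D ≤ A) :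
    X ⊓ centralizer (D : Set G) ≤ signalizerInf D θ := by
  intro x hx
  rw [mem_inf_iff]
  intro d hd hd1
  refine hX.2.2.2 d (hD hd) hd1 (mem_inf.mpr ⟨(mem_inf.mp hx).1, ?_⟩)
  rw [mem_centralizer_singleton_iff]
  exact (mem_centralizer_iff.mp (mem_inf.mp hx).2 d hd).symm

theorem exists_hyp (hA : IsElementaryAbelian p A) {B : Subgroup G} (hB : B ≤ A) (h1 : B ≠ ⊥) : ∃ D : Subgroup G, D ≤ B ∧ D.relIndex B = p := by
  have hp : p.Prime := Fact.out
  obtain ⟨m, hm⟩ := (ea_sub_pgroup hA hB).exists_card_eq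
  have hm0 : m ≠ 0 := by
    intro h; rw [h, pow_zero] at hm; exact h1 (Subgroup.card_eq_one.mp hm)
  obtain ⟨k, rfl⟩ := Nat.exists_eq_succ_of_ne_zero hm0
  obtain ⟨K, hK⟩ := Sylow.exists_subgroup_card_pow_prime (G := B) p (n := k) (by rw [hm]; exact pow_dvd_pow p (Nat.le_succ k))
  have hc : Nat.card (K.map B.subtype) = p ^ k := by rw [card_map_of_injective B.subtype_injective, hK]
  refine ⟨K.map B.subtype, map_subtype_le _, ?_⟩
  have h2 : (K.map B.subtype).relIndex B * Nat.card (K.map B.subtype) = Nat.card B := SylRel.relIndex_mul_card' (map_subtype_le _)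
  rw [hc, hm, pow_succ, mul_comm] at h2
  exact Nat.eq_of_mul_eq_mul_left (pow_pos hp.pos k) h2

theorem s1331 (hA : IsElementaryAbelian p A) {X : Subgroup G} (hX : X ∈ signalizerFamily p A θ) {B : Subgroup G} (hB : B ≤ A)
    (hB2 : p ^ 2 ≤ Nat.card B) :
    X = ⨆ D : {D : Subgroup G // D ≤ B ∧ D.relIndex B = p}, X ⊓ signalizerInf (D : Subgroup G) θ := by
  have hp : p.Prime := Fact.out
  apply le_antisymm
  · refine hyp_gen'' (ea_le hA hB) (cop_of hX.2.1) (hB.trans (norm_of_forall hX.2.2.1)) fun C hC hc => ?_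
    obtain ⟨D, hD, hDC, hDp⟩ : ∃ D : Subgroup G, D ≤ C ∧ D ≤ B ∧ D.relIndex B = p := by
      have h1 : C.relIndex B * Nat.card C = Nat.card B := SylRel.relIndex_mul_card' hC
      have h2 : C.relIndex B ≤ p := by
        rw [← h1, mul_comm] at hc
        exact Nat.le_of_mul_le_mul_left hc Nat.card_pos
      have h3 : C.relIndex B = 1 ∨ C.relIndex B = p := by
        obtain ⟨m, hm⟩ := (ea_sub_pgroup hA hB).exists_card_eq
        have h4 : C.relIndex B ∣ p ^ m := by rw [← hm, ← h1]; exact Dvd.intro _ rfl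
        obtain ⟨i, -, hi⟩ := (Nat.dvd_prime_pow hp).mp h4
        rw [hi] at h2 ⊢
        have h5 : i ≤ 1 := by
          by_contra hcon
          have : p ^ 2 ≤ p ^ i := Nat.pow_le_pow_right hp.pos (by omega)
          have h6 : p * 1 < p * p := Nat.mul_lt_mul_of_pos_left hp.one_lt hp.pos
          rw [pow_two] at this
          omega
        interval_cases i
        · left; rw [pow_zero]
        · right; rw [pow_one]
      rcases h3 with h3 | h3
      · have h4 : C = B := le_antisymm hC (relIndex_eq_one.mp h3)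
        have hB1 : B ≠ ⊥ := by
          rintro rfl
          rw [card_bot] at hB2
          have : 1 < p ^ 2 := Nat.one_lt_pow (by norm_num) hp.one_lt
          omega
        obtain ⟨D, hD1, hD2⟩ := exists_hyp hA hB hB1
        exact ⟨D, by rw [h4]; exact hD1, hD1, hD2⟩
      · exact ⟨C, le_rfl, hC, h3⟩
    refine le_trans (le_inf inf_le_left ?_) (le_iSup (fun D : {D : Subgroup G // D ≤ B ∧ D.relIndex B = p} => X ⊓ signalizerInf (D : Subgroup G) θ) ⟨D, hDC, hDp⟩)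
    exact (inf_le_inf_left _ (centralizer_le (SetLike.coe_subset_coe.mpr hD))).trans (fam_cent_le hX (hDC.trans hB))
  · exact iSup_le fun D => inf_le_left

/-! ### the normalizer lemma and transitivity -/

theorem exists_hyp_not_le (hA : IsElementaryAbelian p A) {N D : Subgroup G} (hN : ¬ p ∣ Nat.card N) (hAN : A ≤ normalizer (N : Set G))
    (h : ¬ N ≤ D) : ∃ E : Subgroup G, E ≤ A ∧ Nat.card A ≤ Nat.card E * p ∧ ¬ N ⊓ centralizer (E : Set G) ≤ D := by
  by_contra hcon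
  push Not at hcon
  exact h (hyp_gen'' hA (cop_of hN) hAN fun C hC hc => hcon C hC hc)

theorem s1282 (hA : IsElementaryAbelian p A) (hA3 : p ^ 3 ≤ Nat.card A) {q : ℕ} [Fact q.Prime] (hqp : q ≠ p)
    {Q₁ Q₂ : Subgroup G} (h₁ : IsPGroup q Q₁) (h₂ : IsPGroup q Q₂) (hA₁ : A ≤ normalizer (Q₁ : Set G)) (hA₂ : A ≤ normalizer (Q₂ : Set G))
    (hD₁ : Q₁ ⊓ Q₂ ≠ Q₁) (hD₂ : Q₁ ⊓ Q₂ ≠ Q₂) :
    ∃ a ∈ A, a ≠ 1 ∧ ¬ (normalizer ((Q₁ ⊓ Q₂ : Subgroup G) : Set G) ⊓ Q₁ ⊓ centralizer {a} ≤ Q₁ ⊓ Q₂) ∧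
      ¬ (normalizer ((Q₁ ⊓ Q₂ : Subgroup G) : Set G) ⊓ Q₂ ⊓ centralizer {a} ≤ Q₁ ⊓ Q₂) := by
  have hp : p.Prime := Fact.out
  set D := Q₁ ⊓ Q₂ with hD
  have hAD : A ≤ normalizer (D : Set G) := le_normalizer_inf hA₁ hA₂
  have hnn : ∀ x ∈ normalizer (D : Set G), x ∈ normalizer ((normalizer (D : Set G) : Subgroup G) : Set G) := fun x hx => le_normalizer hx
  have gen : ∀ Q : Subgroup G, IsPGroup q Q → A ≤ normalizer (Q : Set G) → D < Q →
      ∃ E : Subgroup G, E ≤ A ∧ Nat.card A ≤ Nat.card E * p ∧ ¬ (normalizer (D : Set G) ⊓ Q ⊓ centralizer (E : Set G) ≤ D) := by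
    intro Q hQ hAQ hlt
    have h3 := PNilp.lt_inf_normalizer (hQ.isNilpotent) hlt
    have hn : A ≤ normalizer ((normalizer (D : Set G) ⊓ Q : Subgroup G) : Set G) :=
      le_normalizer_inf (fun x hx => hnn x (hAD hx)) hAQ
    refine exists_hyp_not_le hA ?_ hn ?_
    · intro h4
      have h5 : p ∣ Nat.card Q := h4.trans (card_dvd_of_le inf_le_right)
      obtain ⟨m, hm⟩ := hQ.exists_card_eq
      rw [hm] at h5
      exact hqp ((Nat.prime_dvd_prime_iff_eq hp Fact.out).mp (hp.dvd_of_dvd_pow h5)).symm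
    · intro h4
      rw [inf_comm] at h4
      exact lt_irrefl _ (h3.trans_le h4)
  obtain ⟨E₁, hE₁, hc₁, hn₁⟩ := gen Q₁ h₁ hA₁ (lt_of_le_of_ne inf_le_left hD₁)
  obtain ⟨E₂, hE₂, hc₂, hn₂⟩ := gen Q₂ h₂ hA₂ (lt_of_le_of_ne inf_le_right hD₂)
  -- intersect hyperplanes
  have hbig : p ^ 1 ≤ Nat.card (E₁ ⊓ E₂ : Subgroup G) := by
    have h1 : E₁.relIndex A * Nat.card E₁ = Nat.card A := SylRel.relIndex_mul_card' hE₁
    have h2 : E₂.relIndex A * Nat.card E₂ = Nat.card A := SylRel.relIndex_mul_card' hE₂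
    have h3 : (E₁ ⊓ E₂).relIndex A * Nat.card (E₁ ⊓ E₂ : Subgroup G) = Nat.card A := SylRel.relIndex_mul_card' (inf_le_left.trans hE₁)
    have h4 : E₁.relIndex A ≤ p := by
      rw [← h1, mul_comm] at hc₁
      exact Nat.le_of_mul_le_mul_left hc₁ Nat.card_pos
    have h5 : E₂.relIndex A ≤ p := by
      rw [← h2, mul_comm] at hc₂
      exact Nat.le_of_mul_le_mul_left hc₂ Nat.card_pos
    have h6 : (E₁ ⊓ E₂).relIndex A ≤ p * p := (Subgroup.relIndex_inf_le).trans (Nat.mul_le_mul h4 h5)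
    have h7 : p ^ 3 ≤ p ^ 2 * Nat.card (E₁ ⊓ E₂ : Subgroup G) := by
      calc p ^ 3 ≤ Nat.card A := hA3
        _ = (E₁ ⊓ E₂).relIndex A * Nat.card (E₁ ⊓ E₂ : Subgroup G) := h3.symm
        _ ≤ p * p * Nat.card (E₁ ⊓ E₂ : Subgroup G) := Nat.mul_le_mul_right _ h6
        _ = _ := by ring
    rw [show (3 : ℕ) = 2 + 1 from rfl, pow_add] at h7
    exact Nat.le_of_mul_le_mul_left h7 (pow_pos hp.pos 2)
  have hne : ∃ a ∈ E₁ ⊓ E₂, a ≠ 1 := by
    by_contra hcon
    push Not at hcon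
    have h1 : E₁ ⊓ E₂ = ⊥ := by rw [eq_bot_iff]; intro a ha; exact mem_bot.mpr (hcon a ha)
    rw [h1, card_bot, pow_one] at hbig
    exact absurd hp.one_lt (not_lt.mpr hbig)
  obtain ⟨a, ha, ha1⟩ := hne
  obtain ⟨haE₁, haE₂⟩ := mem_inf.mp ha
  refine ⟨a, hE₁ haE₁, ha1, fun h => hn₁ ?_, fun h => hn₂ ?_⟩
  · exact (inf_le_inf_left _ (centralizer_le (Set.singleton_subset_iff.mpr haE₁))).trans h
  · exact (inf_le_inf_left _ (centralizer_le (Set.singleton_subset_iff.mpr haE₂))).trans h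

end Cfsg.Agent.Lib.H3Sig
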