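import Cfsg.Agent.Lib.H3Sig

/-!
Solvable signalizer functors: transitivity (helper3).
-/

set_option autoImplicit false
set_option maxHeartbeats 400000
set_option linter.unusedVariables false
set_option linter.unusedSectionVars false

namespace Cfsg.Agent.Lib.H3SigB

open Subgroup Cfsg Cfsg.Agent.Lib.Basic Cfsg.Agent.Lib.Cores Cfsg.Agent.Lib.Components
  Cfsg.Agent.Lib.H3Loc Cfsg.Agent.Lib.H3LocC Cfsg.Agent.Lib.H3LocD Cfsg.Agent.Lib.H3LBal Cfsg.Agent.Lib.H3LocG Cfsg.Agent.Lib.H3Hyp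
  Cfsg.Agent.Lib.SchurZas Cfsg.Agent.Lib.H3Sig
open scoped commutatorElement

universe u
variable {G : Type u} [Group G] [Finite G] {p : ℕ} [Fact p.Prime] {A : Subgroup G} {θ : G → Subgroup G}

theorem solv_pLayer {X : Type u} [Group X] [Finite X] (h : Group.IsSolvable X) : pLayer p X = ⊥ := by
  rw [pLayer_eq_bot_iff, layer_eq_bot_iff]
  intro K hK
  haveI := h
  haveI h1 : Group.IsSolvable (X ⧸ pPrimeCore p X) := solvable_of_surjective (QuotientGroup.mk'_surjective (pPrimeCore p X))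
  exact component_not_solvable hK (inferInstance)

/-- the inclusion of the core of a centralizer, when the local group has trivial `p`-layer -/
theorem core_bal {a b : G} (hb : pLayer p (centralizer ({b} : Set G)) = ⊥) (hab : a * b = b * a) (ha : IsPGroup p (zpowers a)) :
    centralizerPPrimeCore p a ⊓ centralizer {b} ≤ centralizerPPrimeCore p b := by
  by_cases ha1 : a = 1
  · intro x hx
    refine le_Op (W := centralizerPPrimeCore p a ⊓ centralizer {b}) inf_le_right ?_ ?_ hx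
    · have h2 : centralizer {b} ≤ centralizer ({a} : Set G) := by
        intro y _
        rw [mem_centralizer_singleton_iff, ha1]; group
      intro y hy
      refine CFunA.mem_normalizer_of_le ?_
      rintro _ ⟨z, hz, rfl⟩
      exact mem_inf.mpr ⟨(mem_normalizer_iff.mp (Op_norm (le_normalizer (h2 hy))) z).mp (mem_inf.mp hz).1,
        mul_mem (mul_mem hy (mem_inf.mp hz).2) (inv_mem hy)⟩
    · exact Nat.Coprime.coprime_dvd_left (card_dvd_of_le inf_le_left) (Op_card _)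
  set H := centralizer ({b} : Set G) with hH
  have haH : a ∈ H := mem_centralizer_singleton_iff.mpr hab
  let a' : H := ⟨a, haH⟩
  have hP : IsPGroup p (zpowers a') := by
    have h1 : (zpowers a').map H.subtype = zpowers a := by rw [MonoidHom.map_zpowers]; rfl
    rw [← h1] at ha
    exact ha.of_equiv ((zpowers a').equivMapOfInjective H.subtype H.subtype_injective).symm
  have hP1 : zpowers a' ≠ ⊥ := by
    intro h
    rw [zpowers_eq_bot] at h
    exact ha1 (congrArg Subtype.val h)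
  have h3 := (H3Loc.s1293 hb (zpowers a') hP).2
  have h4 : (centralizerPPrimeCore p a).subgroupOf H ≤ Op p (centralizer ({a'} : Set H)) := by
    refine le_Op ?_ ?_ ?_
    · intro x hx
      have h5 : (x : G) ∈ centralizer ({a} : Set G) := Op_le _ (mem_subgroupOf.mp hx)
      rw [mem_centralizer_singleton_iff] at h5 ⊢
      exact Subtype.ext h5
    · intro g hg
      refine CFunA.mem_normalizer_of_le ?_
      rintro _ ⟨z, hz, rfl⟩
      have h6 : (g : G) ∈ centralizer ({a} : Set G) := by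
        rw [mem_centralizer_singleton_iff] at hg ⊢
        exact congrArg Subtype.val hg
      exact mem_subgroupOf.mpr ((mem_normalizer_iff.mp (Op_norm (le_normalizer h6)) (z : G)).mp (mem_subgroupOf.mp hz))
    · have h7 : Nat.card ((centralizerPPrimeCore p a).subgroupOf H) ∣ Nat.card (centralizerPPrimeCore p a) := by
        rw [← card_map_of_injective H.subtype_injective, subgroupOf_map_subtype]
        exact card_dvd_of_le inf_le_left
      exact Nat.Coprime.coprime_dvd_left h7 (Op_card _)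
  have h8 : centralizer ({a'} : Set H) = centralizer ((zpowers a' : Subgroup H) : Set H) := by
    rw [zpowers_eq_closure, centralizer_closure]
  have h9 : Op p (centralizer ({a'} : Set H)) ≤ Op p (normalizer ((zpowers a' : Subgroup H) : Set H)) := by
    rw [h8]
    refine le_Op ((Op_le _).trans (centralizer_le_normalizer _)) (fun g hg => Op_norm (centralizer_norm _ hg)) (Op_card _)
  intro x hx
  obtain ⟨hx1, hx2⟩ := mem_inf.mp hx
  exact ⟨⟨x, hx2⟩, h3 (h9 (h4 (mem_subgroupOf.mpr hx1))), rfl⟩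

theorem ea_comm' (hA : IsElementaryAbelian p A) {a b : G} (ha : a ∈ A) (hb : b ∈ A) : a * b = b * a := ea_comm hA ha hb

theorem s1279 (hA : IsElementaryAbelian p A)
    (hsolv : ∀ a ∈ A, a ≠ 1 → Group.IsSolvable (centralizer ({a} : Set G))) : IsSolvableSignalizerFunctor p A (fun a => centralizerPPrimeCore p a) := by
  refine ⟨⟨fun a _ _ => Op_le _, fun a _ _ => not_dvd_of (Op_card _), ?_, ?_⟩, ?_⟩
  · intro a ha ha1 b hb x hx
    have h1 : b ∈ centralizer ({a} : Set G) := mem_centralizer_singleton_iff.mpr (ea_comm' hA hb ha)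
    exact (mem_normalizer_iff.mp (Op_norm (le_normalizer h1)) x).mp hx
  · intro a ha ha1 b hb hb1
    exact core_bal (solv_pLayer (hsolv b hb hb1)) (ea_comm' hA ha hb) (ea_sub_pgroup hA (zpowers_le.mpr ha))
  · intro a ha ha1
    haveI := hsolv a ha ha1
    haveI h2 : Group.IsSolvable (pPrimeCore p (centralizer ({a} : Set G))) := inferInstance
    exact solvable_of_surjective (f := ((pPrimeCore p (centralizer ({a} : Set G))).equivMapOfInjective _ (subtype_injective _)).toMonoidHom)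
      (MulEquiv.surjective _)

/-! ### transitivity -/

theorem inf_cent (hθ : IsSolvableSignalizerFunctor p A θ) {c : G} (hc : c ∈ signalizerInf A θ) {a : G} (ha : a ∈ A) : c * a = a * c := by
  by_cases h : a = 1
  · rw [h]; group
  · exact mem_centralizer_singleton_iff.mp (hθ.1.1 a ha h (mem_inf_iff.mp hc a ha h))

theorem conj_mem_fam (hθ : IsSolvableSignalizerFunctor p A θ) {c : G} (hc : c ∈ signalizerInf A θ) {X : Subgroup G} (hX : X ∈ signalizerFamily p A θ) :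
    X.map (MulAut.conj c).toMonoidHom ∈ signalizerFamily p A θ := by
  obtain ⟨h1, h2, h3, h4⟩ := hX
  have e := X.equivMapOfInjective (MulAut.conj c).toMonoidHom (MulAut.conj c).injective
  refine ⟨?_, ?_, ?_, ?_⟩
  · haveI := h1
    exact solvable_of_surjective (f := e.toMonoidHom) e.surjective
  · rwa [← Nat.card_congr e.toEquiv]
  · rintro b hb _ ⟨x, hx, rfl⟩
    refine ⟨b * x * b⁻¹, h3 b hb x hx, ?_⟩
    change c * (b * x * b⁻¹) * c⁻¹ = b * (c * x * c⁻¹) * b⁻¹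
    have h5 := inf_cent hθ hc hb
    have h6 : c * b⁻¹ = b⁻¹ * c := by rw [eq_inv_mul_iff_mul_eq, ← mul_assoc, ← h5]; group
    have h7 : b⁻¹ * c⁻¹ = c⁻¹ * b⁻¹ := by
      have := congrArg (fun t => t⁻¹) h5
      simpa [mul_inv_rev] using this
    calc c * (b * x * b⁻¹) * c⁻¹ = (c * b) * x * (b⁻¹ * c⁻¹) := by group
      _ = (b * c) * x * (c⁻¹ * b⁻¹) := by rw [h5, h7]
      _ = b * (c * x * c⁻¹) * b⁻¹ := by group
  · intro a ha ha1 z hz
    obtain ⟨hz1, hz2⟩ := mem_inf.mp hz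
    obtain ⟨x, hx, rfl⟩ := hz1
    have hcθ : c ∈ θ a := mem_inf_iff.mp hc a ha ha1
    have h5 : x ∈ centralizer ({a} : Set G) := by
      have h6 : c * x * c⁻¹ ∈ centralizer ({a} : Set G) := hz2
      have h7 : c ∈ centralizer ({a} : Set G) := mem_centralizer_singleton_iff.mpr (inf_cent hθ hc ha)
      have e : x = c⁻¹ * (c * x * c⁻¹) * c := by group
      rw [e]
      exact mul_mem (mul_mem (inv_mem h7) h6) h7
    exact mul_mem (mul_mem hcθ (h4 a ha ha1 (mem_inf.mpr ⟨hx, h5⟩))) (inv_mem hcθ)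

/-- `Q` is a maximal `q`-member of the family -/
def MaxQ (p : ℕ) (A : Subgroup G) (θ : G → Subgroup G) (q : ℕ) (Q : Subgroup G) : Prop :=
  Q ∈ signalizerFamily p A θ ∧ IsPGroup q Q ∧ ∀ R ∈ signalizerFamily p A θ, IsPGroup q R → Q ≤ R → R = Q

theorem exists_maxQ {q : ℕ} {Q : Subgroup G} (h : Q ∈ signalizerFamily p A θ) (hq : IsPGroup q Q) :
    ∃ R, MaxQ p A θ q R ∧ Q ≤ R := by
  obtain ⟨M, hM⟩ := (Set.toFinite {V : Subgroup G | V ∈ signalizerFamily p A θ ∧ IsPGroup q V ∧ Q ≤ V}).exists_maximal ⟨Q, h, hq, le_rfl⟩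
  obtain ⟨h1, h2, h3⟩ := hM.prop
  exact ⟨M, ⟨h1, h2, fun R hR hRq hle => le_antisymm (hM.le_of_ge ⟨hR, hRq, h3.trans hle⟩ hle) hle⟩, h3⟩

theorem pgroup_conj {q : ℕ} {Q : Subgroup G} (h : IsPGroup q Q) (c : G) : IsPGroup q (Q.map (MulAut.conj c).toMonoidHom) := h.map _

theorem inf_inv (hA : IsElementaryAbelian p A) {c : G} (hc : c ∈ signalizerInf A θ) : c⁻¹ ∈ signalizerInf A θ := inv_mem hc

theorem map_conj_conj (Q : Subgroup G) (a b : G) : (Q.map (MulAut.conj a).toMonoidHom).map (MulAut.conj b).toMonoidHom = Q.map (MulAut.conj (b * a)).toMonoidHom := by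
  rw [Subgroup.map_map]
  congr 1
  ext x
  change b * (a * x * a⁻¹) * b⁻¹ = b * a * x * (b * a)⁻¹
  group

theorem map_conj_one (Q : Subgroup G) : Q.map (MulAut.conj (1 : G)).toMonoidHom = Q := by
  have : (MulAut.conj (1 : G)).toMonoidHom = MonoidHom.id G := by ext x; simp
  rw [this, Subgroup.map_id]

theorem maxQ_conj (hθ : IsSolvableSignalizerFunctor p A θ) {q : ℕ} {Q : Subgroup G} (hQ : MaxQ p A θ q Q) {c : G} (hc : c ∈ signalizerInf A θ) :
    MaxQ p A θ q (Q.map (MulAut.conj c).toMonoidHom) := by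
  refine ⟨conj_mem_fam hθ hc hQ.1, pgroup_conj hQ.2.1 c, fun R hR hRq hle => ?_⟩
  have h1 := hQ.2.2 (R.map (MulAut.conj c⁻¹).toMonoidHom) (conj_mem_fam hθ (inv_mem hc) hR) (pgroup_conj hRq _) (by
    have := Subgroup.map_mono (f := (MulAut.conj c⁻¹).toMonoidHom) hle
    rwa [map_conj_conj, inv_mul_cancel, map_conj_one] at this)
  rw [← h1, map_conj_conj, mul_inv_cancel, map_conj_one]

theorem fam_coprime_card (hA : IsElementaryAbelian p A) {H : Subgroup G} (hH : H ∈ signalizerFamily p A θ) : (Nat.card A).Coprime (Nat.card H) := cop_A hA hH.2.1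

/-- two `A`-invariant `q`-subgroups of a member are in `q`-members conjugate under the intersection -/
theorem in_member (hA : IsElementaryAbelian p A) (hθ : IsSolvableSignalizerFunctor p A θ) {q : ℕ} [Fact q.Prime] {H R₁ R₂ : Subgroup G}
    (hH : H ∈ signalizerFamily p A θ) (h₁ : R₁ ≤ H) (h₂ : R₂ ≤ H) (hq₁ : IsPGroup q R₁) (hq₂ : IsPGroup q R₂)
    (hA₁ : A ≤ normalizer (R₁ : Set G)) (hA₂ : A ≤ normalizer (R₂ : Set G)) :
    ∃ T : Subgroup G, MaxQ p A θ q T ∧ ∃ c ∈ signalizerInf A θ, R₁ ≤ T ∧ R₂ ≤ T.map (MulAut.conj c).toMonoidHom := by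
  have hAH := norm_of_forall hH.2.2.1
  obtain ⟨S₁, hS₁, hn₁⟩ := Coprime.invariant_le_invariant_sylow hAH (fam_coprime_card hA hH) (Or.inl (solv_A hA)) q R₁ h₁ hq₁ hA₁
  obtain ⟨S₂, hS₂, hn₂⟩ := Coprime.invariant_le_invariant_sylow hAH (fam_coprime_card hA hH) (Or.inl (solv_A hA)) q R₂ h₂ hq₂ hA₂
  obtain ⟨c, hc, hcS⟩ := Coprime.invariant_sylow_conj hAH (fam_coprime_card hA hH) (Or.inl (solv_A hA)) q S₁ S₂ hn₁ hn₂
  have hcI : (c : G) ∈ signalizerInf A θ := fam_cent_le hH le_rfl (mem_inf.mpr ⟨c.2, hc⟩)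
  have hm : (S₁ : Subgroup H).map H.subtype ∈ signalizerFamily p A θ := fam_le hH (map_subtype_le _) hn₁
  obtain ⟨T, hT, hle⟩ := exists_maxQ (q := q) hm (S₁.2.map _)
  refine ⟨T, hT, c, hcI, hS₁.trans hle, hS₂.trans ?_⟩
  rw [← hcS]
  rintro _ ⟨x, hx, rfl⟩
  obtain ⟨y, hy, hyx⟩ := hx
  refine ⟨(y : G), hle ⟨y, hy, rfl⟩, ?_⟩
  rw [← hyx]
  rfl

theorem one_mem_inf : (1 : G) ∈ signalizerInf A θ := one_mem _

theorem transitivity (hA : IsElementaryAbelian p A) (hA3 : p ^ 3 ≤ Nat.card A) (hθ : IsSolvableSignalizerFunctor p A θ) {q : ℕ} [Fact q.Prime]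
    (hqp : q ≠ p) (n : ℕ) : ∀ Q₁ Q₂ : Subgroup G, MaxQ p A θ q Q₁ → MaxQ p A θ q Q₂ → Nat.card G ≤ Nat.card (Q₁ ⊓ Q₂ : Subgroup G) + n →
      ∃ c ∈ signalizerInf A θ, Q₁.map (MulAut.conj c).toMonoidHom = Q₂ := by
  induction n with
  | zero =>
    intro Q₁ Q₂ h1 h2 hn
    have h3 : Q₁ ⊓ Q₂ = ⊤ := by
      apply eq_top_of_card_eq
      exact le_antisymm (card_le_card_group _) (by simpa using hn)
    have h4 : Q₁ = ⊤ := top_le_iff.mp (h3 ▸ inf_le_left)
    have h5 : Q₂ = ⊤ := top_le_iff.mp (h3 ▸ inf_le_right)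
    exact ⟨1, one_mem _, by rw [map_conj_one, h4, h5]⟩
  | succ n ih =>
    intro Q₁ Q₂ h1 h2 hn
    by_cases hD₁ : Q₁ ⊓ Q₂ = Q₁
    · exact ⟨1, one_mem _, by rw [map_conj_one]; exact (h1.2.2 Q₂ h2.1 h2.2.1 (inf_eq_left.mp hD₁)).symm⟩
    by_cases hD₂ : Q₁ ⊓ Q₂ = Q₂
    · exact ⟨1, one_mem _, by rw [map_conj_one]; exact (h2.2.2 Q₁ h1.1 h1.2.1 (inf_eq_right.mp hD₂))⟩
    have hA₁ := norm_of_forall h1.1.2.2.1
    have hA₂ := norm_of_forall h2.1.2.2.1
    obtain ⟨a, ha, ha1, hk₁, hk₂⟩ := s1282 hA hA3 hqp h1.2.1 h2.2.1 hA₁ hA₂ hD₁ hD₂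
    set D := Q₁ ⊓ Q₂ with hD
    have hAD : A ≤ normalizer (D : Set G) := le_normalizer_inf hA₁ hA₂
    have hDF : D ∈ signalizerFamily p A θ := fam_le h1.1 inf_le_left hAD
    have hθF := fam_theta hθ ha ha1
    have hH₀ : θ a ⊓ normalizer (D : Set G) ∈ signalizerFamily p A θ :=
      fam_le hθF inf_le_left (le_normalizer_inf (norm_of_forall hθF.2.2.1) (hAD.trans le_normalizer))
    have hH : D ⊔ (θ a ⊓ normalizer (D : Set G)) ∈ signalizerFamily p A θ := s1280 hA hDF hH₀ inf_le_right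
    set H := D ⊔ (θ a ⊓ normalizer (D : Set G)) with hHdef
    have hAH := norm_of_forall hH.2.2.1
    have big : ∀ Q : Subgroup G, MaxQ p A θ q Q → D ≤ Q → ¬ (normalizer (D : Set G) ⊓ Q ⊓ centralizer {a} ≤ D) →
        Nat.card D + 1 ≤ Nat.card (Q ⊓ H : Subgroup G) := by
      intro Q hQ hle hnot
      have h6 : D < Q ⊓ H := by
        refine lt_of_le_of_ne (le_inf hle le_sup_left) fun h => hnot ?_
        intro x hx
        obtain ⟨hx1, hx2⟩ := mem_inf.mp hx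
        obtain ⟨hx3, hx4⟩ := mem_inf.mp hx1
        exact h.ge <| mem_inf.mpr ⟨hx4, (le_sup_right : θ a ⊓ normalizer (D : Set G) ≤ H) (mem_inf.mpr ⟨hQ.1.2.2.2 a ha ha1 (mem_inf.mpr ⟨hx4, hx2⟩), hx3⟩)⟩
      exact Nat.succ_le_of_lt (card_lt_card_of_lt h6)
    have b1 := big Q₁ h1 inf_le_left hk₁
    have b2 := big Q₂ h2 inf_le_right hk₂
    obtain ⟨T, hT, c, hc, hT1, hT2⟩ := in_member hA hθ (q := q) hH (R₁ := Q₁ ⊓ H) (R₂ := Q₂ ⊓ H) inf_le_right inf_le_right
      (h1.2.1.to_le inf_le_left) (h2.2.1.to_le inf_le_left) (le_normalizer_inf hA₁ hAH) (le_normalizer_inf hA₂ hAH)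
    obtain ⟨c₁, hc₁, e₁⟩ := ih Q₁ T h1 hT (by
      have : Nat.card (Q₁ ⊓ H : Subgroup G) ≤ Nat.card (Q₁ ⊓ T : Subgroup G) := card_le_of_le (le_inf inf_le_left hT1)
      omega)
    obtain ⟨c₂, hc₂, e₂⟩ := ih Q₂ (T.map (MulAut.conj c).toMonoidHom) h2 (maxQ_conj hθ hT hc) (by
      have : Nat.card (Q₂ ⊓ H : Subgroup G) ≤ Nat.card (Q₂ ⊓ T.map (MulAut.conj c).toMonoidHom : Subgroup G) := card_le_of_le (le_inf inf_le_left hT2)
      omega)
    refine ⟨c₂⁻¹ * (c * c₁), mul_mem (inv_mem hc₂) (mul_mem hc hc₁), ?_⟩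
    rw [← map_conj_conj, ← map_conj_conj, e₁, ← e₂, map_conj_conj, inv_mul_cancel, map_conj_one]

theorem trans' (hA : IsElementaryAbelian p A) (hA3 : p ^ 3 ≤ Nat.card A) (hθ : IsSolvableSignalizerFunctor p A θ) {q : ℕ} [Fact q.Prime]
    (hqp : q ≠ p) {Q₁ Q₂ : Subgroup G} (h₁ : MaxQ p A θ q Q₁) (h₂ : MaxQ p A θ q Q₂) :
      ∃ c ∈ signalizerInf A θ, Q₁.map (MulAut.conj c).toMonoidHom = Q₂ :=
  transitivity hA hA3 hθ hqp (Nat.card G) Q₁ Q₂ h₁ h₂ (by omega)

theorem q_ne_p (hθ : IsSolvableSignalizerFunctor p A θ) {q : ℕ} (hq : ∃ a ∈ A, a ≠ 1 ∧ q ∣ Nat.card (θ a)) : q ≠ p := by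
  rintro rfl
  obtain ⟨a, ha, ha1, h⟩ := hq
  exact hθ.1.2.1 a ha ha1 h

theorem sylow_meet (hA : IsElementaryAbelian p A) (hA3 : p ^ 3 ≤ Nat.card A) (hθ : IsSolvableSignalizerFunctor p A θ) {q : ℕ} [Fact q.Prime]
    (hqp : q ≠ p) {Q : Subgroup G} (hQ : MaxQ p A θ q Q) {H : Subgroup G} (hH : H ∈ signalizerFamily p A θ) :
    ∃ c ∈ signalizerInf A θ, ∃ S : Sylow q H, (S : Subgroup H).map H.subtype = Q.map (MulAut.conj c).toMonoidHom ⊓ H := by
  have hAH := norm_of_forall hH.2.2.1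
  obtain ⟨S, hn⟩ := Coprime.exists_invariant_sylow hAH (fam_coprime_card hA hH) (Or.inl (solv_A hA)) q
  have hm : (S : Subgroup H).map H.subtype ∈ signalizerFamily p A θ := fam_le hH (map_subtype_le _) hn
  obtain ⟨T, hT, hle⟩ := exists_maxQ (q := q) hm (S.2.map _)
  obtain ⟨c, hc, e⟩ := trans' hA hA3 hθ hqp hQ hT
  refine ⟨c, hc, S, ?_⟩
  rw [e]
  apply le_antisymm (le_inf hle (map_subtype_le _))
  intro x hx
  obtain ⟨hx1, hx2⟩ := mem_inf.mp hx
  have h3 : IsPGroup q (T.subgroupOf H) := by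
    have h5 : IsPGroup q ((T.subgroupOf H).map H.subtype) := hT.2.1.to_le (by rw [subgroupOf_map_subtype]; exact inf_le_left)
    exact h5.of_equiv ((T.subgroupOf H).equivMapOfInjective H.subtype H.subtype_injective).symm
  have h4 : T.subgroupOf H = S := S.3 h3 (by
    intro y hy
    exact mem_subgroupOf.mpr (hle ⟨y, hy, rfl⟩))
  exact ⟨⟨x, hx2⟩, h4 ▸ (mem_subgroupOf.mpr hx1), rfl⟩

/-- when `signalizerInf A θ ≤ H`, no conjugation is necessary -/
theorem sylow_meet' (hA : IsElementaryAbelian p A) (hA3 : p ^ 3 ≤ Nat.card A) (hθ : IsSolvableSignalizerFunctor p A θ) {q : ℕ} [Fact q.Prime]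
    (hqp : q ≠ p) {Q : Subgroup G} (hQ : MaxQ p A θ q Q) {H : Subgroup G} (hH : H ∈ signalizerFamily p A θ) (hI : signalizerInf A θ ≤ H) :
    ∃ S : Sylow q H, (S : Subgroup H).map H.subtype = Q ⊓ H := by
  obtain ⟨c, hc, S, hS⟩ := sylow_meet hA hA3 hθ hqp hQ hH
  refine ⟨(⟨c, hI hc⟩ : H)⁻¹ • S, ?_⟩
  have e1 : ((((⟨c, hI hc⟩ : H)⁻¹ • S : Sylow q H) : Subgroup H)).map H.subtype = ((S : Subgroup H).map H.subtype).map (MulAut.conj c⁻¹).toMonoidHom := by
    rw [Sylow.coe_subgroup_smul, Subgroup.map_map]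
    ext x
    constructor
    · rintro ⟨y, ⟨z, hz, rfl⟩, rfl⟩
      exact ⟨z, hz, rfl⟩
    · rintro ⟨z, hz, rfl⟩
      exact ⟨_, ⟨z, hz, rfl⟩, rfl⟩
  rw [e1, hS]
  have e2 : H.map (MulAut.conj c⁻¹).toMonoidHom = H := by
    exact CFunA.mem_normalizer_iff_cj.mp (le_normalizer (inv_mem (hI hc)))
  rw [Subgroup.map_inf _ _ _ (MulAut.conj c⁻¹).injective, e2, map_conj_conj, inv_mul_cancel, map_conj_one]

theorem inf_mem_fam (hA : IsElementaryAbelian p A) (hθ : IsSolvableSignalizerFunctor p A θ) {B : Subgroup G} (hB : B ≤ A) (h1 : B ≠ ⊥) :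
    signalizerInf B θ ∈ signalizerFamily p A θ := by
  obtain ⟨b, hb, hb1'⟩ := (Subgroup.ne_bot_iff_exists_ne_one.mp h1).elim (fun b hb => (⟨b.1, b.2, fun h => hb (Subtype.ext h)⟩ : ∃ b : G, b ∈ B ∧ b ≠ 1))
  refine fam_le (fam_theta hθ (hB hb) hb1') (iInf_le _ (⟨b, hb, hb1'⟩ : {a : G // a ∈ B ∧ a ≠ 1})) ?_
  apply norm_of_forall
  intro a ha x hx
  rw [mem_inf_iff] at hx ⊢
  exact fun b hb h => hθ.1.2.2.1 b (hB hb) h a ha x (hx b hb h)

theorem inf_anti {B : Subgroup G} (hB : B ≤ A) : signalizerInf A θ ≤ signalizerInf B θ := fun x hx =>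
  mem_inf_iff.mpr fun b hb h => mem_inf_iff.mp hx b (hB hb) h

theorem inf_le_cent (hθ : IsSolvableSignalizerFunctor p A θ) {B : Subgroup G} (hB : B ≤ A) : signalizerInf B θ ≤ centralizer (B : Set G) := by
  intro x hx
  rw [mem_centralizer_iff]
  intro b hb
  by_cases h : b = 1
  · rw [h]; group
  · exact (mem_centralizer_singleton_iff.mp (hθ.1.1 b (hB hb) h (mem_inf_iff.mp hx b hb h))).symm

theorem s1284b (hA : IsElementaryAbelian p A) (hA3 : p ^ 3 ≤ Nat.card A) (hθ : IsSolvableSignalizerFunctor p A θ) {q : ℕ} [Fact q.Prime]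
    (hqp : q ≠ p) {Q : Subgroup G} (hQ : MaxQ p A θ q Q) {B : Subgroup G} (hB : B ≤ A) (h1 : B ≠ ⊥) :
    ∃ S : Sylow q (signalizerInf B θ), (S : Subgroup (signalizerInf B θ)).map (signalizerInf B θ).subtype = Q ⊓ centralizer (B : Set G) := by
  obtain ⟨S, hS⟩ := sylow_meet' hA hA3 hθ hqp hQ (inf_mem_fam hA hθ hB h1) (inf_anti hB)
  refine ⟨S, hS.trans ?_⟩
  exact le_antisymm (le_inf inf_le_left (inf_le_right.trans (inf_le_cent hθ hB)))
    (le_inf inf_le_left (fam_cent_le hQ.1 hB))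

theorem bot_mem_fam : (⊥ : Subgroup G) ∈ signalizerFamily p A θ := by
  refine ⟨inferInstance, ?_, ?_, fun a _ _ => (inf_le_left).trans bot_le⟩
  · rw [Nat.card_unique]; exact (Fact.out : p.Prime).one_lt.ne' ∘ Nat.dvd_one.mp
  · rintro b _ u hu
    rw [mem_bot] at hu ⊢
    rw [hu]; group

theorem s1285 (hA : IsElementaryAbelian p A) (hA3 : p ^ 3 ≤ Nat.card A) (hθ : IsSolvableSignalizerFunctor p A θ) {q : ℕ} [Fact q.Prime]
    (hq : ∀ a ∈ A, a ≠ 1 → IsPGroup q (θ a)) : IsCompleteSignalizerFunctor p A θ := by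
  refine ⟨hθ.1, ?_⟩
  by_cases hqp : q = p
  · subst hqp
    refine ⟨⊥, (bot_mem_fam (p := q) (A := A) (θ := θ)).2.2.1, (bot_mem_fam (p := q) (A := A) (θ := θ)).2.1, fun a ha ha1 => ?_⟩
    have h1 := hq a ha ha1
    obtain ⟨m, hm⟩ := h1.exists_card_eq
    have h2 : θ a = ⊥ := by
      rw [← card_eq_one, hm]
      rcases Nat.eq_zero_or_pos m with h | h
      · rw [h, pow_zero]
      · exact absurd (hm ▸ dvd_pow_self q h.ne') (hθ.1.2.1 a ha ha1)
    rw [h2, bot_inf_eq]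
  · obtain ⟨Q, hQ, -⟩ := exists_maxQ (q := q) (bot_mem_fam (p := p) (A := A) (θ := θ)) (IsPGroup.of_bot (p := q) (G := G))
    refine ⟨Q, hQ.1.2.2.1, hQ.1.2.1, fun a ha ha1 => ?_⟩
    obtain ⟨S, hS⟩ := sylow_meet' hA hA3 hθ hqp hQ (fam_theta hθ ha ha1) (iInf_le _ (⟨a, ha, ha1⟩ : {a : G // a ∈ A ∧ a ≠ 1}))
    have h3 : (S : Subgroup (θ a)) = ⊤ := by
      symm
      exact S.3 ((hq a ha ha1).of_equiv topEquiv.symm) le_top
    rw [h3, ← MonoidHom.range_eq_map, range_subtype] at hS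
    apply le_antisymm (hQ.1.2.2.2 a ha ha1)
    rw [le_inf_iff]
    exact ⟨(inf_eq_right.mp hS.symm), hθ.1.1 a ha ha1⟩

end Cfsg.Agent.Lib.H3SigB
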