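import Cfsg.Agent.Lib.H3SigB
import Cfsg.Agent.Lib.H3SF

/-!
Factorizations from centralizers (helper3).
-/

set_option autoImplicit false
set_option maxHeartbeats 400000
set_option linter.unusedVariables false
set_option linter.unusedSectionVars false

namespace Cfsg.Agent.Lib.H3SigC

open Subgroup Cfsg Cfsg.Agent.Lib.Basic Cfsg.Agent.Lib.Cores Cfsg.Agent.Lib.Components
  Cfsg.Agent.Lib.H3Loc Cfsg.Agent.Lib.H3LocC Cfsg.Agent.Lib.H3LocD Cfsg.Agent.Lib.H3LBal Cfsg.Agent.Lib.H3LocG Cfsg.Agent.Lib.H3Hyp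
  Cfsg.Agent.Lib.SchurZas Cfsg.Agent.Lib.H3Sig Cfsg.Agent.Lib.H3SigB Cfsg.Agent.Lib.CoprimeB
open scoped commutatorElement Pointwise

universe u
variable {G : Type u} [Group G] [Finite G] {p q : ℕ} [Fact p.Prime] [Fact q.Prime]

/-- `P` is a Sylow `q`-subgroup of the subgroup `K` -/
def IsSyl (q : ℕ) (P K : Subgroup G) : Prop := P ≤ K ∧ Nat.card P = q ^ (Nat.card K).factorization q

theorem IsSyl.pgroup {P K : Subgroup G} (h : IsSyl q P K) : IsPGroup q P := IsPGroup.of_card h.2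

theorem isSyl_of_sylow {K : Subgroup G} (S : Sylow q K) : IsSyl q ((S : Subgroup K).map K.subtype) K := by
  refine ⟨map_subtype_le _, ?_⟩
  rw [card_map_of_injective K.subtype_injective]
  exact S.card_eq_multiplicity

theorem card_le_syl {T K : Subgroup G} (hTK : T ≤ K) (hT : IsPGroup q T) : Nat.card T ≤ q ^ (Nat.card K).factorization q := by
  obtain ⟨m, hm⟩ := hT.exists_card_eq
  have hq : q.Prime := Fact.out
  have h1 : q ^ m ∣ Nat.card K := hm ▸ card_dvd_of_le hTK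
  rw [hm]
  exact Nat.pow_le_pow_right hq.pos ((hq.pow_dvd_iff_le_factorization Nat.card_pos.ne').mp h1)

theorem IsSyl.eq_of_le {P T K : Subgroup G} (h : IsSyl q P K) (hTK : T ≤ K) (hT : IsPGroup q T) (hPT : P ≤ T) : P = T :=
  eq_of_le_of_card_ge hPT ((card_le_syl hTK hT).trans h.2.ge)

theorem isSyl_of_card {P K : Subgroup G} (hPK : P ≤ K) (hP : IsPGroup q P) (h : q ^ (Nat.card K).factorization q ≤ Nat.card P) : IsSyl q P K :=
  ⟨hPK, le_antisymm (card_le_syl hPK hP) h⟩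

theorem exists_inv {A K T : Subgroup G} (hAK : A ≤ normalizer (K : Set G)) (hcop : (Nat.card A).Coprime (Nat.card K)) (hs : Group.IsSolvable A)
    (hTK : T ≤ K) (hT : IsPGroup q T) (hAT : A ≤ normalizer (T : Set G)) :
    ∃ P, IsSyl q P K ∧ A ≤ normalizer (P : Set G) ∧ T ≤ P := by
  obtain ⟨S, h1, h2⟩ := Coprime.invariant_le_invariant_sylow hAK hcop (Or.inl hs) q T hTK hT hAT
  exact ⟨_, isSyl_of_sylow S, h2, h1⟩

theorem exists_sylow {P K : Subgroup G} (h : IsSyl q P K) : ∃ S : Sylow q K, (S : Subgroup K).map K.subtype = P := by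
  have h1 : IsPGroup q (P.subgroupOf K) := h.pgroup.of_equiv (subgroupOfEquivOfLe h.1).symm
  obtain ⟨S, hS⟩ := h1.exists_le_sylow
  refine ⟨S, ?_⟩
  symm
  refine h.eq_of_le (map_subtype_le _) (S.2.map _) ?_
  intro x hx
  exact ⟨⟨x, h.1 hx⟩, hS (mem_subgroupOf.mpr hx), rfl⟩

theorem syl_conj {A K P Q : Subgroup G} (hAK : A ≤ normalizer (K : Set G)) (hcop : (Nat.card A).Coprime (Nat.card K)) (hs : Group.IsSolvable A)
    (hP : IsSyl q P K) (hQ : IsSyl q Q K) (hAP : A ≤ normalizer (P : Set G)) (hAQ : A ≤ normalizer (Q : Set G)) :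
    ∃ c ∈ K ⊓ centralizer (A : Set G), P.map (MulAut.conj c).toMonoidHom = Q := by
  obtain ⟨S, hS⟩ := exists_sylow hP
  obtain ⟨T, hT⟩ := exists_sylow hQ
  obtain ⟨c, hc, h⟩ := Coprime.invariant_sylow_conj hAK hcop (Or.inl hs) q S T (hS ▸ hAP) (hT ▸ hAQ)
  refine ⟨c, mem_inf.mpr ⟨c.2, hc⟩, ?_⟩
  rw [← hS, ← hT, ← h]
  ext x
  constructor
  · rintro ⟨_, ⟨z, hz, rfl⟩, rfl⟩
    exact ⟨MulAut.conj c z, ⟨z, hz, rfl⟩, rfl⟩
  · rintro ⟨_, ⟨z, hz, rfl⟩, rfl⟩
    exact ⟨z, ⟨z, hz, rfl⟩, rfl⟩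

theorem card_conj (c : G) (P : Subgroup G) : Nat.card (P.map (MulAut.conj c).toMonoidHom) = Nat.card P :=
  card_map_of_injective (f := (MulAut.conj c).toMonoidHom) (MulAut.conj c).injective

theorem map_conj_norm {P K : Subgroup G} {c : G} (hc : c ∈ normalizer (K : Set G)) (h : P ≤ K) : P.map (MulAut.conj c).toMonoidHom ≤ K := by
  have := Subgroup.map_mono (f := (MulAut.conj c).toMonoidHom) h
  rwa [CFunA.mem_normalizer_iff_cj.mp hc] at this

theorem syl_cent {A K P B : Subgroup G} (hAK : A ≤ normalizer (K : Set G)) (hcop : (Nat.card A).Coprime (Nat.card K)) (hs : Group.IsSolvable A)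
    (hP : IsSyl q P K) (hAP : A ≤ normalizer (P : Set G)) (hB : B ≤ A) :
    IsSyl q (P ⊓ centralizer (B : Set G)) (K ⊓ centralizer (B : Set G)) := by
  refine isSyl_of_card (inf_le_inf_right _ hP.1) (hP.pgroup.to_le inf_le_left) ?_
  obtain ⟨S⟩ := (inferInstance : Nonempty (Sylow q (K ⊓ centralizer (B : Set G) : Subgroup G)))
  have hS := isSyl_of_sylow S
  set T := (S : Subgroup (K ⊓ centralizer (B : Set G) : Subgroup G)).map (K ⊓ centralizer (B : Set G)).subtype with hT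
  haveI := hs
  have hsB : Group.IsSolvable B := isSolvable_of_le hB hs
  have hcopB : (Nat.card B).Coprime (Nat.card K) := Nat.Coprime.coprime_dvd_left (card_dvd_of_le hB) hcop
  have hBT : B ≤ normalizer (T : Set G) := by
    refine le_trans ?_ (centralizer_le_normalizer _)
    intro b hb
    rw [mem_centralizer_iff]
    intro t ht
    exact (mem_centralizer_iff.mp (mem_inf.mp (hS.1 ht)).2 b hb).symm
  obtain ⟨P₁, h1, h2, h3⟩ := exists_inv (hB.trans hAK) hcopB hsB (hS.1.trans inf_le_left) hS.pgroup hBT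
  obtain ⟨c, hc, h4⟩ := syl_conj (hB.trans hAK) hcopB hsB h1 hP h2 (hB.trans hAP)
  rw [← hS.2, ← card_conj c T]
  refine card_le_of_le (le_inf ?_ ?_)
  · exact (Subgroup.map_mono h3).trans h4.le
  · exact map_conj_norm (le_normalizer (mem_inf.mp hc).2) (hS.1.trans inf_le_right)

theorem pgroup_fact {E Q U V : Subgroup G} (hE : Nat.card E = p ^ 2) (he : ∀ x ∈ E, x ^ p = 1) (hQ : IsPGroup q Q)
    (hcop : (Nat.card Q).Coprime p) (hU : U ≤ Q) (hV : V ≤ Q)
    (hfac : ∀ a ∈ E, a ≠ 1 → ∀ x ∈ Q, a * x = x * a → ∃ u ∈ U, ∃ v ∈ V, x = u * v) (n : ℕ) :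
    ∀ Z : Subgroup G, Nat.card Z ≤ n → Z ≤ Q → Q ≤ normalizer (Z : Set G) → E ≤ normalizer (Z : Set G) → E ≤ normalizer (Q : Set G) →
      (∀ x ∈ Q, ∃ u ∈ U, ∃ v ∈ V, ∃ z ∈ Z, x = u * v * z) → ∀ x ∈ Q, ∃ u ∈ U, ∃ v ∈ V, x = u * v := by
  induction n with
  | zero => intro Z hZ; exact absurd (Nat.card_pos (α := Z)) (by omega)
  | succ n ih =>
    intro Z hZn hZQ hQZ hEZ hEQ h
    by_cases hZ0 : Z = ⊥
    · intro x hx
      obtain ⟨u, hu, v, hv, z, hz, rfl⟩ := h x hx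
      rw [hZ0, mem_bot] at hz
      exact ⟨u, hu, v, hv, by rw [hz, mul_one]⟩
    have hlt := commutator_lt_of_pgroup (hQ.to_le hZQ) hQ hQZ hZ0
    have hQZ' : Q ≤ normalizer ((⁅Z, Q⁆ : Subgroup G) : Set G) := Coprime.le_normalizer_commutator_right Q Z
    refine ih ⁅Z, Q⁆ ?_ (hlt.le.trans hZQ) hQZ' (le_normalizer_commutator hEZ hEQ) hEQ ?_
    · have := card_lt_card_of_lt hlt
      omega
    · -- the main step
      have key : ∀ z ∈ Z, ∀ u ∈ U, ∀ v ∈ V, ∃ u' ∈ U, ∃ v' ∈ V, ∃ t ∈ ⁅Z, Q⁆, u * v * z = u' * v' * t := by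
        have hmul : ∀ z z' : G, z' ∈ Z → (∀ u ∈ U, ∀ v ∈ V, ∃ u' ∈ U, ∃ v' ∈ V, ∃ t ∈ ⁅Z, Q⁆, u * v * z = u' * v' * t) →
            (∀ u ∈ U, ∀ v ∈ V, ∃ u' ∈ U, ∃ v' ∈ V, ∃ t ∈ ⁅Z, Q⁆, u * v * z' = u' * v' * t) →
            (∀ u ∈ U, ∀ v ∈ V, ∃ u' ∈ U, ∃ v' ∈ V, ∃ t ∈ ⁅Z, Q⁆, u * v * (z * z') = u' * v' * t) := by
          intro z z' hz' h1 h2 u hu v hv
          obtain ⟨u₁, hu₁, v₁, hv₁, t₁, ht₁, e₁⟩ := h1 u hu v hv
          obtain ⟨u₂, hu₂, v₂, hv₂, t₂, ht₂, e₂⟩ := h2 u₁ hu₁ v₁ hv₁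
          refine ⟨u₂, hu₂, v₂, hv₂, t₂ * (z'⁻¹ * t₁ * z'), mul_mem ht₂ ?_, ?_⟩
          · have := (mem_normalizer_iff.mp (hQZ' (inv_mem (hZQ hz'))) t₁).mp ht₁
            rwa [inv_inv] at this
          · calc u * v * (z * z') = (u * v * z) * z' := by group
              _ = (u₁ * v₁ * z') * (z'⁻¹ * t₁ * z') := by rw [e₁]; group
              _ = u₂ * v₂ * (t₂ * (z'⁻¹ * t₁ * z')) := by rw [e₂]; group
        have hone : ∀ u ∈ U, ∀ v ∈ V, ∃ u' ∈ U, ∃ v' ∈ V, ∃ t ∈ ⁅Z, Q⁆, u * v * (1 : G) = u' * v' * t :=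
          fun u hu v hv => ⟨u, hu, v, hv, 1, one_mem _, rfl⟩
        have hcl : genCent E Z = Z := gen_of_elementary Fact.out hE he hEZ (Nat.Coprime.coprime_dvd_left (card_dvd_of_le hZQ) hcop)
        intro z hz
        have hz2 : z ∈ genCent E Z := by rw [hcl]; exact hz
        refine (closure_induction (p := fun z _ => z ∈ Z ∧ ∀ u ∈ U, ∀ v ∈ V, ∃ u' ∈ U, ∃ v' ∈ V, ∃ t ∈ ⁅Z, Q⁆, u * v * z = u' * v' * t)
          ?_ ⟨one_mem _, hone⟩ ?_ ?_ hz2).2
        · rintro z ⟨hz, a, ha, ha1, haz⟩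
          refine ⟨hz, fun u hu v hv => ?_⟩
          obtain ⟨u₁, hu₁, v₁, hv₁, e⟩ := hfac a ha ha1 z (hZQ hz) haz
          refine ⟨u * u₁, mul_mem hu hu₁, v₁ * v, mul_mem hv₁ hv, ⁅v⁻¹, z⁻¹⁆, ?_, ?_⟩
          · rw [commutator_comm]
            exact commutator_mem_commutator (inv_mem (hV hv)) (inv_mem hz)
          · have e2 : u * u₁ * (v₁ * v) * ⁅v⁻¹, z⁻¹⁆ = u * (u₁ * v₁) * v * ⁅v⁻¹, z⁻¹⁆ := by group
            rw [e2, ← e, commutatorElement_def]
            group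
        · rintro x y _ _ ⟨hx, h1⟩ ⟨hy, h2⟩
          exact ⟨mul_mem hx hy, hmul x y hy h1 h2⟩
        · rintro x _ ⟨hx, h1⟩
          refine ⟨inv_mem hx, ?_⟩
          have hpow : ∀ k : ℕ, ∀ u ∈ U, ∀ v ∈ V, ∃ u' ∈ U, ∃ v' ∈ V, ∃ t ∈ ⁅Z, Q⁆, u * v * x ^ k = u' * v' * t := by
            intro k
            induction k with
            | zero => rw [pow_zero]; exact hone
            | succ k ihk => rw [pow_succ]; exact hmul _ _ hx ihk h1
          have e : x⁻¹ = x ^ (orderOf x - 1) := by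
            rw [inv_eq_iff_mul_eq_one, ← pow_succ', Nat.sub_add_cancel (orderOf_pos x), pow_orderOf_eq_one]
          rw [e]
          exact hpow _
      intro x hx
      obtain ⟨u, hu, v, hv, z, hz, rfl⟩ := h x hx
      exact key z hz u hu v hv

theorem pgroup_fact' {E Q U V : Subgroup G} (hE : Nat.card E = p ^ 2) (he : ∀ x ∈ E, x ^ p = 1) (hQ : IsPGroup q Q)
    (hcop : (Nat.card Q).Coprime p) (hU : U ≤ Q) (hV : V ≤ Q) (hEQ : E ≤ normalizer (Q : Set G))
    (hfac : ∀ a ∈ E, a ≠ 1 → ∀ x ∈ Q, a * x = x * a → ∃ u ∈ U, ∃ v ∈ V, x = u * v) :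
    ∀ x ∈ Q, ∃ u ∈ U, ∃ v ∈ V, x = u * v :=
  pgroup_fact hE he hQ hcop hU hV hfac _ Q le_rfl le_rfl le_normalizer hEQ hEQ
    fun x hx => ⟨1, one_mem _, 1, one_mem _, x, hx, by group⟩

theorem centralizer_zpowers (a : G) : centralizer ((zpowers a : Subgroup G) : Set G) = centralizer {a} := by
  rw [zpowers_eq_closure, centralizer_closure]

theorem s1287 {A K X Y : Subgroup G} (hA : IsElementaryAbelian p A) (hA2 : p ^ 2 ≤ Nat.card A) (hK : ¬ p ∣ Nat.card K)
    (hAK : A ≤ normalizer (K : Set G)) (hX : X ≤ K) (hY : Y ≤ K) (hAX : A ≤ normalizer (X : Set G)) (hAY : A ≤ normalizer (Y : Set G))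
    (hCX : K ⊓ centralizer (A : Set G) ≤ normalizer (X : Set G))
    (hfac : ∀ a ∈ A, a ≠ 1 → ((K ⊓ centralizer {a} : Subgroup G) : Set G) = ((X ⊓ centralizer {a} : Subgroup G) : Set G) * ((Y ⊓ centralizer {a} : Subgroup G) : Set G)) :
    (K : Set G) = (X : Set G) * (Y : Set G) := by
  have hp : p.Prime := Fact.out
  have hs := solv_A hA
  have hcop : (Nat.card A).Coprime (Nat.card K) := cop_A hA hK
  obtain ⟨E, hEA, hE⟩ := H3SF.exists_sub (ea_pgroup hA) hA2
  have he : ∀ x ∈ E, x ^ p = 1 := fun x hx => hA.2 x (hEA hx)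
  -- the key equality of orders
  have key : ∀ r : ℕ, r.Prime → (Nat.card K * Nat.card (X ⊓ Y : Subgroup G)).factorization r = (Nat.card X * Nat.card Y).factorization r := by
    intro q hq
    haveI : Fact q.Prime := ⟨hq⟩
    have hcX : (Nat.card A).Coprime (Nat.card X) := Nat.Coprime.coprime_dvd_right (card_dvd_of_le hX) hcop
    have hcY : (Nat.card A).Coprime (Nat.card Y) := Nat.Coprime.coprime_dvd_right (card_dvd_of_le hY) hcop
    obtain ⟨Yq, hYq, hYqA, -⟩ := exists_inv (q := q) (T := ⊥) hAY hcY hs bot_le (IsPGroup.of_bot) (by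
      intro a _; refine CFunA.mem_normalizer_of_le ?_; rw [Subgroup.map_bot])
    obtain ⟨Q, hQ, hQA, hYQ⟩ := exists_inv (q := q) hAK hcop hs (hYq.1.trans hY) hYq.pgroup hYqA
    obtain ⟨Xq, hXq, hXqA, -⟩ := exists_inv (q := q) (T := ⊥) hAX hcX hs bot_le (IsPGroup.of_bot) (by
      intro a _; refine CFunA.mem_normalizer_of_le ?_; rw [Subgroup.map_bot])
    obtain ⟨Q', hQ', hQA', hXQ'⟩ := exists_inv (q := q) hAK hcop hs (hXq.1.trans hX) hXq.pgroup hXqA
    obtain ⟨c, hc, hcQ⟩ := syl_conj hAK hcop hs hQ' hQ hQA' hQA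
    have sX : IsSyl q (Q ⊓ X) X := by
      refine isSyl_of_card inf_le_right (hQ.pgroup.to_le inf_le_left) ?_
      rw [← hXq.2, ← card_conj c Xq]
      exact card_le_of_le (le_inf ((Subgroup.map_mono hXQ').trans hcQ.le) (map_conj_norm (hCX hc) hXq.1))
    have sY : IsSyl q (Q ⊓ Y) Y := by
      refine isSyl_of_card inf_le_right (hQ.pgroup.to_le inf_le_left) ?_
      rw [← hYq.2]
      exact card_le_of_le (le_inf hYQ hYq.1)
    have hQXA : A ≤ normalizer ((Q ⊓ X : Subgroup G) : Set G) := le_normalizer_inf hQA hAX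
    have hQYA : A ≤ normalizer ((Q ⊓ Y : Subgroup G) : Set G) := le_normalizer_inf hQA hAY
    have hXYA : A ≤ normalizer ((X ⊓ Y : Subgroup G) : Set G) := le_normalizer_inf hAX hAY
    have loc : ∀ a ∈ A, a ≠ 1 → (Q ⊓ centralizer {a} : Subgroup G) ≤ Q ∧
        (((Q ⊓ X) ⊓ centralizer {a} : Subgroup G) : Set G) * (((Q ⊓ Y) ⊓ centralizer {a} : Subgroup G) : Set G) = ((Q ⊓ centralizer {a} : Subgroup G) : Set G) ∧
        Nat.card ((Q ⊓ (X ⊓ Y)) ⊓ centralizer {a} : Subgroup G) = q ^ (Nat.card ((X ⊓ Y) ⊓ centralizer {a} : Subgroup G)).factorization q := by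
      intro a ha ha1
      have hza : zpowers a ≤ A := zpowers_le.mpr ha
      have c1 := (syl_cent hAK hcop hs hQ hQA hza)
      have c2 := (syl_cent hAX hcX hs sX hQXA hza)
      have c3 := (syl_cent hAY hcY hs sY hQYA hza)
      rw [centralizer_zpowers] at c1 c2 c3
      have e1 := card_mul_mul_card_inf (X ⊓ centralizer {a}) (Y ⊓ centralizer {a})
      rw [← hfac a ha ha1] at e1
      have i1 : (X ⊓ centralizer {a}) ⊓ (Y ⊓ centralizer {a}) = (X ⊓ Y) ⊓ centralizer ({a} : Set G) := by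
        ext x; simp only [mem_inf]; tauto
      have i2 : ((Q ⊓ X) ⊓ centralizer {a}) ⊓ ((Q ⊓ Y) ⊓ centralizer {a}) = (Q ⊓ (X ⊓ Y)) ⊓ centralizer ({a} : Set G) := by
        ext x; simp only [mem_inf]; tauto
      rw [i1] at e1
      have e1' : Nat.card (K ⊓ centralizer {a} : Subgroup G) * Nat.card ((X ⊓ Y) ⊓ centralizer {a} : Subgroup G) =
        Nat.card (X ⊓ centralizer {a} : Subgroup G) * Nat.card (Y ⊓ centralizer {a} : Subgroup G) := e1
      have e2 := congrArg (fun m => q ^ (m.factorization q)) e1'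
      beta_reduce at e2
      rw [Nat.factorization_mul Nat.card_pos.ne' Nat.card_pos.ne', Nat.factorization_mul Nat.card_pos.ne' Nat.card_pos.ne',
        Finsupp.add_apply, Finsupp.add_apply, pow_add, pow_add, ← c1.2, ← c2.2, ← c3.2] at e2
      have e3 := card_mul_mul_card_inf ((Q ⊓ X) ⊓ centralizer {a}) ((Q ⊓ Y) ⊓ centralizer {a})
      rw [i2, ← e2] at e3
      have l1 : Nat.card ((Q ⊓ (X ⊓ Y)) ⊓ centralizer {a} : Subgroup G) ≤ q ^ (Nat.card ((X ⊓ Y) ⊓ centralizer {a} : Subgroup G)).factorization q :=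
        card_le_syl (inf_le_inf_right _ inf_le_right) (hQ.pgroup.to_le (inf_le_left.trans inf_le_left))
      have hsub : (((Q ⊓ X) ⊓ centralizer {a} : Subgroup G) : Set G) * (((Q ⊓ Y) ⊓ centralizer {a} : Subgroup G) : Set G) ⊆ ((Q ⊓ centralizer {a} : Subgroup G) : Set G) := by
        rintro _ ⟨x, hx, y, hy, rfl⟩
        have hx' := mem_inf.mp hx
        have hy' := mem_inf.mp hy
        exact mem_inf.mpr ⟨mul_mem (mem_inf.mp hx'.1).1 (mem_inf.mp hy'.1).1, mul_mem hx'.2 hy'.2⟩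
      have l2 : Nat.card ((((Q ⊓ X) ⊓ centralizer {a} : Subgroup G) : Set G) * (((Q ⊓ Y) ⊓ centralizer {a} : Subgroup G) : Set G) : Set G) ≤
          Nat.card (Q ⊓ centralizer {a} : Subgroup G) := Nat.card_mono (Set.toFinite _) hsub
      have p1 : 0 < Nat.card ((Q ⊓ (X ⊓ Y)) ⊓ centralizer {a} : Subgroup G) := Nat.card_pos
      have p2 : 0 < Nat.card (Q ⊓ centralizer {a} : Subgroup G) := Nat.card_pos
      have l3 : Nat.card ((Q ⊓ (X ⊓ Y)) ⊓ centralizer {a} : Subgroup G) = q ^ (Nat.card ((X ⊓ Y) ⊓ centralizer {a} : Subgroup G)).factorization q := by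
        apply le_antisymm l1
        refine Nat.le_of_mul_le_mul_left ?_ p2
        rw [← e3]
        exact Nat.mul_le_mul_right _ l2
      refine ⟨inf_le_left, ?_, l3⟩
      apply Set.eq_of_subset_of_ncard_le hsub _ (Set.toFinite _)
      have : Nat.card (Q ⊓ centralizer {a} : Subgroup G) ≤ Nat.card ((((Q ⊓ X) ⊓ centralizer {a} : Subgroup G) : Set G) * (((Q ⊓ Y) ⊓ centralizer {a} : Subgroup G) : Set G) : Set G) := by
        refine Nat.le_of_mul_le_mul_right ?_ p1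
        rw [e3, l3]
      exact this
    -- Q = (Q ⊓ X)(Q ⊓ Y)
    have hcopQ : (Nat.card Q).Coprime p := Nat.Coprime.coprime_dvd_left (card_dvd_of_le hQ.1) (cop_of hK)
    have f1 := pgroup_fact' hE he hQ.pgroup hcopQ (inf_le_left : Q ⊓ X ≤ Q) (inf_le_left : Q ⊓ Y ≤ Q) (hEA.trans hQA) (by
      intro a ha ha1 x hx hax
      have h1 : x ∈ ((Q ⊓ centralizer {a} : Subgroup G) : Set G) := mem_inf.mpr ⟨hx, mem_centralizer_singleton_iff.mpr hax.symm⟩
      rw [← (loc a (hEA ha) ha1).2.1] at h1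
      obtain ⟨u, hu, v, hv, e⟩ := h1
      exact ⟨u, (mem_inf.mp hu).1, v, (mem_inf.mp hv).1, e.symm⟩)
    have f2 : ((Q ⊓ X : Subgroup G) : Set G) * ((Q ⊓ Y : Subgroup G) : Set G) = (Q : Set G) := by
      apply Set.Subset.antisymm
      · rintro _ ⟨x, hx, y, hy, rfl⟩
        exact mul_mem (mem_inf.mp hx).1 (mem_inf.mp hy).1
      · intro x hx
        obtain ⟨u, hu, v, hv, e⟩ := f1 x hx
        exact ⟨u, hu, v, hv, e.symm⟩
    have f3 := card_mul_mul_card_inf (Q ⊓ X) (Q ⊓ Y)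
    rw [f2] at f3
    have i3 : (Q ⊓ X) ⊓ (Q ⊓ Y) = Q ⊓ (X ⊓ Y) := by ext x; simp only [mem_inf]; tauto
    rw [i3, sX.2, sY.2] at f3
    have f3' : Nat.card Q * Nat.card (Q ⊓ (X ⊓ Y) : Subgroup G) = q ^ (Nat.card X).factorization q * q ^ (Nat.card Y).factorization q := f3
    -- Q ⊓ X ⊓ Y is a Sylow subgroup of X ⊓ Y
    have hcXY : (Nat.card A).Coprime (Nat.card (X ⊓ Y : Subgroup G)) := Nat.Coprime.coprime_dvd_right (card_dvd_of_le inf_le_left) hcX
    obtain ⟨D, hD, hDA, hle⟩ := exists_inv (q := q) hXYA hcXY hs (inf_le_right : Q ⊓ (X ⊓ Y) ≤ X ⊓ Y) (hQ.pgroup.to_le inf_le_left) (le_normalizer_inf hQA hXYA)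
    have hDD : D ≤ Q ⊓ (X ⊓ Y) := by
      have hcl : genCent E D = D := gen_of_elementary Fact.out hE he (hEA.trans hDA) (Nat.Coprime.coprime_dvd_left (card_dvd_of_le (hD.1.trans (inf_le_left.trans hX))) (cop_of hK))
      rw [← hcl, genCent, closure_le]
      rintro z ⟨hz, a, ha, ha1, haz⟩
      have h5 : (Q ⊓ (X ⊓ Y)) ⊓ centralizer {a} = D ⊓ centralizer ({a} : Set G) := by
        apply eq_of_le_of_card_ge (inf_le_inf_right _ hle)
        rw [(loc a (hEA ha) ha1).2.2]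
        exact card_le_syl (inf_le_inf_right _ hD.1) (hD.pgroup.to_le inf_le_left)
      have h6 : z ∈ D ⊓ centralizer ({a} : Set G) := mem_inf.mpr ⟨hz, mem_centralizer_singleton_iff.mpr haz.symm⟩
      rw [← h5] at h6
      exact (mem_inf.mp h6).1
    have h7 : Nat.card (Q ⊓ (X ⊓ Y) : Subgroup G) = q ^ (Nat.card (X ⊓ Y : Subgroup G)).factorization q := by
      rw [le_antisymm hle hDD]; exact hD.2
    rw [hQ.2, h7, ← pow_add, ← pow_add] at f3'
    rw [Nat.factorization_mul Nat.card_pos.ne' Nat.card_pos.ne', Nat.factorization_mul Nat.card_pos.ne' Nat.card_pos.ne',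
        Finsupp.add_apply, Finsupp.add_apply]
    exact Nat.pow_right_injective hq.two_le f3'
  have hcard : Nat.card K * Nat.card (X ⊓ Y : Subgroup G) = Nat.card X * Nat.card Y := by
    apply Nat.eq_of_factorization_eq (Nat.mul_ne_zero Nat.card_pos.ne' Nat.card_pos.ne') (Nat.mul_ne_zero Nat.card_pos.ne' Nat.card_pos.ne')
    intro r
    by_cases hr : r.Prime
    · exact key r hr
    · rw [Nat.factorization_eq_zero_of_not_prime _ hr, Nat.factorization_eq_zero_of_not_prime _ hr]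
  have h8 := card_mul_mul_card_inf X Y
  rw [← hcard] at h8
  have hsub : (X : Set G) * (Y : Set G) ⊆ (K : Set G) := by
    rintro _ ⟨x, hx, y, hy, rfl⟩
    exact mul_mem (hX hx) (hY hy)
  symm
  apply Set.eq_of_subset_of_ncard_le hsub _ (Set.toFinite _)
  have : Nat.card K ≤ Nat.card ((X : Set G) * (Y : Set G) : Set G) := (Nat.eq_of_mul_eq_mul_right Nat.card_pos h8).ge
  exact this

theorem exists_index_p {A B C : Subgroup G} (hA : IsElementaryAbelian p A) (hA1 : A ≠ ⊥) (hC : C ≤ A) (hc : Nat.card A ≤ Nat.card C * p) :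
    ∃ D : Subgroup G, D ≤ C ∧ D ≤ A ∧ D.relIndex A = p := by
  have hp : p.Prime := Fact.out
  obtain ⟨m, hm⟩ := (ea_pgroup hA).exists_card_eq
  have hm0 : m ≠ 0 := by
    rintro rfl
    rw [pow_zero, card_eq_one] at hm
    exact hA1 hm
  obtain ⟨k, rfl⟩ := Nat.exists_eq_succ_of_ne_zero hm0
  have h1 : p ^ k ≤ Nat.card C := by
    rw [hm, Nat.succ_eq_add_one, pow_succ] at hc
    exact Nat.le_of_mul_le_mul_right hc hp.pos
  obtain ⟨D, hD, hDc⟩ := H3SF.exists_sub (ea_sub_pgroup hA hC) h1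
  refine ⟨D, hD, hD.trans hC, ?_⟩
  have h2 : D.relIndex A * Nat.card D = Nat.card A := SylRel.relIndex_mul_card' (hD.trans hC)
  rw [hDc, hm, Nat.succ_eq_add_one, pow_succ, mul_comm] at h2
  exact Nat.eq_of_mul_eq_mul_left (pow_pos hp.pos k) h2

/-- `N(P)` normalizes characteristic subgroups of `P` -/
theorem norm_char {P : Subgroup G} (C : Subgroup P) [hC : C.Characteristic] :
    normalizer (P : Set G) ≤ normalizer ((C.map P.subtype : Subgroup G) : Set G) := by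
  intro n hn
  refine CFunA.mem_normalizer_of_le ?_
  rintro _ ⟨_, ⟨y, hy, rfl⟩, rfl⟩
  have h3 := (characteristic_iff_map_le.1 hC (P.normalizerMonoidHom ⟨n, hn⟩)) ⟨y, hy, rfl⟩
  exact ⟨_, h3, rfl⟩

theorem pPrimePCore_char (q : ℕ) (K : Type u) [Group K] [Finite K] : (pPrimePCore q K).Characteristic := by
  haveI h0 := pPrimeCore_characteristic (G := K) q
  haveI h0' := pPrimeCore_normal (G := K) q
  rw [characteristic_iff_map_le]
  rintro φ _ ⟨x, hx, rfl⟩
  have h1 : (pPrimeCore q K).map φ.toMonoidHom = pPrimeCore q K := characteristic_iff_map_eq.mp h0 φ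
  let e : (K ⧸ pPrimeCore q K) ≃* (K ⧸ pPrimeCore q K) := QuotientGroup.congr (pPrimeCore q K) (pPrimeCore q K) φ h1
  have h2 := pCore_map_equiv q e
  rw [SetLike.mem_coe, PCon.mem_pPrimePCore] at hx
  rw [PCon.mem_pPrimePCore, ← h2]
  exact ⟨_, hx, rfl⟩

theorem s1288 {A K U : Subgroup G} (hA : IsElementaryAbelian p A) (hK : ¬ p ∣ Nat.card K) (hKs : Group.IsSolvable K)
    (hAK : A ≤ normalizer (K : Set G)) (hA1 : A ≠ ⊥) (hU : U ≤ K) (hUq : ¬ q ∣ Nat.card U)
    (hcomm : ∀ B : Subgroup G, B ≤ A → B.relIndex A = p → ¬ q ∣ Nat.card (⁅U, K ⊓ centralizer (B : Set G)⁆ : Subgroup G)) :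
    U ≤ (pPrimeCore q K).map K.subtype := by
  haveI h0 := pPrimeCore_normal (G := K) q
  set π := QuotientGroup.mk' (pPrimeCore q K) with hπ
  have hcopK := cop_A hA hK
  have hs := solv_A hA
  set P := (pPrimePCore q K).map K.subtype with hP
  haveI hchar := pPrimePCore_char q K
  have hAP : A ≤ normalizer (P : Set G) := hAK.trans (norm_char _)
  have hPK : P ≤ K := map_subtype_le _
  obtain ⟨Q, hQ, hQA, -⟩ := exists_inv (q := q) (T := ⊥) hAP (Nat.Coprime.coprime_dvd_right (card_dvd_of_le hPK) hcopK) hs bot_le (IsPGroup.of_bot) (by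
      intro a _; refine CFunA.mem_normalizer_of_le ?_; rw [Subgroup.map_bot])
  have hPn : K ≤ normalizer (P : Set G) := by
    haveI : (pPrimePCore q K).Normal := inferInstance
    exact le_normalizer.trans (norm_char _)
  -- the centralizer
  set U' := U.subgroupOf K with hU'
  set R := ((centralizer ((U'.map π : Subgroup (K ⧸ pPrimeCore q K)) : Set (K ⧸ pPrimeCore q K))).comap π).map K.subtype with hR
  have hQR : Q ≤ R := by
    refine hyp_gen'' hA (Nat.Coprime.coprime_dvd_left (card_dvd_of_le (hQ.1.trans hPK)) (cop_of hK)) hQA fun C hC hc => ?_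
    obtain ⟨D, hDC, hDA, hDp⟩ : ∃ D : Subgroup G, D ≤ C ∧ D ≤ A ∧ D.relIndex A = p := exists_index_p (B := C) hA hA1 hC hc
    have h1 := hcomm D hDA hDp
    intro x hx
    obtain ⟨hx1, hx2⟩ := mem_inf.mp hx
    have hxP : x ∈ P := hQ.1 hx1
    obtain ⟨x', hx', rfl⟩ := hxP
    refine ⟨x', ?_, rfl⟩
    change π x' ∈ centralizer _
    rw [mem_centralizer_iff]
    rintro _ ⟨u, hu, rfl⟩
    have hcm : ⁅(u : G), (x' : G)⁆ ∈ ⁅U, K ⊓ centralizer (D : Set G)⁆ ⊓ P := by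
      refine mem_inf.mpr ⟨commutator_mem_commutator (mem_subgroupOf.mp hu) (mem_inf.mpr ⟨x'.2, centralizer_le hDC hx2⟩), ?_⟩
      rw [commutatorElement_def]
      exact mul_mem ((mem_normalizer_iff.mp (hPn u.2) _).mp ⟨x', hx', rfl⟩) (inv_mem ⟨x', hx', rfl⟩)
    have hq' : (Nat.card (⁅U, K ⊓ centralizer (D : Set G)⁆ ⊓ P : Subgroup G)).Coprime q :=
      Nat.Coprime.coprime_dvd_left (card_dvd_of_le inf_le_left) (cop_of h1)
    have h3 : ⁅u, x'⁆ ∈ pPrimeCore q K := by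
      rw [← QuotientGroup.eq_one_iff]
      have h4 : π ⁅u, x'⁆ ∈ pCore q (K ⧸ pPrimeCore q K) := by
        have : ⁅u, x'⁆ ∈ pPrimePCore q K := by
          obtain ⟨y, hy, e⟩ := (mem_inf.mp hcm).2
          have e' : y = ⁅u, x'⁆ := Subtype.ext e
          rwa [← e']
        exact this
      have h5 : (orderOf (π ⁅u, x'⁆)).Coprime q := by
        have h6 : orderOf (π ⁅u, x'⁆) ∣ orderOf ⁅u, x'⁆ := orderOf_map_dvd π _
        have h7 : orderOf ⁅u, x'⁆ = orderOf ⁅(u : G), (x' : G)⁆ := by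
          rw [← orderOf_injective K.subtype K.subtype_injective]; rfl
        have h8 : orderOf ⁅(u : G), (x' : G)⁆ ∣ Nat.card (⁅U, K ⊓ centralizer (D : Set G)⁆ ⊓ P : Subgroup G) := Subgroup.orderOf_dvd_natCard _ hcm
        exact Nat.Coprime.coprime_dvd_left (h6.trans (h7 ▸ h8)) hq'
      obtain ⟨k, hk⟩ := (pCore_isPGroup (G := K ⧸ pPrimeCore q K) q) ⟨_, h4⟩
      have h9 : orderOf (π ⁅u, x'⁆) ∣ q ^ k := by
        rw [orderOf_dvd_iff_pow_eq_one]
        exact congrArg Subtype.val hk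
      have h10 : orderOf (π ⁅u, x'⁆) = 1 := Nat.Coprime.eq_one_of_dvd (Nat.Coprime.pow_right k h5) h9
      exact orderOf_eq_one_iff.mp h10
    have h11 : π ⁅u, x'⁆ = 1 := (QuotientGroup.eq_one_iff _).mpr h3
    rw [map_commutatorElement, commutatorElement_eq_one_iff_mul_comm] at h11
    exact h11
  -- so `U` centralizes `O_q` of the quotient
  have hcen : U'.map π ≤ centralizer (pCore q (K ⧸ pPrimeCore q K) : Set (K ⧸ pPrimeCore q K)) := by
    have hcov : pCore q (K ⧸ pPrimeCore q K) ≤ centralizer ((U'.map π : Subgroup (K ⧸ pPrimeCore q K)) : Set (K ⧸ pPrimeCore q K)) := by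
      obtain ⟨S, hS⟩ := exists_sylow (K := P) hQ
      have h12 : IsPGroup q ((pPrimePCore q K).map π) := by rw [hπ, PCon.pPrimePCore_map]; exact pCore_isPGroup q
      have hQK : (Q.subgroupOf K).map K.subtype = Q := map_subgroupOf_eq_of_le (hQ.1.trans hPK)
      have h13 : IsSyl q (Q.subgroupOf K) (pPrimePCore q K) := by
        refine ⟨?_, ?_⟩
        · intro x hx
          obtain ⟨y, hy, e⟩ := hQ.1 (mem_subgroupOf.mp hx)
          have e' : y = x := Subtype.ext e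
          rwa [← e']
        · rw [Nat.card_congr (subgroupOfEquivOfLe (hQ.1.trans hPK)).toEquiv, hQ.2, hP, card_map_of_injective K.subtype_injective]
      obtain ⟨S', hS'⟩ := exists_sylow h13
      have h14 := PCon.map_sylow_eq π h12 S'
      rw [hS'] at h14
      have h15 : (pPrimePCore q K).map π = pCore q (K ⧸ pPrimeCore q K) := PCon.pPrimePCore_map q
      rw [← h15, ← h14]
      rintro _ ⟨x, hx, rfl⟩
      obtain ⟨y, hy, e⟩ := hQR (mem_subgroupOf.mp hx)
      have e' : y = x := Subtype.ext e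
      rw [← e']
      exact hy
    intro y hy
    rw [mem_centralizer_iff]
    intro z hz
    exact (mem_centralizer_iff.mp (hcov hz) y hy).symm
  haveI := hKs
  have hsol : Group.IsSolvable (K ⧸ pPrimeCore q K) := solvable_of_surjective (QuotientGroup.mk'_surjective (pPrimeCore q K))
  have hcst : PCon.Cst q (K ⧸ pPrimeCore q K) := (cst_iff_layer (pPrimeCore_quotient_pPrimeCore q)).mpr (by
    rw [layer_eq_bot_iff]
    intro L hL
    haveI := hsol
    exact component_not_solvable hL (inferInstance))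
  have hbot : U'.map π = ⊥ := by
    have h16 : IsPGroup q (U'.map π) := (pCore_isPGroup q).to_le (hcen.trans hcst)
    have h17 : (Nat.card (U'.map π)).Coprime q := by
      refine Nat.Coprime.coprime_dvd_left (Subgroup.card_map_dvd U' π) ?_
      rw [Nat.card_congr (subgroupOfEquivOfLe hU).toEquiv]
      exact cop_of hUq
    obtain ⟨m, hm⟩ := h16.exists_card_eq
    rw [← card_eq_one]
    exact Nat.Coprime.eq_one_of_dvd (Nat.Coprime.pow_right m h17) hm.dvd
  intro x hx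
  refine ⟨⟨x, hU hx⟩, ?_, rfl⟩
  have h18 : π ⟨x, hU hx⟩ ∈ U'.map π := ⟨_, mem_subgroupOf.mpr hx, rfl⟩
  rw [hbot, mem_bot] at h18
  exact (QuotientGroup.eq_one_iff _).mp h18

end Cfsg.Agent.Lib.H3SigC
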