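import Mathlib
import Cfsg.Prelude.Def_Local
import Cfsg.Agent.Lib.PSol
import Cfsg.Agent.Lib.ZStarE
import Cfsg.Agent.S3744

set_option autoImplicit false

namespace Cfsg.Agent.Lib.H3SpanOrb

open Subgroup

universe u v w

theorem key {k : Type u} {V : Type v} {H : Type w} [Field k] {p : ℕ} [Fact p.Prime] [AddCommGroup V]
    [Module k V] [Group H] [Finite H] (hsol : Cfsg.IsPSolvable p H) (ρ : Representation k H V) (a : V)
    (S : Subgroup H) (hS : ∀ h, h ∈ S ↔ ρ h a = a) (hidx : ¬ p ∣ S.index) :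
    ∃ (w : V) (E : V →ₗ[k] V) (n : ℕ), ¬ p ∣ n ∧ (∀ h, E (ρ h a) = w) ∧
      (∀ v, (∀ h, ρ h v = v) → E v = (n : k) • v) := by
  have hp : p.Prime := Fact.out
  obtain ⟨⟨Q, hQc, m, hQi⟩, -, -⟩ := Cfsg.Agent.S3744.result hsol
  haveI : Fintype Q := Fintype.ofFinite Q
  have hcop : S.index.Coprime Q.index := by
    rw [hQi]
    exact (Nat.Coprime.pow_right m ((hp.coprime_iff_not_dvd.2 hidx).symm))
  refine ⟨∑ q : Q, ρ (q : H) a, ∑ q : Q, ρ (q : H), Nat.card Q, ?_, ?_, ?_⟩
  · exact (hp.coprime_iff_not_dvd.1 hQc.symm)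
  · intro h
    obtain ⟨x, hx, y, hy, rfl⟩ := Cfsg.Agent.Lib.ZStar.exists_mul_of_coprime_index hcop h
    rw [LinearMap.sum_apply]
    have h1 : ∀ q : Q, ρ (q : H) (ρ (x * y) a) = ρ (((q * ⟨x, hx⟩ : Q)) : H) a := by
      intro q
      rw [map_mul, Module.End.mul_apply, (hS y).1 hy, Subgroup.coe_mul, map_mul, Module.End.mul_apply]
    rw [Finset.sum_congr rfl (fun q _ => h1 q)]
    exact Fintype.sum_equiv (Equiv.mulRight (⟨x, hx⟩ : Q)) _ _ (fun q => rfl)
  · intro v hv
    have h1 : ∀ q : Q, ρ (q : H) v = v := fun q => hv q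
    rw [LinearMap.sum_apply, Finset.sum_congr rfl (fun q _ => h1 q), Finset.sum_const,
      Finset.card_univ, ← Nat.card_eq_fintype_card, Nat.cast_smul_eq_nsmul]

theorem mem_span {k : Type u} {V : Type v} {H : Type w} [Field k] {p : ℕ} [Fact p.Prime] [CharP k p]
    [AddCommGroup V]
    [Module k V] [Group H] (ρ : Representation k H V) (a : V)
    (hspan : Submodule.span k {u : V | ∃ h : H, ρ h a = u} = ⊤) {w : V} {E : V →ₗ[k] V} {n : ℕ}
    (hn : ¬ p ∣ n) (hE : ∀ h, E (ρ h a) = w) (hEv : ∀ v, (∀ h, ρ h v = v) → E v = (n : k) • v)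
    {v : V} (hv : ∀ h, ρ h v = v) : v ∈ Submodule.span k ({w} : Set V) := by
  have h1 : E v ∈ Submodule.span k ({w} : Set V) := by
    have h2 : v ∈ Submodule.span k {u : V | ∃ h : H, ρ h a = u} := by rw [hspan]; trivial
    have h3 : Submodule.span k {u : V | ∃ h : H, ρ h a = u} ≤
        (Submodule.span k ({w} : Set V)).comap E := by
      rw [Submodule.span_le]
      rintro _ ⟨h, rfl⟩
      change E (ρ h a) ∈ Submodule.span k ({w} : Set V)
      rw [hE h]
      exact Submodule.mem_span_singleton_self w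
    exact h3 h2
  have hn0 : (n : k) ≠ 0 := by
    intro h
    exact hn ((CharP.cast_eq_zero_iff k p n).1 h)
  rw [hEv v hv] at h1
  have h4 := Submodule.smul_mem _ ((n : k)⁻¹) h1
  rwa [smul_smul, inv_mul_cancel₀ hn0, one_smul] at h4

/-- the stabiliser -/
def stab {k : Type u} {V : Type v} {H : Type w} [Field k] [AddCommGroup V]
    [Module k V] [Group H] (ρ : Representation k H V) (a : V) : Subgroup H where
  carrier := {h | ρ h a = a}
  one_mem' := by
    show ρ 1 a = a
    rw [map_one]; rfl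
  mul_mem' := by
    intro x y hx hy
    show ρ (x * y) a = a
    rw [map_mul, Module.End.mul_apply, show ρ y a = a from hy, show ρ x a = a from hx]
  inv_mem' := by
    intro x hx
    show ρ x⁻¹ a = a
    have h1 : ρ x⁻¹ (ρ x a) = a := by
      rw [← Module.End.mul_apply, ← map_mul, inv_mul_cancel, map_one]; rfl
    rw [show ρ x a = a from hx] at h1
    exact h1

theorem mem_stab {k : Type u} {V : Type v} {H : Type w} [Field k] [AddCommGroup V]
    [Module k V] [Group H] (ρ : Representation k H V) (a : V) (h : H) :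
    h ∈ stab ρ a ↔ ρ h a = a := Iff.rfl

theorem card_orb {k : Type u} {V : Type v} {H : Type w} [Field k] [AddCommGroup V]
    [Module k V] [Group H] (ρ : Representation k H V) (a : V) :
    Nat.card {u : V | ∃ h : H, ρ h a = u} = (stab ρ a).index := by
  letI : MulAction H V := MulAction.compHom V (ρ : H →* Module.End k V)
  have h1 : MulAction.stabilizer H a = stab ρ a := by
    ext h
    exact Iff.rfl
  have h2 := Nat.card_congr (MulAction.orbitEquivQuotientStabilizer H a)
  rw [h1] at h2
  exact h2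

theorem main {k : Type u} {V : Type v} {H : Type w} [Field k] (p : ℕ) [Fact p.Prime] [CharP k p]
    [AddCommGroup V] [Module k V]
    [Group H] [Finite H] (hsol : Cfsg.IsPSolvable p H) (ρ : Representation k H V) (a : V)
    (hfix : ∃ P : Sylow p H, ∀ x : H, x ∈ (P : Subgroup H) → ρ x a = a)
    (hspan : Submodule.span k {u : V | ∃ h : H, ρ h a = u} = ⊤) :
    Module.finrank k ρ.invariants ≤ 1 ∧
    ∀ b : V, (Nat.card {u : V | ∃ h : H, ρ h a = u}).Coprime (Nat.card {u : V | ∃ h : H, ρ h b = u}) →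
      ∀ h : H, ρ h b = b := by
  have hp : p.Prime := Fact.out
  have hidx : ¬ p ∣ (stab ρ a).index := by
    obtain ⟨P, hP⟩ := hfix
    intro hd
    have h1 : (P : Subgroup H) ≤ stab ρ a := fun x hx => hP x hx
    exact P.not_dvd_index (hd.trans (Subgroup.index_dvd_of_le h1))
  constructor
  · obtain ⟨w, E, n, hn, hE, hEv⟩ := key hsol ρ a (stab ρ a) (fun h => Iff.rfl) hidx
    have h1 : ρ.invariants ≤ Submodule.span k ({w} : Set V) := by
      intro v hv
      exact mem_span ρ a hspan hn hE hEv (fun h => hv h)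
    calc Module.finrank k ρ.invariants ≤ Module.finrank k (Submodule.span k ({w} : Set V)) :=
          Submodule.finrank_mono h1
      _ ≤ 1 := by
          have := finrank_span_le_card (R := k) ({w} : Set V)
          simpa using this
  · intro b hb
    rw [card_orb, card_orb] at hb
    set Sa := stab ρ a with hSa
    set Sb := stab ρ b with hSb
    -- factorisation
    have hfac : ∀ h : H, ∃ x ∈ Sb, ρ h a = ρ x a := by
      intro h
      obtain ⟨x, hx, y, hy, rfl⟩ := Cfsg.Agent.Lib.ZStar.exists_mul_of_coprime_index hb h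
      refine ⟨x, hx, ?_⟩
      rw [map_mul, Module.End.mul_apply, (mem_stab ρ a y).1 hy]
    let ρ' : Representation k Sb V := (ρ : H →* (V →ₗ[k] V)).comp Sb.subtype
    have hρ' : ∀ (x : Sb) (v : V), ρ' x v = ρ (x : H) v := fun x v => rfl
    have hset : {u : V | ∃ x : Sb, ρ' x a = u} = {u : V | ∃ h : H, ρ h a = u} := by
      ext u
      constructor
      · rintro ⟨x, hx⟩
        exact ⟨x, hx⟩
      · rintro ⟨h, rfl⟩
        obtain ⟨x, hx, he⟩ := hfac h
        exact ⟨⟨x, hx⟩, he.symm⟩
    have hsol' : Cfsg.IsPSolvable p Sb := Cfsg.Agent.Lib.PSol.subgroup hsol Sb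
    have hidx' : (stab ρ' a).index = Sa.index := by
      rw [← card_orb, hset, card_orb]
    obtain ⟨w, E, n, hn, hE, hEv⟩ := key hsol' ρ' a (stab ρ' a) (fun h => Iff.rfl)
      (by rw [hidx']; exact hidx)
    have hbw : b ∈ Submodule.span k ({w} : Set V) :=
      mem_span ρ' a (by rw [hset]; exact hspan) hn hE hEv (fun x => x.2)
    -- orbit sum
    haveI hfinX : Finite {u : V | ∃ h : H, ρ h a = u} :=
      Finite.of_surjective (fun h : H => (⟨ρ h a, h, rfl⟩ : {u : V | ∃ h : H, ρ h a = u}))
        (by rintro ⟨u, h, rfl⟩; exact ⟨h, rfl⟩)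
    haveI : Fintype {u : V | ∃ h : H, ρ h a = u} := Fintype.ofFinite _
    let s : V := ∑ x : {u : V | ∃ h : H, ρ h a = u}, (x : V)
    have hsfix : ∀ h : H, ρ h s = s := by
      intro h
      change ρ h (∑ x : {u : V | ∃ h : H, ρ h a = u}, (x : V)) = _
      rw [map_sum]
      let e : {u : V | ∃ h : H, ρ h a = u} ≃ {u : V | ∃ h : H, ρ h a = u} :=
        { toFun := fun x => ⟨ρ h x.1, by
            obtain ⟨g, hg⟩ := x.2
            exact ⟨h * g, by rw [map_mul, Module.End.mul_apply, hg]⟩⟩
          invFun := fun x => ⟨ρ h⁻¹ x.1, by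
            obtain ⟨g, hg⟩ := x.2
            exact ⟨h⁻¹ * g, by rw [map_mul, Module.End.mul_apply, hg]⟩⟩
          left_inv := by
            intro x
            apply Subtype.ext
            change ρ h⁻¹ (ρ h x.1) = x.1
            rw [← Module.End.mul_apply, ← map_mul, inv_mul_cancel, map_one]; rfl
          right_inv := by
            intro x
            apply Subtype.ext
            change ρ h (ρ h⁻¹ x.1) = x.1
            rw [← Module.End.mul_apply, ← map_mul, mul_inv_cancel, map_one]; rfl }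
      exact Fintype.sum_equiv e _ _ (fun x => rfl)
    have hEs : E s = (Sa.index : k) • w := by
      change E (∑ x : {u : V | ∃ h : H, ρ h a = u}, (x : V)) = _
      rw [map_sum]
      have h1 : ∀ x : {u : V | ∃ h : H, ρ h a = u}, E (x : V) = w := by
        rintro ⟨u, h, rfl⟩
        obtain ⟨x, hx, he⟩ := hfac h
        change E (ρ h a) = w
        rw [he]
        exact hE ⟨x, hx⟩
      rw [Finset.sum_congr rfl (fun x _ => h1 x), Finset.sum_const, Finset.card_univ,
        ← Nat.card_eq_fintype_card, card_orb, Nat.cast_smul_eq_nsmul]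
    have hEs2 : E s = (n : k) • s := hEv s (fun x => hsfix x)
    have hm0 : (Sa.index : k) ≠ 0 := by
      intro h
      exact hidx ((CharP.cast_eq_zero_iff k p _).1 h)
    have hw : w = (Sa.index : k)⁻¹ • (n : k) • s := by
      rw [← hEs2, hEs, smul_smul, inv_mul_cancel₀ hm0, one_smul]
    obtain ⟨c, rfl⟩ := Submodule.mem_span_singleton.1 hbw
    intro h
    rw [hw, map_smul, map_smul, map_smul, hsfix]

end Cfsg.Agent.Lib.H3SpanOrb
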