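import Cfsg.Agent.Lib.H3Sub
import Cfsg.Agent.Lib.PNilp

/-! subnormalizers of p-subgroups (helper3) -/

set_option autoImplicit false

namespace Cfsg.Agent.Lib.H3Sub

open Subgroup Cfsg Cfsg.Agent.Lib.Basic Cfsg.Agent.Lib.Cores Cfsg.Agent.Lib.Subnorm Cfsg.Agent.Lib
open scoped Pointwise

universe u
variable {G : Type u} [Group G] [Finite G]

theorem sn_iff (p : ℕ) [hp : Fact p.Prime] {H : Subgroup G} (hH : IsPGroup p H) (g : G) :
    (H.subgroupOf (H ⊔ zpowers g)).IsSubnormal ↔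
      ∃ R : Subgroup G, IsPGroup p R ∧ H ≤ R ∧ g ∈ normalizer (R : Set G) := by
  constructor
  · intro hsn
    set K := H ⊔ zpowers g with hK
    have h1 : H.subgroupOf K ≤ pCore p K := le_pCore_of_isSubnormal hsn hH.comap_subtype
    refine ⟨(pCore p K).map K.subtype, (pCore_isPGroup p).map _, ?_, ?_⟩
    · intro x hx
      exact ⟨⟨x, (le_sup_left : H ≤ K) hx⟩, h1 hx, rfl⟩
    · have hg : g ∈ K := (le_sup_right : zpowers g ≤ K) (mem_zpowers g)
      have h2 : (pCore p K).Normal := pCore_normal p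
      rw [mem_normalizer_iff_smul]
      ext y
      rw [SchurZas.mem_conj_smul_iff]
      constructor
      · rintro ⟨z, hz, hzy⟩
        refine ⟨⟨g, hg⟩ * z * ⟨g, hg⟩⁻¹, h2.conj_mem z hz ⟨g, hg⟩, ?_⟩
        change g * (z : G) * g⁻¹ = y
        have : (z : G) = g⁻¹ * y * g := hzy
        rw [this]; group
      · rintro ⟨z, hz, rfl⟩
        refine ⟨⟨g, hg⟩⁻¹ * z * ⟨g, hg⟩, ?_, rfl⟩
        have := h2.conj_mem z hz ⟨g, hg⟩⁻¹
        rwa [inv_inv] at this
  · rintro ⟨R, hR, hHR, hg⟩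
    set K := H ⊔ zpowers g with hK
    have hKN : K ≤ normalizer (R : Set G) := sup_le (hHR.trans le_normalizer) (zpowers_le.2 hg)
    have hRn : (R.subgroupOf K).Normal := by
      constructor
      intro x hx k
      exact (mem_normalizer_iff.1 (hKN k.2) x).1 hx
    have hRp : IsPGroup p (R.subgroupOf K) := hR.comap_subtype
    have hnil : Group.IsNilpotent (R.subgroupOf K) := hRp.isNilpotent
    have hle : H.subgroupOf K ≤ R.subgroupOf K := fun x hx => hHR hx
    exact IsSubnormal.trans hle (isSubnormal_of_nilpotent hnil _) hRn.isSubnormal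

theorem radical_ge (p : ℕ) [hp : Fact p.Prime] {R : Subgroup G}
    (hR : (pCore p (normalizer (R : Set G))).map (normalizer (R : Set G)).subtype = R) :
    sInf {K : Subgroup G | ∃ Q : Sylow p G, R ≤ (Q : Subgroup G) ∧ K = (Q : Subgroup G)} ≤ R := by
  set X := sInf {K : Subgroup G | ∃ Q : Sylow p G, R ≤ (Q : Subgroup G) ∧ K = (Q : Subgroup G)} with hX
  have hRp : IsPGroup p R := by
    rw [← hR]; exact (pCore_isPGroup p).map _
  obtain ⟨Q₀, hQ₀⟩ := hRp.exists_le_sylow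
  have hXQ : ∀ Q : Sylow p G, R ≤ (Q : Subgroup G) → X ≤ (Q : Subgroup G) := fun Q hQ => sInf_le ⟨Q, hQ, rfl⟩
  have hXp : IsPGroup p X := Q₀.isPGroup'.to_le (hXQ Q₀ hQ₀)
  have hRX : R ≤ X := by
    apply le_sInf
    rintro K ⟨Q, hQ, rfl⟩
    exact hQ
  -- the normalizer of R in X is R
  have hkey : X ⊓ normalizer (R : Set G) ≤ R := by
    intro x hx
    have h1 : (⟨x, hx.2⟩ : normalizer (R : Set G)) ∈ pCore p (normalizer (R : Set G)) := by
      rw [pCore_eq_iInf_sylow, mem_iInf]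
      intro T
      -- a Sylow subgroup of G above T
      have hTp : IsPGroup p ((T : Subgroup (normalizer (R : Set G))).map (normalizer (R : Set G)).subtype) := T.isPGroup'.map _
      obtain ⟨Q, hQ⟩ := hTp.exists_le_sylow
      have hRQ : R ≤ (Q : Subgroup G) := by
        refine le_trans ?_ hQ
        conv_lhs => rw [← hR]
        exact map_mono (pCore_le_sylow T)
      have h2 : (T : Subgroup (normalizer (R : Set G))) ≤ (Q : Subgroup G).subgroupOf (normalizer (R : Set G)) := by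
        intro t ht
        exact hQ ⟨t, ht, rfl⟩
      have h3 : (Q : Subgroup G).subgroupOf (normalizer (R : Set G)) = T := T.is_maximal' Q.isPGroup'.comap_subtype h2
      have h4 : (⟨x, hx.2⟩ : normalizer (R : Set G)) ∈ (Q : Subgroup G).subgroupOf (normalizer (R : Set G)) := hXQ Q hRQ hx.1
      rw [h3] at h4
      exact h4
    rw [← hR]
    exact ⟨_, h1, rfl⟩
  by_contra hnle
  have hlt : R < X := lt_of_le_of_ne hRX (fun h => hnle h.ge)
  have h1 := PNilp.lt_inf_normalizer hXp.isNilpotent hlt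
  exact h1.not_ge hkey

theorem s4089 (p : ℕ) [Fact p.Prime]
    (H : Subgroup G) (hH : IsPGroup p H) :
    {g : G | ((H).subgroupOf (H ⊔ Subgroup.zpowers g)).IsSubnormal} =
      {g : G | ∃ R : Subgroup G, H ≤ R ∧ (Cfsg.pCore p (Subgroup.normalizer (R : Set G))).map (Subgroup.normalizer (R : Set G)).subtype = R ∧ g ∈ Subgroup.normalizer (R : Set G)} ∧
    ∀ g : G, (((H).subgroupOf (H ⊔ Subgroup.zpowers g)).IsSubnormal ↔
      (((sInf {K : Subgroup G | ∃ Q : Sylow p G, H ≤ (Q : Subgroup G) ∧ K = (Q : Subgroup G)})).subgroupOf ((sInf {K : Subgroup G | ∃ Q : Sylow p G, H ≤ (Q : Subgroup G) ∧ K = (Q : Subgroup G)}) ⊔ Subgroup.zpowers g)).IsSubnormal) := by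
  have hrad : ∀ g : G, (∃ R : Subgroup G, IsPGroup p R ∧ H ≤ R ∧ g ∈ normalizer (R : Set G)) →
      ∃ R : Subgroup G, H ≤ R ∧ (Cfsg.pCore p (Subgroup.normalizer (R : Set G))).map (Subgroup.normalizer (R : Set G)).subtype = R ∧ g ∈ Subgroup.normalizer (R : Set G) := by
    rintro g ⟨R₀, hR₀, hHR, hg⟩
    obtain ⟨R, h1, h2, h3⟩ := exists_radical p _ R₀ le_rfl hR₀ g hg
    exact ⟨R, hHR.trans h1, h2, h3⟩
  refine ⟨?_, ?_⟩
  · ext g
    rw [Set.mem_setOf_eq, Set.mem_setOf_eq, sn_iff p hH]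
    constructor
    · exact hrad g
    · rintro ⟨R, h1, h2, h3⟩
      refine ⟨R, ?_, h1, h3⟩
      rw [← h2]; exact (pCore_isPGroup p).map _
  · intro g
    set I := sInf {K : Subgroup G | ∃ Q : Sylow p G, H ≤ (Q : Subgroup G) ∧ K = (Q : Subgroup G)} with hI
    obtain ⟨Q₀, hQ₀⟩ := hH.exists_le_sylow
    have hIp : IsPGroup p I := Q₀.isPGroup'.to_le (sInf_le ⟨Q₀, hQ₀, rfl⟩)
    have hHI : H ≤ I := by
      apply le_sInf
      rintro K ⟨Q, hQ, rfl⟩
      exact hQ
    rw [sn_iff p hH, sn_iff p hIp]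
    constructor
    · intro h
      obtain ⟨R, h1, h2, h3⟩ := hrad g h
      refine ⟨R, ?_, ?_, h3⟩
      · rw [← h2]; exact (pCore_isPGroup p).map _
      · refine le_trans ?_ (radical_ge p h2)
        apply le_sInf
        rintro K ⟨Q, hQ, rfl⟩
        exact sInf_le ⟨Q, h1.trans hQ, rfl⟩
    · rintro ⟨R, h1, h2, h3⟩
      exact ⟨R, h1, hHI.trans h2, h3⟩

end Cfsg.Agent.Lib.H3Sub
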