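import Cfsg.Agent.Lib.CoprimeB
import Cfsg.Agent.Lib.Cyc
import Mathlib.GroupTheory.SpecificGroups.ZGroup

/-! coprime action on groups with cyclic Sylow subgroups (helper3) -/

set_option autoImplicit false

namespace Cfsg.Agent.Lib.H3ZGrp

open Subgroup Cfsg.Agent.Lib
open scoped Pointwise commutatorElement

universe u
variable {X : Type u} [Group X] [Finite X]

theorem comm_cent {E : Subgroup X} (hE : IsCyclic E) {x y : X} (hx : x ∈ normalizer (E : Set X)) (hy : y ∈ normalizer (E : Set X)) :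
    ⁅x, y⁆ ∈ centralizer (E : Set X) := by
  obtain ⟨⟨e, he⟩, hgen⟩ := hE.exists_generator
  have hgen' : ∀ w ∈ E, ∃ i : ℤ, e ^ i = w := by
    intro w hw
    obtain ⟨i, hi⟩ := mem_zpowers_iff.1 (hgen ⟨w, hw⟩)
    exact ⟨i, by simpa using congrArg Subtype.val hi⟩
  obtain ⟨i, hi⟩ := hgen' _ ((mem_normalizer_iff.1 hx e).1 he)
  obtain ⟨j, hj⟩ := hgen' _ ((mem_normalizer_iff.1 hy e).1 he)
  have key : ∀ w ∈ E, x * (y * w * y⁻¹) * x⁻¹ = y * (x * w * x⁻¹) * y⁻¹ := by
    intro w hw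
    obtain ⟨n, rfl⟩ := hgen' w hw
    have e1 : y * e ^ n * y⁻¹ = (e ^ j) ^ n := by rw [hj, conj_zpow]
    have e2 : x * e ^ n * x⁻¹ = (e ^ i) ^ n := by rw [hi, conj_zpow]
    have e3 : ∀ m : ℤ, x * e ^ m * x⁻¹ = (e ^ i) ^ m := fun m => by rw [hi, conj_zpow]
    have e4 : ∀ m : ℤ, y * e ^ m * y⁻¹ = (e ^ j) ^ m := fun m => by rw [hj, conj_zpow]
    rw [e1, e2, ← zpow_mul, ← zpow_mul, e3, e4, ← zpow_mul, ← zpow_mul]
    congr 1
    ring
  rw [mem_centralizer_iff]
  intro w hw
  have hw' : (y * x)⁻¹ * w * (y * x) ∈ E := by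
    have h1 : (y * x)⁻¹ ∈ normalizer (E : Set X) := inv_mem (mul_mem hy hx)
    have h2 := (mem_normalizer_iff.1 h1 w).1 hw
    rwa [inv_inv] at h2
  have h1 := key _ hw'
  have h2 : y * (x * ((y * x)⁻¹ * w * (y * x)) * x⁻¹) * y⁻¹ = w := by group
  rw [h2] at h1
  have h3 : ⁅x, y⁆ * w * ⁅x, y⁆⁻¹ = w := by
    calc ⁅x, y⁆ * w * ⁅x, y⁆⁻¹ = x * (y * ((y * x)⁻¹ * w * (y * x)) * y⁻¹) * x⁻¹ := by
          rw [commutatorElement_def]; group
      _ = w := h1
  calc w * ⁅x, y⁆ = (⁅x, y⁆ * w * ⁅x, y⁆⁻¹) * ⁅x, y⁆ := by rw [h3]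
    _ = ⁅x, y⁆ * w := by group

theorem nil_of (D : Subgroup X) (h : ⁅D, D⁆ ≤ centralizer (D : Set X)) : Group.IsNilpotent D := by
  apply Group.of_quotient_center_nilpotent
  have hc : ∀ x y : D ⧸ center D, x * y = y * x := by
    intro x y
    obtain ⟨x, rfl⟩ := QuotientGroup.mk_surjective x
    obtain ⟨y, rfl⟩ := QuotientGroup.mk_surjective y
    rw [← QuotientGroup.mk_mul, ← QuotientGroup.mk_mul, QuotientGroup.eq, mem_center_iff]
    intro z
    apply Subtype.ext
    have h1 : ⁅(y : X)⁻¹, (x : X)⁻¹⁆ ∈ centralizer (D : Set X) := h (commutator_mem_commutator (inv_mem y.2) (inv_mem x.2))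
    have h2 := mem_centralizer_iff.1 h1 z z.2
    have h3 : ((x : X) * y)⁻¹ * (y * x) = ⁅(y : X)⁻¹, (x : X)⁻¹⁆ := by
      rw [commutatorElement_def]; group
    change (z : X) * (((x : X) * y)⁻¹ * (y * x)) = (((x : X) * y)⁻¹ * (y * x)) * z
    rw [h3]; exact h2
  letI : CommGroup (D ⧸ center D) := { mul_comm := hc }
  infer_instance

theorem internal {A K : Subgroup X} (hAK : A ≤ normalizer (K : Set X)) (hcop : (Nat.card A).Coprime (Nat.card K))
    (hZ : IsZGroup K) :
    IsCyclic (⁅K, A⁆ : Subgroup X) ∧ ⁅K, A⁆ ⊓ (K ⊓ centralizer (A : Set X)) = ⊥ ∧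
      ⁅K, A⁆ ⊔ (K ⊓ centralizer (A : Set X)) = K ∧
      (Nat.card (⁅K, A⁆ : Subgroup X)).Coprime (Nat.card (K ⊓ centralizer (A : Set X) : Subgroup X)) ∧
      Nat.card K = Nat.card (⁅K, A⁆ : Subgroup X) * Nat.card (K ⊓ centralizer (A : Set X) : Subgroup X) := by
  haveI := hZ
  have hsol : Group.IsSolvable K := inferInstance
  set D := ⁅K, A⁆ with hD
  set C := K ⊓ centralizer (A : Set X) with hC
  have hDK : D ≤ K := Coprime.commutator_le_of_normalizes hAK
  haveI hZD : IsZGroup D := IsZGroup.of_injective (f := Subgroup.inclusion hDK) (Subgroup.inclusion_injective hDK)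
  have hDA : ⁅D, A⁆ = D := Coprime.commutator_commutator_eq hAK hcop (Or.inr hsol)
  have hKD : K ≤ normalizer (D : Set X) := Coprime.le_normalizer_commutator_left A K
  have hAD : A ≤ normalizer (D : Set X) := Coprime.le_normalizer_commutator_right A K
  -- the derived subgroup of D is cyclic
  have hEmap : ⁅D, D⁆ = (commutator D).map D.subtype := by
    rw [_root_.commutator_def, map_commutator, ← MonoidHom.range_eq_map, D.range_subtype]
  have hEc : IsCyclic (⁅D, D⁆ : Subgroup X) := by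
    rw [hEmap]
    haveI := IsZGroup.isCyclic_commutator (G := D)
    exact isCyclic_of_surjective _ ((commutator D).equivMapOfInjective D.subtype D.subtype_injective).surjective
  have hEn : ∀ x ∈ normalizer (D : Set X), x ∈ normalizer ((⁅D, D⁆ : Subgroup X) : Set X) := by
    intro x hx
    rw [Coprime.mem_normalizer_iff_conj_smul_eq] at hx ⊢
    have h1 : MulAut.conj x • ⁅D, D⁆ = ⁅MulAut.conj x • D, MulAut.conj x • D⁆ := by
      change (⁅D, D⁆ : Subgroup X).map _ = ⁅D.map _, D.map _⁆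
      exact map_commutator _ _ _
    rw [h1, hx]
  have hDE : D ≤ centralizer ((⁅D, D⁆ : Subgroup X) : Set X) := by
    conv_lhs => rw [← hDA]
    rw [commutator_le]
    intro d hd a ha
    exact comm_cent hEc (hEn d (le_normalizer hd)) (hEn a (hAD ha))
  have hED : ⁅D, D⁆ ≤ centralizer (D : Set X) := Subgroup.le_centralizer_iff.1 hDE
  haveI hnil := nil_of D hED
  have hDcyc : IsCyclic D := inferInstance
  have hDC : D ⊓ C = ⊥ := by
    have h1 := CoprimeB.abelian_inf_eq_bot (A := A) (V := D) (Cyc.isMulCommutative_of_isCyclic hDcyc) hAD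
      (hcop.coprime_dvd_right (card_dvd_of_le hDK))
    rw [hDA] at h1
    rw [eq_bot_iff, ← h1]
    intro x hx
    exact ⟨⟨hx.1, hx.2.2⟩, hx.1⟩
  have hsup : D ⊔ C = K := Coprime.commutator_sup_centralizer hAK hcop (Or.inr hsol)
  have hCK : C ≤ K := inf_le_left
  have hcard : Nat.card K = Nat.card D * Nat.card C := by
    haveI hn : (D.subgroupOf K).Normal := (normal_subgroupOf_iff_le_normalizer hDK).2 hKD
    have h1 : (D.subgroupOf K).IsComplement' (C.subgroupOf K) := by
      apply Subgroup.isComplement'_of_disjoint_and_mul_eq_univ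
      · rw [disjoint_iff, eq_bot_iff]
        intro x hx
        have h2 : (x : X) ∈ D ⊓ C := hx
        rw [hDC, mem_bot] at h2
        rw [mem_bot]
        exact Subtype.ext h2
      · rw [← Subgroup.normal_mul]
        have h2 : D.subgroupOf K ⊔ C.subgroupOf K = ⊤ := by
          rw [eq_top_iff]
          intro x _
          have h3 : (x : X) ∈ ((D.subgroupOf K ⊔ C.subgroupOf K).map K.subtype) := by
            rw [Subgroup.map_sup, subgroupOf_map_subtype, subgroupOf_map_subtype, inf_eq_left.2 hDK, inf_eq_left.2 hCK, hsup]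
            exact x.2
          obtain ⟨x', hx', hxx⟩ := h3
          have : x' = x := Subtype.ext hxx
          rw [← this]; exact hx'
        rw [h2]; rfl
    have h2 := h1.card_mul
    rw [← h2, Nat.card_congr (subgroupOfEquivOfLe hDK).toEquiv, Nat.card_congr (subgroupOfEquivOfLe hCK).toEquiv]
  refine ⟨hDcyc, hDC, hsup, ?_, hcard⟩
  apply Nat.Coprime.symm
  rw [Nat.coprime_iff_gcd_eq_one]
  by_contra hne
  obtain ⟨p, hp, hpd⟩ := Nat.exists_prime_and_dvd hne
  haveI : Fact p.Prime := ⟨hp⟩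
  obtain ⟨c, hc⟩ := exists_prime_orderOf_dvd_card' (G := C) p (hpd.trans (Nat.gcd_dvd_left _ _))
  obtain ⟨d, hd⟩ := exists_prime_orderOf_dvd_card' (G := D) p (hpd.trans (Nat.gcd_dvd_right _ _))
  have hc' : orderOf (c : X) = p := by rw [orderOf_coe]; exact hc
  have hd' : orderOf (d : X) = p := by rw [orderOf_coe]; exact hd
  have hnd : zpowers (c : X) ≤ normalizer ((zpowers (d : X) : Subgroup X) : Set X) := by
    rw [zpowers_le, Coprime.mem_normalizer_iff_conj_smul_eq]
    have h1 : MulAut.conj (c : X) • zpowers (d : X) ≤ zpowers (d : X) := by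
      apply Cyc.le_of_card_dvd_of_le hDcyc
      · intro y hy
        rw [SchurZas.mem_conj_smul_iff] at hy
        have h2 : (c : X)⁻¹ * y * c ∈ D := (zpowers_le.2 d.2) hy
        have h3 := (mem_normalizer_iff.1 (hKD (hCK c.2)) _).1 h2
        have h4 : (c : X) * ((c : X)⁻¹ * y * c) * (c : X)⁻¹ = y := by group
        rwa [h4] at h3
      · exact zpowers_le.2 d.2
      · exact (Nat.card_congr (Subgroup.equivSMul (MulAut.conj (c : X)) (zpowers (d : X))).toEquiv).symm.dvd
    apply SetLike.coe_injective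
    apply Set.eq_of_subset_of_ncard_le h1
    rw [← Nat.card_coe_set_eq, ← Nat.card_coe_set_eq]
    exact (Nat.card_congr (Subgroup.equivSMul (MulAut.conj (c : X)) (zpowers (d : X))).toEquiv).le
  have hpc : IsPGroup p (zpowers (c : X)) := IsPGroup.of_card (n := 1) (by rw [Nat.card_zpowers, hc', pow_one])
  have hpd' : IsPGroup p (zpowers (d : X)) := IsPGroup.of_card (n := 1) (by rw [Nat.card_zpowers, hd', pow_one])
  have hT : IsPGroup p (zpowers (c : X) ⊔ zpowers (d : X) : Subgroup X) := hpc.to_sup_of_normal_right' hpd' hnd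
  have hTK : zpowers (c : X) ⊔ zpowers (d : X) ≤ K := sup_le (zpowers_le.2 (hCK c.2)) (zpowers_le.2 (hDK d.2))
  have hTcyc : IsCyclic (zpowers (c : X) ⊔ zpowers (d : X) : Subgroup X) := by
    have h1 : IsPGroup p ((zpowers (c : X) ⊔ zpowers (d : X) : Subgroup X).subgroupOf K) := hT.comap_subtype
    haveI h2 := h1.isCyclic_of_isZGroup
    exact isCyclic_of_surjective _ (subgroupOfEquivOfLe hTK).surjective
  have h1 : zpowers (c : X) ≤ zpowers (d : X) := Cyc.le_of_card_dvd_of_le hTcyc le_sup_left le_sup_right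
    (by rw [Nat.card_zpowers, Nat.card_zpowers, hc', hd'])
  have h2 : (c : X) ∈ D ⊓ C := ⟨(zpowers_le.2 d.2) (h1 (mem_zpowers _)), c.2⟩
  rw [hDC, mem_bot] at h2
  rw [h2, orderOf_one] at hc'
  exact hp.one_lt.ne hc'

end Cfsg.Agent.Lib.H3ZGrp
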