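import Cfsg.Agent.Lib.H3ZGrp
import Mathlib

/-! coprime action on groups with cyclic Sylow subgroups, part two (helper3) -/

set_option autoImplicit false

namespace Cfsg.Agent.Lib.H3ZGrp

open Subgroup Cfsg.Agent.Lib
open scoped Pointwise commutatorElement

theorem s4117 {G A : Type*} [Group G] [Finite G] [Group A] [Finite A]
    [MulDistribMulAction A G] (hcop : (Nat.card A).Coprime (Nat.card G))
    (hcyc : ∀ (p : ℕ) [Fact p.Prime] (P : Sylow p G), IsCyclic (P : Subgroup G)) :
    (Nat.card (MulAction.fixedPoints A G : Set G)).Coprime (Nat.card G / Nat.card (MulAction.fixedPoints A G : Set G)) ∧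
    IsCyclic (Subgroup.closure {y : G | ∃ (a : A) (g : G), y = g⁻¹ * a • g}) ∧
    (Subgroup.closure {y : G | ∃ (a : A) (g : G), y = g⁻¹ * a • g}).Normal ∧
    (Subgroup.closure {y : G | ∃ (a : A) (g : G), y = g⁻¹ * a • g} : Set G) ∩ MulAction.fixedPoints A G = {1} ∧
    Subgroup.closure {y : G | ∃ (a : A) (g : G), y = g⁻¹ * a • g} ⊔ Subgroup.closure (MulAction.fixedPoints A G) = ⊤ := by
  classical
  let φ : A →* MulAut G := MulDistribMulAction.toMulAut A G
  have hφ : ∀ a g, φ a g = a • g := fun a g => rfl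
  let X := G ⋊[φ] A
  haveI : Finite X := Finite.of_equiv _ SemidirectProduct.equivProd.symm
  let i : G →* X := SemidirectProduct.inl
  let j : A →* X := SemidirectProduct.inr
  have hi : Function.Injective i := SemidirectProduct.inl_injective
  have hj : Function.Injective j := SemidirectProduct.inr_injective
  let K : Subgroup X := i.range
  let A' : Subgroup X := j.range
  have hKn : K.Normal := by
    change (SemidirectProduct.inl : G →* X).range.Normal
    rw [SemidirectProduct.range_inl_eq_ker_rightHom]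
    infer_instance
  have hcK : Nat.card K = Nat.card G := Nat.card_congr (MonoidHom.ofInjective hi).toEquiv.symm
  have hcA : Nat.card A' = Nat.card A := Nat.card_congr (MonoidHom.ofInjective hj).toEquiv.symm
  have hZG : IsZGroup G := ⟨fun p hp P => by haveI : Fact p.Prime := ⟨hp⟩; exact hcyc p P⟩
  have hZK : IsZGroup K := IsZGroup.of_injective (f := (MonoidHom.ofInjective hi).symm.toMonoidHom)
    (MonoidHom.ofInjective hi).symm.injective
  have hAK : A' ≤ normalizer (K : Set X) := by rw [normalizer_eq_top_iff.mpr hKn]; exact le_top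
  obtain ⟨h1, h2, h3, h4, h5⟩ := internal hAK (by rw [hcK, hcA]; exact hcop) hZK
  set D₀ := Subgroup.closure {y : G | ∃ (a : A) (g : G), y = g⁻¹ * a • g} with hD₀
  let F : Subgroup G :=
    { carrier := MulAction.fixedPoints A G
      mul_mem' := by
        intro x y hx hy a
        rw [smul_mul', hx a, hy a]
      one_mem' := fun a => smul_one a
      inv_mem' := by
        intro x hx a
        rw [smul_inv', hx a] }
  have hconj : ∀ (a : A) (g : G), j a * i g * (j a)⁻¹ = i (a • g) := by
    intro a g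
    have := SemidirectProduct.inl_aut (φ := φ) a g
    exact (by rw [← map_inv]; exact this.symm)
  have hmapD : D₀.map i = ⁅K, A'⁆ := by
    rw [hD₀, MonoidHom.map_closure, Subgroup.commutator_def]
    congr 1
    ext x
    constructor
    · rintro ⟨_, ⟨a, g, rfl⟩, rfl⟩
      refine ⟨i g⁻¹, ⟨g⁻¹, rfl⟩, j a, ⟨a, rfl⟩, ?_⟩
      rw [commutatorElement_def, map_mul, ← hconj, map_inv, inv_inv]
      simp only [mul_assoc]
    · rintro ⟨_, ⟨g, rfl⟩, _, ⟨a, rfl⟩, rfl⟩
      refine ⟨g * a • g⁻¹, ⟨a, g⁻¹, by rw [inv_inv]⟩, ?_⟩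
      rw [commutatorElement_def, map_mul, ← hconj, map_inv]
      simp only [mul_assoc]
  have hmapF : F.map i = K ⊓ centralizer (A' : Set X) := by
    ext x
    constructor
    · rintro ⟨g, hg, rfl⟩
      refine ⟨⟨g, rfl⟩, ?_⟩
      change i g ∈ centralizer (A' : Set X)
      rw [mem_centralizer_iff]
      rintro _ ⟨a, rfl⟩
      have e1 := hconj a g
      have e2 : a • g = g := hg a
      rw [e2] at e1
      exact mul_inv_eq_iff_eq_mul.1 e1
    · rintro ⟨⟨g, rfl⟩, hg⟩
      refine ⟨g, ?_, rfl⟩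
      intro a
      apply hi
      rw [← hconj]
      have e1 := mem_centralizer_iff.1 hg (j a) ⟨a, rfl⟩
      rw [e1, mul_inv_cancel_right]
  have hFc : Nat.card (MulAction.fixedPoints A G : Set G) = Nat.card F := rfl
  have cD : Nat.card (D₀.map i) = Nat.card D₀ := (Nat.card_congr (D₀.equivMapOfInjective i hi).toEquiv).symm
  have cF : Nat.card (F.map i) = Nat.card F := (Nat.card_congr (F.equivMapOfInjective i hi).toEquiv).symm
  rw [← hmapD, ← hmapF] at h4 h5
  rw [cD, cF] at h4 h5
  rw [hcK] at h5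
  refine ⟨?_, ?_, ?_, ?_, ?_⟩
  · rw [hFc, h5, Nat.mul_div_cancel _ Nat.card_pos]
    exact h4.symm
  · rw [← hmapD] at h1
    haveI := h1
    exact isCyclic_of_surjective _ (D₀.equivMapOfInjective i hi).symm.surjective
  · constructor
    intro d hd g
    have e1 : i g ∈ normalizer ((⁅K, A'⁆ : Subgroup X) : Set X) := Coprime.le_normalizer_commutator_left A' K ⟨g, rfl⟩
    rw [← hmapD] at e1
    have e2 := (mem_normalizer_iff.1 e1 (i d)).1 ⟨d, hd, rfl⟩
    rw [← map_mul, ← map_inv, ← map_mul] at e2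
    obtain ⟨d', hd', hdd⟩ := e2
    rw [← hi hdd]; exact hd'
  · ext x
    constructor
    · rintro ⟨hx1, hx2⟩
      have e1 : i x ∈ ⁅K, A'⁆ ⊓ (K ⊓ centralizer (A' : Set X)) := by
        rw [← hmapD, ← hmapF]
        exact ⟨⟨x, hx1, rfl⟩, ⟨x, hx2, rfl⟩⟩
      rw [h2, mem_bot] at e1
      exact hi (e1.trans (map_one i).symm)
    · rintro rfl
      exact ⟨D₀.one_mem, fun a => smul_one a⟩
  · have e1 : Subgroup.closure (MulAction.fixedPoints A G : Set G) = F := Subgroup.closure_eq F
    rw [e1, eq_top_iff]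
    intro x _
    have e2 : i x ∈ (D₀ ⊔ F).map i := by
      rw [Subgroup.map_sup, hmapD, hmapF, h3]
      exact ⟨x, rfl⟩
    obtain ⟨x', hx', hxx⟩ := e2
    rw [← hi hxx]; exact hx'

end Cfsg.Agent.Lib.H3ZGrp
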