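import Cfsg.Agent.Lib.ExSpC
import Cfsg.Agent.Lib.StrongEmb
import Cfsg.Prelude.Def_MonsterType

/-!
# Large extraspecial (and symplectic type) subgroups of an involution centralizer

`LQ Q z` : `Q` is a `2`-group with commutators in `⟨z⟩`, whose central involution is `z`, containing its centralizer
and normal in `C(z)`.

* `key` : if `g z g⁻¹ ∈ Q` and `g z g⁻¹ ≠ z`, then `z ∈ g Q g⁻¹`, and some `m` centralizes `g z g⁻¹` and sends
  `z` to `z * (g z g⁻¹)`.
-/

universe u v w

open Subgroup
open scoped commutatorElement Pointwise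

namespace Cfsg.Agent.Lib.LargeEx

/-- `Q` is a `2`-group with commutators in `⟨z⟩`, whose only central involution is `z`, containing its centralizer and
normal in `C(z)` -/
structure LQ {G : Type*} [Group G] (Q : Subgroup G) (z : G) : Prop where
  pg : IsPGroup 2 Q
  zQ : z ∈ Q
  ord : orderOf z = 2
  zc : ∀ x ∈ Q, x * z = z * x
  comm : ∀ x ∈ Q, ∀ y ∈ Q, ⁅x, y⁆ = 1 ∨ ⁅x, y⁆ = z
  cen : ∀ x ∈ Q, (∀ y ∈ Q, x * y = y * x) → x * x = 1 → x = 1 ∨ x = z
  cQ : centralizer (Q : Set G) ≤ Q
  cz : centralizer ({z} : Set G) ≤ normalizer (Q : Set G)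

variable {G : Type*} [Group G] {Q : Subgroup G} {z : G}

namespace LQ

theorem zz (L : LQ Q z) : z * z = 1 := by
  rw [← pow_two, ← L.ord, pow_orderOf_eq_one]

theorem z1 (L : LQ Q z) : z ≠ 1 := fun h => by
  have := L.ord; rw [h, orderOf_one] at this; norm_num at this

theorem exists_move (L : LQ Q z) {a : G} (ha : a ∈ Q) (haa : a * a = 1) (ha1 : a ≠ 1) (haz : a ≠ z) :
    ∃ q ∈ Q, q * a * q⁻¹ = z * a := by
  by_contra hcon
  push Not at hcon
  have hc : ∀ y ∈ Q, a * y = y * a := by
    intro y hy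
    rcases L.comm y hy a ha with h | h
    · exact (commutatorElement_eq_one_iff_mul_comm.mp h).symm
    · exfalso
      apply hcon y hy
      rw [commutatorElement_def] at h
      calc y * a * y⁻¹ = (y * a * y⁻¹ * a⁻¹) * a := by group
        _ = z * a := by rw [h]
  rcases L.cen a ha hc haa with h | h
  · exact ha1 h
  · exact haz h

/-- the action of `Q` on `a` -/
theorem conj_cases (L : LQ Q z) {a : G} (ha : a ∈ Q) {y : G} (hy : y ∈ Q) :
    y * a * y⁻¹ = a ∨ y * a * y⁻¹ = z * a := by
  rcases L.comm y hy a ha with h | h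
  · left
    rw [commutatorElement_def] at h
    calc y * a * y⁻¹ = (y * a * y⁻¹ * a⁻¹) * a := by group
      _ = a := by rw [h, one_mul]
  · right
    rw [commutatorElement_def] at h
    calc y * a * y⁻¹ = (y * a * y⁻¹ * a⁻¹) * a := by group
      _ = z * a := by rw [h]

/-- an element commuting with `C_Q(a)` and with `q` commutes with `Q` -/
theorem comm_all (L : LQ Q z) {a q : G} (ha : a ∈ Q) (hq : q ∈ Q) (hqa : q * a * q⁻¹ = z * a) {c : G}
    (hc : ∀ k ∈ Q, k * a = a * k → c * k = k * c) (hcq : c * q = q * c) : ∀ y ∈ Q, c * y = y * c := by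
  intro y hy
  rcases L.conj_cases ha hy with h | h
  · refine hc y hy ?_
    calc y * a = (y * a * y⁻¹) * y := by group
      _ = a * y := by rw [h]
  · have hzq : q * z = z * q := L.zc q hq
    have h1 : q⁻¹ * a * q = z * a := by
      have h2 : a = z * (q⁻¹ * a * q) := by
        calc a = q⁻¹ * (q * a * q⁻¹) * q := by group
          _ = q⁻¹ * (z * a) * q := by rw [hqa]
          _ = (q⁻¹ * z * q) * (q⁻¹ * a * q) := by group
          _ = z * (q⁻¹ * a * q) := by
              have : q⁻¹ * z * q = z := by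
                calc q⁻¹ * z * q = q⁻¹ * (z * q) := by group
                  _ = z := by rw [← hzq]; group
              rw [this]
      calc q⁻¹ * a * q = (z * z) * (q⁻¹ * a * q) := by rw [L.zz, one_mul]
        _ = z * (z * (q⁻¹ * a * q)) := by group
        _ = z * a := by rw [← h2]
    have h3 : (q⁻¹ * y) * a = a * (q⁻¹ * y) := by
      have h4 : (q⁻¹ * y) * a * (q⁻¹ * y)⁻¹ = a := by
        calc (q⁻¹ * y) * a * (q⁻¹ * y)⁻¹ = q⁻¹ * (y * a * y⁻¹) * q := by group
          _ = q⁻¹ * (z * a) * q := by rw [h]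
          _ = (q⁻¹ * z * q) * (q⁻¹ * a * q) := by group
          _ = z * (z * a) := by
              rw [h1]
              have : q⁻¹ * z * q = z := by
                calc q⁻¹ * z * q = q⁻¹ * (z * q) := by group
                  _ = z := by rw [← hzq]; group
              rw [this]
          _ = a := by rw [← mul_assoc, L.zz, one_mul]
      calc (q⁻¹ * y) * a = ((q⁻¹ * y) * a * (q⁻¹ * y)⁻¹) * (q⁻¹ * y) := by group
        _ = a * (q⁻¹ * y) := by rw [h4]
    have h5 := hc (q⁻¹ * y) (mul_mem (inv_mem hq) hy) h3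
    calc c * y = (c * q) * (q⁻¹ * y) := by group
      _ = q * (c * (q⁻¹ * y)) := by rw [hcq]; group
      _ = q * ((q⁻¹ * y) * c) := by rw [h5]
      _ = y * c := by group

theorem dcen (L : LQ Q z) {a q : G} (ha : a ∈ Q) (haa : a * a = 1) (hq : q ∈ Q) (hqa : q * a * q⁻¹ = z * a) {c : G}
    (hcQ : c ∈ Q) (hc : ∀ k ∈ Q, k * a = a * k → c * k = k * c) :
    (∀ y ∈ Q, c * y = y * c) ∨ (∀ y ∈ Q, (c * a) * y = y * (c * a)) := by
  rcases L.conj_cases hcQ hq with h | h
  · left
    refine L.comm_all ha hq hqa hc ?_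
    calc c * q = (q * c * q⁻¹) * q := by rw [h]
      _ = q * c := by group
  · right
    refine L.comm_all ha hq hqa (fun k hk hka => ?_) ?_
    · calc (c * a) * k = c * (k * a) := by rw [hka]; group
        _ = (c * k) * a := by group
        _ = k * (c * a) := by rw [hc k hk hka]; group
    · have h1 : q * (c * a) * q⁻¹ = c * a := by
        calc q * (c * a) * q⁻¹ = (q * c * q⁻¹) * (q * a * q⁻¹) := by group
          _ = (z * c) * (z * a) := by rw [h, hqa]
          _ = z * (c * z) * a := by group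
          _ = (z * z) * (c * a) := by rw [L.zc c hcQ]; group
          _ = c * a := by rw [L.zz, one_mul]
      calc (c * a) * q = (q * (c * a) * q⁻¹) * q := by rw [h1]
        _ = q * (c * a) := by group

theorem tQ (L : LQ Q z) {a : G} (ha : a ∈ Q) (haa : a * a = 1) (ha1 : a ≠ 1) (haz : a ≠ z) {t : G}
    (htN : t ∈ normalizer (Q : Set G)) (htt : t * t = 1) (ht : ∀ k ∈ Q, k * a = a * k → t * k = k * t) :
    t = 1 ∨ t = z ∨ t = a ∨ t = z * a := by
  obtain ⟨q, hq, hqa⟩ := L.exists_move ha haa ha1 haz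
  have hti : t⁻¹ = t := inv_eq_of_mul_eq_one_left htt
  -- `c = q⁻¹ q^t`
  set c : G := q⁻¹ * (t * q * t⁻¹) with hcdef
  have hcQ : c ∈ Q := mul_mem (inv_mem hq) ((mem_normalizer_iff.mp htN q).mp hq)
  have htq : t * q * t⁻¹ = q * c := by rw [hcdef]; group
  have hzza : z * (z * a) = a := by rw [← mul_assoc, L.zz, one_mul]
  have hqz : q * z * q⁻¹ = z := by rw [L.zc q hq, mul_inv_cancel_right]
  have hqza : q * (z * a) * q⁻¹ = a := by
    calc q * (z * a) * q⁻¹ = (q * z * q⁻¹) * (q * a * q⁻¹) := by group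
      _ = a := by rw [hqz, hqa, hzza]
  have hcR : ∀ k ∈ Q, k * a = a * k → c * k = k * c := by
    intro k hk hka
    have h1 : (q * k * q⁻¹) * a = a * (q * k * q⁻¹) := by
      have h2 : q⁻¹ * a * q = z * a := by
        calc q⁻¹ * a * q = q⁻¹ * (q * (z * a) * q⁻¹) * q := by rw [hqza]
          _ = z * a := by group
      have h3 : k * (z * a) = (z * a) * k := by
        calc k * (z * a) = (k * z) * a := by group
          _ = z * (k * a) := by rw [L.zc k hk]; group
          _ = (z * a) * k := by rw [hka]; group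
      calc (q * k * q⁻¹) * a = q * (k * (q⁻¹ * a * q)) * q⁻¹ := by group
        _ = q * (z * a) * q⁻¹ * (q * k * q⁻¹) := by rw [h2, h3]; group
        _ = a * (q * k * q⁻¹) := by rw [hqza]
    have h4 := ht _ (mul_mem (mul_mem hq hk) (inv_mem hq)) h1
    have h5 := ht k hk hka
    have h6 : t * (q * k * q⁻¹) * t⁻¹ = q * k * q⁻¹ := by rw [h4, mul_inv_cancel_right]
    have h7 : t * k * t⁻¹ = k := by rw [h5, mul_inv_cancel_right]
    have h8 : (q * c) * k * (q * c)⁻¹ = q * k * q⁻¹ := by
      calc (q * c) * k * (q * c)⁻¹ = (t * q * t⁻¹) * (t * k * t⁻¹) * (t * q * t⁻¹)⁻¹ := by rw [htq, h7]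
        _ = t * (q * k * q⁻¹) * t⁻¹ := by group
        _ = q * k * q⁻¹ := h6
    calc c * k = q⁻¹ * ((q * c) * k * (q * c)⁻¹) * (q * c) := by group
      _ = k * c := by rw [h8]; group
  have hac : ∀ (_ : c * a = a * c), c * c = 1 := by
    intro hca
    have h1 := ht c hcQ hca
    have h2 : t * c * t⁻¹ = c := by rw [h1, mul_inv_cancel_right]
    have h3 : t * (t * q * t⁻¹) * t⁻¹ = q := by
      calc t * (t * q * t⁻¹) * t⁻¹ = (t * t) * q * (t * t)⁻¹ := by group
        _ = q := by rw [htt]; group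
    have h4 : q * c * c = q := by
      calc q * c * c = (t * q * t⁻¹) * (t * c * t⁻¹) := by rw [htq, h2]
        _ = t * (q * c) * t⁻¹ := by group
        _ = q := by rw [← htq, h3]
    rw [mul_assoc] at h4
    exact mul_eq_left.mp h4
  have hcZ : ∀ y ∈ Q, c * y = y * c := by
    rcases L.dcen ha haa hq hqa hcQ hcR with h | h
    · exact h
    · have hca : c * a = a * c := by
        have h1 := h a ha
        have h2 : (c * a * a) = a * c * a := by rw [h1]; group
        exact mul_right_cancel h2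
      have hcc := hac hca
      refine L.comm_all ha hq hqa hcR ?_
      have h1 : (q * q) * a = a * (q * q) := by
        have h2 : (q * q) * a * (q * q)⁻¹ = a := by
          calc (q * q) * a * (q * q)⁻¹ = q * (q * a * q⁻¹) * q⁻¹ := by group
            _ = a := by rw [hqa, hqza]
        calc (q * q) * a = ((q * q) * a * (q * q)⁻¹) * (q * q) := by group
          _ = a * (q * q) := by rw [h2]
      have h2 := ht (q * q) (mul_mem hq hq) h1
      have h3 : (q * c) * (q * c) = q * q := by
        calc (q * c) * (q * c) = (t * q * t⁻¹) * (t * q * t⁻¹) := by rw [htq]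
          _ = t * (q * q) * t⁻¹ := by group
          _ = q * q := by rw [h2, mul_inv_cancel_right]
      have h4 : c * q * c = q := by
        have : q * (c * q * c) = q * q := by rw [← h3]; group
        exact mul_left_cancel this
      calc c * q = (c * q * c) * c := by rw [mul_assoc (c * q), hcc, mul_one]
        _ = q * c := by rw [h4]
  have htQ : t ∈ Q := by
    rcases L.cen c hcQ hcZ (hac (hcZ a ha)) with h | h
    · apply L.cQ
      rw [mem_centralizer_iff]
      intro y hy
      refine (L.comm_all ha hq hqa ht ?_ y hy).symm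
      calc t * q = (t * q * t⁻¹) * t := by group
        _ = q * t := by rw [htq, h, mul_one]
    · have h1 : t * a ∈ Q := by
        apply L.cQ
        rw [mem_centralizer_iff]
        intro y hy
        refine (L.comm_all ha hq hqa (c := t * a) (fun k hk hka => ?_) ?_ y hy).symm
        · calc (t * a) * k = t * (k * a) := by rw [hka]; group
            _ = (t * k) * a := by group
            _ = k * (t * a) := by rw [ht k hk hka]; group
        · have h2 : a * q * a⁻¹ = z * q := by
            have h3 : q * a = z * a * q := by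
              calc q * a = (q * a * q⁻¹) * q := by group
                _ = z * a * q := by rw [hqa]
            calc a * q * a⁻¹ = (z * z) * (a * q * a⁻¹) := by rw [L.zz, one_mul]
              _ = z * (z * a * q) * a⁻¹ := by group
              _ = z * q := by rw [← h3]; group
          have h4 : t * z * t⁻¹ = z := by
            rw [ht z L.zQ (L.zc a ha).symm, mul_inv_cancel_right]
          have h5 : (t * a) * q * (t * a)⁻¹ = q := by
            calc (t * a) * q * (t * a)⁻¹ = t * (a * q * a⁻¹) * t⁻¹ := by group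
              _ = (t * z * t⁻¹) * (t * q * t⁻¹) := by rw [h2]; group
              _ = z * (z * q) := by rw [h4, htq, h, L.zc q hq]
              _ = q := by rw [← mul_assoc, L.zz, one_mul]
          calc (t * a) * q = ((t * a) * q * (t * a)⁻¹) * (t * a) := by group
            _ = q * (t * a) := by rw [h5]
      have h2 : t = (t * a) * a := by rw [mul_assoc, haa, mul_one]
      rw [h2]
      exact mul_mem h1 ha
  have hta : t * a = a * t := ht a ha rfl
  rcases L.dcen ha haa hq hqa htQ ht with h | h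
  · rcases L.cen t htQ h htt with h | h
    · exact Or.inl h
    · exact Or.inr (Or.inl h)
  · have h1 : (t * a) * (t * a) = 1 := by
      calc (t * a) * (t * a) = (t * t) * (a * a) := by rw [show (t * a) * (t * a) = t * (a * t) * a by group, ← hta]; group
        _ = 1 := by rw [htt, haa, one_mul]
    rcases L.cen (t * a) (mul_mem htQ ha) h h1 with h | h
    · right; right; left
      calc t = (t * a) * a := by rw [mul_assoc, haa, mul_one]
        _ = a := by rw [h, one_mul]
    · right; right; right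
      calc t = (t * a) * a := by rw [mul_assoc, haa, mul_one]
        _ = z * a := by rw [h]

end LQ

/-- the key step -/
theorem key [Finite G] (L : LQ Q z) {g : G} (hin : g * z * g⁻¹ ∈ Q) (hne : g * z * g⁻¹ ≠ z) :
    z ∈ Q.map (MulAut.conj g).toMonoidHom ∧
      ∃ m : G, m * z * m⁻¹ = z * (g * z * g⁻¹) ∧ m * (g * z * g⁻¹) * m⁻¹ = g * z * g⁻¹ := by
  haveI : Fact (Nat.Prime 2) := ⟨Nat.prime_two⟩
  set a : G := g * z * g⁻¹ with ha
  have haa : a * a = 1 := by
    calc a * a = g * (z * z) * g⁻¹ := by rw [ha]; group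
      _ = 1 := by rw [L.zz]; group
  have ha1 : a ≠ 1 := by
    intro h
    apply L.z1
    calc z = g⁻¹ * a * g := by rw [ha]; group
      _ = 1 := by rw [h]; group
  obtain ⟨q, hq, hqa⟩ := L.exists_move hin haa ha1 hne
  have hqz : q * z * q⁻¹ = z := by rw [L.zc q hq, mul_inv_cancel_right]
  have hzza : z * (z * a) = a := by rw [← mul_assoc, L.zz, one_mul]
  have hza : z * a = a * z := (L.zc a hin).symm
  have hza_ne : z * a ≠ a := by
    intro h
    exact L.z1 (mul_eq_right.mp h)
  set CE : Subgroup G := centralizer ({z} : Set G) ⊓ centralizer ({a} : Set G) with hCE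
  have mCE : ∀ x : G, x ∈ CE ↔ (x * z * x⁻¹ = z ∧ x * a * x⁻¹ = a) := by
    intro x
    rw [hCE, mem_inf, mem_centralizer_singleton_iff, mem_centralizer_singleton_iff, mul_inv_eq_iff_eq_mul,
      mul_inv_eq_iff_eq_mul]
  -- `N`
  let N : Subgroup G :=
    { carrier := {x | x * z * x⁻¹ = z ∧ (x * a * x⁻¹ = a ∨ x * a * x⁻¹ = z * a)}
      one_mem' := ⟨by group, Or.inl (by group)⟩
      mul_mem' := by
        rintro x y ⟨hx1, hx2⟩ ⟨hy1, hy2⟩
        have e1 : ∀ w : G, (x * y) * w * (x * y)⁻¹ = x * (y * w * y⁻¹) * x⁻¹ := fun w => by group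
        have e2 : x * (z * a) * x⁻¹ = (x * z * x⁻¹) * (x * a * x⁻¹) := by group
        refine ⟨by rw [e1, hy1, hx1], ?_⟩
        rw [e1]
        rcases hy2 with h | h <;> rw [h]
        · exact hx2
        · rw [e2, hx1]
          rcases hx2 with h' | h'
          · right; rw [h']
          · left; rw [h', hzza]
      inv_mem' := by
        rintro x ⟨hx1, hx2⟩
        have e1 : x⁻¹ * z * x⁻¹⁻¹ = z := by
          calc x⁻¹ * z * x⁻¹⁻¹ = x⁻¹ * (x * z * x⁻¹) * x := by rw [hx1]; group
            _ = z := by group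
        refine ⟨e1, ?_⟩
        rcases hx2 with h | h
        · left
          calc x⁻¹ * a * x⁻¹⁻¹ = x⁻¹ * (x * a * x⁻¹) * x := by rw [h]; group
            _ = a := by group
        · right
          have e2 : x * (z * a) * x⁻¹ = a := by
            calc x * (z * a) * x⁻¹ = (x * z * x⁻¹) * (x * a * x⁻¹) := by group
              _ = a := by rw [hx1, h, hzza]
          calc x⁻¹ * a * x⁻¹⁻¹ = x⁻¹ * (x * (z * a) * x⁻¹) * x := by rw [e2]; group
            _ = z * a := by group }
  have mN : ∀ x : G, x ∈ N ↔ (x * z * x⁻¹ = z ∧ (x * a * x⁻¹ = a ∨ x * a * x⁻¹ = z * a)) := fun x => Iff.rfl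
  have hCEN : CE ≤ N := fun x hx => by
    rw [mN]; rw [mCE] at hx; exact ⟨hx.1, Or.inl hx.2⟩
  have hNC : N ≤ centralizer ({z} : Set G) := fun x hx => by
    rw [mem_centralizer_singleton_iff, ← mul_inv_eq_iff_eq_mul]
    exact ((mN x).mp hx).1
  have hrel : CE.relIndex N = 2 := by
    rw [relIndex_eq_two_iff]
    refine ⟨q, (mN q).mpr ⟨hqz, Or.inr hqa⟩, fun b hb => ?_⟩
    obtain ⟨hb1, hb2⟩ := (mN b).mp hb
    have e1 : (b * q) * z * (b * q)⁻¹ = z := by
      calc (b * q) * z * (b * q)⁻¹ = b * (q * z * q⁻¹) * b⁻¹ := by group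
        _ = z := by rw [hqz, hb1]
    have e2 : (b * q) * a * (b * q)⁻¹ = z * (b * a * b⁻¹) := by
      calc (b * q) * a * (b * q)⁻¹ = b * (q * a * q⁻¹) * b⁻¹ := by group
        _ = (b * z * b⁻¹) * (b * a * b⁻¹) := by rw [hqa]; group
        _ = z * (b * a * b⁻¹) := by rw [hb1]
    rw [mCE, mCE, e1, e2]
    rcases hb2 with h | h
    · right
      rw [h]
      exact ⟨⟨hb1, rfl⟩, fun h' => hza_ne h'.2⟩
    · left
      rw [h]
      exact ⟨⟨rfl, hzza⟩, fun h' => hza_ne h'.2⟩
  have hcardN : 2 * Nat.card CE ∣ Nat.card (centralizer ({z} : Set G)) := by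
    have h1 : Nat.card CE * CE.relIndex N = Nat.card N := Cfsg.Agent.Lib.Basic.card_mul_relIndex hCEN
    rw [hrel] at h1
    rw [mul_comm, h1]
    exact card_dvd_of_le hNC
  have hcc : Nat.card (centralizer ({z} : Set G)) = Nat.card (centralizer ({a} : Set G)) := by
    have h1 : centralizer ({a} : Set G) = (centralizer ({z} : Set G)).map (MulAut.conj g).toMonoidHom := by
      ext x
      constructor
      · intro hx
        refine ⟨g⁻¹ * x * g, ?_, by simp [mul_assoc]⟩
        have h2 := mem_centralizer_singleton_iff.mp hx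
        rw [SetLike.mem_coe, mem_centralizer_singleton_iff]
        calc g⁻¹ * x * g * z = g⁻¹ * (x * a) * g := by rw [ha]; group
          _ = z * (g⁻¹ * x * g) := by rw [h2, ha]; group
      · rintro ⟨y, hy, rfl⟩
        have h2 := mem_centralizer_singleton_iff.mp hy
        rw [mem_centralizer_singleton_iff]
        show g * y * g⁻¹ * a = a * (g * y * g⁻¹)
        calc g * y * g⁻¹ * a = g * (y * z) * g⁻¹ := by rw [ha]; group
          _ = a * (g * y * g⁻¹) := by rw [h2, ha]; group
    rw [h1]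
    exact (card_map_of_injective (MulAut.conj g).injective).symm
  -- Sylow subgroups
  obtain ⟨S⟩ : Nonempty (Sylow 2 CE) := inferInstance
  set S' : Subgroup G := (S : Subgroup CE).map CE.subtype with hS'
  have hS'CE : S' ≤ CE := map_subtype_le _
  have hS'p : IsPGroup 2 S' := S.2.map _
  have hmax : ∀ P : Subgroup G, IsPGroup 2 P → S' ≤ P → P ≤ CE → P = S' := by
    intro P hP hle hPC
    have h1 : (P.subgroupOf CE) = S := by
      apply S.3
      · exact hP.comap_of_injective CE.subtype CE.subtype_injective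
      · intro x hx
        exact mem_subgroupOf.mpr (hle ⟨x, hx, rfl⟩)
    rw [hS', ← h1, map_subgroupOf_eq_of_le hPC]
  have hS'a : S' ≤ centralizer ({a} : Set G) := hS'CE.trans inf_le_right
  obtain ⟨T, hT⟩ := (hS'p.comap_of_injective (centralizer ({a} : Set G)).subtype
    (centralizer ({a} : Set G)).subtype_injective).exists_le_sylow
  set T' : Subgroup G := (T : Subgroup (centralizer ({a} : Set G))).map (centralizer ({a} : Set G)).subtype with hT'
  have hST : S' ≤ T' := by
    intro x hx
    exact ⟨⟨x, hS'a hx⟩, hT (show (⟨x, hS'a hx⟩ : centralizer ({a} : Set G)) ∈ _ from hx), rfl⟩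
  have hT'p : IsPGroup 2 T' := T.2.map _
  have hT'a : T' ≤ centralizer ({a} : Set G) := map_subtype_le _
  have hlt : S' < T' := by
    refine lt_of_le_of_ne hST fun h => ?_
    have h1 : Nat.card S' = 2 ^ (Nat.card CE).factorization 2 := by
      rw [hS', card_map_of_injective CE.subtype_injective]
      exact S.card_eq_multiplicity
    have h2 : Nat.card T' = 2 ^ (Nat.card (centralizer ({a} : Set G))).factorization 2 := by
      rw [hT', card_map_of_injective (centralizer ({a} : Set G)).subtype_injective]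
      exact T.card_eq_multiplicity
    rw [h, h2] at h1
    have h3 := Nat.pow_right_injective (le_refl 2) h1
    rw [← hcc] at h3
    have h4 : 2 ^ ((Nat.card CE).factorization 2 + 1) ∣ Nat.card (centralizer ({z} : Set G)) := by
      refine dvd_trans ?_ hcardN
      rw [pow_succ, mul_comm]
      exact mul_dvd_mul_left 2 (Nat.ordProj_dvd _ 2)
    have h5 := (Nat.prime_two.pow_dvd_iff_le_factorization Nat.card_pos.ne').mp h4
    omega
  obtain ⟨m, hmT, hmS, hmN⟩ := Cfsg.Agent.Lib.StrongEmb.exists_mem_normalizer hT'p hlt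
  have hma : m * a * m⁻¹ = a := by
    rw [mul_inv_eq_iff_eq_mul]
    exact mem_centralizer_singleton_iff.mp (hT'a hmT)
  -- `C_Q(a) ≤ S'`
  have hRS : ∀ k ∈ Q, k * a = a * k → k ∈ S' := by
    have hle : Q ⊓ centralizer ({a} : Set G) ≤ CE := fun k hk =>
      mem_inf.mpr ⟨mem_centralizer_singleton_iff.mpr (L.zc k hk.1), hk.2⟩
    have hn : ((Q ⊓ centralizer ({a} : Set G)).subgroupOf CE).Normal := by
      refine ⟨fun x hx y => ?_⟩
      obtain ⟨hx1, hx2⟩ := mem_inf.mp (mem_subgroupOf.mp hx)
      refine mem_subgroupOf.mpr (mem_inf.mpr ⟨?_, ?_⟩)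
      · exact (mem_normalizer_iff.mp (L.cz (mem_inf.mp y.2).1) _).mp hx1
      · exact mul_mem (mul_mem (mem_inf.mp y.2).2 hx2) (inv_mem (mem_inf.mp y.2).2)
    have hp : IsPGroup 2 ((Q ⊓ centralizer ({a} : Set G)).subgroupOf CE) :=
      (L.pg.to_le inf_le_left).comap_of_injective CE.subtype CE.subtype_injective
    have h1 := hp.le_sylow_of_normal S
    intro k hk hka
    have hkQ : k ∈ Q ⊓ centralizer ({a} : Set G) := mem_inf.mpr ⟨hk, mem_centralizer_singleton_iff.mpr hka⟩
    exact ⟨⟨k, hle hkQ⟩, h1 (mem_subgroupOf.mpr hkQ), rfl⟩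
  -- `t = m z m⁻¹`
  have hzS : z ∈ S' := hRS z L.zQ hza
  have hzcS : ∀ k ∈ S', z * k = k * z := fun k hk =>
    (mem_centralizer_singleton_iff.mp (mem_inf.mp (hS'CE hk)).1).symm
  have htS : m * z * m⁻¹ ∈ S' := (mem_normalizer_iff.mp hmN z).mp hzS
  have htc : ∀ k ∈ Q, k * a = a * k → (m * z * m⁻¹) * k = k * (m * z * m⁻¹) := by
    intro k hk hka
    have h1 : m⁻¹ * k * m ∈ S' := by
      have := (mem_normalizer_iff.mp (inv_mem hmN) k).mp (hRS k hk hka)
      rwa [inv_inv] at this
    calc (m * z * m⁻¹) * k = m * (z * (m⁻¹ * k * m)) * m⁻¹ := by group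
      _ = k * (m * z * m⁻¹) := by rw [hzcS _ h1]; group
  have htt : (m * z * m⁻¹) * (m * z * m⁻¹) = 1 := by
    calc (m * z * m⁻¹) * (m * z * m⁻¹) = m * (z * z) * m⁻¹ := by group
      _ = 1 := by rw [L.zz]; group
  have hm : m * z * m⁻¹ = z * a := by
    rcases L.tQ hin haa ha1 hne (L.cz (mem_inf.mp (hS'CE htS)).1) htt htc with h | h | h | h
    · exfalso
      apply L.z1
      calc z = m⁻¹ * (m * z * m⁻¹) * m := by group
        _ = 1 := by rw [h]; group
    · exfalso
      -- `m ∈ CE`
      have h1 : T' ⊓ CE = S' := hmax _ (hT'p.to_le inf_le_left) (le_inf hST hS'CE) inf_le_right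
      exact hmS (h1 ▸ mem_inf.mpr ⟨hmT, (mCE m).mpr ⟨h, hma⟩⟩)
    · exfalso
      apply hne
      have h2 : m * a * m⁻¹ = m * z * m⁻¹ := by rw [hma, h]
      exact mul_left_cancel (mul_right_cancel h2)
    · exact h
  refine ⟨?_, m, hm, hma⟩
  -- `h = m q m`
  have hmza : m * (z * a) * m⁻¹ = z := by
    calc m * (z * a) * m⁻¹ = (m * z * m⁻¹) * (m * a * m⁻¹) := by group
      _ = z := by rw [hm, hma, mul_assoc, haa, mul_one]
  have hqza : q * (z * a) * q⁻¹ = a := by
    calc q * (z * a) * q⁻¹ = (q * z * q⁻¹) * (q * a * q⁻¹) := by group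
      _ = a := by rw [hqz, hqa, hzza]
  have h1 : (m * q * m) * z * (m * q * m)⁻¹ = a := by
    calc (m * q * m) * z * (m * q * m)⁻¹ = m * (q * (m * z * m⁻¹) * q⁻¹) * m⁻¹ := by group
      _ = a := by rw [hm, hqza, hma]
  have h2 : (m * q * m) * a * (m * q * m)⁻¹ = z := by
    calc (m * q * m) * a * (m * q * m)⁻¹ = m * (q * (m * a * m⁻¹) * q⁻¹) * m⁻¹ := by group
      _ = z := by rw [hma, hqa, hmza]
  have h3 : g⁻¹ * (m * q * m) ∈ centralizer ({z} : Set G) := by
    rw [mem_centralizer_singleton_iff]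
    calc g⁻¹ * (m * q * m) * z = g⁻¹ * ((m * q * m) * z * (m * q * m)⁻¹) * (m * q * m) := by group
      _ = z * (g⁻¹ * (m * q * m)) := by rw [h1, ha]; group
  have h4 := L.cz h3
  refine ⟨g⁻¹ * z * g, ?_, by simp [mul_assoc]⟩
  have h5 := (mem_normalizer_iff.mp h4 a).mp hin
  have h6 : (g⁻¹ * (m * q * m)) * a * (g⁻¹ * (m * q * m))⁻¹ = g⁻¹ * z * g := by
    calc (g⁻¹ * (m * q * m)) * a * (g⁻¹ * (m * q * m))⁻¹ = g⁻¹ * ((m * q * m) * a * (m * q * m)⁻¹) * g := by group
      _ = g⁻¹ * z * g := by rw [h2]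
  rw [h6] at h5
  exact h5

end Cfsg.Agent.Lib.LargeEx
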