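import Cfsg.Agent.Lib.LargeEx

/-!
# Large extraspecial subgroups, continued

* `LE` : the extraspecial case, with the double centralizer property.
* `conj` : transport by conjugation.
* `s3` : `⟨Q, Q^g⟩` acts on `⟨z, z^g⟩` as the full automorphism group.
* `act` : the action of a group normalizing a four-group.
-/

universe u v w

open Subgroup
open scoped commutatorElement Pointwise

namespace Cfsg.Agent.Lib.LargeEx

open Cfsg.Agent.Lib.ExSp Cfsg.Agent.Lib.ExSpC

variable {G : Type*} [Group G] {Q : Subgroup G} {z : G}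

/-- the extraspecial case -/
structure LE (Q : Subgroup G) (z : G) : Prop extends LQ Q z where
  cen' : ∀ x ∈ Q, (∀ y ∈ Q, x * y = y * x) → x = 1 ∨ x = z
  sq : ∀ x ∈ Q, x * x = 1 ∨ x * x = z
  dc : ∀ U : Subgroup G, U ≤ Q → z ∈ U → ∀ x ∈ Q, (∀ c ∈ Q, (∀ u ∈ U, c * u = u * c) → c * x = x * c) → x ∈ U

theorem eq_or_of_mem_zpowers {z x : G} (hz : z * z = 1) (hx : x ∈ zpowers z) : x = 1 ∨ x = z := by
  obtain ⟨n, rfl⟩ := mem_zpowers_iff.mp hx
  rcases Int.even_or_odd' n with ⟨m, hm | hm⟩
  · left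
    rw [hm, zpow_mul, zpow_ofNat, pow_two, hz, one_zpow]
  · right
    rw [hm, zpow_add, zpow_mul, zpow_ofNat, pow_two, hz, one_zpow, one_mul, zpow_one]

theorem of_extraspecial [Finite G] (hE : Cfsg.IsExtraspecial 2 Q) (hz : z ∈ Q) (ho : orderOf z = 2)
    (hzc : ∀ x ∈ Q, x * z = z * x) (hcQ : centralizer (Q : Set G) ≤ Q)
    (hcz : centralizer ({z} : Set G) ≤ normalizer (Q : Set G)) : LE Q z := by
  haveI : Fact (Nat.Prime 2) := ⟨Nat.prime_two⟩
  obtain ⟨w, D⟩ := dat_of hE
  have hzz : z * z = 1 := by rw [← pow_two, ← ho, pow_orderOf_eq_one]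
  have hz1 : z ≠ 1 := fun h => by rw [h, orderOf_one] at ho; norm_num at ho
  have hww : (w : G) * w = 1 := by
    have := pow_orderOf_eq_one w
    rw [D.ord, pow_two] at this
    exact congrArg Subtype.val this
  have hwz : (w : G) = z := by
    have h1 : (⟨z, hz⟩ : Q) ∈ zpowers w := D.cen _ fun y => Subtype.ext (hzc y y.2).symm
    have h2 : z ∈ zpowers (w : G) := by
      obtain ⟨n, hn⟩ := mem_zpowers_iff.mp h1
      exact mem_zpowers_iff.mpr ⟨n, by rw [← coe_zpow, hn]⟩
    rcases eq_or_of_mem_zpowers hww h2 with h | h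
    · exact absurd h hz1
    · exact h.symm
  have hzp : ∀ x : Q, x ∈ zpowers w → (x : G) = 1 ∨ (x : G) = z := by
    intro x hx
    have h2 : (x : G) ∈ zpowers z := by
      obtain ⟨n, hn⟩ := mem_zpowers_iff.mp hx
      exact mem_zpowers_iff.mpr ⟨n, by rw [← hwz, ← coe_zpow, hn]⟩
    exact eq_or_of_mem_zpowers hzz h2
  have hcen : ∀ x ∈ Q, (∀ y ∈ Q, x * y = y * x) → x = 1 ∨ x = z := fun x hx h =>
    hzp ⟨x, hx⟩ (D.cen _ fun y => Subtype.ext (h y y.2))
  refine ⟨⟨hE.1.1, hz, ho, hzc, fun x hx y hy => ?_, fun x hx h _ => hcen x hx h, hcQ, hcz⟩, hcen, fun x hx => ?_, ?_⟩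
  · exact hzp _ (D.comm ⟨x, hx⟩ ⟨y, hy⟩)
  · have := hzp _ (D.pow_mem ⟨x, hx⟩)
    rwa [pow_two] at this
  · intro U hU hzU x hx hc
    have h1 : w ∈ U.subgroupOf Q := mem_subgroupOf.mpr (by rw [hwz]; exact hzU)
    have h2 := double_centralizer D h1
    have h3 : (⟨x, hx⟩ : Q) ∈ U.subgroupOf Q := by
      rw [← h2, mem_centralizer_iff]
      intro c hc'
      rw [SetLike.mem_coe, mem_centralizer_iff] at hc'
      apply Subtype.ext
      refine hc c c.2 fun u hu => ?_
      have := congrArg Subtype.val (hc' ⟨u, hU hu⟩ (mem_subgroupOf.mpr hu))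
      exact this.symm
    exact mem_subgroupOf.mp h3

theorem mem_map_conj {g x : G} {H : Subgroup G} : x ∈ H.map (MulAut.conj g).toMonoidHom ↔ g⁻¹ * x * g ∈ H := by
  constructor
  · rintro ⟨y, hy, rfl⟩
    have : g⁻¹ * ((MulAut.conj g).toMonoidHom y) * g = y := by
      show g⁻¹ * (g * y * g⁻¹) * g = y
      group
    rw [this]; exact hy
  · intro h
    refine ⟨_, h, ?_⟩
    show g * (g⁻¹ * x * g) * g⁻¹ = x
    group

theorem comm_conj {g x y : G} : x * y = y * x ↔ (g⁻¹ * x * g) * (g⁻¹ * y * g) = (g⁻¹ * y * g) * (g⁻¹ * x * g) := by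
  constructor
  · intro h
    calc (g⁻¹ * x * g) * (g⁻¹ * y * g) = g⁻¹ * (x * y) * g := by group
      _ = (g⁻¹ * y * g) * (g⁻¹ * x * g) := by rw [h]; group
  · intro h
    calc x * y = g * ((g⁻¹ * x * g) * (g⁻¹ * y * g)) * g⁻¹ := by group
      _ = y * x := by rw [h]; group

theorem eq_conj {g x y : G} : g⁻¹ * x * g = y ↔ x = g * y * g⁻¹ := by
  constructor
  · rintro rfl; group
  · rintro rfl; group

/-- transport by conjugation -/
theorem LQ.conj (L : LQ Q z) (g : G) : LQ (Q.map (MulAut.conj g).toMonoidHom) (g * z * g⁻¹) := by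
  refine ⟨L.pg.map _, ?_, ?_, ?_, ?_, ?_, ?_, ?_⟩
  · exact ⟨z, L.zQ, rfl⟩
  · rw [← L.ord]
    exact orderOf_injective (MulAut.conj g).toMonoidHom (MulAut.conj g).injective z
  · intro x hx
    rw [comm_conj (g := g)]
    have e : g⁻¹ * (g * z * g⁻¹) * g = z := by group
    rw [e]
    exact L.zc _ (mem_map_conj.mp hx)
  · intro x hx y hy
    have e : ⁅g⁻¹ * x * g, g⁻¹ * y * g⁆ = g⁻¹ * ⁅x, y⁆ * g := by simp only [commutatorElement_def]; group
    rcases L.comm _ (mem_map_conj.mp hx) _ (mem_map_conj.mp hy) with h | h <;> rw [e, eq_conj] at h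
    · left; rw [h]; group
    · right; exact h
  · intro x hx hc hxx
    have e : (g⁻¹ * x * g) * (g⁻¹ * x * g) = 1 := by
      calc (g⁻¹ * x * g) * (g⁻¹ * x * g) = g⁻¹ * (x * x) * g := by group
        _ = 1 := by rw [hxx]; group
    have hc' : ∀ y ∈ Q, (g⁻¹ * x * g) * y = y * (g⁻¹ * x * g) := by
      intro y hy
      have h1 := hc (g * y * g⁻¹) ⟨y, hy, rfl⟩
      rw [comm_conj (g := g)] at h1
      have e : g⁻¹ * (g * y * g⁻¹) * g = y := by group
      rwa [e] at h1
    rcases L.cen _ (mem_map_conj.mp hx) hc' e with h | h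
    · left; rw [eq_conj] at h; rw [h]; group
    · right; rwa [eq_conj] at h
  · intro x hx
    rw [mem_map_conj]
    apply L.cQ
    rw [mem_centralizer_iff] at hx ⊢
    intro y hy
    have h1 := hx (g * y * g⁻¹) ⟨y, hy, rfl⟩
    rw [comm_conj (g := g)] at h1
    have e : g⁻¹ * (g * y * g⁻¹) * g = y := by group
    rwa [e] at h1
  · intro x hx
    have h1 : g⁻¹ * x * g ∈ centralizer ({z} : Set G) := by
      rw [mem_centralizer_singleton_iff] at hx ⊢
      rw [comm_conj (g := g)] at hx
      have e : g⁻¹ * (g * z * g⁻¹) * g = z := by group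
      rwa [e] at hx
    have h2 := L.cz h1
    rw [mem_normalizer_iff] at h2 ⊢
    intro y
    rw [mem_map_conj, mem_map_conj, h2]
    have e : g⁻¹ * x * g * (g⁻¹ * y * g) * (g⁻¹ * x * g)⁻¹ = g⁻¹ * (x * y * x⁻¹) * g := by group
    rw [e]

theorem LE.conj (L : LE Q z) (g : G) : LE (Q.map (MulAut.conj g).toMonoidHom) (g * z * g⁻¹) := by
  refine ⟨L.toLQ.conj g, ?_, ?_, ?_⟩
  · intro x hx hc
    have hc' : ∀ y ∈ Q, (g⁻¹ * x * g) * y = y * (g⁻¹ * x * g) := by
      intro y hy
      have h1 := hc (g * y * g⁻¹) ⟨y, hy, rfl⟩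
      rw [comm_conj (g := g)] at h1
      have e : g⁻¹ * (g * y * g⁻¹) * g = y := by group
      rwa [e] at h1
    rcases L.cen' _ (mem_map_conj.mp hx) hc' with h | h
    · left; rw [eq_conj] at h; rw [h]; group
    · right; rwa [eq_conj] at h
  · intro x hx
    have e : (g⁻¹ * x * g) * (g⁻¹ * x * g) = g⁻¹ * (x * x) * g := by group
    rcases L.sq _ (mem_map_conj.mp hx) with h | h <;> rw [e, eq_conj] at h
    · left; rw [h]; group
    · right; exact h
  · intro U hU hzU x hx hc
    have h1 := L.dc (U.map (MulAut.conj g⁻¹).toMonoidHom) ?_ ?_ (g⁻¹ * x * g) (mem_map_conj.mp hx) ?_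
    · rw [mem_map_conj] at h1
      have e : g⁻¹⁻¹ * (g⁻¹ * x * g) * g⁻¹ = x := by group
      rwa [e] at h1
    · rintro _ ⟨u, hu, rfl⟩
      have := mem_map_conj.mp (hU hu)
      show g⁻¹ * u * g⁻¹⁻¹ ∈ Q
      rwa [inv_inv]
    · rw [mem_map_conj]
      have e : g⁻¹⁻¹ * z * g⁻¹ = g * z * g⁻¹ := by group
      rw [e]; exact hzU
    · intro c hcQ hcU
      have h2 := hc (g * c * g⁻¹) ⟨c, hcQ, rfl⟩ (fun u hu => ?_)
      · rw [comm_conj (g := g)] at h2
        have e : g⁻¹ * (g * c * g⁻¹) * g = c := by group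
        rwa [e] at h2
      · rw [comm_conj (g := g)]
        have e : g⁻¹ * (g * c * g⁻¹) * g = c := by group
        rw [e]
        apply hcU
        rw [mem_map_conj]
        have e : g⁻¹⁻¹ * (g⁻¹ * u * g) * g⁻¹ = u := by group
        rw [e]; exact hu

/-- the extraspecial version of `tQ`: no assumption on the order -/
theorem LE.tQ' (L : LE Q z) {a : G} (ha : a ∈ Q) (haa : a * a = 1) (ha1 : a ≠ 1) (haz : a ≠ z) {t : G}
    (htN : t ∈ normalizer (Q : Set G)) (ht : ∀ k ∈ Q, k * a = a * k → t * k = k * t) :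
    t = 1 ∨ t = z ∨ t = a ∨ t = z * a := by
  obtain ⟨q, hq, hqa⟩ := L.exists_move ha haa ha1 haz
  set c : G := q⁻¹ * (t * q * t⁻¹) with hcdef
  have hcQ : c ∈ Q := mul_mem (inv_mem hq) ((mem_normalizer_iff.mp htN q).mp hq)
  have htq : t * q * t⁻¹ = q * c := by rw [hcdef]; group
  have hzza : z * (z * a) = a := by rw [← mul_assoc, L.zz, one_mul]
  have hqz : q * z * q⁻¹ = z := by rw [L.zc q hq, mul_inv_cancel_right]
  have hza : a * z = z * a := L.zc a ha
  have hqza : q * (z * a) * q⁻¹ = a := by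
    calc q * (z * a) * q⁻¹ = (q * z * q⁻¹) * (q * a * q⁻¹) := by group
      _ = a := by rw [hqz, hqa, hzza]
  have hcR : ∀ k ∈ Q, k * a = a * k → c * k = k * c := by
    intro k hk hka
    have h1 : (q * k * q⁻¹) * a = a * (q * k * q⁻¹) := by
      have h2 : q⁻¹ * a * q = z * a := by
        calc q⁻¹ * a * q = q⁻¹ * (q * (z * a) * q⁻¹) * q := by rw [hqza]
          _ = z * a := by group
      have h3 : k * (z * a) = (z * a) * k := by
        calc k * (z * a) = (k * z) * a := by group
          _ = z * (k * a) := by rw [L.zc k hk]; group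
          _ = (z * a) * k := by rw [hka]; group
      calc (q * k * q⁻¹) * a = q * (k * (q⁻¹ * a * q)) * q⁻¹ := by group
        _ = q * (z * a) * q⁻¹ * (q * k * q⁻¹) := by rw [h2, h3]; group
        _ = a * (q * k * q⁻¹) := by rw [hqza]
    have h4 := ht _ (mul_mem (mul_mem hq hk) (inv_mem hq)) h1
    have h5 := ht k hk hka
    have h6 : t * (q * k * q⁻¹) * t⁻¹ = q * k * q⁻¹ := by rw [h4, mul_inv_cancel_right]
    have h7 : t * k * t⁻¹ = k := by rw [h5, mul_inv_cancel_right]
    have h8 : (q * c) * k * (q * c)⁻¹ = q * k * q⁻¹ := by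
      calc (q * c) * k * (q * c)⁻¹ = (t * q * t⁻¹) * (t * k * t⁻¹) * (t * q * t⁻¹)⁻¹ := by rw [htq, h7]
        _ = t * (q * k * q⁻¹) * t⁻¹ := by group
        _ = q * k * q⁻¹ := h6
    calc c * k = q⁻¹ * ((q * c) * k * (q * c)⁻¹) * (q * c) := by group
      _ = k * c := by rw [h8]; group
  -- `c ∈ {1, z, a, za}`
  have hcV : c = 1 ∨ c = z ∨ c = a ∨ c = z * a := by
    rcases L.dcen ha haa hq hqa hcQ hcR with h | h
    · rcases L.cen' c hcQ h with h | h
      · exact Or.inl h
      · exact Or.inr (Or.inl h)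
    · rcases L.cen' (c * a) (mul_mem hcQ ha) h with h | h
      · right; right; left
        calc c = (c * a) * a := by rw [mul_assoc, haa, mul_one]
          _ = a := by rw [h, one_mul]
      · right; right; right
        calc c = (c * a) * a := by rw [mul_assoc, haa, mul_one]
          _ = z * a := by rw [h]
  have hqq : (q * q) * a = a * (q * q) := by
    have h2 : (q * q) * a * (q * q)⁻¹ = a := by
      calc (q * q) * a * (q * q)⁻¹ = q * (q * a * q⁻¹) * q⁻¹ := by group
        _ = a := by rw [hqa, hqza]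
    calc (q * q) * a = ((q * q) * a * (q * q)⁻¹) * (q * q) := by group
      _ = a * (q * q) := by rw [h2]
  have hqc : c * q * c = q := by
    have h2 := ht (q * q) (mul_mem hq hq) hqq
    have h3 : (q * c) * (q * c) = q * q := by
      calc (q * c) * (q * c) = (t * q * t⁻¹) * (t * q * t⁻¹) := by rw [htq]
        _ = t * (q * q) * t⁻¹ := by group
        _ = q * q := by rw [h2, mul_inv_cancel_right]
    have : q * (c * q * c) = q * q := by rw [← h3]; group
    exact mul_left_cancel this
  have hc2 : c = 1 ∨ c = z := by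
    have hne : ∀ b : G, q * b * q⁻¹ ≠ b → b * b = 1 → c ≠ b := by
      intro b hb hbb hcb
      rw [hcb] at hqc
      apply hb
      calc q * b * q⁻¹ = (b * q * b) * b * q⁻¹ := by rw [hqc]
        _ = b * q * (b * b) * q⁻¹ := by group
        _ = b := by rw [hbb]; group
    have hza1 : z * a ≠ a := fun h => L.z1 (mul_eq_right.mp h)
    rcases hcV with h | h | h | h
    · exact Or.inl h
    · exact Or.inr h
    · exact absurd h (hne a (by rw [hqa]; exact hza1) haa)
    · refine absurd h (hne (z * a) (by rw [hqza]; exact hza1.symm) ?_)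
      calc (z * a) * (z * a) = (z * z) * (a * a) := by
            rw [show (z * a) * (z * a) = z * (a * z) * a by group, hza]; group
        _ = 1 := by rw [L.zz, haa, one_mul]
  have htQ : t ∈ Q := by
    rcases hc2 with h | h
    · apply L.cQ
      rw [mem_centralizer_iff]
      intro y hy
      refine (L.comm_all ha hq hqa ht ?_ y hy).symm
      calc t * q = (t * q * t⁻¹) * t := by group
        _ = q * t := by rw [htq, h, mul_one]
    · have h1 : t * a ∈ Q := by
        apply L.cQ
        rw [mem_centralizer_iff]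
        intro y hy
        refine (L.comm_all ha hq hqa (c := t * a) (fun k hk hka => ?_) ?_ y hy).symm
        · calc (t * a) * k = t * (k * a) := by rw [hka]; group
            _ = (t * k) * a := by group
            _ = k * (t * a) := by rw [ht k hk hka]; group
        · have h2 : a * q * a⁻¹ = z * q := by
            have h3 : q * a = z * a * q := by
              calc q * a = (q * a * q⁻¹) * q := by group
                _ = z * a * q := by rw [hqa]
            calc a * q * a⁻¹ = (z * z) * (a * q * a⁻¹) := by rw [L.zz, one_mul]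
              _ = z * (z * a * q) * a⁻¹ := by group
              _ = z * q := by rw [← h3]; group
          have h4 : t * z * t⁻¹ = z := by
            rw [ht z L.zQ (L.zc a ha).symm, mul_inv_cancel_right]
          have h5 : (t * a) * q * (t * a)⁻¹ = q := by
            calc (t * a) * q * (t * a)⁻¹ = t * (a * q * a⁻¹) * t⁻¹ := by group
              _ = (t * z * t⁻¹) * (t * q * t⁻¹) := by rw [h2]; group
              _ = z * (z * q) := by rw [h4, htq, h, L.zc q hq]
              _ = q := by rw [← mul_assoc, L.zz, one_mul]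
          calc (t * a) * q = ((t * a) * q * (t * a)⁻¹) * (t * a) := by group
            _ = q * (t * a) := by rw [h5]
      have h2 : t = (t * a) * a := by rw [mul_assoc, haa, mul_one]
      rw [h2]
      exact mul_mem h1 ha
  rcases L.dcen ha haa hq hqa htQ ht with h | h
  · rcases L.cen' t htQ h with h | h
    · exact Or.inl h
    · exact Or.inr (Or.inl h)
  · rcases L.cen' (t * a) (mul_mem htQ ha) h with h | h
    · right; right; left
      calc t = (t * a) * a := by rw [mul_assoc, haa, mul_one]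
        _ = a := by rw [h, one_mul]
    · right; right; right
      calc t = (t * a) * a := by rw [mul_assoc, haa, mul_one]
        _ = z * a := by rw [h]

/-! ### the action on a four-group -/

theorem mem_four {z a : G} (hzz : z * z = 1) (haa : a * a = 1) (hza : a * z = z * a) {x : G} :
    x ∈ closure ({z, a} : Set G) ↔ x = 1 ∨ x = z ∨ x = a ∨ x = z * a := by
  have hzza : z * (z * a) = a := by rw [← mul_assoc, hzz, one_mul]
  have hazz : (z * a) * a = z := by rw [mul_assoc, haa, mul_one]
  constructor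
  · intro hx
    induction hx using closure_induction with
    | mem x hx =>
      rcases hx with h | h
      · exact Or.inr (Or.inl h)
      · exact Or.inr (Or.inr (Or.inl h))
    | one => exact Or.inl rfl
    | mul x y _ _ hx hy =>
      rcases hx with rfl | rfl | rfl | rfl <;> rcases hy with rfl | rfl | rfl | rfl
      · left; rw [one_mul]
      · right; left; rw [one_mul]
      · right; right; left; rw [one_mul]
      · right; right; right; rw [one_mul]
      · right; left; rw [mul_one]
      · left; exact hzz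
      · right; right; right; rfl
      · right; right; left; exact hzza
      · right; right; left; rw [mul_one]
      · right; right; right; exact hza
      · left; exact haa
      · right; left; rw [← mul_assoc, hza, hazz]
      · right; right; right; rw [mul_one]
      · right; right; left; rw [mul_assoc, hza, hzza]
      · right; left; exact hazz
      · left; rw [mul_assoc, ← mul_assoc a, hza, hazz, hzz]
    | inv x _ hx =>
      rcases hx with rfl | rfl | rfl | rfl
      · left; rw [inv_one]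
      · right; left; exact inv_eq_of_mul_eq_one_left hzz
      · right; right; left; exact inv_eq_of_mul_eq_one_left haa
      · right; right; right; rw [mul_inv_rev, inv_eq_of_mul_eq_one_left hzz, inv_eq_of_mul_eq_one_left haa, hza]
  · have h1 : z ∈ closure ({z, a} : Set G) := Subgroup.subset_closure (by simp)
    have h2 : a ∈ closure ({z, a} : Set G) := Subgroup.subset_closure (by simp)
    rintro (rfl | rfl | rfl | rfl)
    · exact one_mem _
    · exact h1
    · exact h2
    · exact mul_mem h1 h2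

theorem s3 [Finite G] (L : LQ Q z) {g : G} (hin : g * z * g⁻¹ ∈ Q) (hne : g * z * g⁻¹ ≠ z) :
    ∀ u v : G, (u = z ∨ u = g * z * g⁻¹ ∨ u = z * (g * z * g⁻¹)) →
      (v = z ∨ v = g * z * g⁻¹ ∨ v = z * (g * z * g⁻¹)) → u ≠ v →
      ∃ x ∈ Q ⊔ Q.map (MulAut.conj g).toMonoidHom, x * z * x⁻¹ = u ∧ x * (g * z * g⁻¹) * x⁻¹ = v := by
  obtain ⟨hzP, -⟩ := key L hin hne
  have L' := L.conj g
  set a : G := g * z * g⁻¹ with ha
  set P : Subgroup G := Q.map (MulAut.conj g).toMonoidHom with hP
  have haa : a * a = 1 := L'.zz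
  have ha1 : a ≠ 1 := L'.z1
  have hza : a * z = z * a := L.zc a hin
  obtain ⟨q, hq, hqa⟩ := L.exists_move hin haa ha1 hne
  obtain ⟨p, hp, hpz⟩ := L'.exists_move hzP L.zz L.z1 (Ne.symm hne)
  have hqz : q * z * q⁻¹ = z := by rw [L.zc q hq, mul_inv_cancel_right]
  have hpa : p * a * p⁻¹ = a := by rw [L'.zc p hp, mul_inv_cancel_right]
  have hzza : z * (z * a) = a := by rw [← mul_assoc, L.zz, one_mul]
  have haza : a * (z * a) = z := by rw [← hza, ← mul_assoc, haa, one_mul]
  rw [hza] at hpz
  have hqza : q * (z * a) * q⁻¹ = a := by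
    calc q * (z * a) * q⁻¹ = (q * z * q⁻¹) * (q * a * q⁻¹) := by group
      _ = a := by rw [hqz, hqa, hzza]
  have hpza : p * (z * a) * p⁻¹ = z := by
    calc p * (z * a) * p⁻¹ = (p * z * p⁻¹) * (p * a * p⁻¹) := by group
      _ = z := by rw [hpz, hpa, mul_assoc, haa, mul_one]
  have hq' : q ∈ Q ⊔ P := mem_sup_left hq
  have hp' : p ∈ Q ⊔ P := mem_sup_right hp
  have e2 : ∀ x y w : G, (x * y) * w * (x * y)⁻¹ = x * (y * w * y⁻¹) * x⁻¹ := fun x y w => by group
  rintro u v (rfl | rfl | rfl) (rfl | rfl | rfl) huv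
  · exact absurd rfl huv
  · exact ⟨1, one_mem _, by group, by group⟩
  · exact ⟨q, hq', hqz, hqa⟩
  · exact ⟨p * (q * p), mul_mem hp' (mul_mem hq' hp'), by rw [e2, e2, hpz, hqza, hpa], by rw [e2, e2, hpa, hqa, hpza]⟩
  · exact absurd rfl huv
  · exact ⟨q * p, mul_mem hq' hp', by rw [e2, hpz, hqza], by rw [e2, hpa, hqa]⟩
  · exact ⟨p * q, mul_mem hp' hq', by rw [e2, hqz, hpz], by rw [e2, hqa, hpza]⟩
  · exact ⟨p, hp', hpz, hpa⟩
  · exact absurd rfl huv

/-- the action of a group `X` normalizing a four-group -/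
theorem act {z a : G} (hzz : z * z = 1) (haa : a * a = 1) (hza : a * z = z * a) (hz1 : z ≠ 1) (ha1 : a ≠ 1)
    (haz : a ≠ z) (X : Subgroup G) (hX : X ≤ normalizer ((closure ({z, a} : Set G) : Subgroup G) : Set G))
    (htr : ∀ u v : G, (u = z ∨ u = a ∨ u = z * a) → (v = z ∨ v = a ∨ v = z * a) → u ≠ v →
      ∃ x ∈ X, x * z * x⁻¹ = u ∧ x * a * x⁻¹ = v) :
    ∃ φ : X →* Equiv.Perm (Fin 3), Function.Surjective φ ∧
      φ.ker = (centralizer ((closure ({z, a} : Set G) : Subgroup G) : Set G)).subgroupOf X := by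
  classical
  have hza1 : z * a ≠ 1 := by
    intro h
    apply haz
    calc a = (z * z) * a := by rw [hzz, one_mul]
      _ = z * (z * a) := by group
      _ = z := by rw [h, mul_one]
  have hza_a : z * a ≠ a := fun h => hz1 (mul_eq_right.mp h)
  have hza_z : z * a ≠ z := fun h => ha1 (mul_eq_left.mp h)
  have hzza : z * (z * a) = a := by rw [← mul_assoc, hzz, one_mul]
  have haza : a * (z * a) = z := by rw [← hza, ← mul_assoc, haa, one_mul]
  let Ω : Type _ := {x : G // x = z ∨ x = a ∨ x = z * a}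
  have hΩ : ∀ x : X, ∀ w : G, (w = z ∨ w = a ∨ w = z * a) → ((x : G) * w * (x : G)⁻¹ = z ∨ (x : G) * w * (x : G)⁻¹ = a ∨
      (x : G) * w * (x : G)⁻¹ = z * a) := by
    intro x w hw
    have h1 : w ∈ closure ({z, a} : Set G) := (mem_four hzz haa hza).mpr (Or.inr hw)
    have h2 := (mem_normalizer_iff.mp (hX x.2) w).mp h1
    rcases (mem_four hzz haa hza).mp h2 with h | h
    · exfalso
      have h3 : w = 1 := by
        calc w = (x : G)⁻¹ * (x * w * (x : G)⁻¹) * x := by group
          _ = 1 := by rw [h]; group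
      rcases hw with rfl | rfl | rfl
      · exact hz1 h3
      · exact ha1 h3
      · exact hza1 h3
    · exact h
  letI : MulAction X Ω :=
    { smul := fun x w => ⟨(x : G) * w.1 * (x : G)⁻¹, hΩ x w.1 w.2⟩
      one_smul := fun w => Subtype.ext (by show (1 : G) * w.1 * (1 : G)⁻¹ = w.1; group)
      mul_smul := fun x y w => Subtype.ext (by
        show ((x * y : X) : G) * w.1 * ((x * y : X) : G)⁻¹ = (x : G) * ((y : G) * w.1 * (y : G)⁻¹) * (x : G)⁻¹
        rw [coe_mul]; group) }
  have hsm : ∀ (x : X) (w : Ω), (x • w).1 = (x : G) * w.1 * (x : G)⁻¹ := fun x w => rfl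
  let f : Fin 3 → Ω := ![⟨z, Or.inl rfl⟩, ⟨a, Or.inr (Or.inl rfl)⟩, ⟨z * a, Or.inr (Or.inr rfl)⟩]
  have hf : Function.Bijective f := by
    constructor
    · intro i j hij
      have h1 := congrArg Subtype.val hij
      fin_cases i <;> fin_cases j
      · rfl
      · exact absurd h1 (Ne.symm haz)
      · exact absurd h1 (Ne.symm hza_z)
      · exact absurd h1 haz
      · rfl
      · exact absurd h1 (Ne.symm hza_a)
      · exact absurd h1 hza_z
      · exact absurd h1 hza_a
      · rfl
    · rintro ⟨w, rfl | rfl | rfl⟩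
      · exact ⟨0, rfl⟩
      · exact ⟨1, rfl⟩
      · exact ⟨2, rfl⟩
  let e : Ω ≃ Fin 3 := (Equiv.ofBijective f hf).symm
  let ψ : X →* Equiv.Perm Ω := MulAction.toPermHom X Ω
  have hψ : ∀ (x : X) (w : Ω), (ψ x w).1 = (x : G) * w.1 * (x : G)⁻¹ := fun x w => rfl
  refine ⟨(e.permCongrHom.toMonoidHom).comp ψ, ?_, ?_⟩
  · have h1 : Function.Surjective ψ := by
      intro σ
      have hne : (σ ⟨z, Or.inl rfl⟩).1 ≠ (σ ⟨a, Or.inr (Or.inl rfl)⟩).1 := by
        intro h
        have := σ.injective (Subtype.ext h)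
        exact haz (congrArg Subtype.val this).symm
      obtain ⟨x, hx, h1, h2⟩ := htr _ _ (σ ⟨z, Or.inl rfl⟩).2 (σ ⟨a, Or.inr (Or.inl rfl)⟩).2 hne
      refine ⟨⟨x, hx⟩, ?_⟩
      have key3 : ∀ u v w : Ω, u ≠ v → w ≠ u → w ≠ v → w.1 = u.1 * v.1 := by
        have hzaz : (z * a) * z = a := by rw [mul_assoc, hza, hzza]
        have hzaa : (z * a) * a = z := by rw [mul_assoc, haa, mul_one]
        rintro ⟨u, rfl | rfl | rfl⟩ ⟨v, rfl | rfl | rfl⟩ ⟨w, rfl | rfl | rfl⟩ h1 h2 h3 <;>
          first
          | exact absurd rfl h1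
          | exact absurd rfl h2
          | exact absurd rfl h3
          | rfl
          | exact hza.symm
          | exact hzza.symm
          | exact haza.symm
          | exact hzaz.symm
          | exact hzaa.symm
      apply Equiv.ext
      rintro ⟨w, rfl | rfl | rfl⟩
      · exact Subtype.ext ((hψ _ _).trans h1)
      · exact Subtype.ext ((hψ _ _).trans h2)
      · apply Subtype.ext
        rw [hψ]
        have h3 := key3 (σ ⟨z, Or.inl rfl⟩) (σ ⟨a, Or.inr (Or.inl rfl)⟩) (σ ⟨z * a, Or.inr (Or.inr rfl)⟩)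
          (fun h => hne (congrArg Subtype.val h))
          (fun h => hza_z (congrArg Subtype.val (σ.injective h))) (fun h => hza_a (congrArg Subtype.val (σ.injective h)))
        rw [h3, ← h1, ← h2]
        show x * (z * a) * x⁻¹ = _
        group
    exact e.permCongrHom.surjective.comp h1
  · ext x
    rw [MonoidHom.mem_ker, mem_subgroupOf, mem_centralizer_iff]
    constructor
    · intro h
      have h1 : ψ x = 1 := by
        apply e.permCongrHom.injective
        rw [map_one]
        exact h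
      have h2 : ∀ w : Ω, (x : G) * w.1 * (x : G)⁻¹ = w.1 := fun w => by
        rw [← hψ, h1]; rfl
      intro y hy
      rw [eq_comm, ← mul_inv_eq_iff_eq_mul]
      rcases (mem_four hzz haa hza).mp hy with rfl | h
      · group
      · exact h2 ⟨y, h⟩
    · intro h
      have h1 : ψ x = 1 := by
        apply Equiv.ext
        intro w
        apply Subtype.ext
        rw [hψ]
        have := h w.1 ((mem_four hzz haa hza).mpr (Or.inr w.2))
        rw [mul_inv_eq_iff_eq_mul]
        exact this.symm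
      show e.permCongrHom (ψ x) = 1
      rw [h1, map_one]

end Cfsg.Agent.Lib.LargeEx
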