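import Cfsg.Agent.Lib.LargeExB
import Cfsg.Agent.Lib.Cores

/-!
# Large extraspecial subgroups: the family `x ↦ O₂(C(x))`
-/

universe u v w

open Subgroup
open scoped commutatorElement Pointwise

namespace Cfsg.Agent.Lib.LargeEx

variable {G : Type*} [Group G]

theorem centralizer_conj (g x : G) :
    centralizer ({g * x * g⁻¹} : Set G) = (centralizer ({x} : Set G)).map (MulAut.conj g).toMonoidHom := by
  ext y
  rw [mem_map_conj, mem_centralizer_singleton_iff, mem_centralizer_singleton_iff, comm_conj (g := g)]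
  have e : g⁻¹ * (g * x * g⁻¹) * g = x := by group
  rw [e]

theorem coreOf_conj {p : ℕ} {H H' : Subgroup G} {g : G} (h : H' = H.map (MulAut.conj g).toMonoidHom) :
    (Cfsg.pCore p H').map H'.subtype = ((Cfsg.pCore p H).map H.subtype).map (MulAut.conj g).toMonoidHom := by
  subst h
  rw [← Cfsg.Agent.Lib.Cores.pCore_map_equiv p
    (H.equivMapOfInjective (MulAut.conj g).toMonoidHom (MulAut.conj g).injective), map_map, map_map]
  rfl

section Family

variable {Q : G → Subgroup G}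
  (hQ : ∀ x : G, Q x = (Cfsg.pCore 2 ↥(centralizer ({x} : Set G))).map (centralizer ({x} : Set G)).subtype)

include hQ

theorem fam_conj (g x : G) : Q (g * x * g⁻¹) = (Q x).map (MulAut.conj g).toMonoidHom := by
  rw [hQ, hQ, coreOf_conj (centralizer_conj g x)]

theorem fam_le (x : G) : Q x ≤ centralizer ({x} : Set G) := by
  rw [hQ]; exact map_subtype_le _

theorem fam_norm (x : G) : centralizer ({x} : Set G) ≤ normalizer (Q x : Set G) := by
  have h1 := Cfsg.Agent.Lib.Cores.pCore_normal (G := centralizer ({x} : Set G)) 2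
  have key : ∀ y ∈ centralizer ({x} : Set G), ∀ q ∈ Q x, y * q * y⁻¹ ∈ Q x := by
    intro y hy q hq
    rw [hQ] at hq ⊢
    obtain ⟨q, hq, rfl⟩ := hq
    exact ⟨⟨y, hy⟩ * q * ⟨y, hy⟩⁻¹, h1.conj_mem q hq ⟨y, hy⟩, rfl⟩
  intro y hy
  rw [mem_normalizer_iff]
  intro q
  refine ⟨key y hy q, fun h => ?_⟩
  have := key y⁻¹ (inv_mem hy) _ h
  have e : y⁻¹ * (y * q * y⁻¹) * y⁻¹⁻¹ = q := by group
  rwa [e] at this

theorem fam_mem {x : G} (hx : orderOf x = 2) : x ∈ Q x := by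
  rw [hQ]
  have hxC : x ∈ centralizer ({x} : Set G) := mem_centralizer_singleton_iff.mpr rfl
  have hcen : ∀ y : centralizer ({x} : Set G), y * ⟨x, hxC⟩ = ⟨x, hxC⟩ * y := fun y =>
    Subtype.ext (mem_centralizer_singleton_iff.mp y.2)
  have hn : (zpowers (⟨x, hxC⟩ : centralizer ({x} : Set G))).Normal := by
    refine ⟨fun n hn y => ?_⟩
    obtain ⟨k, rfl⟩ := mem_zpowers_iff.mp hn
    have h1 : Commute y (⟨x, hxC⟩ ^ k) := Commute.zpow_right (hcen y) k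
    rw [h1.eq, mul_inv_cancel_right]
    exact hn
  have hp : IsPGroup 2 (zpowers (⟨x, hxC⟩ : centralizer ({x} : Set G))) := by
    apply IsPGroup.of_card (n := 1)
    rw [Nat.card_zpowers, pow_one, ← hx]
    exact (orderOf_injective (centralizer ({x} : Set G)).subtype (subtype_injective _) ⟨x, hxC⟩).symm
  exact ⟨⟨x, hxC⟩, Cfsg.Agent.Lib.Cores.le_pCore hn hp (mem_zpowers _), rfl⟩

theorem fam_LE [Finite G] {z : G} (hz : orderOf z = 2) (hE : Cfsg.IsExtraspecial 2 ↥(Q z))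
    (hC : centralizer ((Q z : Subgroup G) : Set G) ≤ Q z) : LE (Q z) z :=
  of_extraspecial hE (fam_mem hQ hz) hz (fun x hx => mem_centralizer_singleton_iff.mp (fam_le hQ z hx)) hC
    (fam_norm hQ z)

/-- all conjugates -/
theorem fam_LE' [Finite G] {z : G} (L : LE (Q z) z) {u : G} (hu : ∃ g : G, g * z * g⁻¹ = u) : LE (Q u) u := by
  obtain ⟨g, rfl⟩ := hu
  rw [fam_conj hQ]
  exact L.conj g

theorem fam_symm [Finite G] {z : G} (L : LE (Q z) z) {g : G} (hx : g * z * g⁻¹ ∈ Q z) : z ∈ Q (g * z * g⁻¹) := by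
  by_cases h : g * z * g⁻¹ = z
  · rw [h]; exact L.zQ
  · rw [fam_conj hQ]
    exact (key L.toLQ hx h).1

/-- `Q z ∩ Q a ≤ Q (z a)` -/
theorem fam_inf_le [Finite G] {z : G} (L : LE (Q z) z) {a : G} (ha : ∃ g : G, g * z * g⁻¹ = a) (haQ : a ∈ Q z)
    (hne : a ≠ z) : Q z ⊓ Q a ≤ Q (z * a) := by
  obtain ⟨g, rfl⟩ := ha
  have hza : (g * z * g⁻¹) * z = z * (g * z * g⁻¹) := L.zc _ haQ
  have L' := L.toLQ.conj g
  have haa : (g * z * g⁻¹) * (g * z * g⁻¹) = 1 := L'.zz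
  have ha1 : g * z * g⁻¹ ≠ 1 := L'.z1
  have hzP : z ∈ Q (g * z * g⁻¹) := fam_symm hQ L haQ
  have hPe := fam_conj hQ g z
  obtain ⟨x, hx, hx1, hx2⟩ := s3 L.toLQ haQ hne (z * (g * z * g⁻¹)) z (Or.inr (Or.inr rfl)) (Or.inl rfl)
    (fun h => ha1 (mul_eq_left.mp h))
  rw [← hPe] at hx L'
  set a : G := g * z * g⁻¹ with ha
  have hVE : ∀ v ∈ closure ({z, a} : Set G), v ∈ Q z ⊓ Q a := by
    intro v hv
    rcases (mem_four L.zz haa hza).mp hv with rfl | rfl | rfl | rfl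
    · exact one_mem _
    · exact ⟨L.zQ, hzP⟩
    · exact ⟨haQ, L'.zQ⟩
    · exact ⟨mul_mem L.zQ haQ, mul_mem hzP L'.zQ⟩
  have hz' : z ∈ closure ({z, a} : Set G) := (mem_four L.zz haa hza).mpr (Or.inr (Or.inl rfl))
  have ha' : a ∈ closure ({z, a} : Set G) := (mem_four L.zz haa hza).mpr (Or.inr (Or.inr (Or.inl rfl)))
  -- `E` is normalized by `Q z ⊔ Q a`
  have hnorm : Q z ⊔ Q a ≤ normalizer ((Q z ⊓ Q a : Subgroup G) : Set G) := by
    have key1 : ∀ y ∈ Q z, ∀ e ∈ Q z ⊓ Q a, y * e * y⁻¹ ∈ Q z ⊓ Q a := by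
      intro y hy e he
      have h1 : y * e * y⁻¹ = ⁅y, e⁆ * e := by rw [commutatorElement_def]; group
      rw [h1]
      refine mul_mem (hVE _ ?_) he
      rcases L.comm y hy e he.1 with h | h <;> rw [h]
      · exact one_mem _
      · exact hz'
    have key2 : ∀ y ∈ Q a, ∀ e ∈ Q z ⊓ Q a, y * e * y⁻¹ ∈ Q z ⊓ Q a := by
      intro y hy e he
      have h1 : y * e * y⁻¹ = ⁅y, e⁆ * e := by rw [commutatorElement_def]; group
      rw [h1]
      refine mul_mem (hVE _ ?_) he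
      rcases L'.comm y hy e he.2 with h | h <;> rw [h]
      · exact one_mem _
      · exact ha'
    have gen : ∀ K : Subgroup G, (∀ y ∈ K, ∀ e ∈ Q z ⊓ Q a, y * e * y⁻¹ ∈ Q z ⊓ Q a) →
        K ≤ normalizer ((Q z ⊓ Q a : Subgroup G) : Set G) := by
      intro K hK y hy
      rw [mem_normalizer_iff]
      intro e
      refine ⟨hK y hy e, fun h => ?_⟩
      have := hK y⁻¹ (inv_mem hy) _ h
      have e' : y⁻¹ * (y * e * y⁻¹) * y⁻¹⁻¹ = e := by group
      rwa [e'] at this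
    exact sup_le (gen _ key1) (gen _ key2)
  intro e he
  have h1 : x⁻¹ * e * x ∈ Q z ⊓ Q a := by
    have := (mem_normalizer_iff.mp (inv_mem (hnorm hx)) e).mp he
    rwa [inv_inv] at this
  have h2 : Q (z * a) = (Q z).map (MulAut.conj x).toMonoidHom := by rw [← hx1, fam_conj hQ]
  rw [h2, mem_map_conj]
  exact h1.1

/-- singular subgroups -/
theorem sing_inf [Finite G] {z : G} (L : LE (Q z) z) {U : Subgroup G}
    (hS : ∀ u ∈ U, u ≠ 1 → ∃ g : G, g * z * g⁻¹ = u) (hO : ∀ u ∈ U, ∀ v ∈ U, u ≠ 1 → v ≠ 1 → v ∈ Q u)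
    {u v : G} (hu : u ∈ U) (hv : v ∈ U) (hu1 : u ≠ 1) (hv1 : v ≠ 1) (huv : u ≠ v) : Q u ⊓ Q v ≤ Q (u * v) := by
  obtain ⟨g, hg⟩ := hS u hu hu1
  obtain ⟨k, hk⟩ := hS v hv hv1
  refine fam_inf_le hQ (fam_LE' hQ L ⟨g, hg⟩) ⟨k * g⁻¹, ?_⟩ (hO u hu v hv hu1 hv1) huv.symm
  rw [← hg, ← hk]; group

end Family

end Cfsg.Agent.Lib.LargeEx
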