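import Mathlib
import Cfsg.Agent.Lib.Tor5

/-! Free subgroups of `SL_2` over polynomial rings and laws in `PSL_2`. -/

set_option linter.all false
set_option maxHeartbeats 400000

namespace Cfsg.Agent.Lib.Law

open Matrix Polynomial
open scoped MatrixGroups

universe u

/-- upper unipotent -/
noncomputable def U {R : Type*} [CommRing R] (f : R) : SL(2, R) := ⟨!![1, f; 0, 1], by rw [Matrix.det_fin_two_of]; ring⟩
/-- lower unipotent -/
noncomputable def L {R : Type*} [CommRing R] (f : R) : SL(2, R) := ⟨!![1, 0; f, 1], by rw [Matrix.det_fin_two_of]; ring⟩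

/-- generators -/
noncomputable def a (F : Type u) [Field F] (i : ℕ) : SL(2, F[X]) := U (X ^ (i + 1)) * L (X ^ (i + 1))

variable {F : Type u} [Field F]

theorem deg_lt {f b : F[X]} (hf : 1 ≤ f.degree) (hb : b ≠ 0) : b.degree < (f * b).degree := by
  have hf0 : f ≠ 0 := by
    rintro rfl
    rw [degree_zero] at hf
    exact absurd hf (by decide)
  rw [degree_eq_natDegree hf0] at hf
  have h1 : 1 ≤ f.natDegree := by exact_mod_cast hf
  rw [degree_eq_natDegree hb, degree_eq_natDegree (mul_ne_zero hf0 hb), natDegree_mul hf0 hb]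
  have h2 : b.natDegree < f.natDegree + b.natDegree := by omega
  exact_mod_cast h2

/-- the generator polynomial -/
noncomputable def f (F : Type u) [Field F] (i : ℕ) : F[X] := X ^ (i + 1)

theorem f_deg (i : ℕ) : 1 ≤ (f F i).degree := by
  rw [f, degree_X_pow]
  norm_cast
  omega

theorem f_sub_deg {i j : ℕ} (h : i ≠ j) : 1 ≤ (f F i - f F j).degree := by
  have hne : (f F i).degree ≠ (f F j).degree := by
    rw [f, f, degree_X_pow, degree_X_pow]
    norm_cast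
    omega
  rw [degree_sub_eq_max hne]
  exact (f_deg i).trans (le_max_left _ _)
where
  degree_sub_eq_max {p q : F[X]} (h : p.degree ≠ q.degree) : (p - q).degree = max p.degree q.degree := by
    rcases lt_or_gt_of_ne h with h1 | h1
    · rw [degree_sub_eq_right_of_degree_lt h1, max_eq_right h1.le]
    · rw [degree_sub_eq_left_of_degree_lt h1, max_eq_left h1.le]

/-- the sets for ping-pong -/
def Xs (F : Type u) [Field F] (i : ℕ) : Set SL(2, F[X]) := {g | ((g : Matrix (Fin 2) (Fin 2) F[X]) 0 0 - f F i * (g : Matrix (Fin 2) (Fin 2) F[X]) 1 0).degree < ((g : Matrix (Fin 2) (Fin 2) F[X]) 1 0).degree}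
def Ys (F : Type u) [Field F] (i : ℕ) : Set SL(2, F[X]) := {g | ((g : Matrix (Fin 2) (Fin 2) F[X]) 1 0 + f F i * (g : Matrix (Fin 2) (Fin 2) F[X]) 0 0).degree ≤ ((g : Matrix (Fin 2) (Fin 2) F[X]) 0 0).degree}

theorem col_ne (g : SL(2, F[X])) : ¬ ((g : Matrix (Fin 2) (Fin 2) F[X]) 0 0 = 0 ∧ (g : Matrix (Fin 2) (Fin 2) F[X]) 1 0 = 0) := by
  rintro ⟨h1, h2⟩
  have h := g.det_coe
  rw [Matrix.det_fin_two, h1, h2, zero_mul, mul_zero, sub_zero] at h
  exact zero_ne_one h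

theorem a_mul (i : ℕ) (g : SL(2, F[X])) :
    ((a F i * g : SL(2, F[X])) : Matrix (Fin 2) (Fin 2) F[X]) 1 0 = f F i * (g : Matrix (Fin 2) (Fin 2) F[X]) 0 0 + (g : Matrix (Fin 2) (Fin 2) F[X]) 1 0 ∧
    ((a F i * g : SL(2, F[X])) : Matrix (Fin 2) (Fin 2) F[X]) 0 0 = (g : Matrix (Fin 2) (Fin 2) F[X]) 0 0 + f F i * (f F i * (g : Matrix (Fin 2) (Fin 2) F[X]) 0 0 + (g : Matrix (Fin 2) (Fin 2) F[X]) 1 0) := by
  have h : ((a F i * g : SL(2, F[X])) : Matrix (Fin 2) (Fin 2) F[X]) = !![1, f F i; 0, 1] * !![1, 0; f F i, 1] * (g : Matrix (Fin 2) (Fin 2) F[X]) := rfl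
  rw [h, Matrix.mul_fin_two]
  constructor
  · rw [Matrix.mul_apply, Fin.sum_univ_two]
    simp
  · rw [Matrix.mul_apply, Fin.sum_univ_two]
    simp
    ring

theorem ainv_mul (i : ℕ) (g : SL(2, F[X])) :
    (((a F i)⁻¹ * g : SL(2, F[X])) : Matrix (Fin 2) (Fin 2) F[X]) 0 0 = (g : Matrix (Fin 2) (Fin 2) F[X]) 0 0 - f F i * (g : Matrix (Fin 2) (Fin 2) F[X]) 1 0 ∧
    (((a F i)⁻¹ * g : SL(2, F[X])) : Matrix (Fin 2) (Fin 2) F[X]) 1 0 = (g : Matrix (Fin 2) (Fin 2) F[X]) 1 0 - f F i * ((g : Matrix (Fin 2) (Fin 2) F[X]) 0 0 - f F i * (g : Matrix (Fin 2) (Fin 2) F[X]) 1 0) := by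
  obtain ⟨h1, h2⟩ := a_mul i ((a F i)⁻¹ * g)
  rw [mul_inv_cancel_left] at h1 h2
  constructor
  · rw [h2, h1]; ring
  · rw [h2, h1]; ring

theorem inj' (F : Type u) [Field F] : Function.Injective (FreeGroup.lift (fun i : ULift.{u} ℕ => a F i.down)) := by
  apply FreeGroup.injective_lift_of_ping_pong (a := fun i : ULift.{u} ℕ => a F i.down) (α := SL(2, F[X])) (X := fun i => Xs F i.down) (Y := fun i => Ys F i.down)
  · rintro ⟨i⟩
    refine ⟨a F i, ?_⟩
    obtain ⟨h1, h2⟩ := a_mul i (1 : SL(2, F[X]))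
    rw [mul_one] at h1 h2
    show ((a F i : Matrix (Fin 2) (Fin 2) F[X]) 0 0 - f F i * (a F i : Matrix (Fin 2) (Fin 2) F[X]) 1 0).degree < ((a F i : Matrix (Fin 2) (Fin 2) F[X]) 1 0).degree
    rw [h1, h2]
    have h3 : ((1 : SL(2, F[X])) : Matrix (Fin 2) (Fin 2) F[X]) 0 0 = 1 := rfl
    have h4 : ((1 : SL(2, F[X])) : Matrix (Fin 2) (Fin 2) F[X]) 1 0 = 0 := rfl
    rw [h3, h4]
    have h5 : (1 : F[X]) + f F i * (f F i * 1 + 0) - f F i * (f F i * 1 + 0) = 1 := by ring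
    rw [h5, mul_one, add_zero, degree_one]
    exact lt_of_lt_of_le (by decide) (f_deg i)
  · rintro ⟨i⟩ ⟨j⟩ hij'
    have hij : i ≠ j := fun h => hij' (congrArg ULift.up h)
    rw [Function.onFun, Set.disjoint_left]
    intro g hi hj
    have hb : (g : Matrix (Fin 2) (Fin 2) F[X]) 1 0 ≠ 0 := by
      intro h
      have hi' : ((g : Matrix (Fin 2) (Fin 2) F[X]) 0 0 - f F i * (g : Matrix (Fin 2) (Fin 2) F[X]) 1 0).degree < ((g : Matrix (Fin 2) (Fin 2) F[X]) 1 0).degree := hi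
      rw [h, degree_zero] at hi'
      exact not_lt_bot hi'
    have h1 : ((f F i - f F j) * (g : Matrix (Fin 2) (Fin 2) F[X]) 1 0).degree < ((g : Matrix (Fin 2) (Fin 2) F[X]) 1 0).degree := by
      have e : (f F i - f F j) * (g : Matrix (Fin 2) (Fin 2) F[X]) 1 0 = ((g : Matrix (Fin 2) (Fin 2) F[X]) 0 0 - f F j * (g : Matrix (Fin 2) (Fin 2) F[X]) 1 0) -
        ((g : Matrix (Fin 2) (Fin 2) F[X]) 0 0 - f F i * (g : Matrix (Fin 2) (Fin 2) F[X]) 1 0) := by ring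
      rw [e]
      exact lt_of_le_of_lt (degree_sub_le _ _) (max_lt hj hi)
    exact absurd (h1.trans (deg_lt (f_sub_deg hij) hb)) (lt_irrefl _)
  · rintro ⟨i⟩ ⟨j⟩ hij'
    have hij : i ≠ j := fun h => hij' (congrArg ULift.up h)
    rw [Function.onFun, Set.disjoint_left]
    intro g hi hj
    have hi' : ((g : Matrix (Fin 2) (Fin 2) F[X]) 1 0 + f F i * (g : Matrix (Fin 2) (Fin 2) F[X]) 0 0).degree ≤ ((g : Matrix (Fin 2) (Fin 2) F[X]) 0 0).degree := hi
    have hb : (g : Matrix (Fin 2) (Fin 2) F[X]) 0 0 ≠ 0 := by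
      intro h
      rw [h, mul_zero, add_zero, degree_zero] at hi'
      exact col_ne g ⟨h, degree_eq_bot.mp (le_bot_iff.mp hi')⟩
    have h1 : ((f F i - f F j) * (g : Matrix (Fin 2) (Fin 2) F[X]) 0 0).degree ≤ ((g : Matrix (Fin 2) (Fin 2) F[X]) 0 0).degree := by
      have e : (f F i - f F j) * (g : Matrix (Fin 2) (Fin 2) F[X]) 0 0 = ((g : Matrix (Fin 2) (Fin 2) F[X]) 1 0 + f F i * (g : Matrix (Fin 2) (Fin 2) F[X]) 0 0) -
        ((g : Matrix (Fin 2) (Fin 2) F[X]) 1 0 + f F j * (g : Matrix (Fin 2) (Fin 2) F[X]) 0 0) := by ring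
      rw [e]
      exact (degree_sub_le _ _).trans (max_le hi' hj)
    exact absurd (lt_of_lt_of_le (deg_lt (f_sub_deg hij) hb) h1) (lt_irrefl _)
  · rintro ⟨i⟩ ⟨j⟩
    rw [Set.disjoint_left]
    intro g hi hj
    have hi' : ((g : Matrix (Fin 2) (Fin 2) F[X]) 0 0 - f F i * (g : Matrix (Fin 2) (Fin 2) F[X]) 1 0).degree < ((g : Matrix (Fin 2) (Fin 2) F[X]) 1 0).degree := hi
    have hj' : ((g : Matrix (Fin 2) (Fin 2) F[X]) 1 0 + f F j * (g : Matrix (Fin 2) (Fin 2) F[X]) 0 0).degree ≤ ((g : Matrix (Fin 2) (Fin 2) F[X]) 0 0).degree := hj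
    have hb : (g : Matrix (Fin 2) (Fin 2) F[X]) 1 0 ≠ 0 := by
      intro h
      rw [h, degree_zero] at hi'
      exact not_lt_bot hi'
    have h1 := deg_lt (f_deg (F := F) i) hb
    have h2 : ((g : Matrix (Fin 2) (Fin 2) F[X]) 1 0).degree < ((g : Matrix (Fin 2) (Fin 2) F[X]) 0 0).degree := by
      have e : (g : Matrix (Fin 2) (Fin 2) F[X]) 0 0 = ((g : Matrix (Fin 2) (Fin 2) F[X]) 0 0 - f F i * (g : Matrix (Fin 2) (Fin 2) F[X]) 1 0) + f F i * (g : Matrix (Fin 2) (Fin 2) F[X]) 1 0 := by ring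
      rw [e, degree_add_eq_right_of_degree_lt (hi'.trans h1)]
      exact h1
    have h0 : (g : Matrix (Fin 2) (Fin 2) F[X]) 0 0 ≠ 0 := by
      intro h
      rw [h, degree_zero] at h2
      exact not_lt_bot h2
    have h3 := deg_lt (f_deg (F := F) j) h0
    rw [degree_add_eq_right_of_degree_lt (h2.trans h3)] at hj'
    exact absurd (lt_of_lt_of_le h3 hj') (lt_irrefl _)
  · rintro ⟨i⟩ _ ⟨g, hg, rfl⟩
    have hg' : ¬ ((g : Matrix (Fin 2) (Fin 2) F[X]) 1 0 + f F i * (g : Matrix (Fin 2) (Fin 2) F[X]) 0 0).degree ≤ ((g : Matrix (Fin 2) (Fin 2) F[X]) 0 0).degree := hg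
    show (((a F i * g : SL(2, F[X])) : Matrix (Fin 2) (Fin 2) F[X]) 0 0 - f F i * ((a F i * g : SL(2, F[X])) : Matrix (Fin 2) (Fin 2) F[X]) 1 0).degree < (((a F i * g : SL(2, F[X])) : Matrix (Fin 2) (Fin 2) F[X]) 1 0).degree
    obtain ⟨h1, h2⟩ := a_mul i g
    rw [h1, h2]
    have e : (g : Matrix (Fin 2) (Fin 2) F[X]) 0 0 + f F i * (f F i * (g : Matrix (Fin 2) (Fin 2) F[X]) 0 0 + (g : Matrix (Fin 2) (Fin 2) F[X]) 1 0) - f F i * (f F i * (g : Matrix (Fin 2) (Fin 2) F[X]) 0 0 + (g : Matrix (Fin 2) (Fin 2) F[X]) 1 0) = (g : Matrix (Fin 2) (Fin 2) F[X]) 0 0 := by ring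
    rw [e, add_comm]
    exact not_le.mp hg'
  · rintro ⟨i⟩ _ ⟨g, hg, rfl⟩
    have hg' : ¬ ((g : Matrix (Fin 2) (Fin 2) F[X]) 0 0 - f F i * (g : Matrix (Fin 2) (Fin 2) F[X]) 1 0).degree < ((g : Matrix (Fin 2) (Fin 2) F[X]) 1 0).degree := hg
    show ((((a F i)⁻¹ * g : SL(2, F[X])) : Matrix (Fin 2) (Fin 2) F[X]) 1 0 + f F i * (((a F i)⁻¹ * g : SL(2, F[X])) : Matrix (Fin 2) (Fin 2) F[X]) 0 0).degree ≤ ((((a F i)⁻¹ * g : SL(2, F[X])) : Matrix (Fin 2) (Fin 2) F[X]) 0 0).degree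
    obtain ⟨h1, h2⟩ := ainv_mul i g
    rw [h1, h2]
    have e : (g : Matrix (Fin 2) (Fin 2) F[X]) 1 0 - f F i * ((g : Matrix (Fin 2) (Fin 2) F[X]) 0 0 - f F i * (g : Matrix (Fin 2) (Fin 2) F[X]) 1 0) + f F i * ((g : Matrix (Fin 2) (Fin 2) F[X]) 0 0 - f F i * (g : Matrix (Fin 2) (Fin 2) F[X]) 1 0) = (g : Matrix (Fin 2) (Fin 2) F[X]) 1 0 := by ring
    rw [e]
    exact not_lt.mp hg'

theorem inj (F : Type u) [Field F] : Function.Injective (FreeGroup.lift (a F)) := by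
  have h : FreeGroup.lift (a F) = (FreeGroup.lift (fun i : ULift.{u} ℕ => a F i.down)).comp (FreeGroup.freeGroupCongr (Equiv.ulift.{u} (α := ℕ)).symm).toMonoidHom := by
    ext1 i
    simp
  rw [h]
  exact (inj' F).comp (FreeGroup.freeGroupCongr (Equiv.ulift.{u} (α := ℕ)).symm).injective

/-- degree bound -/
theorem bound (w : FreeGroup ℕ) : ∃ D : ℕ, ∀ (F : Type u) [Field F] (i j : Fin 2), ((FreeGroup.lift (a F) w : Matrix (Fin 2) (Fin 2) F[X]) i j).natDegree ≤ D := by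
  have hof : ∀ n : ℕ, ∃ D : ℕ, ∀ (F : Type u) [Field F] (i j : Fin 2), ((a F n : Matrix (Fin 2) (Fin 2) F[X]) i j).natDegree ≤ D := by
    intro n
    refine ⟨2 * (n + 1), fun F _ i j => ?_⟩
    have h : (a F n : Matrix (Fin 2) (Fin 2) F[X]) = !![1, X ^ (n + 1); 0, 1] * !![1, 0; X ^ (n + 1), 1] := rfl
    have hX : (X ^ (n + 1) : F[X]).natDegree = n + 1 := natDegree_X_pow _
    rw [h, Matrix.mul_fin_two]
    fin_cases i <;> fin_cases j
    · show (1 * 1 + X ^ (n + 1) * X ^ (n + 1) : F[X]).natDegree ≤ 2 * (n + 1)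
      refine (natDegree_add_le _ _).trans (max_le ?_ ?_)
      · rw [mul_one, natDegree_one]; omega
      · rw [← pow_add, natDegree_X_pow]; omega
    · show (1 * 0 + X ^ (n + 1) * 1 : F[X]).natDegree ≤ 2 * (n + 1)
      rw [mul_zero, zero_add, mul_one, hX]; omega
    · show (0 * 1 + 1 * X ^ (n + 1) : F[X]).natDegree ≤ 2 * (n + 1)
      rw [zero_mul, zero_add, one_mul, hX]; omega
    · show (0 * 0 + 1 * 1 : F[X]).natDegree ≤ 2 * (n + 1)
      rw [mul_zero, zero_add, mul_one, natDegree_one]; omega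
  have hinv : ∀ (F : Type u) [Field F] (g : SL(2, F[X])) (D : ℕ), (∀ i j, ((g : Matrix (Fin 2) (Fin 2) F[X]) i j).natDegree ≤ D) →
      ∀ i j, (((g⁻¹ : SL(2, F[X])) : Matrix (Fin 2) (Fin 2) F[X]) i j).natDegree ≤ D := by
    intro F _ g D hg i j
    rw [Matrix.SpecialLinearGroup.coe_inv, Matrix.adjugate_fin_two]
    fin_cases i <;> fin_cases j
    · exact hg 1 1
    · show (-(g : Matrix (Fin 2) (Fin 2) F[X]) 0 1).natDegree ≤ D
      rw [natDegree_neg]; exact hg 0 1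
    · show (-(g : Matrix (Fin 2) (Fin 2) F[X]) 1 0).natDegree ≤ D
      rw [natDegree_neg]; exact hg 1 0
    · exact hg 0 0
  induction w using FreeGroup.induction_on with
  | C1 =>
    refine ⟨0, fun F _ i j => ?_⟩
    rw [map_one]
    show ((1 : Matrix (Fin 2) (Fin 2) F[X]) i j).natDegree ≤ 0
    rw [Matrix.one_apply]
    split_ifs
    · rw [natDegree_one]
    · rw [natDegree_zero]
  | of n =>
    obtain ⟨D, hD⟩ := hof n
    refine ⟨D, fun F _ i j => ?_⟩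
    rw [FreeGroup.lift_apply_of]
    exact hD F i j
  | inv_of n ih =>
    obtain ⟨D, hD⟩ := ih
    refine ⟨D, fun F _ => ?_⟩
    rw [map_inv]
    exact hinv F _ D (hD F)
  | mul x y hx hy =>
    obtain ⟨D1, h1⟩ := hx
    obtain ⟨D2, h2⟩ := hy
    refine ⟨D1 + D2, fun F _ i j => ?_⟩
    rw [map_mul, Matrix.SpecialLinearGroup.coe_mul, Matrix.mul_apply, Fin.sum_univ_two]
    refine (natDegree_add_le _ _).trans (max_le ?_ ?_)
    · exact natDegree_mul_le.trans (Nat.add_le_add (h1 F i 0) (h2 F 0 j))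
    · exact natDegree_mul_le.trans (Nat.add_le_add (h1 F i 1) (h2 F 1 j))

end Cfsg.Agent.Lib.Law
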