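import Mathlib
import Cfsg.Agent.Lib.Law1

/-! Laws in `PSL_2` and in alternating groups. -/

set_option linter.all false
set_option maxHeartbeats 400000

namespace Cfsg.Agent.Lib.Law

open Matrix Polynomial
open scoped MatrixGroups

universe u

theorem s2353 (w : FreeGroup ℕ) (hw : w ≠ 1) :
    ∃ N : ℕ, ∀ (F : Type u) [Field F] [Fintype F], N ≤ Fintype.card F →
      ∃ f : ℕ → Matrix.ProjectiveSpecialLinearGroup (Fin 2) F, FreeGroup.lift f w ≠ 1 := by
  classical
  obtain ⟨D, hD⟩ := bound.{u} w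
  refine ⟨D + 1, fun F _ _ hF => ?_⟩
  let M := FreeGroup.lift (a F) w
  have hM2 : M * M ≠ 1 := by
    intro h
    have h1 : FreeGroup.lift (a F) (w ^ 2) = 1 := by rw [map_pow, pow_two]; exact h
    rw [← map_one (FreeGroup.lift (a F))] at h1
    have h2 := inj F h1
    exact hw ((pow_eq_one_iff_left (by norm_num : 2 ≠ 0)).mp h2)
  -- a non-zero polynomial
  obtain ⟨P, hP0, hPD, hP⟩ : ∃ P : F[X], P ≠ 0 ∧ P.natDegree ≤ D ∧ ∀ x : F, P.eval x ≠ 0 →
      ¬ (((M : Matrix (Fin 2) (Fin 2) F[X]) 0 1).eval x = 0 ∧ ((M : Matrix (Fin 2) (Fin 2) F[X]) 1 0).eval x = 0 ∧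
        ((M : Matrix (Fin 2) (Fin 2) F[X]) 0 0).eval x = ((M : Matrix (Fin 2) (Fin 2) F[X]) 1 1).eval x) := by
    by_cases h1 : (M : Matrix (Fin 2) (Fin 2) F[X]) 0 1 = 0
    · by_cases h2 : (M : Matrix (Fin 2) (Fin 2) F[X]) 1 0 = 0
      · refine ⟨(M : Matrix (Fin 2) (Fin 2) F[X]) 0 0 - (M : Matrix (Fin 2) (Fin 2) F[X]) 1 1, ?_, ?_, ?_⟩
        · intro h3
          apply hM2
          have h4 := M.det_coe
          rw [Matrix.det_fin_two, h1, zero_mul, sub_zero] at h4
          have h5 := sub_eq_zero.mp h3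
          apply Subtype.ext
          show (M : Matrix (Fin 2) (Fin 2) F[X]) * (M : Matrix (Fin 2) (Fin 2) F[X]) = 1
          apply Matrix.ext
          intro i j
          rw [Matrix.mul_apply, Fin.sum_univ_two]
          fin_cases i <;> fin_cases j
          · show (M : Matrix (Fin 2) (Fin 2) F[X]) 0 0 * (M : Matrix (Fin 2) (Fin 2) F[X]) 0 0 + (M : Matrix (Fin 2) (Fin 2) F[X]) 0 1 * (M : Matrix (Fin 2) (Fin 2) F[X]) 1 0 = 1
            rw [h1, zero_mul, add_zero]
            nth_rewrite 2 [h5]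
            exact h4
          · show (M : Matrix (Fin 2) (Fin 2) F[X]) 0 0 * (M : Matrix (Fin 2) (Fin 2) F[X]) 0 1 + (M : Matrix (Fin 2) (Fin 2) F[X]) 0 1 * (M : Matrix (Fin 2) (Fin 2) F[X]) 1 1 = 0
            rw [h1, zero_mul, mul_zero, add_zero]
          · show (M : Matrix (Fin 2) (Fin 2) F[X]) 1 0 * (M : Matrix (Fin 2) (Fin 2) F[X]) 0 0 + (M : Matrix (Fin 2) (Fin 2) F[X]) 1 1 * (M : Matrix (Fin 2) (Fin 2) F[X]) 1 0 = 0
            rw [h2, zero_mul, mul_zero, add_zero]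
          · show (M : Matrix (Fin 2) (Fin 2) F[X]) 1 0 * (M : Matrix (Fin 2) (Fin 2) F[X]) 0 1 + (M : Matrix (Fin 2) (Fin 2) F[X]) 1 1 * (M : Matrix (Fin 2) (Fin 2) F[X]) 1 1 = 1
            rw [h1, mul_zero, zero_add]
            exact (congrArg (· * (M : Matrix (Fin 2) (Fin 2) F[X]) 1 1) h5.symm).trans h4
        · exact (natDegree_sub_le _ _).trans (max_le (hD F 0 0) (hD F 1 1))
        · rintro x hx ⟨_, _, h5⟩
          apply hx
          rw [eval_sub, h5, sub_self]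
      · exact ⟨_, h2, hD F 1 0, fun x hx h => hx h.2.1⟩
    · exact ⟨_, h1, hD F 0 1, fun x hx h => hx h.1⟩
  obtain ⟨x, hx⟩ : ∃ x : F, P.eval x ≠ 0 := by
    by_contra hcon
    push Not at hcon
    have h1 : (Finset.univ : Finset F).val ≤ P.roots := by
      rw [Multiset.le_iff_subset Finset.univ.nodup]
      intro y _
      rw [mem_roots hP0]
      exact hcon y
    have h2 := Multiset.card_le_card h1
    have h3 := P.card_roots'
    have h4 : Multiset.card (Finset.univ : Finset F).val = Fintype.card F := rfl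
    omega
  let ev : SL(2, F[X]) →* SL(2, F) := Matrix.SpecialLinearGroup.map (evalRingHom x)
  have hev : ∀ (g : SL(2, F[X])) (i j : Fin 2), (ev g : Matrix (Fin 2) (Fin 2) F) i j = ((g : Matrix (Fin 2) (Fin 2) F[X]) i j).eval x := fun g i j => rfl
  refine ⟨fun i => Tor.mk F (ev (a F i)), ?_⟩
  have h1 : FreeGroup.lift (fun i => Tor.mk F (ev (a F i))) w = Tor.mk F (ev M) := by
    have h2 : FreeGroup.lift (fun i => Tor.mk F (ev (a F i))) = ((Tor.mk F).comp ev).comp (FreeGroup.lift (a F)) := by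
      ext1 i
      simp
    rw [h2]
    rfl
  rw [h1]
  intro h2
  apply hP x hx
  rw [← hev, ← hev, ← hev, ← hev]
  rcases Tor.mk_eq_one.mp h2 with h3 | h3
  · rw [h3]
    refine ⟨rfl, rfl, rfl⟩
  · rw [h3]
    refine ⟨?_, ?_, rfl⟩
    · show -(1 : Matrix (Fin 2) (Fin 2) F) 0 1 = 0
      simp
    · show -(1 : Matrix (Fin 2) (Fin 2) F) 1 0 = 0
      simp

/-- even embedding -/
theorem exists_emb (Q : Type) [Group Q] [Fintype Q] [DecidableEq Q] (n : ℕ) (hn : 2 * Fintype.card Q ≤ n) :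
    ∃ ψ : Q →* alternatingGroup (Fin n), Function.Injective ψ := by
  classical
  let d : Q →* Equiv.Perm (Q ⊕ Q) := (Equiv.Perm.sumCongrHom Q Q).comp ((MulAction.toPermHom Q Q).prod (MulAction.toPermHom Q Q))
  have hd : ∀ g : Q, d g = Equiv.Perm.sumCongr (MulAction.toPerm g) (MulAction.toPerm g) := fun g => rfl
  have hcard : Fintype.card (Q ⊕ Q) = Fintype.card {x : Fin n // (x : ℕ) < 2 * Fintype.card Q} := by
    rw [Fintype.card_sum, Fintype.card_subtype]
    have h1 : (Finset.univ.filter (fun j : Fin n => (j : ℕ) < 2 * Fintype.card Q)).card = (Finset.range (2 * Fintype.card Q)).card := by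
      rw [← Finset.card_map Fin.valEmbedding]
      congr 1
      ext k
      simp only [Finset.mem_map, Finset.mem_filter, Finset.mem_univ, true_and, Finset.mem_range, Fin.valEmbedding_apply]
      constructor
      · rintro ⟨a, ha, rfl⟩; exact ha
      · intro h
        exact ⟨⟨k, by omega⟩, h, rfl⟩
    rw [h1, Finset.card_range]
    ring
  let e : Q ⊕ Q ≃ {x : Fin n // (x : ℕ) < 2 * Fintype.card Q} := Fintype.equivOfCardEq hcard
  let φ : Q →* Equiv.Perm (Fin n) := (Equiv.Perm.extendDomainHom e).comp d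
  have hφ : ∀ g, φ g ∈ alternatingGroup (Fin n) := by
    intro g
    rw [Equiv.Perm.mem_alternatingGroup]
    show Equiv.Perm.sign ((d g).extendDomain e) = 1
    rw [Equiv.Perm.sign_extendDomain, hd, Equiv.Perm.sign_sumCongr]
    rcases Int.units_eq_one_or (Equiv.Perm.sign (MulAction.toPerm g : Equiv.Perm Q)) with h | h
    · rw [h]; rfl
    · rw [h]; rfl
  refine ⟨φ.codRestrict _ hφ, ?_⟩
  intro g h hgh
  have h1 : φ g = φ h := congrArg Subtype.val hgh
  have h2 : d g = d h := Equiv.Perm.extendDomainHom_injective e h1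
  have h3 : d g (Sum.inl 1) = d h (Sum.inl 1) := by rw [h2]
  rw [hd, hd] at h3
  have h4 : (Sum.inl (g * 1) : Q ⊕ Q) = Sum.inl (h * 1) := h3
  simpa using h4

theorem s2352 (w : FreeGroup ℕ) (hw : w ≠ 1) :
    ∃ N : ℕ, ∀ n : ℕ, N ≤ n → ∃ f : ℕ → alternatingGroup (Fin n), FreeGroup.lift f w ≠ 1 := by
  classical
  obtain ⟨N, hN⟩ := s2353.{0} w hw
  obtain ⟨p, hp, hpp⟩ := Nat.exists_infinite_primes N
  haveI : Fact p.Prime := ⟨hpp⟩
  obtain ⟨f, hf⟩ := hN (ZMod p) (by rw [ZMod.card]; exact hp)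
  haveI : Fintype (Matrix.ProjectiveSpecialLinearGroup (Fin 2) (ZMod p)) := Fintype.ofFinite _
  refine ⟨2 * Fintype.card (Matrix.ProjectiveSpecialLinearGroup (Fin 2) (ZMod p)), fun n hn => ?_⟩
  obtain ⟨ψ, hψ⟩ := exists_emb (Matrix.ProjectiveSpecialLinearGroup (Fin 2) (ZMod p)) n hn
  refine ⟨fun i => ψ (f i), ?_⟩
  have h2 : FreeGroup.lift (fun i => ψ (f i)) = ψ.comp (FreeGroup.lift f) := by
    ext1 i
    simp
  rw [h2]
  intro h
  apply hf
  apply hψ
  rw [map_one]
  exact h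

end Cfsg.Agent.Lib.Law
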