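import Cfsg.Agent.Lib.CharFix
import Cfsg.Agent.Lib.CharCoC
import Cfsg.Agent.Lib.CharGlaub
import Cfsg.Agent.Lib.BlockLoc
import Cfsg.Agent.Lib.CharMod
import Cfsg.Agent.Lib.CharHallCompl
import Cfsg.Agent.Lib.SchurZas
import Cfsg.Agent.Lib.CharFS
import Cfsg.Agent.Lib.CharMono

/-! Character theory preliminaries for the odd order block. -/

set_option autoImplicit false
set_option linter.unusedVariables false
set_option linter.unusedSectionVars false

namespace Cfsg.Agent.Lib.OddA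

open Cfsg Cfsg.Agent.Lib.CharBasic Cfsg.Agent.Lib.CharInd Cfsg.Agent.Lib.CharKer
open Cfsg.Agent.Lib.CharNormal Cfsg.Agent.Lib.CharClifford Cfsg.Agent.Lib.CharLin
open scoped ComplexConjugate

noncomputable section

section One

variable {G : Type*} [Group G] [Fintype G] {N : Subgroup G} [hN : N.Normal]

/-- Sum over the group of a function of the conjugates. -/
theorem sum_cj (θ : N → ℂ) {M : Type*} [AddCommMonoid M] (F : (N → ℂ) → M) :
    ∑ x : G, F (cj x θ) =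
      Nat.card (inertia θ) • ∑ᶠ ψ ∈ {ψ : N → ℂ | ∃ g : G, ψ = cj g θ}, F ψ := by
  classical
  have hfin := finite_orbit θ
  rw [finsum_mem_eq_finite_toFinset_sum _ hfin, Finset.smul_sum,
    ← Finset.sum_fiberwise_of_maps_to (s := Finset.univ) (t := hfin.toFinset)
      (g := fun x : G => cj x θ) (fun x _ => by
        rw [Set.Finite.mem_toFinset]; exact ⟨x, rfl⟩)]
  refine Finset.sum_congr rfl fun ψ hψ => ?_
  rw [Set.Finite.mem_toFinset] at hψ
  obtain ⟨z, rfl⟩ := hψ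
  rw [Finset.sum_congr rfl (fun x hx => by
    rw [(Finset.mem_filter.mp hx).2] : ∀ x ∈ Finset.univ.filter (fun x : G => cj x θ = cj z θ),
      F (cj x θ) = F (cj z θ)), Finset.sum_const]
  congr 1
  rw [← Fintype.card_subtype, ← Nat.card_eq_fintype_card]
  refine Nat.card_congr ⟨fun x => ⟨x.1 * z⁻¹, ?_⟩, fun w => ⟨w.1 * z, ?_⟩, fun x => ?_, fun w => ?_⟩
  · rw [mem_inertia, cj_mul, x.2, cj_inv_cj]
  · rw [cj_mul, mem_inertia.mp w.2]
  · simp
  · simp

theorem ind_res_eq (θ : N → ℂ) :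
    (fun h : N => indFun N θ h) = ((Nat.card (inertia θ) : ℂ) / (Nat.card N : ℂ)) •
      ∑ᶠ ψ ∈ {ψ : N → ℂ | ∃ g : G, ψ = cj g θ}, ψ := by
  rw [res_ind, sum_cj θ (fun ψ => ψ), ← Nat.cast_smul_eq_nsmul ℂ, smul_smul]
  congr 1
  rw [div_eq_inv_mul]

end One

section Two

variable {G : Type*} [Group G] [Fintype G] {H T : Subgroup G} [hHn : H.Normal] [Fintype H]
  [Fintype T]

/-- The transported function on `H.subgroupOf T`. -/
def sub (H T : Subgroup G) (θ : H → ℂ) : H.subgroupOf T → ℂ :=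
  fun x => θ ⟨(x : T), Subgroup.mem_subgroupOf.mp x.2⟩

theorem inner_ind_sub [Fintype (H.subgroupOf T)] (hHT : H ≤ T) (θ : H → ℂ) {ψ : T → ℂ}
    (hψ : IsClassFunction T ψ) :
    classInner (indFun (H.subgroupOf T) (sub H T θ)) ψ = classInner θ (resLe hHT ψ) := by
  rw [reciprocity _ _ _ hψ]
  exact inner_subgroupOf hHT θ (resLe hHT ψ)

theorem inner_ind_sub' [Fintype (H.subgroupOf T)] (hHT : H ≤ T) (θ : H → ℂ) {ψ : T → ℂ}
    (hψ : IsClassFunction T ψ) :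
    classInner (resLe hHT ψ) θ = conj (classInner (indFun (H.subgroupOf T) (sub H T θ)) ψ) := by
  rw [inner_ind_sub hHT θ hψ, classInner_conj_symm]

theorem clifford_corr {θ : H → ℂ} (hθ : IsIrrCharacter H θ)
    (hT : ∀ g : G, g ∈ T ↔ cj g θ = θ) (hHT : H ≤ T) {ψ ψ' : T → ℂ}
    (hψ : IsIrrCharacter T ψ) (hψ' : IsIrrCharacter T ψ')
    (hc : classInner (indFun (H.subgroupOf T) (sub H T θ)) ψ ≠ 0)
    (hc' : classInner (indFun (H.subgroupOf T) (sub H T θ)) ψ' ≠ 0) :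
    IsIrrCharacter G (indFun T ψ) ∧ (indFun T ψ = indFun T ψ' → ψ = ψ') := by
  classical
  haveI : Fintype (H.subgroupOf T) := Fintype.ofFinite _
  have h1 : classInner (resLe hHT ψ) θ ≠ 0 := by
    rw [inner_ind_sub' hHT θ (isChar_classFn (isChar_of_irr hψ)), map_ne_zero]; exact hc
  have h2 : classInner (resLe hHT ψ') θ ≠ 0 := by
    rw [inner_ind_sub' hHT θ (isChar_classFn (isChar_of_irr hψ')), map_ne_zero]; exact hc'
  exact ⟨ind_irr_of_inertia hθ hT hHT hψ h1, fun h => Lib.CharFix.clifford_inj hθ hT hHT hψ hψ' h1 h2 h⟩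

/-- The structure of characters over `θ` when the inertia quotient is abelian. -/
theorem abelian_inertia {θ : H → ℂ} (hθ : IsIrrCharacter H θ)
    (hT : ∀ g : G, g ∈ T ↔ cj g θ = θ) (hHT : H ≤ T)
    (hab : ∀ x ∈ T, ∀ y ∈ T, x * y * x⁻¹ * y⁻¹ ∈ H) :
    ∃ (e : ℕ) (C : Finset (G → ℂ)), 0 < e ∧ (∀ χ ∈ C, IsIrrCharacter G χ) ∧
      e ^ 2 * C.card * Nat.card H = Nat.card T ∧ indFun H θ = (e : ℂ) • ∑ χ ∈ C, χ ∧
      (∀ χ ∈ C, χ 1 = (T.index : ℂ) * e * θ 1) ∧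
      ((∃ η : T → ℂ, IsIrrCharacter T η ∧ resLe hHT η = θ) → e = 1) := by
  classical
  haveI : Fintype (H.subgroupOf T) := Fintype.ofFinite _
  obtain ⟨θ', hθ'⟩ : ∃ θ', θ' = sub H T θ := ⟨_, rfl⟩
  have hθ'i : IsIrrCharacter (H.subgroupOf T) θ' := by
    rw [hθ']; exact (isIrr_subgroupOf_iff hHT θ).mpr hθ
  have hθ1 : θ 1 ≠ 0 := isIrr_one_ne_zero hθ
  have hcl : ∀ ψ : IrrCharacter T, IsClassFunction T ψ.1 := fun ψ =>
    isChar_classFn (isChar_of_irr ψ.2)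
  have hin : ∀ ψ : IrrCharacter T, classInner (fun x : H.subgroupOf T => ψ.1 x) θ' =
      classInner (resLe hHT ψ.1) θ := by
    intro ψ
    rw [hθ']
    exact inner_subgroupOf hHT (resLe hHT ψ.1) θ
  -- a character over θ
  obtain ⟨ψ₀, hψ₀⟩ : ∃ ψ₀ : IrrCharacter T, classInner (indFun (H.subgroupOf T) θ') ψ₀.1 ≠ 0 := by
    apply char_ne_zero_exists_constituent (isChar_ind _ (isChar_of_irr hθ'i))
    intro h
    have := congrFun h 1
    rw [indFun_one, Pi.zero_apply] at this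
    rcases mul_eq_zero.mp this with h | h
    · exact Nat.cast_ne_zero.mpr Subgroup.index_ne_zero_of_finite h
    · exact isIrr_one_ne_zero hθ'i h
  have hover : ∀ ψ : IrrCharacter T, classInner (indFun (H.subgroupOf T) θ') ψ.1 =
      classInner θ (resLe hHT ψ.1) := by
    intro ψ
    rw [hθ']; exact inner_ind_sub hHT θ (hcl ψ)
  obtain ⟨e, he⟩ := exists_nat_inner (res_isChar hHT (isChar_of_irr ψ₀.2)) hθ
  have he0 : e ≠ 0 := by
    rintro rfl
    apply hψ₀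
    rw [hover, ← classInner_conj_symm, he]; simp
  have hmult : ∀ ψ : IrrCharacter T, classInner (indFun (H.subgroupOf T) θ') ψ.1 ≠ 0 →
      resLe hHT ψ.1 = resLe hHT ψ₀.1 := by
    intro ψ hψ
    obtain ⟨l, hl, hlψ⟩ := Lib.CharCoC.lin_transitive (G := T) (M := H.subgroupOf T)
      (fun a b => by
        rw [Subgroup.mem_subgroupOf]
        exact hab a a.2 b b.2) ψ₀.2 ψ.2 ⟨θ', hθ'i⟩
      (by
        rw [Lib.CharCo.ci_eq]
        change classInner (fun x : H.subgroupOf T => ψ₀.1 x) θ' ≠ 0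
        rw [hin ψ₀, he]; exact Nat.cast_ne_zero.mpr he0)
      (by
        rw [Lib.CharCo.ci_eq]
        change classInner (fun x : H.subgroupOf T => ψ.1 x) θ' ≠ 0
        rw [hin ψ, ← classInner_conj_symm, map_ne_zero, ← hover]; exact hψ)
    funext h
    have h1 : (⟨(h : G), hHT h.2⟩ : T) ∈ H.subgroupOf T := by
      rw [Subgroup.mem_subgroupOf]; exact h.2
    have h2 := congrFun hlψ ⟨(h : G), hHT h.2⟩
    rw [Pi.mul_apply, linFn_apply, hl _ h1, Units.val_one, one_mul] at h2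
    exact h2
  have hinv : ∀ g : T, cj g θ' = θ' := by
    intro g
    have h1 := (hT g).mp g.2
    funext x
    have h2 := congrFun h1 ⟨((x : T) : G), Subgroup.mem_subgroupOf.mp x.2⟩
    rw [cj_apply] at h2
    rw [cj_apply, hθ']
    exact h2
  have hres : resLe hHT ψ₀.1 = (e : ℂ) • θ := by
    have h1 := res_eq_smul ψ₀.2 hθ'i hinv (by rw [hin, he]; exact Nat.cast_ne_zero.mpr he0)
    rw [hin, he] at h1
    funext h
    have h2 := congrFun h1 ⟨⟨(h : G), hHT h.2⟩, by rw [Subgroup.mem_subgroupOf]; exact h.2⟩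
    rw [hθ'] at h2
    exact h2
  obtain ⟨S, hS⟩ : ∃ S : Finset (IrrCharacter T), S = Finset.univ.filter
    (fun ψ => classInner (indFun (H.subgroupOf T) θ') ψ.1 ≠ 0) := ⟨_, rfl⟩
  have hmemS : ∀ ψ, ψ ∈ S ↔ classInner (indFun (H.subgroupOf T) θ') ψ.1 ≠ 0 := by
    intro ψ; rw [hS]; simp
  have hcoef : ∀ ψ ∈ S, classInner (indFun (H.subgroupOf T) θ') ψ.1 = e := by
    intro ψ hψ
    rw [hover, hmult ψ ((hmemS ψ).mp hψ), ← classInner_conj_symm, he, map_natCast]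
  have hind : indFun (H.subgroupOf T) θ' = (e : ℂ) • ∑ ψ ∈ S, ψ.1 := by
    conv_lhs => rw [char_eq_sum_inner (isChar_ind _ (isChar_of_irr hθ'i))]
    rw [Finset.smul_sum, hS, Finset.sum_filter]
    refine Finset.sum_congr rfl fun ψ _ => ?_
    split_ifs with h
    · rw [hcoef ψ ((hmemS ψ).mpr h)]
    · rw [not_not.mp h, zero_smul]
  have hψ1 : ∀ ψ ∈ S, ψ.1 1 = e * θ 1 := by
    intro ψ hψ
    have h1 := congrFun ((hmult ψ ((hmemS ψ).mp hψ)).trans hres) 1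
    exact h1
  have hinj : Set.InjOn (fun ψ : IrrCharacter T => indFun T ψ.1) (S : Set (IrrCharacter T)) := by
    intro a ha b hb hab'
    apply Subtype.ext
    exact (clifford_corr hθ hT hHT a.2 b.2 (hθ' ▸ (hmemS a).mp ha)
      (hθ' ▸ (hmemS b).mp hb)).2 hab'
  have hcardS : e ^ 2 * S.card * Nat.card H = Nat.card T := by
    have h1 := congrFun hind 1
    rw [indFun_one, Pi.smul_apply, Finset.sum_apply, Finset.sum_congr rfl hψ1, Finset.sum_const,
      nsmul_eq_mul, smul_eq_mul, hθ'] at h1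
    have h2 : sub H T θ 1 = θ 1 := rfl
    rw [h2] at h1
    have h3 : ((H.subgroupOf T).index : ℂ) = e * (S.card * e) := by
      apply mul_right_cancel₀ hθ1
      rw [h1]; ring
    have h4 : (H.subgroupOf T).index = e * (S.card * e) := by exact_mod_cast h3
    have h5 := relIndex_mul_card' H T hHT
    rw [Subgroup.relIndex, h4] at h5
    rw [← h5]; ring
  refine ⟨e, S.image (fun ψ : IrrCharacter T => indFun T ψ.1), Nat.pos_of_ne_zero he0, ?_, ?_, ?_,
    ?_, ?_⟩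
  · intro χ hχ
    obtain ⟨ψ, hψ, rfl⟩ := Finset.mem_image.mp hχ
    exact (clifford_corr hθ hT hHT ψ.2 ψ.2 (hθ' ▸ (hmemS ψ).mp hψ)
      (hθ' ▸ (hmemS ψ).mp hψ)).1
  · rw [Finset.card_image_of_injOn hinj]; exact hcardS
  · rw [Finset.sum_image (fun a ha b hb h => hinj ha hb h), ← indFun_trans H T hHT θ]
    change indFun T (indFun (H.subgroupOf T) (sub H T θ)) = _
    rw [← hθ', hind, indFun_smul, indFun_sum]
  · intro χ hχ
    obtain ⟨ψ, hψ, rfl⟩ := Finset.mem_image.mp hχ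
    rw [indFun_one, hψ1 ψ hψ]; ring
  · rintro ⟨η, hη, hηres⟩
    have h1 : classInner (indFun (H.subgroupOf T) θ') η ≠ 0 := by
      rw [hover ⟨η, hη⟩, hηres, irr_inner_self hθ]; exact one_ne_zero
    have h2 := hmult ⟨η, hη⟩ h1
    rw [hres] at h2
    simp only at h2
    rw [hηres] at h2
    have h3 := congrFun h2 1
    rw [Pi.smul_apply, smul_eq_mul] at h3
    have h4 : (e : ℂ) = 1 := by
      apply mul_right_cancel₀ hθ1
      rw [one_mul]; exact h3.symm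
    exact_mod_cast h4

end Two

section Three

/-- A central section scalar: if `[D, C] ≤ ker φ` then `|φ| = φ(1)` on `D`. -/
theorem norm_eq_of_central {C : Type*} [Group C] [Fintype C] {φ : C → ℂ}
    (hφ : IsIrrCharacter C φ) {d : C} (hd : ∀ c : C, φ (c * d * c⁻¹ * d⁻¹) = φ 1) :
    φ d * conj (φ d) = φ 1 * φ 1 := by
  have h11 := isIrr_one_ne_zero hφ
  have h1 := Lib.CharFS.sum_conj_mul φ hφ d d⁻¹
  have h2 : ∀ c : C, φ (c * d * c⁻¹ * d⁻¹) = φ 1 := hd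
  rw [Finset.sum_congr rfl fun c _ => h2 c, Finset.sum_const, nsmul_eq_mul, Finset.card_univ,
    ← Nat.card_eq_fintype_card, char_inv (isChar_of_irr hφ)] at h1
  have h3 : (Nat.card C : ℂ) ≠ 0 := card_ne_zero'
  field_simp at h1
  linear_combination -h1

theorem degree_bound {G : Type*} [Group G] [Finite G] {ψ : G → ℂ} (hψ : IsIrrCharacter G ψ)
    {B C D : Subgroup G} (hBD : B ≤ D) (hDC : D ≤ C)
    (hcent : ∀ d ∈ D, ∀ c ∈ C, d * c * d⁻¹ * c⁻¹ ∈ B) (hker : ∀ b ∈ B, ψ b = ψ 1) :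
    ‖ψ 1‖ ^ 2 * (Nat.card C : ℝ) * (Nat.card D : ℝ) ≤ (Nat.card G : ℝ) ^ 2 := by
  classical
  cases nonempty_fintype G
  cases nonempty_fintype C
  have hψc := isChar_of_irr hψ
  have hres := isChar_res C hψc
  obtain ⟨φ, hφ⟩ := char_ne_zero_exists_constituent hres (by
    intro h
    exact isIrr_one_ne_zero hψ (congrFun h 1))
  -- φ(1)² |D| ≤ |C|
  have h1 : ∀ d : C, (d : G) ∈ D → ‖φ.1 d‖ = ‖φ.1 1‖ := by
    intro d hd
    have h2 : φ.1 d * conj (φ.1 d) = φ.1 1 * φ.1 1 := by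
      apply norm_eq_of_central φ.2
      intro c
      apply Lib.CharMono.constituent_ker hres φ.2 hφ
      have h3 := hcent d hd c c.2
      have h4 : ψ ((d : G) * c * (d : G)⁻¹ * (c : G)⁻¹)⁻¹ = ψ 1 := by
        rw [char_inv hψc, hker _ h3]
        obtain ⟨n, hn⟩ := isChar_one_eq hψc
        rw [hn, map_natCast]
      change ψ ((c : G) * d * (c : G)⁻¹ * (d : G)⁻¹) = ψ 1
      rw [← h4]
      congr 1
      group
    obtain ⟨n, -, hn⟩ := isIrr_one_eq φ.2
    rw [Complex.mul_conj'] at h2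
    rw [hn] at h2 ⊢
    have h5 : ‖φ.1 d‖ ^ 2 = (n : ℝ) ^ 2 := by
      have : ((‖φ.1 d‖ ^ 2 : ℝ) : ℂ) = (((n : ℝ) ^ 2 : ℝ) : ℂ) := by push_cast; rw [h2]; ring
      exact_mod_cast this
    rw [Complex.norm_natCast]
    exact (sq_eq_sq₀ (norm_nonneg _) (Nat.cast_nonneg n)).mp h5
  have h2 : ‖φ.1 1‖ ^ 2 * (Nat.card D : ℝ) ≤ Nat.card C := by
    have h3 := irr_inner_self φ.2
    rw [classInner_self_eq] at h3
    have h4 : (Nat.card C : ℝ)⁻¹ * ∑ c : C, ‖φ.1 c‖ ^ 2 = 1 := by exact_mod_cast h3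
    have h5 : (0 : ℝ) < Nat.card C := by exact_mod_cast Nat.card_pos
    have h6 : ∑ c : C, ‖φ.1 c‖ ^ 2 = Nat.card C := by
      field_simp at h4
      linarith
    rw [← h6]
    have h7 : ∑ c ∈ Finset.univ.filter (fun c : C => (c : G) ∈ D), ‖φ.1 c‖ ^ 2 ≤
        ∑ c : C, ‖φ.1 c‖ ^ 2 :=
      Finset.sum_le_sum_of_subset_of_nonneg (Finset.filter_subset _ _)
        (fun _ _ _ => by positivity)
    refine le_trans (le_of_eq ?_) h7
    rw [Finset.sum_congr rfl (fun c hc => by rw [h1 c (Finset.mem_filter.mp hc).2] :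
      ∀ c ∈ Finset.univ.filter (fun c : C => (c : G) ∈ D), ‖φ.1 c‖ ^ 2 = ‖φ.1 1‖ ^ 2),
      Finset.sum_const, nsmul_eq_mul, mul_comm]
    congr 2
    rw [← Fintype.card_subtype, ← Nat.card_eq_fintype_card]
    refine Nat.card_congr ⟨fun d => ⟨⟨d, hDC d.2⟩, d.2⟩, fun c => ⟨c.1, c.2⟩, fun _ => rfl,
      fun _ => rfl⟩
  -- ψ(1) ≤ [G : C] φ(1)
  have h3 : ‖ψ 1‖ ≤ C.index * ‖φ.1 1‖ := by
    have h4 : classInner (indFun C φ.1) ψ ≠ 0 := by
      rw [reciprocity C φ.1 ψ (isChar_classFn hψc), ← classInner_conj_symm, map_ne_zero]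
      exact hφ
    have h5 := degree_le_of_constituent (isChar_ind C (isChar_of_irr φ.2)) hψ h4
    rw [indFun_one] at h5
    obtain ⟨n, -, hn⟩ := isIrr_one_eq φ.2
    obtain ⟨m, -, hm⟩ := isIrr_one_eq hψ
    rw [hn, hm] at h5
    rw [hn, hm]
    simpa using h5
  have h4 : (Nat.card G : ℝ) = C.index * Nat.card C := by
    exact_mod_cast (Subgroup.index_mul_card C).symm
  have hC0 : (0 : ℝ) ≤ Nat.card C := Nat.cast_nonneg _
  have hD0 : (0 : ℝ) ≤ Nat.card D := Nat.cast_nonneg _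
  calc ‖ψ 1‖ ^ 2 * (Nat.card C : ℝ) * (Nat.card D : ℝ) ≤
      (C.index * ‖φ.1 1‖) ^ 2 * (Nat.card C : ℝ) * (Nat.card D : ℝ) := by gcongr
    _ = (C.index : ℝ) ^ 2 * Nat.card C * (‖φ.1 1‖ ^ 2 * (Nat.card D : ℝ)) := by ring
    _ ≤ (C.index : ℝ) ^ 2 * Nat.card C * Nat.card C := by gcongr
    _ = (Nat.card G : ℝ) ^ 2 := by rw [h4]; ring

/-- `1 - ε` for a prime `p`. -/
theorem exp_pow_eq {p : ℕ} (hp : p ≠ 0) :
    Complex.exp (2 * Real.pi * Complex.I / p) ^ p = 1 := by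
  rw [← Complex.exp_nat_mul, mul_div_cancel₀ _ (Nat.cast_ne_zero.mpr hp)]
  exact Complex.exp_two_pi_mul_I

theorem exp_primitive {p : ℕ} (hp : p ≠ 0) :
    IsPrimitiveRoot (Complex.exp (2 * Real.pi * Complex.I / p)) p :=
  Complex.isPrimitiveRoot_exp p hp

theorem value_congr {G : Type*} [Group G] [Finite G] {χ : G → ℂ}
    (hχ : IsGeneralizedCharacter G χ) {p : ℕ} (hp : p.Prime) {x y : G} (hx : orderOf x = p)
    (hxy : x * y = y * x) : ∃ ω : ℂ, IsIntegral ℤ ω ∧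
      χ (x * y) - χ y = (1 - Complex.exp (2 * Real.pi * Complex.I / p)) * ω := by
  classical
  cases nonempty_fintype G
  obtain ⟨ε, hε⟩ : ∃ ε, ε = Complex.exp (2 * Real.pi * Complex.I / p) := ⟨_, rfl⟩
  have hεp : IsPrimitiveRoot ε p := hε ▸ exp_primitive hp.ne_zero
  rw [← hε]
  have hεi : IsIntegral ℤ ε := Lib.BlockLoc.isIntegral_of_pow_eq_one hp.ne_zero hεp.pow_eq_one
  -- one linear character
  have hlin : ∀ z w : ℂ, z ^ p = 1 → IsIntegral ℤ w →
      ∃ ω : ℂ, IsIntegral ℤ ω ∧ z * w - w = (1 - ε) * ω := by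
    intro z w hz hw
    haveI : NeZero p := ⟨hp.ne_zero⟩
    obtain ⟨k, -, rfl⟩ := hεp.eq_pow_of_pow_eq_one hz
    refine ⟨-(∑ i ∈ Finset.range k, ε ^ i) * w, ?_, ?_⟩
    · exact (IsIntegral.neg (IsIntegral.sum _ fun i _ => hεi.pow i)).mul hw
    · have h1 := geom_sum_mul ε k
      linear_combination (-w) * h1
  let A : Subgroup G := Subgroup.closure {x, y}
  have hcomm : ∀ a b : A, a * b = b * a := by
    have : IsMulCommutative A := by
      refine ⟨⟨fun a b => ?_⟩⟩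
      have h1 : ∀ a ∈ ({x, y} : Set G), ∀ b ∈ ({x, y} : Set G), a * b = b * a := by
        intro a ha b hb
        simp only [Set.mem_insert_iff, Set.mem_singleton_iff] at ha hb
        rcases ha with rfl | rfl <;> rcases hb with rfl | rfl
        · rfl
        · exact hxy
        · exact hxy.symm
        · rfl
      have h2 := Subgroup.closure_le_centralizer_centralizer ({x, y} : Set G)
      have h3 : ({x, y} : Set G) ⊆ Subgroup.centralizer ({x, y} : Set G) := by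
        intro a ha
        rw [SetLike.mem_coe, Subgroup.mem_centralizer_iff]
        exact fun b hb => h1 b hb a ha
      have h4 : A ≤ Subgroup.centralizer ({x, y} : Set G) := (Subgroup.closure_le _).mpr h3
      have h5 : (b : G) ∈ Subgroup.centralizer (Subgroup.centralizer ({x, y} : Set G) : Set G) :=
        h2 b.2
      rw [Subgroup.mem_centralizer_iff] at h5
      exact Subtype.ext (h5 a (h4 a.2))
    intro a b
    exact this.1.1 a b
  have hxA : x ∈ A := Subgroup.subset_closure (by simp)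
  have hyA : y ∈ A := Subgroup.subset_closure (by simp)
  have hchar : ∀ φ : G → ℂ, IsCharacter G φ →
      ∃ ω : ℂ, IsIntegral ℤ ω ∧ φ (x * y) - φ y = (1 - ε) * ω := by
    intro φ hφ
    obtain ⟨m, hm⟩ := exists_mult (isChar_res A hφ)
    have h1 := congrFun hm (⟨x, hxA⟩ * ⟨y, hyA⟩)
    have h2 := congrFun hm ⟨y, hyA⟩
    simp only [Finset.sum_apply, Pi.smul_apply, smul_eq_mul, Subgroup.coe_mul] at h1 h2
    have h3 : ∀ ψ : IrrCharacter A, ∃ ω : ℂ, IsIntegral ℤ ω ∧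
        ψ.1 (⟨x, hxA⟩ * ⟨y, hyA⟩) - ψ.1 ⟨y, hyA⟩ = (1 - ε) * ω := by
      intro ψ
      obtain ⟨l, hl⟩ := irr_lin_of_comm hcomm ψ.2
      have h4 := hlin (l ⟨x, hxA⟩ : ℂ) (l ⟨y, hyA⟩ : ℂ) (by
        have h5 := lin_pow_card_eq_one l ⟨x, hxA⟩
        rwa [Subgroup.orderOf_mk, hx] at h5) (by
        have h6 := char_isIntegral (isChar_of_irr ψ.2) ⟨y, hyA⟩
        rw [hl] at h6; exact h6)
      rw [hl]
      simp only [map_mul, Units.val_mul]
      exact h4
    choose ω hωi hω using h3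
    refine ⟨∑ ψ : IrrCharacter A, (m ψ : ℂ) * ω ψ, ?_, ?_⟩
    · exact IsIntegral.sum _ fun ψ _ => (isIntegral_natCast _).mul (hωi ψ)
    · rw [h1, h2, ← Finset.sum_sub_distrib, Finset.mul_sum]
      refine Finset.sum_congr rfl fun ψ _ => ?_
      linear_combination (m ψ : ℂ) * hω ψ
  obtain ⟨a, b, ha, hb, rfl⟩ := hχ
  obtain ⟨u, hui, hu⟩ := hchar a ha
  obtain ⟨v, hvi, hv⟩ := hchar b hb
  refine ⟨u - v, hui.sub hvi, ?_⟩
  rw [mul_sub, ← hu, ← hv]
  simp only [Pi.sub_apply]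
  ring

theorem dvd_of_one_sub {p : ℕ} (hp : p.Prime) {n : ℤ} {ω : ℂ} (hω : IsIntegral ℤ ω)
    (h : (n : ℂ) = (1 - Complex.exp (2 * Real.pi * Complex.I / p)) * ω) : (p : ℤ) ∣ n := by
  obtain ⟨M, hM⟩ := Lib.CharMod.exists_pModular hp
  rw [← Lib.BlockLoc.max_intCast_iff hM, h]
  apply Lib.BlockLoc.max_mul_right hM _ (Lib.BlockLoc.loc_of_isIntegral hM hω)
  apply Lib.BlockLoc.max_sub_comm
  exact Lib.BlockLoc.max_sub_one_of_pow_p_pow hM (k := 1) (by
    rw [pow_one]; exact exp_pow_eq hp.ne_zero)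

end Three

section Four

/-- Elements of a coset `Hg`, `g` normalizing `H` coprimely. -/
theorem coset_conj {G : Type*} [Group G] [Finite G] (H : Subgroup G) (g : G)
    (hg : g ∈ Subgroup.normalizer (H : Set G)) (hcop : Nat.Coprime (orderOf g) (Nat.card H))
    (h : G) (hh : h ∈ H) :
    ∃ x ∈ H, ∃ c ∈ H, c * g = g * c ∧ x * (h * g) * x⁻¹ = c * g := by
  classical
  obtain ⟨N, hN⟩ : ∃ N : Subgroup G, N = Subgroup.normalizer (H : Set G) := ⟨_, rfl⟩
  have hHN : H ≤ N := hN ▸ Subgroup.le_normalizer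
  have hgN : g ∈ N := hN ▸ hg
  haveI hHn : (H.subgroupOf N).Normal := by rw [hN]; exact Subgroup.normal_in_normalizer
  let π : N →* N ⧸ H.subgroupOf N := QuotientGroup.mk' (H.subgroupOf N)
  have hπ : ∀ z : N, π z = 1 ↔ (z : G) ∈ H := by
    intro z
    rw [QuotientGroup.mk'_apply, QuotientGroup.eq_one_iff, Subgroup.mem_subgroupOf]
  have hyN : h * g ∈ N := N.mul_mem (hHN hh) hgN
  have hπy : π ⟨h * g, hyN⟩ = π ⟨g, hgN⟩ := by
    have : (⟨h * g, hyN⟩ : N) = ⟨h, hHN hh⟩ * ⟨g, hgN⟩ := rfl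
    rw [this, map_mul, (hπ ⟨h, hHN hh⟩).mpr hh, one_mul]
  have hord : orderOf (h * g) ∣ orderOf g * Nat.card H := by
    apply orderOf_dvd_of_pow_eq_one
    rw [pow_mul]
    have h1 : (h * g) ^ orderOf g ∈ H := by
      have h2 : π (⟨h * g, hyN⟩ ^ orderOf g) = 1 := by
        rw [map_pow, hπy, ← map_pow]
        have : (⟨g, hgN⟩ : N) ^ orderOf g = 1 := Subtype.ext (pow_orderOf_eq_one g)
        rw [this, map_one]
      exact (hπ _).mp h2
    have h3 := pow_card_eq_one' (x := (⟨_, h1⟩ : H))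
    exact congrArg Subtype.val h3
  obtain ⟨u, v, huv, hcomm, hu, hv, hu', hv'⟩ := Lib.CharHallCompl.exists_decomp hcop (h * g) hord
  have huN : u ∈ N := (Subgroup.zpowers_le.mpr hyN) hu'
  have hvN : v ∈ N := (Subgroup.zpowers_le.mpr hyN) hv'
  have hvH : v ∈ H := by
    rw [← hπ ⟨v, hvN⟩, ← orderOf_eq_one_iff]
    have h1 : orderOf (π ⟨v, hvN⟩) ∣ Nat.card H :=
      (orderOf_map_dvd π _).trans (by rw [Subgroup.orderOf_mk]; exact hv)
    have h2 : orderOf (π ⟨v, hvN⟩) ∣ orderOf g := by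
      obtain ⟨j, hj⟩ := Subgroup.mem_zpowers_iff.mp hv'
      have h3 : (⟨v, hvN⟩ : N) = ⟨h * g, hyN⟩ ^ j := Subtype.ext hj.symm
      rw [h3, map_zpow, hπy, ← map_zpow]
      refine (orderOf_map_dvd π _).trans ?_
      apply orderOf_dvd_of_pow_eq_one
      rw [← zpow_natCast, ← zpow_mul, mul_comm, zpow_mul, zpow_natCast]
      have : (⟨g, hgN⟩ : N) ^ orderOf g = 1 := Subtype.ext (pow_orderOf_eq_one g)
      rw [this, one_zpow]
    exact Nat.dvd_one.mp (hcop.gcd_eq_one ▸ Nat.dvd_gcd h2 h1)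
  have hπu : π ⟨u, huN⟩ = π ⟨g, hgN⟩ := by
    rw [← hπy]
    have h1 : (⟨h * g, hyN⟩ : N) = ⟨u, huN⟩ * ⟨v, hvN⟩ := Subtype.ext huv
    rw [h1, map_mul, (hπ ⟨v, hvN⟩).mpr hvH, mul_one]
  have hug : ∀ a b : N, π a = π b → (a : G) * (b : G)⁻¹ ∈ H := by
    intro a b hab
    have : π (a * b⁻¹) = 1 := by rw [map_mul, map_inv, hab, mul_inv_cancel]
    exact (hπ _).mp this
  have hsup : H ⊔ Subgroup.zpowers g = H ⊔ Subgroup.zpowers u := by
    apply le_antisymm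
    · apply sup_le le_sup_left
      rw [Subgroup.zpowers_le]
      have h1 := hug ⟨g, hgN⟩ ⟨u, huN⟩ hπu.symm
      have h2 : g = (g * u⁻¹) * u := by group
      rw [h2]
      exact Subgroup.mul_mem _ ((le_sup_left : H ≤ _) h1)
        ((le_sup_right : Subgroup.zpowers u ≤ _) (Subgroup.mem_zpowers u))
    · apply sup_le le_sup_left
      rw [Subgroup.zpowers_le]
      have h1 := hug ⟨u, huN⟩ ⟨g, hgN⟩ hπu
      have h2 : u = (u * g⁻¹) * g := by group
      rw [h2]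
      exact Subgroup.mul_mem _ ((le_sup_left : H ≤ _) h1)
        ((le_sup_right : Subgroup.zpowers g ≤ _) (Subgroup.mem_zpowers g))
  have hcop1 : (Nat.card (Subgroup.zpowers g)).Coprime (Nat.card H) := by
    rw [Nat.card_zpowers]; exact hcop
  have hcop2 : (Nat.card (Subgroup.zpowers u)).Coprime (Nat.card H) := by
    rw [Nat.card_zpowers]; exact hcop.coprime_dvd_left hu
  haveI : Group.IsSolvable (Subgroup.zpowers g) := inferInstance
  obtain ⟨n, hn, hnu⟩ := Lib.SchurZas.conj_of_coprime' (N := H) (A := Subgroup.zpowers g)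
    (B := Subgroup.zpowers u) (Subgroup.zpowers_le.mpr hg) hcop1 hcop2 hsup (Or.inl inferInstance)
  have h1 : n * g * n⁻¹ ∈ Subgroup.zpowers u := by
    rw [← hnu]
    exact Subgroup.smul_mem_pointwise_smul g (MulAut.conj n) _ (Subgroup.mem_zpowers g)
  have hnN : n ∈ N := hHN hn
  have h2 : n * g * n⁻¹ * u⁻¹ ∈ H := by
    have h3 := hug ⟨n * g * n⁻¹, N.mul_mem (N.mul_mem hnN hgN) (N.inv_mem hnN)⟩ ⟨u, huN⟩ (by
      have h4 : (⟨n * g * n⁻¹, N.mul_mem (N.mul_mem hnN hgN) (N.inv_mem hnN)⟩ : N) =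
        ⟨n, hnN⟩ * ⟨g, hgN⟩ * (⟨n, hnN⟩ : N)⁻¹ := rfl
      rw [h4, map_mul, map_mul, map_inv, (hπ ⟨n, hnN⟩).mpr hn, one_mul, inv_one, mul_one, hπu])
    exact h3
  have h3 : n * g * n⁻¹ * u⁻¹ = 1 := by
    have h4 : n * g * n⁻¹ * u⁻¹ ∈ Subgroup.zpowers u ⊓ H :=
      ⟨Subgroup.mul_mem _ h1 (Subgroup.inv_mem _ (Subgroup.mem_zpowers u)), h2⟩
    rw [Subgroup.inf_eq_bot_of_coprime hcop2, Subgroup.mem_bot] at h4
    exact h4
  have h4 : u = n * g * n⁻¹ := (mul_inv_eq_one.mp h3).symm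
  refine ⟨n⁻¹, H.inv_mem hn, n⁻¹ * v * n, H.mul_mem (H.mul_mem (H.inv_mem hn) hvH) hn, ?_, ?_⟩
  · have h5 := hcomm.eq
    rw [h4] at h5
    calc n⁻¹ * v * n * g = n⁻¹ * (v * (n * g * n⁻¹)) * n := by group
      _ = n⁻¹ * (n * g * n⁻¹ * v) * n := by rw [h5]
      _ = _ := by group
  · rw [huv, hcomm.eq, h4]; group

end Four

end

end Cfsg.Agent.Lib.OddA
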