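import Cfsg.Agent.Lib.OddDade
import Cfsg.Agent.Lib.OddA
import Cfsg.Agent.Lib.CharAvgN
import Cfsg.Agent.Lib.CharExc
import Cfsg.Agent.Lib.CharGal

set_option autoImplicit false

namespace Cfsg.Agent.Lib.OddDadeB

open Cfsg Cfsg.Agent.Lib.CharBasic Cfsg.Agent.Lib.CharInd Cfsg.Agent.Lib.OddDade
open scoped ComplexConjugate

noncomputable section

/-- class formula type sum -/
theorem sum_orbits {L X : Type*} [Group L] [Fintype L] [Fintype X] [MulAction L X] (F : X → ℂ)
    (hF : ∀ (l : L) (x : X), F (l • x) = F x)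
    (hc : ∀ x : X, ∃ c : ℤ, F x = (Nat.card (MulAction.stabilizer L x) : ℂ) * c) :
    ∃ n : ℤ, ∑ x : X, F x = (Nat.card L : ℂ) * n := by
  classical
  choose c hc using hc
  refine ⟨∑ ω : MulAction.orbitRel.Quotient L X, c ω.out, ?_⟩
  rw [← (MulAction.selfEquivSigmaOrbits L X).symm.sum_comp, Fintype.sum_sigma]
  push_cast
  rw [Finset.mul_sum]
  refine Finset.sum_congr rfl fun ω _ => ?_
  have h1 : ∀ y : MulAction.orbit L ω.out, F ((MulAction.selfEquivSigmaOrbits L X).symm ⟨ω, y⟩) = F ω.out := by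
    intro y
    obtain ⟨l, hl⟩ := y.2
    have : (MulAction.selfEquivSigmaOrbits L X).symm ⟨ω, y⟩ = y.1 := rfl
    rw [this, ← hl]
    exact hF l ω.out
  rw [Finset.sum_congr rfl fun y _ => h1 y, Finset.sum_const, Finset.card_univ, nsmul_eq_mul, hc ω.out]
  have h2 := MulAction.card_orbit_mul_card_stabilizer_eq_card_group L ω.out
  rw [← mul_assoc]
  congr 1
  rw [Nat.card_eq_fintype_card, Nat.card_eq_fintype_card, ← h2]
  push_cast
  rfl

variable {G : Type*} [Group G] [Fintype G]

open Classical in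
/-- average over the coset `N x` -/
def avgF (N : Subgroup G) (χ : G → ℂ) (x : G) : ℂ :=
  (Nat.card N : ℂ)⁻¹ * ∑ h : G, if h ∈ N then χ (h * x) else 0

open Classical in
theorem avgF_eq (N : Subgroup G) [Fintype N] (χ : G → ℂ) (x : G) :
    avgF N χ x = (Nat.card N : ℂ)⁻¹ * ∑ h : N, χ (h * x) := by
  rw [avgF, ← Finset.sum_filter]
  congr 1
  exact (Finset.sum_subtype _ (by simp) _)

theorem avg_cent (N C : Subgroup G) {x : G} (hx : x ∈ Subgroup.normalizer (N : Set G))
    (hcop : Nat.Coprime (orderOf x) (Nat.card N)) (hC : ∀ c, c ∈ C ↔ c ∈ N ∧ c * x = x * c)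
    {χ : G → ℂ} (hχ : IsClassFunction G χ) : avgF N χ x = avgF C χ x := by
  classical
  haveI : Fintype N := Fintype.ofFinite _
  haveI : Fintype C := Fintype.ofFinite _
  have hxN : ∀ n ∈ N, x * n * x⁻¹ ∈ N := fun n hn => (Subgroup.mem_set_normalizer_iff.mp hx n).mp hn
  have hCN : ∀ c ∈ C, c ∈ N := fun c hc => ((hC c).mp hc).1
  let φ : N × C → N := fun p => ⟨(p.1 : G)⁻¹ * (p.2 : G) * (x * p.1 * x⁻¹),
    N.mul_mem (N.mul_mem (N.inv_mem p.1.2) (hCN _ p.2.2)) (hxN _ p.1.2)⟩
  have hφ : ∀ p : N × C, ((φ p : N) : G) * x = (p.1 : G)⁻¹ * (p.2 * x) * (p.1 : G)⁻¹⁻¹ := by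
    intro p
    show (p.1 : G)⁻¹ * (p.2 : G) * (x * p.1 * x⁻¹) * x = _
    group
  have hfib : ∀ h : N, Fintype.card {p : N × C // φ p = h} = Fintype.card C := by
    intro h
    obtain ⟨n0, hn0, c0, hc0, hcx, he⟩ := Lib.OddA.coset_conj N x hx hcop h h.2
    have hc0C : c0 ∈ C := (hC c0).mpr ⟨hc0, hcx⟩
    have hbase : (h : G) * x = n0⁻¹ * (c0 * x) * n0 := by rw [← he]; group
    let f : C → {p : N × C // φ p = h} := fun k => ⟨(⟨k * n0, N.mul_mem (hCN _ k.2) hn0⟩,
      ⟨k * c0 * k⁻¹, C.mul_mem (C.mul_mem k.2 hc0C) (C.inv_mem k.2)⟩), by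
        apply Subtype.ext
        apply mul_right_cancel (b := x)
        rw [hφ, hbase]
        have hk := ((hC k).mp k.2).2
        have hk2 : (k : G)⁻¹ * x = x * (k : G)⁻¹ := by
          rw [inv_mul_eq_iff_eq_mul, ← mul_assoc, hk, mul_inv_cancel_right]
        show (((k : G) * n0))⁻¹ * ((k : G) * c0 * (k : G)⁻¹ * x) * (((k : G) * n0))⁻¹⁻¹ = _
        calc (((k : G) * n0))⁻¹ * ((k : G) * c0 * (k : G)⁻¹ * x) * (((k : G) * n0))⁻¹⁻¹
            = n0⁻¹ * c0 * ((k : G)⁻¹ * x) * k * n0 := by group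
          _ = n0⁻¹ * c0 * (x * (k : G)⁻¹) * k * n0 := by rw [hk2]
          _ = _ := by group⟩
    symm
    apply Fintype.card_of_bijective (f := f)
    constructor
    · intro a b hab
      have h1 : (a : G) * n0 = b * n0 := congrArg (fun p : {p : N × C // φ p = h} => (p.1.1 : G)) hab
      exact Subtype.ext (mul_right_cancel h1)
    · rintro ⟨⟨n, c⟩, hp⟩
      have h1 : (h : G) * x = (n : G)⁻¹ * (c * x) * (n : G)⁻¹⁻¹ := by rw [← hp]; exact hφ _
      obtain ⟨hcN, hcx'⟩ := (hC c).mp c.2
      have h2 : ((n : G) * n0⁻¹ * x * ((n : G) * n0⁻¹)⁻¹) * ((n : G) * n0⁻¹ * c0 * ((n : G) * n0⁻¹)⁻¹) = x * c := by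
        have : c * x = (n : G) * n0⁻¹ * (c0 * x) * ((n : G) * n0⁻¹)⁻¹ := by
          have : (n : G) * (n0⁻¹ * (c0 * x) * n0) * (n : G)⁻¹ = c * x := by
            rw [← hbase, h1]; group
          rw [← this]; group
        rw [← hcx', this, hcx]; group
      have hp3 := parts_eq (n := orderOf x) (m := Nat.card N) hcop (x := (n : G) * n0⁻¹ * x * ((n : G) * n0⁻¹)⁻¹)
        (y := (n : G) * n0⁻¹ * c0 * ((n : G) * n0⁻¹)⁻¹) (b := x) (v := c) ?_ hcx'.symm ?_ (pow_orderOf_eq_one x) ?_ ?_ h2
      · have hkC : (n : G) * n0⁻¹ ∈ C := by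
          refine (hC _).mpr ⟨N.mul_mem n.2 (N.inv_mem hn0), ?_⟩
          have := hp3.1
          calc (n : G) * n0⁻¹ * x = ((n : G) * n0⁻¹ * x * ((n : G) * n0⁻¹)⁻¹) * ((n : G) * n0⁻¹) := by group
            _ = x * ((n : G) * n0⁻¹) := by rw [this]
        refine ⟨⟨(n : G) * n0⁻¹, hkC⟩, ?_⟩
        apply Subtype.ext
        apply Prod.ext
        · apply Subtype.ext
          show (n : G) * n0⁻¹ * n0 = n
          group
        · apply Subtype.ext
          exact hp3.2
      · show _ * _ = _ * _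
        calc (n : G) * n0⁻¹ * x * ((n : G) * n0⁻¹)⁻¹ * ((n : G) * n0⁻¹ * c0 * ((n : G) * n0⁻¹)⁻¹)
            = (n : G) * n0⁻¹ * (x * c0) * ((n : G) * n0⁻¹)⁻¹ := by group
          _ = (n : G) * n0⁻¹ * (c0 * x) * ((n : G) * n0⁻¹)⁻¹ := by rw [hcx]
          _ = _ := by group
      · rw [conj_pow, pow_orderOf_eq_one]; group
      · rw [conj_pow, pow_card_mem hc0]; group
      · exact pow_card_mem hcN
  have h1 : ∑ p : N × C, χ ((φ p : N) * x) = (Fintype.card C : ℂ) * ∑ h : N, χ (h * x) := by
    rw [← Finset.sum_fiberwise (s := Finset.univ) (g := φ), Finset.mul_sum]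
    refine Finset.sum_congr rfl fun h _ => ?_
    have : ∀ p ∈ Finset.univ.filter (fun p => φ p = h), χ ((φ p : N) * x) = χ (h * x) := by
      intro p hp
      rw [(Finset.mem_filter.mp hp).2]
    rw [Finset.sum_congr rfl this, Finset.sum_const, nsmul_eq_mul, ← hfib h, Fintype.card_subtype]
  have h2 : ∑ p : N × C, χ ((φ p : N) * x) = (Fintype.card N : ℂ) * ∑ c : C, χ (c * x) := by
    rw [Fintype.sum_prod_type]
    have : ∀ n : N, ∑ c : C, χ ((φ (n, c) : N) * x) = ∑ c : C, χ (c * x) := by
      intro n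
      refine Finset.sum_congr rfl fun c _ => ?_
      rw [hφ, hχ]
    rw [Finset.sum_congr rfl fun n _ => this n, Finset.sum_const, Finset.card_univ, nsmul_eq_mul]
  rw [avgF_eq, avgF_eq, Nat.card_eq_fintype_card, Nat.card_eq_fintype_card]
  have hN0 : (Fintype.card N : ℂ) ≠ 0 := Nat.cast_ne_zero.mpr Fintype.card_pos.ne'
  have hC0 : (Fintype.card C : ℂ) ≠ 0 := Nat.cast_ne_zero.mpr Fintype.card_pos.ne'
  rw [inv_mul_eq_iff_eq_mul₀ hN0, ← mul_assoc, mul_comm (Fintype.card N : ℂ), mul_assoc, ← h2, h1,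
    inv_mul_cancel_left₀ hC0]

theorem avgF_isChar (N : Subgroup G) {χ : G → ℂ} (hχ : IsCharacter G χ) {S : Type*} [Group S]
    (f : S →* G) (hf : ∀ s, f s ∈ Subgroup.normalizer (N : Set G)) :
    IsCharacter S (fun s => avgF N χ (f s)) := by
  classical
  obtain ⟨M, hM⟩ : ∃ M : Subgroup G, M = Subgroup.normalizer (N : Set G) := ⟨_, rfl⟩
  have hNM : N ≤ M := hM ▸ Subgroup.le_normalizer
  haveI : (N.subgroupOf M).Normal := by rw [hM]; exact Subgroup.normal_in_normalizer
  haveI : Fintype M := Fintype.ofFinite _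
  haveI : Fintype (N.subgroupOf M) := Fintype.ofFinite _
  haveI : Fintype N := Fintype.ofFinite _
  have h1 := Lib.CharAvgN.avgN_isChar (N.subgroupOf M) (isChar_res M hχ)
  let f' : S →* M := f.codRestrict M (fun s => hM ▸ hf s)
  have h2 := isChar_comp f' h1
  convert h2 using 1
  funext s
  show avgF N χ (f s) = Lib.CharAvgN.avgN (N.subgroupOf M) (fun x : M => χ x) (f' s)
  rw [avgF_eq, Lib.CharAvgN.avgN]
  have e : Nat.card (N.subgroupOf M) = Nat.card N := Nat.card_congr (Subgroup.subgroupOfEquivOfLe hNM).toEquiv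
  rw [e]
  congr 1
  rw [← Equiv.sum_comp (Subgroup.subgroupOfEquivOfLe hNM).toEquiv]
  rfl

theorem avgF_conj (N N' : Subgroup G) (g : G) (hN : ∀ h, h ∈ N ↔ g * h * g⁻¹ ∈ N') {χ : G → ℂ}
    (hχ : IsClassFunction G χ) (x : G) : avgF N' χ (g * x * g⁻¹) = avgF N χ x := by
  classical
  have hc : Nat.card N = Nat.card N' := by
    refine Nat.card_congr ⟨fun h => ⟨g * h * g⁻¹, (hN h).mp h.2⟩, fun h => ⟨g⁻¹ * h * g, (hN _).mpr (by
      have : g * (g⁻¹ * (h : G) * g) * g⁻¹ = h := by group
      rw [this]; exact h.2)⟩, fun h => Subtype.ext (by simp; group), fun h => Subtype.ext (by simp; group)⟩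
  rw [avgF, avgF, hc]
  congr 1
  rw [← Equiv.sum_comp (MulAut.conj g).toEquiv]
  refine Finset.sum_congr rfl fun h _ => ?_
  have e : (MulAut.conj g).toEquiv h = g * h * g⁻¹ := rfl
  rw [e]
  by_cases hh : h ∈ N
  · rw [if_pos hh, if_pos ((hN h).mp hh)]
    have : g * h * g⁻¹ * (g * x * g⁻¹) = g * (h * x) * g⁻¹ := by group
    rw [this, hχ]
  · rw [if_neg hh, if_neg (fun h' => hh ((hN h).mpr h'))]
section main

variable {A : Set G} {L : Subgroup G} [Fintype L] {H : G → Subgroup G}

/-- intersection of the `H b` -/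
def HB (H : G → Subgroup G) (B : Finset G) : Subgroup G := ⨅ b ∈ B, H b

omit [Fintype G] in
theorem mem_HB {H : G → Subgroup G} {B : Finset G} {u : G} : u ∈ HB H B ↔ ∀ b ∈ B, u ∈ H b := by
  simp only [HB, Subgroup.mem_iInf]

open Classical in
/-- conjugation action of `L` on finite subsets of `G` -/
@[reducible] def actF (L : Subgroup G) : MulAction L (Finset G) where
  smul l B := B.image (fun b => (l : G) * b * (l : G)⁻¹)
  one_smul B := by
    show B.image (fun b => ((1 : L) : G) * b * ((1 : L) : G)⁻¹) = B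
    have : (fun b => ((1 : L) : G) * b * ((1 : L) : G)⁻¹) = id := by funext b; simp
    rw [this, Finset.image_id]
  mul_smul a b B := by
    show B.image (fun x => ((a * b : L) : G) * x * ((a * b : L) : G)⁻¹) = (B.image (fun x => (b : G) * x * (b : G)⁻¹)).image (fun x => (a : G) * x * (a : G)⁻¹)
    rw [Finset.image_image]
    congr 1
    funext x
    simp [mul_assoc]

attribute [local instance] actF

omit [Fintype G] [Fintype L] in
theorem mem_smul {l : L} {B : Finset G} {x : G} : (l : G) * x * (l : G)⁻¹ ∈ l • B ↔ x ∈ B := by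
  classical
  show (l : G) * x * (l : G)⁻¹ ∈ B.image (fun b => (l : G) * b * (l : G)⁻¹) ↔ _
  rw [Finset.mem_image]
  constructor
  · rintro ⟨b, hb, e⟩
    have : b = x := mul_left_cancel (mul_right_cancel e)
    rwa [← this]
  · intro h; exact ⟨x, h, rfl⟩

omit [Fintype G] [Fintype L] in
theorem mem_smul' {l : L} {B : Finset G} {y : G} (hy : y ∈ l • B) : ∃ x ∈ B, (l : G) * x * (l : G)⁻¹ = y := by
  classical
  exact Finset.mem_image.mp hy

omit [Fintype G] [Fintype L] in
theorem card_smul (l : L) (B : Finset G) : (l • B).card = B.card := by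
  classical
  exact Finset.card_image_of_injective _ (fun a b e => mul_left_cancel (mul_right_cancel e))

variable (hD : DadeHypothesis A L H)
include hD

omit [Fintype L] in
theorem HB_smul {B : Finset G} (hB : (B : Set G) ⊆ A) (l : L) (h : G) :
    h ∈ HB H B ↔ (l : G) * h * (l : G)⁻¹ ∈ HB H (l • B) := by
  rw [mem_HB, mem_HB]
  constructor
  · intro hh y hy
    obtain ⟨x, hx, rfl⟩ := mem_smul' hy
    exact H_conj_le hD (hB hx) l.2 (hh x hx)
  · intro hh x hx
    have h1 := hh _ (mem_smul (l := l).mpr hx)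
    rw [H_conj hD (hB hx) l.2] at h1
    obtain ⟨u, hu, e⟩ := h1
    have : u = h := by
      have e' : (l : G) * u * (l : G)⁻¹ = (l : G) * h * (l : G)⁻¹ := e
      exact mul_left_cancel (mul_right_cancel e')
    rw [← this]; exact hu

omit [Fintype L] in
theorem stab_norm {B : Finset G} (hB : (B : Set G) ⊆ A) {l : L} (hl : l • B = B) :
    (l : G) ∈ Subgroup.normalizer (HB H B : Set G) := by
  refine Subgroup.mem_set_normalizer_iff.mpr fun h => ?_
  have := HB_smul hD hB l h
  rwa [hl] at this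

omit [Fintype L] hD [Fintype G] in
theorem subset_smul (hD : DadeHypothesis A L H) {B : Finset G} (l : L) : ((l • B : Finset G) : Set G) ⊆ A ↔ (B : Set G) ⊆ A := by
  constructor
  · intro h b hb
    have h1 := h (mem_smul (l := l).mpr hb)
    have h2 := hD.conj_mem (l : G)⁻¹ (L.inv_mem l.2) _ h1
    have e : (l : G)⁻¹ * ((l : G) * b * (l : G)⁻¹) * (l : G)⁻¹⁻¹ = b := by group
    rwa [e] at h2
  · intro h y hy
    obtain ⟨x, hx, rfl⟩ := mem_smul' hy
    exact hD.conj_mem l l.2 x (h hx)

omit [Fintype L] in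
/-- removing/adding a fixed element does not change the average -/
theorem avg_insert [DecidableEq G] {B : Finset G} (hB : (B : Set G) ⊆ A) (hne : B.Nonempty) {a : L} (ha : (a : G) ∈ A)
    (haB : a • B = B) {χ : G → ℂ} (hχ : IsClassFunction G χ) :
    avgF (HB H B) χ a = avgF (HB H (insert (a : G) B)) χ a := by
  obtain ⟨b, hb⟩ := hne
  have hcard : Nat.card (HB H B) ∣ Nat.card (H b) := Subgroup.card_dvd_of_le (fun u hu => mem_HB.mp hu b hb)
  have hca : (a : G) ∈ L ⊓ Subgroup.centralizer ({(a : G)} : Set G) := ⟨a.2, mem_cent.mpr rfl⟩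
  have hord : orderOf (a : G) ∣ Nat.card ↥(L ⊓ Subgroup.centralizer ({(a : G)} : Set G)) := by
    have := orderOf_dvd_natCard (⟨(a : G), hca⟩ : ↥(L ⊓ Subgroup.centralizer ({(a : G)} : Set G)))
    rwa [Subgroup.orderOf_mk] at this
  have hcop : Nat.Coprime (orderOf (a : G)) (Nat.card (HB H B)) :=
    Nat.Coprime.coprime_dvd_left hord (Nat.Coprime.coprime_dvd_right hcard (hD.coprime b (hB hb) a ha).symm)
  refine avg_cent _ _ (stab_norm hD hB haB) hcop (fun c => ?_) hχ
  rw [mem_HB, mem_HB]
  constructor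
  · intro h
    have h1 := h a (Finset.mem_insert_self _ _)
    exact ⟨fun b hb => h b (Finset.mem_insert_of_mem hb), mem_cent.mp (hD.le_centralizer a ha h1)⟩
  · rintro ⟨h1, h2⟩ d hd
    rcases Finset.mem_insert.mp hd with rfl | hd
    · refine mem_H_of_pow hD ha (mem_cent.mpr h2) (m := Nat.card (H b)) (hD.coprime b (hB hb) _ ha) (pow_card_mem (h1 b hb))
    · exact h1 d hd

open Classical in
/-- the inclusion-exclusion identity -/
theorem alt_sum {a : L} (ha : (a : G) ∈ A) {χ : G → ℂ} (hχ : IsClassFunction G χ) :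
    ∑ B : Finset G, (if (B : Set G) ⊆ A ∧ B.Nonempty ∧ a • B = B then (-1 : ℂ) ^ (B.card + 1) * conj (avgF (HB H B) χ a) else 0) =
      conj (avgF (H (a : G)) χ a) := by
  have hsing : a • ({(a : G)} : Finset G) = {(a : G)} := by
    show Finset.image (fun b => (a : G) * b * (a : G)⁻¹) {(a : G)} = _
    simp
  have hH1 : HB H {(a : G)} = H (a : G) := by
    ext u; rw [mem_HB]; simp
  rw [← Finset.sum_filter, ← Finset.add_sum_erase _ _ (a := {(a : G)})]
  · rw [hH1]
    have hz : ∑ B ∈ (Finset.univ.filter (fun B : Finset G => (B : Set G) ⊆ A ∧ B.Nonempty ∧ a • B = B)).erase {(a : G)},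
        (-1 : ℂ) ^ (B.card + 1) * conj (avgF (HB H B) χ a) = 0 := by
      refine Finset.sum_involution (fun B _ => if (a : G) ∈ B then B.erase a else insert (a : G) B) ?_ ?_ ?_ ?_
      · intro B hB
        obtain ⟨hBne, hB2⟩ := Finset.mem_erase.mp hB
        obtain ⟨-, hBA, hBn, hBa⟩ := Finset.mem_filter.mp hB2
        by_cases haB : (a : G) ∈ B
        · simp only [if_pos haB]
          have h1 : (B.erase a).Nonempty := by
            rw [Finset.nonempty_iff_ne_empty]
            intro h
            apply hBne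
            rw [← Finset.insert_erase haB, h]; rfl
          have h2 : a • (B.erase (a : G)) = B.erase a := by
            show Finset.image (fun b => (a : G) * b * (a : G)⁻¹) (B.erase a) = _
            rw [Finset.image_erase (fun x y e => mul_left_cancel (mul_right_cancel e))]
            have : (a : G) * (a : G) * (a : G)⁻¹ = a := by group
            rw [this]
            congr 1
          have h3 := avg_insert hD (B := B.erase a) (fun x hx => hBA (Finset.mem_of_mem_erase hx)) h1 ha h2 hχ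
          rw [Finset.insert_erase haB] at h3
          rw [h3, Finset.card_erase_add_one haB]
          rw [pow_succ]; ring
        · simp only [if_neg haB]
          have h3 := avg_insert hD hBA hBn ha hBa hχ
          rw [h3, Finset.card_insert_of_notMem haB]
          rw [pow_succ _ (B.card + 1)]; ring
      · intro B hB h0 h
        by_cases haB : (a : G) ∈ B
        · simp only [if_pos haB] at h
          have := Finset.notMem_erase (a : G) B
          rw [h] at this
          exact this haB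
        · simp only [if_neg haB] at h
          exact haB (h ▸ Finset.mem_insert_self _ _)
      · intro B hB
        obtain ⟨hBne, hB2⟩ := Finset.mem_erase.mp hB
        obtain ⟨-, hBA, hBn, hBa⟩ := Finset.mem_filter.mp hB2
        by_cases haB : (a : G) ∈ B
        · simp only [if_pos haB]
          have h1 : (B.erase a).Nonempty := by
            rw [Finset.nonempty_iff_ne_empty]
            intro h
            apply hBne
            rw [← Finset.insert_erase haB, h]; rfl
          have h2 : a • (B.erase (a : G)) = B.erase a := by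
            show Finset.image (fun b => (a : G) * b * (a : G)⁻¹) (B.erase a) = _
            rw [Finset.image_erase (fun x y e => mul_left_cancel (mul_right_cancel e))]
            have : (a : G) * (a : G) * (a : G)⁻¹ = a := by group
            rw [this]
            congr 1
          refine Finset.mem_erase.mpr ⟨?_, Finset.mem_filter.mpr ⟨Finset.mem_univ _, fun x hx => hBA (Finset.mem_of_mem_erase hx), h1, h2⟩⟩
          intro h
          have := Finset.notMem_erase (a : G) B
          rw [h] at this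
          exact this (Finset.mem_singleton_self _)
        · simp only [if_neg haB]
          have h2 : a • (insert (a : G) B) = insert (a : G) B := by
            show Finset.image (fun b => (a : G) * b * (a : G)⁻¹) (insert (a : G) B) = _
            rw [Finset.image_insert]
            have : (a : G) * (a : G) * (a : G)⁻¹ = a := by group
            rw [this]
            congr 1
          refine Finset.mem_erase.mpr ⟨?_, Finset.mem_filter.mpr ⟨Finset.mem_univ _, ?_, Finset.insert_nonempty _ _, h2⟩⟩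
          · intro h
            obtain ⟨b, hb⟩ := hBn
            have : b ∈ ({(a : G)} : Finset G) := h ▸ Finset.mem_insert_of_mem hb
            rw [Finset.mem_singleton] at this
            exact haB (this ▸ hb)
          · intro x hx
            rcases Finset.mem_insert.mp hx with rfl | hx
            · exact ha
            · exact hBA hx
      · intro B hB
        by_cases haB : (a : G) ∈ B
        · simp only [if_pos haB]
          rw [if_neg (Finset.notMem_erase _ _), Finset.insert_erase haB]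
        · simp only [if_neg haB]
          rw [if_pos (Finset.mem_insert_self _ _), Finset.erase_insert haB]
    rw [hz, add_zero, Finset.card_singleton]
    norm_num
  · refine Finset.mem_filter.mpr ⟨Finset.mem_univ _, ?_, Finset.singleton_nonempty _, hsing⟩
    rw [Finset.coe_singleton]
    exact Set.singleton_subset_iff.mpr ha

omit [Fintype L] hD in
theorem int_inner {S : Type*} [Group S] [Fintype S] {α χ : S → ℂ} (hα : IsGeneralizedCharacter S α)
    (hχ : IsCharacter S χ) : ∃ n : ℤ, ∑ s : S, α s * conj (χ s) = (Nat.card S : ℂ) * n := by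
  obtain ⟨α1, α2, h1, h2, rfl⟩ := hα
  obtain ⟨n1, hn1⟩ := exists_nat_inner' h1 hχ
  obtain ⟨n2, hn2⟩ := exists_nat_inner' h2 hχ
  refine ⟨(n1 : ℤ) - n2, ?_⟩
  push_cast
  rw [← hn1, ← hn2, ← classInner_sub_left, classInner_def, mul_inv_cancel_left₀ card_ne_zero']

theorem int_sum {α : L → ℂ} (hα : IsGeneralizedCharacter L α) (hαA : ∀ x : L, (x : G) ∉ A → α x = 0)
    {χ : G → ℂ} (hχ : IsCharacter G χ) : ∃ n : ℤ, ∑ x : L, α x * conj (avgF (H (x : G)) χ x) = (Nat.card L : ℂ) * n := by
  classical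
  have hχc := isChar_classFn hχ
  let F : Finset G → ℂ := fun B => if (B : Set G) ⊆ A ∧ B.Nonempty then
    (-1 : ℂ) ^ (B.card + 1) * ∑ x : L, (if x • B = B then α x * conj (avgF (HB H B) χ x) else 0) else 0
  have h1 : ∑ x : L, α x * conj (avgF (H (x : G)) χ x) = ∑ B : Finset G, F B := by
    have e1 : ∀ x : L, α x * conj (avgF (H (x : G)) χ x) = ∑ B : Finset G,
        α x * (if (B : Set G) ⊆ A ∧ B.Nonempty ∧ x • B = B then (-1 : ℂ) ^ (B.card + 1) * conj (avgF (HB H B) χ x) else 0) := by
      intro x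
      by_cases hx : (x : G) ∈ A
      · rw [← Finset.mul_sum, alt_sum hD hx hχc]
      · rw [hαA x hx]; simp
    rw [Finset.sum_congr rfl fun x _ => e1 x, Finset.sum_comm]
    refine Finset.sum_congr rfl fun B _ => ?_
    show _ = if (B : Set G) ⊆ A ∧ B.Nonempty then
      (-1 : ℂ) ^ (B.card + 1) * ∑ x : L, (if x • B = B then α x * conj (avgF (HB H B) χ x) else 0) else 0
    by_cases hB : (B : Set G) ⊆ A ∧ B.Nonempty
    · rw [if_pos hB, Finset.mul_sum]
      refine Finset.sum_congr rfl fun x _ => ?_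
      by_cases hx : x • B = B
      · rw [if_pos ⟨hB.1, hB.2, hx⟩, if_pos hx]; ring
      · rw [if_neg (fun h => hx h.2.2), if_neg hx]; ring
    · rw [if_neg hB]
      refine Finset.sum_eq_zero fun x _ => ?_
      rw [if_neg (fun h => hB ⟨h.1, h.2.1⟩), mul_zero]
  rw [h1]
  refine sum_orbits F ?_ ?_
  · intro l B
    show (if ((l • B : Finset G) : Set G) ⊆ A ∧ (l • B).Nonempty then
      (-1 : ℂ) ^ ((l • B).card + 1) * ∑ x : L, (if x • (l • B) = l • B then α x * conj (avgF (HB H (l • B)) χ x) else 0) else 0) =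
      if (B : Set G) ⊆ A ∧ B.Nonempty then
      (-1 : ℂ) ^ (B.card + 1) * ∑ x : L, (if x • B = B then α x * conj (avgF (HB H B) χ x) else 0) else 0
    have hn : (l • B).Nonempty ↔ B.Nonempty := by
      rw [← Finset.card_pos, ← Finset.card_pos, card_smul]
    by_cases hB : (B : Set G) ⊆ A ∧ B.Nonempty
    · rw [if_pos hB, if_pos ⟨(subset_smul hD l).mpr hB.1, hn.mpr hB.2⟩, card_smul]
      congr 1
      rw [← Equiv.sum_comp (MulAut.conj l).toEquiv]
      refine Finset.sum_congr rfl fun x _ => ?_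
      have e : (MulAut.conj l).toEquiv x = l * x * l⁻¹ := rfl
      rw [e]
      have e2 : (l * x * l⁻¹) • (l • B) = l • B ↔ x • B = B := by
        rw [mul_smul, mul_smul, inv_smul_smul]
        exact ⟨fun h => smul_left_cancel l h, fun h => by rw [h]⟩
      by_cases hx : x • B = B
      · rw [if_pos hx, if_pos (e2.mpr hx), gen_classFn hα x l]
        congr 2
        exact avgF_conj (HB H B) (HB H (l • B)) l (HB_smul hD hB.1 l) hχc x
      · rw [if_neg hx, if_neg (fun h => hx (e2.mp h))]
    · rw [if_neg hB, if_neg (fun h => hB ⟨(subset_smul hD l).mp h.1, hn.mp h.2⟩)]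
  · intro B
    show ∃ c : ℤ, (if (B : Set G) ⊆ A ∧ B.Nonempty then
      (-1 : ℂ) ^ (B.card + 1) * ∑ x : L, (if x • B = B then α x * conj (avgF (HB H B) χ x) else 0) else 0) = _
    by_cases hB : (B : Set G) ⊆ A ∧ B.Nonempty
    · rw [if_pos hB]
      let S := MulAction.stabilizer L B
      haveI : Fintype S := Fintype.ofFinite _
      have hc : IsCharacter S (fun s : S => avgF (HB H B) χ ((L.subtype.comp S.subtype) s)) :=
        avgF_isChar (HB H B) hχ (L.subtype.comp S.subtype) (fun s => stab_norm hD hB.1 s.2)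
      have hαS : IsGeneralizedCharacter S (fun s : S => α s) := by
        obtain ⟨α1, α2, k1, k2, rfl⟩ := hα
        exact ⟨_, _, isChar_res S k1, isChar_res S k2, rfl⟩
      obtain ⟨n, hn⟩ := int_inner hαS hc
      refine ⟨(-1) ^ (B.card + 1) * n, ?_⟩
      have : ∑ x : L, (if x • B = B then α x * conj (avgF (HB H B) χ x) else 0) =
          ∑ s : S, α s * conj (avgF (HB H B) χ ((L.subtype.comp S.subtype) s)) := by
        rw [← Finset.sum_filter]
        exact Finset.sum_subtype _ (fun x => by rw [Finset.mem_filter]; simp [S, MulAction.mem_stabilizer_iff]) _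
      rw [this, hn]
      push_cast
      ring
    · rw [if_neg hB]; exact ⟨0, by simp⟩

/-- the Dade map preserves generalized characters -/
theorem tau_gen {α : L → ℂ} (hα : IsGeneralizedCharacter L α) (hαA : ∀ x : L, (x : G) ∉ A → α x = 0) :
    IsGeneralizedCharacter G (dadeIsometry A L H α) := by
  classical
  have hαc := gen_classFn hα
  refine isGen_of_int_inner (tau_classFn hD hαc) fun χ => ?_
  have hχc := isChar_classFn (isChar_of_irr χ.2)
  obtain ⟨n, hn⟩ := int_sum hD hα hαA (isChar_of_irr χ.2)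
  refine ⟨n, ?_⟩
  rw [inner_adj hD hαc hαA χ.1 (fun x : L => avgF (H (x : G)) χ.1 x) hχc, classInner_def, hn,
    inv_mul_cancel_left₀ card_ne_zero']
  intro a ha
  show avgF (H (a : G)) χ.1 a = _
  rw [avgF, finsum_H]
  congr 1
  refine Finset.sum_congr rfl fun u _ => ?_
  by_cases hu : u ∈ H (a : G)
  · rw [if_pos hu, if_pos hu, mem_cent.mp (hD.le_centralizer a ha hu)]
  · rw [if_neg hu, if_neg hu]

end main
section cjf

open Cfsg.Agent.Lib.CharExc

theorem conj_isIrr {X : Type*} [Group X] [Finite X] {χ : X → ℂ} (h : IsIrrCharacter X χ) :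
    IsIrrCharacter X (conjFun χ) :=
  Lib.CharGal.isIrr_galois (starRingAut (R := ℂ)) h

theorem conj_isChar {X : Type*} [Group X] {χ : X → ℂ} (h : IsCharacter X χ) :
    IsCharacter X (conjFun χ) :=
  Lib.CharGal.isChar_galois (starRingAut (R := ℂ)) h

theorem conj_conj {X : Type*} (χ : X → ℂ) : conjFun (conjFun χ) = χ := by
  funext x; simp [conjFun]

theorem conj_sub {X : Type*} (χ ψ : X → ℂ) : conjFun (χ - ψ) = conjFun χ - conjFun ψ := by
  funext x; simp [conjFun]

theorem conj_add {X : Type*} (χ ψ : X → ℂ) : conjFun (χ + ψ) = conjFun χ + conjFun ψ := by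
  funext x; simp [conjFun]

theorem conj_neg {X : Type*} (χ : X → ℂ) : conjFun (-χ) = -conjFun χ := by
  funext x; simp [conjFun]

variable {A : Set G} {L : Subgroup G} [Fintype L] {H : G → Subgroup G}

omit [Fintype G] [Fintype L] in
theorem tau_conj (A : Set G) (L : Subgroup G) (H : G → Subgroup G) (α : L → ℂ) : dadeIsometry A L H (conjFun α) = conjFun (dadeIsometry A L H α) := by
  classical
  funext g
  by_cases hg : ∃ a : ↥L, (a : G) ∈ A ∧ ∃ x : G, ∃ u ∈ H (a : G), x * g * x⁻¹ = (a : G) * u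
  · rw [dadeIsometry, conjFun, dadeIsometry, dif_pos hg, dif_pos hg]
    rfl
  · rw [tau_zero hg, conjFun, tau_zero hg, map_zero]

omit [Fintype G] [Fintype L] in
theorem tau_neg (A : Set G) (L : Subgroup G) (H : G → Subgroup G) (α : L → ℂ) : dadeIsometry A L H (-α) = -(dadeIsometry A L H α) := by
  classical
  funext g
  by_cases hg : ∃ a : ↥L, (a : G) ∈ A ∧ ∃ x : G, ∃ u ∈ H (a : G), x * g * x⁻¹ = (a : G) * u
  · rw [dadeIsometry, Pi.neg_apply, dadeIsometry, dif_pos hg, dif_pos hg]
    rfl
  · rw [tau_zero hg, Pi.neg_apply, tau_zero hg, neg_zero]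

omit [Fintype L] in
theorem tau_one (hD : DadeHypothesis A L H) (α : L → ℂ) : dadeIsometry A L H α 1 = 0 := by
  apply tau_zero
  rintro ⟨a, ha, x, u, hu, h⟩
  have h1 : (a : G) * u = 1 := by rw [← h]; group
  have h2 : (1 : G) * (a * u) * 1⁻¹ = a * 1 → False := by
    intro h3
    have := (conj_parts hD ha ha hu (H a).one_mem h3).2
    have hu1 : u = 1 := by simpa using this
    rw [hu1, mul_one] at h1
    exact hD.one_not_mem (h1 ▸ ha)
  have hau := mem_cent.mp (hD.le_centralizer a ha hu)
  have h3 : u = (a : G)⁻¹ := by rw [eq_inv_iff_mul_eq_one, hau, h1]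
  have h4 : (a : G) ∈ H a := by
    have := (H a).inv_mem hu
    rwa [h3, inv_inv] at this
  have h5 : (a : G) ∈ H a ⊓ (L ⊓ Subgroup.centralizer ({(a : G)} : Set G)) := ⟨h4, a.2, mem_cent.mpr rfl⟩
  rw [hD.inf_eq_bot a ha, Subgroup.mem_bot] at h5
  exact hD.one_not_mem (h5 ▸ ha)

/-- the norm-two class function with `conj f = -f` -/
theorem norm_two_conj {f : G → ℂ} (hf : IsGeneralizedCharacter G f) (h2 : classInner f f = 2) (h1 : f 1 = 0)
    (hc : conjFun f = -f) : ∃ μ : G → ℂ, IsIrrCharacter G μ ∧ f = μ - conjFun μ := by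
  classical
  obtain ⟨χ, ψ, hne, e⟩ := norm_two hf h2 h1
  refine ⟨χ.1, χ.2, ?_⟩
  have h3 : conjFun χ.1 - conjFun ψ.1 = ψ.1 - χ.1 := by
    rw [← conj_sub, ← e, hc, e]; abel
  have h4 : classInner (conjFun χ.1 - conjFun ψ.1) ψ.1 = 1 := by
    rw [h3, classInner_sub_left, irr_inner' ψ ψ, irr_inner' χ ψ, if_pos rfl, if_neg hne, sub_zero]
  rw [classInner_sub_left, irr_inner (conj_isIrr χ.2) ψ.2, irr_inner (conj_isIrr ψ.2) ψ.2] at h4
  have h5 : conjFun χ.1 = ψ.1 := by
    by_contra hcon
    rw [if_neg hcon] at h4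
    split_ifs at h4 <;> norm_num at h4
  rw [e, h5]

theorem irr_sub_conj (hD : DadeHypothesis A L H) {χ : L → ℂ} (hχ : IsIrrCharacter L χ)
    (hsupp : ∀ x : L, x ≠ 1 → (x : G) ∉ A → χ x = 0) :
    ∃ μ : G → ℂ, IsIrrCharacter G μ ∧ dadeIsometry A L H (χ - conjFun χ) = μ - conjFun μ := by
  classical
  by_cases hr : conjFun χ = χ
  · refine ⟨fun _ => 1, isIrr_trivial, ?_⟩
    rw [hr, sub_self]
    funext g
    rw [Pi.sub_apply]
    have : dadeIsometry A L H (0 : L → ℂ) g = 0 := by
      rw [dadeIsometry]; split_ifs <;> rfl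
    rw [this]; simp [conjFun]
  · have hχb := conj_isIrr hχ
    have hgen : IsGeneralizedCharacter L (χ - conjFun χ) := gen_sub (gen_of_irr hχ) (gen_of_irr hχb)
    have hc := gen_classFn hgen
    obtain ⟨d, -, hd⟩ := isIrr_one_eq hχ
    have hA : ∀ x : L, (x : G) ∉ A → (χ - conjFun χ) x = 0 := by
      intro x hx
      by_cases h1 : x = 1
      · rw [h1, Pi.sub_apply, conjFun, hd]; simp
      · rw [Pi.sub_apply, conjFun, hsupp x h1 hx]; simp
    refine norm_two_conj (tau_gen hD hgen hA) ?_ (tau_one hD _) ?_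
    · rw [isometry hD hc hA hc, classInner_sub_left, classInner_sub_right, classInner_sub_right,
        irr_inner_self hχ, irr_inner_self hχb, irr_inner_ne hχb hχ hr, irr_inner_ne hχ hχb (Ne.symm hr)]
      norm_num
    · rw [← tau_conj, ← tau_neg, conj_sub, conj_conj, neg_sub]

end cjf

end

end Cfsg.Agent.Lib.OddDadeB
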