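import Cfsg.Agent.Lib.OddSgn
import Cfsg.Agent.Lib.OddDadeB

set_option autoImplicit false

namespace Cfsg.Agent.Lib.OddCoh

open Cfsg Cfsg.Agent.Lib.CharBasic Cfsg.Agent.Lib.CharInd Cfsg.Agent.Lib.CharExc Cfsg.Agent.Lib.OddSgn
open Cfsg.Agent.Lib.OddDadeB (conj_isIrr conj_isChar conj_conj conj_sub conj_add conj_neg)
open scoped ComplexConjugate

noncomputable section

section basic

variable {X : Type*}

theorem zs (n : ℤ) (f : X → ℂ) : n • f = (n : ℂ) • f := by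
  funext x; simp

/-- the integer span as a submodule -/
def zsp (S : Set (X → ℂ)) : Submodule ℤ (X → ℂ) := Submodule.span ℤ S

theorem mem_zsp {S : Set (X → ℂ)} {α : X → ℂ} : α ∈ zspan S ↔ α ∈ zsp S := Iff.rfl

/-- the combinations vanishing off `A` as a submodule -/
def zon (S : Set (X → ℂ)) (A : Set X) : Submodule ℤ (X → ℂ) where
  carrier := zspanOn S A
  add_mem' := fun {a b} ha hb => ⟨(zsp S).add_mem ha.1 hb.1, fun x hx => by
    rw [Pi.add_apply, ha.2 x hx, hb.2 x hx, add_zero]⟩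
  zero_mem' := ⟨(zsp S).zero_mem, fun _ _ => rfl⟩
  smul_mem' := fun n {a} ha => ⟨(zsp S).smul_mem n ha.1, fun x hx => by
    rw [Pi.smul_apply, ha.2 x hx, smul_zero]⟩

theorem mem_zon {S : Set (X → ℂ)} {A : Set X} {α : X → ℂ} : α ∈ zspanOn S A ↔ α ∈ zon S A := Iff.rfl

theorem mem_zon_one {X : Type*} [Group X] {S : Set (X → ℂ)} {α : X → ℂ} : α ∈ zspanOn S {1}ᶜ ↔ α ∈ zspan S ∧ α 1 = 0 := by
  constructor
  · intro h; exact ⟨h.1, h.2 1 (by simp)⟩
  · intro h; refine ⟨h.1, fun x hx => ?_⟩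
    have : x = 1 := by simpa using hx
    rw [this]; exact h.2

theorem zspan_mono {S T : Set (X → ℂ)} (h : S ⊆ T) : zspan S ⊆ zspan T := Submodule.span_mono h

theorem zspanOn_mono {S T : Set (X → ℂ)} (h : S ⊆ T) (A : Set X) : zspanOn S A ⊆ zspanOn T A :=
  fun _ hα => ⟨zspan_mono h hα.1, hα.2⟩

theorem subset_zspan (S : Set (X → ℂ)) : S ⊆ zspan S := Submodule.subset_span

theorem zspan_induction {S : Set (X → ℂ)} {p : (X → ℂ) → Prop} (hmem : ∀ x ∈ S, p x) (hzero : p 0)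
    (hadd : ∀ x y, x ∈ zspan S → y ∈ zspan S → p x → p y → p (x + y))
    (hsmul : ∀ (n : ℤ) x, x ∈ zspan S → p x → p (n • x)) {x : X → ℂ} (hx : x ∈ zspan S) : p x :=
  Submodule.span_induction (p := fun x _ => p x) hmem hzero (fun x y hx hy => hadd x y hx hy) (fun n x hx => hsmul n x hx) hx

end basic

section iso

variable {L G : Type*} [Group L] [Fintype L] [Group G] [Fintype G] {E : Submodule ℤ (L → ℂ)} {τ : (L → ℂ) → (G → ℂ)}

theorem iso_zero (h : IsLinearIsometryOn (E : Set (L → ℂ)) τ) : τ 0 = 0 := by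
  have := h.2.1 0 E.zero_mem 0
  rwa [zero_smul, zero_smul] at this

theorem iso_neg (h : IsLinearIsometryOn (E : Set (L → ℂ)) τ) {a : L → ℂ} (ha : a ∈ E) : τ (-a) = -τ a := by
  have := h.2.1 a ha (-1)
  rwa [neg_one_smul, neg_one_smul] at this

theorem iso_sub (h : IsLinearIsometryOn (E : Set (L → ℂ)) τ) {a b : L → ℂ} (ha : a ∈ E) (hb : b ∈ E) :
    τ (a - b) = τ a - τ b := by
  rw [sub_eq_add_neg, h.1 a ha (-b) (E.neg_mem hb), iso_neg h hb, ← sub_eq_add_neg]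

theorem iso_add (h : IsLinearIsometryOn (E : Set (L → ℂ)) τ) {a b : L → ℂ} (ha : a ∈ E) (hb : b ∈ E) :
    τ (a + b) = τ a + τ b := h.1 a ha b hb

theorem iso_mono {E' : Submodule ℤ (L → ℂ)} (hE : E' ≤ E) (h : IsLinearIsometryOn (E : Set (L → ℂ)) τ) :
    IsLinearIsometryOn (E' : Set (L → ℂ)) τ :=
  ⟨fun a ha b hb => h.1 a (hE ha) b (hE hb), fun a ha n => h.2.1 a (hE ha) n,
    fun a ha b hb => h.2.2.1 a (hE ha) b (hE hb), fun a ha => h.2.2.2 a (hE ha)⟩

theorem inner_zsmul_left {X : Type*} [Group X] [Fintype X] (n : ℤ) (a b : X → ℂ) : classInner (n • a) b = n * classInner a b := by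
  rw [zs, classInner_smul_left]

theorem inner_zsmul_right {X : Type*} [Group X] [Fintype X] (n : ℤ) (a b : X → ℂ) : classInner a (n • b) = n * classInner a b := by
  rw [zs, classInner_smul_right, map_intCast (starRingEnd ℂ) n]

theorem gen_zs {X : Type*} [Group X] [Fintype X] {a : X → ℂ} (n : ℤ) (ha : IsGeneralizedCharacter X a) :
    IsGeneralizedCharacter X (n • a) := by
  rw [zs]; exact gen_zsmul n ha

/-- adding an orthogonal element -/
theorem add_one {S : Set (L → ℂ)} {τ : (L → ℂ) → (G → ℂ)} (h : IsLinearIsometryOn (zspan S) τ) {χ : L → ℂ}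
    (hχ : ∀ φ ∈ S, classInner χ φ = 0) (hχ0 : χ ≠ 0) {Y : G → ℂ} (hY : IsGeneralizedCharacter G Y)
    (hYn : classInner Y Y = classInner χ χ) (hYo : ∀ φ ∈ S, classInner Y (τ φ) = 0) :
    ∃ τ₂ : (L → ℂ) → (G → ℂ), IsLinearIsometryOn (zspan (insert χ S)) τ₂ ∧ (∀ α ∈ zspan S, τ₂ α = τ α) ∧ τ₂ χ = Y := by
  classical
  have h' : IsLinearIsometryOn ((zsp S : Submodule ℤ (L → ℂ)) : Set (L → ℂ)) τ := h
  have hχn : classInner χ χ ≠ 0 := fun h0 => hχ0 (classInner_self_eq_zero h0)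
  have hoS : ∀ α ∈ zspan S, classInner χ α = 0 := by
    intro α hα
    refine zspan_induction (p := fun α => classInner χ α = 0) hχ (classInner_zero_right _) ?_ ?_ hα
    · intro x y _ _ hx hy; rw [classInner_add_right, hx, hy, add_zero]
    · intro n x _ hx; rw [inner_zsmul_right, hx, mul_zero]
  have hoS' : ∀ α ∈ zspan S, classInner α χ = 0 := fun α hα => by
    rw [← classInner_conj_symm, hoS α hα, map_zero]
  have hYS : ∀ α ∈ zspan S, classInner Y (τ α) = 0 := by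
    intro α hα
    refine zspan_induction (p := fun α => classInner Y (τ α) = 0) hYo ?_ ?_ ?_ hα
    · rw [iso_zero h', classInner_zero_right]
    · intro x y hx' hy' hx hy; rw [h.1 x hx' y hy', classInner_add_right, hx, hy, add_zero]
    · intro n x hx' hx; rw [h.2.1 x hx' n, inner_zsmul_right, hx, mul_zero]
  have hYS' : ∀ α ∈ zspan S, classInner (τ α) Y = 0 := fun α hα => by
    rw [← classInner_conj_symm, hYS α hα, map_zero]
  have huniq : ∀ (n n' : ℤ) (α α' : L → ℂ), α ∈ zspan S → α' ∈ zspan S → n • χ + α = n' • χ + α' → n = n' ∧ α = α' := by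
    intro n n' α α' hα hα' e
    have h1 := congrArg (fun f => classInner f χ) e
    simp only [classInner_add_left, inner_zsmul_left, hoS' α hα, hoS' α' hα', add_zero] at h1
    have h2 : n = n' := by
      have := mul_right_cancel₀ hχn h1
      exact_mod_cast this
    subst h2
    exact ⟨rfl, add_left_cancel e⟩
  let P : (L → ℂ) → Prop := fun f => ∃ p : ℤ × (L → ℂ), p.2 ∈ zspan S ∧ f = p.1 • χ + p.2
  let τ₂ : (L → ℂ) → (G → ℂ) := fun f => if hf : P f then (Classical.choose hf).1 • Y + τ (Classical.choose hf).2 else 0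
  have hτ₂ : ∀ (n : ℤ) (α : L → ℂ), α ∈ zspan S → τ₂ (n • χ + α) = n • Y + τ α := by
    intro n α hα
    have hP : P (n • χ + α) := ⟨(n, α), hα, rfl⟩
    show (if hf : P (n • χ + α) then (Classical.choose hf).1 • Y + τ (Classical.choose hf).2 else 0) = _
    rw [dif_pos hP]
    have hs := Classical.choose_spec hP
    obtain ⟨e1, e2⟩ := huniq _ _ _ _ hα hs.1 hs.2
    rw [← e1, ← e2]
  have hmem : ∀ f, f ∈ zspan (insert χ S) ↔ ∃ (n : ℤ) (α : L → ℂ), α ∈ zspan S ∧ f = n • χ + α := by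
    intro f
    exact Submodule.mem_span_insert
  refine ⟨τ₂, ⟨?_, ?_, ?_, ?_⟩, ?_, ?_⟩
  · intro a ha b hb
    obtain ⟨n, α, hα, rfl⟩ := (hmem a).mp ha
    obtain ⟨m, β, hβ, rfl⟩ := (hmem b).mp hb
    have e : n • χ + α + (m • χ + β) = (n + m) • χ + (α + β) := by rw [add_smul]; abel
    rw [e, hτ₂ _ _ ((zsp S).add_mem hα hβ), hτ₂ _ _ hα, hτ₂ _ _ hβ, h.1 α hα β hβ, add_smul]
    abel
  · intro a ha k
    obtain ⟨n, α, hα, rfl⟩ := (hmem a).mp ha
    have e : k • (n • χ + α) = (k * n) • χ + k • α := by rw [smul_add, mul_smul]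
    rw [e, hτ₂ _ _ ((zsp S).smul_mem k hα), hτ₂ _ _ hα, h.2.1 α hα k, smul_add, mul_smul]
  · intro a ha b hb
    obtain ⟨n, α, hα, rfl⟩ := (hmem a).mp ha
    obtain ⟨m, β, hβ, rfl⟩ := (hmem b).mp hb
    rw [hτ₂ _ _ hα, hτ₂ _ _ hβ]
    simp only [classInner_add_left, classInner_add_right, inner_zsmul_left, inner_zsmul_right]
    rw [hYS β hβ, hYS' α hα, hoS β hβ, hoS' α hα, hYn, h.2.2.1 α hα β hβ]
  · intro a ha
    obtain ⟨n, α, hα, rfl⟩ := (hmem a).mp ha
    rw [hτ₂ _ _ hα]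
    exact gen_add (gen_zs n hY) (h.2.2.2 α hα)
  · intro α hα
    have := hτ₂ 0 α hα
    rwa [zero_smul, zero_add, zero_smul, zero_add] at this
  · have := hτ₂ 1 0 (zsp S).zero_mem
    rwa [one_smul, add_zero, one_smul, iso_zero h', add_zero] at this

/-- extension from an element of minimal degree -/
theorem ext_min {S : Set (L → ℂ)} {τ : (L → ℂ) → (G → ℂ)} (h : IsLinearIsometryOn (zspanOn S {1}ᶜ) τ) {χ : L → ℂ}
    (hχ : χ ∈ S) (hχ1 : χ 1 ≠ 0) (hk : ∀ φ ∈ S, ∃ k : ℤ, φ 1 = k * χ 1) {Y : G → ℂ} (hY : IsGeneralizedCharacter G Y)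
    (hYn : classInner Y Y = classInner χ χ) (hYo : ∀ γ ∈ zspanOn S {1}ᶜ, classInner Y (τ γ) = classInner χ γ) :
    ∃ τ₂ : (L → ℂ) → (G → ℂ), IsLinearIsometryOn (zspan S) τ₂ ∧ (∀ α ∈ zspanOn S {1}ᶜ, τ₂ α = τ α) ∧ τ₂ χ = Y := by
  classical
  have h' : IsLinearIsometryOn ((zon S {1}ᶜ : Submodule ℤ (L → ℂ)) : Set (L → ℂ)) τ := h
  have hk' : ∀ α ∈ zspan S, ∃ k : ℤ, α 1 = k * χ 1 := by
    intro α hα
    refine zspan_induction (p := fun α => ∃ k : ℤ, α 1 = k * χ 1) hk ⟨0, by simp⟩ ?_ ?_ hα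
    · rintro x y _ _ ⟨k, hx⟩ ⟨l, hy⟩; exact ⟨k + l, by rw [Pi.add_apply, hx, hy]; push_cast; ring⟩
    · rintro n x _ ⟨k, hx⟩; exact ⟨n * k, by rw [Pi.smul_apply, hx, zsmul_eq_mul]; push_cast; ring⟩
  let kk : (L → ℂ) → ℤ := fun α => if hα : ∃ k : ℤ, α 1 = k * χ 1 then Classical.choose hα else 0
  have hkk : ∀ (α : L → ℂ) (k : ℤ), α 1 = k * χ 1 → kk α = k := by
    intro α k hα
    have hP : ∃ k : ℤ, α 1 = k * χ 1 := ⟨k, hα⟩
    show (if hα : ∃ k : ℤ, α 1 = k * χ 1 then Classical.choose hα else 0) = k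
    rw [dif_pos hP]
    have hs := Classical.choose_spec hP
    have := mul_right_cancel₀ hχ1 (hα.symm.trans hs)
    exact_mod_cast this.symm
  have hin : ∀ α ∈ zspan S, kk α • χ - α ∈ zspanOn S {1}ᶜ := by
    intro α hα
    rw [mem_zon_one]
    obtain ⟨k, hk⟩ := hk' α hα
    refine ⟨(zsp S).sub_mem ((zsp S).smul_mem _ (subset_zspan S hχ)) hα, ?_⟩
    rw [hkk α k hk, Pi.sub_apply, Pi.smul_apply, hk, zsmul_eq_mul, sub_self]
  have hYo' : ∀ γ ∈ zspanOn S {1}ᶜ, classInner (τ γ) Y = classInner γ χ := fun γ hγ => by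
    rw [← classInner_conj_symm, hYo γ hγ, classInner_conj_symm]
  refine ⟨fun α => kk α • Y - τ (kk α • χ - α), ⟨?_, ?_, ?_, ?_⟩, ?_, ?_⟩
  · intro a ha b hb
    obtain ⟨k, hka⟩ := hk' a ha
    obtain ⟨l, hkb⟩ := hk' b hb
    have hab : kk (a + b) = kk a + kk b := by
      rw [hkk a k hka, hkk b l hkb]
      exact hkk _ _ (by rw [Pi.add_apply, hka, hkb]; push_cast; ring)
    simp only
    have e : kk (a + b) • χ - (a + b) = (kk a • χ - a) + (kk b • χ - b) := by rw [hab, add_smul]; abel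
    rw [e, h.1 _ (hin a ha) _ (hin b hb), hab, add_smul]
    abel
  · intro a ha n
    obtain ⟨k, hka⟩ := hk' a ha
    have hna : kk (n • a) = n * kk a := by
      rw [hkk a k hka]
      exact hkk _ _ (by rw [Pi.smul_apply, hka, zsmul_eq_mul]; push_cast; ring)
    simp only
    have e : kk (n • a) • χ - n • a = n • (kk a • χ - a) := by rw [hna, smul_sub, mul_smul]
    rw [e, h.2.1 _ (hin a ha) n, hna, smul_sub, mul_smul]
  · intro a ha b hb
    simp only
    have e1 : classInner (kk a • Y - τ (kk a • χ - a)) (kk b • Y - τ (kk b • χ - b)) =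
        kk a * (kk b * classInner χ χ) - kk a * classInner χ (kk b • χ - b) - (kk b * classInner (kk a • χ - a) χ -
          classInner (kk a • χ - a) (kk b • χ - b)) := by
      rw [classInner_sub_left, classInner_sub_right, classInner_sub_right, inner_zsmul_left, inner_zsmul_right,
        inner_zsmul_left, inner_zsmul_right, hYn, hYo _ (hin b hb), hYo' _ (hin a ha), h.2.2.1 _ (hin a ha) _ (hin b hb)]
    rw [e1]
    simp only [classInner_sub_left, classInner_sub_right, inner_zsmul_left, inner_zsmul_right]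
    ring
  · intro a ha
    exact gen_sub (gen_zs _ hY) (h.2.2.2 _ (hin a ha))
  · intro a ha
    have ha' := (mem_zon_one.mp ha)
    have h0 : kk a = 0 := hkk a 0 (by rw [ha'.2]; simp)
    simp only
    rw [h0, zero_smul, zero_smul, zero_sub, zero_sub, iso_neg h' ha, neg_neg]
  · have h1 : kk χ = 1 := hkk χ 1 (by simp)
    simp only
    rw [h1, one_smul, one_smul, sub_self, iso_zero h', sub_zero]

end iso
section proj

variable {G : Type*} [Group G] [Fintype G]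

/-- orthonormality of a finite set -/
def ON (R : Finset (G → ℂ)) : Prop := ∀ α ∈ R, ∀ β ∈ R, (α = β → classInner α β = 1) ∧ (α ≠ β → classInner α β = 0)

/-- projection -/
def proj (R : Finset (G → ℂ)) (Φ : G → ℂ) : G → ℂ := ∑ α ∈ R, classInner Φ α • α

/-- the squared norm of the projection -/
def sqn (R : Finset (G → ℂ)) (Φ : G → ℂ) : ℝ := ∑ α ∈ R, ‖classInner Φ α‖ ^ 2

theorem sqn_nonneg (R : Finset (G → ℂ)) (Φ : G → ℂ) : 0 ≤ sqn R Φ := Finset.sum_nonneg fun _ _ => by positivity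

theorem inner_proj (R : Finset (G → ℂ)) (Φ Ψ : G → ℂ) : classInner (proj R Φ) Ψ = ∑ α ∈ R, classInner Φ α * classInner α Ψ := by
  rw [proj, classInner_sum_left]
  refine Finset.sum_congr rfl fun α _ => ?_
  rw [classInner_smul_left]

theorem proj_orth (R : Finset (G → ℂ)) (Φ : G → ℂ) {Ψ : G → ℂ} (h : ∀ α ∈ R, classInner α Ψ = 0) : classInner (proj R Φ) Ψ = 0 := by
  rw [inner_proj]
  exact Finset.sum_eq_zero fun α hα => by rw [h α hα, mul_zero]

theorem inner_proj_mem {R : Finset (G → ℂ)} (hR : ON R) (Φ : G → ℂ) {α : G → ℂ} (hα : α ∈ R) :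
    classInner (proj R Φ) α = classInner Φ α := by
  rw [inner_proj, Finset.sum_eq_single α]
  · rw [(hR α hα α hα).1 rfl, mul_one]
  · intro β hβ hne; rw [(hR β hβ α hα).2 hne, mul_zero]
  · intro h; exact absurd hα h

theorem inner_proj_self (R : Finset (G → ℂ)) (Φ : G → ℂ) : classInner (proj R Φ) Φ = (sqn R Φ : ℂ) := by
  rw [inner_proj, sqn]
  push_cast
  refine Finset.sum_congr rfl fun α _ => ?_
  rw [← classInner_conj_symm Φ α, Complex.mul_conj']

theorem inner_self_proj (R : Finset (G → ℂ)) (Φ : G → ℂ) : classInner Φ (proj R Φ) = (sqn R Φ : ℂ) := by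
  rw [← classInner_conj_symm, inner_proj_self, Complex.conj_ofReal]

theorem inner_proj_proj {R : Finset (G → ℂ)} (hR : ON R) (Φ : G → ℂ) : classInner (proj R Φ) (proj R Φ) = (sqn R Φ : ℂ) := by
  rw [inner_proj, ← inner_proj_self, inner_proj]
  refine Finset.sum_congr rfl fun α hα => ?_
  congr 1
  rw [← classInner_conj_symm, inner_proj_mem hR Φ hα, classInner_conj_symm]

theorem sub_proj_norm {R : Finset (G → ℂ)} (hR : ON R) (Φ : G → ℂ) :
    classInner (Φ - proj R Φ) (Φ - proj R Φ) = classInner Φ Φ - (sqn R Φ : ℂ) := by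
  rw [classInner_sub_left, classInner_sub_right, classInner_sub_right, inner_proj_proj hR, inner_proj_self, inner_self_proj]
  ring

theorem sub_proj2_norm {R R' : Finset (G → ℂ)} (hR : ON R) (hR' : ON R') (ho : ∀ α ∈ R, ∀ β ∈ R', classInner α β = 0) (Φ : G → ℂ) :
    classInner (Φ - proj R Φ - proj R' Φ) (Φ - proj R Φ - proj R' Φ) = classInner Φ Φ - (sqn R Φ : ℂ) - (sqn R' Φ : ℂ) := by
  have h1 : classInner (proj R Φ) (proj R' Φ) = 0 := by
    apply proj_orth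
    intro α hα
    rw [← classInner_conj_symm, proj_orth, map_zero]
    intro β hβ
    rw [← classInner_conj_symm, ho α hα β hβ, map_zero]
  have h2 : classInner (proj R' Φ) (proj R Φ) = 0 := by rw [← classInner_conj_symm, h1, map_zero]
  simp only [classInner_sub_left, classInner_sub_right]
  rw [inner_proj_proj hR, inner_proj_proj hR', inner_proj_self, inner_self_proj, inner_proj_self, inner_self_proj, h1, h2]
  ring

theorem inner_self_re (Φ : G → ℂ) : ((classInner Φ Φ).re : ℂ) = classInner Φ Φ := by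
  apply Complex.ext
  · simp
  · simp [classInner_self_im]

/-- Bessel equality -/
theorem eq_proj {R : Finset (G → ℂ)} (hR : ON R) {Φ : G → ℂ} (h : (classInner Φ Φ).re ≤ sqn R Φ) : Φ = proj R Φ := by
  have h1 := sub_proj_norm hR Φ
  have h2 := classInner_self_nonneg (Φ - proj R Φ)
  rw [h1, Complex.sub_re, Complex.ofReal_re] at h2
  have h3 : classInner (Φ - proj R Φ) (Φ - proj R Φ) = 0 := by
    rw [h1, ← inner_self_re, ← Complex.ofReal_sub]
    have : (classInner Φ Φ).re - sqn R Φ = 0 := by linarith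
    rw [this]; rfl
  exact sub_eq_zero.mp (classInner_self_eq_zero h3)

theorem eq_proj2 {R R' : Finset (G → ℂ)} (hR : ON R) (hR' : ON R') (ho : ∀ α ∈ R, ∀ β ∈ R', classInner α β = 0)
    {Φ : G → ℂ} (h : (classInner Φ Φ).re ≤ sqn R Φ + sqn R' Φ) : Φ = proj R Φ + proj R' Φ := by
  have h1 := sub_proj2_norm hR hR' ho Φ
  have h2 := classInner_self_nonneg (Φ - proj R Φ - proj R' Φ)
  rw [h1, Complex.sub_re, Complex.sub_re, Complex.ofReal_re, Complex.ofReal_re] at h2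
  have h3 : classInner (Φ - proj R Φ - proj R' Φ) (Φ - proj R Φ - proj R' Φ) = 0 := by
    rw [h1, ← inner_self_re, ← Complex.ofReal_sub, ← Complex.ofReal_sub]
    have : (classInner Φ Φ).re - sqn R Φ - sqn R' Φ = 0 := by linarith
    rw [this]; rfl
  have := sub_eq_zero.mp (classInner_self_eq_zero h3)
  rw [← this]; abel

/-- integrality bound -/
theorem proj_bound {R : Finset (G → ℂ)} (hv : ∀ α ∈ R, IsGeneralizedCharacter G α) {Φ : G → ℂ} (hΦ : IsGeneralizedCharacter G Φ)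
    {N : ℝ} (h : classInner Φ (∑ α ∈ R, α) = N) :
    N ≤ sqn R Φ ∧ (sqn R Φ ≤ N → sqn R Φ = N ∧ ∀ α ∈ R, classInner Φ α = 0 ∨ classInner Φ α = 1) := by
  classical
  have hint : ∀ α ∈ R, ∃ n : ℤ, classInner Φ α = n := fun α hα => gen_inner_int hΦ (hv α hα)
  choose! n hn using hint
  have h1 : (N : ℂ) = ((∑ α ∈ R, (n α : ℝ) : ℝ) : ℂ) := by
    rw [← h, classInner_sum_right, Complex.ofReal_sum]
    refine Finset.sum_congr rfl fun α hα => ?_
    rw [hn α hα]; simp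
  have h1' : N = ∑ α ∈ R, (n α : ℝ) := Complex.ofReal_injective h1
  have h2 : sqn R Φ = ∑ α ∈ R, ((n α : ℝ)) ^ 2 := by
    rw [sqn]
    refine Finset.sum_congr rfl fun α hα => ?_
    rw [hn α hα, Complex.norm_intCast, sq_abs]
  have hle : ∀ m : ℤ, (m : ℝ) ≤ (m : ℝ) ^ 2 := by
    intro m
    have : m ≤ m ^ 2 := by nlinarith [Int.le_self_sq m]
    exact_mod_cast this
  have hge : N ≤ sqn R Φ := by
    rw [h1', h2]; exact Finset.sum_le_sum fun α _ => hle _
  refine ⟨hge, fun hle' => ⟨le_antisymm hle' hge, fun α hα => ?_⟩⟩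
  have heq : ∑ α ∈ R, ((n α : ℝ) ^ 2 - n α) = 0 := by
    rw [Finset.sum_sub_distrib, ← h2, ← h1']; linarith
  have := (Finset.sum_eq_zero_iff_of_nonneg (fun α _ => by have := hle (n α); linarith)).mp heq α hα
  have h3 : (n α : ℝ) * (n α - 1) = 0 := by linarith
  rw [hn α hα]
  rcases mul_eq_zero.mp h3 with h4 | h4
  · left
    have : n α = 0 := by exact_mod_cast h4
    rw [this]; simp
  · right
    have : n α = 1 := by
      have : (n α : ℝ) = 1 := by linarith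
      exact_mod_cast this
    rw [this]; simp

theorem proj_gen {R : Finset (G → ℂ)} (hv : ∀ α ∈ R, IsGeneralizedCharacter G α) {Φ : G → ℂ} (hΦ : IsGeneralizedCharacter G Φ) :
    IsGeneralizedCharacter G (proj R Φ) := by
  refine gen_sum _ _ fun α hα => ?_
  obtain ⟨n, hn⟩ := gen_inner_int hΦ (hv α hα)
  rw [hn]
  exact gen_zsmul n (hv α hα)

end proj

section cs

variable {L G : Type*} [Group L] [Fintype L] [Group G] [Fintype G] {S : Set (L → ℂ)} {τ : (L → ℂ) → (G → ℂ)}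
  {R : (L → ℂ) → Finset (G → ℂ)} (hS : IsCoherenceSystem S τ R)

include hS

theorem cs_ne_zero {χ : L → ℂ} (hχ : χ ∈ S) : χ ≠ 0 := by
  rintro rfl
  apply hS.conj_ne _ hχ
  funext x; simp [conjFun]

theorem cs_norm {χ : L → ℂ} (hχ : χ ∈ S) : ∃ n : ℕ, 0 < n ∧ classInner χ χ = n := by
  obtain ⟨n, hn⟩ := exists_nat_inner' (hS.isCharacter χ hχ) (hS.isCharacter χ hχ)
  refine ⟨n, ?_, hn⟩
  rcases Nat.eq_zero_or_pos n with h | h
  · rw [h, Nat.cast_zero] at hn
    exact absurd (classInner_self_eq_zero hn) (cs_ne_zero hS hχ)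
  · exact h

theorem cs_deg {χ : L → ℂ} (hχ : χ ∈ S) : ∃ d : ℕ, 0 < d ∧ χ 1 = d := by
  obtain ⟨d, hd⟩ := isChar_one_eq (hS.isCharacter χ hχ)
  refine ⟨d, ?_, hd⟩
  rcases Nat.eq_zero_or_pos d with h | h
  · exfalso
    apply cs_ne_zero hS hχ
    funext x
    have := char_norm_le (hS.isCharacter χ hχ) x
    rw [hd, h] at this
    simpa using this
  · exact h

theorem cs_ON {χ : L → ℂ} (hχ : χ ∈ S) : ON (R χ) := by
  classical
  intro α hα β hβ
  have := hS.orthonormal χ hχ α hα β hβ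
  refine ⟨fun h => by rw [this, if_pos h], fun h => by rw [this, if_neg h]⟩

theorem conj_one {χ : L → ℂ} (hχ : χ ∈ S) : conjFun χ 1 = χ 1 := by
  obtain ⟨d, -, hd⟩ := cs_deg hS hχ
  rw [conjFun, hd]; simp

theorem diff_mem {χ : L → ℂ} (hχ : χ ∈ S) : χ - conjFun χ ∈ zspanOn S {1}ᶜ := by
  rw [mem_zon_one]
  refine ⟨(zsp S).sub_mem (subset_zspan S hχ) (subset_zspan S (hS.conj_mem χ hχ)), ?_⟩
  rw [Pi.sub_apply, conj_one hS hχ, sub_self]

theorem inner_conj {χ : L → ℂ} (hχ : χ ∈ S) : classInner χ (conjFun χ) = 0 :=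
  hS.orthogonal χ hχ _ (hS.conj_mem χ hχ) (hS.conj_ne χ hχ).symm

omit hS in
theorem classInner_conj {X : Type*} [Group X] [Fintype X] (a b : X → ℂ) : classInner (conjFun a) (conjFun b) = conj (classInner a b) := by
  rw [classInner_def, classInner_def, map_mul, map_inv₀, Complex.conj_natCast, map_sum]
  congr 1
  refine Finset.sum_congr rfl fun x _ => ?_
  rw [map_mul]; rfl

theorem norm_conj {χ : L → ℂ} (hχ : χ ∈ S) : classInner (conjFun χ) (conjFun χ) = classInner χ χ := by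
  rw [classInner_conj]
  obtain ⟨n, -, hn⟩ := cs_norm hS hχ
  rw [hn]; simp

/-- the projection bound for `τ (χ - ψ)` -/
theorem tau_inner_sum {χ : L → ℂ} (hχ : χ ∈ S) {γ : L → ℂ} (hγ : γ ∈ zspanOn S {1}ᶜ) :
    classInner (τ γ) (∑ α ∈ R χ, α) = classInner γ (χ - conjFun χ) := by
  rw [← hS.sum_eq χ hχ, hS.isometry.2.2.1 _ hγ _ (diff_mem hS hχ)]

theorem card_R {χ : L → ℂ} (hχ : χ ∈ S) : ((R χ).card : ℂ) = 2 * classInner χ χ := by
  have h1 := tau_inner_sum hS hχ (diff_mem hS hχ)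
  rw [hS.sum_eq χ hχ] at h1
  have h2 : classInner (∑ α ∈ R χ, α) (∑ α ∈ R χ, α) = ((R χ).card : ℂ) := by
    rw [classInner_sum_left]
    have : ∀ α ∈ R χ, classInner α (∑ β ∈ R χ, β) = 1 := by
      intro α hα
      rw [classInner_sum_right, Finset.sum_eq_single α]
      · exact ((cs_ON hS hχ) α hα α hα).1 rfl
      · intro β hβ hne; exact ((cs_ON hS hχ) α hα β hβ).2 (Ne.symm hne)
      · intro h; exact absurd hα h
    rw [Finset.sum_congr rfl this]; simp
  rw [h2] at h1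
  rw [h1, classInner_sub_left, classInner_sub_right, classInner_sub_right, inner_conj hS hχ, norm_conj hS hχ]
  have h3 : classInner (conjFun χ) χ = 0 := by rw [← classInner_conj_symm, inner_conj hS hχ, map_zero]
  rw [h3]; ring

end cs
section thms

variable {L G : Type*} [Group L] [Fintype L] [Group G] [Fintype G] {S : Set (L → ℂ)} {τ : (L → ℂ) → (G → ℂ)}
  {R : (L → ℂ) → Finset (G → ℂ)}

/-- existence of `R` for irreducible characters -/
theorem exists_R (hS : S.Nonempty) (hirr : ∀ χ ∈ S, IsIrrCharacter L χ)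
    (hconj : ∀ χ ∈ S, conjFun χ ∈ S ∧ conjFun χ ≠ χ) (hτ : IsLinearIsometryOn (zspanOn S {1}ᶜ) τ)
    (hτ1 : ∀ α ∈ zspanOn S {1}ᶜ, τ α 1 = 0) : ∃ R : (L → ℂ) → Finset (G → ℂ), IsCoherenceSystem S τ R := by
  classical
  have hd : ∀ χ ∈ S, χ - conjFun χ ∈ zspanOn S {1}ᶜ := by
    intro χ hχ
    obtain ⟨d, -, hd⟩ := isIrr_one_eq (hirr χ hχ)
    rw [mem_zon_one]
    refine ⟨(zsp S).sub_mem (subset_zspan S hχ) (subset_zspan S (hconj χ hχ).1), ?_⟩
    rw [Pi.sub_apply, conjFun, hd]; simp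
  have hex : ∀ χ ∈ S, ∃ μν : IrrCharacter G × IrrCharacter G, μν.1 ≠ μν.2 ∧ τ (χ - conjFun χ) = μν.1.1 - μν.2.1 := by
    intro χ hχ
    have h2 : classInner (τ (χ - conjFun χ)) (τ (χ - conjFun χ)) = 2 := by
      rw [hτ.2.2.1 _ (hd χ hχ) _ (hd χ hχ), classInner_sub_left, classInner_sub_right, classInner_sub_right,
        irr_inner_self (hirr χ hχ), irr_inner_self (hirr _ (hconj χ hχ).1), irr_inner_ne (hirr χ hχ) (hirr _ (hconj χ hχ).1) (hconj χ hχ).2.symm,
        irr_inner_ne (hirr _ (hconj χ hχ).1) (hirr χ hχ) (hconj χ hχ).2]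
      norm_num
    obtain ⟨a, b, hne, e⟩ := norm_two (hτ.2.2.2 _ (hd χ hχ)) h2 (hτ1 _ (hd χ hχ))
    exact ⟨(a, b), hne, e⟩
  haveI : Nonempty (IrrCharacter G × IrrCharacter G) := ⟨(⟨_, isIrr_trivial⟩, ⟨_, isIrr_trivial⟩)⟩
  choose! p hp using hex
  have hpos : ∀ a b : IrrCharacter G, a.1 ≠ -b.1 := by
    intro a b h
    obtain ⟨n, hn, e⟩ := isIrr_one_eq a.2
    obtain ⟨m, hm, e'⟩ := isIrr_one_eq b.2
    have := congrFun h 1
    rw [Pi.neg_apply, e, e'] at this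
    have h2 : ((n + m : ℕ) : ℂ) = 0 := by push_cast; rw [this]; ring
    have : n + m = 0 := by exact_mod_cast h2
    omega
  refine ⟨fun χ => {(p χ).1.1, -(p χ).2.1}, ?_⟩
  have hmem : ∀ {χ : L → ℂ} {α : G → ℂ}, α ∈ ({(p χ).1.1, -(p χ).2.1} : Finset (G → ℂ)) → α = (p χ).1.1 ∨ α = -(p χ).2.1 := by
    intro χ α h
    simpa using h
  refine ⟨hS, fun χ hχ => isChar_of_irr (hirr χ hχ), fun χ hχ => (hconj χ hχ).1, fun χ hχ => (hconj χ hχ).2, hτ, hτ1, ?_, ?_, ?_, ?_, ?_⟩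
  · intro χ hχ φ hφ hne
    exact irr_inner_ne (hirr χ hχ) (hirr φ hφ) hne
  · intro χ hχ α hα β hβ
    have hne := (hp χ hχ).1
    have e1 := irr_inner_self (p χ).1.2
    have e2 := irr_inner_self (p χ).2.2
    have e3 : classInner (p χ).1.1 (p χ).2.1 = 0 := irr_inner_ne (p χ).1.2 (p χ).2.2 (fun h => hne (Subtype.ext h))
    have e4 : classInner (p χ).2.1 (p χ).1.1 = 0 := irr_inner_ne (p χ).2.2 (p χ).1.2 (fun h => hne (Subtype.ext h.symm))
    rcases hmem hα with rfl | rfl <;> rcases hmem hβ with rfl | rfl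
    · rw [if_pos rfl, e1]
    · rw [if_neg (hpos _ _), classInner_neg_right, e3, neg_zero]
    · rw [if_neg (fun h => hpos _ _ h.symm), classInner_neg_left, e4, neg_zero]
    · rw [if_pos rfl, classInner_neg_left, classInner_neg_right, neg_neg, e2]
  · intro χ hχ α hα
    rcases hmem hα with rfl | rfl
    · exact gen_of_irr (p χ).1.2
    · exact gen_neg (gen_of_irr (p χ).2.2)
  · intro χ hχ
    rw [(hp χ hχ).2, Finset.sum_pair (hpos _ _)]; abel
  · intro χ hχ φ hφ h1 h2 α hα β hβ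
    have h3 : classInner (conjFun φ) χ = 0 := by
      rw [← conj_conj χ, classInner_conj, h2, map_zero]
    have h4 : classInner (conjFun φ) (conjFun χ) = 0 := by rw [classInner_conj, h1, map_zero]
    have hmix : classInner ((p φ).1.1 - (p φ).2.1) (((1 : ℝ) : ℂ) • (p χ).1.1 - ((1 : ℝ) : ℂ) • (p χ).2.1) = 0 := by
      rw [Complex.ofReal_one, one_smul, one_smul, ← (hp φ hφ).2, ← (hp χ hχ).2, hτ.2.2.1 _ (hd φ hφ) _ (hd χ hχ),
        classInner_sub_left, classInner_sub_right, classInner_sub_right, h1, h2, h3, h4]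
      ring
    have hv : ∀ χ ∈ S, (p χ).1.1 1 = (p χ).2.1 1 := by
      intro χ hχ
      have := hτ1 _ (hd χ hχ)
      rw [(hp χ hχ).2, Pi.sub_apply] at this
      exact sub_eq_zero.mp this
    obtain ⟨k1, k2, k3, k4⟩ := four_signed (Or.inl (p φ).1.2) (Or.inl (p φ).2.2) (Or.inl (p χ).1.2) (Or.inl (p χ).2.2)
      (u := 1) (v := 1) one_ne_zero one_ne_zero (irr_inner_ne (p φ).1.2 (p φ).2.2 (fun h => (hp φ hφ).1 (Subtype.ext h)))
      (irr_inner_ne (p χ).1.2 (p χ).2.2 (fun h => (hp χ hχ).1 (Subtype.ext h))) hmix (hv φ hφ)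
      (by rw [hv χ hχ])
    rcases hmem hα with rfl | rfl <;> rcases hmem hβ with rfl | rfl
    · exact k1
    · rw [classInner_neg_right, k2, neg_zero]
    · rw [classInner_neg_left, k3, neg_zero]
    · rw [classInner_neg_left, classInner_neg_right, k4]; simp

theorem proj_norm_bound (hS : IsCoherenceSystem S τ R) {χ : L → ℂ} (hχ : χ ∈ S) {ψ : L → ℂ}
    (h1 : classInner χ ψ = 0) (h2 : classInner (conjFun χ) ψ = 0) (τ₁ : (L → ℂ) → (G → ℂ))
    (hτ₁ : IsLinearIsometryOn (zspan {χ - ψ, χ - conjFun χ}) τ₁)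
    (hagree : τ₁ (χ - conjFun χ) = τ (χ - conjFun χ)) :
    (classInner χ χ).re ≤ sqn (R χ) (τ₁ (χ - ψ)) ∧
    ((classInner ψ ψ).re ≤ (classInner (τ₁ (χ - ψ)) (τ₁ (χ - ψ))).re - sqn (R χ) (τ₁ (χ - ψ)) →
      (sqn (R χ) (τ₁ (χ - ψ)) = (classInner χ χ).re ∧
        ∀ α ∈ R χ, classInner (τ₁ (χ - ψ)) α = 0 ∨ classInner (τ₁ (χ - ψ)) α = 1)) := by
  have m1 : χ - ψ ∈ zspan {χ - ψ, χ - conjFun χ} := subset_zspan _ (Set.mem_insert _ _)
  have m2 : χ - conjFun χ ∈ zspan {χ - ψ, χ - conjFun χ} := subset_zspan _ (Set.mem_insert_of_mem _ rfl)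
  have e1 : classInner ψ χ = 0 := by rw [← classInner_conj_symm, h1, map_zero]
  have e2 : classInner ψ (conjFun χ) = 0 := by rw [← classInner_conj_symm, h2, map_zero]
  have hin : classInner (τ₁ (χ - ψ)) (∑ α ∈ R χ, α) = ((classInner χ χ).re : ℂ) := by
    rw [← hS.sum_eq χ hχ, ← hagree, hτ₁.2.2.1 _ m1 _ m2, classInner_sub_left, classInner_sub_right, classInner_sub_right,
      inner_conj hS hχ, e1, e2, inner_self_re]
    ring
  obtain ⟨hb1, hb2⟩ := proj_bound (hS.virtual χ hχ) (hτ₁.2.2.2 _ m1) hin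
  refine ⟨hb1, fun h => hb2 ?_⟩
  have h3 : classInner (τ₁ (χ - ψ)) (τ₁ (χ - ψ)) = classInner χ χ + classInner ψ ψ := by
    rw [hτ₁.2.2.1 _ m1 _ m1, classInner_sub_left, classInner_sub_right, classInner_sub_right, h1, e1]; ring
  rw [h3, Complex.add_re] at h
  linarith

/-- uniform signs -/
theorem signs_uniform {S : Set (L → ℂ)} (hirr : ∀ χ ∈ S, IsIrrCharacter L χ) (hne : S.Nonempty)
    {τ₁ : (L → ℂ) → (G → ℂ)} (hτ₁ : IsLinearIsometryOn (zspan S) τ₁) (h0 : ∀ α ∈ zspan S, α 1 = 0 → τ₁ α 1 = 0) :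
    ∃ ε : ℂ, (ε = 1 ∨ ε = -1) ∧ (∀ χ ∈ S, IsIrrCharacter G (ε • τ₁ χ)) ∧ (∀ χ ∈ S, ∀ ψ ∈ S, τ₁ χ = τ₁ ψ → χ = ψ) := by
  classical
  have hτ₁' : IsLinearIsometryOn ((zsp S : Submodule ℤ (L → ℂ)) : Set (L → ℂ)) τ₁ := hτ₁
  have hSI : ∀ χ ∈ S, SI (τ₁ χ) := fun χ hχ => SI.of_norm (hτ₁.2.2.2 _ (subset_zspan S hχ))
    (by rw [hτ₁.2.2.1 _ (subset_zspan S hχ) _ (subset_zspan S hχ), irr_inner_self (hirr χ hχ)])
  have hprop : ∀ χ ∈ S, ∀ ψ ∈ S, ∀ (d e : ℕ), χ 1 = d → ψ 1 = e → (e : ℂ) * τ₁ χ 1 = d * τ₁ ψ 1 := by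
    intro χ hχ ψ hψ d e hd he
    have m1 : (e : ℤ) • χ ∈ zspan S := (zsp S).smul_mem _ (subset_zspan S hχ)
    have m2 : (d : ℤ) • ψ ∈ zspan S := (zsp S).smul_mem _ (subset_zspan S hψ)
    have := h0 ((e : ℤ) • χ - (d : ℤ) • ψ) ((zsp S).sub_mem m1 m2) (by
      rw [Pi.sub_apply, Pi.smul_apply, Pi.smul_apply, hd, he, zsmul_eq_mul, zsmul_eq_mul]
      push_cast; ring)
    rw [iso_sub hτ₁' m1 m2, hτ₁.2.1 _ (subset_zspan S hχ), hτ₁.2.1 _ (subset_zspan S hψ), Pi.sub_apply, Pi.smul_apply,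
      Pi.smul_apply, zsmul_eq_mul, zsmul_eq_mul] at this
    push_cast at this
    exact sub_eq_zero.mp this
  obtain ⟨χ₀, hχ₀⟩ := hne
  obtain ⟨s, μ, hs, hμ⟩ := (hSI χ₀ hχ₀).form
  refine ⟨(s : ℂ), by rcases hs with rfl | rfl <;> simp, ?_, ?_⟩
  · intro χ hχ
    obtain ⟨t, ν, ht, hν⟩ := (hSI χ hχ).form
    obtain ⟨d, hd0, hd⟩ := isIrr_one_eq (hirr χ hχ)
    obtain ⟨d', hd0', hd'⟩ := isIrr_one_eq (hirr χ₀ hχ₀)
    have h1 := hprop χ hχ χ₀ hχ₀ d d' hd hd'
    obtain ⟨m, hm0, hm⟩ := isIrr_one_eq μ.2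
    obtain ⟨n, hn0, hn⟩ := isIrr_one_eq ν.2
    rw [hμ, hν, Pi.smul_apply, Pi.smul_apply, hm, hn, smul_eq_mul, smul_eq_mul] at h1
    have h2 : (d' : ℤ) * (t * n) = d * (s * m) := by exact_mod_cast h1
    have hst : s = t := by
      have p1 : (0 : ℤ) < d' * n := by positivity
      have p2 : (0 : ℤ) < d * m := by positivity
      rcases hs with rfl | rfl <;> rcases ht with rfl | rfl
      · rfl
      · exfalso; nlinarith
      · exfalso; nlinarith
      · rfl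
    rw [hν, hst, smul_smul]
    have : (t : ℂ) * t = 1 := by rcases ht with rfl | rfl <;> norm_num
    rw [this, one_smul]
    exact ν.2
  · intro χ hχ ψ hψ h
    have h1 := hτ₁.2.2.1 _ (subset_zspan S hχ) _ (subset_zspan S hψ)
    rw [h, hτ₁.2.2.1 _ (subset_zspan S hψ) _ (subset_zspan S hψ), irr_inner_self (hirr ψ hψ)] at h1
    by_contra hne
    rw [irr_inner_ne (hirr χ hχ) (hirr ψ hψ) hne] at h1
    exact one_ne_zero h1

end thms

end

end Cfsg.Agent.Lib.OddCoh
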