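import Cfsg.Agent.Lib.OddCoh

set_option autoImplicit false

namespace Cfsg.Agent.Lib.OddCohB

open Cfsg Cfsg.Agent.Lib.CharBasic Cfsg.Agent.Lib.CharInd Cfsg.Agent.Lib.CharExc Cfsg.Agent.Lib.OddSgn
open Cfsg.Agent.Lib.OddCoh
open Cfsg.Agent.Lib.OddDadeB (conj_isIrr conj_isChar conj_conj conj_sub conj_add conj_neg)
open scoped ComplexConjugate

noncomputable section

variable {L G : Type*} [Group L] [Fintype L] [Group G] [Fintype G]

section const

variable {S : Set (L → ℂ)} {τ : (L → ℂ) → (G → ℂ)} {R : (L → ℂ) → Finset (G → ℂ)}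

theorem hYo_of_gen (h : IsLinearIsometryOn (zspanOn S {1}ᶜ) τ) {χ : L → ℂ}
    (hχ : χ ∈ S) (hχ1 : χ 1 ≠ 0) {Y : G → ℂ}
    (hgen : ∀ φ ∈ S, ∃ k : ℤ, φ 1 = k * χ 1 ∧ classInner Y (τ (k • χ - φ)) = classInner χ (k • χ - φ)) :
    ∀ γ ∈ zspanOn S {1}ᶜ, classInner Y (τ γ) = classInner χ γ := by
  have h' : IsLinearIsometryOn ((zon S {1}ᶜ : Submodule ℤ (L → ℂ)) : Set (L → ℂ)) τ := h
  have key : ∀ α ∈ zspan S, ∃ k : ℤ, α 1 = k * χ 1 ∧ classInner Y (τ (k • χ - α)) = classInner χ (k • χ - α) := by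
    intro α hα
    have hin : ∀ (α : L → ℂ) (k : ℤ), α ∈ zspan S → α 1 = k * χ 1 → k • χ - α ∈ zspanOn S {1}ᶜ := by
      intro α k hα hk
      rw [mem_zon_one]
      refine ⟨(zsp S).sub_mem ((zsp S).smul_mem _ (subset_zspan S hχ)) hα, ?_⟩
      rw [Pi.sub_apply, Pi.smul_apply, hk, zsmul_eq_mul, sub_self]
    refine zspan_induction (p := fun α => ∃ k : ℤ, α 1 = k * χ 1 ∧ classInner Y (τ (k • χ - α)) = classInner χ (k • χ - α))
      hgen ⟨0, by simp, by rw [zero_smul, sub_zero, iso_zero h', classInner_zero_right, classInner_zero_right]⟩ ?_ ?_ hα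
    · rintro x y hx' hy' ⟨k, hk, hx⟩ ⟨l, hl, hy⟩
      refine ⟨k + l, by rw [Pi.add_apply, hk, hl]; push_cast; ring, ?_⟩
      have e : (k + l) • χ - (x + y) = (k • χ - x) + (l • χ - y) := by rw [add_smul]; abel
      rw [e, h.1 _ (hin x k hx' hk) _ (hin y l hy' hl), classInner_add_right, classInner_add_right, hx, hy]
    · rintro n x hx' ⟨k, hk, hx⟩
      refine ⟨n * k, by rw [Pi.smul_apply, hk, zsmul_eq_mul]; push_cast; ring, ?_⟩
      have e : (n * k) • χ - n • x = n • (k • χ - x) := by rw [smul_sub, mul_smul]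
      rw [e, h.2.1 _ (hin x k hx' hk), inner_zsmul_right, inner_zsmul_right, hx]
  intro γ hγ
  obtain ⟨k, hk, hk2⟩ := key γ hγ.1
  have h0 : k = 0 := by
    rw [(mem_zon_one.mp hγ).2] at hk
    have := (mul_eq_zero.mp hk.symm).resolve_right hχ1
    exact_mod_cast this
  rw [h0, zero_smul, zero_sub, iso_neg h' hγ, classInner_neg_right, classInner_neg_right] at hk2
  exact neg_injective hk2

/-- members of `S` of the same degree -/
theorem pair_decomp (hS : IsCoherenceSystem S τ R) {χ φ : L → ℂ} (hχ : χ ∈ S) (hφ : φ ∈ S) (hne : φ ≠ χ)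
    (hne' : φ ≠ conjFun χ) (hd : χ 1 = φ 1) :
    τ (χ - φ) = proj (R χ) (τ (χ - φ)) + proj (R φ) (τ (χ - φ)) ∧
      classInner (proj (R χ) (τ (χ - φ))) (proj (R χ) (τ (χ - φ))) = classInner χ χ := by
  have o1 : classInner χ φ = 0 := hS.orthogonal χ hχ φ hφ (Ne.symm hne)
  have o2 : classInner φ χ = 0 := hS.orthogonal φ hφ χ hχ hne
  have o3 : classInner φ (conjFun χ) = 0 := hS.orthogonal φ hφ _ (hS.conj_mem χ hχ) hne'
  have hne'' : χ ≠ conjFun φ := by
    intro h; apply hne'; rw [h, conj_conj]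
  have o4 : classInner χ (conjFun φ) = 0 := hS.orthogonal χ hχ _ (hS.conj_mem φ hφ) hne''
  have hmem : χ - φ ∈ zspanOn S {1}ᶜ := by
    rw [mem_zon_one]
    exact ⟨(zsp S).sub_mem (subset_zspan S hχ) (subset_zspan S hφ), by rw [Pi.sub_apply, hd, sub_self]⟩
  have hi1 : classInner (τ (χ - φ)) (∑ α ∈ R χ, α) = ((classInner χ χ).re : ℂ) := by
    rw [tau_inner_sum hS hχ hmem, classInner_sub_left, classInner_sub_right, classInner_sub_right, inner_conj hS hχ, o2, o3,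
      inner_self_re]; ring
  have hmem' : φ - χ ∈ zspanOn S {1}ᶜ := by
    have := (zon S {1}ᶜ).neg_mem hmem
    rwa [neg_sub] at this
  have hneg : τ (φ - χ) = -τ (χ - φ) := by
    have := iso_neg (E := zon S {1}ᶜ) hS.isometry hmem
    rwa [neg_sub] at this
  have hi2 : classInner (τ (φ - χ)) (∑ α ∈ R φ, α) = ((classInner φ φ).re : ℂ) := by
    rw [tau_inner_sum hS hφ hmem', classInner_sub_left, classInner_sub_right, classInner_sub_right, inner_conj hS hφ, o1, o4,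
      inner_self_re]; ring
  have g1 := hS.isometry.2.2.2 _ hmem
  have g2 := hS.isometry.2.2.2 _ hmem'
  have b1 := (proj_bound (hS.virtual χ hχ) g1 hi1)
  have b2 := (proj_bound (hS.virtual φ hφ) g2 hi2).1
  have hs : sqn (R φ) (τ (φ - χ)) = sqn (R φ) (τ (χ - φ)) := by
    rw [hneg, sqn, sqn]
    refine Finset.sum_congr rfl fun α _ => ?_
    rw [classInner_neg_left, norm_neg]
  rw [hs] at b2
  have hnorm : (classInner (τ (χ - φ)) (τ (χ - φ))).re = (classInner χ χ).re + (classInner φ φ).re := by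
    rw [hS.isometry.2.2.1 _ hmem _ hmem, classInner_sub_left, classInner_sub_right, classInner_sub_right, o1, o2]
    simp
  have ho : ∀ α ∈ R χ, ∀ β ∈ R φ, classInner α β = 0 := hS.disjoint φ hφ χ hχ o1 o4
  have heq := eq_proj2 (cs_ON hS hχ) (cs_ON hS hφ) ho (Φ := τ (χ - φ)) (by rw [hnorm]; linarith [b1.1])
  refine ⟨heq, ?_⟩
  rw [inner_proj_proj (cs_ON hS hχ), ← inner_self_re χ]
  congr 1
  -- equality of norms
  have h3 := sub_proj2_norm (cs_ON hS hχ) (cs_ON hS hφ) ho (τ (χ - φ))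
  have h4 : τ (χ - φ) - proj (R χ) (τ (χ - φ)) - proj (R φ) (τ (χ - φ)) = 0 := by
    nth_rewrite 1 [heq]; abel
  rw [h4, classInner_zero_left] at h3
  have h5 := congrArg Complex.re h3
  simp only [Complex.zero_re, Complex.sub_re, Complex.ofReal_re] at h5
  rw [hnorm] at h5
  linarith [b1.1]

theorem coherent_of_const (hS : IsCoherenceSystem S τ R) (hdeg : ∀ φ ∈ S, ∀ ψ ∈ S, φ 1 = ψ 1) :
    IsCoherent S {1}ᶜ τ := by
  classical
  obtain ⟨χ, hχ⟩ := hS.nonempty
  refine ⟨⟨χ - conjFun χ, diff_mem hS hχ, sub_ne_zero.mpr (hS.conj_ne χ hχ).symm⟩, ?_⟩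
  obtain ⟨d, hd0, hd⟩ := cs_deg hS hχ
  have hχ1 : χ 1 ≠ 0 := by rw [hd]; exact Nat.cast_ne_zero.mpr hd0.ne'
  have hχc := hS.conj_mem χ hχ
  have h' : IsLinearIsometryOn ((zon S {1}ᶜ : Submodule ℤ (L → ℂ)) : Set (L → ℂ)) τ := hS.isometry
  -- it suffices to find Y
  have hsuff : ∀ Y : G → ℂ, IsGeneralizedCharacter G Y → classInner Y Y = classInner χ χ →
      (∀ φ ∈ S, classInner Y (τ (χ - φ)) = classInner χ (χ - φ)) →
      ∃ τ₁ : (L → ℂ) → (G → ℂ), IsLinearIsometryOn (zspan S) τ₁ ∧ ∀ α ∈ zspanOn S {1}ᶜ, τ₁ α = τ α := by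
    intro Y hY hYn hYo
    obtain ⟨τ₂, h1, h2, -⟩ := ext_min hS.isometry hχ hχ1 (fun φ hφ => ⟨1, by rw [hdeg φ hφ χ hχ]; simp⟩) hY hYn
      (hYo_of_gen hS.isometry hχ hχ1 (fun φ hφ => ⟨1, by rw [hdeg φ hφ χ hχ]; simp, by rw [one_smul]; exact hYo φ hφ⟩))
    exact ⟨τ₂, h1, h2⟩
  by_cases hex : ∃ φ ∈ S, φ ≠ χ ∧ φ ≠ conjFun χ
  · obtain ⟨φ₀, hφ₀, hne, hne'⟩ := hex
    obtain ⟨heq, hn⟩ := pair_decomp hS hχ hφ₀ hne hne' (hdeg χ hχ φ₀ hφ₀)
    have hmem0 : χ - φ₀ ∈ zspanOn S {1}ᶜ := by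
      rw [mem_zon_one]
      exact ⟨(zsp S).sub_mem (subset_zspan S hχ) (subset_zspan S hφ₀), by rw [Pi.sub_apply, hdeg χ hχ φ₀ hφ₀, sub_self]⟩
    set Φ := τ (χ - φ₀) with hΦ
    have hYgen : IsGeneralizedCharacter G (proj (R χ) Φ) := proj_gen (hS.virtual χ hχ) (hS.isometry.2.2.2 _ hmem0)
    refine hsuff (proj (R χ) Φ) hYgen hn fun φ hφ => ?_
    have o0 : classInner χ φ₀ = 0 := hS.orthogonal χ hχ φ₀ hφ₀ (Ne.symm hne)
    have oc : classInner χ (conjFun φ₀) = 0 := by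
      refine hS.orthogonal χ hχ _ (hS.conj_mem φ₀ hφ₀) ?_
      intro h; apply hne'; rw [h, conj_conj]
    -- Y against the whole
    have hYΦ : classInner (proj (R χ) Φ) Φ = classInner χ χ := by
      rw [inner_proj_self, ← inner_proj_proj (cs_ON hS hχ), hn]
    have hYR : classInner (proj (R χ) Φ) (∑ α ∈ R χ, α) = classInner χ χ := by
      have : classInner (proj (R χ) Φ) (∑ α ∈ R χ, α) = classInner Φ (∑ α ∈ R χ, α) := by
        rw [classInner_sum_right, classInner_sum_right]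
        exact Finset.sum_congr rfl fun α hα => inner_proj_mem (cs_ON hS hχ) Φ hα
      rw [this, hΦ, tau_inner_sum hS hχ hmem0, classInner_sub_left, classInner_sub_right, classInner_sub_right, inner_conj hS hχ,
        hS.orthogonal φ₀ hφ₀ χ hχ hne, hS.orthogonal φ₀ hφ₀ _ hχc hne']
      ring
    by_cases e1 : φ = χ
    · rw [e1, sub_self, iso_zero h', classInner_zero_right, classInner_zero_right]
    by_cases e2 : φ = conjFun χ
    · rw [e2, hS.sum_eq χ hχ, hYR, classInner_sub_right, inner_conj hS hχ, sub_zero]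
    have oφ : classInner χ φ = 0 := hS.orthogonal χ hχ φ hφ (Ne.symm e1)
    have hrhs : classInner χ (χ - φ) = classInner χ χ := by rw [classInner_sub_right, oφ, sub_zero]
    rw [hrhs]
    by_cases e3 : φ = φ₀
    · rw [e3]; exact hYΦ
    by_cases e4 : φ = conjFun φ₀
    · have e : χ - φ = (χ - φ₀) + (φ₀ - conjFun φ₀) := by rw [e4]; abel
      rw [e, hS.isometry.1 _ hmem0 _ (diff_mem hS hφ₀), classInner_add_right, ← hΦ, hYΦ, hS.sum_eq φ₀ hφ₀, classInner_sum_right,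
        Finset.sum_eq_zero, add_zero]
      intro β hβ
      exact proj_orth _ _ fun α hα => hS.disjoint φ₀ hφ₀ χ hχ o0 oc α hα β hβ
    -- generic φ
    have hmemφ : χ - φ ∈ zspanOn S {1}ᶜ := by
      rw [mem_zon_one]
      exact ⟨(zsp S).sub_mem (subset_zspan S hχ) (subset_zspan S hφ), by rw [Pi.sub_apply, hdeg χ hχ φ hφ, sub_self]⟩
    obtain ⟨heqφ, -⟩ := pair_decomp hS hχ hφ e1 e2 (hdeg χ hχ φ hφ)
    have h1 : classInner Φ (τ (χ - φ)) = classInner χ χ := by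
      rw [hΦ, hS.isometry.2.2.1 _ hmem0 _ hmemφ, classInner_sub_left, classInner_sub_right, classInner_sub_right, oφ,
        hS.orthogonal φ₀ hφ₀ χ hχ hne, hS.orthogonal φ₀ hφ₀ φ hφ (Ne.symm e3)]
      ring
    have h2 : classInner (proj (R φ₀) Φ) (τ (χ - φ)) = 0 := by
      apply proj_orth
      intro α hα
      rw [heqφ, classInner_add_right, ← classInner_conj_symm, ← classInner_conj_symm (proj (R φ) (τ (χ - φ))) α]
      rw [proj_orth _ _ (fun β hβ => ?_), proj_orth _ _ (fun β hβ => ?_)]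
      · simp
      · -- β ∈ R φ, α ∈ R φ₀
        exact hS.disjoint φ₀ hφ₀ φ hφ (hS.orthogonal φ hφ φ₀ hφ₀ e3) (hS.orthogonal φ hφ _ (hS.conj_mem φ₀ hφ₀) e4) β hβ α hα
      · -- β ∈ R χ
        exact hS.disjoint φ₀ hφ₀ χ hχ o0 oc β hβ α hα
    have h3 : classInner Φ (τ (χ - φ)) = classInner (proj (R χ) Φ) (τ (χ - φ)) + classInner (proj (R φ₀) Φ) (τ (χ - φ)) := by
      rw [← classInner_add_left, ← heq]
    rw [h1, h2, add_zero] at h3
    exact h3.symm
  · push_neg at hex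
    -- S = {χ, conj χ}
    obtain ⟨n, hn0, hn⟩ := cs_norm hS hχ
    have hcard : (R χ).card = 2 * n := by
      have := card_R hS hχ
      rw [hn] at this
      exact_mod_cast this
    obtain ⟨R', hR', hR'c⟩ := Finset.exists_subset_card_eq (s := R χ) (n := n) (by omega)
    have hinn : ∀ T : Finset (G → ℂ), R' ⊆ T → T ⊆ R χ → classInner (∑ α ∈ R', α) (∑ α ∈ T, α) = n := by
      intro T hT1 hT2
      rw [classInner_sum_left]
      have : ∀ α ∈ R', classInner α (∑ β ∈ T, β) = 1 := by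
        intro α hα
        rw [classInner_sum_right, Finset.sum_eq_single α]
        · exact ((cs_ON hS hχ) α (hR' hα) α (hR' hα)).1 rfl
        · intro β hβ hne; exact ((cs_ON hS hχ) α (hR' hα) β (hT2 hβ)).2 (Ne.symm hne)
        · intro h; exact absurd (hT1 hα) h
      rw [Finset.sum_congr rfl this]; simp [hR'c]
    refine hsuff (∑ α ∈ R', α) (gen_sum _ _ fun α hα => hS.virtual χ hχ α (hR' hα)) ?_ fun φ hφ => ?_
    · rw [hinn R' (Finset.Subset.refl _) hR', hn]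
    · by_cases e1 : φ = χ
      · rw [e1, sub_self, iso_zero h', classInner_zero_right, classInner_zero_right]
      · rw [hex φ hφ e1, hS.sum_eq χ hχ, hinn (R χ) hR' (Finset.Subset.refl _), classInner_sub_right, inner_conj hS hχ, sub_zero, hn]

end const

end

end Cfsg.Agent.Lib.OddCohB
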