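import Cfsg.Agent.Lib.OddCohB

set_option autoImplicit false

namespace Cfsg.Agent.Lib.OddCohC

open Cfsg Cfsg.Agent.Lib.CharBasic Cfsg.Agent.Lib.CharInd Cfsg.Agent.Lib.CharExc Cfsg.Agent.Lib.OddSgn
open Cfsg.Agent.Lib.OddCoh Cfsg.Agent.Lib.OddCohB
open Cfsg.Agent.Lib.OddDadeB (conj_isIrr conj_isChar conj_conj conj_sub conj_add conj_neg)
open scoped ComplexConjugate

noncomputable section

variable {L G : Type*} [Group L] [Fintype L] [Group G] [Fintype G]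

section formula

variable {S₀ : Finset (L → ℂ)} {τ₀ : (L → ℂ) → (G → ℂ)} {d n : (L → ℂ) → ℕ}

/-- projection onto the image of an orthogonal family -/
def oproj (S₀ : Finset (L → ℂ)) (τ₀ : (L → ℂ) → (G → ℂ)) (n : (L → ℂ) → ℕ) (c : (L → ℂ) → ℤ) : G → ℂ :=
  ∑ φ ∈ S₀, (((c φ : ℝ) / (n φ : ℝ) : ℝ) : ℂ) • τ₀ φ

theorem oproj_inner (S₀ : Finset (L → ℂ)) (τ₀ : (L → ℂ) → (G → ℂ)) (n : (L → ℂ) → ℕ) (c : (L → ℂ) → ℤ) (Ψ : G → ℂ) :
    classInner (oproj S₀ τ₀ n c) Ψ = ∑ φ ∈ S₀, (((c φ : ℝ) / (n φ : ℝ) : ℝ) : ℂ) * classInner (τ₀ φ) Ψ := by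
  rw [oproj, classInner_sum_left]
  exact Finset.sum_congr rfl fun φ _ => by rw [classInner_smul_left]

theorem oproj_norm (h : IsLinearIsometryOn (zspan (↑S₀ : Set (L → ℂ))) τ₀)
    (ho : ∀ φ ∈ S₀, ∀ ψ ∈ S₀, φ ≠ ψ → classInner φ ψ = 0) (hn : ∀ φ ∈ S₀, classInner φ φ = n φ)
    (hn0 : ∀ φ ∈ S₀, 0 < n φ) {Φ : G → ℂ} {c : (L → ℂ) → ℤ} (hc : ∀ φ ∈ S₀, classInner Φ (τ₀ φ) = c φ) :
    (classInner (Φ - oproj S₀ τ₀ n c) (Φ - oproj S₀ τ₀ n c)).re = (classInner Φ Φ).re - ∑ φ ∈ S₀, (c φ : ℝ) ^ 2 / n φ := by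
  have hc' : ∀ φ ∈ S₀, classInner (τ₀ φ) Φ = c φ := fun φ hφ => by
    rw [← classInner_conj_symm, hc φ hφ, map_intCast (starRingEnd ℂ)]
  have h1 : classInner (oproj S₀ τ₀ n c) Φ = ((∑ φ ∈ S₀, (c φ : ℝ) ^ 2 / n φ : ℝ) : ℂ) := by
    rw [oproj_inner, Complex.ofReal_sum]
    refine Finset.sum_congr rfl fun φ hφ => ?_
    rw [hc' φ hφ]; push_cast; ring
  have h2 : classInner Φ (oproj S₀ τ₀ n c) = ((∑ φ ∈ S₀, (c φ : ℝ) ^ 2 / n φ : ℝ) : ℂ) := by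
    rw [← classInner_conj_symm, h1, Complex.conj_ofReal]
  have h3 : classInner (oproj S₀ τ₀ n c) (oproj S₀ τ₀ n c) = ((∑ φ ∈ S₀, (c φ : ℝ) ^ 2 / n φ : ℝ) : ℂ) := by
    rw [oproj_inner, Complex.ofReal_sum]
    refine Finset.sum_congr rfl fun φ hφ => ?_
    have h4 : classInner (τ₀ φ) (oproj S₀ τ₀ n c) = c φ := by
      rw [← classInner_conj_symm, oproj_inner, Finset.sum_eq_single φ]
      · rw [h.2.2.1 _ (subset_zspan _ hφ) _ (subset_zspan _ hφ), hn φ hφ, map_mul, Complex.conj_ofReal, map_natCast]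
        have : (n φ : ℂ) ≠ 0 := Nat.cast_ne_zero.mpr (hn0 φ hφ).ne'
        push_cast
        field_simp
      · intro ψ hψ hne
        rw [h.2.2.1 _ (subset_zspan _ hψ) _ (subset_zspan _ hφ), ho ψ hψ φ hφ hne, mul_zero]
      · intro h'; exact absurd hφ h'
    rw [h4]; push_cast; ring
  rw [classInner_sub_left, classInner_sub_right, classInner_sub_right, h1, h2, h3, sub_self, sub_zero, Complex.sub_re,
    Complex.ofReal_re]

theorem norm_formula (h : IsLinearIsometryOn (zspan (↑S₀ : Set (L → ℂ))) τ₀)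
    (ho : ∀ φ ∈ S₀, ∀ ψ ∈ S₀, φ ≠ ψ → classInner φ ψ = 0) (hd : ∀ φ ∈ S₀, φ 1 = d φ) (hn : ∀ φ ∈ S₀, classInner φ φ = n φ)
    (hd0 : ∀ φ ∈ S₀, 0 < d φ) (hn0 : ∀ φ ∈ S₀, 0 < n φ) {χ₁ : L → ℂ} (hχ₁ : χ₁ ∈ S₀) {a : ℕ} {Φ : G → ℂ}
    (hΦ : IsGeneralizedCharacter G Φ) {N : ℝ} (hΦN : (classInner Φ Φ).re = N + a ^ 2 * n χ₁)
    (hΦγ : ∀ γ ∈ zspanOn (↑S₀ : Set (L → ℂ)) {1}ᶜ, classInner Φ (τ₀ γ) = -(a * classInner χ₁ γ)) :
    ∃ (c : (L → ℂ) → ℤ) (m : ℤ), (∀ φ ∈ S₀, classInner Φ (τ₀ φ) = c φ) ∧ (∀ φ ∈ S₀, φ ≠ χ₁ → c φ * (d χ₁ : ℤ) = m * d φ) ∧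
      c χ₁ = m - a * n χ₁ ∧
      (classInner (Φ - oproj S₀ τ₀ n c) (Φ - oproj S₀ τ₀ n c)).re =
        N + 2 * a * m - (m : ℝ) ^ 2 * (∑ φ ∈ S₀, (d φ : ℝ) ^ 2 / n φ) / (d χ₁ : ℝ) ^ 2 := by
  classical
  have h' : IsLinearIsometryOn ((zsp (↑S₀ : Set (L → ℂ)) : Submodule ℤ (L → ℂ)) : Set (L → ℂ)) τ₀ := h
  have hint : ∀ φ ∈ S₀, ∃ k : ℤ, classInner Φ (τ₀ φ) = k := fun φ hφ => gen_inner_int hΦ (h.2.2.2 _ (subset_zspan _ hφ))
  choose! c hc using hint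
  have hkey : ∀ φ ∈ S₀, φ ≠ χ₁ → c φ * (d χ₁ : ℤ) = (c χ₁ + a * n χ₁) * d φ := by
    intro φ hφ hne
    have m1 : (d χ₁ : ℤ) • φ ∈ zspan (↑S₀ : Set (L → ℂ)) := (zsp _).smul_mem _ (subset_zspan _ hφ)
    have m2 : (d φ : ℤ) • χ₁ ∈ zspan (↑S₀ : Set (L → ℂ)) := (zsp _).smul_mem _ (subset_zspan _ hχ₁)
    have hmem : (d χ₁ : ℤ) • φ - (d φ : ℤ) • χ₁ ∈ zspanOn (↑S₀ : Set (L → ℂ)) {1}ᶜ := by
      rw [mem_zon_one]
      refine ⟨(zsp _).sub_mem m1 m2, ?_⟩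
      rw [Pi.sub_apply, Pi.smul_apply, Pi.smul_apply, hd φ hφ, hd χ₁ hχ₁, zsmul_eq_mul, zsmul_eq_mul]
      push_cast; ring
    have h1 := hΦγ _ hmem
    rw [iso_sub h' m1 m2, h.2.1 _ (subset_zspan _ hφ), h.2.1 _ (subset_zspan _ hχ₁), classInner_sub_right, inner_zsmul_right,
      inner_zsmul_right, hc φ hφ, hc χ₁ hχ₁, classInner_sub_right, inner_zsmul_right, inner_zsmul_right, ho χ₁ hχ₁ φ hφ (Ne.symm hne),
      hn χ₁ hχ₁] at h1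
    have h2 : (d χ₁ : ℤ) * c φ - d φ * c χ₁ = -(a * (0 - d φ * n χ₁)) := by
      have : (((d χ₁ : ℤ) * c φ - d φ * c χ₁ : ℤ) : ℂ) = ((-(a * (0 - d φ * n χ₁)) : ℤ) : ℂ) := by
        push_cast at h1 ⊢
        rw [h1]; ring
      exact_mod_cast this
    linear_combination h2
  refine ⟨c, c χ₁ + a * n χ₁, hc, hkey, by ring, ?_⟩
  rw [oproj_norm h ho hn hn0 hc, hΦN]
  set m : ℤ := c χ₁ + a * n χ₁ with hm
  have hd1 : (0 : ℝ) < d χ₁ := by exact_mod_cast hd0 χ₁ hχ₁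
  have hn1 : (0 : ℝ) < n χ₁ := by exact_mod_cast hn0 χ₁ hχ₁
  have hsum : ∑ φ ∈ S₀, ((c φ : ℝ) ^ 2 / n φ - (m : ℝ) ^ 2 * ((d φ : ℝ) ^ 2 / n φ) / (d χ₁ : ℝ) ^ 2) = a ^ 2 * n χ₁ - 2 * a * m := by
    rw [Finset.sum_eq_single χ₁]
    · have e : (c χ₁ : ℝ) = m - a * n χ₁ := by rw [hm]; push_cast; ring
      rw [e]
      field_simp
      ring
    · intro φ hφ hne
      have h1 : (c φ : ℝ) = m * d φ / d χ₁ := by
        have : (c φ : ℝ) * d χ₁ = m * d φ := by exact_mod_cast hkey φ hφ hne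
        rw [eq_div_iff hd1.ne', this]
      have hn2 : (0 : ℝ) < n φ := by exact_mod_cast hn0 φ hφ
      rw [h1]
      field_simp
      ring
    · intro h'; exact absurd hχ₁ h'
  have hsum2 : ∑ φ ∈ S₀, (c φ : ℝ) ^ 2 / n φ = (m : ℝ) ^ 2 * (∑ φ ∈ S₀, (d φ : ℝ) ^ 2 / n φ) / (d χ₁ : ℝ) ^ 2 + (a ^ 2 * n χ₁ - 2 * a * m) := by
    rw [← hsum, Finset.sum_sub_distrib, ← Finset.sum_div, ← Finset.mul_sum]; ring
  rw [hsum2]
  push_cast
  ring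

/-- conclusion when the projection leaves enough -/
theorem m_zero {a d₁ : ℕ} (hd1 : 0 < d₁) {N D : ℝ} {m : ℤ} (hD : 2 * a * (d₁ : ℝ) ^ 2 < D)
    (h : N ≤ N + 2 * a * m - (m : ℝ) ^ 2 * D / (d₁ : ℝ) ^ 2) : m = 0 := by
  have hd : (0 : ℝ) < (d₁ : ℝ) ^ 2 := by positivity
  by_contra hm
  have h1 : (m : ℝ) ^ 2 * D ≤ 2 * a * m * (d₁ : ℝ) ^ 2 := by
    have : (m : ℝ) ^ 2 * D / (d₁ : ℝ) ^ 2 ≤ 2 * a * m := by linarith
    rwa [div_le_iff₀ hd] at this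
  have h2 : (1 : ℝ) ≤ |(m : ℝ)| := by
    rw [← Int.cast_abs]
    exact_mod_cast Int.one_le_abs hm
  have h3 : (m : ℝ) ≤ |(m : ℝ)| := le_abs_self _
  have h4 : (m : ℝ) ^ 2 = |(m : ℝ)| * |(m : ℝ)| := by rw [← sq, sq_abs]
  have ha : (0 : ℝ) ≤ 2 * a * (d₁ : ℝ) ^ 2 := by positivity
  have h5 : |(m : ℝ)| * D ≤ 2 * a * (d₁ : ℝ) ^ 2 := by
    have h6 : |(m : ℝ)| * (|(m : ℝ)| * D) ≤ |(m : ℝ)| * (2 * a * (d₁ : ℝ) ^ 2) := by
      calc |(m : ℝ)| * (|(m : ℝ)| * D) = (m : ℝ) ^ 2 * D := by rw [h4]; ring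
        _ ≤ 2 * a * m * (d₁ : ℝ) ^ 2 := h1
        _ = (2 * a * (d₁ : ℝ) ^ 2) * m := by ring
        _ ≤ (2 * a * (d₁ : ℝ) ^ 2) * |(m : ℝ)| := mul_le_mul_of_nonneg_left h3 ha
        _ = _ := by ring
    exact le_of_mul_le_mul_left h6 (by linarith)
  nlinarith

end formula

section feit

/-- Feit's criterion -/
theorem feit {S₀ : Finset (L → ℂ)} {χ : L → ℂ} (hirr : ∀ ξ ∈ S₀, IsIrrCharacter L ξ) (hχ : IsIrrCharacter L χ)
    (hχS : χ ∉ S₀) {d : (L → ℂ) → ℕ} (hd : ∀ ξ ∈ S₀, ξ 1 = (d ξ : ℂ)) (hdχ : χ 1 = (d χ : ℂ)) {τ : (L → ℂ) → (G → ℂ)}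
    (hτ : IsLinearIsometryOn (zspanOn (insert χ ↑S₀ : Set (L → ℂ)) {1}ᶜ) τ)
    (hτ1 : ∀ α ∈ zspanOn (insert χ ↑S₀ : Set (L → ℂ)) {1}ᶜ, τ α 1 = 0) (hcoh : IsCoherent (↑S₀ : Set (L → ℂ)) {1}ᶜ τ)
    {ψ : L → ℂ} (hψ : ψ ∈ S₀) (hdvd : d ψ ∣ d χ) (hlt : 2 * d ψ * d χ < ∑ ξ ∈ S₀, d ξ ^ 2) :
    IsCoherent (insert χ ↑S₀ : Set (L → ℂ)) {1}ᶜ τ := by
  classical
  obtain ⟨hne, τ₀, hτ₀, hagr⟩ := hcoh
  have hsub : (↑S₀ : Set (L → ℂ)) ⊆ insert χ ↑S₀ := Set.subset_insert _ _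
  obtain ⟨α₀, hα₀, hα₀'⟩ := hne
  refine ⟨⟨α₀, zspanOn_mono hsub _ hα₀, hα₀'⟩, ?_⟩
  have h' : IsLinearIsometryOn ((zon (insert χ ↑S₀ : Set (L → ℂ)) {1}ᶜ : Submodule ℤ (L → ℂ)) : Set (L → ℂ)) τ := hτ
  have h0' : IsLinearIsometryOn ((zsp (↑S₀ : Set (L → ℂ)) : Submodule ℤ (L → ℂ)) : Set (L → ℂ)) τ₀ := hτ₀
  obtain ⟨a, ha⟩ := hdvd
  have hd0 : ∀ ξ ∈ S₀, 0 < d ξ := by
    intro ξ hξ
    obtain ⟨k, hk, hk'⟩ := isIrr_one_eq (hirr ξ hξ)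
    rw [hd ξ hξ] at hk'
    have : d ξ = k := by exact_mod_cast hk'
    omega
  have hn : ∀ φ ∈ S₀, classInner φ φ = ((1 : ℕ) : ℂ) := fun φ hφ => by rw [irr_inner_self (hirr φ hφ)]; simp
  have ho : ∀ φ ∈ S₀, ∀ ψ ∈ S₀, φ ≠ ψ → classInner φ ψ = 0 := fun φ hφ ψ hψ hne => irr_inner_ne (hirr φ hφ) (hirr ψ hψ) hne
  have hχo : ∀ φ ∈ S₀, classInner χ φ = 0 := fun φ hφ => irr_inner_ne hχ (hirr φ hφ) (fun e => hχS (e ▸ hφ))
  have hψχ : classInner ψ χ = 0 := irr_inner_ne (hirr ψ hψ) hχ (fun e => hχS (e ▸ hψ))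
  have hmem : χ - (a : ℤ) • ψ ∈ zspanOn (insert χ ↑S₀ : Set (L → ℂ)) {1}ᶜ := by
    rw [mem_zon_one]
    refine ⟨(zsp _).sub_mem (subset_zspan _ (Set.mem_insert _ _)) ((zsp _).smul_mem _ (subset_zspan _ (hsub hψ))), ?_⟩
    rw [Pi.sub_apply, Pi.smul_apply, hd ψ hψ, hdχ, ha, zsmul_eq_mul]
    push_cast; ring
  set Φ := τ (χ - (a : ℤ) • ψ) with hΦ
  have hΦg : IsGeneralizedCharacter G Φ := hτ.2.2.2 _ hmem
  have hΦN : classInner Φ Φ = 1 + a ^ 2 := by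
    rw [hΦ, hτ.2.2.1 _ hmem _ hmem, classInner_sub_left, classInner_sub_right, classInner_sub_right, inner_zsmul_right,
      inner_zsmul_left, inner_zsmul_left, inner_zsmul_right, hχo ψ hψ, irr_inner_self hχ, hn ψ hψ, hψχ]
    push_cast; ring
  have hΦγ : ∀ γ ∈ zspanOn (↑S₀ : Set (L → ℂ)) {1}ᶜ, classInner Φ (τ₀ γ) = -(a * classInner ψ γ) := by
    intro γ hγ
    rw [hagr γ hγ, hΦ, hτ.2.2.1 _ hmem _ (zspanOn_mono hsub _ hγ), classInner_sub_left, inner_zsmul_left]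
    have : classInner χ γ = 0 := by
      refine zspan_induction (p := fun γ => classInner χ γ = 0) hχo (classInner_zero_right _) ?_ ?_ hγ.1
      · intro x y _ _ hx hy; rw [classInner_add_right, hx, hy, add_zero]
      · intro n x _ hx; rw [inner_zsmul_right, hx, mul_zero]
    rw [this]; push_cast; ring
  obtain ⟨c, m, hc, hc1, hc2, hnorm⟩ := norm_formula (n := fun _ => 1) (N := 1) hτ₀ ho hd hn hd0 (fun _ _ => one_pos) hψ hΦg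
    (a := a) (by rw [hΦN]; simp; norm_cast) hΦγ
  simp only [Nat.cast_one, div_one, mul_one] at hnorm hc2
  have hPg : IsGeneralizedCharacter G (oproj S₀ τ₀ (fun _ => 1) c) := by
    refine gen_sum _ _ fun φ hφ => ?_
    have : (((c φ : ℝ) / ((1 : ℕ) : ℝ) : ℝ) : ℂ) = (c φ : ℂ) := by simp
    rw [this]
    exact gen_zsmul _ (hτ₀.2.2.2 _ (subset_zspan _ hφ))
  have hdψ : (0 : ℝ) < d ψ := by exact_mod_cast hd0 ψ hψ
  have hDpos : 2 * (a : ℝ) * (d ψ : ℝ) ^ 2 < ∑ φ ∈ S₀, (d φ : ℝ) ^ 2 := by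
    have : 2 * d ψ * (d ψ * a) < ∑ ξ ∈ S₀, d ξ ^ 2 := by rw [← ha]; exact hlt
    have h2 : ((2 * d ψ * (d ψ * a) : ℕ) : ℝ) < ((∑ ξ ∈ S₀, d ξ ^ 2 : ℕ) : ℝ) := by exact_mod_cast this
    push_cast at h2
    linarith [h2]
  set D : ℝ := ∑ φ ∈ S₀, (d φ : ℝ) ^ 2 with hDdef
  have hD0 : 0 < D := lt_of_le_of_lt (by positivity) hDpos
  obtain ⟨k, hk⟩ := gen_inner_int (gen_sub hΦg hPg) (gen_sub hΦg hPg)
  have hkr : (classInner (Φ - oproj S₀ τ₀ (fun _ => 1) c) (Φ - oproj S₀ τ₀ (fun _ => 1) c)).re = k := by rw [hk]; simp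
  have hk0 : 0 ≤ k := by
    have := classInner_self_nonneg (Φ - oproj S₀ τ₀ (fun _ => 1) c)
    rw [hkr] at this; exact_mod_cast this
  have hkne : k ≠ 0 := by
    intro hk0'
    rw [hk0', Int.cast_zero] at hk
    have heq := sub_eq_zero.mp (classInner_self_eq_zero hk)
    -- evaluate at 1
    have hprop : ∀ φ ∈ S₀, (d ψ : ℂ) * τ₀ φ 1 = d φ * τ₀ ψ 1 := by
      intro φ hφ
      have m1 : (d ψ : ℤ) • φ ∈ zspan (↑S₀ : Set (L → ℂ)) := (zsp _).smul_mem _ (subset_zspan _ hφ)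
      have m2 : (d φ : ℤ) • ψ ∈ zspan (↑S₀ : Set (L → ℂ)) := (zsp _).smul_mem _ (subset_zspan _ hψ)
      have hmem' : (d ψ : ℤ) • φ - (d φ : ℤ) • ψ ∈ zspanOn (↑S₀ : Set (L → ℂ)) {1}ᶜ := by
        rw [mem_zon_one]
        refine ⟨(zsp _).sub_mem m1 m2, ?_⟩
        rw [Pi.sub_apply, Pi.smul_apply, Pi.smul_apply, hd φ hφ, hd ψ hψ, zsmul_eq_mul, zsmul_eq_mul]
        push_cast; ring
      have h1 := hτ1 _ (zspanOn_mono hsub _ hmem')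
      rw [← hagr _ hmem', iso_sub h0' m1 m2, hτ₀.2.1 _ (subset_zspan _ hφ), hτ₀.2.1 _ (subset_zspan _ hψ), Pi.sub_apply,
        Pi.smul_apply, Pi.smul_apply, zsmul_eq_mul, zsmul_eq_mul] at h1
      push_cast at h1
      exact sub_eq_zero.mp h1
    have hψ1 : τ₀ ψ 1 ≠ 0 := by
      have hSI : SI (τ₀ ψ) := SI.of_norm (hτ₀.2.2.2 _ (subset_zspan _ hψ)) (by
        rw [hτ₀.2.2.1 _ (subset_zspan _ hψ) _ (subset_zspan _ hψ), irr_inner_self (hirr ψ hψ)])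
      obtain ⟨s, μ, hs, hμ⟩ := hSI.form
      obtain ⟨q, hq0, hq⟩ := isIrr_one_eq μ.2
      rw [hμ, Pi.smul_apply, hq, smul_eq_mul]
      apply mul_ne_zero
      · rcases hs with rfl | rfl <;> simp
      · exact Nat.cast_ne_zero.mpr (by omega)
    have h1 := congrFun heq 1
    rw [hΦ, hτ1 _ hmem, oproj, Finset.sum_apply] at h1
    have h2 : ∑ φ ∈ S₀, (c φ : ℂ) * (d φ) = 0 := by
      have h3 : (∑ φ ∈ S₀, (c φ : ℂ) * (d φ)) * τ₀ ψ 1 = 0 := by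
        rw [Finset.sum_mul]
        have : ∀ φ ∈ S₀, (c φ : ℂ) * (d φ) * τ₀ ψ 1 = (d ψ : ℂ) * (((((c φ : ℝ) / ((1 : ℕ) : ℝ) : ℝ) : ℂ) • τ₀ φ) 1) := by
          intro φ hφ
          rw [mul_assoc, ← hprop φ hφ, Pi.smul_apply, smul_eq_mul]
          push_cast; ring
        rw [Finset.sum_congr rfl this, ← Finset.mul_sum, ← h1, mul_zero]
      exact (mul_eq_zero.mp h3).resolve_right hψ1
    have h3 : ∑ φ ∈ S₀, (c φ : ℝ) * (d φ) = 0 := by exact_mod_cast h2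
    have h4 : ∑ φ ∈ S₀, ((c φ : ℝ) * d φ - (m : ℝ) * (d φ : ℝ) ^ 2 / d ψ) = -(a * d ψ) := by
      rw [Finset.sum_eq_single ψ]
      · rw [hc2]; push_cast; field_simp; ring
      · intro φ hφ hne
        have : (c φ : ℝ) * d ψ = m * d φ := by exact_mod_cast hc1 φ hφ hne
        field_simp
        rw [this]; ring
      · intro h'; exact absurd hψ h'
    rw [Finset.sum_sub_distrib, h3, ← Finset.sum_div, ← Finset.mul_sum, ← hDdef] at h4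
    have h5 : (m : ℝ) * D = a * (d ψ : ℝ) ^ 2 := by
      field_simp at h4
      linarith
    have h6 : (k : ℝ) = 1 + a * m := by
      rw [← hkr, hnorm]
      have : (m : ℝ) ^ 2 * D / (d ψ : ℝ) ^ 2 = a * m := by
        rw [sq, mul_assoc, h5]; field_simp
      rw [this]; ring
    have h7 : 0 ≤ (m : ℝ) := by
      by_contra hneg
      push_neg at hneg
      have : (m : ℝ) * D < 0 := mul_neg_of_neg_of_pos hneg hD0
      rw [h5] at this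
      have : (0 : ℝ) ≤ a * (d ψ : ℝ) ^ 2 := by positivity
      linarith
    rw [hk0'] at h6
    have : (0 : ℝ) ≤ a * m := by positivity
    norm_num at h6
    linarith
  have hm0 : m = 0 := by
    refine m_zero (hd0 ψ hψ) hDpos (N := 1) ?_
    rw [← hnorm, hkr]
    have : 1 ≤ k := by omega
    exact_mod_cast this
  rw [hm0, zero_sub] at hc2
  have hcφ : ∀ φ ∈ S₀, φ ≠ ψ → c φ = 0 := by
    intro φ hφ hne
    have := hc1 φ hφ hne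
    rw [hm0, zero_mul] at this
    exact (mul_eq_zero.mp this).resolve_right (by exact_mod_cast (hd0 ψ hψ).ne')
  -- the image of χ
  have mψ := subset_zspan (↑S₀ : Set (L → ℂ)) hψ
  have hΦψ : classInner Φ (τ₀ ψ) = -a := by rw [hc ψ hψ, hc2]; push_cast; ring
  have hψΦ : classInner (τ₀ ψ) Φ = -a := by rw [← classInner_conj_symm, hΦψ]; simp
  have hψψ : classInner (τ₀ ψ) (τ₀ ψ) = 1 := by rw [hτ₀.2.2.1 _ mψ _ mψ, irr_inner_self (hirr ψ hψ)]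
  obtain ⟨τ₂, k1, k2, k3⟩ := add_one hτ₀ (χ := χ) hχo (by
      rintro rfl; obtain ⟨q, hq0, hq⟩ := isIrr_one_eq hχ
      have : (q : ℂ) = 0 := by rw [← hq]; rfl
      have : q = 0 := by exact_mod_cast this
      omega) (Y := Φ + (a : ℤ) • τ₀ ψ) (gen_add hΦg (gen_zs _ (hτ₀.2.2.2 _ mψ))) (by
      rw [classInner_add_left, classInner_add_right, classInner_add_right, inner_zsmul_right, inner_zsmul_left,
        inner_zsmul_left, inner_zsmul_right, hΦN, hΦψ, hψΦ, hψψ, irr_inner_self hχ]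
      push_cast; ring) (by
      intro φ hφ
      rw [classInner_add_left, inner_zsmul_left, hc φ hφ, hτ₀.2.2.1 _ mψ _ (subset_zspan _ hφ)]
      by_cases e : φ = ψ
      · rw [e, hc2, irr_inner_self (hirr ψ hψ)]; push_cast; ring
      · rw [hcφ φ hφ e, ho ψ hψ φ hφ (Ne.symm e)]; simp)
  refine ⟨τ₂, k1, ?_⟩
  intro f hf
  obtain ⟨q, α, hα, rfl⟩ := Submodule.mem_span_insert.mp hf.1
  have hα' : α ∈ zspan (↑S₀ : Set (L → ℂ)) := hα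
  have hf1 := (mem_zon_one.mp hf).2
  have mχ : χ ∈ zspan (insert χ ↑S₀ : Set (L → ℂ)) := subset_zspan _ (Set.mem_insert _ _)
  have m3 : (q * a : ℤ) • ψ ∈ zspan (↑S₀ : Set (L → ℂ)) := (zsp _).smul_mem _ mψ
  have m4 : α + (q * a : ℤ) • ψ ∈ zspanOn (↑S₀ : Set (L → ℂ)) {1}ᶜ := by
    rw [mem_zon_one]
    refine ⟨(zsp _).add_mem hα' m3, ?_⟩
    rw [Pi.add_apply, Pi.smul_apply, hdχ, ha, zsmul_eq_mul] at hf1
    rw [Pi.add_apply, Pi.smul_apply, hd ψ hψ, zsmul_eq_mul]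
    push_cast at hf1 ⊢
    linear_combination hf1
  have e : q • χ + α = q • (χ - (a : ℤ) • ψ) + (α + (q * a : ℤ) • ψ) := by
    rw [smul_sub, smul_smul]; abel
  have e2 : τ (q • χ + α) = q • Φ + τ₀ (α + (q * a : ℤ) • ψ) := by
    rw [e, hτ.1 _ ((zon _ _).smul_mem q hmem) _ (zspanOn_mono hsub _ m4), hτ.2.1 _ hmem, hagr _ m4]
  rw [e2, hτ₀.1 _ hα' _ m3, hτ₀.2.1 _ mψ, k1.1 _ ((zsp _).smul_mem q mχ) _ (zspan_mono hsub hα'), k1.2.1 _ mχ, k3,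
    k2 α hα', smul_add, smul_smul]
  abel

end feit
section ext

variable {S : Set (L → ℂ)} {τ : (L → ℂ) → (G → ℂ)} {R : (L → ℂ) → Finset (G → ℂ)}

/-- images under a coherent extension lie in the span of `R` -/
theorem image_in_R (hS : IsCoherenceSystem S τ R) {S₁ : Set (L → ℂ)} (hS₁ : S₁ ⊆ S) (hS₁c : ∀ φ ∈ S₁, conjFun φ ∈ S₁)
    {τ₀ : (L → ℂ) → (G → ℂ)} (hτ₀ : IsLinearIsometryOn (zspan S₁) τ₀) (hagr : ∀ α ∈ zspanOn S₁ {1}ᶜ, τ₀ α = τ α)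
    {φ : L → ℂ} (hφ : φ ∈ S₁) : τ₀ φ = proj (R φ) (τ₀ φ) := by
  have m1 := subset_zspan S₁ hφ
  have m2 := subset_zspan S₁ (hS₁c φ hφ)
  have hmem : φ - conjFun φ ∈ zspanOn S₁ {1}ᶜ := by
    rw [mem_zon_one]
    refine ⟨(zsp _).sub_mem m1 m2, ?_⟩
    rw [Pi.sub_apply, conj_one hS (hS₁ hφ), sub_self]
  have h1 : classInner (τ₀ φ) (∑ α ∈ R φ, α) = ((classInner φ φ).re : ℂ) := by
    rw [← hS.sum_eq φ (hS₁ hφ), ← hagr _ hmem, hτ₀.2.2.1 _ m1 _ hmem.1, classInner_sub_right, inner_conj hS (hS₁ hφ), sub_zero,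
      inner_self_re]
  have h2 := (proj_bound (hS.virtual φ (hS₁ hφ)) (hτ₀.2.2.2 _ m1) h1).1
  refine eq_proj (cs_ON hS (hS₁ hφ)) ?_
  rw [hτ₀.2.2.1 _ m1 _ m1]
  exact h2

theorem extension (hS : IsCoherenceSystem S τ R) {d n : (L → ℂ) → ℕ} (hd : ∀ φ ∈ S, φ 1 = (d φ : ℂ))
    (hn : ∀ φ ∈ S, classInner φ φ = (n φ : ℂ)) {S₁ : Finset (L → ℂ)} (hS₁ : ↑S₁ ⊆ S) (hS₁c : ∀ φ ∈ S₁, conjFun φ ∈ S₁)
    (hcoh : IsCoherent (↑S₁ : Set (L → ℂ)) {1}ᶜ τ) {χ : L → ℂ} (hχ : χ ∈ S) (hχ₁ : χ ∉ S₁) (hχ₂ : conjFun χ ∉ S₁)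
    {χ₁ : L → ℂ} (hχ₁S : χ₁ ∈ S₁) (hdvd : d χ₁ ∣ d χ)
    (hineq : (2 * d χ * d χ₁ : ℝ) < ∑ φ ∈ S₁, ((d φ : ℝ) ^ 2 / (n φ : ℝ))) :
    IsCoherent (↑S₁ ∪ {χ, conjFun χ} : Set (L → ℂ)) {1}ᶜ τ := by
  classical
  obtain ⟨⟨α₀, hα₀, hα₀'⟩, τ₀, hτ₀, hagr⟩ := hcoh
  have hset : (↑S₁ ∪ {χ, conjFun χ} : Set (L → ℂ)) = insert (conjFun χ) (insert χ (↑S₁ : Set (L → ℂ))) := by
    ext x; simp only [Set.mem_union, Set.mem_insert_iff, Set.mem_singleton_iff]; tauto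
  rw [hset]
  have hsub : (↑S₁ : Set (L → ℂ)) ⊆ insert (conjFun χ) (insert χ (↑S₁ : Set (L → ℂ))) :=
    (Set.subset_insert _ _).trans (Set.subset_insert _ _)
  refine ⟨⟨α₀, zspanOn_mono hsub _ hα₀, hα₀'⟩, ?_⟩
  have h' : IsLinearIsometryOn ((zon S {1}ᶜ : Submodule ℤ (L → ℂ)) : Set (L → ℂ)) τ := hS.isometry
  have h0' : IsLinearIsometryOn ((zsp (↑S₁ : Set (L → ℂ)) : Submodule ℤ (L → ℂ)) : Set (L → ℂ)) τ₀ := hτ₀
  obtain ⟨a, ha⟩ := hdvd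
  have hd0 : ∀ ξ ∈ S₁, 0 < d ξ := by
    intro ξ hξ
    obtain ⟨k, hk, hk'⟩ := cs_deg hS (hS₁ hξ)
    rw [hd ξ (hS₁ hξ)] at hk'
    have : d ξ = k := by exact_mod_cast hk'
    omega
  have hn0 : ∀ ξ ∈ S, 0 < n ξ := by
    intro ξ hξ
    obtain ⟨k, hk, hk'⟩ := cs_norm hS hξ
    rw [hn ξ hξ] at hk'
    have : n ξ = k := by exact_mod_cast hk'
    omega
  have ho : ∀ φ ∈ S₁, ∀ ψ ∈ S₁, φ ≠ ψ → classInner φ ψ = 0 := fun φ hφ ψ hψ hne => hS.orthogonal φ (hS₁ hφ) ψ (hS₁ hψ) hne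
  have hχo : ∀ φ ∈ S₁, classInner χ φ = 0 := fun φ hφ => hS.orthogonal χ hχ φ (hS₁ hφ) (fun e => hχ₁ (e ▸ hφ))
  have hχo' : ∀ φ ∈ S₁, classInner φ χ = 0 := fun φ hφ => hS.orthogonal φ (hS₁ hφ) χ hχ (fun e => hχ₁ (e ▸ hφ))
  have hχco : ∀ φ ∈ S₁, classInner (conjFun χ) φ = 0 := fun φ hφ =>
    hS.orthogonal _ (hS.conj_mem χ hχ) φ (hS₁ hφ) (fun e => hχ₂ (e ▸ hφ))
  have hχco' : ∀ φ ∈ S₁, classInner φ (conjFun χ) = 0 := fun φ hφ =>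
    hS.orthogonal φ (hS₁ hφ) _ (hS.conj_mem χ hχ) (fun e => hχ₂ (e ▸ hφ))
  have hmem : χ - (a : ℤ) • χ₁ ∈ zspanOn S {1}ᶜ := by
    rw [mem_zon_one]
    refine ⟨(zsp _).sub_mem (subset_zspan _ hχ) ((zsp _).smul_mem _ (subset_zspan _ (hS₁ hχ₁S))), ?_⟩
    rw [Pi.sub_apply, Pi.smul_apply, hd χ₁ (hS₁ hχ₁S), hd χ hχ, ha, zsmul_eq_mul]
    push_cast; ring
  set Φ := τ (χ - (a : ℤ) • χ₁) with hΦ
  have hΦg : IsGeneralizedCharacter G Φ := hS.isometry.2.2.2 _ hmem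
  have hΦN : classInner Φ Φ = n χ + a ^ 2 * n χ₁ := by
    rw [hΦ, hS.isometry.2.2.1 _ hmem _ hmem, classInner_sub_left, classInner_sub_right, classInner_sub_right, inner_zsmul_right,
      inner_zsmul_left, inner_zsmul_left, inner_zsmul_right, hχo χ₁ hχ₁S, hn χ hχ, hn χ₁ (hS₁ hχ₁S), hχo' χ₁ hχ₁S]
    push_cast; ring
  have hsp0 : ∀ (η : L → ℂ), (∀ φ ∈ S₁, classInner η φ = 0) → ∀ γ ∈ zspan (↑S₁ : Set (L → ℂ)), classInner η γ = 0 := by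
    intro η hη γ hγ
    refine zspan_induction (p := fun γ => classInner η γ = 0) hη (classInner_zero_right _) ?_ ?_ hγ
    · intro x y _ _ hx hy; rw [classInner_add_right, hx, hy, add_zero]
    · intro n x _ hx; rw [inner_zsmul_right, hx, mul_zero]
  have hΦγ : ∀ γ ∈ zspanOn (↑S₁ : Set (L → ℂ)) {1}ᶜ, classInner Φ (τ₀ γ) = -(a * classInner χ₁ γ) := by
    intro γ hγ
    rw [hagr γ hγ, hΦ, hS.isometry.2.2.1 _ hmem _ (zspanOn_mono hS₁ _ hγ), classInner_sub_left, inner_zsmul_left,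
      hsp0 χ hχo γ hγ.1]
    push_cast; ring
  obtain ⟨c, m, hc, hc1, hc2, hnorm⟩ := norm_formula (N := (n χ : ℝ)) hτ₀ ho (fun φ hφ => hd φ (hS₁ hφ)) (fun φ hφ => hn φ (hS₁ hφ))
    hd0 (fun φ hφ => hn0 φ (hS₁ hφ)) hχ₁S hΦg (a := a) (by
      rw [hΦN]
      have : ((n χ : ℂ) + a ^ 2 * n χ₁) = (((n χ : ℝ) + a ^ 2 * n χ₁ : ℝ) : ℂ) := by push_cast; ring
      rw [this, Complex.ofReal_re]) hΦγ
  -- R χ is orthogonal to the image
  have hRo : ∀ φ ∈ S₁, ∀ α ∈ R χ, classInner (τ₀ φ) α = 0 := by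
    intro φ hφ α hα
    rw [image_in_R hS hS₁ hS₁c hτ₀ hagr hφ]
    apply proj_orth
    intro β hβ
    rw [← classInner_conj_symm]
    rw [hS.disjoint φ (hS₁ hφ) χ hχ (hχo φ hφ) (hχo _ (hS₁c φ hφ)) α hα β hβ, map_zero]
  have hPo : ∀ α ∈ R χ, classInner (oproj S₁ τ₀ n c) α = 0 := by
    intro α hα
    rw [oproj_inner]
    exact Finset.sum_eq_zero fun φ hφ => by rw [hRo φ hφ α hα, mul_zero]
  have hΦR : classInner Φ (∑ α ∈ R χ, α) = ((n χ : ℝ) : ℂ) := by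
    rw [hΦ, tau_inner_sum hS hχ hmem, classInner_sub_left, classInner_sub_right, classInner_sub_right, inner_conj hS hχ,
      inner_zsmul_left, inner_zsmul_left, hχo' χ₁ hχ₁S, hχco' χ₁ hχ₁S, hn χ hχ]
    push_cast; ring
  have hb := (proj_bound (hS.virtual χ hχ) hΦg hΦR).1
  have hsq : sqn (R χ) (Φ - oproj S₁ τ₀ n c) = sqn (R χ) Φ := by
    rw [sqn, sqn]
    refine Finset.sum_congr rfl fun α hα => ?_
    rw [classInner_sub_left, hPo α hα, sub_zero]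
  have hbess : ∀ Ψ : G → ℂ, sqn (R χ) Ψ ≤ (classInner Ψ Ψ).re := by
    intro Ψ
    have h1 := classInner_self_nonneg (Ψ - proj (R χ) Ψ)
    rw [sub_proj_norm (cs_ON hS hχ), Complex.sub_re, Complex.ofReal_re] at h1
    linarith
  have hm0 : m = 0 := by
    refine m_zero (hd0 χ₁ hχ₁S) (D := ∑ φ ∈ S₁, ((d φ : ℝ) ^ 2 / (n φ : ℝ))) (a := a) ?_ (N := (n χ : ℝ)) ?_
    · rw [ha] at hineq
      push_cast at hineq
      linarith
    · rw [← hnorm]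
      refine le_trans ?_ (hbess _)
      rw [hsq]; exact hb
  rw [hm0, zero_sub] at hc2
  have hcφ : ∀ φ ∈ S₁, φ ≠ χ₁ → c φ = 0 := by
    intro φ hφ hne
    have := hc1 φ hφ hne
    rw [hm0, zero_mul] at this
    exact (mul_eq_zero.mp this).resolve_right (by exact_mod_cast (hd0 χ₁ hχ₁S).ne')
  have mχ₁ := subset_zspan (↑S₁ : Set (L → ℂ)) hχ₁S
  have hΦχ₁ : classInner Φ (τ₀ χ₁) = -(a * n χ₁) := by rw [hc χ₁ hχ₁S, hc2]; push_cast; ring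
  have hχ₁Φ : classInner (τ₀ χ₁) Φ = -(a * n χ₁) := by rw [← classInner_conj_symm, hΦχ₁]; simp
  have hχ₁χ₁ : classInner (τ₀ χ₁) (τ₀ χ₁) = n χ₁ := by rw [hτ₀.2.2.1 _ mχ₁ _ mχ₁, hn χ₁ (hS₁ hχ₁S)]
  set Y := Φ + (a : ℤ) • τ₀ χ₁ with hYdef
  have hYg : IsGeneralizedCharacter G Y := gen_add hΦg (gen_zs _ (hτ₀.2.2.2 _ mχ₁))
  have hYY : classInner Y Y = n χ := by
    rw [hYdef, classInner_add_left, classInner_add_right, classInner_add_right, inner_zsmul_right, inner_zsmul_left,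
      inner_zsmul_left, inner_zsmul_right, hΦN, hΦχ₁, hχ₁Φ, hχ₁χ₁]
    push_cast; ring
  have hYα : ∀ α ∈ R χ, classInner Y α = classInner Φ α := by
    intro α hα
    rw [hYdef, classInner_add_left, inner_zsmul_left, hRo χ₁ hχ₁S α hα, mul_zero, add_zero]
  have hYR : classInner Y (∑ α ∈ R χ, α) = n χ := by
    rw [classInner_sum_right, Finset.sum_congr rfl hYα, ← classInner_sum_right, hΦR]; simp
  have hYo : ∀ φ ∈ (↑S₁ : Set (L → ℂ)), classInner Y (τ₀ φ) = 0 := by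
    intro φ hφ
    rw [hYdef, classInner_add_left, inner_zsmul_left, hc φ hφ, hτ₀.2.2.1 _ mχ₁ _ (subset_zspan _ hφ)]
    by_cases e : φ = χ₁
    · rw [e, hc2, hn χ₁ (hS₁ hχ₁S)]; push_cast; ring
    · rw [hcφ φ hφ e, ho χ₁ hχ₁S φ hφ (Ne.symm e)]; simp
  obtain ⟨τ₂, k1, k2, k3⟩ := add_one hτ₀ (χ := χ) hχo (cs_ne_zero hS hχ) hYg (by rw [hYY, hn χ hχ]) hYo
  have hTR : τ (χ - conjFun χ) = ∑ α ∈ R χ, α := hS.sum_eq χ hχ
  have hTg : IsGeneralizedCharacter G (τ (χ - conjFun χ)) := hS.isometry.2.2.2 _ (diff_mem hS hχ)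
  have hTT : classInner (τ (χ - conjFun χ)) (τ (χ - conjFun χ)) = 2 * n χ := by
    rw [hS.isometry.2.2.1 _ (diff_mem hS hχ) _ (diff_mem hS hχ), classInner_sub_left, classInner_sub_right, classInner_sub_right,
      inner_conj hS hχ, norm_conj hS hχ, ← classInner_conj_symm χ (conjFun χ), inner_conj hS hχ, hn χ hχ]
    simp; ring
  have hYT : classInner Y (τ (χ - conjFun χ)) = n χ := by rw [hTR, hYR]
  have hTY : classInner (τ (χ - conjFun χ)) Y = n χ := by rw [← classInner_conj_symm, hYT]; simp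
  have hτφT : ∀ φ ∈ S₁, classInner (τ (χ - conjFun χ)) (τ₀ φ) = 0 := by
    intro φ hφ
    rw [← classInner_conj_symm, hTR, classInner_sum_right, Finset.sum_eq_zero (fun α hα => hRo φ hφ α hα), map_zero]
  obtain ⟨τ₃, l1, l2, l3⟩ := add_one (χ := conjFun χ) k1 (by
      intro φ hφ
      rcases Set.mem_insert_iff.mp hφ with rfl | hφ
      · rw [← classInner_conj_symm, inner_conj hS hχ, map_zero]
      · exact hχco φ hφ) (cs_ne_zero hS (hS.conj_mem χ hχ)) (Y := Y - τ (χ - conjFun χ)) (gen_sub hYg hTg) (by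
      rw [classInner_sub_left, classInner_sub_right, classInner_sub_right, hYY, hYT, hTY, hTT, norm_conj hS hχ, hn χ hχ]; ring)
      (by
        intro φ hφ
        rcases Set.mem_insert_iff.mp hφ with rfl | hφ
        · rw [k3, classInner_sub_left, hYY, hTY, sub_self]
        · rw [k2 φ (subset_zspan _ hφ), classInner_sub_left, hYo φ hφ, hτφT φ hφ, sub_zero])
  refine ⟨τ₃, l1, ?_⟩
  intro f hf
  obtain ⟨q, α', hα', rfl⟩ := Submodule.mem_span_insert.mp hf.1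
  obtain ⟨p, α, hα0, rfl⟩ := Submodule.mem_span_insert.mp hα'
  have hα : α ∈ zspan (↑S₁ : Set (L → ℂ)) := hα0
  have hf1 := (mem_zon_one.mp hf).2
  have mχ : χ ∈ zspan (insert χ ↑S₁ : Set (L → ℂ)) := subset_zspan _ (Set.mem_insert _ _)
  have mχ' : χ ∈ zspan (insert (conjFun χ) (insert χ (↑S₁ : Set (L → ℂ)))) :=
    subset_zspan _ (Set.mem_insert_of_mem _ (Set.mem_insert _ _))
  have mcχ : conjFun χ ∈ zspan (insert (conjFun χ) (insert χ (↑S₁ : Set (L → ℂ)))) := subset_zspan _ (Set.mem_insert _ _)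
  have m3 : ((p + q) * a : ℤ) • χ₁ ∈ zspan (↑S₁ : Set (L → ℂ)) := (zsp _).smul_mem _ mχ₁
  have m4 : α + ((p + q) * a : ℤ) • χ₁ ∈ zspanOn (↑S₁ : Set (L → ℂ)) {1}ᶜ := by
    rw [mem_zon_one]
    refine ⟨(zsp _).add_mem hα m3, ?_⟩
    rw [Pi.add_apply, Pi.add_apply, Pi.smul_apply, Pi.smul_apply, conj_one hS hχ, hd χ hχ, ha, zsmul_eq_mul, zsmul_eq_mul] at hf1
    rw [Pi.add_apply, Pi.smul_apply, hd χ₁ (hS₁ hχ₁S), zsmul_eq_mul]
    push_cast at hf1 ⊢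
    linear_combination hf1
  have hsub' : (↑S₁ : Set (L → ℂ)) ⊆ S := hS₁
  have e : q • conjFun χ + (p • χ + α) = ((p + q) • (χ - (a : ℤ) • χ₁) - q • (χ - conjFun χ)) + (α + ((p + q) * a : ℤ) • χ₁) := by
    rw [smul_sub, smul_sub, smul_smul, add_smul]; abel
  have m5 : (p + q) • (χ - (a : ℤ) • χ₁) ∈ zon S {1}ᶜ := (zon _ _).smul_mem _ hmem
  have m6 : q • (χ - conjFun χ) ∈ zon S {1}ᶜ := (zon _ _).smul_mem _ (diff_mem hS hχ)
  have e2 : τ (q • conjFun χ + (p • χ + α)) = ((p + q) • Φ - q • τ (χ - conjFun χ)) + τ₀ (α + ((p + q) * a : ℤ) • χ₁) := by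
    rw [e, hS.isometry.1 _ ((zon _ _).sub_mem m5 m6) _ (zspanOn_mono hsub' _ m4), iso_sub h' m5 m6, hS.isometry.2.1 _ hmem,
      hS.isometry.2.1 _ (diff_mem hS hχ), hagr _ m4]
  have hαi : α ∈ zspan (insert χ (↑S₁ : Set (L → ℂ))) := zspan_mono (Set.subset_insert _ _) hα
  have hpi : p • χ + α ∈ zspan (insert χ (↑S₁ : Set (L → ℂ))) := (zsp _).add_mem ((zsp _).smul_mem p mχ) hαi
  rw [e2, hτ₀.1 _ hα _ m3, hτ₀.2.1 _ mχ₁, l1.1 _ ((zsp _).smul_mem q mcχ) _ (zspan_mono (Set.subset_insert _ _) hpi),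
    l1.2.1 _ mcχ, l3, l2 _ hpi, k1.1 _ ((zsp _).smul_mem p mχ) _ hαi, k1.2.1 _ mχ, k3, k2 α hα, hYdef]
  simp only [smul_sub, smul_add, add_smul, smul_smul, add_mul]
  abel

end ext
section union

variable {S X Y : Set (L → ℂ)} {α σ τ : (L → ℂ) → (G → ℂ)}

theorem union_orth (hirr : ∀ ξ ∈ S, IsIrrCharacter L ξ) (hXS : X ⊆ S) (hYS : Y ⊆ S) (hXY : Disjoint X Y)
    (hX2 : ∃ a ∈ X, ∃ b ∈ X, a ≠ b) (hY2 : ∃ a ∈ Y, ∃ b ∈ Y, a ≠ b)
    (hα : IsLinearIsometryOn (zspanOn S {1}ᶜ) α) (hα1 : ∀ θ ∈ zspanOn S {1}ᶜ, α θ 1 = 0)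
    (hσ : IsLinearIsometryOn (zspan X) σ) (hσα : ∀ θ ∈ zspanOn X {1}ᶜ, σ θ = α θ) (hτ : IsLinearIsometryOn (zspan Y) τ)
    (hτα : ∀ θ ∈ zspanOn Y {1}ᶜ, τ θ = α θ) {χ η : L → ℂ} (hχ : χ ∈ X) (hη : η ∈ Y) : classInner (σ χ) (τ η) = 0 := by
  classical
  have hex : ∀ {T : Set (L → ℂ)} (x : L → ℂ), (∃ a ∈ T, ∃ b ∈ T, a ≠ b) → ∃ y ∈ T, y ≠ x := by
    rintro T x ⟨a, ha, b, hb, hne⟩
    by_cases h : a = x
    · exact ⟨b, hb, fun e => hne (h.trans e.symm)⟩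
    · exact ⟨a, ha, h⟩
  obtain ⟨χ', hχ', hneχ⟩ := hex χ hX2
  obtain ⟨η', hη', hneη⟩ := hex η hY2
  have hσ' : IsLinearIsometryOn ((zsp X : Submodule ℤ (L → ℂ)) : Set (L → ℂ)) σ := hσ
  have hτ' : IsLinearIsometryOn ((zsp Y : Submodule ℤ (L → ℂ)) : Set (L → ℂ)) τ := hτ
  obtain ⟨ε, hε, e1, e2⟩ := signs_uniform (fun ξ hξ => hirr ξ (hXS hξ)) ⟨χ, hχ⟩ hσ (fun θ hθ h1 => by
    rw [hσα θ (mem_zon_one.mpr ⟨hθ, h1⟩)]
    exact hα1 θ (zspanOn_mono hXS _ (mem_zon_one.mpr ⟨hθ, h1⟩)))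
  obtain ⟨δ, hδ, f1, f2⟩ := signs_uniform (fun ξ hξ => hirr ξ (hYS hξ)) ⟨η, hη⟩ hτ (fun θ hθ h1 => by
    rw [hτα θ (mem_zon_one.mpr ⟨hθ, h1⟩)]
    exact hα1 θ (zspanOn_mono hYS _ (mem_zon_one.mpr ⟨hθ, h1⟩)))
  obtain ⟨d, hd0, hd⟩ := isIrr_one_eq (hirr χ (hXS hχ))
  obtain ⟨d', hd0', hd'⟩ := isIrr_one_eq (hirr χ' (hXS hχ'))
  obtain ⟨e, he0, he⟩ := isIrr_one_eq (hirr η (hYS hη))
  obtain ⟨e', he0', he'⟩ := isIrr_one_eq (hirr η' (hYS hη'))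
  have m1 := subset_zspan X hχ
  have m2 := subset_zspan X hχ'
  have m3 := subset_zspan Y hη
  have m4 := subset_zspan Y hη'
  have q1 : (d' : ℤ) • χ - (d : ℤ) • χ' ∈ zspanOn X {1}ᶜ := by
    rw [mem_zon_one]
    refine ⟨(zsp _).sub_mem ((zsp _).smul_mem _ m1) ((zsp _).smul_mem _ m2), ?_⟩
    rw [Pi.sub_apply, Pi.smul_apply, Pi.smul_apply, hd, hd', zsmul_eq_mul, zsmul_eq_mul]; push_cast; ring
  have q2 : (e' : ℤ) • η - (e : ℤ) • η' ∈ zspanOn Y {1}ᶜ := by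
    rw [mem_zon_one]
    refine ⟨(zsp _).sub_mem ((zsp _).smul_mem _ m3) ((zsp _).smul_mem _ m4), ?_⟩
    rw [Pi.sub_apply, Pi.smul_apply, Pi.smul_apply, he, he', zsmul_eq_mul, zsmul_eq_mul]; push_cast; ring
  have o : ∀ x ∈ X, ∀ y ∈ Y, classInner x y = 0 := fun x hx y hy =>
    irr_inner_ne (hirr x (hXS hx)) (hirr y (hYS hy)) (fun h => hXY.le_bot ⟨hx, h ▸ hy⟩)
  have h0 : classInner (σ ((d' : ℤ) • χ - (d : ℤ) • χ')) (τ ((e' : ℤ) • η - (e : ℤ) • η')) = 0 := by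
    rw [hσα _ q1, hτα _ q2, hα.2.2.1 _ (zspanOn_mono hXS _ q1) _ (zspanOn_mono hYS _ q2)]
    simp only [classInner_sub_left, classInner_sub_right, inner_zsmul_left, inner_zsmul_right, o χ hχ η hη, o χ' hχ' η hη,
      o χ hχ η' hη', o χ' hχ' η' hη', mul_zero, sub_zero]
  rw [iso_sub hσ' ((zsp _).smul_mem _ m1) ((zsp _).smul_mem _ m2), iso_sub hτ' ((zsp _).smul_mem _ m3) ((zsp _).smul_mem _ m4),
    hσ.2.1 _ m1, hσ.2.1 _ m2, hτ.2.1 _ m3, hτ.2.1 _ m4] at h0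
  simp only [classInner_sub_left, classInner_sub_right, inner_zsmul_left, inner_zsmul_right] at h0
  -- irreducibles
  have hε2 : ε * ε = 1 := by rcases hε with rfl | rfl <;> norm_num
  have hδ2 : δ * δ = 1 := by rcases hδ with rfl | rfl <;> norm_num
  have hcε : conj ε = ε := by rcases hε with rfl | rfl <;> simp
  have hcδ : conj δ = δ := by rcases hδ with rfl | rfl <;> simp
  have back : ∀ x, σ x = ε • (ε • σ x) := fun x => by rw [smul_smul, hε2, one_smul]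
  have back' : ∀ x, τ x = δ • (δ • τ x) := fun x => by rw [smul_smul, hδ2, one_smul]
  have hval : ∀ x ∈ X, ∀ y ∈ Y, classInner (σ x) (τ y) = ε * δ * classInner (ε • σ x) (δ • τ y) := by
    intro x _ y _
    rw [classInner_smul_left, classInner_smul_right, hcδ]
    linear_combination (-(classInner (σ x) (τ y)) * (ε * ε)) * hδ2 - (classInner (σ x) (τ y)) * hε2
  have h01 : ∀ x ∈ X, ∀ y ∈ Y, classInner (ε • σ x) (δ • τ y) = 0 ∨ (ε • σ x = δ • τ y ∧ classInner (ε • σ x) (δ • τ y) = 1) := by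
    intro x hx y hy
    by_cases h : ε • σ x = δ • τ y
    · right; exact ⟨h, by rw [h, irr_inner_self (f1 y hy)]⟩
    · left; exact irr_inner_ne (e1 x hx) (f1 y hy) h
  by_contra hcon
  rw [hval χ hχ η hη] at hcon
  rcases h01 χ hχ η hη with h1 | ⟨h1, h1'⟩
  · rw [h1, mul_zero] at hcon; exact hcon rfl
  have h2 : classInner (ε • σ χ') (δ • τ η) = 0 := by
    rcases h01 χ' hχ' η hη with h | ⟨h, -⟩
    · exact h
    · exfalso
      have h3 := h.trans h1.symm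
      have h4 : σ χ' = σ χ := by rw [back χ', h3, ← back χ]
      exact hneχ (e2 _ hχ' _ hχ h4)
  have h3 : classInner (ε • σ χ) (δ • τ η') = 0 := by
    rcases h01 χ hχ η' hη' with h | ⟨h, -⟩
    · exact h
    · exfalso
      have h3 := h.symm.trans h1
      have h4 : τ η' = τ η := by rw [back' η', h3, ← back' η]
      exact hneη (f2 _ hη' _ hη h4)
  rw [hval χ hχ η hη, hval χ' hχ' η hη, hval χ hχ η' hη', hval χ' hχ' η' hη', h1', h2, h3] at h0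
  have h5 : (ε * δ) * ((d' * e' : ℂ) + (d * e : ℂ) * classInner (ε • σ χ') (δ • τ η')) = 0 := by
    push_cast at h0
    linear_combination h0
  have h6 : ε * δ ≠ 0 := by
    intro h
    have : (ε * δ) * (ε * δ) = 1 := by rw [mul_mul_mul_comm, hε2, hδ2, one_mul]
    rw [h, mul_zero] at this
    exact zero_ne_one this
  have h7 := (mul_eq_zero.mp h5).resolve_left h6
  rcases h01 χ' hχ' η' hη' with h | ⟨-, h⟩
  · rw [h, mul_zero, add_zero] at h7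
    have : d' * e' = 0 := by exact_mod_cast h7
    rcases Nat.mul_eq_zero.mp this with h | h <;> omega
  · rw [h, mul_one] at h7
    have h8 : d' * e' + d * e = 0 := by exact_mod_cast h7
    have : 0 < d' * e' := Nat.mul_pos hd0' he0'
    omega

theorem union_coherent (hirr : ∀ ξ ∈ S, IsIrrCharacter L ξ) (hXS : X ⊆ S) (hYS : Y ⊆ S) (hXY : Disjoint X Y)
    (hX2 : ∃ a ∈ X, ∃ b ∈ X, a ≠ b)
    (hα : IsLinearIsometryOn (zspanOn S {1}ᶜ) α)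
    (hσ : IsLinearIsometryOn (zspan X) σ) (hσα : ∀ θ ∈ zspanOn X {1}ᶜ, σ θ = α θ) (hτ : IsLinearIsometryOn (zspan Y) τ)
    (hτα : ∀ θ ∈ zspanOn Y {1}ᶜ, τ θ = α θ) (horth : ∀ χ ∈ X, ∀ η ∈ Y, classInner (σ χ) (τ η) = 0)
    {χ₀ η₀ : L → ℂ} (hχ₀ : χ₀ ∈ X) (hη₀ : η₀ ∈ Y) (heq : α (χ₀ 1 • η₀ - η₀ 1 • χ₀) = χ₀ 1 • τ η₀ - η₀ 1 • σ χ₀) :
    IsCoherent (X ∪ Y) {1}ᶜ α := by
  classical
  have hσ' : IsLinearIsometryOn ((zsp X : Submodule ℤ (L → ℂ)) : Set (L → ℂ)) σ := hσ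
  have hτ' : IsLinearIsometryOn ((zsp Y : Submodule ℤ (L → ℂ)) : Set (L → ℂ)) τ := hτ
  have hα' : IsLinearIsometryOn ((zon S {1}ᶜ : Submodule ℤ (L → ℂ)) : Set (L → ℂ)) α := hα
  have hUS : X ∪ Y ⊆ S := Set.union_subset hXS hYS
  have o : ∀ x ∈ zspan X, ∀ y ∈ zspan Y, classInner x y = 0 := by
    intro x hx y hy
    refine zspan_induction (p := fun x => classInner x y = 0) (fun x hx => ?_) (classInner_zero_left _) ?_ ?_ hx
    · refine zspan_induction (p := fun y => classInner x y = 0) (fun y hy => ?_) (classInner_zero_right _) ?_ ?_ hy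
      · exact irr_inner_ne (hirr x (hXS hx)) (hirr y (hYS hy)) (fun h => hXY.le_bot ⟨hx, h ▸ hy⟩)
      · intro a b _ _ ha hb; rw [classInner_add_right, ha, hb, add_zero]
      · intro n a _ ha; rw [inner_zsmul_right, ha, mul_zero]
    · intro a b _ _ ha hb; rw [classInner_add_left, ha, hb, add_zero]
    · intro n a _ ha; rw [inner_zsmul_left, ha, mul_zero]
  have o' : ∀ x ∈ zspan X, ∀ y ∈ zspan Y, classInner (σ x) (τ y) = 0 := by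
    intro x hx y hy
    refine zspan_induction (p := fun x => classInner (σ x) (τ y) = 0) (fun x hx => ?_) ?_ ?_ ?_ hx
    · refine zspan_induction (p := fun y => classInner (σ x) (τ y) = 0) (fun y hy => horth x hx y hy) ?_ ?_ ?_ hy
      · rw [iso_zero hτ', classInner_zero_right]
      · intro a b ha' hb' ha hb; rw [hτ.1 a ha' b hb', classInner_add_right, ha, hb, add_zero]
      · intro n a ha' ha; rw [hτ.2.1 a ha', inner_zsmul_right, ha, mul_zero]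
    · rw [iso_zero hσ', classInner_zero_left]
    · intro a b ha' hb' ha hb; rw [hσ.1 a ha' b hb', classInner_add_left, ha, hb, add_zero]
    · intro n a ha' ha; rw [hσ.2.1 a ha', inner_zsmul_left, ha, mul_zero]
  have oc : ∀ x ∈ zspan X, ∀ y ∈ zspan Y, classInner y x = 0 := fun x hx y hy => by
    rw [← classInner_conj_symm, o x hx y hy, map_zero]
  have oc' : ∀ x ∈ zspan X, ∀ y ∈ zspan Y, classInner (τ y) (σ x) = 0 := fun x hx y hy => by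
    rw [← classInner_conj_symm, o' x hx y hy, map_zero]
  have huniq : ∀ a ∈ zspan X, ∀ b ∈ zspan Y, ∀ a' ∈ zspan X, ∀ b' ∈ zspan Y, a + b = a' + b' → a = a' ∧ b = b' := by
    intro a ha b hb a' ha' b' hb' h
    have h1 : a - a' = b' - b := by
      have := congrArg (fun f => f - a' - b) h
      simpa [add_sub_cancel_left, sub_eq_add_neg, add_comm, add_left_comm, add_assoc] using this
    have h2 : classInner (a - a') (a - a') = 0 := by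
      nth_rewrite 2 [h1]
      exact o _ ((zsp X).sub_mem ha ha') _ ((zsp Y).sub_mem hb' hb)
    have h3 := sub_eq_zero.mp (classInner_self_eq_zero h2)
    exact ⟨h3, by rw [h3] at h; exact add_left_cancel h⟩
  let P : (L → ℂ) → Prop := fun f => ∃ p : (L → ℂ) × (L → ℂ), p.1 ∈ zspan X ∧ p.2 ∈ zspan Y ∧ f = p.1 + p.2
  let τ₂ : (L → ℂ) → (G → ℂ) := fun f => if hf : P f then σ (Classical.choose hf).1 + τ (Classical.choose hf).2 else 0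
  have hτ₂ : ∀ a ∈ zspan X, ∀ b ∈ zspan Y, τ₂ (a + b) = σ a + τ b := by
    intro a ha b hb
    have hP : P (a + b) := ⟨(a, b), ha, hb, rfl⟩
    show (if hf : P (a + b) then σ (Classical.choose hf).1 + τ (Classical.choose hf).2 else 0) = _
    rw [dif_pos hP]
    have hs := Classical.choose_spec hP
    obtain ⟨e1, e2⟩ := huniq a ha b hb _ hs.1 _ hs.2.1 hs.2.2
    rw [← e1, ← e2]
  have hmem : ∀ f ∈ zspan (X ∪ Y), ∃ a ∈ zspan X, ∃ b ∈ zspan Y, f = a + b := by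
    intro f hf
    have h1 : f ∈ zsp X ⊔ zsp Y := by
      have : zsp (X ∪ Y) = zsp X ⊔ zsp Y := Submodule.span_union X Y
      rw [← this]; exact hf
    obtain ⟨a, ha, b, hb, h⟩ := Submodule.mem_sup.mp h1
    exact ⟨a, ha, b, hb, h.symm⟩
  refine ⟨?_, τ₂, ⟨?_, ?_, ?_, ?_⟩, ?_⟩
  · obtain ⟨a, ha, b, hb, hne⟩ := hX2
    obtain ⟨d, hd0, hd⟩ := isIrr_one_eq (hirr a (hXS ha))
    obtain ⟨d', hd0', hd'⟩ := isIrr_one_eq (hirr b (hXS hb))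
    refine ⟨(d' : ℤ) • a - (d : ℤ) • b, ?_, ?_⟩
    · rw [mem_zon_one]
      refine ⟨(zsp _).sub_mem ((zsp _).smul_mem _ (subset_zspan _ (Or.inl ha))) ((zsp _).smul_mem _ (subset_zspan _ (Or.inl hb))), ?_⟩
      rw [Pi.sub_apply, Pi.smul_apply, Pi.smul_apply, hd, hd', zsmul_eq_mul, zsmul_eq_mul]; push_cast; ring
    · intro h
      have h1 := congrArg (fun f => classInner f a) h
      simp only [classInner_sub_left, inner_zsmul_left, classInner_zero_left, irr_inner_self (hirr a (hXS ha)),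
        irr_inner_ne (hirr b (hXS hb)) (hirr a (hXS ha)) (Ne.symm hne), mul_zero, sub_zero, mul_one] at h1
      have : d' = 0 := by exact_mod_cast h1
      omega
  · intro f hf g hg
    obtain ⟨a, ha, b, hb, rfl⟩ := hmem f hf
    obtain ⟨a', ha', b', hb', rfl⟩ := hmem g hg
    have e : a + b + (a' + b') = (a + a') + (b + b') := by abel
    rw [e, hτ₂ _ ((zsp X).add_mem ha ha') _ ((zsp Y).add_mem hb hb'), hτ₂ a ha b hb, hτ₂ a' ha' b' hb', hσ.1 a ha a' ha',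
      hτ.1 b hb b' hb']
    abel
  · intro f hf n
    obtain ⟨a, ha, b, hb, rfl⟩ := hmem f hf
    rw [smul_add, hτ₂ _ ((zsp X).smul_mem n ha) _ ((zsp Y).smul_mem n hb), hτ₂ a ha b hb, hσ.2.1 a ha n, hτ.2.1 b hb n, smul_add]
  · intro f hf g hg
    obtain ⟨a, ha, b, hb, rfl⟩ := hmem f hf
    obtain ⟨a', ha', b', hb', rfl⟩ := hmem g hg
    rw [hτ₂ a ha b hb, hτ₂ a' ha' b' hb']
    simp only [classInner_add_left, classInner_add_right]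
    rw [o' a ha b' hb', oc' a' ha' b hb, o a ha b' hb', oc a' ha' b hb, hσ.2.2.1 a ha a' ha', hτ.2.2.1 b hb b' hb']
  · intro f hf
    obtain ⟨a, ha, b, hb, rfl⟩ := hmem f hf
    rw [hτ₂ a ha b hb]
    exact gen_add (hσ.2.2.2 a ha) (hτ.2.2.2 b hb)
  · intro f hf
    obtain ⟨a, ha, b, hb, rfl⟩ := hmem f hf.1
    rw [hτ₂ a ha b hb]
    obtain ⟨c, hc0, hc⟩ := isIrr_one_eq (hirr χ₀ (hXS hχ₀))
    obtain ⟨e, he0, he⟩ := isIrr_one_eq (hirr η₀ (hYS hη₀))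
    have hdeg : ∀ {T : Set (L → ℂ)} (_ : T ⊆ S) (x : L → ℂ), x ∈ zspan T → ∃ k : ℤ, x 1 = k := by
      intro T hT x hx
      refine zspan_induction (p := fun x => ∃ k : ℤ, x 1 = k) (fun x hx => ?_) ⟨0, by simp⟩ ?_ ?_ hx
      · obtain ⟨k, -, hk⟩ := isIrr_one_eq (hirr x (hT hx)); exact ⟨k, by rw [hk]; simp⟩
      · rintro x y _ _ ⟨k, hk⟩ ⟨l, hl⟩; exact ⟨k + l, by rw [Pi.add_apply, hk, hl]; push_cast; ring⟩
      · rintro n x _ ⟨k, hk⟩; exact ⟨n * k, by rw [Pi.smul_apply, hk, zsmul_eq_mul]; push_cast; ring⟩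
    obtain ⟨k, hk⟩ := hdeg hXS a ha
    have hkb : b 1 = -k := by
      have := (mem_zon_one.mp hf).2
      rw [Pi.add_apply, hk] at this
      linear_combination this
    have mχ := subset_zspan X hχ₀
    have mη := subset_zspan Y hη₀
    have n1 : (c : ℤ) • a - k • χ₀ ∈ zspanOn X {1}ᶜ := by
      rw [mem_zon_one]
      refine ⟨(zsp _).sub_mem ((zsp _).smul_mem _ ha) ((zsp _).smul_mem _ mχ), ?_⟩
      rw [Pi.sub_apply, Pi.smul_apply, Pi.smul_apply, hk, hc, zsmul_eq_mul, zsmul_eq_mul]; push_cast; ring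
    have n2 : (e : ℤ) • b - (-k) • η₀ ∈ zspanOn Y {1}ᶜ := by
      rw [mem_zon_one]
      refine ⟨(zsp _).sub_mem ((zsp _).smul_mem _ hb) ((zsp _).smul_mem _ mη), ?_⟩
      rw [Pi.sub_apply, Pi.smul_apply, Pi.smul_apply, hkb, he, zsmul_eq_mul, zsmul_eq_mul]; push_cast; ring
    have n3 : (c : ℤ) • η₀ - (e : ℤ) • χ₀ ∈ zspanOn S {1}ᶜ := by
      rw [mem_zon_one]
      refine ⟨(zsp _).sub_mem ((zsp _).smul_mem _ (subset_zspan _ (hYS hη₀))) ((zsp _).smul_mem _ (subset_zspan _ (hXS hχ₀))), ?_⟩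
      rw [Pi.sub_apply, Pi.smul_apply, Pi.smul_apply, hc, he, zsmul_eq_mul, zsmul_eq_mul]; push_cast; ring
    have n1' := zspanOn_mono hXS _ n1
    have n2' := zspanOn_mono hYS _ n2
    have heq' : α ((c : ℤ) • η₀ - (e : ℤ) • χ₀) = (c : ℤ) • τ η₀ - (e : ℤ) • σ χ₀ := by
      rw [hc, he] at heq
      have e1 : ((c : ℤ) • η₀ - (e : ℤ) • χ₀ : L → ℂ) = (c : ℂ) • η₀ - (e : ℂ) • χ₀ := by rw [zs, zs]; push_cast; rfl
      have e2 : ((c : ℤ) • τ η₀ - (e : ℤ) • σ χ₀ : G → ℂ) = (c : ℂ) • τ η₀ - (e : ℂ) • σ χ₀ := by rw [zs, zs]; push_cast; rfl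
      rw [e1, e2, heq]
    have hU := zspanOn_mono hUS _ hf
    have hbig : ((c * e : ℕ) : ℤ) • (a + b) = ((e : ℤ) • ((c : ℤ) • a - k • χ₀) + (c : ℤ) • ((e : ℤ) • b - (-k) • η₀)) -
        k • ((c : ℤ) • η₀ - (e : ℤ) • χ₀) := by
      simp only [smul_sub, smul_add, smul_smul, neg_smul, smul_neg, Nat.cast_mul]
      rw [mul_comm (e : ℤ) c, mul_comm k (c : ℤ), mul_comm k (e : ℤ)]
      abel
    have hfin : ((c * e : ℕ) : ℤ) • (σ a + τ b) = ((c * e : ℕ) : ℤ) • α (a + b) := by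
      rw [← hα.2.1 _ hU, hbig, iso_sub hα' ((zon _ _).add_mem ((zon _ _).smul_mem _ n1') ((zon _ _).smul_mem _ n2')) ((zon _ _).smul_mem _ n3),
        hα.1 _ ((zon _ _).smul_mem _ n1') _ ((zon _ _).smul_mem _ n2'), hα.2.1 _ n1', hα.2.1 _ n2', hα.2.1 _ n3, ← hσα _ n1, ← hτα _ n2,
        heq', iso_sub hσ' ((zsp _).smul_mem _ ha) ((zsp _).smul_mem _ mχ), iso_sub hτ' ((zsp _).smul_mem _ hb) ((zsp _).smul_mem _ mη),
        hσ.2.1 _ ha, hσ.2.1 _ mχ, hτ.2.1 _ hb, hτ.2.1 _ mη]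
      simp only [smul_sub, smul_add, smul_smul, neg_smul, smul_neg, Nat.cast_mul]
      rw [mul_comm (e : ℤ) c, mul_comm k (c : ℤ), mul_comm k (e : ℤ)]
      abel
    have hce : ((c * e : ℕ) : ℤ) ≠ 0 := by
      have : 0 < c * e := Nat.mul_pos hc0 he0
      omega
    funext x
    have h1 := congrFun hfin x
    rw [Pi.smul_apply, Pi.smul_apply, zsmul_eq_mul, zsmul_eq_mul] at h1
    exact mul_left_cancel₀ (by exact_mod_cast hce) h1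

end union

end

end Cfsg.Agent.Lib.OddCohC
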