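import Cfsg.Agent.Lib.OddCohC
import Cfsg.Agent.Lib.CharTable
import Cfsg.Agent.Lib.CharKer
import Cfsg.Agent.Lib.CharLin
import Cfsg.Agent.Lib.CharMono
import Cfsg.Agent.Lib.OddA

set_option autoImplicit false

namespace Cfsg.Agent.Lib.OddCohD

open Cfsg Cfsg.Agent.Lib.CharBasic Cfsg.Agent.Lib.CharInd Cfsg.Agent.Lib.CharExc Cfsg.Agent.Lib.OddSgn
open Cfsg.Agent.Lib.OddCoh Cfsg.Agent.Lib.OddCohB Cfsg.Agent.Lib.OddCohC Cfsg.Agent.Lib.CharNormal
open Cfsg.Agent.Lib.OddDadeB (conj_isIrr conj_isChar conj_conj conj_sub conj_add conj_neg)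
open Cfsg.Agent.Lib.CharMono (constituent_ker)
open Cfsg.Agent.Lib.CharKer (quotEquiv)
open Cfsg.Agent.Lib.CharTable (sum_sq_degrees)
open scoped ComplexConjugate

noncomputable section

variable {L G : Type*} [Group L] [Fintype L] [Group G] [Fintype G]

section general

variable {S : Set (L → ℂ)} {τ : (L → ℂ) → (G → ℂ)} {R : (L → ℂ) → Finset (G → ℂ)}

theorem zon_mono {S T : Set (L → ℂ)} (h : T ⊆ S) (A : Set L) : zon T A ≤ zon S A := zspanOn_mono h A

theorem cs_mono (hS : IsCoherenceSystem S τ R) {T : Set (L → ℂ)} (hT : T ⊆ S) (hne : T.Nonempty)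
    (hc : ∀ φ ∈ T, conjFun φ ∈ T) : IsCoherenceSystem T τ R where
  nonempty := hne
  isCharacter χ hχ := hS.isCharacter χ (hT hχ)
  conj_mem := hc
  conj_ne χ hχ := hS.conj_ne χ (hT hχ)
  isometry := iso_mono (zon_mono hT _) hS.isometry
  map_one α hα := hS.map_one α (zspanOn_mono hT _ hα)
  orthogonal χ hχ φ hφ := hS.orthogonal χ (hT hχ) φ (hT hφ)
  orthonormal χ hχ := hS.orthonormal χ (hT hχ)
  virtual χ hχ := hS.virtual χ (hT hχ)
  sum_eq χ hχ := hS.sum_eq χ (hT hχ)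
  disjoint χ hχ φ hφ := hS.disjoint χ (hT hχ) φ (hT hφ)

theorem coherent_mono {S T : Set (L → ℂ)} {A : Set L} (h : IsCoherent S A τ) (hT : T ⊆ S)
    (hne : ∃ α ∈ zspanOn T A, α ≠ 0) : IsCoherent T A τ := by
  obtain ⟨-, τ₁, h1, h2⟩ := h
  exact ⟨hne, τ₁, iso_mono (E := zsp S) (E' := zsp T) (zspan_mono hT) h1, fun α hα => h2 α (zspanOn_mono hT A hα)⟩

theorem coherent_sub (hS : IsCoherenceSystem S τ R) {T S₁ : Set (L → ℂ)} (hT : T ⊆ S₁) (hS₁ : S₁ ⊆ S) (hne : T.Nonempty)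
    (hc : ∀ φ ∈ T, conjFun φ ∈ T) (h : IsCoherent S₁ {1}ᶜ τ) : IsCoherent T {1}ᶜ τ := by
  obtain ⟨χ, hχ⟩ := hne
  refine coherent_mono h hT ⟨χ - conjFun χ, ?_, sub_ne_zero.mpr (hS.conj_ne χ (hS₁ (hT hχ))).symm⟩
  exact diff_mem (cs_mono hS (hT.trans hS₁) ⟨χ, hχ⟩ hc) hχ

theorem grow (hS : IsCoherenceSystem S τ R) {d n : (L → ℂ) → ℕ} (hd : ∀ φ ∈ S, φ 1 = (d φ : ℂ))
    (hn : ∀ φ ∈ S, classInner φ φ = (n φ : ℂ)) {S₀ T : Finset (L → ℂ)} (hS₀ : ↑S₀ ⊆ S) (hT : ↑T ⊆ S)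
    (hS₀c : ∀ φ ∈ S₀, conjFun φ ∈ S₀) (hTc : ∀ φ ∈ T, conjFun φ ∈ T)
    (hcoh : IsCoherent (↑S₀ : Set (L → ℂ)) {1}ᶜ τ) {χ₁ : L → ℂ} (hχ₁ : χ₁ ∈ S₀)
    (hT' : ∀ χ ∈ T, χ ∉ S₀ → d χ₁ ∣ d χ ∧ (2 * d χ * d χ₁ : ℝ) < ∑ φ ∈ S₀, ((d φ : ℝ) ^ 2 / (n φ : ℝ))) :
    IsCoherent (↑S₀ ∪ ↑T : Set (L → ℂ)) {1}ᶜ τ := by
  classical
  have key : ∀ (k : ℕ) (S₁ : Finset (L → ℂ)), S₀ ⊆ S₁ → S₁ ⊆ S₀ ∪ T → (∀ φ ∈ S₁, conjFun φ ∈ S₁) →
      IsCoherent (↑S₁ : Set (L → ℂ)) {1}ᶜ τ → (T \ S₁).card ≤ k → IsCoherent (↑S₀ ∪ ↑T : Set (L → ℂ)) {1}ᶜ τ := by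
    intro k
    induction k with
    | zero =>
      intro S₁ h1 h2 h3 h4 h5
      have h6 : T ⊆ S₁ := by
        have : T \ S₁ = ∅ := Finset.card_eq_zero.mp (Nat.le_zero.mp h5)
        exact Finset.sdiff_eq_empty_iff_subset.mp this
      have h7 : S₁ = S₀ ∪ T := Finset.Subset.antisymm h2 (Finset.union_subset h1 h6)
      rw [← Finset.coe_union, ← h7]; exact h4
    | succ k ih =>
      intro S₁ h1 h2 h3 h4 h5
      by_cases h6 : T ⊆ S₁
      · have h7 : S₁ = S₀ ∪ T := Finset.Subset.antisymm h2 (Finset.union_subset h1 h6)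
        rw [← Finset.coe_union, ← h7]; exact h4
      · obtain ⟨χ, hχT, hχ⟩ := Finset.not_subset.mp h6
        have hχc : conjFun χ ∉ S₁ := by
          intro h
          have := h3 _ h
          rw [conj_conj] at this
          exact hχ this
        have hS₁S : (↑S₁ : Set (L → ℂ)) ⊆ S := by
          intro φ hφ
          rcases Finset.mem_union.mp (h2 hφ) with h | h
          · exact hS₀ h
          · exact hT h
        obtain ⟨g1, g2⟩ := hT' χ hχT (fun h => hχ (h1 h))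
        have hext := extension hS hd hn hS₁S h3 h4 (hT hχT) hχ hχc (h1 hχ₁) g1 (lt_of_lt_of_le g2 (by
          refine Finset.sum_le_sum_of_subset_of_nonneg h1 fun φ _ _ => by positivity))
        have hset : (↑S₁ ∪ {χ, conjFun χ} : Set (L → ℂ)) = ↑(S₁ ∪ {χ, conjFun χ} : Finset (L → ℂ)) := by
          rw [Finset.coe_union, Finset.coe_insert, Finset.coe_singleton]
        rw [hset] at hext
        refine ih (S₁ ∪ {χ, conjFun χ}) (h1.trans Finset.subset_union_left) ?_ ?_ hext ?_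
        · refine Finset.union_subset h2 ?_
          intro φ hφ
          rw [Finset.mem_insert, Finset.mem_singleton] at hφ
          rcases hφ with rfl | rfl
          · exact Finset.mem_union_right _ hχT
          · exact Finset.mem_union_right _ (hTc _ hχT)
        · intro φ hφ
          rw [Finset.mem_union, Finset.mem_insert, Finset.mem_singleton] at hφ ⊢
          rcases hφ with h | rfl | rfl
          · exact Or.inl (h3 _ h)
          · exact Or.inr (Or.inr rfl)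
          · exact Or.inr (Or.inl (conj_conj _))
        · have hlt : (T \ (S₁ ∪ {χ, conjFun χ})).card < (T \ S₁).card := by
            apply Finset.card_lt_card
            refine ⟨Finset.sdiff_subset_sdiff (Finset.Subset.refl _) Finset.subset_union_left, fun h => ?_⟩
            have := h (Finset.mem_sdiff.mpr ⟨hχT, hχ⟩)
            rw [Finset.mem_sdiff] at this
            exact this.2 (Finset.mem_union_right _ (Finset.mem_insert_self _ _))
          omega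
  exact key _ S₀ (Finset.Subset.refl _) Finset.subset_union_left hS₀c hcoh le_rfl

end general

section above

variable {K : Subgroup L}

theorem iia_mono {A B : Subgroup L} (h : B ≤ A) : inducedIrrAbove K A ⊆ inducedIrrAbove K B := by
  rintro χ ⟨θ, h1, h2, h3, h4⟩
  exact ⟨θ, h1, h2, fun a ha => h3 a (h ha), h4⟩

theorem iia_conj {A : Subgroup L} {χ : L → ℂ} (hχ : χ ∈ inducedIrrAbove K A) : conjFun χ ∈ inducedIrrAbove K A := by
  obtain ⟨θ, h1, h2, h3, rfl⟩ := hχ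
  refine ⟨conjFun θ, conj_isIrr h1, ?_, ?_, ?_⟩
  · intro h
    apply h2
    rw [← conj_conj θ, h]
    funext x; simp [conjFun]
  · intro a ha
    simp only [conjFun]
    rw [h3 a ha]
  · funext g
    exact conj_indFun K θ g

theorem iia_finite (A : Subgroup L) : (inducedIrrAbove K A).Finite := by
  classical
  cases nonempty_fintype K
  refine Set.Finite.subset (Set.finite_range (fun θ : IrrCharacter K => indFun K θ.1)) ?_
  rintro χ ⟨θ, h1, -, -, rfl⟩
  exact ⟨⟨θ, h1⟩, rfl⟩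

theorem exists_linear [hK : K.Normal] (hsolv : Group.IsSolvable K) {A : Subgroup L} [A.Normal] (hAK : A < K) :
    ∃ l : K →* ℂˣ, l ≠ 1 ∧ ∀ a : K, (a : L) ∈ A → l a = 1 := by
  classical
  have hne : A.subgroupOf K ≠ ⊤ := by
    intro h
    rw [Subgroup.subgroupOf_eq_top] at h
    exact absurd hAK (not_lt_of_ge h)
  haveI : Nontrivial (K ⧸ A.subgroupOf K) := QuotientGroup.nontrivial_iff.mpr hne
  have hlt := Group.IsSolvable.commutator_lt_top_of_nontrivial (G := K ⧸ A.subgroupOf K)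
  obtain ⟨g, -, hg⟩ := SetLike.exists_of_lt hlt
  obtain ⟨l, hl⟩ := Cfsg.Agent.Lib.CharLin.exists_lin_ne_one hg
  refine ⟨l.comp (QuotientGroup.mk' _), ?_, ?_⟩
  · intro h
    obtain ⟨k, rfl⟩ := QuotientGroup.mk_surjective g
    apply hl
    exact DFunLike.congr_fun h k
  · intro a ha
    rw [MonoidHom.comp_apply, QuotientGroup.mk'_apply, (QuotientGroup.eq_one_iff a).mpr (Subgroup.mem_subgroupOf.mpr ha), map_one]

theorem exists_degree_e [hK : K.Normal] (hsolv : Group.IsSolvable K) {A : Subgroup L} [A.Normal] (hAK : A < K) :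
    ∃ χ ∈ inducedIrrAbove K A, χ 1 = (K.index : ℂ) := by
  obtain ⟨l, h1, h2⟩ := exists_linear hsolv hAK
  refine ⟨indFun K (Cfsg.Agent.Lib.CharLin.linFn l), ⟨_, Cfsg.Agent.Lib.CharLin.linFn_isIrr l, ?_, ?_, rfl⟩, ?_⟩
  · intro h
    apply h1
    apply Cfsg.Agent.Lib.CharLin.linFn_injective
    rw [h, Cfsg.Agent.Lib.CharLin.linFn_one]
  · intro a ha
    rw [Cfsg.Agent.Lib.CharLin.linFn_apply, Cfsg.Agent.Lib.CharLin.linFn_apply_one, h2 a ha, Units.val_one]
  · rw [indFun_one, Cfsg.Agent.Lib.CharLin.linFn_apply_one, mul_one]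

variable [hK : K.Normal]

theorem inner_ind_one {θ : K → ℂ} [Fintype K] (hθ : IsIrrCharacter K θ) (hθ1 : θ ≠ fun _ => 1) :
    classInner (indFun K θ) (indFun K (fun _ => 1)) = 0 := by
  rw [ind_inner_ind]
  have : ∀ x : L, classInner θ (cj x (fun _ : K => (1 : ℂ))) = 0 := by
    intro x
    have e : cj x (fun _ : K => (1 : ℂ)) = fun _ => 1 := by funext k; rw [cj_apply]
    rw [e]
    exact irr_inner_ne hθ isIrr_trivial hθ1
  rw [Finset.sum_congr rfl (fun x _ => this x), Finset.sum_const_zero, mul_zero]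

/-- the kernel of an induced character -/
theorem ind_ker {A : Subgroup L} [A.Normal] {θ : K → ℂ} (h : ∀ a : K, (a : L) ∈ A → θ a = θ 1) {a : K} (ha : (a : L) ∈ A) :
    indFun K θ a = indFun K θ 1 := by
  rw [indFun_normal_mem, indFun_one]
  have hA : A.Normal := inferInstance
  have : ∀ x : L, θ ⟨x * a * x⁻¹, hK.conj_mem a a.2 x⟩ = θ 1 := fun x => h _ (hA.conj_mem _ ha x)
  rw [Finset.sum_congr rfl (fun x _ => this x), Finset.sum_const, Finset.card_univ, nsmul_eq_mul]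
  have h2 : (Nat.card K : ℂ) ≠ 0 := Nat.cast_ne_zero.mpr Nat.card_pos.ne'
  have h3 : (Fintype.card L : ℂ) = Nat.card K * K.index := by
    rw [← Nat.card_eq_fintype_card, ← K.card_mul_index]; push_cast; ring
  rw [h3]; field_simp

theorem fiber_iff [Fintype K] {A : Subgroup L} [A.Normal] {χ : L → ℂ} (hχ : χ ∈ inducedIrrAbove K A) (hχ0 : classInner χ χ ≠ 0)
    {θ : K → ℂ} (hθ : IsIrrCharacter K θ) (h : indFun K θ = χ) : θ ≠ (fun _ => 1) ∧ ∀ a : K, (a : L) ∈ A → θ a = θ 1 := by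
  obtain ⟨θ₀, h1, h2, h3, h4⟩ := hχ
  constructor
  · rintro rfl
    have := inner_ind_one h1 h2
    rw [h, ← h4] at this
    exact hχ0 this
  · intro a ha
    have hcon : classInner (fun k : K => χ k) θ ≠ 0 := by
      rw [← reciprocity' K θ χ (by rw [← h]; exact indFun_classFn K θ), h]
      exact hχ0
    have hchar : IsCharacter K (fun k : K => χ k) := by
      rw [← h]; exact isChar_res K (isChar_ind K (isChar_of_irr hθ))
    refine constituent_ker hchar hθ hcon ?_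
    show χ a = χ 1
    rw [h4]; exact ind_ker h3 ha

theorem fiber_sum [Fintype K] {A : Subgroup L} [A.Normal]
    (horth : ∀ χ ∈ inducedIrrAbove K ⊥, ∀ φ ∈ inducedIrrAbove K ⊥, χ ≠ φ → classInner χ φ = 0)
    {χ : L → ℂ} (hχ : χ ∈ inducedIrrAbove K A) {n : ℕ} (hn : classInner χ χ = n) (hn0 : 0 < n)
    [DecidablePred fun θ : IrrCharacter K => indFun K θ.1 = χ] :
    (K.index : ℝ) * ∑ θ : IrrCharacter K with indFun K θ.1 = χ, (θ.1 1).re ^ 2 = (χ 1).re ^ 2 / n := by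
  have hχ0 : classInner χ χ ≠ 0 := by rw [hn]; exact Nat.cast_ne_zero.mpr hn0.ne'
  have hχS := iia_mono (bot_le : (⊥ : Subgroup L) ≤ A) hχ
  obtain ⟨θ₀, h1, h2, h3, h4⟩ := hχ
  have hcl : IsClassFunction L χ := by rw [h4]; exact indFun_classFn K θ₀
  have hchar : IsCharacter K (fun k : K => χ k) := by
    rw [h4]; exact isChar_res K (isChar_ind K (isChar_of_irr h1))
  have hcoef : ∀ θ : IrrCharacter K, classInner (fun k : K => χ k) θ.1 = if indFun K θ.1 = χ then (n : ℂ) else 0 := by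
    intro θ
    rw [← reciprocity' K θ.1 χ hcl]
    split_ifs with h
    · rw [h, hn]
    · by_cases hθ1 : θ.1 = fun _ => 1
      · rw [hθ1, h4]; exact inner_ind_one h1 h2
      · exact horth _ hχS _ ⟨θ.1, θ.2, hθ1, fun a ha => by
          have : a = 1 := Subtype.ext (by simpa using ha)
          rw [this], rfl⟩ (Ne.symm h)
  have hdeg : χ 1 = ∑ θ : IrrCharacter K with indFun K θ.1 = χ, (n : ℂ) * θ.1 1 := by
    have e := congrFun (char_eq_sum_inner hchar) 1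
    have e' : χ 1 = (∑ ψ : IrrCharacter K, classInner (fun k : K => χ k) ψ.1 • ψ.1) 1 := e
    rw [e', Finset.sum_apply, Finset.sum_filter]
    refine Finset.sum_congr rfl fun θ _ => ?_
    rw [Pi.smul_apply, hcoef θ, smul_eq_mul]
    split_ifs <;> simp
  have hdeg' : (χ 1).re = n * ∑ θ : IrrCharacter K with indFun K θ.1 = χ, (θ.1 1).re := by
    rw [hdeg, Complex.re_sum, Finset.mul_sum]
    refine Finset.sum_congr rfl fun θ _ => ?_
    simp
  have hfib : ∀ θ : IrrCharacter K, indFun K θ.1 = χ → (K.index : ℝ) * (θ.1 1).re = (χ 1).re := by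
    intro θ h
    rw [← h, indFun_one]; simp
  have hnr : (n : ℝ) ≠ 0 := by exact_mod_cast hn0.ne'
  rw [Finset.mul_sum, eq_div_iff hnr, Finset.sum_mul]
  calc ∑ θ : IrrCharacter K with indFun K θ.1 = χ, (K.index : ℝ) * (θ.1 1).re ^ 2 * n
      = ∑ θ : IrrCharacter K with indFun K θ.1 = χ, (χ 1).re * (n * (θ.1 1).re) := by
        refine Finset.sum_congr rfl fun θ hθ => ?_
        rw [← hfib θ (Finset.mem_filter.mp hθ).2]; ring
    _ = (χ 1).re * (n * ∑ θ : IrrCharacter K with indFun K θ.1 = χ, (θ.1 1).re) := by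
        rw [← Finset.mul_sum, ← Finset.mul_sum]
    _ = _ := by rw [← hdeg', sq]

theorem sum_kernel [Fintype K] (A : Subgroup L) [A.Normal]
    [DecidablePred fun θ : IrrCharacter K => θ.1 ≠ (fun _ => 1) ∧ ∀ a : K, (a : L) ∈ A → θ.1 a = θ.1 1] :
    ∑ θ : IrrCharacter K with (θ.1 ≠ (fun _ => 1) ∧ ∀ a : K, (a : L) ∈ A → θ.1 a = θ.1 1), (θ.1 1).re ^ 2 =
      (A.relIndex K : ℝ) - 1 := by
  classical
  haveI : Fintype (K ⧸ A.subgroupOf K) := Fintype.ofFinite _
  have hall : ∑ θ : IrrCharacter K with (∀ a ∈ A.subgroupOf K, θ.1 a = θ.1 1), (θ.1 1).re ^ 2 = (A.relIndex K : ℝ) := by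
    rw [Finset.sum_subtype (p := fun θ : IrrCharacter K => ∀ a ∈ A.subgroupOf K, θ.1 a = θ.1 1) _ (fun θ => by simp)]
    rw [← Fintype.sum_equiv (quotEquiv (A.subgroupOf K)).symm (fun ψ => (ψ.1 1).re ^ 2)
      (fun χ : {χ : IrrCharacter K // ∀ n ∈ A.subgroupOf K, χ.1 n = χ.1 1} => (χ.1.1 1).re ^ 2) (fun ψ => rfl)]
    have hd : ∀ ψ : IrrCharacter (K ⧸ A.subgroupOf K), ∃ d : ℕ, ψ.1 1 = d := fun ψ => by
      obtain ⟨d, -, hd⟩ := isIrr_one_eq ψ.2
      exact ⟨d, hd⟩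
    choose d hd using hd
    have h1 := sum_sq_degrees d hd
    have h2 : Nat.card (K ⧸ A.subgroupOf K) = A.relIndex K := rfl
    rw [h2] at h1
    rw [← h1]
    push_cast
    refine Finset.sum_congr rfl fun ψ _ => ?_
    rw [hd ψ]; simp
  have h1 : (Finset.univ.filter fun θ : IrrCharacter K => (∀ a ∈ A.subgroupOf K, θ.1 a = θ.1 1)) =
      insert ⟨fun _ => 1, isIrr_trivial⟩ (Finset.univ.filter fun θ : IrrCharacter K => (θ.1 ≠ (fun _ => 1) ∧ ∀ a : K, (a : L) ∈ A → θ.1 a = θ.1 1)) := by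
    ext θ
    simp only [Finset.mem_filter, Finset.mem_univ, true_and, Finset.mem_insert]
    constructor
    · intro h
      by_cases hθ : θ.1 = fun _ => 1
      · left; exact Subtype.ext hθ
      · right; exact ⟨hθ, fun a ha => h a (Subgroup.mem_subgroupOf.mpr ha)⟩
    · rintro (rfl | h)
      · intro a _; rfl
      · intro a ha; exact h.2 a (Subgroup.mem_subgroupOf.mp ha)
  rw [h1, Finset.sum_insert (by simp)] at hall
  have h2 : (((⟨fun _ => 1, isIrr_trivial⟩ : IrrCharacter K).1 1).re : ℝ) ^ 2 = 1 := by simp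
  rw [h2] at hall
  linarith

/-- the sum of `χ(1)²/‖χ‖²` over `S(A)` -/
theorem sum_formula [Fintype K] (A : Subgroup L) [A.Normal]
    (horth : ∀ χ ∈ inducedIrrAbove K ⊥, ∀ φ ∈ inducedIrrAbove K ⊥, χ ≠ φ → classInner χ φ = 0)
    {d n : (L → ℂ) → ℕ} (hd : ∀ φ ∈ inducedIrrAbove K ⊥, φ 1 = (d φ : ℂ))
    (hn : ∀ φ ∈ inducedIrrAbove K ⊥, classInner φ φ = (n φ : ℂ)) (hn0 : ∀ φ ∈ inducedIrrAbove K ⊥, 0 < n φ)
    {T : Finset (L → ℂ)} (hT : (↑T : Set (L → ℂ)) = inducedIrrAbove K A) :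
    ∑ φ ∈ T, ((d φ : ℝ) ^ 2 / (n φ : ℝ)) = K.index * ((A.relIndex K : ℝ) - 1) := by
  classical
  have hTA : ∀ {χ}, χ ∈ T → χ ∈ inducedIrrAbove K A := fun {χ} h => by rw [← hT]; exact h
  have hTS : ∀ {χ}, χ ∈ T → χ ∈ inducedIrrAbove K ⊥ := fun {χ} h => iia_mono bot_le (hTA h)
  rw [← sum_kernel A, Finset.mul_sum]
  rw [← Finset.sum_fiberwise_of_maps_to (s := Finset.univ.filter fun θ : IrrCharacter K => (θ.1 ≠ (fun _ => 1) ∧ ∀ a : K, (a : L) ∈ A → θ.1 a = θ.1 1))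
    (t := T) (g := fun θ => indFun K θ.1)]
  · refine Finset.sum_congr rfl fun χ hχ => ?_
    have hχ0 : classInner χ χ ≠ 0 := by rw [hn χ (hTS hχ)]; exact Nat.cast_ne_zero.mpr (hn0 χ (hTS hχ)).ne'
    rw [← Finset.mul_sum, Finset.filter_filter]
    have e : (Finset.univ.filter fun θ : IrrCharacter K => (θ.1 ≠ (fun _ => 1) ∧ ∀ a : K, (a : L) ∈ A → θ.1 a = θ.1 1) ∧ indFun K θ.1 = χ) =
        Finset.univ.filter fun θ : IrrCharacter K => indFun K θ.1 = χ := by
      ext θ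
      simp only [Finset.mem_filter, Finset.mem_univ, true_and, and_iff_right_iff_imp]
      exact fun h => fiber_iff (hTA hχ) hχ0 θ.2 h
    rw [e, fiber_sum horth (hTA hχ) (hn χ (hTS hχ)) (hn0 χ (hTS hχ)), hd χ (hTS hχ)]
    simp
  · intro θ hθ
    have h := (Finset.mem_filter.mp hθ).2
    have : indFun K θ.1 ∈ (↑T : Set (L → ℂ)) := by
      rw [hT]; exact ⟨θ.1, θ.2, h.1, h.2, rfl⟩
    exact this

end above
section descend

variable {K : Subgroup L} [hK : K.Normal] {τ : (L → ℂ) → (G → ℂ)} {R : (L → ℂ) → Finset (G → ℂ)}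

theorem deg_sq_le {B C D : Subgroup L} (hBD : B ≤ D) (hDC : D ≤ C) (hCK : C ≤ K)
    (hcent : ∀ x ∈ D, ∀ y ∈ C, x * y * x⁻¹ * y⁻¹ ∈ B) {χ : L → ℂ} (hχ : χ ∈ inducedIrrAbove K B) {d : ℕ} (hd : χ 1 = d) :
    d ^ 2 ≤ C.index ^ 2 * D.relIndex C := by
  obtain ⟨θ, h1, -, h3, rfl⟩ := hχ
  obtain ⟨m, hm0, hm⟩ := isIrr_one_eq h1
  rw [indFun_one, hm] at hd
  have hd' : d = K.index * m := by exact_mod_cast hd.symm
  have hb := Cfsg.Agent.Lib.OddA.degree_bound h1 (B := B.subgroupOf K) (C := C.subgroupOf K) (D := D.subgroupOf K)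
    (Subgroup.subgroupOf_mono K hBD) (Subgroup.subgroupOf_mono K hDC)
    (fun x hx y hy => Subgroup.mem_subgroupOf.mpr (hcent x (Subgroup.mem_subgroupOf.mp hx) y (Subgroup.mem_subgroupOf.mp hy)))
    (fun b hb => h3 b (Subgroup.mem_subgroupOf.mp hb))
  have hc1 : Nat.card (C.subgroupOf K) = Nat.card C := Nat.card_congr (Subgroup.subgroupOfEquivOfLe hCK).toEquiv
  have hc2 : Nat.card (D.subgroupOf K) = Nat.card D := Nat.card_congr (Subgroup.subgroupOfEquivOfLe (hDC.trans hCK)).toEquiv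
  rw [hm, hc1, hc2, Complex.norm_natCast] at hb
  have hb' : m ^ 2 * Nat.card C * Nat.card D ≤ Nat.card K ^ 2 := by exact_mod_cast hb
  have e1 : Nat.card K * K.index = Nat.card L := K.card_mul_index
  have e2 : Nat.card C * C.index = Nat.card L := C.card_mul_index
  have e3 : D.relIndex C * Nat.card D = Nat.card C := Cfsg.Agent.Lib.CharClifford.relIndex_mul_card' D C hDC
  have p1 : 0 < Nat.card C * Nat.card D := Nat.mul_pos Nat.card_pos Nat.card_pos
  refine Nat.le_of_mul_le_mul_right ?_ p1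
  calc d ^ 2 * (Nat.card C * Nat.card D) = K.index ^ 2 * (m ^ 2 * Nat.card C * Nat.card D) := by rw [hd']; ring
    _ ≤ K.index ^ 2 * Nat.card K ^ 2 := Nat.mul_le_mul_left _ hb'
    _ = (Nat.card C * C.index) ^ 2 := by rw [e2, ← e1]; ring
    _ = C.index ^ 2 * D.relIndex C * (Nat.card C * Nat.card D) := by
      have : (Nat.card C * C.index) ^ 2 = Nat.card C * Nat.card C * C.index ^ 2 := by ring
      rw [this]
      nth_rewrite 2 [← e3]; ring

theorem index_dvd_deg {A : Subgroup L} {χ : L → ℂ} (hχ : χ ∈ inducedIrrAbove K A) {d : ℕ} (hd : χ 1 = d) : K.index ∣ d := by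
  obtain ⟨θ, h1, -, h3, rfl⟩ := hχ
  obtain ⟨m, hm0, hm⟩ := isIrr_one_eq h1
  rw [indFun_one, hm] at hd
  exact ⟨m, by exact_mod_cast hd.symm⟩

theorem descend (hsolv : Group.IsSolvable K) (hS : IsCoherenceSystem (inducedIrrAbove K ⊥) τ R)
    {A B C D : Subgroup L} [A.Normal] [B.Normal]
    (hAK : A < K) (hBK : B < K) (hBD : B ≤ D) (hDC : D ≤ C) (hCK : C ≤ K)
    (hcent : ∀ x ∈ D, ∀ y ∈ C, x * y * x⁻¹ * y⁻¹ ∈ B) (hA : IsCoherent (inducedIrrAbove K A) {1}ᶜ τ)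
    (hlt : 4 * C.index ^ 2 * D.relIndex C < (A.relIndex K - 1) ^ 2) : IsCoherent (inducedIrrAbove K B) {1}ᶜ τ := by
  classical
  cases nonempty_fintype K
  have h1 : ∀ φ ∈ inducedIrrAbove K ⊥, ∃ d : ℕ, 0 < d ∧ φ 1 = d := fun φ hφ => cs_deg hS hφ
  have h2 : ∀ φ ∈ inducedIrrAbove K ⊥, ∃ n : ℕ, 0 < n ∧ classInner φ φ = n := fun φ hφ => cs_norm hS hφ
  choose! d hd using h1
  choose! n hn using h2
  obtain ⟨χ₁, hχ₁, hχ₁d⟩ := exists_degree_e hsolv hAK
  have hdχ₁ : d χ₁ = K.index := by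
    have := (hd χ₁ (iia_mono bot_le hχ₁)).2
    rw [hχ₁d] at this
    exact_mod_cast this.symm
  have hcA : (↑(iia_finite (K := K) A).toFinset : Set (L → ℂ)) = inducedIrrAbove K A := (iia_finite A).coe_toFinset
  have hcB : (↑(iia_finite (K := K) B).toFinset : Set (L → ℂ)) = inducedIrrAbove K B := (iia_finite B).coe_toFinset
  have hpos : 0 < A.relIndex K := by
    have := Cfsg.Agent.Lib.CharClifford.relIndex_mul_card' A K hAK.le
    rcases Nat.eq_zero_or_pos (A.relIndex K) with h | h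
    · rw [h, zero_mul] at this
      exact absurd this.symm Nat.card_pos.ne'
    · exact h
  have hg := grow hS (fun φ hφ => (hd φ hφ).2) (fun φ hφ => (hn φ hφ).2) (S₀ := (iia_finite (K := K) A).toFinset)
    (T := (iia_finite (K := K) B).toFinset) (by rw [hcA]; exact iia_mono bot_le) (by rw [hcB]; exact iia_mono bot_le)
    (fun φ hφ => by rw [Set.Finite.mem_toFinset] at hφ ⊢; exact iia_conj hφ)
    (fun φ hφ => by rw [Set.Finite.mem_toFinset] at hφ ⊢; exact iia_conj hφ) (by rw [hcA]; exact hA) (χ₁ := χ₁)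
    (by rw [Set.Finite.mem_toFinset]; exact hχ₁) (by
      intro χ hχ _
      rw [Set.Finite.mem_toFinset] at hχ
      have hdχ := (hd χ (iia_mono bot_le hχ)).2
      refine ⟨by rw [hdχ₁]; exact index_dvd_deg hχ hdχ, ?_⟩
      rw [sum_formula A (fun χ hχ φ hφ => hS.orthogonal χ hχ φ hφ) (fun φ hφ => (hd φ hφ).2) (fun φ hφ => (hn φ hφ).2)
        (fun φ hφ => (hn φ hφ).1) hcA, hdχ₁]
      have hb := deg_sq_le hBD hDC hCK hcent hχ hdχ
      have h3 : (2 * d χ) ^ 2 < (A.relIndex K - 1) ^ 2 := by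
        calc (2 * d χ) ^ 2 = 4 * d χ ^ 2 := by ring
          _ ≤ 4 * (C.index ^ 2 * D.relIndex C) := Nat.mul_le_mul_left _ hb
          _ = 4 * C.index ^ 2 * D.relIndex C := by ring
          _ < _ := hlt
      have h4 : 2 * d χ < A.relIndex K - 1 := lt_of_pow_lt_pow_left₀ 2 (Nat.zero_le _) h3
      have h5 : (2 * d χ : ℝ) < (A.relIndex K : ℝ) - 1 := by
        have : ((2 * d χ : ℕ) : ℝ) < ((A.relIndex K - 1 : ℕ) : ℝ) := by exact_mod_cast h4
        rw [Nat.cast_sub (by omega)] at this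
        push_cast at this
        exact this
      have h6 : (0 : ℝ) < K.index := by
        have : K.index ≠ 0 := Subgroup.FiniteIndex.index_ne_zero
        positivity
      nlinarith)
  rw [hcA, hcB] at hg
  obtain ⟨χ₂, hχ₂, -⟩ := exists_degree_e hsolv hBK
  exact coherent_sub hS Set.subset_union_right (Set.union_subset (iia_mono bot_le) (iia_mono bot_le)) ⟨χ₂, hχ₂⟩
    (fun φ hφ => iia_conj hφ) hg

end descend

end

end Cfsg.Agent.Lib.OddCohD
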