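import Cfsg.Agent.Lib.OddCohD
import Cfsg.Agent.Lib.NilpB

set_option autoImplicit false

namespace Cfsg.Agent.Lib.OddCohE

open Cfsg Cfsg.Agent.Lib.CharBasic Cfsg.Agent.Lib.CharInd Cfsg.Agent.Lib.CharExc Cfsg.Agent.Lib.OddSgn
open Cfsg.Agent.Lib.OddCoh Cfsg.Agent.Lib.OddCohB Cfsg.Agent.Lib.OddCohC Cfsg.Agent.Lib.OddCohD Cfsg.Agent.Lib.CharNormal
open scoped ComplexConjugate

noncomputable section

section grp

variable {L : Type*} [Group L]

theorem le_bot_of_le_commutator {Q : Type*} [Group Q] (hnil : Group.IsNilpotent Q) (A : Subgroup Q) (h : A ≤ ⁅A, (⊤ : Subgroup Q)⁆) : A = ⊥ := by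
  have hn : ∀ n : ℕ, A ≤ (⊤ : Subgroup Q).lowerCentralSeries n := by
    intro n
    induction n with
    | zero => simp
    | succ n ih =>
      refine h.trans ?_
      exact Subgroup.commutator_mono ih le_rfl
  obtain ⟨n, hn'⟩ := Subgroup.nilpotent_iff_lowerCentralSeries.mp hnil
  have := hn n
  rw [hn'] at this
  exact le_bot_iff.mp this

theorem nil_step {M A H : Subgroup L} (hMA : M ≤ A) (hAH : A ≤ H) [(M.subgroupOf H).Normal]
    (hnil : Group.IsNilpotent (↥H ⧸ M.subgroupOf H)) (h : A ≤ ⁅A, H⁆ ⊔ M) : A ≤ M := by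
  let f : H →* H ⧸ M.subgroupOf H := QuotientGroup.mk' (M.subgroupOf H)
  let Ab : Subgroup (H ⧸ M.subgroupOf H) := (A.subgroupOf H).map f
  let W : Subgroup L := (⁅Ab, (⊤ : Subgroup (H ⧸ M.subgroupOf H))⁆.comap f).map H.subtype
  have hW : ⁅A, H⁆ ⊔ M ≤ W := by
    rw [sup_le_iff, Subgroup.commutator_le]
    constructor
    · intro a ha b hb
      let a' : H := ⟨a, hAH ha⟩
      let b' : H := ⟨b, hb⟩
      refine ⟨a' * b' * a'⁻¹ * b'⁻¹, ?_, rfl⟩
      show f (a' * b' * a'⁻¹ * b'⁻¹) ∈ ⁅Ab, (⊤ : Subgroup (H ⧸ M.subgroupOf H))⁆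
      rw [map_mul, map_mul, map_mul, map_inv, map_inv]
      exact Subgroup.commutator_mem_commutator ⟨⟨a, hAH ha⟩, Subgroup.mem_subgroupOf.mpr ha, rfl⟩ (Subgroup.mem_top _)
    · intro m hm
      refine ⟨⟨m, hAH (hMA hm)⟩, ?_, rfl⟩
      show f ⟨m, hAH (hMA hm)⟩ ∈ ⁅Ab, (⊤ : Subgroup (H ⧸ M.subgroupOf H))⁆
      have : f ⟨m, hAH (hMA hm)⟩ = 1 := (QuotientGroup.eq_one_iff _).mpr (Subgroup.mem_subgroupOf.mpr hm)
      rw [this]; exact Subgroup.one_mem _
  have hA : Ab ≤ ⁅Ab, (⊤ : Subgroup (H ⧸ M.subgroupOf H))⁆ := by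
    rintro _ ⟨a, ha, rfl⟩
    obtain ⟨b, hb, hba⟩ := hW (h (Subgroup.mem_subgroupOf.mp ha))
    have : b = a := Subtype.ext hba
    rw [this] at hb
    exact hb
  have hbot := le_bot_of_le_commutator hnil Ab hA
  intro a ha
  have h1 : f ⟨a, hAH ha⟩ ∈ Ab := ⟨⟨a, hAH ha⟩, Subgroup.mem_subgroupOf.mpr ha, rfl⟩
  rw [hbot, Subgroup.mem_bot] at h1
  exact Subgroup.mem_subgroupOf.mp ((QuotientGroup.eq_one_iff _).mp h1)

theorem index_dvd_card_sub_one [Finite L] {K H₁ N : Subgroup L} [H₁.Normal] [N.Normal] (hHN : H₁ ≤ N) (hNK : N ≤ K)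
    (hab : ∀ x ∈ K, ∀ k ∈ K, x * k * x⁻¹ * k⁻¹ ∈ H₁)
    (hfrob : ∀ k ∈ K, k ∉ H₁ → ∀ x : L, x * k * x⁻¹ * k⁻¹ ∈ H₁ → x ∈ K) : K.index ∣ H₁.relIndex N - 1 := by
  classical
  let π : L →* L ⧸ H₁ := QuotientGroup.mk' H₁
  let X : Type _ := {q : L ⧸ H₁ // q ∈ N.map π ∧ q ≠ 1}
  have hNn : (N.map π).Normal := Subgroup.Normal.map inferInstance π (QuotientGroup.mk'_surjective H₁)
  letI act : MulAction L X :=
    { smul := fun x q => ⟨π x * q.1 * (π x)⁻¹, hNn.conj_mem _ q.2.1 _, by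
        intro h
        apply q.2.2
        have := congrArg (fun s => (π x)⁻¹ * s * π x) h
        simpa [mul_assoc] using this⟩
      one_smul := fun q => Subtype.ext (by show π 1 * q.1 * (π 1)⁻¹ = q.1; rw [map_one, one_mul, inv_one, mul_one])
      mul_smul := fun x y q => Subtype.ext (by
        show π (x * y) * q.1 * (π (x * y))⁻¹ = π x * (π y * q.1 * (π y)⁻¹) * (π x)⁻¹
        rw [map_mul]; group) }
  have hsmul : ∀ (x : L) (q : X), (x • q : X).1 = π x * q.1 * (π x)⁻¹ := fun _ _ => rfl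
  have hstab : ∀ q : X, MulAction.stabilizer L q = K := by
    rintro ⟨q, ⟨n, hn, rfl⟩, hq⟩
    have hnH : n ∉ H₁ := fun h => hq ((QuotientGroup.eq_one_iff n).mpr h)
    ext x
    rw [MulAction.mem_stabilizer_iff]
    have hiff : (x • (⟨π n, ⟨n, hn, rfl⟩, hq⟩ : X) = ⟨π n, ⟨n, hn, rfl⟩, hq⟩) ↔ x * n * x⁻¹ * n⁻¹ ∈ H₁ := by
      rw [Subtype.ext_iff, hsmul]
      show π x * π n * (π x)⁻¹ = π n ↔ _
      rw [← QuotientGroup.eq_one_iff]
      have e : ((x * n * x⁻¹ * n⁻¹ : L) : L ⧸ H₁) = π x * π n * (π x)⁻¹ * (π n)⁻¹ := rfl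
      rw [e, mul_inv_eq_one]
    rw [hiff]
    exact ⟨fun h => hfrob n (hNK hn) hnH x h, fun h => hab x h n (hNK hn)⟩
  have hcardX : Nat.card X = H₁.relIndex N - 1 := by
    have h1 : Nat.card (N.map π) = H₁.relIndex N := by
      rw [← Subgroup.relIndex_bot_left, ← Subgroup.map_bot π]
      have := Subgroup.relIndex_map_map (H := H₁) (K := N) (f := π)
      rw [QuotientGroup.ker_mk', sup_idem, sup_eq_left.mpr hHN, QuotientGroup.map_mk'_self] at this
      rw [Subgroup.map_bot, this]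
    rw [← h1]
    let e : X ≃ {q : N.map π // q ≠ 1} :=
      { toFun := fun q => ⟨⟨q.1, q.2.1⟩, fun h => q.2.2 (congrArg Subtype.val h)⟩
        invFun := fun q => ⟨q.1.1, q.1.2, fun h => q.2 (Subtype.ext h)⟩
        left_inv := fun _ => rfl
        right_inv := fun _ => rfl }
    rw [Nat.card_congr e]
    haveI := Fintype.ofFinite (N.map π)
    rw [Nat.card_eq_fintype_card, Nat.card_eq_fintype_card, Fintype.card_subtype_compl, Fintype.card_subtype_eq]
  haveI : Finite X := Subtype.finite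
  haveI : Fintype (Quotient (MulAction.orbitRel L X)) := Fintype.ofFinite _
  rw [← hcardX, Nat.card_congr (MulAction.selfEquivSigmaOrbitsQuotientStabilizer L X), Nat.card_sigma]
  refine Finset.dvd_sum fun ω _ => ?_
  rw [hstab]
  exact dvd_rfl

end grp
section descend2

variable {L G : Type*} [Group L] [Fintype L] [Group G] [Fintype G]
variable {K : Subgroup L} [hK : K.Normal] {τ : (L → ℂ) → (G → ℂ)} {R : (L → ℂ) → Finset (G → ℂ)}

theorem arith_ineq {e k a : ℕ} (hk : 0 < k) (ha : 4 * e ^ 2 + 1 < a) : 4 * (e * k) ^ 2 * a < (a * k - 1) ^ 2 := by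
  obtain ⟨c, hc⟩ : ∃ c, a * k = c + 1 := ⟨a * k - 1, by have := Nat.mul_pos (by omega : 0 < a) hk; omega⟩
  rw [hc, Nat.add_sub_cancel]
  have h1 : 4 * e ^ 2 + 2 ≤ a := ha
  have h2 : (4 * e ^ 2 + 2) * (k ^ 2 * a) ≤ a * (k ^ 2 * a) := Nat.mul_le_mul_right _ h1
  have h3 : a * (k ^ 2 * a) = (c + 1) ^ 2 := by rw [← hc]; ring
  have h4 : c + 1 ≤ k ^ 2 * a := by
    rw [← hc]; nlinarith [Nat.mul_le_mul_left a (Nat.mul_le_mul_left k hk)]
  nlinarith

theorem descend_nil (hsolv : Group.IsSolvable K) (hS : IsCoherenceSystem (inducedIrrAbove K ⊥) τ R)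
    {M H₁ H : Subgroup L} [M.Normal] [H₁.Normal] [H.Normal] (hMH₁ : M ≤ H₁) (hH₁H : H₁ ≤ H) (hHK : H ≤ K)
    [(M.subgroupOf H).Normal] (hnil : Group.IsNilpotent (↥H ⧸ M.subgroupOf H))
    (hcoh : IsCoherent (inducedIrrAbove K H₁) {1}ᶜ τ) (hbig : 4 * K.index ^ 2 + 1 < H₁.relIndex H) :
    IsCoherent (inducedIrrAbove K M) {1}ᶜ τ := by
  classical
  have key : ∀ (k : ℕ) (A : Subgroup L), A.Normal → M ≤ A → A ≤ H₁ → Nat.card A ≤ k → IsCoherent (inducedIrrAbove K A) {1}ᶜ τ →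
      IsCoherent (inducedIrrAbove K M) {1}ᶜ τ := by
    intro k
    induction k with
    | zero => intro A _ _ _ h; exact absurd h (Nat.not_le.mpr Nat.card_pos)
    | succ k ih =>
      intro A hAn hMA hAH₁ hcard hA
      have hrel : ∀ X : Subgroup L, X ≤ H₁ → 4 * K.index ^ 2 + 1 < X.relIndex H := by
        intro X hX
        have h1 := Subgroup.relIndex_mul_relIndex X H₁ H hX hH₁H
        have h2 : 0 < X.relIndex H₁ := by
          rcases Nat.eq_zero_or_pos (X.relIndex H₁) with h | h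
          · have := Cfsg.Agent.Lib.CharClifford.relIndex_mul_card' X H₁ hX
            rw [h, zero_mul] at this
            exact absurd this.symm Nat.card_pos.ne'
          · exact h
        nlinarith
      have hlt : ∀ X : Subgroup L, X ≤ H₁ → X < K := by
        intro X hX
        refine lt_of_le_of_ne ((hX.trans hH₁H).trans hHK) ?_
        rintro rfl
        have h1 := hrel X hX
        rw [Subgroup.relIndex_eq_one.mpr hHK] at h1
        omega
      by_cases hAM : A ≤ M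
      · have : A = M := le_antisymm hAM hMA
        rw [← this]; exact hA
      · obtain ⟨B, hB⟩ : ∃ B : Subgroup L, B = ⁅A, H⁆ ⊔ M := ⟨_, rfl⟩
        have hAH := hAH₁.trans hH₁H
        have hBA : B ≤ A := by rw [hB]; exact sup_le (Subgroup.commutator_le_left A H) hMA
        haveI hBn : B.Normal := by rw [hB]; infer_instance
        have hne : ¬ A ≤ B := by
          intro h
          apply hAM
          rw [hB] at h
          exact nil_step hMA hAH hnil h
        have hBlt : Nat.card B < Nat.card A := Cfsg.Agent.Lib.Basic.card_lt_card_of_lt (lt_of_le_not_ge hBA hne)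
        have hMB : M ≤ B := by rw [hB]; exact le_sup_right
        refine ih B hBn hMB (hBA.trans hAH₁) (by omega) ?_
        refine descend hsolv hS (A := A) (B := B) (C := H) (D := A) (hlt A hAH₁) (hlt B (hBA.trans hAH₁)) hBA hAH hHK ?_ hA ?_
        · intro x hx y hy
          rw [hB]
          exact (le_sup_left : ⁅A, H⁆ ≤ ⁅A, H⁆ ⊔ M) (Subgroup.commutator_mem_commutator hx hy)
        · have e1 : H.index = K.index * H.relIndex K := by
            rw [mul_comm]; exact (Subgroup.relIndex_mul_index hHK).symm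
          have e2 : A.relIndex K = A.relIndex H * H.relIndex K := (Subgroup.relIndex_mul_relIndex A H K hAH hHK).symm
          rw [e1, e2]
          refine arith_ineq ?_ (hrel A hAH₁)
          rcases Nat.eq_zero_or_pos (H.relIndex K) with h | h
          · have := Cfsg.Agent.Lib.CharClifford.relIndex_mul_card' H K hHK
            rw [h, zero_mul] at this
            exact absurd this.symm Nat.card_pos.ne'
          · exact h
  exact key _ H₁ inferInstance hMH₁ le_rfl le_rfl hcoh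

end descend2
section grp2

theorem comm_of_prime_index {Q : Type*} [Group Q] [Finite Q] (hnil : Group.IsNilpotent Q) (h : (commutator Q).index.Prime) :
    ∀ a b : Q, a * b = b * a := by
  haveI := hnil
  have hne : commutator Q ≠ ⊤ := by
    intro h'
    rw [h', Subgroup.index_top] at h
    exact Nat.not_prime_one h
  obtain ⟨x, -, hx⟩ := SetLike.exists_of_lt (lt_top_iff_ne_top.mpr hne)
  have h1 : Subgroup.zpowers x ⊔ commutator Q = ⊤ := by
    have hd : (Subgroup.zpowers x ⊔ commutator Q).index ∣ (commutator Q).index := Subgroup.index_dvd_of_le le_sup_right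
    rcases (Nat.dvd_prime h).mp hd with h2 | h2
    · exact Subgroup.index_eq_one.mp h2
    · exfalso
      have h3 : commutator Q = Subgroup.zpowers x ⊔ commutator Q := by
        refine Subgroup.eq_of_le_of_card_ge le_sup_right ?_
        have e1 := (commutator Q).card_mul_index
        have e2 := (Subgroup.zpowers x ⊔ commutator Q).card_mul_index
        rw [h2] at e2
        have := Nat.eq_of_mul_eq_mul_right h.pos (e1.trans e2.symm)
        rw [this]
      apply hx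
      rw [h3]
      exact (le_sup_left : Subgroup.zpowers x ≤ _) (Subgroup.mem_zpowers x)
  have h2 : Subgroup.zpowers x ⊔ frattini Q = ⊤ :=
    top_unique (h1.symm.le.trans (sup_le_sup_left Cfsg.Agent.Lib.NilpB.commutator_le_frattini_of_nilpotent _))
  have h3 := frattini_nongenerating h2
  intro a b
  have ha : a ∈ Subgroup.zpowers x := by rw [h3]; trivial
  have hb : b ∈ Subgroup.zpowers x := by rw [h3]; trivial
  obtain ⟨i, rfl⟩ := ha
  obtain ⟨j, rfl⟩ := hb
  exact ((Commute.refl x).zpow_zpow i j).eq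

theorem prime_dvd_index_commutator {Q : Type*} [Group Q] [Finite Q] (hnil : Group.IsNilpotent Q) {p : ℕ} (hp : p.Prime)
    (h : p ∣ Nat.card Q) : p ∣ (commutator Q).index := by
  haveI := hnil
  exact (Cfsg.Agent.Lib.Nilp.prime_dvd_index_frattini hp h).trans
    (Subgroup.index_dvd_of_le Cfsg.Agent.Lib.NilpB.commutator_le_frattini_of_nilpotent)

variable {L : Type*} [Group L]

theorem index_commutator_quot {K M H₁ : Subgroup L} (hMK : M ≤ K) [(M.subgroupOf K).Normal] (hH₁ : H₁ = ⁅K, K⁆ ⊔ M) :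
    (commutator (K ⧸ M.subgroupOf K)).index = H₁.relIndex K := by
  let f : K →* K ⧸ M.subgroupOf K := QuotientGroup.mk' (M.subgroupOf K)
  have hf : Function.Surjective f := QuotientGroup.mk'_surjective _
  have hKH : ⁅K, K⁆ ≤ K := Subgroup.commutator_le_self K
  have hH₁K : H₁ ≤ K := by rw [hH₁]; exact sup_le hKH hMK
  have hD : (commutator (K ⧸ M.subgroupOf K)).comap f = H₁.subgroupOf K := by
    apply le_antisymm
    · have h1 : commutator (K ⧸ M.subgroupOf K) ≤ (H₁.subgroupOf K).map f := by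
        rw [commutator_def, Subgroup.commutator_le]
        intro a _ b _
        obtain ⟨a, rfl⟩ := hf a
        obtain ⟨b, rfl⟩ := hf b
        refine ⟨a * b * a⁻¹ * b⁻¹, Subgroup.mem_subgroupOf.mpr ?_, by rw [map_mul, map_mul, map_mul, map_inv, map_inv]; rfl⟩
        rw [hH₁]
        exact (le_sup_left : ⁅K, K⁆ ≤ _) (Subgroup.commutator_mem_commutator a.2 b.2)
      intro k hk
      obtain ⟨k', hk', e⟩ := h1 hk
      have h2 : k'⁻¹ * k ∈ M.subgroupOf K := QuotientGroup.eq.mp e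
      have hk' : k' ∈ H₁.subgroupOf K := hk'
      rw [Subgroup.mem_subgroupOf] at hk' h2 ⊢
      have h3 : (k : L) = (k' : L) * ((k'⁻¹ * k : K) : L) := by push_cast; group
      rw [h3]
      refine H₁.mul_mem hk' ?_
      rw [hH₁]; exact (le_sup_right : M ≤ _) h2
    · have h1 : H₁ ≤ ((commutator (K ⧸ M.subgroupOf K)).comap f).map K.subtype := by
        rw [hH₁, sup_le_iff, Subgroup.commutator_le]
        constructor
        · intro a ha b hb
          let a' : K := ⟨a, ha⟩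
          let b' : K := ⟨b, hb⟩
          refine ⟨a' * b' * a'⁻¹ * b'⁻¹, ?_, rfl⟩
          show f (a' * b' * a'⁻¹ * b'⁻¹) ∈ commutator (K ⧸ M.subgroupOf K)
          rw [map_mul, map_mul, map_mul, map_inv, map_inv]
          exact Subgroup.commutator_mem_commutator (Subgroup.mem_top _) (Subgroup.mem_top _)
        · intro m hm
          refine ⟨⟨m, hMK hm⟩, ?_, rfl⟩
          show f ⟨m, hMK hm⟩ ∈ commutator (K ⧸ M.subgroupOf K)
          have : f ⟨m, hMK hm⟩ = 1 := (QuotientGroup.eq_one_iff _).mpr (Subgroup.mem_subgroupOf.mpr hm)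
          rw [this]; exact Subgroup.one_mem _
      intro k hk
      obtain ⟨k', hk', e⟩ := h1 (Subgroup.mem_subgroupOf.mp hk)
      have : k' = k := Subtype.ext e
      rw [← this]; exact hk'
  rw [← Subgroup.index_comap_of_surjective _ hf, hD]
  rfl

theorem exists_between [Finite L] {K H₁ : Subgroup L} [hKn : K.Normal] [hHn : H₁.Normal] (hHK : H₁ ≤ K)
    (hab : ∀ x ∈ K, ∀ k ∈ K, x * k * x⁻¹ * k⁻¹ ∈ H₁) {p q : ℕ} (hp : p.Prime) (hq : q.Prime) (hpq : p ≠ q)
    (hp' : p ∣ H₁.relIndex K) (hq' : q ∣ H₁.relIndex K) : ∃ N : Subgroup L, N.Normal ∧ H₁ < N ∧ N < K := by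
  let π : L →* L ⧸ H₁ := QuotientGroup.mk' H₁
  have hπ : ∀ x, π x = 1 ↔ x ∈ H₁ := fun x => QuotientGroup.eq_one_iff x
  have hcomm : ∀ x ∈ K, ∀ y ∈ K, Commute (π x) (π y) := by
    intro x hx y hy
    have h1 := (hπ _).mpr (hab x hx y hy)
    rw [map_mul, map_mul, map_mul, map_inv, map_inv, mul_inv_eq_one, mul_inv_eq_iff_eq_mul] at h1
    exact h1
  let N : Subgroup L :=
    { carrier := {x | x ∈ K ∧ x ^ p ∈ H₁}
      mul_mem' := fun {x y} hx hy => ⟨K.mul_mem hx.1 hy.1, by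
        rw [← hπ, map_pow, map_mul, (hcomm x hx.1 y hy.1).mul_pow, ← map_pow, ← map_pow, (hπ _).mpr hx.2, (hπ _).mpr hy.2, one_mul]⟩
      one_mem' := ⟨K.one_mem, by rw [one_pow]; exact H₁.one_mem⟩
      inv_mem' := fun {x} hx => ⟨K.inv_mem hx.1, by rw [inv_pow]; exact H₁.inv_mem hx.2⟩ }
  have hN : ∀ x, x ∈ N ↔ x ∈ K ∧ x ^ p ∈ H₁ := fun _ => Iff.rfl
  haveI := Subgroup.Normal.subgroupOf hHn K
  have hcau : ∀ r : ℕ, r.Prime → r ∣ H₁.relIndex K → ∃ x ∈ K, x ∉ H₁ ∧ x ^ r ∈ H₁ := by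
    intro r hr hrd
    haveI : Fact r.Prime := ⟨hr⟩
    obtain ⟨y, hy⟩ := exists_prime_orderOf_dvd_card' (G := K ⧸ H₁.subgroupOf K) r hrd
    obtain ⟨k, rfl⟩ := QuotientGroup.mk_surjective y
    refine ⟨k, k.2, ?_, ?_⟩
    · intro h
      have : (k : K ⧸ H₁.subgroupOf K) = 1 := (QuotientGroup.eq_one_iff k).mpr (Subgroup.mem_subgroupOf.mpr h)
      rw [this, orderOf_one] at hy
      exact hr.one_lt.ne hy
    · have : (k : K ⧸ H₁.subgroupOf K) ^ r = 1 := by rw [← hy]; exact pow_orderOf_eq_one _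
      rw [← QuotientGroup.mk_pow] at this
      exact Subgroup.mem_subgroupOf.mp ((QuotientGroup.eq_one_iff _).mp this)
  refine ⟨N, ⟨fun x hx g => ⟨hKn.conj_mem x hx.1 g, by rw [conj_pow]; exact hHn.conj_mem _ hx.2 g⟩⟩, ?_, ?_⟩
  · obtain ⟨x, hx1, hx2, hx3⟩ := hcau p hp hp'
    refine lt_of_le_of_ne (fun y hy => ⟨hHK hy, H₁.pow_mem hy p⟩) ?_
    intro h
    apply hx2
    rw [h]
    exact ⟨hx1, hx3⟩
  · obtain ⟨x, hx1, hx2, hx3⟩ := hcau q hq hq'
    refine lt_of_le_of_ne (fun y hy => hy.1) ?_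
    intro h
    have hxN : x ∈ N := by rw [h]; exact hx1
    apply hx2
    obtain ⟨a, b, hab'⟩ := Nat.Coprime.isCoprime ((Nat.coprime_primes hp hq).mpr hpq)
    have : x = (x ^ p) ^ a * (x ^ q) ^ b := by
      rw [← zpow_natCast, ← zpow_natCast, ← zpow_mul, ← zpow_mul, ← zpow_add, mul_comm (p : ℤ) a, mul_comm (q : ℤ) b, hab', zpow_one]
    rw [this]
    exact H₁.mul_mem (H₁.zpow_mem hxN.2 a) (H₁.zpow_mem hx3 b)

end grp2

section main

variable {L G : Type*} [Group L] [Fintype L] [Group G] [Fintype G]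
variable {K : Subgroup L} [hK : K.Normal] {τ : (L → ℂ) → (G → ℂ)} {R : (L → ℂ) → Finset (G → ℂ)}

theorem coherent_linear (hsolv : Group.IsSolvable K) (hS : IsCoherenceSystem (inducedIrrAbove K ⊥) τ R)
    {H₁ : Subgroup L} [H₁.Normal] (hab : ∀ x ∈ K, ∀ y ∈ K, x * y * x⁻¹ * y⁻¹ ∈ H₁) (hH₁K : H₁ < K) :
    IsCoherent (inducedIrrAbove K H₁) {1}ᶜ τ := by
  obtain ⟨χ, hχ, -⟩ := exists_degree_e hsolv hH₁K
  have hcs := cs_mono hS (iia_mono bot_le) ⟨χ, hχ⟩ (fun φ hφ => iia_conj hφ)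
  refine coherent_of_const hcs ?_
  have hdeg : ∀ φ ∈ inducedIrrAbove K H₁, φ 1 = K.index := by
    intro φ hφ
    obtain ⟨d, hd0, hd⟩ := cs_deg hcs hφ
    have h1 := deg_sq_le (B := H₁) (C := K) (D := K) hH₁K.le le_rfl le_rfl hab hφ hd
    rw [Subgroup.relIndex_self, mul_one] at h1
    have h2 := Nat.le_of_dvd hd0 (index_dvd_deg hφ hd)
    have h3 : d ≤ K.index := by
      by_contra h
      push_neg at h
      have := Nat.pow_lt_pow_left h (two_ne_zero)
      omega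
    rw [hd, le_antisymm h3 h2]
  intro φ hφ ψ hψ
  rw [hdeg φ hφ, hdeg ψ hψ]

theorem two_mul_le {e a : ℕ} (he : Odd e) (ha : Odd a) (ha1 : 1 < a) (h : e ∣ a - 1) : 2 * e + 1 ≤ a := by
  have h2 : 2 ∣ a - 1 := by obtain ⟨k, rfl⟩ := ha; exact ⟨k, by omega⟩
  have h3 : 2 * e ∣ a - 1 := by
    refine Nat.Coprime.mul_dvd_of_dvd_of_dvd ?_ h2 h
    exact Nat.coprime_two_left.mpr he
  have := Nat.le_of_dvd (by omega) h3
  omega

theorem big_of_between (hodd : Odd (Nat.card L)) {H₁ N : Subgroup L} [H₁.Normal] [N.Normal]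
    (hab : ∀ x ∈ K, ∀ y ∈ K, x * y * x⁻¹ * y⁻¹ ∈ H₁)
    (hfrob : ∀ k ∈ K, k ∉ H₁ → ∀ x : L, x * k * x⁻¹ * k⁻¹ ∈ H₁ → x ∈ K) (h1 : H₁ < N) (h2 : N < K) :
    4 * K.index ^ 2 + 1 < H₁.relIndex K := by
  have hodd' : ∀ n, n ∣ Nat.card L → Odd n := fun n hn => Odd.of_dvd_nat hodd hn
  have he : Odd K.index := hodd' _ K.index_dvd_card
  have hrel : ∀ A B : Subgroup L, A ≤ B → A.relIndex B ∣ Nat.card L := by
    intro A B hAB
    have := Cfsg.Agent.Lib.CharClifford.relIndex_mul_card' A B hAB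
    exact (Dvd.intro _ this).trans (Subgroup.card_subgroup_dvd_card B)
  have hgt : ∀ A B : Subgroup L, A < B → 1 < A.relIndex B := by
    intro A B hAB
    have h3 := Cfsg.Agent.Lib.CharClifford.relIndex_mul_card' A B hAB.le
    have h4 := Cfsg.Agent.Lib.Basic.card_lt_card_of_lt hAB
    by_contra h5
    push_neg at h5
    have : A.relIndex B * Nat.card A ≤ 1 * Nat.card A := Nat.mul_le_mul_right _ h5
    omega
  have d1 := index_dvd_card_sub_one (K := K) h1.le h2.le hab hfrob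
  have d2 := index_dvd_card_sub_one (K := K) (N := K) (h1.trans h2).le le_rfl hab hfrob
  have hmul := Subgroup.relIndex_mul_relIndex H₁ N K h1.le h2.le
  have g1 := hgt H₁ N h1
  have g2 := hgt N K h2
  have d3 : K.index ∣ N.relIndex K - 1 := by
    rw [← hmul] at d2
    have e1 : H₁.relIndex N * N.relIndex K - 1 = (H₁.relIndex N - 1) * N.relIndex K + (N.relIndex K - 1) := by
      obtain ⟨a, ha⟩ : ∃ a, H₁.relIndex N = a + 1 := ⟨H₁.relIndex N - 1, by omega⟩
      obtain ⟨b, hb⟩ : ∃ b, N.relIndex K = b + 1 := ⟨N.relIndex K - 1, by omega⟩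
      rw [ha, hb]
      simp only [Nat.add_sub_cancel]
      rw [add_mul, one_mul]
      omega
    rw [e1] at d2
    exact (Nat.dvd_add_right (Dvd.dvd.mul_right d1 _)).mp d2
  have k1 := two_mul_le he (hodd' _ (hrel _ _ h1.le)) g1 d1
  have k2 := two_mul_le he (hodd' _ (hrel _ _ h2.le)) g2 d3
  rw [← hmul]
  have he0 : 0 < K.index := he.pos
  calc 4 * K.index ^ 2 + 1 < (2 * K.index + 1) * (2 * K.index + 1) := by nlinarith
    _ ≤ _ := Nat.mul_le_mul k1 k2

theorem kernel_coherent (hsolv : Group.IsSolvable K) (hS : IsCoherenceSystem (inducedIrrAbove K ⊥) τ R)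
    (hodd : Odd (Nat.card L)) {M : Subgroup L} [M.Normal] (hMK : M ≤ K) [(M.subgroupOf K).Normal]
    (hnil : Group.IsNilpotent (↥K ⧸ M.subgroupOf K)) {H₁ : Subgroup L} (hH₁ : H₁ = ⁅K, K⁆ ⊔ M) (hH₁K : H₁ < K)
    (hfrob : ∀ k ∈ K, k ∉ H₁ → ∀ x : L, x * k * x⁻¹ * k⁻¹ ∈ H₁ → x ∈ K)
    (hgood : (∃ N : Subgroup L, N.Normal ∧ H₁ < N ∧ N < K) ∨ 4 * K.index ^ 2 + 1 < H₁.relIndex K ∨
      (¬ ∃ p m : ℕ, p.Prime ∧ M.relIndex K = p ^ m) ∨ ⁅K, K⁆ ≤ M ∨
      (∃ p m : ℕ, p.Prime ∧ M.relIndex K = p ^ m ∧ K.index ∣ p - 1)) :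
    IsCoherent (inducedIrrAbove K M) {1}ᶜ τ := by
  classical
  haveI hHn : H₁.Normal := by rw [hH₁]; infer_instance
  have hab : ∀ x ∈ K, ∀ y ∈ K, x * y * x⁻¹ * y⁻¹ ∈ H₁ := by
    intro x hx y hy
    rw [hH₁]
    exact (le_sup_left : ⁅K, K⁆ ≤ _) (Subgroup.commutator_mem_commutator hx hy)
  have hbase := coherent_linear hsolv hS hab hH₁K
  have hMH : M ≤ H₁ := by rw [hH₁]; exact le_sup_right
  have hbig : 4 * K.index ^ 2 + 1 < H₁.relIndex K → IsCoherent (inducedIrrAbove K M) {1}ᶜ τ := fun h =>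
    descend_nil hsolv hS hMH hH₁K.le le_rfl hnil hbase h
  have hcomm : ⁅K, K⁆ ≤ M → IsCoherent (inducedIrrAbove K M) {1}ᶜ τ := by
    intro h
    have : H₁ = M := by rw [hH₁]; exact sup_eq_right.mpr h
    rw [← this]; exact hbase
  have hidx := index_commutator_quot hMK hH₁
  have hQ : Nat.card (K ⧸ M.subgroupOf K) = M.relIndex K := rfl
  have hodd' : ∀ n, n ∣ Nat.card L → Odd n := fun n hn => Odd.of_dvd_nat hodd hn
  rcases hgood with ⟨N, hN, h1, h2⟩ | h | h | h | h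
  · haveI := hN
    exact hbig (big_of_between hodd hab hfrob h1 h2)
  · exact hbig h
  · -- two primes
    have hn1 : M.relIndex K ≠ 1 := fun h1 => h ⟨2, 0, Nat.prime_two, by rw [h1, pow_zero]⟩
    have hn0 : M.relIndex K ≠ 0 := by rw [← hQ]; exact Nat.card_pos.ne'
    obtain ⟨p, hp, hpd⟩ := Nat.exists_prime_and_dvd hn1
    have hex : ∃ q, q.Prime ∧ q ∣ M.relIndex K ∧ q ≠ p := by
      by_contra hcon
      push_neg at hcon
      apply h
      refine ⟨p, _, hp, Nat.eq_prime_pow_of_unique_prime_dvd hn0 fun {q} hq hqd => hcon q hq hqd⟩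
    obtain ⟨q, hq, hqd, hne⟩ := hex
    obtain ⟨N, hN, h1, h2⟩ := exists_between hH₁K.le hab hp hq (Ne.symm hne)
      (by rw [← hidx]; exact prime_dvd_index_commutator hnil hp (by rw [hQ]; exact hpd))
      (by rw [← hidx]; exact prime_dvd_index_commutator hnil hq (by rw [hQ]; exact hqd))
    haveI := hN
    exact hbig (big_of_between hodd hab hfrob h1 h2)
  · exact hcomm h
  · obtain ⟨p, m, hp, hm, hdvd⟩ := h
    have hrel : H₁.relIndex K ∣ M.relIndex K := Dvd.intro_left _ (Subgroup.relIndex_mul_relIndex M H₁ K hMH hH₁K.le)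
    rw [hm] at hrel
    obtain ⟨j, hj, hj'⟩ := (Nat.dvd_prime_pow hp).mp hrel
    have hgt : 1 < H₁.relIndex K := by
      have h3 := Cfsg.Agent.Lib.CharClifford.relIndex_mul_card' H₁ K hH₁K.le
      have h4 := Cfsg.Agent.Lib.Basic.card_lt_card_of_lt hH₁K
      by_contra h5
      push_neg at h5
      have : H₁.relIndex K * Nat.card H₁ ≤ 1 * Nat.card H₁ := Nat.mul_le_mul_right _ h5
      omega
    have hj0 : j ≠ 0 := by rintro rfl; rw [pow_zero] at hj'; omega
    have hpodd : Odd p := by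
      refine hodd' _ ?_
      have h3 := Cfsg.Agent.Lib.CharClifford.relIndex_mul_card' H₁ K hH₁K.le
      rw [hj'] at h3
      exact ((dvd_pow_self p hj0).trans (Dvd.intro _ h3)).trans (Subgroup.card_subgroup_dvd_card K)
    have hp2 := two_mul_le (hodd' _ K.index_dvd_card) hpodd hp.one_lt hdvd
    by_cases hj1 : j = 1
    · rw [hj1, pow_one] at hj'
      apply hcomm
      have hc := comm_of_prime_index hnil (by rw [hidx, hj']; exact hp)
      rw [Subgroup.commutator_le]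
      intro a ha b hb
      have := hc ((⟨a, ha⟩ : K) : K ⧸ M.subgroupOf K) ((⟨b, hb⟩ : K) : K ⧸ M.subgroupOf K)
      have h5 : (((⟨a, ha⟩ : K) * ⟨b, hb⟩ * (⟨a, ha⟩ : K)⁻¹ * (⟨b, hb⟩ : K)⁻¹ : K) : K ⧸ M.subgroupOf K) = 1 := by
        rw [QuotientGroup.mk_mul, QuotientGroup.mk_mul, QuotientGroup.mk_mul, QuotientGroup.mk_inv, QuotientGroup.mk_inv, this,
          mul_inv_cancel_right, mul_inv_cancel]
      exact Subgroup.mem_subgroupOf.mp ((QuotientGroup.eq_one_iff _).mp h5)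
    · apply hbig
      rw [hj']
      have he0 : 0 < K.index := (hodd' _ K.index_dvd_card).pos
      calc 4 * K.index ^ 2 + 1 < (2 * K.index + 1) ^ 2 := by nlinarith
        _ ≤ p ^ 2 := Nat.pow_le_pow_left hp2 2
        _ ≤ p ^ j := Nat.pow_le_pow_right hp.pos (by omega)

end main

end

end Cfsg.Agent.Lib.OddCohE
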