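import Cfsg.Agent.Lib.OddCohE
import Cfsg.Agent.Lib.CharCo

set_option autoImplicit false

namespace Cfsg.Agent.Lib.OddCohF

open Cfsg Cfsg.Agent.Lib.CharBasic Cfsg.Agent.Lib.CharInd Cfsg.Agent.Lib.CharExc Cfsg.Agent.Lib.OddSgn
open Cfsg.Agent.Lib.OddCoh Cfsg.Agent.Lib.OddCohB Cfsg.Agent.Lib.OddCohC Cfsg.Agent.Lib.OddCohD Cfsg.Agent.Lib.OddCohE
open Cfsg.Agent.Lib.CharNormal Cfsg.Agent.Lib.CharMono
open Cfsg.Agent.Lib.OddDadeB (conj_isIrr conj_isChar conj_conj conj_sub conj_add conj_neg)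
open scoped ComplexConjugate

noncomputable section

variable {L G : Type*} [Group L] [Fintype L] [Group G] [Fintype G]

section bydeg

variable {S : Set (L → ℂ)} {τ : (L → ℂ) → (G → ℂ)} {R : (L → ℂ) → Finset (G → ℂ)}

theorem by_degree (hS : IsCoherenceSystem S τ R) {d n : (L → ℂ) → ℕ} (hd : ∀ φ ∈ S, φ 1 = (d φ : ℂ))
    (hn : ∀ φ ∈ S, classInner φ φ = (n φ : ℂ)) {T : Finset (L → ℂ)} (hT : ↑T ⊆ S)
    (hTc : ∀ φ ∈ T, conjFun φ ∈ T) {χ₁ : L → ℂ} (hχ₁ : χ₁ ∈ T) (hmin : ∀ φ ∈ T, d χ₁ ≤ d φ)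
    (hstep : ∀ χ ∈ T, d χ₁ < d χ → d χ₁ ∣ d χ ∧
      (2 * d χ * d χ₁ : ℝ) < ∑ φ ∈ T with d φ < d χ, ((d φ : ℝ) ^ 2 / (n φ : ℝ))) :
    IsCoherent (↑T : Set (L → ℂ)) {1}ᶜ τ := by
  classical
  have hdc : ∀ φ ∈ T, d (conjFun φ) = d φ := by
    intro φ hφ
    have h1 := hd _ (hT (hTc φ hφ))
    rw [conj_one hS (hT hφ), hd φ (hT hφ)] at h1
    exact_mod_cast h1.symm
  have hsub : ∀ N, (↑(T.filter fun φ => d φ ≤ N) : Set (L → ℂ)) ⊆ S := fun N φ hφ => hT (Finset.mem_filter.mp hφ).1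
  have hc : ∀ N, ∀ φ ∈ T.filter (fun φ => d φ ≤ N), conjFun φ ∈ T.filter (fun φ => d φ ≤ N) := by
    intro N φ hφ
    obtain ⟨h1, h2⟩ := Finset.mem_filter.mp hφ
    exact Finset.mem_filter.mpr ⟨hTc φ h1, by rw [hdc φ h1]; exact h2⟩
  have key : ∀ N, d χ₁ ≤ N → IsCoherent (↑(T.filter fun φ => d φ ≤ N) : Set (L → ℂ)) {1}ᶜ τ := by
    intro N hN
    induction N, hN using Nat.le_induction with
    | base =>
      refine coherent_of_const (cs_mono hS (hsub _) ⟨χ₁, Finset.mem_coe.mpr (Finset.mem_filter.mpr ⟨hχ₁, le_rfl⟩)⟩ (hc _)) ?_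
      intro φ hφ ψ hψ
      obtain ⟨h1, h2⟩ := Finset.mem_filter.mp (Finset.mem_coe.mp hφ)
      obtain ⟨h3, h4⟩ := Finset.mem_filter.mp (Finset.mem_coe.mp hψ)
      rw [hd φ (hT h1), hd ψ (hT h3), le_antisymm h2 (hmin φ h1), le_antisymm h4 (hmin ψ h3)]
    | succ N hN ih =>
      have hg := grow hS hd hn (S₀ := T.filter fun φ => d φ ≤ N) (T := T.filter fun φ => d φ ≤ N + 1) (hsub _) (hsub _)
        (hc _) (hc _) ih (χ₁ := χ₁) (Finset.mem_filter.mpr ⟨hχ₁, hN⟩) (by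
          intro χ hχ hχ'
          obtain ⟨h1, h2⟩ := Finset.mem_filter.mp hχ
          have h3 : N < d χ := by
            by_contra h
            exact hχ' (Finset.mem_filter.mpr ⟨h1, not_lt.mp h⟩)
          have h4 : d χ = N + 1 := by omega
          obtain ⟨k1, k2⟩ := hstep χ h1 (by omega)
          refine ⟨k1, ?_⟩
          have : (T.filter fun φ => d φ < d χ) = T.filter fun φ => d φ ≤ N := by
            ext φ; simp only [Finset.mem_filter]; rw [h4, Nat.lt_succ_iff]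
          rw [← this]; exact k2)
      have hset : (↑(T.filter fun φ => d φ ≤ N) ∪ ↑(T.filter fun φ => d φ ≤ N + 1) : Set (L → ℂ)) = ↑(T.filter fun φ => d φ ≤ N + 1) := by
        rw [← Finset.coe_union]
        congr 1
        refine Finset.union_eq_right.mpr fun φ hφ => ?_
        obtain ⟨h1, h2⟩ := Finset.mem_filter.mp hφ
        exact Finset.mem_filter.mpr ⟨h1, by omega⟩
      rw [hset] at hg
      exact hg
  obtain ⟨N, hN⟩ : ∃ N, ∀ φ ∈ T, d φ ≤ N := ⟨T.sup d, fun φ hφ => Finset.le_sup (f := d) hφ⟩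
  have h1 := key N (hN χ₁ hχ₁)
  have h2 : T.filter (fun φ => d φ ≤ N) = T := Finset.filter_true_of_mem hN
  rwa [h2] at h1

end bydeg

section central

variable {K : Subgroup L} [hK : K.Normal] {τ : (L → ℂ) → (G → ℂ)} {R : (L → ℂ) → Finset (G → ℂ)}

theorem mem_iia_of_ker [Fintype K] {Z : Subgroup L} {χ : L → ℂ} (hχ : χ ∈ inducedIrrAbove K ⊥) (h : ∀ z ∈ Z, χ z = χ 1)
    (h0 : classInner χ χ ≠ 0) : χ ∈ inducedIrrAbove K Z := by
  obtain ⟨θ, h1, h2, h3, h4⟩ := hχ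
  refine ⟨θ, h1, h2, ?_, h4⟩
  intro a ha
  have hcon : classInner (fun k : K => χ k) θ ≠ 0 := by
    rw [← reciprocity' K θ χ (by rw [h4]; exact indFun_classFn K θ), ← h4]
    exact h0
  have hchar : IsCharacter K (fun k : K => χ k) := by
    rw [h4]; exact isChar_res K (isChar_ind K (isChar_of_irr h1))
  exact constituent_ker hchar h1 hcon (h a ha)

theorem iia_ker {Z : Subgroup L} [Z.Normal] (hZK : Z ≤ K) {χ : L → ℂ} (hχ : χ ∈ inducedIrrAbove K Z) : ∀ z ∈ Z, χ z = χ 1 := by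
  obtain ⟨θ, h1, h2, h3, h4⟩ := hχ
  intro z hz
  rw [h4]
  exact ind_ker (A := Z) h3 (a := ⟨z, hZK hz⟩) hz

theorem central_set [Fintype K] {Z : Subgroup L} [Z.Normal] (hZK : Z ≤ K)
    (hirr : ∀ χ ∈ inducedIrrAbove K ⊥ \ inducedIrrAbove K Z, IsIrrCharacter L χ) :
    inducedIrrAbove K ⊥ \ inducedIrrAbove K Z = {χ | IsIrrCharacter L χ ∧ ∃ z ∈ Z, χ z ≠ χ 1} := by
  ext χ
  constructor
  · intro hχ
    refine ⟨hirr χ hχ, ?_⟩
    by_contra hcon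
    push_neg at hcon
    exact hχ.2 (mem_iia_of_ker hχ.1 hcon (by rw [irr_inner_self (hirr χ hχ)]; exact one_ne_zero))
  · rintro ⟨hχ, z, hz, hne⟩
    have hres := isChar_res K (isChar_of_irr hχ)
    obtain ⟨θ, hθ⟩ := char_ne_zero_exists_constituent hres (by
      intro h; exact isIrr_one_ne_zero hχ (congrFun h 1))
    have hcon : classInner (indFun K θ.1) χ ≠ 0 := by
      rw [reciprocity K θ.1 χ (isChar_classFn (isChar_of_irr hχ)), ← classInner_conj_symm]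
      intro h
      exact hθ ((map_eq_zero _).mp h)
    have hker : ¬ ∀ z ∈ Z, indFun K θ.1 z = indFun K θ.1 1 := by
      intro h
      exact hne (constituent_ker (isChar_ind K (isChar_of_irr θ.2)) hχ hcon (h z hz))
    have hS : indFun K θ.1 ∈ inducedIrrAbove K ⊥ := by
      refine ⟨θ.1, θ.2, ?_, ?_, rfl⟩
      · intro h
        apply hker
        intro z hz
        rw [h]
        have := ind_ker (K := K) (A := Z) (θ := fun _ => 1) (fun _ _ => rfl) (a := ⟨z, hZK hz⟩) hz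
        exact this
      · intro a ha
        have : a = 1 := Subtype.ext (by simpa using ha)
        rw [this]
    have hS' : indFun K θ.1 ∉ inducedIrrAbove K Z := fun h => hker (iia_ker hZK h)
    have h1 := hirr _ ⟨hS, hS'⟩
    have h2 := irr_eq_of_inner_ne_zero h1 hχ hcon
    rw [← h2]
    exact ⟨hS, hS'⟩

end central
section central2

variable {K : Subgroup L} [hK : K.Normal] {τ : (L → ℂ) → (G → ℂ)} {R : (L → ℂ) → Finset (G → ℂ)}

theorem nonempty_diff [Fintype K] {Z : Subgroup L} [Z.Normal] (hZK : Z ≤ K) (hZ1 : Z ≠ ⊥)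
    (hn0 : ∀ φ ∈ inducedIrrAbove K ⊥, classInner φ φ ≠ 0) : (inducedIrrAbove K ⊥ \ inducedIrrAbove K Z).Nonempty := by
  obtain ⟨⟨z, hz⟩, hz1⟩ := Subgroup.ne_bot_iff_exists_ne_one.mp hZ1
  have hz1' : (⟨z, hZK hz⟩ : K) ≠ 1 := by
    intro h
    apply hz1
    exact Subtype.ext (show z = 1 from congrArg Subtype.val h)
  have hex : ∃ θ : IrrCharacter K, θ.1 ⟨z, hZK hz⟩ ≠ θ.1 1 := by
    by_contra hcon
    push_neg at hcon
    have := irr_separates hcon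
    rw [isConj_one_left] at this
    exact hz1' this
  obtain ⟨θ, hθ⟩ := hex
  have hθ1 : θ.1 ≠ fun _ => 1 := by intro h; apply hθ; rw [h]
  have hS : indFun K θ.1 ∈ inducedIrrAbove K ⊥ := ⟨θ.1, θ.2, hθ1, fun a ha => by
    have : a = 1 := Subtype.ext (by simpa using ha)
    rw [this], rfl⟩
  refine ⟨indFun K θ.1, hS, ?_⟩
  intro h
  exact hθ ((fiber_iff h (hn0 _ hS) θ.2 rfl).2 ⟨z, hZK hz⟩ hz)

theorem conj_diff {Z : Subgroup L} {φ : L → ℂ} (hφ : φ ∈ inducedIrrAbove K ⊥ \ inducedIrrAbove K Z) :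
    conjFun φ ∈ inducedIrrAbove K ⊥ \ inducedIrrAbove K Z := by
  refine ⟨iia_conj hφ.1, fun h => hφ.2 ?_⟩
  have := iia_conj h
  rwa [conj_conj] at this

theorem coprime_e (hodd : True) {p m : ℕ} (hp : p.Prime) (hm : Nat.card K = p ^ m) (hH₁K : ⁅K, K⁆ < K)
    (hfrob : ∀ k ∈ K, k ∉ ⁅K, K⁆ → ∀ x : L, x * k * x⁻¹ * k⁻¹ ∈ ⁅K, K⁆ → x ∈ K) : Nat.Coprime K.index p := by
  have hd := index_dvd_card_sub_one (K := K) (N := K) hH₁K.le le_rfl
    (fun x hx y hy => Subgroup.commutator_mem_commutator hx hy) hfrob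
  have h3 := Cfsg.Agent.Lib.CharClifford.relIndex_mul_card' ⁅K, K⁆ K hH₁K.le
  have h4 := Cfsg.Agent.Lib.Basic.card_lt_card_of_lt hH₁K
  have hgt : 1 < ⁅K, K⁆.relIndex K := by
    by_contra h5
    push_neg at h5
    have : ⁅K, K⁆.relIndex K * Nat.card (⁅K, K⁆ : Subgroup L) ≤ 1 * Nat.card (⁅K, K⁆ : Subgroup L) := Nat.mul_le_mul_right _ h5
    omega
  rw [hm] at h3
  obtain ⟨j, hj, hj'⟩ := (Nat.dvd_prime_pow hp).mp (Dvd.intro _ h3)
  have hj0 : j ≠ 0 := by rintro rfl; rw [pow_zero] at hj'; omega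
  have hpd : p ∣ ⁅K, K⁆.relIndex K := by rw [hj']; exact dvd_pow_self p hj0
  rw [Nat.coprime_comm, hp.coprime_iff_not_dvd]
  intro h
  have h5 := h.trans hd
  have h6 : p ∣ 1 := by
    have := (Nat.dvd_sub hpd h5)
    rwa [Nat.sub_sub_self hgt.le] at this
  exact hp.one_lt.ne' (Nat.dvd_one.mp h6)

theorem central_coherent (hsolv : Group.IsSolvable K) (hS : IsCoherenceSystem (inducedIrrAbove K ⊥) τ R)
    (hodd : Odd (Nat.card L)) (hnil : Group.IsNilpotent K) (hH₁K : ⁅K, K⁆ < K)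
    (hfrob : ∀ k ∈ K, k ∉ ⁅K, K⁆ → ∀ x : L, x * k * x⁻¹ * k⁻¹ ∈ ⁅K, K⁆ → x ∈ K)
    {Z : Subgroup L} [Z.Normal] (hZ1 : Z ≠ ⊥) (hZK : Z ≤ K) (hZc : ∀ z ∈ Z, ∀ k ∈ K, z * k = k * z)
    (hirr : ∀ χ ∈ inducedIrrAbove K ⊥ \ inducedIrrAbove K Z, IsIrrCharacter L χ) :
    IsCoherent (inducedIrrAbove K ⊥ \ inducedIrrAbove K Z) {1}ᶜ τ := by
  classical
  cases nonempty_fintype K
  have h1 : ∀ φ ∈ inducedIrrAbove K ⊥, ∃ d : ℕ, 0 < d ∧ φ 1 = d := fun φ hφ => cs_deg hS hφ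
  have h2 : ∀ φ ∈ inducedIrrAbove K ⊥, ∃ n : ℕ, 0 < n ∧ classInner φ φ = n := fun φ hφ => cs_norm hS hφ
  choose! d hd using h1
  choose! n hn using h2
  have hne := nonempty_diff hZK hZ1 (fun φ hφ => by rw [(hn φ hφ).2]; exact Nat.cast_ne_zero.mpr (hn φ hφ).1.ne')
  by_cases hpp : ∃ p m : ℕ, p.Prime ∧ Nat.card K = p ^ m
  swap
  · haveI : ((⊥ : Subgroup L).subgroupOf K).Normal := Subgroup.Normal.subgroupOf inferInstance K
    have hcoh := kernel_coherent (M := ⊥) (H₁ := ⁅K, K⁆) hsolv hS hodd bot_le (inferInstance) (by rw [sup_bot_eq]) hH₁K hfrob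
      (Or.inr (Or.inr (Or.inl (by rw [Subgroup.relIndex_bot_left]; exact hpp))))
    exact coherent_sub hS Set.diff_subset (le_refl _) hne (fun φ hφ => conj_diff hφ) hcoh
  obtain ⟨p, m, hp, hm⟩ := hpp
  have hm0 : m ≠ 0 := by
    rintro rfl
    rw [pow_zero] at hm
    have : K = ⊥ := Subgroup.card_eq_one.mp hm
    apply hZ1
    rw [eq_bot_iff, ← this]; exact hZK
  have hp3 : 3 ≤ p := by
    have h3 : p ∣ Nat.card L := by
      refine (dvd_trans ?_ (Subgroup.card_subgroup_dvd_card K))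
      rw [hm]; exact dvd_pow_self p hm0
    have h4 : Odd p := Odd.of_dvd_nat hodd h3
    have := hp.two_le
    rcases h4 with ⟨k, hk⟩
    omega
  have hcop := coprime_e trivial hp hm hH₁K hfrob
  have e0 : 0 < K.index := Nat.pos_of_ne_zero Subgroup.FiniteIndex.index_ne_zero
  -- degrees
  have hdeg : ∀ φ ∈ inducedIrrAbove K ⊥, ∃ b : ℕ, d φ = K.index * p ^ b := by
    rintro φ hφ
    have hφ' := hφ
    obtain ⟨θ, k1, -, -, k4⟩ := hφ'
    obtain ⟨t, ht0, ht⟩ := isIrr_one_eq k1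
    have h3 := Cfsg.Agent.Lib.CharCo.deg_dvd_card k1 ht
    rw [hm] at h3
    obtain ⟨b, -, hb⟩ := (Nat.dvd_prime_pow hp).mp h3
    refine ⟨b, ?_⟩
    have h4 := (hd φ hφ).2
    rw [k4, indFun_one, ht, ← k4, hb] at h4
    exact_mod_cast h4.symm
  choose! b hb using hdeg
  obtain ⟨c, hc⟩ : ∃ c, Z.relIndex K = p ^ c := by
    have h3 := Cfsg.Agent.Lib.CharClifford.relIndex_mul_card' Z K hZK
    rw [hm] at h3
    obtain ⟨j, -, hj'⟩ := (Nat.dvd_prime_pow hp).mp (Dvd.intro _ h3)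
    exact ⟨j, hj'⟩
  have hbc : ∀ φ ∈ inducedIrrAbove K ⊥, 2 * b φ ≤ c := by
    intro φ hφ
    have h3 := deg_sq_le (B := ⊥) (C := K) (D := Z) bot_le hZK le_rfl (fun z hz k hk => by
      rw [Subgroup.mem_bot, hZc z hz k hk]; group) hφ (hd φ hφ).2
    rw [hb φ hφ, hc, mul_pow, ← pow_mul] at h3
    have h4 := Nat.le_of_mul_le_mul_left h3 (by positivity)
    have h5 := (Nat.pow_le_pow_iff_right (by omega : 1 < p)).mp h4
    omega
  -- the finset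
  obtain ⟨T, hT⟩ : ∃ T : Finset (L → ℂ), (↑T : Set (L → ℂ)) = inducedIrrAbove K ⊥ \ inducedIrrAbove K Z :=
    ⟨((iia_finite (K := K) ⊥).subset Set.diff_subset).toFinset, Set.Finite.coe_toFinset _⟩
  have hTS : ∀ {φ}, φ ∈ T → φ ∈ inducedIrrAbove K ⊥ \ inducedIrrAbove K Z := fun {φ} h => by rw [← hT]; exact h
  have hn1 : ∀ φ ∈ T, n φ = 1 := by
    intro φ hφ
    have := (hn φ (hTS hφ).1).2
    rw [irr_inner_self (hirr φ (hTS hφ))] at this
    exact_mod_cast this.symm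
  -- the total
  have htot : ∑ φ ∈ T, d φ ^ 2 + K.index * p ^ c = K.index * Nat.card K := by
    have hA := sum_formula (K := K) ⊥ (fun χ hχ φ hφ => hS.orthogonal χ hχ φ hφ) (fun φ hφ => (hd φ hφ).2) (fun φ hφ => (hn φ hφ).2)
      (fun φ hφ => (hn φ hφ).1) (iia_finite (K := K) ⊥).coe_toFinset
    have hB := sum_formula (K := K) Z (fun χ hχ φ hφ => hS.orthogonal χ hχ φ hφ) (fun φ hφ => (hd φ hφ).2) (fun φ hφ => (hn φ hφ).2)
      (fun φ hφ => (hn φ hφ).1) (iia_finite (K := K) Z).coe_toFinset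
    have hu : (iia_finite (K := K) (⊥ : Subgroup L)).toFinset = T ∪ (iia_finite (K := K) Z).toFinset := by
      apply Finset.coe_injective
      rw [Finset.coe_union, Set.Finite.coe_toFinset, Set.Finite.coe_toFinset, hT, Set.diff_union_of_subset (iia_mono bot_le)]
    have hdis : Disjoint T (iia_finite (K := K) Z).toFinset := by
      rw [← Finset.disjoint_coe, hT, Set.Finite.coe_toFinset]
      exact Set.disjoint_sdiff_left
    rw [hu, Finset.sum_union hdis, hB, Subgroup.relIndex_bot_left] at hA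
    have hC : ∑ φ ∈ T, ((d φ : ℝ) ^ 2 / (n φ : ℝ)) = ((∑ φ ∈ T, d φ ^ 2 : ℕ) : ℝ) := by
      push_cast
      refine Finset.sum_congr rfl fun φ hφ => ?_
      rw [hn1 φ hφ]; simp
    rw [hC, hc] at hA
    have hD : ((∑ φ ∈ T, d φ ^ 2 + K.index * p ^ c : ℕ) : ℝ) = ((K.index * Nat.card K : ℕ) : ℝ) := by
      push_cast at hA ⊢
      linarith
    exact_mod_cast hD
  have htot' : p ^ c ∣ ∑ φ ∈ T, d φ ^ 2 := by
    have h3 := Cfsg.Agent.Lib.CharClifford.relIndex_mul_card' Z K hZK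
    rw [hc] at h3
    have h4 : p ^ c ∣ ∑ φ ∈ T, d φ ^ 2 + K.index * p ^ c := by
      rw [htot, ← h3]
      exact Dvd.dvd.mul_left (Dvd.intro _ rfl) _
    exact (Nat.dvd_add_left (Dvd.intro_left _ rfl)).mp h4
  obtain ⟨φ₀, hφ₀⟩ := hne
  have hTne : T.Nonempty := ⟨φ₀, by rw [← Finset.mem_coe, hT]; exact hφ₀⟩
  obtain ⟨χ₁, hχ₁, hmin⟩ := Finset.exists_min_image T d hTne
  rw [← hT]
  refine by_degree hS (fun φ hφ => (hd φ hφ).2) (fun φ hφ => (hn φ hφ).2) (by rw [hT]; exact Set.diff_subset)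
    (fun φ hφ => by rw [← Finset.mem_coe, hT]; exact conj_diff (hTS hφ)) hχ₁ hmin ?_
  intro χ hχ hlt
  have hbχ := hb χ (hTS hχ).1
  have hbχ₁ := hb χ₁ (hTS hχ₁).1
  have hble : b χ₁ < b χ := by
    rw [hbχ, hbχ₁] at hlt
    have h3 := Nat.lt_of_mul_lt_mul_left hlt
    exact (Nat.pow_lt_pow_iff_right (by omega : 1 < p)).mp h3
  refine ⟨by rw [hbχ, hbχ₁]; exact Nat.mul_dvd_mul_left _ (pow_dvd_pow p hble.le), ?_⟩
  have hC : ∑ φ ∈ T with d φ < d χ, ((d φ : ℝ) ^ 2 / (n φ : ℝ)) = ((∑ φ ∈ T with d φ < d χ, d φ ^ 2 : ℕ) : ℝ) := by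
    push_cast
    refine Finset.sum_congr rfl fun φ hφ => ?_
    rw [hn1 φ (Finset.mem_filter.mp hφ).1]; simp
  rw [hC]
  have hdvd1 : p ^ (2 * b χ) ∣ ∑ φ ∈ T with d φ < d χ, d φ ^ 2 := by
    have h3 : ∑ φ ∈ T with d φ < d χ, d φ ^ 2 + ∑ φ ∈ T with ¬ d φ < d χ, d φ ^ 2 = ∑ φ ∈ T, d φ ^ 2 :=
      Finset.sum_filter_add_sum_filter_not T _ _
    have h4 : p ^ (2 * b χ) ∣ ∑ φ ∈ T with ¬ d φ < d χ, d φ ^ 2 := by
      refine Finset.dvd_sum fun φ hφ => ?_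
      obtain ⟨g1, g2⟩ := Finset.mem_filter.mp hφ
      rw [not_lt, hbχ, hb φ (hTS g1).1] at g2
      have g3 := Nat.le_of_mul_le_mul_left g2 e0
      have g4 := (Nat.pow_le_pow_iff_right (by omega : 1 < p)).mp g3
      rw [hb φ (hTS g1).1, mul_pow, ← pow_mul]
      exact Dvd.dvd.mul_left (pow_dvd_pow p (by omega)) _
    have h5 : p ^ (2 * b χ) ∣ ∑ φ ∈ T, d φ ^ 2 := (pow_dvd_pow p (hbc χ (hTS hχ).1)).trans htot'
    rw [← h3] at h5
    exact (Nat.dvd_add_left h4).mp h5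
  have hdvd2 : K.index ^ 2 ∣ ∑ φ ∈ T with d φ < d χ, d φ ^ 2 := by
    refine Finset.dvd_sum fun φ hφ => ?_
    rw [hb φ (hTS (Finset.mem_filter.mp hφ).1).1, mul_pow]
    exact Dvd.intro _ rfl
  have hdvd3 : d χ ^ 2 ∣ ∑ φ ∈ T with d φ < d χ, d φ ^ 2 := by
    have e1 : d χ ^ 2 = K.index ^ 2 * p ^ (2 * b χ) := by rw [hbχ, mul_pow, ← pow_mul, mul_comm (b χ) 2]
    rw [e1]
    exact Nat.Coprime.mul_dvd_of_dvd_of_dvd (Nat.Coprime.pow _ _ hcop) hdvd2 hdvd1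
  have hpos : 0 < ∑ φ ∈ T with d φ < d χ, d φ ^ 2 := by
    refine Finset.sum_pos (fun φ hφ => ?_) ⟨χ₁, Finset.mem_filter.mpr ⟨hχ₁, hlt⟩⟩
    have := (hd φ (hTS (Finset.mem_filter.mp hφ).1).1).1
    positivity
  have hle := Nat.le_of_dvd hpos hdvd3
  have h3 : 3 * d χ₁ ≤ d χ := by
    rw [hbχ, hbχ₁]
    calc 3 * (K.index * p ^ b χ₁) ≤ p * (K.index * p ^ b χ₁) := Nat.mul_le_mul_right _ hp3
      _ = K.index * p ^ (b χ₁ + 1) := by rw [pow_succ]; ring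
      _ ≤ K.index * p ^ b χ := Nat.mul_le_mul_left _ (Nat.pow_le_pow_right (by omega) hble)
  have hd1 := (hd χ₁ (hTS hχ₁).1).1
  have h4 : 2 * d χ * d χ₁ < ∑ φ ∈ T with d φ < d χ, d φ ^ 2 := by
    refine lt_of_lt_of_le ?_ hle
    nlinarith
  exact_mod_cast h4

end central2

end

end Cfsg.Agent.Lib.OddCohF
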