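import Cfsg.Agent.Lib.CharBasic
import Cfsg.Agent.Lib.CharInd
import Cfsg.Agent.Lib.CharCo
import Cfsg.Agent.Lib.Basic
import Cfsg.Prelude.Def_OddOrderChar
import Cfsg.Prelude.Def_OddOrderLocal

set_option autoImplicit false

namespace Cfsg.Agent.Lib.OddDade

open Cfsg Cfsg.Agent.Lib.CharBasic Cfsg.Agent.Lib.CharInd
open scoped ComplexConjugate Pointwise

noncomputable section

variable {G : Type*} [Group G]

theorem mem_cent {a c : G} : c ∈ Subgroup.centralizer ({a} : Set G) ↔ c * a = a * c := by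
  rw [Subgroup.mem_centralizer_singleton_iff]

/-- two commuting factorisations with coprime orders agree -/
theorem parts_eq {x y b v : G} {n m : ℕ} (hnm : n.Coprime m) (hxy : Commute x y) (hbv : Commute b v)
    (hx : x ^ n = 1) (hb : b ^ n = 1) (hy : y ^ m = 1) (hv : v ^ m = 1) (h : x * y = b * v) :
    x = b ∧ y = v := by
  obtain ⟨k, hk1, hk2⟩ := Nat.chineseRemainder hnm 1 0
  have e1 : ∀ z : G, z ^ n = 1 → z ^ k = z := by
    intro z hz
    have h1 : k % n = 1 % n := hk1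
    rw [← pow_mod_orderOf]
    have hd : orderOf z ∣ n := orderOf_dvd_of_pow_eq_one hz
    have : k % orderOf z = 1 % orderOf z := Nat.ModEq.of_dvd hd h1
    rw [this, pow_mod_orderOf, pow_one]
  have e2 : ∀ z : G, z ^ m = 1 → z ^ k = 1 := by
    intro z hz
    have h1 : k % m = 0 % m := hk2
    have hd : m ∣ k := by
      rw [Nat.zero_mod] at h1; exact Nat.dvd_of_mod_eq_zero h1
    obtain ⟨t, ht⟩ := hd
    rw [ht, pow_mul, hz, one_pow]
  have hx' : (x * y) ^ k = x := by rw [hxy.mul_pow, e1 x hx, e2 y hy, mul_one]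
  have hb' : (b * v) ^ k = b := by rw [hbv.mul_pow, e1 b hb, e2 v hv, mul_one]
  have : x = b := by rw [← hx', ← hb', h]
  refine ⟨this, ?_⟩
  subst this
  exact mul_left_cancel h

theorem pow_card_mem {H : Subgroup G} [Finite G] {u : G} (hu : u ∈ H) : u ^ Nat.card H = 1 := by
  have := pow_card_eq_one' (G := H) (x := ⟨u, hu⟩)
  exact congrArg Subtype.val this

section dade

variable [Finite G] {A : Set G} {L : Subgroup G} {H : G → Subgroup G} (hD : DadeHypothesis A L H)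

include hD

theorem self_pow {a b : G} (ha : a ∈ A) (hb : b ∈ A) : a ^ (Nat.card ↥(L ⊓ Subgroup.centralizer ({a} : Set G)) * Nat.card ↥(L ⊓ Subgroup.centralizer ({b} : Set G))) = 1 := by
  rw [pow_mul]
  have : a ∈ L ⊓ Subgroup.centralizer ({a} : Set G) := ⟨hD.subset ha, mem_cent.mpr rfl⟩
  rw [pow_card_mem this, one_pow]

theorem cop {a b : G} (ha : a ∈ A) (hb : b ∈ A) :
    (Nat.card ↥(L ⊓ Subgroup.centralizer ({a} : Set G)) * Nat.card ↥(L ⊓ Subgroup.centralizer ({b} : Set G))).Coprime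
      (Nat.card (H a) * Nat.card (H b)) := by
  have h1 := (hD.coprime a ha a ha).symm
  have h2 := (hD.coprime b hb a ha).symm
  have h3 := (hD.coprime a ha b hb).symm
  have h4 := (hD.coprime b hb b hb).symm
  exact Nat.Coprime.mul_left (Nat.Coprime.mul_right h1 h2) (Nat.Coprime.mul_right h3 h4)

/-- the key: conjugate elements of cosets -/
theorem conj_parts {a b u v g : G} (ha : a ∈ A) (hb : b ∈ A) (hu : u ∈ H a) (hv : v ∈ H b)
    (h : g * (a * u) * g⁻¹ = b * v) : g * a * g⁻¹ = b ∧ g * u * g⁻¹ = v := by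
  have hau : Commute a u := (mem_cent.mp (hD.le_centralizer a ha hu)).symm
  have hbv : Commute b v := (mem_cent.mp (hD.le_centralizer b hb hv)).symm
  have h1 : Commute (g * a * g⁻¹) (g * u * g⁻¹) := by
    show g * a * g⁻¹ * (g * u * g⁻¹) = g * u * g⁻¹ * (g * a * g⁻¹)
    have := hau.eq
    calc g * a * g⁻¹ * (g * u * g⁻¹) = g * (a * u) * g⁻¹ := by group
      _ = g * (u * a) * g⁻¹ := by rw [this]
      _ = _ := by group
  have e : ∀ (z : G) (k : ℕ), (g * z * g⁻¹) ^ k = g * z ^ k * g⁻¹ := fun z k => conj_pow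
  refine parts_eq (cop hD ha hb) h1 hbv ?_ ?_ ?_ ?_ ?_
  · rw [e, self_pow hD ha hb]; group
  · rw [mul_comm]; exact self_pow hD hb ha
  · rw [e, pow_mul, pow_card_mem hu, one_pow]; group
  · rw [mul_comm, pow_mul, pow_card_mem hv, one_pow]
  · rw [← h]; group

theorem conj_in_L {a b u v g : G} (ha : a ∈ A) (hb : b ∈ A) (hu : u ∈ H a) (hv : v ∈ H b)
    (h : g * (a * u) * g⁻¹ = b * v) : ∃ x ∈ L, x * a * x⁻¹ = b := by
  obtain ⟨h1, h2⟩ := conj_parts hD ha hb hu hv h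
  obtain ⟨x, hx, hx2⟩ := hD.fusion a ha g (by rw [h1]; exact hb)
  exact ⟨x, hx, by rw [hx2, h1]⟩

theorem normalizer_coset {a : G} (ha : a ∈ A) :
    Subgroup.normalizer ((fun u : G => a * u) '' (H a : Set G)) = Subgroup.centralizer ({a} : Set G) := by
  apply le_antisymm
  · intro g hg
    have h1 : g * (a * 1) * g⁻¹ ∈ (fun u : G => a * u) '' (H a : Set G) :=
      (Subgroup.mem_set_normalizer_iff.mp hg _).mp ⟨1, (H a).one_mem, rfl⟩
    obtain ⟨v, hv, hv2⟩ := h1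
    have := (conj_parts hD ha ha (H a).one_mem hv hv2.symm).1
    refine mem_cent.mpr ?_
    calc g * a = g * a * g⁻¹ * g := by group
      _ = a * g := by rw [this]
  · intro c hc
    have key : ∀ c ∈ Subgroup.centralizer ({a} : Set G), ∀ h ∈ (fun u : G => a * u) '' (H a : Set G),
        c * h * c⁻¹ ∈ (fun u : G => a * u) '' (H a : Set G) := by
      rintro c hc h ⟨u, hu, rfl⟩
      refine ⟨c * u * c⁻¹, hD.conj_mem_H a ha c hc u hu, ?_⟩
      have := mem_cent.mp hc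
      show a * (c * u * c⁻¹) = c * (a * u) * c⁻¹
      calc a * (c * u * c⁻¹) = (a * c) * u * c⁻¹ := by group
        _ = (c * a) * u * c⁻¹ := by rw [this]
        _ = _ := by group
    refine Subgroup.mem_set_normalizer_iff.mpr fun h => ⟨key c hc h, fun h1 => ?_⟩
    have := key c⁻¹ (Subgroup.inv_mem _ hc) _ h1
    have e : c⁻¹ * (c * h * c⁻¹) * c⁻¹⁻¹ = h := by group
    rwa [e] at this

/-- every element of the centralizer is `h * l` -/
theorem exists_factor {a c : G} (ha : a ∈ A) (hc : c ∈ Subgroup.centralizer ({a} : Set G)) :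
    ∃ h ∈ H a, ∃ l ∈ L, l ∈ Subgroup.centralizer ({a} : Set G) ∧ c = h * l := by
  have hN : L ⊓ Subgroup.centralizer ({a} : Set G) ≤ Subgroup.normalizer (H a : Set G) := by
    intro l hl
    refine Subgroup.mem_set_normalizer_iff.mpr fun h => ⟨fun h1 => hD.conj_mem_H a ha l hl.2 h h1, fun h1 => ?_⟩
    have := hD.conj_mem_H a ha l⁻¹ (Subgroup.inv_mem _ hl.2) _ h1
    have e : l⁻¹ * (l * h * l⁻¹) * l⁻¹⁻¹ = h := by group
    rwa [e] at this
  rw [← hD.sup_eq a ha] at hc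
  have h1 : c ∈ ((H a ⊔ (L ⊓ Subgroup.centralizer ({a} : Set G)) : Subgroup G) : Set G) := hc
  rw [Subgroup.coe_mul_of_right_le_normalizer_left _ _ hN] at h1
  obtain ⟨h, hh, l, hl, e⟩ := h1
  exact ⟨h, hh, l, hl.1, hl.2, e.symm⟩

/-- elements of order prime to `C_L(a)` lie in `H a` -/
theorem mem_H_of_pow {a u : G} (ha : a ∈ A) (hu : u ∈ Subgroup.centralizer ({a} : Set G)) {m : ℕ}
    (hm : m.Coprime (Nat.card ↥(L ⊓ Subgroup.centralizer ({a} : Set G)))) (hum : u ^ m = 1) : u ∈ H a := by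
  set n := Nat.card ↥(L ⊓ Subgroup.centralizer ({a} : Set G)) with hn
  obtain ⟨h, hh, l, hl, hlc, rfl⟩ := exists_factor hD ha hu
  have hin : ∀ k : ℕ, (h * l) ^ k * (l ^ k)⁻¹ ∈ H a := by
    intro k
    induction k with
    | zero => simp
    | succ k ih =>
      have hk : h * l ∈ Subgroup.centralizer ({a} : Set G) := hu
      have e : (h * l) ^ (k + 1) * (l ^ (k + 1))⁻¹ = ((h * l) * ((h * l) ^ k * (l ^ k)⁻¹) * (h * l)⁻¹) * h := by
        rw [pow_succ' (h * l), pow_succ l]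
        have : l * l ^ k = l ^ k * l := (pow_succ' l k).symm.trans (pow_succ l k)
        have h2 : (l ^ k * l)⁻¹ = (l ^ k)⁻¹ * l⁻¹ := by rw [← this]; group
        rw [h2]; group
      rw [e]
      exact (H a).mul_mem (hD.conj_mem_H a ha _ hk _ ih) hh
  have h1 : (h * l) ^ n ∈ H a := by
    have h2 := hin n
    have : l ^ n = 1 := pow_card_mem (H := L ⊓ Subgroup.centralizer ({a} : Set G)) ⟨hl, hlc⟩
    rwa [this, inv_one, mul_one] at h2
  -- u is a power of u ^ n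
  obtain ⟨k, hk1, hk2⟩ := Nat.chineseRemainder hm 1 0
  have hkn : n ∣ k := by
    have : k % n = 0 % n := hk2
    rw [Nat.zero_mod] at this; exact Nat.dvd_of_mod_eq_zero this
  obtain ⟨t, ht⟩ := hkn
  have : (h * l) ^ k = h * l := by
    have h1 : k % m = 1 % m := hk1
    rw [← pow_mod_orderOf]
    have hd : orderOf (h * l) ∣ m := orderOf_dvd_of_pow_eq_one hum
    have : k % orderOf (h * l) = 1 % orderOf (h * l) := Nat.ModEq.of_dvd hd h1
    rw [this, pow_mod_orderOf, pow_one]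
  rw [← this, ht, pow_mul]
  exact (H a).pow_mem h1 t

theorem H_conj_le {a x : G} (ha : a ∈ A) (hx : x ∈ L) {u : G} (hu : u ∈ H a) :
    x * u * x⁻¹ ∈ H (x * a * x⁻¹) := by
  have hb := hD.conj_mem x hx a ha
  have hau := mem_cent.mp (hD.le_centralizer a ha hu)
  refine mem_H_of_pow hD hb (mem_cent.mpr ?_) (m := Nat.card (H a)) (hD.coprime a ha _ hb) ?_
  · calc x * u * x⁻¹ * (x * a * x⁻¹) = x * (u * a) * x⁻¹ := by group
      _ = x * (a * u) * x⁻¹ := by rw [hau]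
      _ = _ := by group
  · rw [conj_pow, pow_card_mem hu]; group

theorem H_conj {a x : G} (ha : a ∈ A) (hx : x ∈ L) : H (x * a * x⁻¹) = (H a).map (MulAut.conj x).toMonoidHom := by
  apply le_antisymm
  · intro v hv
    have hb := hD.conj_mem x hx a ha
    have := H_conj_le hD hb (L.inv_mem hx) hv
    have e : x⁻¹ * (x * a * x⁻¹) * x⁻¹⁻¹ = a := by group
    rw [e] at this
    exact ⟨_, this, by simp [MulAut.conj_apply]; group⟩
  · rintro _ ⟨u, hu, rfl⟩
    exact H_conj_le hD ha hx hu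

theorem card_cent {a : G} (ha : a ∈ A) : Nat.card (Subgroup.centralizer ({a} : Set G)) =
    Nat.card (H a) * Nat.card ↥(L ⊓ Subgroup.centralizer ({a} : Set G)) := by
  classical
  rw [← Nat.card_prod]
  symm
  refine Nat.card_congr (Equiv.ofBijective (fun p : H a × ↥(L ⊓ Subgroup.centralizer ({a} : Set G)) =>
    (⟨p.1.1 * p.2.1, Subgroup.mul_mem _ (hD.le_centralizer a ha p.1.2) p.2.2.2⟩ :
      Subgroup.centralizer ({a} : Set G))) ⟨?_, ?_⟩)
  · rintro ⟨⟨h, hh⟩, ⟨l, hl⟩⟩ ⟨⟨h', hh'⟩, ⟨l', hl'⟩⟩ e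
    have e1 : h * l = h' * l' := congrArg Subtype.val e
    have e2 : h'⁻¹ * h = l' * l⁻¹ := by
      calc h'⁻¹ * h = h'⁻¹ * (h * l) * l⁻¹ := by group
        _ = h'⁻¹ * (h' * l') * l⁻¹ := by rw [e1]
        _ = _ := by group
    have h3 : h'⁻¹ * h ∈ H a ⊓ (L ⊓ Subgroup.centralizer ({a} : Set G)) :=
      ⟨(H a).mul_mem ((H a).inv_mem hh') hh, by rw [e2]; exact Subgroup.mul_mem _ hl' (Subgroup.inv_mem _ hl)⟩
    rw [hD.inf_eq_bot a ha, Subgroup.mem_bot] at h3
    have h4 : h' = h := by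
      calc h' = h' * (h'⁻¹ * h) := by rw [h3, mul_one]
        _ = h := by group
    subst h4
    have : l = l' := mul_left_cancel e1
    subst this
    rfl
  · rintro ⟨c, hc⟩
    obtain ⟨h, hh, l, hl, hlc, rfl⟩ := exists_factor hD ha hc
    exact ⟨(⟨h, hh⟩, ⟨l, hl, hlc⟩), rfl⟩

end dade

/-- TI-subset with normalizer -/
theorem ti_iff [Finite G] (A : Set G) (hA : A.Nonempty) (h1 : (1 : G) ∉ A) (L : Subgroup G) :
    (IsTISubset A ∧ Subgroup.normalizer A = L) ↔ DadeHypothesis A L (fun _ => ⊥) := by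
  constructor
  · rintro ⟨hT, rfl⟩
    have key : ∀ a ∈ A, ∀ g : G, g * a * g⁻¹ ∈ A → g ∈ Subgroup.normalizer A := by
      intro a ha g hg
      by_contra hn
      have := hT g hn a ha hg
      rw [this] at ha
      exact h1 ha
    have hcent : ∀ a ∈ A, Subgroup.centralizer ({a} : Set G) ≤ Subgroup.normalizer A := by
      intro a ha c hc
      refine key a ha c ?_
      rw [mem_cent.mp hc, mul_inv_cancel_right]; exact ha
    refine ⟨h1, ?_, ?_, ?_, ?_, ?_, ?_, ?_, ?_⟩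
    · intro a ha
      exact hcent a ha (mem_cent.mpr rfl)
    · intro x hx a ha
      exact (Subgroup.mem_set_normalizer_iff.mp hx a).mp ha
    · intro a ha g hg
      exact ⟨g, key a ha g hg, rfl⟩
    · intro a _; exact bot_le
    · intro a _ c _ u hu
      rw [Subgroup.mem_bot] at hu ⊢
      rw [hu]; group
    · intro a _; exact bot_inf_eq _
    · intro a ha
      rw [bot_sup_eq]
      exact inf_eq_right.mpr (hcent a ha)
    · intro a _ b _
      simp
  · intro hD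
    have hC : ∀ a ∈ A, ∀ g : G, g * a * g⁻¹ ∈ A → g ∈ L := by
      intro a ha g hg
      obtain ⟨x, hx, e⟩ := hD.fusion a ha g hg
      have h2 : x⁻¹ * g ∈ Subgroup.centralizer ({a} : Set G) := by
        refine mem_cent.mpr ?_
        calc x⁻¹ * g * a = x⁻¹ * (g * a * g⁻¹) * g := by group
          _ = x⁻¹ * (x * a * x⁻¹) * g := by rw [e]
          _ = _ := by group
      rw [← hD.sup_eq a ha, bot_sup_eq] at h2
      have := L.mul_mem hx h2.1
      rwa [mul_inv_cancel_left] at this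
    have hLN : L ≤ Subgroup.normalizer A := by
      intro x hx
      refine Subgroup.mem_set_normalizer_iff.mpr fun h => ⟨fun hh => hD.conj_mem x hx h hh, fun hh => ?_⟩
      have := hD.conj_mem x⁻¹ (L.inv_mem hx) _ hh
      have e : x⁻¹ * (x * h * x⁻¹) * x⁻¹⁻¹ = h := by group
      rwa [e] at this
    refine ⟨fun g hg x hx hgx => absurd (hLN (hC x hx g hgx)) hg, le_antisymm ?_ hLN⟩
    intro g hg
    obtain ⟨a, ha⟩ := hA
    exact hC a ha g ((Subgroup.mem_set_normalizer_iff.mp hg a).mp ha)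
section dadesum

variable [Fintype G] {A : Set G} {L : Subgroup G} [Fintype L] {H : G → Subgroup G}

open Classical in
/-- the weight function on `G` -/
def ww (A : Set G) (L : Subgroup G) [Fintype L] (H : G → Subgroup G) (α : L → ℂ) : G → ℂ := fun y =>
  ∑ a : L, if (a : G) ∈ A ∧ (a : G)⁻¹ * y ∈ H a then α a * (Nat.card (H (a : G)) : ℂ)⁻¹ else 0

open Classical in
theorem finsum_H (a : G) (F : G → ℂ) : ∑ᶠ u ∈ (H a : Set G), F u = ∑ u : G, if u ∈ H a then F u else 0 := by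
  rw [finsum_mem_def, finsum_eq_sum_of_fintype]
  refine Finset.sum_congr rfl fun u _ => ?_
  rw [Set.indicator_apply]
  rfl

open Classical in
theorem sum_ww (α : L → ℂ) (f : G → ℂ) : ∑ y : G, ww A L H α y * f y =
    ∑ a : L, if (a : G) ∈ A then α a * ((Nat.card (H (a : G)) : ℂ)⁻¹ * ∑ᶠ u ∈ (H (a : G) : Set G), f (a * u)) else 0 := by
  have : ∀ y : G, ww A L H α y * f y = ∑ a : L, (if (a : G) ∈ A ∧ (a : G)⁻¹ * y ∈ H a then α a * (Nat.card (H (a : G)) : ℂ)⁻¹ else 0) * f y := by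
    intro y; rw [ww, Finset.sum_mul]
  rw [Finset.sum_congr rfl fun y _ => this y, Finset.sum_comm]
  refine Finset.sum_congr rfl fun a _ => ?_
  by_cases ha : (a : G) ∈ A
  · rw [if_pos ha, finsum_H, Finset.mul_sum, Finset.mul_sum]
    rw [← Equiv.sum_comp (Equiv.mulLeft (a : G))]
    refine Finset.sum_congr rfl fun y _ => ?_
    have e : (a : G)⁻¹ * (Equiv.mulLeft (a : G)) y = y := by simp
    rw [e]
    by_cases hy : y ∈ H a
    · rw [if_pos ⟨ha, hy⟩, if_pos hy]; simp [mul_assoc]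
    · rw [if_neg (fun h => hy h.2), if_neg hy]; ring
  · rw [if_neg ha]
    refine Finset.sum_eq_zero fun y _ => ?_
    rw [if_neg (fun h => ha h.1)]; ring

theorem avg_conj (w f : G → ℂ) (hf : IsClassFunction G f) :
    ∑ g : G, f g * ∑ x : G, w (x⁻¹ * g * x) = (Nat.card G : ℂ) * ∑ y : G, w y * f y := by
  have : ∀ g : G, f g * ∑ x : G, w (x⁻¹ * g * x) = ∑ x : G, f (x⁻¹ * g * x) * w (x⁻¹ * g * x) := by
    intro g
    rw [Finset.mul_sum]
    refine Finset.sum_congr rfl fun x _ => ?_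
    have := hf g x⁻¹
    rw [inv_inv] at this
    rw [this]
  rw [Finset.sum_congr rfl fun g _ => this g, Finset.sum_comm]
  have h2 : ∀ x : G, ∑ g : G, f (x⁻¹ * g * x) * w (x⁻¹ * g * x) = ∑ y : G, w y * f y := by
    intro x
    rw [← Function.Bijective.sum_comp (conj_bijective x) (fun y => w y * f y)]
    exact Finset.sum_congr rfl fun g _ => mul_comm _ _
  rw [Finset.sum_congr rfl fun x _ => h2 x, Finset.sum_const, Finset.card_univ, nsmul_eq_mul, Nat.card_eq_fintype_card]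

variable (hD : DadeHypothesis A L H)
include hD

theorem ww_eq {α : L → ℂ} {a : L} (ha : (a : G) ∈ A) {u : G} (hu : u ∈ H a) :
    ww A L H α (a * u) = α a * (Nat.card (H (a : G)) : ℂ)⁻¹ := by
  classical
  rw [ww, Finset.sum_eq_single a]
  · rw [if_pos ⟨ha, by rwa [inv_mul_cancel_left]⟩]
  · intro b _ hb
    rw [if_neg]
    rintro ⟨hbA, h⟩
    apply hb
    have := (conj_parts hD ha hbA hu h (g := 1) (by group)).1
    apply Subtype.ext
    rw [← this]; group
  · intro h; exact absurd (Finset.mem_univ _) h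

omit [Fintype L] in
theorem tau_eq {α : L → ℂ} (hα : IsClassFunction L α) {a : L} (ha : (a : G) ∈ A) {u g x : G} (hu : u ∈ H a)
    (hx : x * g * x⁻¹ = a * u) : dadeIsometry A L H α g = α a := by
  classical
  have h : ∃ a : ↥L, (a : G) ∈ A ∧ ∃ x : G, ∃ u ∈ H (a : G), x * g * x⁻¹ = (a : G) * u := ⟨a, ha, x, u, hu, hx⟩
  rw [dadeIsometry, dif_pos h]
  obtain ⟨hb, y, v, hv, hy⟩ := Classical.choose_spec h
  have e : (y * x⁻¹) * (a * u) * (y * x⁻¹)⁻¹ = ((Classical.choose h : L) : G) * v := by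
    rw [← hx, ← hy]; group
  obtain ⟨l, hl, hl2⟩ := conj_in_L hD ha hb hu hv e
  rw [← hα a ⟨l, hl⟩]
  apply congrArg α
  apply Subtype.ext
  exact hl2.symm

omit [Fintype L] in
theorem tau_coset {α : L → ℂ} (hα : IsClassFunction L α) {a : L} (ha : (a : G) ∈ A) {u : G} (hu : u ∈ H a) :
    dadeIsometry A L H α (a * u) = α a :=
  tau_eq hD hα ha hu (x := 1) (by group)

omit [Fintype G] [Fintype L] hD in
theorem tau_zero {α : L → ℂ} {g : G} (h : ¬ ∃ a : ↥L, (a : G) ∈ A ∧ ∃ x : G, ∃ u ∈ H (a : G), x * g * x⁻¹ = (a : G) * u) :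
    dadeIsometry A L H α g = 0 := by
  rw [dadeIsometry, dif_neg h]

omit [Fintype L] in
theorem tau_classFn {α : L → ℂ} (hα : IsClassFunction L α) : IsClassFunction G (dadeIsometry A L H α) := by
  intro g h
  by_cases hg : ∃ a : ↥L, (a : G) ∈ A ∧ ∃ x : G, ∃ u ∈ H (a : G), x * g * x⁻¹ = (a : G) * u
  · obtain ⟨a, ha, x, u, hu, hx⟩ := hg
    rw [tau_eq hD hα ha hu hx, tau_eq hD hα ha hu (x := x * h⁻¹) (by rw [← hx]; group)]
  · rw [tau_zero hg, tau_zero]
    rintro ⟨a, ha, x, u, hu, hx⟩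
    exact hg ⟨a, ha, x * h, u, hu, by rw [← hx]; group⟩

open Classical in
theorem sum_ww_conj {α : L → ℂ} (hα : IsClassFunction L α) (g : G) :
    ∑ x : G, ww A L H α (x⁻¹ * g * x) = (Nat.card L : ℂ) * dadeIsometry A L H α g := by
  by_cases hg : ∃ a : ↥L, (a : G) ∈ A ∧ ∃ x : G, ∃ u ∈ H (a : G), x * g * x⁻¹ = (a : G) * u
  · obtain ⟨a, ha, x0, u, hu, hx0⟩ := hg
    rw [tau_eq hD hα ha hu hx0]
    have e1 : ∑ x : G, ww A L H α (x⁻¹ * g * x) = ∑ x : G, ww A L H α (x⁻¹ * (a * u) * x) := by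
      refine Fintype.sum_equiv (Equiv.mulLeft x0) _ _ fun x => ?_
      simp only [Equiv.coe_mulLeft]
      rw [← hx0]
      congr 1
      group
    rw [e1]
    obtain ⟨T, hT⟩ : ∃ T : Set G, T = (Subgroup.centralizer ({(a : G)} : Set G) : Set G) * (L : Set G) := ⟨_, rfl⟩
    have e2 : ∀ x : G, ww A L H α (x⁻¹ * (a * u) * x) = if x ∈ T then α a * (Nat.card (H (a : G)) : ℂ)⁻¹ else 0 := by
      intro x
      by_cases hx : x ∈ T
      · rw [if_pos hx]
        rw [hT] at hx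
        obtain ⟨c, hc, l, hl, rfl⟩ := hx
        have hc' := mem_cent.mp hc
        have hac : c⁻¹ * (a : G) * c = a := by
          rw [mul_assoc, ← hc', inv_mul_cancel_left]
        have hu' : c⁻¹ * u * c ∈ H a := by
          have := hD.conj_mem_H a ha c⁻¹ (Subgroup.inv_mem _ hc) u hu
          rwa [inv_inv] at this
        set b : L := (⟨l, hl⟩ : L)⁻¹ * a * ((⟨l, hl⟩ : L)⁻¹)⁻¹ with hb
        have hbA : (b : G) ∈ A := by
          have := hD.conj_mem l⁻¹ (L.inv_mem hl) a ha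
          simpa [hb] using this
        have hbe : (b : G) = l⁻¹ * a * l⁻¹⁻¹ := by simp [hb]
        have hbu : l⁻¹ * (c⁻¹ * u * c) * l⁻¹⁻¹ ∈ H b := by
          rw [hbe]; exact H_conj_le hD ha (L.inv_mem hl) hu'
        have e : (c * l)⁻¹ * (a * u) * (c * l) = b * (l⁻¹ * (c⁻¹ * u * c) * l⁻¹⁻¹) := by
          rw [hbe]
          calc (c * l)⁻¹ * (a * u) * (c * l) = l⁻¹ * (c⁻¹ * a * c) * (c⁻¹ * u * c) * l := by group
            _ = l⁻¹ * a * (c⁻¹ * u * c) * l := by rw [hac]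
            _ = _ := by group
        show ww A L H α ((c * l)⁻¹ * (a * u) * (c * l)) = _
        rw [e, ww_eq hD hbA hbu, hb, hα]
        congr 2
        rw [show (((⟨l, hl⟩ : L)⁻¹ * a * ((⟨l, hl⟩ : L)⁻¹)⁻¹ : L) : G) = l⁻¹ * a * l⁻¹⁻¹ from hbe,
          H_conj hD ha (L.inv_mem hl)]
        rw [Subgroup.card_map_of_injective (MulAut.conj l⁻¹).injective]
      · rw [if_neg hx, ww]
        refine Finset.sum_eq_zero fun b _ => ?_
        rw [if_neg]
        rintro ⟨hbA, h⟩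
        apply hx
        obtain ⟨h1, -⟩ := conj_parts hD ha hbA hu h (g := x⁻¹) (by group)
        obtain ⟨l, hl, hl2⟩ := hD.fusion a ha x⁻¹ (by rw [h1]; exact hbA)
        rw [hT]
        refine ⟨x * l⁻¹⁻¹, mem_cent.mpr ?_, l⁻¹, L.inv_mem hl, by simp⟩
        rw [inv_inv]
        calc x * l * a = x * (l * a * l⁻¹) * l := by group
          _ = x * (x⁻¹ * a * x⁻¹⁻¹) * l := by rw [hl2]
          _ = a * (x * l) := by group
    rw [Finset.sum_congr rfl fun x _ => e2 x, ← Finset.sum_filter, Finset.sum_const, nsmul_eq_mul]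
    have hcT : (Nat.card T) * Nat.card ↥(L ⊓ Subgroup.centralizer ({(a : G)} : Set G)) =
        Nat.card (Subgroup.centralizer ({(a : G)} : Set G)) * Nat.card L := by
      rw [inf_comm, hT]; exact Cfsg.Agent.Lib.Basic.card_mul_mul_card_inf _ _
    rw [card_cent hD ha] at hcT
    have hpos : 0 < Nat.card ↥(L ⊓ Subgroup.centralizer ({(a : G)} : Set G)) := Nat.card_pos
    have hcT2 : Nat.card T = Nat.card (H (a : G)) * Nat.card L := by
      apply Nat.eq_of_mul_eq_mul_right hpos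
      rw [hcT]; ring
    have hf : (Finset.univ.filter (fun x => x ∈ T)).card = Nat.card T := by
      rw [Nat.card_eq_fintype_card, Fintype.card_subtype]
    rw [hf, hcT2]
    have hne : (Nat.card (H (a : G)) : ℂ) ≠ 0 := Nat.cast_ne_zero.mpr Nat.card_pos.ne'
    push_cast
    field_simp
  · rw [tau_zero hg, mul_zero]
    refine Finset.sum_eq_zero fun x _ => ?_
    rw [ww]
    refine Finset.sum_eq_zero fun a _ => ?_
    rw [if_neg]
    rintro ⟨hA, h⟩
    exact hg ⟨a, hA, x⁻¹, _, h, by group⟩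

open Classical in
/-- the basic summation formula for the Dade map -/
theorem sum_tau {α : L → ℂ} (hα : IsClassFunction L α) (f : G → ℂ) (hf : IsClassFunction G f) :
    (Nat.card G : ℂ)⁻¹ * ∑ g : G, dadeIsometry A L H α g * f g =
    (Nat.card L : ℂ)⁻¹ * ∑ a : L, if (a : G) ∈ A then α a * ((Nat.card (H (a : G)) : ℂ)⁻¹ * ∑ᶠ u ∈ (H (a : G) : Set G), f (a * u)) else 0 := by
  have h1 := avg_conj (ww A L H α) f hf
  have h2 : ∀ g : G, f g * ∑ x : G, ww A L H α (x⁻¹ * g * x) = (Nat.card L : ℂ) * (dadeIsometry A L H α g * f g) := by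
    intro g; rw [sum_ww_conj hD hα]; ring
  rw [Finset.sum_congr rfl fun g _ => h2 g, ← Finset.mul_sum, sum_ww] at h1
  have hG : (Nat.card G : ℂ) ≠ 0 := Nat.cast_ne_zero.mpr Nat.card_pos.ne'
  have hL : (Nat.card L : ℂ) ≠ 0 := Nat.cast_ne_zero.mpr Nat.card_pos.ne'
  rw [inv_mul_eq_iff_eq_mul₀ hG, ← mul_assoc, mul_comm (Nat.card G : ℂ), mul_assoc, eq_inv_mul_iff_mul_eq₀ hL]
  exact h1

theorem inner_adj {α : L → ℂ} (hα : IsClassFunction L α) (hαA : ∀ x : L, (x : G) ∉ A → α x = 0)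
    (χ : G → ℂ) (ψ : L → ℂ) (hχ : IsClassFunction G χ)
    (hψ : ∀ a : L, (a : G) ∈ A → ψ a = (Nat.card (H (a : G)) : ℂ)⁻¹ * ∑ᶠ u ∈ (H (a : G) : Set G), χ (a * u)) :
    classInner (dadeIsometry A L H α) χ = classInner α ψ := by
  classical
  rw [classInner_def, sum_tau hD hα (fun g => conj (χ g)) (fun g h => congrArg conj (hχ g h)), classInner_def]
  congr 1
  refine Finset.sum_congr rfl fun a _ => ?_
  by_cases ha : (a : G) ∈ A
  · rw [if_pos ha, hψ a ha]
    congr 1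
    rw [finsum_H, finsum_H, map_mul, map_sum]
    congr 1
    · simp
    · refine Finset.sum_congr rfl fun u _ => ?_
      split_ifs <;> simp
  · rw [if_neg ha, hαA a ha]; ring

theorem isometry {α β : L → ℂ} (hα : IsClassFunction L α) (hαA : ∀ x : L, (x : G) ∉ A → α x = 0)
    (hβ : IsClassFunction L β) :
    classInner (dadeIsometry A L H α) (dadeIsometry A L H β) = classInner α β := by
  classical
  refine inner_adj hD hα hαA _ _ (tau_classFn hD hβ) fun a ha => ?_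
  rw [finsum_H]
  have : ∀ u : G, (if u ∈ H (a : G) then dadeIsometry A L H β (a * u) else 0) = if u ∈ H (a : G) then β a else 0 := by
    intro u
    split_ifs with hu
    · exact tau_coset hD hβ ha hu
    · rfl
  rw [Finset.sum_congr rfl fun u _ => this u, ← Finset.sum_filter, Finset.sum_const, nsmul_eq_mul]
  have hf : (Finset.univ.filter (fun x => x ∈ H (a : G))).card = Nat.card (H (a : G)) := by
    rw [Nat.card_eq_fintype_card, Fintype.card_subtype]
  have hne : (Nat.card (H (a : G)) : ℂ) ≠ 0 := Nat.cast_ne_zero.mpr Nat.card_pos.ne'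
  rw [hf]
  field_simp

end dadesum
section dadenorm

variable [Fintype G] {A : Set G} {L : Subgroup G} [Fintype L] {H : G → Subgroup G}

open Classical in
theorem norm_ineq (hD : DadeHypothesis A L H) (χ : G → ℂ) (hχ : IsClassFunction G χ) (ψ : L → ℂ)
    (hψ : ∀ a : L, (a : G) ∈ A → ψ a = (Nat.card (H a) : ℂ)⁻¹ * ∑ᶠ u ∈ (H a : Set G), χ (a * u)) :
    (Nat.card L : ℝ)⁻¹ * ∑ᶠ a ∈ {a : L | (a : G) ∈ A}, ‖ψ a‖ ^ 2 ≤ (Nat.card G : ℝ)⁻¹ * ∑ᶠ g ∈ {g : G | ∃ a ∈ A, ∃ u ∈ H a, ∃ x : G, x * g * x⁻¹ = a * u}, ‖χ g‖ ^ 2 := by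
  have hone : IsClassFunction L (fun a => if (a : G) ∈ A then (1 : ℂ) else 0) := by
    intro g h
    have : ((h * g * h⁻¹ : L) : G) ∈ A ↔ (g : G) ∈ A := by
      constructor
      · intro h1
        have := hD.conj_mem (h : G)⁻¹ (L.inv_mem h.2) _ h1
        have e : (h : G)⁻¹ * ((h * g * h⁻¹ : L) : G) * (h : G)⁻¹⁻¹ = g := by push_cast; group
        rwa [e] at this
      · intro h1
        have := hD.conj_mem h h.2 _ h1
        simpa using this
    show (if ((h * g * h⁻¹ : L) : G) ∈ A then (1 : ℂ) else 0) = if (g : G) ∈ A then 1 else 0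
    by_cases hg : (g : G) ∈ A
    · rw [if_pos hg, if_pos (this.mpr hg)]
    · rw [if_neg hg, if_neg (fun h => hg (this.mp h))]
  have key := sum_tau hD hone (fun g => ((‖χ g‖ ^ 2 : ℝ) : ℂ)) (fun g h => by
    show ((‖χ (h * g * h⁻¹)‖ ^ 2 : ℝ) : ℂ) = _
    rw [hχ])
  have ht : ∀ g : G, dadeIsometry A L H (fun a => if (a : G) ∈ A then (1 : ℂ) else 0) g * ((‖χ g‖ ^ 2 : ℝ) : ℂ) =
      ((if g ∈ {g : G | ∃ a ∈ A, ∃ u ∈ H a, ∃ x : G, x * g * x⁻¹ = a * u} then ‖χ g‖ ^ 2 else 0 : ℝ) : ℂ) := by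
    intro g
    by_cases hg : g ∈ {g : G | ∃ a ∈ A, ∃ u ∈ H a, ∃ x : G, x * g * x⁻¹ = a * u}
    · rw [if_pos hg]
      obtain ⟨a, ha, u, hu, x, hx⟩ := hg
      rw [tau_eq hD hone (a := ⟨a, hD.subset ha⟩) ha hu hx, if_pos ha, one_mul]
    · rw [if_neg hg, tau_zero, zero_mul, Complex.ofReal_zero]
      rintro ⟨a, ha, x, u, hu, hx⟩
      exact hg ⟨a, ha, u, hu, x, hx⟩
  have hr : ∀ a : L, (if (a : G) ∈ A then (if (a : G) ∈ A then (1 : ℂ) else 0) * ((Nat.card (H (a : G)) : ℂ)⁻¹ *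
      ∑ᶠ u ∈ (H (a : G) : Set G), ((‖χ ((a : G) * u)‖ ^ 2 : ℝ) : ℂ)) else 0) =
      ((if (a : G) ∈ A then (Nat.card (H (a : G)) : ℝ)⁻¹ * ∑ u : G, (if u ∈ H (a : G) then ‖χ ((a : G) * u)‖ ^ 2 else 0) else 0 : ℝ) : ℂ) := by
    intro a
    by_cases ha : (a : G) ∈ A
    · rw [if_pos ha, if_pos ha, if_pos ha, one_mul, finsum_H]
      push_cast
      congr 1
      refine Finset.sum_congr rfl fun u _ => ?_
      split_ifs <;> simp
    · rw [if_neg ha, if_neg ha]; simp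
  rw [Finset.sum_congr rfl fun g _ => ht g, Finset.sum_congr rfl fun a _ => hr a] at key
  have key2 : (Nat.card G : ℝ)⁻¹ * ∑ g : G, (if g ∈ {g : G | ∃ a ∈ A, ∃ u ∈ H a, ∃ x : G, x * g * x⁻¹ = a * u} then ‖χ g‖ ^ 2 else 0) =
      (Nat.card L : ℝ)⁻¹ * ∑ a : L, (if (a : G) ∈ A then (Nat.card (H (a : G)) : ℝ)⁻¹ * ∑ u : G, (if u ∈ H (a : G) then ‖χ ((a : G) * u)‖ ^ 2 else 0) else 0) := by
    rw [← Complex.ofReal_sum, ← Complex.ofReal_sum, ← Complex.ofReal_natCast, ← Complex.ofReal_natCast,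
      ← Complex.ofReal_inv, ← Complex.ofReal_inv, ← Complex.ofReal_mul, ← Complex.ofReal_mul] at key
    exact Complex.ofReal_injective key
  have hGs : ∑ᶠ g ∈ {g : G | ∃ a ∈ A, ∃ u ∈ H a, ∃ x : G, x * g * x⁻¹ = a * u}, ‖χ g‖ ^ 2 =
      ∑ g : G, (if g ∈ {g : G | ∃ a ∈ A, ∃ u ∈ H a, ∃ x : G, x * g * x⁻¹ = a * u} then ‖χ g‖ ^ 2 else 0) := by
    rw [finsum_mem_def, finsum_eq_sum_of_fintype]
    refine Finset.sum_congr rfl fun u _ => ?_
    rw [Set.indicator_apply]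
  have hLs : ∑ᶠ a ∈ {a : L | (a : G) ∈ A}, ‖ψ a‖ ^ 2 = ∑ a : L, (if (a : G) ∈ A then ‖ψ a‖ ^ 2 else 0) := by
    rw [finsum_mem_def, finsum_eq_sum_of_fintype]
    refine Finset.sum_congr rfl fun u _ => ?_
    rw [Set.indicator_apply]
    rfl
  rw [hGs, key2, hLs]
  refine mul_le_mul_of_nonneg_left ?_ (by positivity)
  refine Finset.sum_le_sum fun a _ => ?_
  by_cases ha : (a : G) ∈ A
  · rw [if_pos ha, if_pos ha, hψ a ha, finsum_H, ← Finset.sum_filter, ← Finset.sum_filter]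
    set s := Finset.univ.filter (fun u => u ∈ H (a : G)) with hs
    have hf : s.card = Nat.card (H (a : G)) := by
      rw [Nat.card_eq_fintype_card, Fintype.card_subtype]
    have hpos : (0 : ℝ) < Nat.card (H (a : G)) := Nat.cast_pos.mpr Nat.card_pos
    rw [norm_mul, mul_pow, norm_inv, Complex.norm_natCast]
    have h1 : ‖∑ u ∈ s, χ ((a : G) * u)‖ ≤ ∑ u ∈ s, ‖χ ((a : G) * u)‖ := norm_sum_le _ _
    have h2 : (∑ u ∈ s, ‖χ ((a : G) * u)‖) ^ 2 ≤ (s.card : ℝ) * ∑ u ∈ s, ‖χ ((a : G) * u)‖ ^ 2 :=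
      sq_sum_le_card_mul_sum_sq
    have h3 : ‖∑ u ∈ s, χ ((a : G) * u)‖ ^ 2 ≤ (Nat.card (H (a : G)) : ℝ) * ∑ u ∈ s, ‖χ ((a : G) * u)‖ ^ 2 := by
      rw [← hf]
      exact le_trans (pow_le_pow_left₀ (norm_nonneg _) h1 2) h2
    calc ((Nat.card (H (a : G)) : ℝ)⁻¹) ^ 2 * ‖∑ u ∈ s, χ ((a : G) * u)‖ ^ 2
        ≤ ((Nat.card (H (a : G)) : ℝ)⁻¹) ^ 2 * ((Nat.card (H (a : G)) : ℝ) * ∑ u ∈ s, ‖χ ((a : G) * u)‖ ^ 2) :=
          mul_le_mul_of_nonneg_left h3 (by positivity)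
      _ = _ := by field_simp
  · rw [if_neg ha, if_neg ha]

end dadenorm

end

end Cfsg.Agent.Lib.OddDade
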