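import Cfsg.Agent.Lib.OddTIFN
import Cfsg.Agent.Lib.PNilp
import Cfsg.Agent.Lib.FpfNilp
import Cfsg.Agent.Lib.CharCo
import Cfsg.Agent.Lib.CharTable
import Cfsg.Agent.Lib.CharGC
import Cfsg.Agent.S0188

set_option autoImplicit false

namespace Cfsg.Agent.Lib.OddFeit

open Cfsg Cfsg.Agent.Lib.CharBasic Cfsg.Agent.Lib.CharInd Cfsg.Agent.Lib.CharExc Cfsg.Agent.Lib.OddSgn Cfsg.Agent.Lib.CharLin
open Cfsg.Agent.Lib.OddCoh Cfsg.Agent.Lib.OddCohB Cfsg.Agent.Lib.OddCohC Cfsg.Agent.Lib.OddCohD Cfsg.Agent.Lib.OddCohE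
open Cfsg.Agent.Lib.OddCohF Cfsg.Agent.Lib.OddSib Cfsg.Agent.Lib.OddTIFN Cfsg.Agent.Lib.CharGC
open Cfsg.Agent.Lib.CharNormal Cfsg.Agent.Lib.CharMono Cfsg.Agent.Lib.OddZ
open scoped ComplexConjugate

noncomputable section

section ideg

variable {K : Type*} [Group K] [Finite K]

/-- the degree of an irreducible character, as a natural number -/
def ideg (θ : IrrCharacter K) : ℕ := (isIrr_one_eq θ.2).choose

theorem ideg_pos (θ : IrrCharacter K) : 0 < ideg θ := (isIrr_one_eq θ.2).choose_spec.1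

theorem ideg_spec (θ : IrrCharacter K) : θ.1 1 = ideg θ := (isIrr_one_eq θ.2).choose_spec.2

theorem ideg_dvd (θ : IrrCharacter K) : ideg θ ∣ Nat.card K := by
  exact CharCo.deg_dvd_card θ.2 (ideg_spec θ)

theorem sum_ideg : ∑ θ : IrrCharacter K, ideg θ ^ 2 = Nat.card K := by
  cases nonempty_fintype K
  exact CharTable.sum_sq_degrees ideg ideg_spec

theorem ideg_one : ideg (⟨fun _ => 1, isIrr_trivial⟩ : IrrCharacter K) = 1 := by
  have h : (1 : ℂ) = ideg (⟨fun _ => 1, isIrr_trivial⟩ : IrrCharacter K) :=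
    ideg_spec (⟨fun _ => 1, isIrr_trivial⟩ : IrrCharacter K)
  exact_mod_cast h.symm

theorem sq_dvd_sum {p : ℕ} [hp : Fact p.Prime] (hK : IsPGroup p K) (θ₀ : IrrCharacter K) :
    ideg θ₀ ^ 2 ∣ ∑ θ : IrrCharacter K with ideg θ < ideg θ₀, ideg θ ^ 2 := by
  classical
  obtain ⟨m, hm⟩ := hK.exists_card_eq
  have hpow : ∀ θ : IrrCharacter K, ∃ k, ideg θ = p ^ k := by
    intro θ
    have := ideg_dvd θ
    rw [hm] at this
    obtain ⟨k, -, hk⟩ := (Nat.dvd_prime_pow hp.out).mp this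
    exact ⟨k, hk⟩
  obtain ⟨k, hk⟩ := hpow θ₀
  have h1 : ideg θ₀ ^ 2 ∣ Nat.card K := by
    have h2 : ideg θ₀ ^ 2 ≤ Nat.card K := by
      rw [← sum_ideg (K := K)]
      exact Finset.single_le_sum (f := fun θ : IrrCharacter K => ideg θ ^ 2) (fun _ _ => Nat.zero_le _) (Finset.mem_univ θ₀)
    rw [hk, ← pow_mul, hm] at h2 ⊢
    exact pow_dvd_pow p ((Nat.pow_le_pow_iff_right hp.out.one_lt).mp h2)
  have h2 : ideg θ₀ ^ 2 ∣ ∑ θ : IrrCharacter K with ¬ ideg θ < ideg θ₀, ideg θ ^ 2 := by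
    refine Finset.dvd_sum fun θ hθ => ?_
    have h3 := (Finset.mem_filter.mp hθ).2
    obtain ⟨l, hl⟩ := hpow θ
    apply pow_dvd_pow_of_dvd
    rw [hk, hl] at h3 ⊢
    exact pow_dvd_pow p ((Nat.pow_le_pow_iff_right hp.out.one_lt).mp (not_lt.mp h3))
  have h3 := Finset.sum_filter_add_sum_filter_not (Finset.univ : Finset (IrrCharacter K)) (fun θ => ideg θ < ideg θ₀) (fun θ => ideg θ ^ 2)
  rw [sum_ideg] at h3
  exact (Nat.dvd_add_left h2).mp (h3 ▸ h1)

theorem sum_ge {p : ℕ} [hp : Fact p.Prime] (hK : IsPGroup p K) (θ₀ : IrrCharacter K) (h1 : 1 < ideg θ₀) :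
    ideg θ₀ ^ 2 ≤ ∑ θ : IrrCharacter K with ideg θ < ideg θ₀, ideg θ ^ 2 := by
  classical
  refine Nat.le_of_dvd ?_ (sq_dvd_sum hK θ₀)
  have h2 : ideg (⟨fun _ => 1, isIrr_trivial⟩ : IrrCharacter K) ^ 2 ≤ ∑ θ : IrrCharacter K with ideg θ < ideg θ₀, ideg θ ^ 2 :=
    Finset.single_le_sum (f := fun θ : IrrCharacter K => ideg θ ^ 2) (fun _ _ => Nat.zero_le _)
      (Finset.mem_filter.mpr ⟨Finset.mem_univ _, by rw [ideg_one]; exact h1⟩)
  rw [ideg_one] at h2
  omega

end ideg

section prod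

variable {K : Type*} [Group K] [Finite K] {P N : Subgroup K}

/-- internal direct products -/
theorem exists_equiv (hc : IsCompl P N) (hcomm : ∀ x ∈ P, ∀ y ∈ N, x * y = y * x) :
    ∃ e : P × N ≃* K, ∀ x y, e (x, y) = x * y := by
  let f : P × N →* K := MonoidHom.noncommCoprod P.subtype N.subtype (fun x y => hcomm x x.2 y y.2)
  have hf : ∀ x y, f (x, y) = x * y := fun x y => rfl
  have hdis := hc.disjoint
  have hbij : Function.Bijective f := by
    constructor
    · rw [injective_iff_map_eq_one]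
      rintro ⟨x, y⟩ h
      rw [hf] at h
      have h1 : (x : K) = (y : K)⁻¹ := eq_inv_of_mul_eq_one_left h
      have h2 : (x : K) ∈ P ⊓ N := ⟨x.2, by rw [h1]; exact N.inv_mem y.2⟩
      rw [hdis.eq_bot, Subgroup.mem_bot] at h2
      rw [h2, one_mul] at h
      exact Prod.ext (Subtype.ext h2) (Subtype.ext h)
    · intro k
      have h1 : f.range = ⊤ := by
        rw [eq_top_iff, ← hc.sup_eq_top, sup_le_iff]
        exact ⟨fun x hx => ⟨(⟨x, hx⟩, 1), by rw [hf]; simp⟩, fun y hy => ⟨(1, ⟨y, hy⟩), by rw [hf]; simp⟩⟩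
      exact MonoidHom.range_eq_top.mp h1 k
  exact ⟨MulEquiv.ofBijective f hbij, hf⟩

variable (e : P × N ≃* K)

def pr (a : IrrCharacter P × IrrCharacter N) : IrrCharacter K :=
  (irrEquiv e.symm) ⟨fun x => a.1.1 x.1 * a.2.1 x.2, S0188.prod_irr a.1.2 a.2.2⟩

theorem pr_apply (a : IrrCharacter P × IrrCharacter N) (k : K) : (pr e a).1 k = a.1.1 (e.symm k).1 * a.2.1 (e.symm k).2 := by
  rw [pr, irrEquiv_apply]

theorem pr_ideg (a : IrrCharacter P × IrrCharacter N) : ideg (pr e a) = ideg a.1 * ideg a.2 := by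
  have h1 := ideg_spec (pr e a)
  rw [pr_apply, map_one] at h1
  change a.1.1 1 * a.2.1 1 = _ at h1
  rw [ideg_spec, ideg_spec] at h1
  exact_mod_cast h1.symm

theorem pr_surj (θ : IrrCharacter K) : ∃ a, pr e a = θ := by
  have h1 := ((irrEquiv e) θ).2
  rw [S0188.result] at h1
  obtain ⟨φ, ψ, h2, h3, h4⟩ := h1
  refine ⟨(⟨φ, h2⟩, ⟨ψ, h3⟩), Subtype.ext ?_⟩
  funext k
  rw [pr_apply]
  have := congrFun h4 (e.symm k)
  rw [irrEquiv_apply, MulEquiv.apply_symm_apply] at this
  exact this.symm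

theorem pr_inj : Function.Injective (pr e) := by
  cases nonempty_fintype P
  cases nonempty_fintype N
  rintro ⟨a, b⟩ ⟨a', b'⟩ h
  have h1 : ∀ x y, a.1 x * b.1 y = a'.1 x * b'.1 y := by
    intro x y
    have := congrArg (fun θ : IrrCharacter K => θ.1 (e (x, y))) h
    simpa only [pr_apply, MulEquiv.symm_apply_apply] using this
  have ha : a = a' := by
    by_contra hne
    have h2 : classInner (fun x : P => a.1 x * b.1 1) a'.1 = 0 := by
      have : (fun x : P => a.1 x * b.1 1) = b.1 1 • a.1 := by funext x; simp [mul_comm]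
      rw [this, classInner_smul_left, irr_inner_ne a.2 a'.2 (fun h => hne (Subtype.ext h)), mul_zero]
    have h3 : (fun x : P => a.1 x * b.1 1) = b'.1 1 • a'.1 := by funext x; rw [h1 x 1]; simp [mul_comm]
    rw [h3, classInner_smul_left, irr_inner_self a'.2, mul_one] at h2
    exact isIrr_one_ne_zero b'.2 h2
  have hb : b = b' := by
    subst ha
    apply Subtype.ext
    funext y
    have h2 := h1 1 y
    exact mul_left_cancel₀ (isIrr_one_ne_zero a.2) h2
  rw [ha, hb]

end prod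
section bound

theorem irr_const {K : Type*} [Group K] [Finite K] {θ : K → ℂ} (hθ : IsIrrCharacter K θ) (h1 : ∀ a, θ a = θ 1) :
    θ = fun _ => 1 := by
  cases nonempty_fintype K
  funext a
  rw [h1 a]
  have hin := irr_inner_self hθ
  rw [classInner_def] at hin
  have h2 : ∀ a, θ a * (starRingEnd ℂ) (θ a) = θ 1 * (starRingEnd ℂ) (θ 1) := fun a => by rw [h1 a]
  rw [Finset.sum_congr rfl (fun a _ => h2 a), Finset.sum_const, Finset.card_univ, nsmul_eq_mul, Nat.card_eq_fintype_card,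
    ← mul_assoc, inv_mul_cancel₀ (Nat.cast_ne_zero.mpr Fintype.card_ne_zero), one_mul] at hin
  obtain ⟨d, hd0, hd⟩ := isIrr_one_eq hθ
  rw [hd] at hin ⊢
  rw [Complex.conj_natCast] at hin
  have : d * d = 1 := by exact_mod_cast hin
  rw [Nat.eq_one_of_mul_eq_one_right this]; simp

variable {L : Type*} [Group L] [Fintype L] {K : Subgroup L} [hK : K.Normal]

theorem orbit_card (hfpf : ∀ g : L, g ∉ K → ∀ k ∈ K, g * k = k * g → k = 1) {b : IrrCharacter K} (hb : b.1 ≠ fun _ => 1)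
    {X : Finset (IrrCharacter K)} (hX : ∀ g : L, (⟨cj g b.1, cj_isIrr g b.2⟩ : IrrCharacter K) ∈ X) : K.index ≤ X.card := by
  classical
  have h1 : Nat.card X = X.card := by rw [Nat.card_eq_fintype_card, Fintype.card_coe]
  rw [← h1]
  refine Nat.card_le_card_of_injective (fun q : L ⧸ K => (⟨⟨cj (Quotient.out q)⁻¹ b.1, cj_isIrr _ b.2⟩, hX _⟩ : X)) ?_
  intro q r h
  have h2 : cj (Quotient.out q)⁻¹ b.1 = cj (Quotient.out r)⁻¹ b.1 := congrArg (fun x : X => x.1.1) h
  have h3 : cj ((Quotient.out q)⁻¹ * Quotient.out r) b.1 = b.1 := by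
    rw [cj_mul, h2, cj_cj_inv]
  have h4 : (Quotient.out q)⁻¹ * Quotient.out r ∈ K := by
    by_contra h4
    exact hb (CharFrob.eq_one_of_cj_eq hfpf h4 b.2 h3)
  rw [← QuotientGroup.out_eq' q, ← QuotientGroup.out_eq' r]
  exact QuotientGroup.eq.mpr h4

theorem sum_bound (hfpf : ∀ g : L, g ∉ K → ∀ k ∈ K, g * k = k * g → k = 1) (hnil : Group.IsNilpotent K)
    (hnp : ¬ ∃ p m : ℕ, p.Prime ∧ Nat.card K = p ^ m) (θ₀ : IrrCharacter K) (h1 : 1 < ideg θ₀)
    [DecidablePred fun θ : IrrCharacter K => θ.1 ≠ (fun _ => 1) ∧ ideg θ < ideg θ₀] :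
    2 * K.index * ideg θ₀ < ∑ θ : IrrCharacter K with (θ.1 ≠ (fun _ => 1) ∧ ideg θ < ideg θ₀), ideg θ ^ 2 := by
  classical
  obtain ⟨p, hp, hpn⟩ := Nat.exists_prime_and_dvd h1.ne'
  haveI : Fact p.Prime := ⟨hp⟩
  obtain ⟨N, hNn, hNc, k, hk⟩ := PNilp.pNil_of_isNilpotent (p := p) hnil
  obtain ⟨P⟩ : Nonempty (Sylow p K) := inferInstance
  have hPn : (P : Subgroup K).Normal := (Group.isNilpotent_of_finite_tfae.out 0 3 rfl rfl).mp hnil p ⟨hp⟩ P
  have hPc : (P : Subgroup K).Characteristic := Sylow.characteristic_of_normal P hPn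
  obtain ⟨m, hm⟩ := P.isPGroup'.exists_card_eq
  have hcop : Nat.Coprime (Nat.card (P : Subgroup K)) (Nat.card N) := by
    rw [hm]; exact (hNc.pow_right m).symm
  have hinf : (P : Subgroup K) ⊓ N = ⊥ := Subgroup.inf_eq_bot_of_coprime hcop
  have hcompl : IsCompl (P : Subgroup K) N := by
    have h2 : Nat.card (P : Subgroup K) * Nat.card N = Nat.card K := by
      have h3 : Nat.card N * N.index = Nat.card K := N.card_mul_index
      have h4 : Nat.card (P : Subgroup K) * (P : Subgroup K).index = Nat.card K := (P : Subgroup K).card_mul_index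
      have h5 : ¬ p ∣ (P : Subgroup K).index := P.not_dvd_index
      have h6 : Nat.card (P : Subgroup K) ∣ N.index := by
        apply Nat.Coprime.dvd_of_dvd_mul_left (k := Nat.card (P : Subgroup K)) (m := Nat.card N) hcop
        rw [h3, ← h4]; exact dvd_mul_right _ _
      have h7 : N.index ∣ Nat.card (P : Subgroup K) := by
        rw [hk]
        apply Nat.Coprime.dvd_of_dvd_mul_right (n := (P : Subgroup K).index)
        · exact Nat.Coprime.pow_left _ ((Nat.Prime.coprime_iff_not_dvd hp).mpr h5)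
        · rw [← hk, h4, ← h3]; exact dvd_mul_left _ _
      rw [Nat.dvd_antisymm h6 h7, mul_comm]; exact h3
    have h3 := Subgroup.isComplement'_of_coprime h2 hcop
    exact h3.isCompl
  have hcomm : ∀ x ∈ (P : Subgroup K), ∀ y ∈ N, x * y = y * x := fun x hx y hy =>
    Subgroup.commute_of_normal_of_disjoint _ _ hPn hNn hcompl.disjoint x y hx hy
  obtain ⟨e, he⟩ := exists_equiv hcompl hcomm
  obtain ⟨⟨α₀, β₀⟩, h0⟩ := pr_surj e θ₀
  have hdeg : ideg θ₀ = ideg α₀ * ideg β₀ := by rw [← h0, pr_ideg]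
  have hβp : ¬ p ∣ ideg β₀ := by
    intro h
    have h2 := Nat.dvd_gcd (h.trans (ideg_dvd β₀)) (dvd_refl p)
    rw [hNc] at h2
    exact hp.one_lt.ne' (Nat.dvd_one.mp h2)
  have hα1 : 1 < ideg α₀ := by
    have h2 : p ∣ ideg α₀ := by
      rw [hdeg] at hpn
      rcases (Nat.Prime.dvd_mul hp).mp hpn with h | h
      · exact h
      · exact absurd h hβp
    exact lt_of_lt_of_le hp.one_lt (Nat.le_of_dvd (ideg_pos _) h2)
  have hβ0 := ideg_pos β₀
  -- a nontrivial character of N of degree ideg β₀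
  obtain ⟨β₁, hβ₁, hβ₁d⟩ : ∃ β₁ : IrrCharacter N, β₁.1 ≠ (fun _ => 1) ∧ ideg β₁ = ideg β₀ := by
    by_cases h : β₀.1 = fun _ => 1
    · have h2 : ideg β₀ = 1 := by
        have : β₀ = ⟨fun _ => 1, isIrr_trivial⟩ := Subtype.ext h
        rw [this, ideg_one]
      have hNne : N ≠ ⊥ := by
        intro h3
        apply hnp
        refine ⟨p, m, hp, ?_⟩
        rw [← hm]
        have h4 : (P : Subgroup K) = ⊤ := by
          have := hcompl.sup_eq_top
          rwa [h3, sup_bot_eq] at this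
        rw [h4, Subgroup.card_top]
      haveI : Nontrivial N := (Subgroup.nontrivial_iff_ne_bot N).mpr hNne
      have hNs : Group.IsSolvable N := inferInstance
      obtain ⟨x, -, hx⟩ := SetLike.exists_of_lt (Group.IsSolvable.commutator_lt_top_of_nontrivial (G := N))
      obtain ⟨l, hl⟩ := exists_lin_ne_one hx
      refine ⟨⟨linFn l, linFn_isIrr l⟩, ?_, ?_⟩
      · intro h4
        have := congrFun h4 x
        change linFn l x = 1 at this
        rw [linFn_apply] at this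
        exact hl (Units.ext this)
      · have h4 := ideg_spec (⟨linFn l, linFn_isIrr l⟩ : IrrCharacter N)
        have h5 : (1 : ℂ) = ideg (⟨linFn l, linFn_isIrr l⟩ : IrrCharacter N) := by rw [← h4]; exact (linFn_apply_one l).symm
        rw [h2]; exact_mod_cast h5.symm
    · exact ⟨β₀, h, rfl⟩
  -- the number of such characters
  obtain ⟨B₁, hB₁⟩ : ∃ B₁ : Finset (IrrCharacter N), B₁ = Finset.univ.filter (fun β => β.1 ≠ (fun _ => 1) ∧ ideg β = ideg β₀) := ⟨_, rfl⟩
  let one : IrrCharacter (P : Subgroup K) := ⟨fun _ => 1, isIrr_trivial⟩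
  let oneN : IrrCharacter N := ⟨fun _ => 1, isIrr_trivial⟩
  have hB₁card : K.index ≤ B₁.card := by
    have h2 : (B₁.image (fun β => pr e (one, β))).card = B₁.card :=
      Finset.card_image_of_injective _ (fun β β' h => (Prod.mk.inj (pr_inj e h)).2)
    rw [← h2]
    have hb : (pr e (one, β₁)).1 ≠ fun _ => 1 := by
      intro h
      apply hβ₁
      funext y
      have := congrFun h (e (1, y))
      rw [pr_apply, MulEquiv.symm_apply_apply] at this
      change 1 * β₁.1 y = 1 at this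
      rwa [one_mul] at this
    refine orbit_card hfpf hb (fun g => ?_)
    rw [Finset.mem_image]
    obtain ⟨⟨a, b⟩, hab⟩ := pr_surj e (⟨cj g (pr e (one, β₁)).1, cj_isIrr g (pr e (one, β₁)).2⟩ : IrrCharacter K)
    -- the kernel contains P
    have hker : ∀ x : (P : Subgroup K), (pr e (a, b)).1 x = (pr e (a, b)).1 1 := by
      intro x
      rw [hab]
      change cj g (pr e (one, β₁)).1 x = cj g (pr e (one, β₁)).1 1
      rw [cj_eq_comp]
      dsimp only
      have hmem : cjAut (N := K) g x ∈ (P : Subgroup K) := by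
        have := (Subgroup.characteristic_iff_comap_eq.mp hPc) (cjAut (N := K) g)
        have hx : (x : K) ∈ Subgroup.comap (cjAut (N := K) g).toMonoidHom (P : Subgroup K) := by rw [this]; exact x.2
        exact hx
      have h3 : ∀ z ∈ (P : Subgroup K), (pr e (one, β₁)).1 z = β₁.1 1 := by
        intro z hz
        have h4 : z = e (⟨z, hz⟩, 1) := by rw [he]; simp
        rw [pr_apply, h4, MulEquiv.symm_apply_apply]
        change 1 * β₁.1 1 = _
        rw [one_mul]
      rw [h3 _ hmem, map_one, h3 _ (one_mem _)]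
    have ha : a = one := by
      apply Subtype.ext
      apply irr_const a.2
      intro x
      have h3 := hker x
      have h4 : (x : K) = e (x, 1) := by rw [he]; simp
      rw [pr_apply, pr_apply, h4, MulEquiv.symm_apply_apply, map_one] at h3
      exact mul_right_cancel₀ (isIrr_one_ne_zero b.2) h3
    refine ⟨b, ?_, by rw [← hab, ha]⟩
    rw [hB₁, Finset.mem_filter]
    have hdb : ideg b = ideg β₀ := by
      have h3 : ideg (pr e (a, b)) = ideg (pr e (one, β₁)) := by
        have h4 := ideg_spec (pr e (a, b))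
        rw [hab] at h4
        change cj g (pr e (one, β₁)).1 1 = _ at h4
        have h5 : cj g (pr e (one, β₁)).1 1 = (pr e (one, β₁)).1 1 := by
          rw [cj_eq_comp]; dsimp only; rw [map_one]
        rw [h5, ideg_spec] at h4
        rw [hab]
        exact_mod_cast h4.symm
      rw [pr_ideg, pr_ideg, ha] at h3
      have h4 := Nat.eq_of_mul_eq_mul_left (ideg_pos one) h3
      rw [h4, hβ₁d]
    refine ⟨Finset.mem_univ _, ?_, hdb⟩
    intro hb1
    apply hb
    have h5 : (pr e (a, b)).1 = fun _ => 1 := by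
      funext k
      rw [pr_apply, ha, hb1]
      change (1 : ℂ) * 1 = 1
      rw [one_mul]
    rw [hab] at h5
    change cj g (pr e (one, β₁)).1 = fun _ => 1 at h5
    have h6 := congrArg (cj g⁻¹) h5
    rw [cj_inv_cj] at h6
    rw [h6]
    funext k
    rfl
  have honeB : oneN ∉ B₁ := by
    rw [hB₁, Finset.mem_filter]
    exact fun h => h.2.1 rfl
  let B : Finset (IrrCharacter N) := insert oneN B₁
  have hBsum : K.index * ideg β₀ ^ 2 + 1 ≤ ∑ β ∈ B, ideg β ^ 2 := by
    rw [Finset.sum_insert honeB, ideg_one]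
    have h2 : ∑ β ∈ B₁, ideg β ^ 2 = B₁.card * ideg β₀ ^ 2 := by
      rw [Finset.sum_congr rfl (g := fun _ => ideg β₀ ^ 2) (fun β hβ => by
        rw [hB₁, Finset.mem_filter] at hβ; rw [hβ.2.2]), Finset.sum_const, smul_eq_mul]
    rw [h2]
    have := Nat.mul_le_mul_right (ideg β₀ ^ 2) hB₁card
    omega
  have hBle : ∀ β ∈ B, ideg β ≤ ideg β₀ := by
    intro β hβ
    rcases Finset.mem_insert.mp hβ with h | h
    · rw [h, ideg_one]; exact hβ0
    · rw [hB₁, Finset.mem_filter] at h; exact h.2.2.le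
  obtain ⟨A, hA⟩ : ∃ A : Finset (IrrCharacter (P : Subgroup K)), A = Finset.univ.filter (fun α => ideg α < ideg α₀) := ⟨_, rfl⟩
  have hAsum : ideg α₀ ^ 2 ≤ ∑ α ∈ A, ideg α ^ 2 := by
    rw [hA]; exact sum_ge P.isPGroup' α₀ hα1
  obtain ⟨T, hT⟩ : ∃ T : Finset (IrrCharacter K), T = Finset.univ.filter (fun θ => θ.1 ≠ (fun _ => 1) ∧ ideg θ < ideg θ₀) := ⟨_, rfl⟩
  rw [← hT]
  have hsub : (A ×ˢ B).image (pr e) ⊆ insert (⟨fun _ => 1, isIrr_trivial⟩ : IrrCharacter K) T := by
    intro θ hθ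
    obtain ⟨⟨α, β⟩, hab, rfl⟩ := Finset.mem_image.mp hθ
    rw [Finset.mem_product] at hab
    rw [Finset.mem_insert]
    by_cases h : (pr e (α, β)).1 = fun _ => 1
    · left; exact Subtype.ext h
    · right
      rw [hT, Finset.mem_filter]
      refine ⟨Finset.mem_univ _, h, ?_⟩
      rw [pr_ideg, hdeg]
      have h2 : ideg α < ideg α₀ := by
        have := hab.1
        rw [hA, Finset.mem_filter] at this
        exact this.2
      exact Nat.mul_lt_mul_of_lt_of_le h2 (hBle β hab.2) hβ0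
  have hle : (∑ α ∈ A, ideg α ^ 2) * (∑ β ∈ B, ideg β ^ 2) ≤ 1 + ∑ θ ∈ T, ideg θ ^ 2 := by
    have h2 : (∑ α ∈ A, ideg α ^ 2) * (∑ β ∈ B, ideg β ^ 2) = ∑ θ ∈ (A ×ˢ B).image (pr e), ideg θ ^ 2 := by
      rw [Finset.sum_image (fun x _ y _ h => pr_inj e h), Finset.sum_mul_sum, ← Finset.sum_product']
      refine Finset.sum_congr rfl fun ab _ => ?_
      rw [pr_ideg, mul_pow]
    rw [h2]
    refine (Finset.sum_le_sum_of_subset hsub).trans ?_
    have h1T : (⟨fun _ => 1, isIrr_trivial⟩ : IrrCharacter K) ∉ T := by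
      rw [hT, Finset.mem_filter]
      exact fun h => h.2.1 rfl
    rw [Finset.sum_insert h1T, ideg_one, one_pow]
  have hlow := Nat.mul_le_mul hAsum hBsum
  have e0 : 0 < K.index := Nat.pos_of_ne_zero Subgroup.FiniteIndex.index_ne_zero
  have hfin := hlow.trans hle
  rw [hdeg]
  have hn2 : 2 ≤ ideg α₀ * ideg β₀ := by nlinarith
  have k1 : K.index * (2 * (ideg α₀ * ideg β₀)) ≤ K.index * ((ideg α₀ * ideg β₀) * (ideg α₀ * ideg β₀)) :=
    Nat.mul_le_mul_left _ (Nat.mul_le_mul_right _ hn2)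
  have k2 : 4 ≤ ideg α₀ ^ 2 := by nlinarith
  have k3 : ideg α₀ ^ 2 * (K.index * ideg β₀ ^ 2 + 1) =
      K.index * ((ideg α₀ * ideg β₀) * (ideg α₀ * ideg β₀)) + ideg α₀ ^ 2 := by ring
  have k4 : 2 * K.index * (ideg α₀ * ideg β₀) = K.index * (2 * (ideg α₀ * ideg β₀)) := by ring
  rw [k3] at hfin
  rw [k4]
  omega

end bound
section boundp

variable {L : Type*} [Group L] [Fintype L] {K : Subgroup L} [hK : K.Normal]

theorem card_lin_ne (K : Type*) [Group K] [Finite K] [DecidablePred fun θ : IrrCharacter K => θ.1 ≠ (fun _ => 1) ∧ ideg θ < 2] :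
    ∑ θ : IrrCharacter K with (θ.1 ≠ (fun _ => 1) ∧ ideg θ < 2), ideg θ ^ 2 + 1 = (commutator K).index := by
  classical
  have hl : ∀ θ : IrrCharacter K, ideg θ < 2 ↔ θ.1 1 = 1 := by
    intro θ
    rw [ideg_spec]
    have := ideg_pos θ
    constructor
    · intro h
      have : ideg θ = 1 := by omega
      rw [this]; simp
    · intro h
      have : ideg θ = 1 := by exact_mod_cast h
      omega
  rw [← card_lin, Nat.card_eq_fintype_card, Fintype.card_subtype]
  have h1 : (Finset.univ.filter fun θ : IrrCharacter K => θ.1 1 = 1) =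
      insert (⟨fun _ => 1, isIrr_trivial⟩ : IrrCharacter K) (Finset.univ.filter fun θ => θ.1 ≠ (fun _ => 1) ∧ ideg θ < 2) := by
    ext θ
    simp only [Finset.mem_filter, Finset.mem_univ, true_and, Finset.mem_insert]
    rw [hl]
    constructor
    · intro h
      by_cases h2 : θ.1 = fun _ => 1
      · left; exact Subtype.ext h2
      · right; exact ⟨h2, h⟩
    · rintro (rfl | h)
      · rfl
      · exact h.2
  rw [h1, Finset.card_insert_of_notMem (by rw [Finset.mem_filter]; exact fun h => h.2.1 rfl), Finset.card_eq_sum_ones]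
  congr 1
  refine Finset.sum_congr rfl fun θ hθ => ?_
  have h2 := (Finset.mem_filter.mp hθ).2.2
  have h3 := ideg_pos θ
  have : ideg θ = 1 := by omega
  rw [this]; rfl

theorem sum_bound_p {p : ℕ} [hp : Fact p.Prime] (hKp : IsPGroup p K) (hbig : 4 * K.index ^ 2 + 1 < (commutator K).index)
    (θ₀ : IrrCharacter K) (h1 : 1 < ideg θ₀)
    [DecidablePred fun θ : IrrCharacter K => θ.1 ≠ (fun _ => 1) ∧ ideg θ < ideg θ₀] :
    2 * K.index * ideg θ₀ < ∑ θ : IrrCharacter K with (θ.1 ≠ (fun _ => 1) ∧ ideg θ < ideg θ₀), ideg θ ^ 2 := by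
  classical
  by_cases h : ideg θ₀ ≤ 2 * K.index
  · have h2 := card_lin_ne K
    have h3 : ∑ θ : IrrCharacter K with (θ.1 ≠ (fun _ => 1) ∧ ideg θ < 2), ideg θ ^ 2 ≤
        ∑ θ : IrrCharacter K with (θ.1 ≠ (fun _ => 1) ∧ ideg θ < ideg θ₀), ideg θ ^ 2 := by
      refine Finset.sum_le_sum_of_subset fun θ hθ => ?_
      obtain ⟨h4, h5, h6⟩ := Finset.mem_filter.mp hθ
      exact Finset.mem_filter.mpr ⟨h4, h5, by omega⟩
    have h4 : 2 * K.index * ideg θ₀ ≤ 4 * K.index ^ 2 := by nlinarith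
    omega
  · have h2 := sum_ge hKp θ₀ h1
    have h3 : ∑ θ : IrrCharacter K with ideg θ < ideg θ₀, ideg θ ^ 2 ≤
        ∑ θ : IrrCharacter K with (θ.1 ≠ (fun _ => 1) ∧ ideg θ < ideg θ₀), ideg θ ^ 2 + 1 := by
      have h4 : (Finset.univ.filter fun θ : IrrCharacter K => ideg θ < ideg θ₀) ⊆
          insert (⟨fun _ => 1, isIrr_trivial⟩ : IrrCharacter K)
            (Finset.univ.filter fun θ => θ.1 ≠ (fun _ => 1) ∧ ideg θ < ideg θ₀) := by
        intro θ hθ
        rw [Finset.mem_insert]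
        by_cases h5 : θ.1 = fun _ => 1
        · left; exact Subtype.ext h5
        · right; exact Finset.mem_filter.mpr ⟨Finset.mem_univ _, h5, (Finset.mem_filter.mp hθ).2⟩
      refine (Finset.sum_le_sum_of_subset h4).trans ?_
      rw [Finset.sum_insert (by rw [Finset.mem_filter]; exact fun h => h.2.1 rfl), ideg_one]
      omega
    nlinarith

end boundp

section grow

variable {L G : Type*} [Group L] [Fintype L] [Group G] [Fintype G]

theorem grow_irr {S₀ T : Finset (L → ℂ)} (hirr : ∀ ξ ∈ T, IsIrrCharacter L ξ) (hST : S₀ ⊆ T) {d : (L → ℂ) → ℕ}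
    (hd : ∀ ξ ∈ T, ξ 1 = (d ξ : ℂ)) {τ : (L → ℂ) → (G → ℂ)} (hτ : IsLinearIsometryOn (zspanOn (↑T : Set (L → ℂ)) {1}ᶜ) τ)
    (hτ1 : ∀ α ∈ zspanOn (↑T : Set (L → ℂ)) {1}ᶜ, τ α 1 = 0) (hcoh : IsCoherent (↑S₀ : Set (L → ℂ)) {1}ᶜ τ)
    {ψ : L → ℂ} (hψ : ψ ∈ S₀) (hT : ∀ χ ∈ T, χ ∉ S₀ → d ψ ∣ d χ ∧ 2 * d ψ * d χ < ∑ ξ ∈ S₀, d ξ ^ 2) :
    IsCoherent (↑T : Set (L → ℂ)) {1}ᶜ τ := by
  classical
  have key : ∀ U : Finset (L → ℂ), U ⊆ T → IsCoherent (↑(S₀ ∪ U) : Set (L → ℂ)) {1}ᶜ τ := by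
    intro U
    induction U using Finset.induction_on with
    | empty => intro _; rw [Finset.union_empty]; exact hcoh
    | insert χ U hχU ih =>
      intro hU
      have hUT : U ⊆ T := (Finset.subset_insert _ _).trans hU
      have hχT : χ ∈ T := hU (Finset.mem_insert_self _ _)
      have ih' := ih hUT
      by_cases hχS : χ ∈ S₀
      · have : S₀ ∪ insert χ U = S₀ ∪ U := by
          ext x
          simp only [Finset.mem_union, Finset.mem_insert]
          constructor
          · rintro (h | rfl | h)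
            · exact Or.inl h
            · exact Or.inl hχS
            · exact Or.inr h
          · rintro (h | h)
            · exact Or.inl h
            · exact Or.inr (Or.inr h)
        rw [this]; exact ih'
      · have hset : S₀ ∪ insert χ U = insert χ (S₀ ∪ U) := Finset.union_insert _ _ _
        have hsub : S₀ ∪ U ⊆ T := Finset.union_subset hST hUT
        have hsub' : (insert χ ↑(S₀ ∪ U) : Set (L → ℂ)) ⊆ ↑T := by
          intro x hx
          rcases hx with rfl | hx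
          · exact hχT
          · exact hsub hx
        obtain ⟨h1, h2⟩ := hT χ hχT hχS
        rw [hset, Finset.coe_insert]
        refine feit (fun ξ hξ => hirr ξ (hsub hξ)) (hirr χ hχT) (by
            rw [Finset.mem_union]; rintro (h | h)
            · exact hχS h
            · exact hχU h) (fun ξ hξ => hd ξ (hsub hξ)) (hd χ hχT) ?_ ?_ ih' (Finset.mem_union_left _ hψ) h1
          (lt_of_lt_of_le h2 (Finset.sum_le_sum_of_subset Finset.subset_union_left))
        · exact iso_mono (zon_mono hsub' {1}ᶜ) hτ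
        · exact fun α hα => hτ1 α (zspanOn_mono hsub' _ hα)
  have := key T Finset.Subset.rfl
  rwa [Finset.union_eq_right.mpr hST] at this

theorem by_degree_irr {T : Finset (L → ℂ)} (hirr : ∀ ξ ∈ T, IsIrrCharacter L ξ) {d : (L → ℂ) → ℕ}
    (hd : ∀ ξ ∈ T, ξ 1 = (d ξ : ℂ)) {τ : (L → ℂ) → (G → ℂ)} (hτ : IsLinearIsometryOn (zspanOn (↑T : Set (L → ℂ)) {1}ᶜ) τ)
    (hτ1 : ∀ α ∈ zspanOn (↑T : Set (L → ℂ)) {1}ᶜ, τ α 1 = 0) {e : ℕ} (hmin : ∀ φ ∈ T, e ≤ d φ)
    (h2 : 2 ≤ (T.filter fun φ => d φ = e).card)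
    (hstep : ∀ χ ∈ T, e < d χ → e ∣ d χ ∧ 2 * e * d χ < ∑ φ ∈ T with d φ < d χ, d φ ^ 2) :
    IsCoherent (↑T : Set (L → ℂ)) {1}ᶜ τ := by
  classical
  have hsub : ∀ N, (T.filter fun φ => d φ ≤ N) ⊆ T := fun N => Finset.filter_subset _ _
  have hiso : ∀ U : Finset (L → ℂ), U ⊆ T → IsLinearIsometryOn (zspanOn (↑U : Set (L → ℂ)) {1}ᶜ) τ := fun U hU =>
    iso_mono (zon_mono (Finset.coe_subset.mpr hU) {1}ᶜ) hτ
  have hiso1 : ∀ U : Finset (L → ℂ), U ⊆ T → ∀ α ∈ zspanOn (↑U : Set (L → ℂ)) {1}ᶜ, τ α 1 = 0 := fun U hU α hα =>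
    hτ1 α (zspanOn_mono (Finset.coe_subset.mpr hU) _ hα)
  have he : (T.filter fun φ => d φ ≤ e) = T.filter fun φ => d φ = e := by
    ext φ
    simp only [Finset.mem_filter]
    exact ⟨fun h => ⟨h.1, le_antisymm h.2 (hmin φ h.1)⟩, fun h => ⟨h.1, h.2.le⟩⟩
  obtain ⟨ψ, hψ⟩ : (T.filter fun φ => d φ = e).Nonempty := Finset.card_pos.mp (by omega)
  have hψ' := Finset.mem_filter.mp hψ
  have key : ∀ N, e ≤ N → IsCoherent (↑(T.filter fun φ => d φ ≤ N) : Set (L → ℂ)) {1}ᶜ τ := by
    intro N hN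
    induction N, hN using Nat.le_induction with
    | base =>
      refine const_coherent (fun ξ hξ => hirr ξ (hsub _ hξ)) ?_ (by rw [he]; exact h2) (hiso _ (hsub _)) (hiso1 _ (hsub _))
      intro φ hφ χ hχ
      rw [he, Finset.mem_filter] at hφ hχ
      rw [hd φ hφ.1, hd χ hχ.1, hφ.2, hχ.2]
    | succ N hN ih =>
      refine grow_irr (S₀ := T.filter fun φ => d φ ≤ N) (T := T.filter fun φ => d φ ≤ N + 1) (fun ξ hξ => hirr ξ (hsub _ hξ)) ?_
        (fun ξ hξ => hd ξ (hsub _ hξ)) (hiso _ (hsub _)) (hiso1 _ (hsub _)) ih (ψ := ψ)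
        (Finset.mem_filter.mpr ⟨hψ'.1, by rw [hψ'.2]; exact hN⟩) ?_
      · intro φ hφ
        obtain ⟨h3, h4⟩ := Finset.mem_filter.mp hφ
        exact Finset.mem_filter.mpr ⟨h3, by omega⟩
      · intro χ hχ hχ'
        obtain ⟨h3, h4⟩ := Finset.mem_filter.mp hχ
        have h5 : N < d χ := by
          by_contra h
          exact hχ' (Finset.mem_filter.mpr ⟨h3, not_lt.mp h⟩)
        have h6 : d χ = N + 1 := by omega
        obtain ⟨k1, k2⟩ := hstep χ h3 (by omega)
        rw [hψ'.2]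
        refine ⟨k1, ?_⟩
        have : (T.filter fun φ => d φ < d χ) = T.filter fun φ => d φ ≤ N := by
          ext φ; simp only [Finset.mem_filter]; rw [h6, Nat.lt_succ_iff]
        rw [← this]; exact k2
  obtain ⟨N, hN⟩ : ∃ N, ∀ φ ∈ T, d φ ≤ N := ⟨T.sup d, fun φ hφ => Finset.le_sup (f := d) hφ⟩
  have h3 := key N (by rw [← hψ'.2]; exact hN ψ hψ'.1)
  have h4 : T.filter (fun φ => d φ ≤ N) = T := Finset.filter_true_of_mem hN
  rwa [h4] at h3

end grow

section sumT

variable {L : Type*} [Group L] [Fintype L] {K : Subgroup L} [hK : K.Normal]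

theorem sum_T (hfpf : ∀ g : L, g ∉ K → ∀ k ∈ K, g * k = k * g → k = 1) {T : Finset (L → ℂ)}
    (hT : (↑T : Set (L → ℂ)) = inducedIrrAbove K ⊥) {d : (L → ℂ) → ℕ} (hd : ∀ ξ ∈ T, ξ 1 = (d ξ : ℂ)) (N : ℕ)
    [DecidablePred fun θ : IrrCharacter K => θ.1 ≠ (fun _ => 1) ∧ ideg θ < N] :
    ∑ φ ∈ T with d φ < K.index * N, d φ ^ 2 =
      K.index * ∑ θ : IrrCharacter K with (θ.1 ≠ (fun _ => 1) ∧ ideg θ < N), ideg θ ^ 2 := by
  classical
  haveI := Fintype.ofFinite K
  have hmem : ∀ {φ}, φ ∈ T ↔ φ ∈ inducedIrrAbove K ⊥ := fun {φ} => by rw [← hT]; exact Iff.rfl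
  have hirr : ∀ φ ∈ T, IsIrrCharacter L φ := fun φ hφ => iia_irr' hfpf (hmem.mp hφ)
  have e0 : 0 < K.index := Nat.pos_of_ne_zero Subgroup.FiniteIndex.index_ne_zero
  have hdeg : ∀ θ : IrrCharacter K, indFun K θ.1 ∈ T → d (indFun K θ.1) = K.index * ideg θ := by
    intro θ hθ
    have h1 := hd _ hθ
    rw [indFun_one, ideg_spec] at h1
    exact_mod_cast h1.symm
  have hmaps : ∀ θ ∈ Finset.univ.filter (fun θ : IrrCharacter K => θ.1 ≠ (fun _ => 1) ∧ ideg θ < N),
      indFun K θ.1 ∈ T.filter (fun φ => d φ < K.index * N) := by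
    intro θ hθ
    obtain ⟨-, h1, h2⟩ := Finset.mem_filter.mp hθ
    have h3 : indFun K θ.1 ∈ T := hmem.mpr ⟨θ.1, θ.2, h1, fun a ha => by
      have : a = 1 := Subtype.ext ha
      rw [this], rfl⟩
    rw [Finset.mem_filter, hdeg θ h3]
    exact ⟨h3, Nat.mul_lt_mul_of_pos_left h2 e0⟩
  rw [← Finset.sum_fiberwise_of_maps_to hmaps, Finset.mul_sum]
  refine Finset.sum_congr rfl fun φ hφ => ?_
  obtain ⟨h1, h2⟩ := Finset.mem_filter.mp hφ
  have h3 : (Finset.univ.filter (fun θ : IrrCharacter K => θ.1 ≠ (fun _ => 1) ∧ ideg θ < N)).filter (fun θ => indFun K θ.1 = φ) =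
      Finset.univ.filter (fun θ : IrrCharacter K => indFun K θ.1 = φ) := by
    ext θ
    simp only [Finset.mem_filter, Finset.mem_univ, true_and]
    refine ⟨fun h => h.2, fun h => ⟨⟨?_, ?_⟩, h⟩⟩
    · exact (fiber_iff (hmem.mp h1) (by rw [irr_inner_self (hirr φ h1)]; exact one_ne_zero) θ.2 h).1
    · have h4 := hdeg θ (by rw [h]; exact h1)
      rw [h, ] at h4
      rw [h4] at h2
      exact Nat.lt_of_mul_lt_mul_left h2
  rw [h3]
  have h4 := fiber_sum (K := K) (A := ⊥) (fun χ hχ ψ hψ hne => irr_inner_ne (iia_irr' hfpf hχ) (iia_irr' hfpf hψ) hne)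
    (hmem.mp h1) (n := 1) (by rw [irr_inner_self (hirr φ h1)]; simp) one_pos
  rw [hd φ h1] at h4
  have h5 : ∀ θ : IrrCharacter K, (θ.1 1).re = ideg θ := fun θ => by rw [ideg_spec]; simp
  simp only [h5] at h4
  have h6 : ((d φ : ℂ)).re = (d φ : ℝ) := by simp
  rw [h6, Nat.cast_one, div_one] at h4
  exact_mod_cast h4.symm

end sumT
section main

variable {L G : Type*} [Group L] [Fintype L] [Group G] [Fintype G] {K : Subgroup L} [hK : K.Normal]

theorem commutator_relIndex : ⁅K, K⁆.relIndex K = (commutator K).index := by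
  rw [Subgroup.relIndex, Subgroup.subgroupOf]
  congr 1
  rw [← Subgroup.map_subtype_commutator K]
  exact Subgroup.comap_map_eq_self_of_injective K.subtype_injective _

theorem card_min (hfpf : ∀ g : L, g ∉ K → ∀ k ∈ K, g * k = k * g → k = 1) {T : Finset (L → ℂ)}
    (hT : (↑T : Set (L → ℂ)) = inducedIrrAbove K ⊥) {d : (L → ℂ) → ℕ} (hd : ∀ ξ ∈ T, ξ 1 = (d ξ : ℂ)) :
    (T.filter fun φ => d φ = K.index).card * K.index + 1 = (commutator K).index := by
  classical
  have e0 : 0 < K.index := Nat.pos_of_ne_zero Subgroup.FiniteIndex.index_ne_zero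
  have hmem : ∀ {φ}, φ ∈ T ↔ φ ∈ inducedIrrAbove K ⊥ := fun {φ} => by rw [← hT]; exact Iff.rfl
  have h1 := sum_T hfpf hT hd 2
  have h2 := card_lin_ne K
  have hdeg : ∀ φ ∈ T, ∃ m, 0 < m ∧ d φ = K.index * m := by
    intro φ hφ
    obtain ⟨θ, k1, -, -, k4⟩ := hmem.mp hφ
    refine ⟨ideg ⟨θ, k1⟩, ideg_pos _, ?_⟩
    have h3 := hd φ hφ
    have h4 := ideg_spec (⟨θ, k1⟩ : IrrCharacter K)
    change θ 1 = _ at h4
    rw [k4, indFun_one, h4] at h3
    rw [k4]
    exact_mod_cast h3.symm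
  have h3 : (T.filter fun φ => d φ < K.index * 2) = T.filter fun φ => d φ = K.index := by
    ext φ
    simp only [Finset.mem_filter]
    constructor
    · rintro ⟨h, h'⟩
      obtain ⟨m, hm, hm'⟩ := hdeg φ h
      rw [hm'] at h' ⊢
      have := Nat.lt_of_mul_lt_mul_left h'
      have : m = 1 := by omega
      rw [this, mul_one]; exact ⟨h, rfl⟩
    · rintro ⟨h, h'⟩
      rw [h']; exact ⟨h, by omega⟩
  rw [h3, Finset.sum_congr rfl (g := fun _ => K.index ^ 2) (fun φ hφ => by rw [(Finset.mem_filter.mp hφ).2]),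
    Finset.sum_const, smul_eq_mul] at h1
  have h4 : (T.filter fun φ => d φ = K.index).card * K.index =
      ∑ θ : IrrCharacter K with (θ.1 ≠ (fun _ => 1) ∧ ideg θ < 2), ideg θ ^ 2 := by
    apply Nat.eq_of_mul_eq_mul_left e0
    rw [← h1]; ring
  rw [h4, h2]

theorem frob_coherent (hfpf : ∀ g : L, g ∉ K → ∀ k ∈ K, g * k = k * g → k = 1) (hK1 : K ≠ ⊥)
    {τ : (L → ℂ) → (G → ℂ)} (hτ : IsLinearIsometryOn (zspanOn (inducedIrrAbove K ⊥) {1}ᶜ) τ)
    (hτ1 : ∀ α ∈ zspanOn (inducedIrrAbove K ⊥) {1}ᶜ, τ α 1 = 0) (hcard : Nat.card K ≠ K.index + 1)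
    (h : (∀ a ∈ K, ∀ b ∈ K, a * b = b * a) ∨ (Group.IsNilpotent K ∧
      ((∃ p m : ℕ, p.Prime ∧ Nat.card K = p ^ m) → 4 * K.index ^ 2 + 1 < (commutator K).index))) :
    IsCoherent (inducedIrrAbove K ⊥) {1}ᶜ τ := by
  classical
  obtain ⟨T, hT⟩ : ∃ T : Finset (L → ℂ), (↑T : Set (L → ℂ)) = inducedIrrAbove K ⊥ :=
    ⟨(iia_finite (K := K) ⊥).toFinset, Set.Finite.coe_toFinset _⟩
  have hmem : ∀ {φ}, φ ∈ T ↔ φ ∈ inducedIrrAbove K ⊥ := fun {φ} => by rw [← hT]; exact Iff.rfl
  have hirr : ∀ φ ∈ T, IsIrrCharacter L φ := fun φ hφ => iia_irr' hfpf (hmem.mp hφ)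
  have h1 : ∀ φ ∈ T, ∃ d : ℕ, 0 < d ∧ φ 1 = d := fun φ hφ => isIrr_one_eq (hirr φ hφ)
  choose! d hd using h1
  have e0 : 0 < K.index := Nat.pos_of_ne_zero Subgroup.FiniteIndex.index_ne_zero
  have hcm := card_min hfpf hT (fun ξ hξ => (hd ξ hξ).2)
  have hdeg : ∀ φ ∈ T, ∃ θ : IrrCharacter K, θ.1 ≠ (fun _ => 1) ∧ φ = indFun K θ.1 ∧ d φ = K.index * ideg θ := by
    intro φ hφ
    obtain ⟨θ, k1, k2, -, k4⟩ := hmem.mp hφ
    refine ⟨⟨θ, k1⟩, k2, k4, ?_⟩
    have h3 := (hd φ hφ).2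
    have h4 := ideg_spec (⟨θ, k1⟩ : IrrCharacter K)
    change θ 1 = _ at h4
    rw [k4, indFun_one, h4] at h3
    rw [k4]
    exact_mod_cast h3.symm
  rw [← hT]
  refine by_degree_irr hirr (fun ξ hξ => (hd ξ hξ).2) (e := K.index) (by rw [hT]; exact hτ) (by rw [hT]; exact hτ1) ?_ ?_ ?_
  · intro φ hφ
    obtain ⟨θ, -, -, h3⟩ := hdeg φ hφ
    rw [h3]
    exact Nat.le_mul_of_pos_right _ (ideg_pos θ)
  · -- at least two of minimal degree
    suffices hs : 2 * K.index + 1 ≤ (commutator K).index by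
      rw [← hcm] at hs
      by_contra hc
      push_neg at hc
      have : (T.filter fun φ => d φ = K.index).card * K.index ≤ 1 * K.index := Nat.mul_le_mul_right _ (by omega)
      omega
    by_cases hab : ∀ a ∈ K, ∀ b ∈ K, a * b = b * a
    · have h2 : commutator K = ⊥ := by
        rw [commutator_def, eq_bot_iff, Subgroup.commutator_le]
        intro a _ b _
        rw [Subgroup.mem_bot, commutatorElement_def]
        have : a * b = b * a := Subtype.ext (hab a a.2 b b.2)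
        rw [this]; group
      rw [h2, Subgroup.index_bot] at hcm ⊢
      have h3 : 1 < Nat.card K := by
        have h4 : Nat.card K ≠ 1 := fun h => hK1 (Subgroup.card_eq_one.mp h)
        have := Nat.card_pos (α := K)
        omega
      obtain ⟨n, hn⟩ : ∃ n, n = (T.filter fun φ => d φ = K.index).card := ⟨_, rfl⟩
      rw [← hn] at hcm
      have h4 : n ≠ 0 := by rintro rfl; omega
      have h5 : n ≠ 1 := by rintro rfl; omega
      have h6 : 2 * K.index ≤ n * K.index := Nat.mul_le_mul_right _ (by omega)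
      omega
    · rcases h with h | ⟨hnil, hbig⟩
      · exact absurd h hab
      by_cases hpp : ∃ p m : ℕ, p.Prime ∧ Nat.card K = p ^ m
      · have := hbig hpp
        nlinarith
      · have hKne1 : Nat.card K ≠ 1 := fun h => hK1 (Subgroup.card_eq_one.mp h)
        obtain ⟨p, hp, hpd⟩ := Nat.exists_prime_and_dvd hKne1
        obtain ⟨q, hq, hqd, hpq⟩ : ∃ q : ℕ, q.Prime ∧ q ∣ Nat.card K ∧ p ≠ q := by
          by_contra hcon
          push_neg at hcon
          apply hpp
          refine ⟨p, (Nat.card K).primeFactorsList.length, hp, ?_⟩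
          exact Nat.eq_prime_pow_of_unique_prime_dvd Nat.card_pos.ne' (fun {q} hq hqd => (hcon q hq hqd).symm)
        have hKKK : ⁅K, K⁆ ≤ K := Subgroup.commutator_le_left K K
        obtain ⟨M, hMn, hM1, hM2⟩ := exists_between (K := K) (H₁ := ⁅K, K⁆) hKKK
          (fun x hx y hy => Subgroup.commutator_mem_commutator hx hy) hp hq hpq
          (by rw [commutator_relIndex]; exact prime_dvd_index_commutator hnil hp hpd)
          (by rw [commutator_relIndex]; exact prime_dvd_index_commutator hnil hq hqd)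
        have hd1 : K.index ∣ ⁅K, K⁆.relIndex M - 1 := index_dvd_card_sub_one hM1.le hM2.le
          (fun x hx y hy => Subgroup.commutator_mem_commutator hx hy) (frob_quot hKKK hfpf)
        have h3 := Subgroup.relIndex_mul_relIndex ⁅K, K⁆ M K hM1.le hM2.le
        rw [commutator_relIndex] at h3
        have h4 : 1 < ⁅K, K⁆.relIndex M := by
          have h5 := CharClifford.relIndex_mul_card' ⁅K, K⁆ M hM1.le
          have h6 := Basic.card_lt_card_of_lt hM1
          by_contra h7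
          push_neg at h7
          have : ⁅K, K⁆.relIndex M * Nat.card (⁅K, K⁆ : Subgroup L) ≤ 1 * Nat.card (⁅K, K⁆ : Subgroup L) := Nat.mul_le_mul_right _ h7
          omega
        have h5 : 1 < M.relIndex K := by
          have h5 := CharClifford.relIndex_mul_card' M K hM2.le
          have h6 := Basic.card_lt_card_of_lt hM2
          by_contra h7
          push_neg at h7
          have : M.relIndex K * Nat.card M ≤ 1 * Nat.card M := Nat.mul_le_mul_right _ h7
          omega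
        have h6 : K.index ≤ ⁅K, K⁆.relIndex M - 1 := Nat.le_of_dvd (by omega) hd1
        rw [← h3]
        have h7 : K.index + 1 ≤ ⁅K, K⁆.relIndex M := by omega
        have h8 := Nat.mul_le_mul h7 h5
        omega
  · intro χ hχ hχe
    obtain ⟨θ₀, hθ1, hχθ, hdχ⟩ := hdeg χ hχ
    refine ⟨by rw [hdχ]; exact dvd_mul_right _ _, ?_⟩
    have hθ₀ : 1 < ideg θ₀ := by
      rw [hdχ] at hχe
      by_contra h7
      push_neg at h7
      have : K.index * ideg θ₀ ≤ K.index * 1 := Nat.mul_le_mul_left _ h7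
      omega
    have hna : ¬ ∀ a ∈ K, ∀ b ∈ K, a * b = b * a := by
      intro hab
      obtain ⟨l, h3⟩ := irr_lin_of_comm (fun a b : K => Subtype.ext (hab a a.2 b b.2)) θ₀.2
      have h4 := ideg_spec θ₀
      have h5 : θ₀.1 1 = 1 := by rw [h3]; simp
      rw [h5] at h4
      have : ideg θ₀ = 1 := by exact_mod_cast h4.symm
      omega
    rcases h with h | ⟨hnil, hbig⟩
    · exact absurd h hna
    have hkey : 2 * K.index * ideg θ₀ < ∑ θ : IrrCharacter K with (θ.1 ≠ (fun _ => 1) ∧ ideg θ < ideg θ₀), ideg θ ^ 2 := by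
      by_cases hpp : ∃ p m : ℕ, p.Prime ∧ Nat.card K = p ^ m
      · have hb := hbig hpp
        obtain ⟨p, m, hp, hm⟩ := hpp
        haveI : Fact p.Prime := ⟨hp⟩
        exact sum_bound_p (IsPGroup.of_card hm) hb θ₀ hθ₀
      · exact sum_bound hfpf hnil hpp θ₀ hθ₀
    have h3 := sum_T hfpf hT (fun ξ hξ => (hd ξ hξ).2) (ideg θ₀)
    rw [hdχ, h3]
    calc 2 * K.index * (K.index * ideg θ₀) = K.index * (2 * K.index * ideg θ₀) := by ring
      _ < _ := Nat.mul_lt_mul_of_pos_left hkey e0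

end main
section fin

variable {L : Type*} [Group L] [Finite L] {K : Subgroup L} [hK : K.Normal]

/-- the index of a Frobenius kernel divides `|K| - 1` -/
theorem index_dvd_frob (hfpf : ∀ g : L, g ∉ K → ∀ k ∈ K, g * k = k * g → k = 1) : K.index ∣ Nat.card K - 1 := by
  classical
  let X : Type _ := {q : K // q ≠ 1}
  letI act : MulAction L X :=
    { smul := fun x q => ⟨MulAut.conjNormal x q.1, by
        intro h
        apply q.2
        exact (MulEquiv.map_eq_one_iff (MulAut.conjNormal x : MulAut K)).mp h⟩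
      one_smul := fun q => Subtype.ext (by show (MulAut.conjNormal (1 : L)) q.1 = q.1; rw [map_one]; rfl)
      mul_smul := fun x y q => Subtype.ext (by
        show (MulAut.conjNormal (x * y)) q.1 = (MulAut.conjNormal x) ((MulAut.conjNormal y) q.1)
        rw [map_mul]; rfl) }
  have hsmul : ∀ (x : L) (q : X), (((x • q : X).1 : K) : L) = x * q.1 * x⁻¹ := fun x q => MulAut.conjNormal_apply x q.1
  have hstab : ∀ q : X, MulAction.stabilizer L q ≤ K := by
    intro q x hx
    rw [MulAction.mem_stabilizer_iff] at hx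
    by_contra hxK
    apply q.2
    apply Subtype.ext
    refine hfpf x hxK q.1 q.1.2 ?_
    have h1 := hsmul x q
    rw [hx] at h1
    exact (mul_inv_eq_iff_eq_mul.mp h1.symm)
  have hcardX : Nat.card X = Nat.card K - 1 := by
    haveI := Fintype.ofFinite K
    rw [Nat.card_eq_fintype_card, Nat.card_eq_fintype_card, Fintype.card_subtype_compl, Fintype.card_subtype_eq]
  haveI : Finite X := Subtype.finite
  haveI : Fintype (Quotient (MulAction.orbitRel L X)) := Fintype.ofFinite _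
  rw [← hcardX, Nat.card_congr (MulAction.selfEquivSigmaOrbitsQuotientStabilizer L X), Nat.card_sigma]
  refine Finset.dvd_sum fun ω _ => ?_
  exact Subgroup.index_dvd_of_le (hstab _)

/-- Frobenius kernels with one class of nonidentity elements. -/
theorem elem_ab (hfpf : ∀ g : L, g ∉ K → ∀ k ∈ K, g * k = k * g → k = 1) (hcard : Nat.card K = K.index + 1) :
    (∀ a ∈ K, ∀ b ∈ K, a * b = b * a) ∧ ∃ p : ℕ, p.Prime ∧ ∀ a ∈ K, a ^ p = 1 := by
  classical
  have e0 : 0 < K.index := Nat.pos_of_ne_zero Subgroup.FiniteIndex.index_ne_zero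
  obtain ⟨p, hp, hpd⟩ := Nat.exists_prime_and_dvd (n := Nat.card K) (by omega)
  haveI : Fact p.Prime := ⟨hp⟩
  obtain ⟨x, hx⟩ := exists_prime_orderOf_dvd_card' (G := K) p hpd
  have hx1 : x ≠ 1 := by
    rintro rfl
    rw [orderOf_one] at hx
    exact hp.one_lt.ne hx
  let C : Subgroup L := Subgroup.centralizer ({(x : L)} : Set L)
  have hC : C ≤ K := by
    intro g hg
    by_contra hgK
    apply hx1
    apply Subtype.ext
    refine hfpf g hgK x x.2 ?_
    exact ((Subgroup.mem_centralizer_iff.mp hg) (x : L) rfl).symm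
  -- the map
  let f : L ⧸ C → {q : K // q ≠ 1} := fun q => ⟨MulAut.conjNormal (Quotient.out q) x, fun h =>
    hx1 ((MulEquiv.map_eq_one_iff (MulAut.conjNormal (Quotient.out q) : MulAut K)).mp h)⟩
  have hf : ∀ q, (((f q).1 : K) : L) = Quotient.out q * x * (Quotient.out q)⁻¹ := fun q => MulAut.conjNormal_apply _ _
  have hinj : Function.Injective f := by
    intro q r h
    have h1 : Quotient.out q * (x : L) * (Quotient.out q)⁻¹ = Quotient.out r * x * (Quotient.out r)⁻¹ := by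
      rw [← hf, ← hf, h]
    have h2 : (Quotient.out q)⁻¹ * Quotient.out r ∈ C := by
      change _ ∈ Subgroup.centralizer _
      rw [Subgroup.mem_centralizer_iff]
      intro y hy
      rw [Set.mem_singleton_iff.mp hy]
      calc (x : L) * ((Quotient.out q)⁻¹ * Quotient.out r) = (Quotient.out q)⁻¹ * (Quotient.out q * (x : L) * (Quotient.out q)⁻¹) * Quotient.out r := by group
        _ = (Quotient.out q)⁻¹ * (Quotient.out r * x * (Quotient.out r)⁻¹) * Quotient.out r := by rw [h1]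
        _ = (Quotient.out q)⁻¹ * Quotient.out r * x := by group
    rw [← QuotientGroup.out_eq' q, ← QuotientGroup.out_eq' r]
    exact QuotientGroup.eq.mpr h2
  have hcX : Nat.card {q : K // q ≠ 1} = K.index := by
    haveI := Fintype.ofFinite K
    have h1 : Nat.card {q : K // q ≠ 1} = Nat.card K - 1 := by
      rw [Nat.card_eq_fintype_card, Nat.card_eq_fintype_card, Fintype.card_subtype_compl, Fintype.card_subtype_eq]
    omega
  have hle : C.index ≤ K.index := by
    rw [← hcX]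
    exact Nat.card_le_card_of_injective f hinj
  have hge : K.index ≤ C.index := Nat.le_of_dvd (Nat.pos_of_ne_zero Subgroup.FiniteIndex.index_ne_zero) (Subgroup.index_dvd_of_le hC)
  have heq : C.index = K.index := le_antisymm hle hge
  have hCK : C = K := by
    apply Subgroup.eq_of_le_of_card_ge hC
    have h1 := C.card_mul_index
    have h2 := K.card_mul_index
    rw [heq, ← h2] at h1
    exact (Nat.eq_of_mul_eq_mul_right e0 h1).ge
  have hbij : Function.Bijective f := by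
    rw [Nat.bijective_iff_injective_and_card]
    refine ⟨hinj, ?_⟩
    rw [hcX]; exact heq
  have hall : ∀ a ∈ K, a ≠ 1 → ∃ g : L, a = g * x * g⁻¹ := by
    intro a ha ha1
    obtain ⟨q, hq⟩ := hbij.2 ⟨⟨a, ha⟩, fun h => ha1 (congrArg Subtype.val h)⟩
    refine ⟨Quotient.out q, ?_⟩
    rw [← hf, hq]
  constructor
  · intro a ha b hb
    by_cases ha1 : a = 1
    · rw [ha1, one_mul, mul_one]
    obtain ⟨g, rfl⟩ := hall a ha ha1
    have h1 : g⁻¹ * b * g ∈ K := by
      have := hK.conj_mem b hb g⁻¹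
      rwa [inv_inv] at this
    rw [← hCK] at h1
    have h2 := (Subgroup.mem_centralizer_iff.mp h1) (x : L) rfl
    calc g * x * g⁻¹ * b = g * (x * (g⁻¹ * b * g)) * g⁻¹ := by group
      _ = g * ((g⁻¹ * b * g) * x) * g⁻¹ := by rw [h2]
      _ = b * (g * x * g⁻¹) := by group
  · refine ⟨p, hp, fun a ha => ?_⟩
    by_cases ha1 : a = 1
    · rw [ha1, one_pow]
    obtain ⟨g, rfl⟩ := hall a ha ha1
    rw [conj_pow]
    have : (x : L) ^ p = 1 := by
      have h1 : x ^ p = 1 := by rw [← hx]; exact pow_orderOf_eq_one x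
      exact_mod_cast congrArg Subtype.val h1
    rw [this]; group

/-- Frobenius kernels are nilpotent. -/
theorem nilp_frob (hfpf : ∀ g : L, g ∉ K → ∀ k ∈ K, g * k = k * g → k = 1) (hKt : K ≠ ⊤) : Group.IsNilpotent K := by
  classical
  have hi : K.index ≠ 1 := fun h => hKt (Subgroup.index_eq_one.mp h)
  obtain ⟨p, hp, hpd⟩ := Nat.exists_prime_and_dvd hi
  haveI : Fact p.Prime := ⟨hp⟩
  obtain ⟨t, ht⟩ := exists_prime_orderOf_dvd_card' (G := L) p (hpd.trans K.index_dvd_card)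
  have hpK : ¬ p ∣ Nat.card K := by
    intro h
    have h1 := hpd.trans (index_dvd_frob hfpf)
    have h2 : p ∣ 1 := by
      have h3 := (Nat.dvd_sub h h1)
      have h4 : 0 < Nat.card K := Nat.card_pos
      have h5 : Nat.card K - (Nat.card K - 1) = 1 := by omega
      rwa [h5] at h3
    exact hp.one_lt.ne' (Nat.dvd_one.mp h2)
  have htK : t ∉ K := by
    intro h
    apply hpK
    have h1 := orderOf_dvd_natCard (⟨t, h⟩ : K)
    rwa [Subgroup.orderOf_mk, ht] at h1
  by_cases hK1 : K = ⊥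
  · subst hK1; infer_instance
  have hfp : ∀ k : K, (MulAut.conjNormal t : MulAut K) k = k → k = 1 := by
    intro k hk
    have h1 := congrArg Subtype.val hk
    rw [MulAut.conjNormal_apply, mul_inv_eq_iff_eq_mul] at h1
    exact Subtype.ext (hfpf t htK k k.2 h1)
  refine FpfNilp.isNilpotent_of_fpf (p := p) (MulAut.conjNormal t : MulAut K) ?_ hfp
  refine orderOf_eq_prime ?_ ?_
  · rw [← map_pow, ← ht, pow_orderOf_eq_one, map_one]
  · intro h
    apply hK1
    rw [eq_bot_iff]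
    intro k hk
    have := hfp ⟨k, hk⟩ (by rw [h]; rfl)
    rw [Subgroup.mem_bot]
    exact congrArg Subtype.val this

end fin
section cardone

variable {L : Type*} [Group L] [Fintype L] {K : Subgroup L} [hK : K.Normal]

theorem card_one (hfpf : ∀ g : L, g ∉ K → ∀ k ∈ K, g * k = k * g → k = 1) (hcard : Nat.card K = K.index + 1) :
    Nat.card (inducedIrrAbove K ⊥ : Set (L → ℂ)) = 1 := by
  classical
  have hab := (elem_ab hfpf hcard).1
  obtain ⟨T, hT⟩ : ∃ T : Finset (L → ℂ), (↑T : Set (L → ℂ)) = inducedIrrAbove K ⊥ :=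
    ⟨(iia_finite (K := K) ⊥).toFinset, Set.Finite.coe_toFinset _⟩
  have hmem : ∀ {φ}, φ ∈ T ↔ φ ∈ inducedIrrAbove K ⊥ := fun {φ} => by rw [← hT]; exact Iff.rfl
  have h1 : ∀ φ ∈ T, ∃ d : ℕ, 0 < d ∧ φ 1 = d := fun φ hφ => isIrr_one_eq (iia_irr' hfpf (hmem.mp hφ))
  choose! d hd using h1
  have hcm := card_min hfpf hT (fun ξ hξ => (hd ξ hξ).2)
  have e0 : 0 < K.index := Nat.pos_of_ne_zero Subgroup.FiniteIndex.index_ne_zero
  have h2 : commutator K = ⊥ := by
    rw [commutator_def, eq_bot_iff, Subgroup.commutator_le]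
    intro a _ b _
    rw [Subgroup.mem_bot, commutatorElement_def]
    have : a * b = b * a := Subtype.ext (hab a a.2 b b.2)
    rw [this]; group
  rw [h2, Subgroup.index_bot, hcard] at hcm
  have h3 : (T.filter fun φ => d φ = K.index) = T := by
    refine Finset.filter_true_of_mem fun φ hφ => ?_
    obtain ⟨θ, k1, k2, -, k4⟩ := hmem.mp hφ
    obtain ⟨l, h3⟩ := irr_lin_of_comm (fun a b : K => Subtype.ext (hab a a.2 b b.2)) k1
    have h5 : θ 1 = 1 := by rw [h3]; simp
    have h6 := (hd φ hφ).2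
    rw [k4, indFun_one, h5, mul_one] at h6
    rw [k4]
    exact_mod_cast h6.symm
  rw [h3] at hcm
  have h4 : T.card = 1 := by
    have : T.card * K.index = 1 * K.index := by omega
    exact Nat.eq_of_mul_eq_mul_right e0 this
  rw [← hT, ← h4]
  simp

end cardone

end

end Cfsg.Agent.Lib.OddFeit
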