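import Cfsg.Agent.Lib.CharExc
import Cfsg.Agent.Lib.CharGal
import Cfsg.Prelude.Def_OddOrderChar

set_option autoImplicit false

namespace Cfsg.Agent.Lib.OddSgn

open Cfsg Cfsg.Agent.Lib.CharBasic Cfsg.Agent.Lib.CharExc
open scoped ComplexConjugate

noncomputable section
section signed

variable {X : Type*} [Group X] [Fintype X]

/-- irreducible up to sign -/
def SI (a : X → ℂ) : Prop := IsIrrCharacter X a ∨ IsIrrCharacter X (-a)

theorem SI.form {a : X → ℂ} (h : SI a) : ∃ (s : ℤ) (χ : IrrCharacter X), (s = 1 ∨ s = -1) ∧ a = (s : ℂ) • χ.1 := by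
  rcases h with h | h
  · exact ⟨1, ⟨a, h⟩, Or.inl rfl, by simp⟩
  · exact ⟨-1, ⟨-a, h⟩, Or.inr rfl, by simp⟩

theorem SI.gen {a : X → ℂ} (h : SI a) : IsGeneralizedCharacter X a := by
  rcases h with h | h
  · exact gen_of_irr h
  · have := gen_neg (gen_of_irr h)
    rwa [neg_neg] at this

theorem SI.norm {a : X → ℂ} (h : SI a) : classInner a a = 1 := by
  rcases h with h | h
  · exact irr_inner_self h
  · have := irr_inner_self h
    rwa [classInner_neg_left, classInner_neg_right, neg_neg] at this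

theorem SI.of_norm {a : X → ℂ} (h : IsGeneralizedCharacter X a) (h1 : classInner a a = 1) : SI a := by
  obtain ⟨χ, h2 | h2⟩ := norm_one h h1
  · exact Or.inl (h2 ▸ χ.2)
  · exact Or.inr (by rw [h2, neg_neg]; exact χ.2)

theorem SI.neg {a : X → ℂ} (h : SI a) : SI (-a) := by
  rcases h with h | h
  · exact Or.inr (by rwa [neg_neg])
  · exact Or.inl h

theorem inner_signed (s t : ℤ) (χ ψ : IrrCharacter X) [Decidable (χ = ψ)] :
    classInner ((s : ℂ) • χ.1) ((t : ℂ) • ψ.1) = (s : ℂ) * (t : ℂ) * (if χ = ψ then 1 else 0) := by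
  rw [classInner_smul_left, classInner_smul_right, irr_inner', map_intCast (starRingEnd ℂ) t]
  ring

theorem four_signed {α β γ δ : X → ℂ} (hα : SI α) (hβ : SI β) (hγ : SI γ) (hδ : SI δ) {u v : ℝ} (hu : u ≠ 0)
    (hv : v ≠ 0) (hab : classInner α β = 0) (hcd : classInner γ δ = 0)
    (hmix : classInner (α - β) ((u : ℂ) • γ - (v : ℂ) • δ) = 0) (h1 : α 1 = β 1)
    (h2 : (u : ℂ) * γ 1 = (v : ℂ) * δ 1) :
    classInner α γ = 0 ∧ classInner α δ = 0 ∧ classInner β γ = 0 ∧ classInner β δ = 0 := by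
  classical
  obtain ⟨sa, A, hsa, rfl⟩ := hα.form
  obtain ⟨sb, B, hsb, rfl⟩ := hβ.form
  obtain ⟨sc, C, hsc, rfl⟩ := hγ.form
  obtain ⟨sd, D, hsd, rfl⟩ := hδ.form
  obtain ⟨nA, hnA, eA⟩ := isIrr_one_eq A.2
  obtain ⟨nB, hnB, eB⟩ := isIrr_one_eq B.2
  obtain ⟨nC, hnC, eC⟩ := isIrr_one_eq C.2
  obtain ⟨nD, hnD, eD⟩ := isIrr_one_eq D.2
  have hs : ∀ {s : ℤ}, (s = 1 ∨ s = -1) → (s : ℂ) ≠ 0 := by
    rintro s (rfl | rfl) <;> norm_num
  have hsq : ∀ {s : ℤ}, (s = 1 ∨ s = -1) → (s : ℂ) * s = 1 := by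
    rintro s (rfl | rfl) <;> norm_num
  have hu' : (u : ℂ) ≠ 0 := Complex.ofReal_ne_zero.mpr hu
  have hv' : (v : ℂ) ≠ 0 := Complex.ofReal_ne_zero.mpr hv
  have hAB : A ≠ B := by
    rintro rfl
    rw [inner_signed, if_pos rfl, mul_one] at hab
    exact mul_ne_zero (hs hsa) (hs hsb) hab
  have hCD : C ≠ D := by
    rintro rfl
    rw [inner_signed, if_pos rfl, mul_one] at hcd
    exact mul_ne_zero (hs hsc) (hs hsd) hcd
  -- signs and degrees of A, B agree
  simp only [Pi.smul_apply, smul_eq_mul, eA, eB, eC, eD] at h1 h2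
  have hsab : sa = sb ∧ nA = nB := by
    have : sa * (nA : ℤ) = sb * nB := by exact_mod_cast h1
    rcases hsa with rfl | rfl <;> rcases hsb with rfl | rfl
    · exact ⟨rfl, by omega⟩
    · exfalso; omega
    · exfalso; omega
    · exact ⟨rfl, by omega⟩
  obtain ⟨rfl, rfl⟩ := hsab
  rw [classInner_sub_left, classInner_sub_right, classInner_sub_right, classInner_smul_right (u : ℂ), classInner_smul_right (v : ℂ),
    classInner_smul_right (u : ℂ), classInner_smul_right (v : ℂ), Complex.conj_ofReal, Complex.conj_ofReal, inner_signed,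
    inner_signed, inner_signed, inner_signed] at hmix
  have hnA0 : (nA : ℂ) ≠ 0 := Nat.cast_ne_zero.mpr hnA.ne'
  rw [inner_signed, inner_signed, inner_signed, inner_signed]
  by_cases hAC : A = C
  · exfalso
    subst hAC
    have hAD : A ≠ D := hCD
    have hBA : B ≠ A := Ne.symm hAB
    rw [if_pos rfl, if_neg hAD, if_neg hBA] at hmix
    by_cases hBD : B = D
    · subst hBD
      rw [if_pos rfl] at hmix
      have e : (nA : ℂ) = nC := by rw [← eA, ← eC]
      have e' : (nA : ℂ) = nD := by rw [← eB, ← eD]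
      rw [← e, ← e'] at h2
      have h3 : (u : ℂ) * sc = v * sd := by
        apply mul_right_cancel₀ hnA0; linear_combination h2
      have h4 : (sa : ℂ) * (2 * ((u : ℂ) * sc)) = 0 := by linear_combination hmix + (sa : ℂ) * h3
      exact mul_ne_zero (hs hsa) (mul_ne_zero two_ne_zero (mul_ne_zero hu' (hs hsc))) h4
    · rw [if_neg hBD] at hmix
      have h4 : (u : ℂ) * ((sa : ℂ) * sc) = 0 := by linear_combination hmix
      exact mul_ne_zero hu' (mul_ne_zero (hs hsa) (hs hsc)) h4
  by_cases hAD : A = D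
  · exfalso
    subst hAD
    have hBA : B ≠ A := Ne.symm hAB
    rw [if_neg hAC, if_pos rfl, if_neg hBA] at hmix
    by_cases hBC : B = C
    · subst hBC
      rw [if_pos rfl] at hmix
      have e : (nA : ℂ) = nC := by rw [← eB, ← eC]
      have e' : (nA : ℂ) = nD := by rw [← eA, ← eD]
      rw [← e, ← e'] at h2
      have h3 : (u : ℂ) * sc = v * sd := by
        apply mul_right_cancel₀ hnA0; linear_combination h2
      have h4 : (sa : ℂ) * (2 * ((u : ℂ) * sc)) = 0 := by linear_combination -hmix + (sa : ℂ) * h3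
      exact mul_ne_zero (hs hsa) (mul_ne_zero two_ne_zero (mul_ne_zero hu' (hs hsc))) h4
    · rw [if_neg hBC] at hmix
      have h4 : (v : ℂ) * ((sa : ℂ) * sd) = 0 := by linear_combination -hmix
      exact mul_ne_zero hv' (mul_ne_zero (hs hsa) (hs hsd)) h4
  rw [if_neg hAC, if_neg hAD] at hmix ⊢
  by_cases hBC : B = C
  · exfalso
    subst hBC
    rw [if_pos rfl, if_neg hCD] at hmix
    have h4 : (u : ℂ) * ((sa : ℂ) * sc) = 0 := by linear_combination -hmix
    exact mul_ne_zero hu' (mul_ne_zero (hs hsa) (hs hsc)) h4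
  by_cases hBD : B = D
  · exfalso
    subst hBD
    rw [if_neg hBC, if_pos rfl] at hmix
    have h4 : (v : ℂ) * ((sa : ℂ) * sd) = 0 := by linear_combination hmix
    exact mul_ne_zero hv' (mul_ne_zero (hs hsa) (hs hsd)) h4
  rw [if_neg hBC, if_neg hBD]
  simp

end signed
section signed2

variable {X : Type*} [Group X] [Fintype X]

theorem SI.eq_or_neg {a b : X → ℂ} (ha : SI a) (hb : SI b) (h : classInner a b ≠ 0) : a = b ∨ a = -b := by
  classical
  obtain ⟨s, χ, hs, rfl⟩ := ha.form
  obtain ⟨t, ψ, ht, rfl⟩ := hb.form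
  rw [inner_signed] at h
  have : χ = ψ := by
    by_contra hne
    rw [if_neg hne, mul_zero] at h
    exact h rfl
  subst this
  rcases hs with rfl | rfl <;> rcases ht with rfl | rfl <;> simp

theorem SI.inner_cases {a b : X → ℂ} (ha : SI a) (hb : SI b) : classInner a b = 0 ∨ a = b ∨ a = -b := by
  by_cases h : classInner a b = 0
  · exact Or.inl h
  · exact Or.inr (ha.eq_or_neg hb h)

/-- if `a` is not orthogonal to `b` and `c`, then `b`, `c` are not orthogonal -/
theorem SI.trans_ne {a b c : X → ℂ} (ha : SI a) (hb : SI b) (hc : SI c) (h1 : classInner a b ≠ 0)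
    (h2 : classInner a c ≠ 0) : classInner b c ≠ 0 := by
  have := ha.norm
  rcases ha.eq_or_neg hb h1 with rfl | rfl
  · exact h2
  · rw [classInner_neg_left] at h2
    exact fun h => h2 (by rw [h, neg_zero])

theorem eq_of_inner_one {a b : X → ℂ} (ha : classInner a a = 1) (hb : classInner b b = 1) (h : classInner a b = 1) :
    a = b := by
  have h2 : classInner b a = 1 := by rw [← classInner_conj_symm, h, map_one]
  have : classInner (a - b) (a - b) = 0 := by
    rw [classInner_sub_left, classInner_sub_right, classInner_sub_right, ha, hb, h, h2]; ring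
  exact sub_eq_zero.mp (classInner_self_eq_zero this)

theorem SI.galois (σ : ℂ ≃+* ℂ) {a : X → ℂ} (h : SI a) : SI (fun x => σ (a x)) := by
  rcases h with h | h
  · exact Or.inl (Lib.CharGal.isIrr_galois σ h)
  · refine Or.inr ?_
    have := Lib.CharGal.isIrr_galois σ h
    convert this using 1
    funext x
    simp

theorem SI.galois_inner (σ : ℂ ≃+* ℂ) {a b : X → ℂ} (ha : SI a) (hb : SI b) :
    classInner (fun x => σ (a x)) (fun x => σ (b x)) = σ (classInner a b) := by
  have key : ∀ {a b : X → ℂ}, IsIrrCharacter X a → IsIrrCharacter X b →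
      classInner (fun x => σ (a x)) (fun x => σ (b x)) = σ (classInner a b) :=
    fun h1 h2 => Lib.CharGal.galois_inner σ (isChar_of_irr h1) (isChar_of_irr h2)
  have neg1 : ∀ a : X → ℂ, (fun x => σ (a x)) = -(fun x => σ ((-a) x)) := by
    intro a; funext x; simp
  rcases ha with ha | ha <;> rcases hb with hb | hb
  · exact key ha hb
  · rw [neg1 b, classInner_neg_right, key ha hb, classInner_neg_right, map_neg, neg_neg]
  · rw [neg1 a, classInner_neg_left, key ha hb, classInner_neg_left, map_neg, neg_neg]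
  · rw [neg1 a, neg1 b, classInner_neg_left, classInner_neg_right, key ha hb, classInner_neg_left, classInner_neg_right,
      neg_neg, neg_neg]

end signed2

end

end Cfsg.Agent.Lib.OddSgn
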