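import Cfsg.Agent.Lib.CharInt
import Cfsg.Agent.Lib.CharInd
import Cfsg.Agent.Lib.CharTable
import Cfsg.Prelude.Def_OddOrderLocal

set_option autoImplicit false

namespace Cfsg.Agent.Lib.OddZ

open Cfsg Cfsg.Agent.Lib.CharBasic Cfsg.Agent.Lib.CharInd Cfsg.Agent.Lib.CharInt Module
open scoped ComplexConjugate

noncomputable section

theorem sum_orbits_int {A X : Type*} [Group A] [Fintype A] [Fintype X] [MulAction A X] (F : X → ℂ)
    (hF : ∀ (l : A) (x : X), F (l • x) = F x)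
    (hc : ∀ x : X, ∃ c : ℂ, IsIntegral ℤ c ∧ F x = (Nat.card (MulAction.stabilizer A x) : ℂ) * c) :
    ∃ n : ℂ, IsIntegral ℤ n ∧ ∑ x : X, F x = (Nat.card A : ℂ) * n := by
  classical
  choose c hci hc using hc
  refine ⟨∑ ω : MulAction.orbitRel.Quotient A X, c ω.out, IsIntegral.sum _ fun ω _ => hci _, ?_⟩
  rw [← (MulAction.selfEquivSigmaOrbits A X).symm.sum_comp, Fintype.sum_sigma]
  rw [Finset.mul_sum]
  refine Finset.sum_congr rfl fun ω _ => ?_
  have h1 : ∀ y : MulAction.orbit A ω.out, F ((MulAction.selfEquivSigmaOrbits A X).symm ⟨ω, y⟩) = F ω.out := by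
    intro y
    obtain ⟨l, hl⟩ := y.2
    have : (MulAction.selfEquivSigmaOrbits A X).symm ⟨ω, y⟩ = y.1 := rfl
    rw [this, ← hl]
    exact hF l ω.out
  rw [Finset.sum_congr rfl fun y _ => h1 y, Finset.sum_const, Finset.card_univ, nsmul_eq_mul, hc ω.out]
  have h2 := MulAction.card_orbit_mul_card_stabilizer_eq_card_group A ω.out
  rw [← mul_assoc]
  congr 1
  rw [Nat.card_eq_fintype_card, Nat.card_eq_fintype_card, ← h2]
  push_cast
  rfl

variable {G : Type*} [Group G] [Fintype G]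

theorem sum_class_mul {ψ : G → ℂ} (hψ : IsIrrCharacter G ψ) (f : G → ℂ) (hf : IsClassFunction G f) (x : G) :
    ∑ y : G, f y * ψ (x * y) = ((∑ y : G, f y * ψ y) / ψ 1) * ψ x := by
  obtain ⟨n, ρ, hρ, rfl⟩ := hψ
  haveI := hρ
  have h1 := sum_smul_eq_scalar ρ f hf
  have h2 : ∑ y : G, f y * ρ.character (x * y) = LinearMap.trace ℂ _ (ρ x * ∑ y : G, f y • ρ y) := by
    rw [Finset.mul_sum, map_sum]
    refine Finset.sum_congr rfl fun y _ => ?_
    rw [mul_smul_comm, map_smul, smul_eq_mul]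
    congr 1
    show LinearMap.trace ℂ _ (ρ (x * y)) = _
    rw [map_mul]
  rw [h2, h1, mul_smul_comm, map_smul, smul_eq_mul, Representation.char_one]
  congr 2

/-- the double class sum -/
theorem double_sum {ψ : G → ℂ} (hψ : IsIrrCharacter G ψ) (z z' : G) :
    ∑ p : G × G, classInd z p.1 * classInd z' p.2 * ψ (p.1 * p.2) =
      ((Subgroup.centralizer ({z} : Set G)).index : ℂ) * (Subgroup.centralizer ({z'} : Set G)).index * ψ z * ψ z' / ψ 1 := by
  have hcl := isChar_classFn (isChar_of_irr hψ)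
  rw [Fintype.sum_prod_type]
  have h1 : ∀ x : G, ∑ y : G, classInd z x * classInd z' y * ψ (x * y) =
      (((Subgroup.centralizer ({z'} : Set G)).index : ℂ) * ψ z' / ψ 1) * (classInd z x * ψ x) := by
    intro x
    have h2 := sum_class_mul hψ (classInd z') (classInd_classFn z') x
    rw [sum_classInd_mul z' ψ hcl] at h2
    calc ∑ y : G, classInd z x * classInd z' y * ψ (x * y) = classInd z x * ∑ y : G, classInd z' y * ψ (x * y) := by
          rw [Finset.mul_sum]; exact Finset.sum_congr rfl fun y _ => by ring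
      _ = _ := by rw [h2]; ring
  rw [Finset.sum_congr rfl fun x _ => h1 x, ← Finset.mul_sum, sum_classInd_mul z ψ hcl]
  ring

/-- pairs -/
def PairT (G : Type*) := G × G

instance : Fintype (PairT G) := inferInstanceAs (Fintype (G × G))

/-- simultaneous conjugation -/
def actPair (P : Subgroup G) : MulAction P (PairT G) where
  smul y q := ((y : G) * q.1 * (y : G)⁻¹, (y : G) * q.2 * (y : G)⁻¹)
  one_smul q := by
    show ((1 : G) * q.1 * (1 : G)⁻¹, (1 : G) * q.2 * (1 : G)⁻¹) = q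
    rw [inv_one, one_mul, mul_one, one_mul, mul_one]; rfl
  mul_smul a b q := by
    show (((a * b : P) : G) * q.1 * ((a * b : P) : G)⁻¹, ((a * b : P) : G) * q.2 * ((a * b : P) : G)⁻¹) = _
    refine Prod.ext ?_ ?_
    · show ((a * b : P) : G) * q.1 * ((a * b : P) : G)⁻¹ = (a : G) * ((b : G) * q.1 * (b : G)⁻¹) * (a : G)⁻¹
      push_cast; group
    · show ((a * b : P) : G) * q.2 * ((a * b : P) : G)⁻¹ = (a : G) * ((b : G) * q.2 * (b : G)⁻¹) * (a : G)⁻¹
      push_cast; group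

open Classical in
/-- the double sum modulo `|P|` -/
theorem double_sum_mod {ψ : G → ℂ} (hψ : IsCharacter G ψ) (z z' : G) (P : Subgroup G) (Z : Set G)
    (hPZ : ∀ y ∈ P, ∀ u, u ∈ Z ↔ y * u * y⁻¹ ∈ Z)
    (hfix : ∀ y ∈ P, y ≠ 1 → ∀ u, (IsConj z u ∨ IsConj z' u) → y * u = u * y → u ∈ Z) :
    ∃ α : ℂ, IsIntegral ℤ α ∧ ∑ p : G × G, classInd z p.1 * classInd z' p.2 * ψ (p.1 * p.2) =
      (Nat.card P : ℂ) * α +
      ∑ p : G × G, if p.1 ∈ Z ∧ p.2 ∈ Z then classInd z p.1 * classInd z' p.2 * ψ (p.1 * p.2) else 0 := by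
  letI := actPair P
  have hsm : ∀ (y : P) (q : PairT G), y • q = ((y : G) * q.1 * (y : G)⁻¹, (y : G) * q.2 * (y : G)⁻¹) := fun _ _ => rfl
  have hcl := isChar_classFn hψ
  have hconj : ∀ (a : G) (y u : G), IsConj a (y * u * y⁻¹) ↔ IsConj a u := by
    intro a y u
    constructor
    · intro h; exact h.trans (isConj_iff.mpr ⟨y⁻¹, by group⟩)
    · intro h; exact h.trans (isConj_iff.mpr ⟨y, rfl⟩)
  have hci : ∀ (a : G) (y u : G), classInd a (y * u * y⁻¹) = classInd a u := by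
    intro a y u; unfold classInd; simp only [hconj]
  let F : PairT G → ℂ := fun p => if p.1 ∈ Z ∧ p.2 ∈ Z then 0 else classInd z p.1 * classInd z' p.2 * ψ (p.1 * p.2)
  obtain ⟨α, hα, hsum⟩ := sum_orbits_int (A := P) F (by
    intro y q
    rw [hsm]
    simp only [F]
    rw [← hPZ y y.2 q.1, ← hPZ y y.2 q.2, hci, hci]
    have e : (y : G) * q.1 * (y : G)⁻¹ * ((y : G) * q.2 * (y : G)⁻¹) = y * (q.1 * q.2) * (y : G)⁻¹ := by group
    rw [e]
    have := hcl (q.1 * q.2) y
    rw [this]) (by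
    intro q
    by_cases hq : F q = 0
    · exact ⟨0, isIntegral_zero, by rw [hq, mul_zero]⟩
    · refine ⟨F q, ?_, ?_⟩
      · simp only [F]
        split_ifs
        · exact isIntegral_zero
        · refine IsIntegral.mul (IsIntegral.mul ?_ ?_) (char_isIntegral hψ _)
          · unfold classInd; split_ifs
            · exact isIntegral_one
            · exact isIntegral_zero
          · unfold classInd; split_ifs
            · exact isIntegral_one
            · exact isIntegral_zero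
      · have hst : MulAction.stabilizer P q = ⊥ := by
          rw [eq_bot_iff]
          intro y hy
          rw [MulAction.mem_stabilizer_iff, hsm] at hy
          rw [Subgroup.mem_bot]
          by_contra hy1
          have hy1' : (y : G) ≠ 1 := fun h => hy1 (Subtype.ext h)
          have c1 : (y : G) * q.1 = q.1 * y := by
            have := congrArg Prod.fst hy
            simp only at this
            rw [mul_inv_eq_iff_eq_mul] at this; exact this
          have c2 : (y : G) * q.2 = q.2 * y := by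
            have := congrArg Prod.snd hy
            simp only at this
            rw [mul_inv_eq_iff_eq_mul] at this; exact this
          apply hq
          simp only [F]
          by_cases h1 : IsConj z q.1
          · by_cases h2 : IsConj z' q.2
            · rw [if_pos ⟨hfix y y.2 hy1' _ (Or.inl h1) c1, hfix y y.2 hy1' _ (Or.inr h2) c2⟩]
            · have : classInd z' q.2 = 0 := if_neg h2
              rw [this, mul_zero, zero_mul, ite_self]
          · have : classInd z q.1 = 0 := if_neg h1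
            rw [this, zero_mul, zero_mul, ite_self]
        rw [hst, Nat.card_eq_fintype_card, Fintype.card_unique, Nat.cast_one, one_mul])
  refine ⟨α, hα, ?_⟩
  rw [← hsum]
  have e : ∑ x : PairT G, F x = ∑ p : G × G, (if p.1 ∈ Z ∧ p.2 ∈ Z then 0 else classInd z p.1 * classInd z' p.2 * ψ (p.1 * p.2)) := rfl
  rw [e, ← Finset.sum_add_distrib]
  refine Finset.sum_congr rfl fun p _ => ?_
  split_ifs <;> simp
section congr

variable {G : Type*} [Group G] [Fintype G]

theorem cast_dvd_of_int {q : ℕ} (hq : q ≠ 0) {k : ℤ} {α : ℂ} (hα : IsIntegral ℤ α) (h : (k : ℂ) = (q : ℂ) * α) : (q : ℤ) ∣ k := by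
  have hq' : (q : ℂ) ≠ 0 := Nat.cast_ne_zero.mpr hq
  have h1 : α = (((k : ℚ) / (q : ℚ) : ℚ) : ℂ) := by
    push_cast
    rw [h]; field_simp
  rw [h1] at hα
  obtain ⟨n, hn⟩ := isInt_of_isIntegral_rat hα
  refine ⟨n, ?_⟩
  have hq'' : (q : ℚ) ≠ 0 := Nat.cast_ne_zero.mpr hq
  have : (k : ℚ) = q * n := by
    rw [← hn]; field_simp
  exact_mod_cast this

theorem int_value {Z : Subgroup G} [Fintype Z] {ψ : G → ℂ} (hψ : IsCharacter G ψ) {s : ℂ} (hs : ∀ z ∈ Z, z ≠ 1 → ψ z = s)
    (hZ : Z ≠ ⊥) : ∃ n : ℤ, s = n := by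
  classical
  obtain ⟨d, hd⟩ := isChar_one_eq hψ
  obtain ⟨k, hk⟩ := exists_nat_inner' (isChar_res Z hψ) (isChar_trivial (G := Z))
  rw [classInner_def] at hk
  have h1 : ∑ z : Z, ψ z * conj (1 : ℂ) = d + ((Nat.card Z : ℂ) - 1) * s := by
    rw [← Finset.add_sum_erase _ _ (Finset.mem_univ (1 : Z))]
    rw [map_one, mul_one, Subgroup.coe_one, hd]
    congr 1
    rw [Finset.sum_congr rfl (g := fun _ => s)]
    · rw [Finset.sum_const, Finset.card_erase_of_mem (Finset.mem_univ _), Finset.card_univ, nsmul_eq_mul, ← Nat.card_eq_fintype_card,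
        Nat.cast_sub Nat.card_pos, Nat.cast_one]
    · intro z hz
      rw [mul_one]
      exact hs z z.2 (fun h => (Finset.mem_erase.mp hz).1 (Subtype.ext h))
  have hZ0 : (Nat.card Z : ℂ) ≠ 0 := Nat.cast_ne_zero.mpr Nat.card_pos.ne'
  have h2 : d + ((Nat.card Z : ℂ) - 1) * s = Nat.card Z * k := by
    rw [← h1, ← hk, mul_inv_cancel_left₀ hZ0]
  have hZ1 : 1 < Nat.card Z := by
    have := Nat.card_pos (α := Z)
    have h3 : Nat.card Z ≠ 1 := fun h => hZ (Subgroup.card_eq_one.mp h)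
    omega
  have hZ2 : ((Nat.card Z : ℚ) - 1) ≠ 0 := by
    have : (1 : ℚ) < Nat.card Z := by exact_mod_cast hZ1
    linarith
  have hZ3 : ((Nat.card Z : ℂ) - 1) ≠ 0 := by exact_mod_cast hZ2
  have h3 : s = (((Nat.card Z * k - d : ℚ) / (Nat.card Z - 1) : ℚ) : ℂ) := by
    push_cast
    rw [eq_div_iff hZ3]
    linear_combination h2
  obtain ⟨⟨z, hz⟩, hz1⟩ := Subgroup.ne_bot_iff_exists_ne_one.mp hZ
  have h4 : IsIntegral ℤ s := by
    rw [← hs z hz (fun h => hz1 (Subtype.ext h))]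
    exact char_isIntegral hψ z
  rw [h3] at h4
  obtain ⟨n, hn⟩ := isInt_of_isIntegral_rat h4
  refine ⟨n, ?_⟩
  rw [h3, hn]; simp

theorem centralizer_inv (z : G) : Subgroup.centralizer ({z⁻¹} : Set G) = Subgroup.centralizer ({z} : Set G) := by
  ext x
  rw [Subgroup.mem_centralizer_singleton_iff, Subgroup.mem_centralizer_singleton_iff]
  exact (Commute.inv_right_iff (a := x) (b := z))

/-- the congruence -/
theorem congr_main {p : ℕ} [hp : Fact p.Prime] (P : Sylow p G) (hTI : IsTISubset ((P : Subgroup G) : Set G))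
    (hodd : Odd (Nat.card (Subgroup.normalizer ((P : Subgroup G) : Set G)))) {Z : Subgroup G} (hZP : Z ≤ P)
    (hZn : ∀ x ∈ Subgroup.normalizer ((P : Subgroup G) : Set G), ∀ z ∈ Z, x * z * x⁻¹ ∈ Z)
    (hZc : ∀ z ∈ Z, ∀ y ∈ (P : Subgroup G), z * y = y * z)
    {ψ : G → ℂ} (hψ : IsIrrCharacter G ψ) {s : ℂ} (hs : ∀ z ∈ Z, z ≠ 1 → ψ z = s) {z : G} (hz : z ∈ Z) (hz1 : z ≠ 1)
    {n d : ℤ} (hn : s = n) (hd : ψ 1 = d) : (Nat.card (P : Subgroup G) : ℤ) ∣ d - n := by
  classical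
  obtain ⟨L, hL⟩ : ∃ L : Subgroup G, L = Subgroup.normalizer ((P : Subgroup G) : Set G) := ⟨_, rfl⟩
  rw [← hL] at hodd hZn
  have hPL : (P : Subgroup G) ≤ L := by rw [hL]; exact Subgroup.le_normalizer
  have hZL : Z ≤ L := hZP.trans hPL
  have hψc := isChar_of_irr hψ
  -- TI facts
  have ti1 : ∀ g : G, ∀ x ∈ (P : Subgroup G), x ≠ 1 → g * x * g⁻¹ ∈ (P : Subgroup G) → g ∈ L := by
    intro g x hx hx1 hgx
    by_contra hg
    rw [hL] at hg
    exact hx1 (hTI g hg x hx hgx)
  have ti2 : ∀ w ∈ Z, w ≠ 1 → ∀ u ∈ (P : Subgroup G), IsConj w u → ∃ g ∈ L, g * w * g⁻¹ = u := by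
    intro w hw hw1 u hu hwu
    obtain ⟨g, hg⟩ := isConj_iff.mp hwu
    exact ⟨g, ti1 g w (hZP hw) hw1 (by rw [hg]; exact hu), hg⟩
  have ti3 : ∀ w ∈ Z, w ≠ 1 → ∀ y ∈ (P : Subgroup G), y ≠ 1 → ∀ u, IsConj w u → y * u = u * y → u ∈ Z := by
    intro w hw hw1 y hy hy1 u hwu hyu
    have huL : u ∈ L := ti1 u y hy hy1 (by
      have : u * y * u⁻¹ = y := by rw [← hyu]; group
      rw [this]; exact hy)
    have hup : IsPGroup p (Subgroup.zpowers u) := by
      obtain ⟨g, hg⟩ := isConj_iff.mp hwu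
      have h1 : orderOf u = orderOf w := by rw [← hg]; exact (SemiconjBy.conj_mk _ _).orderOf_eq.symm
      obtain ⟨k, hk⟩ := (IsPGroup.iff_orderOf.mp P.isPGroup') ⟨w, hZP hw⟩
      rw [Subgroup.orderOf_mk] at hk
      exact IsPGroup.of_card (n := k) (by rw [Nat.card_zpowers, h1, hk])
    have huP : u ∈ (P : Subgroup G) := by
      have h2 := hup.inf_normalizer_sylow P
      have h3 : u ∈ Subgroup.zpowers u ⊓ Subgroup.normalizer (P : Set G) := ⟨Subgroup.mem_zpowers u, by
        have := huL; rw [hL] at this; exact this⟩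
      have h4 : u ∈ Subgroup.zpowers u ⊓ (P : Subgroup G) := by rw [← h2]; exact h3
      exact h4.2
    obtain ⟨g, hg, rfl⟩ := ti2 w hw hw1 u huP hwu
    exact hZn g hg w hw
  have hPZ : ∀ y ∈ (P : Subgroup G), ∀ u, u ∈ (Z : Set G) ↔ y * u * y⁻¹ ∈ (Z : Set G) := by
    intro y hy u
    constructor
    · intro hu; exact hZn y (hPL hy) u hu
    · intro hu
      have := hZn y⁻¹ (L.inv_mem (hPL hy)) _ hu
      have e : y⁻¹ * (y * u * y⁻¹) * y⁻¹⁻¹ = u := by group
      rwa [e] at this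
  have hzi : z⁻¹ ∈ Z := Z.inv_mem hz
  have hzi1 : z⁻¹ ≠ 1 := by simpa using hz1
  obtain ⟨α, hα, e1⟩ := double_sum_mod hψc z z (P : Subgroup G) (Z : Set G) hPZ (fun y hy hy1 u hu hc => by
    rcases hu with hu | hu <;> exact ti3 z hz hz1 y hy hy1 u hu hc)
  obtain ⟨β, hβ, e2⟩ := double_sum_mod hψc z z⁻¹ (P : Subgroup G) (Z : Set G) hPZ (fun y hy hy1 u hu hc => by
    rcases hu with hu | hu
    · exact ti3 z hz hz1 y hy hy1 u hu hc
    · exact ti3 z⁻¹ hzi hzi1 y hy hy1 u hu hc)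
  rw [double_sum hψ] at e1 e2
  rw [centralizer_inv, hs z hz hz1, hs z⁻¹ hzi hzi1] at e2
  rw [hs z hz hz1] at e1
  rw [e2] at e1
  -- the sums over Z
  let C : Finset G := Finset.univ.filter fun u => u ∈ Z ∧ IsConj z u
  have hC : ∀ {u}, u ∈ C ↔ u ∈ Z ∧ IsConj z u := fun {u} => by simp [C]
  have hC1 : ∀ {u}, u ∈ C → u ≠ 1 := by
    intro u hu h
    rw [h] at hu
    have := (hC.mp hu).2
    rw [isConj_one_left] at this
    exact hz1 this
  -- reality
  have hreal : ∀ u ∈ C, u⁻¹ ∉ C := by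
    intro u hu hu'
    obtain ⟨g, hg, hgu⟩ := ti2 z hz hz1 u (hZP (hC.mp hu).1) (hC.mp hu).2
    obtain ⟨k, hk, hku⟩ := ti2 z hz hz1 u⁻¹ (hZP (hC.mp hu').1) (hC.mp hu').2
    have h1 : (k⁻¹ * g) * z * (k⁻¹ * g)⁻¹ = z⁻¹ := by
      have e3 : g * z * g⁻¹ = (k * z * k⁻¹)⁻¹ := by rw [hgu, hku, inv_inv]
      calc (k⁻¹ * g) * z * (k⁻¹ * g)⁻¹ = k⁻¹ * (g * z * g⁻¹) * k := by group
        _ = k⁻¹ * (k * z * k⁻¹)⁻¹ * k := by rw [e3]
        _ = z⁻¹ := by group
    have hLodd : Odd (Nat.card L) := hodd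
    haveI : Fintype L := Fintype.ofFinite _
    have h2 : (⟨z, hZL hz⟩ : L) = 1 := by
      refine CharTable.eq_one_of_isConj_inv hLodd (isConj_iff.mpr ⟨⟨k⁻¹ * g, L.mul_mem (L.inv_mem hk) hg⟩, ?_⟩)
      exact Subtype.ext h1
    exact hz1 (congrArg Subtype.val h2)
  have hsum1 : ∑ q : G × G, (if q.1 ∈ (Z : Set G) ∧ q.2 ∈ (Z : Set G) then classInd z q.1 * classInd z q.2 * ψ (q.1 * q.2) else 0) =
      (C.card : ℂ) ^ 2 * s := by
    have h1 : ∀ q : G × G, (if q.1 ∈ (Z : Set G) ∧ q.2 ∈ (Z : Set G) then classInd z q.1 * classInd z q.2 * ψ (q.1 * q.2) else 0) =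
        if q ∈ C ×ˢ C then s else 0 := by
      rintro ⟨u, v⟩
      simp only [Finset.mem_product, hC, SetLike.mem_coe, classInd]
      by_cases a1 : u ∈ Z <;> by_cases a2 : v ∈ Z <;> by_cases a3 : IsConj z u <;> by_cases a4 : IsConj z v <;>
        simp only [a1, a2, a3, a4, and_true, true_and, and_false, false_and, if_true, if_false, mul_one, mul_zero, zero_mul, one_mul]
      refine hs _ (Z.mul_mem a1 a2) fun h => ?_
      have : v = u⁻¹ := (eq_inv_of_mul_eq_one_right h)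
      exact hreal u (hC.mpr ⟨a1, a3⟩) (by rw [← this]; exact hC.mpr ⟨a2, a4⟩)
    rw [Finset.sum_congr rfl fun q _ => h1 q, Finset.sum_ite_mem, Finset.univ_inter, Finset.sum_const, Finset.card_product, nsmul_eq_mul]
    push_cast; ring
  have hsum2 : ∑ q : G × G, (if q.1 ∈ (Z : Set G) ∧ q.2 ∈ (Z : Set G) then classInd z q.1 * classInd z⁻¹ q.2 * ψ (q.1 * q.2) else 0) =
      (C.card : ℂ) ^ 2 * s + C.card * (d - s) := by
    have hcinv : ∀ v : G, IsConj z⁻¹ v ↔ IsConj z v⁻¹ := by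
      intro v
      constructor
      · intro h
        obtain ⟨g, hg⟩ := isConj_iff.mp h
        exact isConj_iff.mpr ⟨g, by rw [← hg]; group⟩
      · intro h
        obtain ⟨g, hg⟩ := isConj_iff.mp h
        exact isConj_iff.mpr ⟨g, by rw [← inv_inv v, ← hg]; group⟩
    have h1 : ∀ q : G × G, (if q.1 ∈ (Z : Set G) ∧ q.2 ∈ (Z : Set G) then classInd z q.1 * classInd z⁻¹ q.2 * ψ (q.1 * q.2) else 0) =
        if (q.1, q.2⁻¹) ∈ C ×ˢ C then (s + if q.1 = q.2⁻¹ then d - s else 0) else 0 := by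
      rintro ⟨u, v⟩
      simp only [Finset.mem_product, hC, SetLike.mem_coe, classInd, hcinv, Subgroup.inv_mem_iff]
      by_cases a1 : u ∈ Z <;> by_cases a2 : v ∈ Z <;> by_cases a3 : IsConj z u <;> by_cases a4 : IsConj z v⁻¹ <;>
        simp only [a1, a2, a3, a4, and_true, true_and, and_false, false_and, if_true, if_false, mul_one, mul_zero, zero_mul, one_mul]
      split_ifs with h
      · rw [h, inv_mul_cancel, hd]; ring
      · rw [add_zero]
        exact hs _ (Z.mul_mem a1 a2) fun h' => h (eq_inv_of_mul_eq_one_left h')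
    rw [Finset.sum_congr rfl fun q _ => h1 q]
    let e : G × G ≃ G × G := Equiv.prodCongr (Equiv.refl G) (Equiv.inv G)
    have h2 := Equiv.sum_comp e (fun q : G × G => if q ∈ C ×ˢ C then (s + if q.1 = q.2 then (d : ℂ) - s else 0) else 0)
    have h3 : ∑ q : G × G, (if (q.1, q.2⁻¹) ∈ C ×ˢ C then (s + if q.1 = q.2⁻¹ then (d : ℂ) - s else 0) else 0) =
      ∑ q : G × G, (fun q : G × G => if q ∈ C ×ˢ C then (s + if q.1 = q.2 then (d : ℂ) - s else 0) else 0) (e q) := rfl
    rw [h3, h2, Finset.sum_ite_mem, Finset.univ_inter, Finset.sum_add_distrib, Finset.sum_const, Finset.card_product, nsmul_eq_mul,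
      Finset.sum_product]
    simp only [Finset.sum_ite_eq]
    rw [Finset.sum_congr rfl (g := fun _ => (d : ℂ) - s) (fun u hu => if_pos hu), Finset.sum_const, nsmul_eq_mul]
    push_cast; ring
  rw [hsum1, hsum2] at e1
  -- conclusion
  have hkey : (((C.card : ℤ) * (d - n) : ℤ) : ℂ) = (Nat.card (P : Subgroup G) : ℂ) * (α - β) := by
    push_cast
    rw [← hn]
    linear_combination e1
  have hdvd := cast_dvd_of_int Nat.card_pos.ne' (hα.sub hβ) hkey
  -- C has order prime to p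
  have hcopC : ¬ p ∣ C.card := by
    haveI : Fintype L := Fintype.ofFinite _
    have h1 : C.card = (Subgroup.centralizer ({(⟨z, hZL hz⟩ : L)} : Set L)).index := by
      rw [← card_conj_class]
      have hmem : ∀ x : {x : L // IsConj (⟨z, hZL hz⟩ : L) x}, (x.1 : G) ∈ C := by
        rintro ⟨x, hx⟩
        obtain ⟨g, hg⟩ := isConj_iff.mp hx
        have hg' : (g : G) * z * (g : G)⁻¹ = x := congrArg Subtype.val hg
        refine hC.mpr ⟨?_, isConj_iff.mpr ⟨g, hg'⟩⟩
        rw [← hg']; exact hZn g g.2 z hz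
      have hb : Function.Bijective (fun x : {x : L // IsConj (⟨z, hZL hz⟩ : L) x} => (⟨(x.1 : G), hmem x⟩ : C)) := by
        constructor
        · intro x y h
          exact Subtype.ext (Subtype.ext (congrArg (fun w : C => (w : G)) h))
        · rintro ⟨u, hu⟩
          obtain ⟨g, hg, hgu⟩ := ti2 z hz hz1 u (hZP (hC.mp hu).1) (hC.mp hu).2
          exact ⟨⟨⟨u, hZL (hC.mp hu).1⟩, isConj_iff.mpr ⟨⟨g, hg⟩, Subtype.ext hgu⟩⟩, rfl⟩
      rw [Nat.card_congr (Equiv.ofBijective _ hb), Nat.card_eq_fintype_card, Fintype.card_coe]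
    have h2 : (P : Subgroup G).subgroupOf L ≤ Subgroup.centralizer ({(⟨z, hZL hz⟩ : L)} : Set L) := by
      intro y hy
      rw [Subgroup.mem_centralizer_singleton_iff]
      exact Subtype.ext (hZc z hz y (Subgroup.mem_subgroupOf.mp hy)).symm
    have h3 := Subgroup.index_dvd_of_le h2
    intro h
    rw [h1] at h
    have h4 : p ∣ (P : Subgroup G).relIndex L := h.trans h3
    have h5 : (P : Subgroup G).relIndex L ∣ (P : Subgroup G).index := Dvd.intro _ (Subgroup.relIndex_mul_index hPL)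
    exact P.not_dvd_index (h4.trans h5)
  obtain ⟨k, hk⟩ := (IsPGroup.iff_card).mp P.isPGroup'
  rw [hk] at hdvd ⊢
  have hco : IsCoprime ((p ^ k : ℕ) : ℤ) (C.card : ℤ) := by
    rw [Nat.isCoprime_iff_coprime]
    exact Nat.Coprime.pow_left _ ((hp.out.coprime_iff_not_dvd).mpr hcopC)
  exact hco.dvd_of_dvd_mul_left hdvd

end congr

end

end Cfsg.Agent.Lib.OddZ
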