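import Cfsg.Agent.Lib.OddCohF
import Cfsg.Agent.Lib.OddZ
import Cfsg.Agent.Lib.CharFrob

set_option autoImplicit false

namespace Cfsg.Agent.Lib.OddSib

open Cfsg Cfsg.Agent.Lib.CharBasic Cfsg.Agent.Lib.CharInd Cfsg.Agent.Lib.CharExc Cfsg.Agent.Lib.OddSgn
open Cfsg.Agent.Lib.OddCoh Cfsg.Agent.Lib.OddCohB Cfsg.Agent.Lib.OddCohC Cfsg.Agent.Lib.OddCohD Cfsg.Agent.Lib.OddCohE
open Cfsg.Agent.Lib.OddCohF
open Cfsg.Agent.Lib.CharNormal Cfsg.Agent.Lib.CharMono Cfsg.Agent.Lib.OddZ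
open Cfsg.Agent.Lib.OddDadeB (conj_isIrr conj_isChar conj_conj conj_sub conj_add conj_neg)
open scoped ComplexConjugate

noncomputable section

variable {G : Type*} [Group G] [Fintype G]

section div

variable {p : ℕ} [Fact p.Prime] (P : Sylow p G) {L : Subgroup G} [Fintype L]

theorem div_aux (hL : L = Subgroup.normalizer ((P : Subgroup G) : Set G)) (hTI : IsTISubset ((P : Subgroup G) : Set G))
    (hodd : Odd (Nat.card L)) {Z : Subgroup L} [hZn : Z.Normal] (hZP : ∀ z ∈ Z, (z : G) ∈ (P : Subgroup G))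
    (hZc : ∀ z ∈ Z, ∀ y ∈ (P : Subgroup G), (z : G) * y = y * z) (hZ1 : Z ≠ ⊥)
    {μ : G → ℂ} (hμ : IsIrrCharacter G μ) {χ₁ : L → ℂ} {d₁ : ℕ} (hd0 : d₁ ≠ 0) {r : ℤ}
    (horth : ∀ χ : L → ℂ, IsIrrCharacter L χ → (∃ z ∈ Z, χ z ≠ χ 1) →
      (d₁ : ℂ) * classInner χ (fun x : L => μ x) = χ 1 * r) :
    ∃ j : ℤ, r * (Nat.card L : ℤ) = d₁ * (Nat.card (P : Subgroup G) : ℤ) * j := by
  classical
  have hμc := isChar_of_irr hμ
  have hres := isChar_res L hμc
  -- value on Z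
  have hval : ∀ z ∈ Z, z ≠ 1 → (d₁ : ℂ) * (μ z - μ 1) = -(r * Nat.card L) := by
    intro z hz hz1
    have e1 : ∀ x : L, μ x = ∑ χ : IrrCharacter L, classInner (fun x : L => μ x) χ.1 * χ.1 x := by
      intro x
      have := congrFun (char_eq_sum_inner hres) x
      rw [Finset.sum_apply] at this
      simpa using this
    have e2 : ∀ χ : IrrCharacter L, (d₁ : ℂ) * (classInner (fun x : L => μ x) χ.1 * (χ.1 z - χ.1 1)) = r * (χ.1 z * χ.1 1 - χ.1 1 * χ.1 1) := by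
      intro χ
      by_cases h : ∃ z ∈ Z, χ.1 z ≠ χ.1 1
      · have h1 := horth χ.1 χ.2 h
        have h2 : (d₁ : ℂ) * classInner (fun x : L => μ x) χ.1 = χ.1 1 * r := by
          obtain ⟨m, -, hm⟩ := isIrr_one_eq χ.2
          have h3 := congrArg conj h1
          rw [map_mul, map_mul, map_natCast, classInner_conj_symm, map_intCast (starRingEnd ℂ), hm, map_natCast] at h3
          rw [h3, hm]
        linear_combination (χ.1 z - χ.1 1) * h2
      · push_neg at h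
        rw [h z hz]; ring
    have e3 : μ z = μ ((z : L) : G) := rfl
    have e4 : μ 1 = μ ((1 : L) : G) := rfl
    rw [e4, e1 z, e1 1, ← Finset.sum_sub_distrib, Finset.mul_sum]
    have e5 : ∀ χ : IrrCharacter L, (d₁ : ℂ) * (classInner (fun x : L => μ x) χ.1 * χ.1 z - classInner (fun x : L => μ x) χ.1 * χ.1 1) =
        r * (χ.1 z * χ.1 1) - r * (χ.1 1 * χ.1 1) := by
      intro χ
      rw [← mul_sub, e2 χ]; ring
    rw [Finset.sum_congr rfl fun χ _ => e5 χ, Finset.sum_sub_distrib, ← Finset.mul_sum, ← Finset.mul_sum, column_orth_one,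
      column_orth_one, if_neg hz1, if_pos rfl]
    ring
  have hd0' : (d₁ : ℂ) ≠ 0 := Nat.cast_ne_zero.mpr hd0
  -- the subgroup of G
  let Z' : Subgroup G := Z.map L.subtype
  haveI : Fintype Z' := Fintype.ofFinite _
  have hs : ∀ w ∈ Z', w ≠ 1 → μ w = μ 1 - (r * Nat.card L) / d₁ := by
    rintro _ ⟨z, hz, rfl⟩ hw
    have h1 := hval z hz (fun h => hw (by rw [h]; rfl))
    have h2 : μ (L.subtype z) = μ z := rfl
    rw [h2, eq_sub_iff_add_eq]
    field_simp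
    linear_combination h1
  obtain ⟨z, hz1⟩ := Subgroup.ne_bot_iff_exists_ne_one.mp hZ1
  have hZ1' : Z' ≠ ⊥ := by
    intro h
    have : (L.subtype z : G) ∈ Z' := ⟨z, z.2, rfl⟩
    rw [h, Subgroup.mem_bot] at this
    exact hz1 (Subtype.ext (Subtype.ext this))
  obtain ⟨n, hn⟩ := int_value (Z := Z') hμc hs hZ1'
  obtain ⟨d, hd⟩ := isChar_one_eq hμc
  have hzw : (L.subtype z : G) ∈ Z' := ⟨z, z.2, rfl⟩
  have hzw1 : (L.subtype z : G) ≠ 1 := fun h => hz1 (Subtype.ext (Subtype.ext h))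
  have hcon := congr_main P hTI (by rw [← hL]; exact hodd) (Z := Z') (by
      rintro _ ⟨w, hw, rfl⟩; exact hZP w hw) (by
      rw [← hL]
      rintro x hx _ ⟨w, hw, rfl⟩
      exact ⟨⟨x, hx⟩ * w * ⟨x, hx⟩⁻¹, hZn.conj_mem w hw _, rfl⟩) (by
      rintro _ ⟨w, hw, rfl⟩ y hy; exact hZc w hw y hy) hμ hs hzw hzw1 (n := n) (d := d) hn (by rw [hd]; simp)
  obtain ⟨j, hj⟩ := hcon
  refine ⟨j, ?_⟩
  have h1 : (r * (Nat.card L : ℂ)) / d₁ = (Nat.card (P : Subgroup G) : ℂ) * j := by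
    have h2 : ((d - n : ℤ) : ℂ) = ((Nat.card (P : Subgroup G) : ℤ) * j : ℤ) := by rw [hj]
    push_cast at h2
    rw [← h2, ← hn, hd]; ring
  rw [div_eq_iff hd0'] at h1
  have h3 : ((r * (Nat.card L : ℤ) : ℤ) : ℂ) = ((d₁ * (Nat.card (P : Subgroup G) : ℤ) * j : ℤ) : ℂ) := by
    push_cast
    rw [h1]; ring
  exact_mod_cast h3

theorem div_lemma (hL : L = Subgroup.normalizer ((P : Subgroup G) : Set G)) (hTI : IsTISubset ((P : Subgroup G) : Set G))
    (hodd : Odd (Nat.card L)) {Z : Subgroup L} [hZn : Z.Normal] (hZP : ∀ z ∈ Z, (z : G) ∈ (P : Subgroup G))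
    (hZc : ∀ z ∈ Z, ∀ y ∈ (P : Subgroup G), (z : G) * y = y * z) (hZ1 : Z ≠ ⊥)
    {μ : G → ℂ} (hμ : SI μ) {d₁ : ℕ} (hd0 : d₁ ≠ 0) {r : ℤ}
    (horth : ∀ χ : L → ℂ, IsIrrCharacter L χ → (∃ z ∈ Z, χ z ≠ χ 1) →
      (d₁ : ℂ) * classInner χ (fun x : L => μ x) = χ 1 * r) :
    ∃ j : ℤ, r * (Nat.card L : ℤ) = d₁ * (Nat.card (P : Subgroup G) : ℤ) * j := by
  obtain ⟨s, ν, hs, hν⟩ := hμ.form
  rcases hs with rfl | rfl
  · have : μ = ν.1 := by rw [hν]; simp
    exact div_aux P hL hTI hodd hZP hZc hZ1 (χ₁ := 0) (by rw [this]; exact ν.2) hd0 horth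
  · have h1 : μ = -ν.1 := by rw [hν]; simp
    obtain ⟨j, hj⟩ := div_aux P hL hTI hodd hZP hZc hZ1 (χ₁ := 0) (μ := ν.1) ν.2 hd0 (r := -r) (by
      intro χ hχ hz
      have h2 := horth χ hχ hz
      have h3 : (fun x : L => μ x) = -(fun x : L => ν.1 x) := by funext x; rw [h1]; rfl
      rw [h3, classInner_neg_right] at h2
      push_cast
      linear_combination -h2)
    exact ⟨-j, by linear_combination -hj⟩

end div
section setup

variable {L : Subgroup G} [Fintype L] {K : Subgroup L} [hK : K.Normal]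

theorem zspan_vanish {α : L → ℂ} (hα : α ∈ zspan (inducedIrrAbove K ⊥)) :
    IsClassFunction L α ∧ IsGeneralizedCharacter L α ∧ ∀ x : L, x ∉ K → α x = 0 := by
  refine zspan_induction (p := fun α => IsClassFunction L α ∧ IsGeneralizedCharacter L α ∧ ∀ x : L, x ∉ K → α x = 0) ?_ ?_ ?_ ?_ hα
  · rintro _ ⟨θ, h1, -, -, rfl⟩
    have h2 := isChar_ind K (isChar_of_irr h1)
    exact ⟨isChar_classFn h2, gen_of_char h2, fun x hx => indFun_normal_notMem K θ hx⟩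
  · exact ⟨fun _ _ => rfl, gen_zero, fun _ _ => rfl⟩
  · rintro x y _ _ ⟨h1, h2, h3⟩ ⟨h4, h5, h6⟩
    exact ⟨classFn_add h1 h4, gen_add h2 h5, fun z hz => by rw [Pi.add_apply, h3 z hz, h6 z hz, add_zero]⟩
  · rintro n x _ ⟨h1, h2, h3⟩
    exact ⟨by rw [zs]; exact classFn_smul _ h1, gen_zs n h2, fun z hz => by rw [Pi.smul_apply, h3 z hz, smul_zero]⟩

theorem ti_iso (hTI : ∀ g : G, g ∉ L → ∀ t : G, (∃ k ∈ K, (k : G) = t) → (∃ k ∈ K, (k : G) = g * t * g⁻¹) → t = 1) :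
    IsLinearIsometryOn (zspanOn (inducedIrrAbove K ⊥) {1}ᶜ) (fun α : L → ℂ => indFun L α) ∧
      ∀ α ∈ zspanOn (inducedIrrAbove K ⊥) {1}ᶜ, indFun L α 1 = 0 := by
  have hv : ∀ α : L → ℂ, α ∈ zspanOn (inducedIrrAbove K ⊥) {1}ᶜ → ∀ x : L, (x : G) ∉ {t : G | ∃ k ∈ K, (k : G) = t} → α x = 0 := by
    intro α hα x hx
    exact (zspan_vanish hα.1).2.2 x (fun h => hx ⟨x, h, rfl⟩)
  refine ⟨⟨fun α _ β _ => indFun_add L α β, fun α _ n => ?_, fun α hα β hβ => ?_, fun α hα => ?_⟩, fun α hα => ?_⟩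
  · show indFun L (n • α) = n • indFun L α
    rw [zs, zs, indFun_smul]
  · exact indFun_isometry_of_ti L {t : G | ∃ k ∈ K, (k : G) = t} (fun g hg t ht hgt => hTI g hg t ht hgt) α β
      (zspan_vanish hβ.1).1 (hv α hα) (hv β hβ) (mem_zon_one.mp hα).2
  · exact isGen_ind L (zspan_vanish hα.1).2.1
  · rw [indFun_one, (mem_zon_one.mp hα).2, mul_zero]

theorem iia_irr (hfpf : ∀ g : L, g ∉ K → ∀ k ∈ K, g * k = k * g → k = 1) {A : Subgroup L} {χ : L → ℂ} (hχ : χ ∈ inducedIrrAbove K A) :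
    IsIrrCharacter L χ := by
  obtain ⟨θ, h1, h2, -, rfl⟩ := hχ
  exact CharFrob.ind_irr hfpf h1 h2

theorem iia_conj_ne (hodd : Odd (Nat.card L)) (hfpf : ∀ g : L, g ∉ K → ∀ k ∈ K, g * k = k * g → k = 1)
    {χ : L → ℂ} (hχ : χ ∈ inducedIrrAbove K ⊥) : conjFun χ ≠ χ := by
  classical
  haveI := Fintype.ofFinite K
  intro h
  have h1 := CharTable.real_eq_one_of_odd hodd ⟨χ, iia_irr hfpf hχ⟩ (fun g => by
    have := congrFun h g
    exact Complex.conj_eq_iff_im.mp this)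
  have h2 : χ = fun _ => 1 := h1
  have h3 := iia_irr hfpf hχ
  have h4 : classInner χ χ = 1 := irr_inner_self h3
  obtain ⟨θ, k1, k2, -, k4⟩ := hχ
  have h5 : classInner χ (fun _ => 1) = 0 := by
    rw [k4, reciprocity K θ _ (classFn_const 1)]
    exact irr_inner_ne k1 isIrr_trivial k2
  rw [← h2, h4] at h5
  exact one_ne_zero h5

theorem cs_frob (hodd : Odd (Nat.card L)) (hfpf : ∀ g : L, g ∉ K → ∀ k ∈ K, g * k = k * g → k = 1)
    (hTI : ∀ g : G, g ∉ L → ∀ t : G, (∃ k ∈ K, (k : G) = t) → (∃ k ∈ K, (k : G) = g * t * g⁻¹) → t = 1)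
    (hne : (inducedIrrAbove K (⊥ : Subgroup L)).Nonempty) :
    ∃ R : (L → ℂ) → Finset (G → ℂ), IsCoherenceSystem (inducedIrrAbove K ⊥) (fun α : L → ℂ => indFun L α) R :=
  exists_R hne (fun χ hχ => iia_irr hfpf hχ) (fun χ hχ => ⟨iia_conj hχ, iia_conj_ne hodd hfpf hχ⟩) (ti_iso hTI).1 (ti_iso hTI).2

end setup

section negconj

variable {L : Type*} [Group L] [Fintype L]

theorem neg_conj {Y : Set (L → ℂ)} {t τ : (L → ℂ) → (G → ℂ)} (hY : ∀ φ ∈ Y, conjFun φ ∈ Y)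
    (hgen : ∀ φ ∈ Y, IsGeneralizedCharacter L φ) (ht : IsLinearIsometryOn (zspan Y) t)
    (hagr : ∀ α ∈ zspanOn Y {1}ᶜ, t α = τ α) (hneg : ∀ α ∈ zspanOn Y {1}ᶜ, conjFun α = -α) :
    IsLinearIsometryOn (zspan Y) (fun α => -t (conjFun α)) ∧ ∀ α ∈ zspanOn Y {1}ᶜ, -t (conjFun α) = τ α := by
  have ht' : IsLinearIsometryOn ((zsp Y : Submodule ℤ (L → ℂ)) : Set (L → ℂ)) t := ht
  have hsm : ∀ (n : ℤ) (α : L → ℂ), conjFun (n • α) = n • conjFun α := by
    intro n α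
    funext x
    simp [conjFun]
  have hc : ∀ α ∈ zspan Y, conjFun α ∈ zspan Y := by
    intro α hα
    refine zspan_induction (p := fun α => conjFun α ∈ zspan Y) (fun φ hφ => subset_zspan Y (hY φ hφ)) ?_ ?_ ?_ hα
    · have : conjFun (0 : L → ℂ) = 0 := by funext x; simp [conjFun]
      rw [this]; exact (zsp Y).zero_mem
    · intro x y _ _ hx hy; rw [conj_add]; exact (zsp Y).add_mem hx hy
    · intro n x _ hx; rw [hsm]; exact (zsp Y).smul_mem n hx
  have hg : ∀ α ∈ zspan Y, IsGeneralizedCharacter L α := by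
    intro α hα
    refine zspan_induction (p := fun α => IsGeneralizedCharacter L α) hgen gen_zero ?_ ?_ hα
    · intro x y _ _ hx hy; exact gen_add hx hy
    · intro n x _ hx; exact gen_zs n hx
  refine ⟨⟨?_, ?_, ?_, ?_⟩, ?_⟩
  · intro α hα β hβ
    simp only
    rw [conj_add, ht.1 _ (hc α hα) _ (hc β hβ), neg_add]
  · intro α hα n
    simp only
    rw [hsm, ht.2.1 _ (hc α hα), smul_neg]
  · intro α hα β hβ
    simp only
    rw [classInner_neg_left, classInner_neg_right, neg_neg, ht.2.2.1 _ (hc α hα) _ (hc β hβ), classInner_conj]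
    obtain ⟨n, hn⟩ := gen_inner_int (hg α hα) (hg β hβ)
    rw [hn, map_intCast (starRingEnd ℂ)]
  · intro α hα
    exact gen_neg (ht.2.2.2 _ (hc α hα))
  · intro α hα
    rw [hneg α hα, iso_neg ht' hα.1, neg_neg, hagr α hα]

theorem pair_neg {Y : Set (L → ℂ)} {η : L → ℂ} (hY : Y ⊆ {η, conjFun η}) (h1 : η 1 ≠ 0) (h2 : conjFun η 1 = η 1) :
    ∀ α ∈ zspanOn Y {1}ᶜ, conjFun α = -α := by
  have hsm : ∀ (n : ℤ) (α : L → ℂ), conjFun (n • α) = n • conjFun α := by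
    intro n α
    funext x
    simp [conjFun]
  have key : ∀ α ∈ zspan Y, ∃ m n : ℤ, α = m • η + n • conjFun η := by
    intro α hα
    refine zspan_induction (p := fun α => ∃ m n : ℤ, α = m • η + n • conjFun η) (fun φ hφ => ?_) ⟨0, 0, by simp⟩ ?_ ?_ hα
    · rcases hY hφ with rfl | h
      · exact ⟨1, 0, by simp⟩
      · exact ⟨0, 1, by rw [Set.mem_singleton_iff.mp h]; simp⟩
    · rintro x y _ _ ⟨m, n, rfl⟩ ⟨m', n', rfl⟩
      exact ⟨m + m', n + n', by rw [add_smul, add_smul]; abel⟩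
    · rintro k x _ ⟨m, n, rfl⟩
      exact ⟨k * m, k * n, by rw [smul_add, mul_smul, mul_smul]⟩
  intro α hα
  obtain ⟨m, n, rfl⟩ := key α hα.1
  have h3 := (mem_zon_one.mp hα).2
  rw [Pi.add_apply, Pi.smul_apply, Pi.smul_apply, h2, zsmul_eq_mul, zsmul_eq_mul, ← add_mul] at h3
  have h4 : m + n = 0 := by
    have := (mul_eq_zero.mp h3).resolve_right h1
    exact_mod_cast this
  have h5 : n = -m := by omega
  rw [h5, conj_add, hsm, hsm, conj_conj, neg_smul, neg_smul]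
  abel

end negconj
section key

variable {p : ℕ} [Fact p.Prime] (P : Sylow p G) {L : Subgroup G} [Fintype L] {K : Subgroup L} [hK : K.Normal]
  {τ : (L → ℂ) → (G → ℂ)} {R : (L → ℂ) → Finset (G → ℂ)}

theorem linear_deg {L' G' : Type*} [Group L'] [Fintype L'] [Group G'] [Fintype G'] {K' : Subgroup L'} [K'.Normal]
    {τ' : (L' → ℂ) → (G' → ℂ)} {R' : (L' → ℂ) → Finset (G' → ℂ)} (hS : IsCoherenceSystem (inducedIrrAbove K' ⊥) τ' R')
    {H₁ : Subgroup L'} (hab : ∀ x ∈ K', ∀ y ∈ K', x * y * x⁻¹ * y⁻¹ ∈ H₁) (hH₁K : H₁ ≤ K') {φ : L' → ℂ} (hφ : φ ∈ inducedIrrAbove K' H₁) :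
    φ 1 = K'.index := by
  obtain ⟨d, hd0, hd⟩ := cs_deg hS (iia_mono bot_le hφ)
  have h1 := deg_sq_le (B := H₁) (C := K') (D := K') hH₁K le_rfl le_rfl hab hφ hd
  rw [Subgroup.relIndex_self, mul_one] at h1
  have h2 := Nat.le_of_dvd hd0 (index_dvd_deg hφ hd)
  have h3 : d ≤ K'.index := by
    by_contra h
    push_neg at h
    have := Nat.pow_lt_pow_left h (two_ne_zero)
    omega
  rw [hd, le_antisymm h3 h2]

theorem key (hτ : τ = fun α : L → ℂ => indFun L α) (hL : L = Subgroup.normalizer ((P : Subgroup G) : Set G))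
    (hTI : IsTISubset ((P : Subgroup G) : Set G)) (hodd : Odd (Nat.card L)) (hKP : ∀ x : L, x ∈ K ↔ (x : G) ∈ (P : Subgroup G))
    (hfpf : ∀ g : L, g ∉ K → ∀ k ∈ K, g * k = k * g → k = 1) (hsolv : Group.IsSolvable K)
    (hS : IsCoherenceSystem (inducedIrrAbove K ⊥) τ R)
    {Z : Subgroup L} [Z.Normal] (hZ1 : Z ≠ ⊥) (hZc : ∀ z ∈ Z, ∀ k ∈ K, z * k = k * z) (hZK' : Z ≤ ⁅K, K⁆) (hKK : ⁅K, K⁆ < K)
    (hXcoh : IsCoherent (inducedIrrAbove K ⊥ \ inducedIrrAbove K Z) {1}ᶜ τ)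
    (hYcoh : IsCoherent (inducedIrrAbove K ⁅K, K⁆) {1}ᶜ τ) :
    IsCoherent ((inducedIrrAbove K ⊥ \ inducedIrrAbove K Z) ∪ inducedIrrAbove K ⁅K, K⁆) {1}ᶜ τ := by
  classical
  haveI : Fintype K := Fintype.ofFinite _
  have hZK : Z ≤ K := hZK'.trans hKK.le
  have hirr : ∀ χ ∈ inducedIrrAbove K ⊥, IsIrrCharacter L χ := fun χ hχ => iia_irr hfpf hχ
  obtain ⟨X, hX⟩ : ∃ X : Set (L → ℂ), X = inducedIrrAbove K ⊥ \ inducedIrrAbove K Z := ⟨_, rfl⟩
  obtain ⟨Y, hY⟩ : ∃ Y : Set (L → ℂ), Y = inducedIrrAbove K ⁅K, K⁆ := ⟨_, rfl⟩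
  have hXne : X.Nonempty := by
    rw [hX]; exact nonempty_diff hZK hZ1 (fun φ hφ => by rw [irr_inner_self (hirr φ hφ)]; exact one_ne_zero)
  rw [← hX, ← hY]
  rw [← hX] at hXcoh
  rw [← hY] at hYcoh
  have hXS : X ⊆ inducedIrrAbove K ⊥ := by rw [hX]; exact Set.diff_subset
  have hYS : Y ⊆ inducedIrrAbove K ⊥ := by rw [hY]; exact iia_mono bot_le
  have hXc : ∀ φ ∈ X, conjFun φ ∈ X := by rw [hX]; exact fun φ hφ => conj_diff hφ
  have hYc : ∀ φ ∈ Y, conjFun φ ∈ Y := by rw [hY]; exact fun φ hφ => iia_conj hφ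
  have hXY : Disjoint X Y := by
    rw [Set.disjoint_left]
    intro φ h1 h2
    rw [hX] at h1
    rw [hY] at h2
    exact h1.2 (iia_mono hZK' h2)
  obtain ⟨-, σ, hσ, hσα⟩ := hXcoh
  obtain ⟨-, t, ht, htα⟩ := hYcoh
  obtain ⟨χ₁, hχ₁⟩ := hXne
  obtain ⟨ψ₁, hψ₁0, -⟩ := exists_degree_e hsolv hKK
  have hψ₁ : ψ₁ ∈ Y := by rw [hY]; exact hψ₁0
  have hYdeg : ∀ φ ∈ Y, φ 1 = (K.index : ℂ) := by
    intro φ hφ
    rw [hY] at hφ
    exact linear_deg hS (fun x hx y hy => Subgroup.commutator_mem_commutator hx hy) hKK.le hφ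
  have he0 : 0 < K.index := Nat.pos_of_ne_zero Subgroup.FiniteIndex.index_ne_zero
  obtain ⟨d₁, hd₁0, hd₁⟩ := cs_deg hS (hXS hχ₁)
  obtain ⟨a, ha⟩ := index_dvd_deg (hXS hχ₁) hd₁
  have ha0 : 0 < a := by
    rcases Nat.eq_zero_or_pos a with h | h
    · rw [h, mul_zero] at ha; omega
    · exact h
  have hχ₁c := hXc χ₁ hχ₁
  have hψ₁c := hYc ψ₁ hψ₁
  have hχne : conjFun χ₁ ≠ χ₁ := hS.conj_ne _ (hXS hχ₁)
  have hψne : conjFun ψ₁ ≠ ψ₁ := hS.conj_ne _ (hYS hψ₁)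
  have hX2 : ∃ a ∈ X, ∃ b ∈ X, a ≠ b := ⟨χ₁, hχ₁, _, hχ₁c, hχne.symm⟩
  have hY2 : ∃ a ∈ Y, ∃ b ∈ Y, a ≠ b := ⟨ψ₁, hψ₁, _, hψ₁c, hψne.symm⟩
  have horth0 : ∀ (t' : (L → ℂ) → (G → ℂ)), IsLinearIsometryOn (zspan Y) t' → (∀ α ∈ zspanOn Y {1}ᶜ, t' α = τ α) →
      ∀ χ ∈ X, ∀ η ∈ Y, classInner (σ χ) (t' η) = 0 := fun t' ht' htα' χ hχ η hη =>
    union_orth hirr hXS hYS hXY hX2 hY2 hS.isometry hS.map_one hσ hσα ht' htα' hχ hη
  have hoSS : ∀ φ ∈ inducedIrrAbove K ⊥, ∀ ψ ∈ inducedIrrAbove K ⊥, φ ≠ ψ → classInner φ ψ = 0 := fun φ hφ ψ hψ hne =>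
    hS.orthogonal φ hφ ψ hψ hne
  have oXY : ∀ χ ∈ X, ∀ η ∈ Y, classInner χ η = 0 := fun χ hχ η hη =>
    hoSS χ (hXS hχ) η (hYS hη) (fun h => Set.disjoint_left.mp hXY hχ (h ▸ hη))
  have oYX : ∀ χ ∈ X, ∀ η ∈ Y, classInner η χ = 0 := fun χ hχ η hη => by
    rw [← classInner_conj_symm, oXY χ hχ η hη, map_zero]
  have hσ' : IsLinearIsometryOn ((zsp X : Submodule ℤ (L → ℂ)) : Set (L → ℂ)) σ := hσ
  have mχ := subset_zspan X hχ₁
  have mχc := subset_zspan X hχ₁c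
  have hmem : χ₁ - (a : ℤ) • ψ₁ ∈ zspanOn (inducedIrrAbove K ⊥) {1}ᶜ := by
    rw [mem_zon_one]
    refine ⟨(zsp _).sub_mem (subset_zspan _ (hXS hχ₁)) ((zsp _).smul_mem _ (subset_zspan _ (hYS hψ₁))), ?_⟩
    rw [Pi.sub_apply, Pi.smul_apply, hYdeg ψ₁ hψ₁, hd₁, ha, zsmul_eq_mul]
    push_cast; ring
  obtain ⟨Φ, hΦ⟩ : ∃ Φ : G → ℂ, Φ = τ (χ₁ - (a : ℤ) • ψ₁) := ⟨_, rfl⟩
  have hΦg : IsGeneralizedCharacter G Φ := by rw [hΦ]; exact hS.isometry.2.2.2 _ hmem
  have hΦin : ∀ γ ∈ zspanOn (inducedIrrAbove K ⊥) {1}ᶜ, classInner Φ (τ γ) = classInner χ₁ γ - a * classInner ψ₁ γ := by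
    intro γ hγ
    rw [hΦ, hS.isometry.2.2.1 _ hmem _ hγ, classInner_sub_left, inner_zsmul_left]
    push_cast; ring
  have hχχ : classInner χ₁ χ₁ = 1 := irr_inner_self (hirr _ (hXS hχ₁))
  have hψψ : classInner ψ₁ ψ₁ = 1 := irr_inner_self (hirr _ (hYS hψ₁))
  have hΦN : classInner Φ Φ = 1 + a ^ 2 := by
    nth_rewrite 2 [hΦ]
    rw [hΦin _ hmem, classInner_sub_right, classInner_sub_right, inner_zsmul_right, inner_zsmul_right, hχχ, hψψ, oXY χ₁ hχ₁ ψ₁ hψ₁,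
      oYX χ₁ hχ₁ ψ₁ hψ₁]
    push_cast; ring
  have dmX : ∀ χ ∈ X, ∀ d : ℕ, χ 1 = d → ∀ χ' ∈ X, ∀ d' : ℕ, χ' 1 = d' → (d : ℤ) • χ' - (d' : ℤ) • χ ∈ zspanOn X {1}ᶜ := by
    intro χ hχ d hd χ' hχ' d' hd'
    rw [mem_zon_one]
    refine ⟨(zsp _).sub_mem ((zsp _).smul_mem _ (subset_zspan _ hχ')) ((zsp _).smul_mem _ (subset_zspan _ hχ)), ?_⟩
    rw [Pi.sub_apply, Pi.smul_apply, Pi.smul_apply, hd, hd', zsmul_eq_mul, zsmul_eq_mul]; push_cast; ring
  have hdX : χ₁ - conjFun χ₁ ∈ zspanOn X {1}ᶜ := by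
    rw [mem_zon_one]
    refine ⟨(zsp _).sub_mem mχ mχc, ?_⟩
    rw [Pi.sub_apply, conj_one hS (hXS hχ₁), sub_self]
  -- finite set
  obtain ⟨Yf, hYf⟩ : ∃ Yf : Finset (L → ℂ), (↑Yf : Set (L → ℂ)) = Y :=
    ⟨((iia_finite (K := K) ⊥).subset hYS).toFinset, Set.Finite.coe_toFinset _⟩
  have hYm : ∀ {φ}, φ ∈ Yf ↔ φ ∈ Y := fun {φ} => by rw [← hYf]; exact Iff.rfl
  obtain ⟨c, m, hc, hc1, hc2, hnorm⟩ := norm_formula (S₀ := Yf) (τ₀ := t) (d := fun _ => K.index) (n := fun _ => 1) (N := 1)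
    (by rw [hYf]; exact ht) (fun φ hφ ψ hψ hne => hoSS φ (hYS (hYm.mp hφ)) ψ (hYS (hYm.mp hψ)) hne)
    (fun φ hφ => hYdeg φ (hYm.mp hφ)) (fun φ hφ => by rw [irr_inner_self (hirr φ (hYS (hYm.mp hφ)))]; simp)
    (fun _ _ => he0) (fun _ _ => one_pos) (hYm.mpr hψ₁) hΦg (a := a) (by rw [hΦN]; simp; norm_cast) (by
      rw [hYf]
      intro γ hγ
      rw [htα γ hγ, hΦin γ (zspanOn_mono hYS _ hγ)]
      have : classInner χ₁ γ = 0 := by
        refine zspan_induction (p := fun γ => classInner χ₁ γ = 0) (fun y hy => oXY χ₁ hχ₁ y hy) (classInner_zero_right _) ?_ ?_ hγ.1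
        · intro x y _ _ hx hy; rw [classInner_add_right, hx, hy, add_zero]
        · intro n x _ hx; rw [inner_zsmul_right, hx, mul_zero]
      rw [this]; ring)
  have hc1' : ∀ φ ∈ Y, φ ≠ ψ₁ → c φ = m := by
    intro φ hφ hne
    have := hc1 φ (hYm.mpr hφ) hne
    exact mul_right_cancel₀ (by exact_mod_cast he0.ne') this
  have her : (K.index : ℝ) ≠ 0 := by exact_mod_cast he0.ne'
  have hnorm' : (classInner (Φ - oproj Yf t (fun _ => 1) c) (Φ - oproj Yf t (fun _ => 1) c)).re = 1 + 2 * a * m - (m : ℝ) ^ 2 * Yf.card := by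
    rw [hnorm, Finset.sum_const, nsmul_eq_mul]
    push_cast
    field_simp
  -- it is at least one
  have hge : (m : ℝ) ^ 2 * Yf.card ≤ 2 * a * m := by
    have hPg : IsGeneralizedCharacter G (oproj Yf t (fun _ => 1) c) := by
      refine gen_sum _ _ fun φ hφ => ?_
      have : (((c φ : ℝ) / ((1 : ℕ) : ℝ) : ℝ) : ℂ) = (c φ : ℂ) := by simp
      rw [this]
      exact gen_zsmul _ (ht.2.2.2 _ (subset_zspan _ (hYm.mp hφ)))
    obtain ⟨k, hk⟩ := gen_inner_int (gen_sub hΦg hPg) (gen_sub hΦg hPg)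
    have hkr : (classInner (Φ - oproj Yf t (fun _ => 1) c) (Φ - oproj Yf t (fun _ => 1) c)).re = k := by rw [hk]; simp
    have hk0 : 0 ≤ k := by
      have := classInner_self_nonneg (Φ - oproj Yf t (fun _ => 1) c)
      rw [hkr] at this; exact_mod_cast this
    have hkne : k ≠ 0 := by
      intro hk0'
      rw [hk0', Int.cast_zero] at hk
      have heq := sub_eq_zero.mp (classInner_self_eq_zero hk)
      have h1 := hΦin _ (zspanOn_mono hXS _ hdX)
      rw [← hσα _ hdX, iso_sub hσ' mχ mχc, classInner_sub_right, heq, oproj_inner, oproj_inner,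
        Finset.sum_eq_zero, Finset.sum_eq_zero, classInner_sub_right, classInner_sub_right, hχχ, inner_conj hS (hXS hχ₁),
        oYX χ₁ hχ₁ ψ₁ hψ₁, oYX _ hχ₁c ψ₁ hψ₁] at h1
      · norm_num at h1
      · intro φ hφ
        rw [← classInner_conj_symm, horth0 t ht htα _ hχ₁c φ (hYm.mp hφ), map_zero, mul_zero]
      · intro φ hφ
        rw [← classInner_conj_symm, horth0 t ht htα _ hχ₁ φ (hYm.mp hφ), map_zero, mul_zero]
    have hk1 : (1 : ℝ) ≤ k := by
      have : 1 ≤ k := by omega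
      exact_mod_cast this
    rw [← hkr, hnorm'] at hk1
    linarith
  -- divisibility
  have hdvd : (a : ℤ) ∣ m := by
    obtain ⟨μ, hμ⟩ : ∃ μ : G → ℂ, μ = t (conjFun ψ₁) := ⟨_, rfl⟩
    have mψc := subset_zspan Y hψ₁c
    have hμg : IsGeneralizedCharacter G μ := by rw [hμ]; exact ht.2.2.2 _ mψc
    have hμSI : SI μ := SI.of_norm hμg (by rw [hμ, ht.2.2.1 _ mψc _ mψc, norm_conj hS (hYS hψ₁), hψψ])
    have hμcl := gen_classFn hμg
    have hrec : ∀ α : L → ℂ, classInner (τ α) μ = classInner α (fun x : L => μ x) := by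
      intro α; rw [hτ]; exact reciprocity L α μ hμcl
    have hresg : IsGeneralizedCharacter L (fun x : L => μ x) := by
      obtain ⟨u, v, hu, hv, huv⟩ := hμg
      exact ⟨_, _, isChar_res L hu, isChar_res L hv, by rw [huv]; rfl⟩
    obtain ⟨r, hr⟩ := gen_inner_int (gen_of_irr (hirr _ (hXS hχ₁))) hresg
    obtain ⟨r', hr'⟩ := gen_inner_int (gen_of_irr (hirr _ (hYS hψ₁))) hresg
    have hm1 : m = r - a * r' := by
      have h1 := hc _ (hYm.mpr hψ₁c)
      rw [hc1' _ hψ₁c hψne, ← hμ, hΦ, hrec, classInner_sub_left, inner_zsmul_left, hr, hr'] at h1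
      have : (m : ℂ) = ((r - a * r' : ℤ) : ℂ) := by rw [← h1]; push_cast; ring
      exact_mod_cast this
    have hstep : ∀ χ : L → ℂ, IsIrrCharacter L χ → (∃ z ∈ Z, χ z ≠ χ 1) →
        (d₁ : ℂ) * classInner χ (fun x : L => μ x) = χ 1 * r := by
      intro χ hχ hz
      have hχX : χ ∈ X := by
        rw [hX, central_set hZK (fun χ hχ => hirr χ hχ.1)]
        exact ⟨hχ, hz⟩
      obtain ⟨d, hd0, hd⟩ := isIrr_one_eq hχ
      have h1 := dmX χ₁ hχ₁ d₁ hd₁ χ hχX d hd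
      have h2 := hrec ((d₁ : ℤ) • χ - (d : ℤ) • χ₁)
      rw [← hσα _ h1, iso_sub hσ' ((zsp _).smul_mem _ (subset_zspan _ hχX)) ((zsp _).smul_mem _ mχ), hσ.2.1 _ (subset_zspan _ hχX),
        hσ.2.1 _ mχ, classInner_sub_left, classInner_sub_left, inner_zsmul_left, inner_zsmul_left, inner_zsmul_left, inner_zsmul_left,
        hμ, horth0 t ht htα χ hχX _ hψ₁c, horth0 t ht htα χ₁ hχ₁ _ hψ₁c, ← hμ, hr] at h2
      rw [hd]
      push_cast at h2
      linear_combination -h2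
    obtain ⟨j, hj⟩ := div_lemma P hL hTI hodd (Z := Z) (fun z hz => (hKP z).mp (hZK hz)) (fun z hz y hy => by
      have hyL : y ∈ L := by rw [hL]; exact Subgroup.le_normalizer hy
      have := hZc z hz ⟨y, hyL⟩ ((hKP ⟨y, hyL⟩).mpr hy)
      exact congrArg Subtype.val this) hZ1 hμSI hd₁0.ne' hstep
    have hcardK : Nat.card K = Nat.card (P : Subgroup G) := by
      refine Nat.card_congr (Equiv.ofBijective (fun k : K => (⟨((k : L) : G), (hKP k).mp k.2⟩ : (P : Subgroup G))) ⟨?_, ?_⟩)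
      · intro x y h
        exact Subtype.ext (Subtype.ext (congrArg (fun w : (P : Subgroup G) => (w : G)) h))
      · rintro ⟨y, hy⟩
        have hyL : y ∈ L := by rw [hL]; exact Subgroup.le_normalizer hy
        exact ⟨⟨⟨y, hyL⟩, (hKP ⟨y, hyL⟩).mpr hy⟩, rfl⟩
    have hcardL : Nat.card L = Nat.card (P : Subgroup G) * K.index := by rw [← hcardK, K.card_mul_index]
    have hP0 : (0 : ℤ) < Nat.card (P : Subgroup G) := by exact_mod_cast Nat.card_pos
    have he0' : (0 : ℤ) < K.index := by exact_mod_cast he0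
    have hra : r = a * j := by
      rw [hcardL, ha] at hj
      push_cast at hj
      have h1 : (r - a * j) * ((Nat.card (P : Subgroup G) : ℤ) * K.index) = 0 := by linear_combination hj
      rcases mul_eq_zero.mp h1 with h2 | h2
      · linear_combination h2
      · exact absurd h2 (by positivity)
    rw [hm1, hra]
    exact Dvd.intro (j - r') (by ring)
  -- the good extension on Y
  have hgoodY : ∃ t' : (L → ℂ) → (G → ℂ), IsLinearIsometryOn (zspan Y) t' ∧ (∀ α ∈ zspanOn Y {1}ᶜ, t' α = τ α) ∧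
      classInner Φ (t' ψ₁) = -a ∧ ∀ φ ∈ Y, φ ≠ ψ₁ → classInner Φ (t' φ) = 0 := by
    by_cases hm0 : m = 0
    · refine ⟨t, ht, htα, ?_, ?_⟩
      · rw [hc _ (hYm.mpr hψ₁), hc2, hm0]; push_cast; ring
      · intro φ hφ hne
        rw [hc _ (hYm.mpr hφ), hc1' φ hφ hne, hm0]; simp
    · obtain ⟨m', hm'⟩ := hdvd
      have hcard2 : 2 ≤ Yf.card := by
        have : ({ψ₁, conjFun ψ₁} : Finset (L → ℂ)) ⊆ Yf := by
          intro x hx
          rw [Finset.mem_insert, Finset.mem_singleton] at hx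
          rcases hx with rfl | rfl
          · exact hYm.mpr hψ₁
          · exact hYm.mpr hψ₁c
        have h2 := Finset.card_le_card this
        rwa [Finset.card_pair hψne.symm] at h2
      have hgeZ : m ^ 2 * Yf.card ≤ 2 * a * m := by exact_mod_cast hge
      have ha0' : (0 : ℤ) < a := by exact_mod_cast ha0
      have hcard2' : (2 : ℤ) ≤ Yf.card := by exact_mod_cast hcard2
      have hmpos : 0 < m := by
        rcases lt_trichotomy m 0 with h | h | h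
        · exfalso
          have h1 : 0 < m ^ 2 * Yf.card := by positivity
          nlinarith
        · exact absurd h hm0
        · exact h
      have h1 : m * Yf.card ≤ 2 * a := by
        have : m * (m * Yf.card) ≤ m * (2 * a) := by nlinarith
        exact le_of_mul_le_mul_left this hmpos
      have hm'pos : 0 < m' := by
        by_contra h
        push_neg at h
        nlinarith
      have h2 : m' * Yf.card ≤ 2 := by
        rw [hm'] at h1
        have : (a : ℤ) * (m' * Yf.card) ≤ a * 2 := by nlinarith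
        exact le_of_mul_le_mul_left this ha0'
      have hm'1 : m' = 1 := by nlinarith
      have hYc2 : Yf.card = 2 := by
        rw [hm'1, one_mul] at h2
        have : Yf.card ≤ 2 := by exact_mod_cast h2
        omega
      have hma : m = a := by rw [hm', hm'1, mul_one]
      have hYeq : Y ⊆ {ψ₁, conjFun ψ₁} := by
        have h3 : ({ψ₁, conjFun ψ₁} : Finset (L → ℂ)) = Yf := by
          apply Finset.eq_of_subset_of_card_le
          · intro x hx
            rw [Finset.mem_insert, Finset.mem_singleton] at hx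
            rcases hx with rfl | rfl
            · exact hYm.mpr hψ₁
            · exact hYm.mpr hψ₁c
          · rw [Finset.card_pair hψne.symm, hYc2]
        rw [← hYf, ← h3]; simp
      have hneg := pair_neg hYeq (by rw [hYdeg ψ₁ hψ₁]; exact_mod_cast he0.ne') (conj_one hS (hYS hψ₁))
      obtain ⟨g1, g2⟩ := neg_conj hYc (fun φ hφ => gen_of_irr (hirr φ (hYS hφ))) ht htα hneg
      refine ⟨_, g1, g2, ?_, ?_⟩
      · rw [classInner_neg_right, hc _ (hYm.mpr hψ₁c), hc1' _ hψ₁c hψne, hma]; push_cast; ring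
      · intro φ hφ hne
        have h3 : φ = conjFun ψ₁ := by
          rcases hYeq hφ with h | h
          · exact absurd h hne
          · exact h
        rw [classInner_neg_right, h3, conj_conj, hc _ (hYm.mpr hψ₁), hc2, hma]; simp
  obtain ⟨t', ht', htα', hΦψ, hΦφ⟩ := hgoodY
  have mψ := subset_zspan Y hψ₁
  have hψΦ : classInner (t' ψ₁) Φ = -a := by rw [← classInner_conj_symm, hΦψ]; simp
  have htt : classInner (t' ψ₁) (t' ψ₁) = 1 := by rw [ht'.2.2.1 _ mψ _ mψ, hψψ]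
  obtain ⟨W, hW⟩ : ∃ W : G → ℂ, W = Φ + (a : ℤ) • t' ψ₁ := ⟨_, rfl⟩
  have hWg : IsGeneralizedCharacter G W := by rw [hW]; exact gen_add hΦg (gen_zs _ (ht'.2.2.2 _ mψ))
  have hWN : classInner W W = 1 := by
    rw [hW, classInner_add_left, classInner_add_right, classInner_add_right, inner_zsmul_right, inner_zsmul_left,
      inner_zsmul_left, inner_zsmul_right, hΦN, hΦψ, hψΦ, htt]
    push_cast; ring
  have hWSI := SI.of_norm hWg hWN
  have hσSI : ∀ χ ∈ X, SI (σ χ) := fun χ hχ => SI.of_norm (hσ.2.2.2 _ (subset_zspan X hχ))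
    (by rw [hσ.2.2.1 _ (subset_zspan X hχ) _ (subset_zspan X hχ), irr_inner_self (hirr _ (hXS hχ))])
  have hWσ : ∀ χ ∈ X, classInner W (σ χ) = classInner Φ (σ χ) := by
    intro χ hχ
    rw [hW, classInner_add_left, inner_zsmul_left, ← classInner_conj_symm (σ χ) (t' ψ₁), horth0 t' ht' htα' χ hχ ψ₁ hψ₁, map_zero,
      mul_zero, add_zero]
  have hWd : classInner W (σ χ₁) - classInner W (σ (conjFun χ₁)) = 1 := by
    rw [hWσ _ hχ₁, hWσ _ hχ₁c, ← classInner_sub_right, ← iso_sub hσ' mχ mχc, hσα _ hdX, hΦin _ (zspanOn_mono hXS _ hdX),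
      classInner_sub_right, classInner_sub_right, hχχ, inner_conj hS (hXS hχ₁), oYX χ₁ hχ₁ ψ₁ hψ₁, oYX _ hχ₁c ψ₁ hψ₁]
    ring
  -- the good extension on X
  have hgoodX : ∃ σ' : (L → ℂ) → (G → ℂ), IsLinearIsometryOn (zspan X) σ' ∧ (∀ α ∈ zspanOn X {1}ᶜ, σ' α = τ α) ∧ σ' χ₁ = W := by
    rcases hWSI.inner_cases (hσSI _ hχ₁) with h | h | h
    · -- inner product with σ χ₁ is zero
      rw [h, zero_sub] at hWd
      have h1 : classInner W (σ (conjFun χ₁)) = -1 := by linear_combination -hWd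
      have h2 : W = -σ (conjFun χ₁) := by
        rcases hWSI.inner_cases (hσSI _ hχ₁c) with h3 | h3 | h3
        · rw [h3] at h1; norm_num at h1
        · rw [h3, (hσSI _ hχ₁c).norm] at h1; norm_num at h1
        · exact h3
      have hXeq : X ⊆ {χ₁, conjFun χ₁} := by
        intro χ hχ
        by_contra hcon
        rw [Set.mem_insert_iff, Set.mem_singleton_iff, not_or] at hcon
        obtain ⟨d, hd0, hd⟩ := isIrr_one_eq (hirr _ (hXS hχ))
        have hd₁c : conjFun χ₁ 1 = d₁ := by rw [conj_one hS (hXS hχ₁), hd₁]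
        have h3 := dmX _ hχ₁c d₁ hd₁c χ hχ d hd
        have h4 := hΦin _ (zspanOn_mono hXS _ h3)
        rw [← hσα _ h3, iso_sub hσ' ((zsp _).smul_mem _ (subset_zspan _ hχ)) ((zsp _).smul_mem _ mχc), hσ.2.1 _ (subset_zspan _ hχ),
          hσ.2.1 _ mχc, classInner_sub_right, inner_zsmul_right, inner_zsmul_right, ← hWσ _ hχ, ← hWσ _ hχ₁c, h1, h2,
          classInner_neg_left, hσ.2.2.1 _ mχc _ (subset_zspan _ hχ), hoSS _ (hXS hχ₁c) _ (hXS hχ) (Ne.symm hcon.2),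
          classInner_sub_right, classInner_sub_right, inner_zsmul_right, inner_zsmul_right, inner_zsmul_right, inner_zsmul_right,
          hoSS _ (hXS hχ₁) _ (hXS hχ) (Ne.symm hcon.1), inner_conj hS (hXS hχ₁), oYX _ hχ ψ₁ hψ₁, oYX _ hχ₁c ψ₁ hψ₁] at h4
        norm_num at h4
        omega
      have hneg := pair_neg hXeq (by rw [hd₁]; exact_mod_cast hd₁0.ne') (conj_one hS (hXS hχ₁))
      obtain ⟨g1, g2⟩ := neg_conj hXc (fun φ hφ => gen_of_irr (hirr φ (hXS hφ))) hσ hσα hneg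
      exact ⟨_, g1, g2, h2.symm⟩
    · exact ⟨σ, hσ, hσα, h.symm⟩
    · exfalso
      rw [h, classInner_neg_left, (hσSI _ hχ₁).norm, classInner_neg_left, hσ.2.2.1 _ mχ _ mχc, inner_conj hS (hXS hχ₁)] at hWd
      norm_num at hWd
  obtain ⟨σ₂, hσ₂, hσ₂α, hσ₂χ⟩ := hgoodX
  refine union_coherent (χ₀ := χ₁) (η₀ := ψ₁) hirr hXS hYS hXY hX2 hS.isometry hσ₂ hσ₂α ht' htα' (fun χ hχ η hη =>
    union_orth hirr hXS hYS hXY hX2 hY2 hS.isometry hS.map_one hσ₂ hσ₂α ht' htα' hχ hη) hχ₁ hψ₁ ?_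
  have e1 : χ₁ 1 • ψ₁ - ψ₁ 1 • χ₁ = (-(K.index : ℂ)) • (χ₁ - (a : ℤ) • ψ₁) := by
    rw [hd₁, hYdeg ψ₁ hψ₁, ha, zs]
    funext x
    simp only [Pi.sub_apply, Pi.smul_apply, smul_eq_mul]
    push_cast; ring
  have e2 : τ (χ₁ 1 • ψ₁ - ψ₁ 1 • χ₁) = (-(K.index : ℂ)) • Φ := by
    rw [e1, hΦ, hτ]; exact indFun_smul L _ _
  rw [e2, hσ₂χ, hW, hd₁, hYdeg ψ₁ hψ₁, ha, zs]
  funext x
  simp only [Pi.sub_apply, Pi.smul_apply, Pi.add_apply, smul_eq_mul]
  push_cast; ring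

end key
section grpx

variable {L : Type*} [Group L]

theorem index_dvd_card_sub_one' [Finite L] {K H₁ N : Subgroup L} [H₁.Normal] [N.Normal] (hHN : H₁ ≤ N)
    (hab : ∀ x ∈ K, ∀ k ∈ N, x * k * x⁻¹ * k⁻¹ ∈ H₁)
    (hfrob : ∀ k ∈ N, k ∉ H₁ → ∀ x : L, x * k * x⁻¹ * k⁻¹ ∈ H₁ → x ∈ K) : K.index ∣ H₁.relIndex N - 1 := by
  classical
  let π : L →* L ⧸ H₁ := QuotientGroup.mk' H₁
  let X : Type _ := {q : L ⧸ H₁ // q ∈ N.map π ∧ q ≠ 1}
  have hNn : (N.map π).Normal := Subgroup.Normal.map inferInstance π (QuotientGroup.mk'_surjective H₁)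
  letI act : MulAction L X :=
    { smul := fun x q => ⟨π x * q.1 * (π x)⁻¹, hNn.conj_mem _ q.2.1 _, by
        intro h
        apply q.2.2
        have := congrArg (fun s => (π x)⁻¹ * s * π x) h
        simpa [mul_assoc] using this⟩
      one_smul := fun q => Subtype.ext (by show π 1 * q.1 * (π 1)⁻¹ = q.1; rw [map_one, one_mul, inv_one, mul_one])
      mul_smul := fun x y q => Subtype.ext (by
        show π (x * y) * q.1 * (π (x * y))⁻¹ = π x * (π y * q.1 * (π y)⁻¹) * (π x)⁻¹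
        rw [map_mul]; group) }
  have hsmul : ∀ (x : L) (q : X), (x • q : X).1 = π x * q.1 * (π x)⁻¹ := fun _ _ => rfl
  have hstab : ∀ q : X, MulAction.stabilizer L q = K := by
    rintro ⟨q, ⟨n, hn, rfl⟩, hq⟩
    have hnH : n ∉ H₁ := fun h => hq ((QuotientGroup.eq_one_iff n).mpr h)
    ext x
    rw [MulAction.mem_stabilizer_iff]
    have hiff : (x • (⟨π n, ⟨n, hn, rfl⟩, hq⟩ : X) = ⟨π n, ⟨n, hn, rfl⟩, hq⟩) ↔ x * n * x⁻¹ * n⁻¹ ∈ H₁ := by
      rw [Subtype.ext_iff, hsmul]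
      show π x * π n * (π x)⁻¹ = π n ↔ _
      rw [← QuotientGroup.eq_one_iff]
      have e : ((x * n * x⁻¹ * n⁻¹ : L) : L ⧸ H₁) = π x * π n * (π x)⁻¹ * (π n)⁻¹ := rfl
      rw [e, mul_inv_eq_one]
    rw [hiff]
    exact ⟨fun h => hfrob n hn hnH x h, fun h => hab x h n hn⟩
  have hcardX : Nat.card X = H₁.relIndex N - 1 := by
    have h1 : Nat.card (N.map π) = H₁.relIndex N := by
      rw [← Subgroup.relIndex_bot_left, ← Subgroup.map_bot π]
      have := Subgroup.relIndex_map_map (H := H₁) (K := N) (f := π)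
      rw [QuotientGroup.ker_mk', sup_idem, sup_eq_left.mpr hHN, QuotientGroup.map_mk'_self] at this
      rw [Subgroup.map_bot, this]
    rw [← h1]
    let e : X ≃ {q : N.map π // q ≠ 1} :=
      { toFun := fun q => ⟨⟨q.1, q.2.1⟩, fun h => q.2.2 (congrArg Subtype.val h)⟩
        invFun := fun q => ⟨q.1.1, q.1.2, fun h => q.2 (Subtype.ext h)⟩
        left_inv := fun _ => rfl
        right_inv := fun _ => rfl }
    rw [Nat.card_congr e]
    haveI := Fintype.ofFinite (N.map π)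
    rw [Nat.card_eq_fintype_card, Nat.card_eq_fintype_card, Fintype.card_subtype_compl, Fintype.card_subtype_eq]
  haveI : Finite X := Subtype.finite
  haveI : Fintype (Quotient (MulAction.orbitRel L X)) := Fintype.ofFinite _
  rw [← hcardX, Nat.card_congr (MulAction.selfEquivSigmaOrbitsQuotientStabilizer L X), Nat.card_sigma]
  refine Finset.dvd_sum fun ω _ => ?_
  rw [hstab]
  exact dvd_rfl


/-- quotients of Frobenius groups -/
theorem frob_quot [Finite L] {K N : Subgroup L} [hN : N.Normal] (hNK : N ≤ K)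
    (hfpf : ∀ g : L, g ∉ K → ∀ k ∈ K, g * k = k * g → k = 1) :
    ∀ k ∈ K, k ∉ N → ∀ x : L, x * k * x⁻¹ * k⁻¹ ∈ N → x ∈ K := by
  intro k hk hkN x hx
  by_contra hxK
  have hinj : ∀ a ∈ K, ∀ b ∈ K, x * a * x⁻¹ * a⁻¹ = x * b * x⁻¹ * b⁻¹ → a = b := by
    intro a ha b hb h
    have h1 : x * (b⁻¹ * a) = (b⁻¹ * a) * x := by
      have h2 : x * (b⁻¹ * a) * x⁻¹ = b⁻¹ * a := by
        calc x * (b⁻¹ * a) * x⁻¹ = (x * b * x⁻¹)⁻¹ * (x * a * x⁻¹ * a⁻¹) * a := by group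
          _ = (x * b * x⁻¹)⁻¹ * (x * b * x⁻¹ * b⁻¹) * a := by rw [h]
          _ = b⁻¹ * a := by group
      rw [mul_inv_eq_iff_eq_mul] at h2
      exact h2
    have := hfpf x hxK _ (K.mul_mem (K.inv_mem hb) ha) h1
    exact (inv_mul_eq_one.mp this).symm
  let f : N → N := fun n => ⟨x * n * x⁻¹ * (n : L)⁻¹, N.mul_mem (hN.conj_mem n n.2 x) (N.inv_mem n.2)⟩
  have hf : Function.Injective f := by
    intro a b h
    exact Subtype.ext (hinj a (hNK a.2) b (hNK b.2) (congrArg Subtype.val h))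
  obtain ⟨c, hc⟩ := (Finite.injective_iff_surjective.mp hf) ⟨_, hx⟩
  have h1 : x * c * x⁻¹ * (c : L)⁻¹ = x * k * x⁻¹ * k⁻¹ := congrArg Subtype.val hc
  have h2 := hinj c (hNK c.2) k hk h1
  exact hkN (h2 ▸ c.2)

end grpx

section sibley

variable {p : ℕ} [hp : Fact p.Prime] (P : Sylow p G) {L : Subgroup G} [Fintype L] {K : Subgroup L} [hK : K.Normal]
  {τ : (L → ℂ) → (G → ℂ)}

theorem sibley (hτ : τ = fun α : L → ℂ => indFun L α) (hL : L = Subgroup.normalizer ((P : Subgroup G) : Set G))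
    (hTI : IsTISubset ((P : Subgroup G) : Set G)) (hodd : Odd (Nat.card L)) (hKP : ∀ x : L, x ∈ K ↔ (x : G) ∈ (P : Subgroup G))
    (hfpf : ∀ g : L, g ∉ K → ∀ k ∈ K, g * k = k * g → k = 1) (hK1 : K ≠ ⊥) :
    IsCoherent (inducedIrrAbove K ⊥) {1}ᶜ τ := by
  classical
  haveI : Fintype K := Fintype.ofFinite _
  have hPL : (P : Subgroup G) ≤ L := by rw [hL]; exact Subgroup.le_normalizer
  have hKp : IsPGroup p K := by
    intro k
    obtain ⟨n, hn⟩ := P.isPGroup' ⟨((k : L) : G), (hKP k).mp k.2⟩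
    refine ⟨n, Subtype.ext (Subtype.ext ?_)⟩
    have h2 := congrArg Subtype.val hn
    simpa using h2
  have hnil : Group.IsNilpotent K := hKp.isNilpotent
  have hsolv : Group.IsSolvable K := inferInstance
  have hirr : ∀ χ ∈ inducedIrrAbove K ⊥, IsIrrCharacter L χ := fun χ hχ => iia_irr hfpf hχ
  have hTI' : ∀ g : G, g ∉ L → ∀ t : G, (∃ k ∈ K, (k : G) = t) → (∃ k ∈ K, (k : G) = g * t * g⁻¹) → t = 1 := by
    rintro g hg t ⟨k, hk, rfl⟩ ⟨k', hk', h⟩
    rw [hL] at hg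
    exact hTI g hg _ ((hKP k).mp hk) (by rw [← h]; exact (hKP k').mp hk')
  have hbot : (⊥ : Subgroup L) < K := bot_lt_iff_ne_bot.mpr hK1
  obtain ⟨χ₀, hχ₀, -⟩ := exists_degree_e hsolv hbot
  obtain ⟨R, hS'⟩ := cs_frob hodd hfpf hTI' ⟨χ₀, hχ₀⟩
  have hS : IsCoherenceSystem (inducedIrrAbove K ⊥) τ R := by rw [hτ]; exact hS'
  have hKK : ⁅K, K⁆ < K := by
    haveI : Nontrivial K := (Subgroup.nontrivial_iff_ne_bot K).mpr hK1
    have h1 := Group.IsSolvable.commutator_lt_top_of_nontrivial (G := K)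
    have h2 : (commutator K).map K.subtype = ⁅K, K⁆ := Subgroup.map_subtype_commutator K
    rw [← h2]
    refine lt_of_le_of_ne (Subgroup.map_subtype_le _) ?_
    intro h
    apply h1.ne
    rw [eq_top_iff]
    intro k _
    have : (k : L) ∈ (commutator K).map K.subtype := by rw [h]; exact k.2
    obtain ⟨k', hk', e⟩ := this
    have : k' = k := Subtype.ext e
    rw [← this]; exact hk'
  have hfrob : ∀ k ∈ K, k ∉ ⁅K, K⁆ → ∀ x : L, x * k * x⁻¹ * k⁻¹ ∈ ⁅K, K⁆ → x ∈ K := frob_quot hKK.le hfpf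
  have hab : ∀ x ∈ K, ∀ y ∈ K, x * y * x⁻¹ * y⁻¹ ∈ ⁅K, K⁆ := fun x hx y hy => Subgroup.commutator_mem_commutator hx hy
  have hYcoh := coherent_linear hsolv hS hab hKK
  by_cases hcomm : ⁅K, K⁆ = ⊥
  · rw [hcomm] at hYcoh; exact hYcoh
  obtain ⟨Z, hZdef⟩ : ∃ Z : Subgroup L, Z = ⁅K, K⁆ ⊓ Subgroup.centralizer (K : Set L) := ⟨_, rfl⟩
  haveI hZn : Z.Normal := by rw [hZdef]; infer_instance
  have hZK' : Z ≤ ⁅K, K⁆ := by rw [hZdef]; exact inf_le_left
  have hZK : Z ≤ K := hZK'.trans hKK.le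
  have hZc : ∀ z ∈ Z, ∀ k ∈ K, z * k = k * z := by
    intro z hz k hk
    rw [hZdef] at hz
    exact ((Subgroup.mem_centralizer_iff.mp hz.2) k hk).symm
  have hZ1 : Z ≠ ⊥ := by
    have hcK : commutator K ≠ ⊥ := by
      intro h
      apply hcomm
      rw [← Subgroup.map_subtype_commutator K, h, Subgroup.map_bot]
    have h1 := Cfsg.Agent.Lib.Nilp.normal_inf_center_ne_bot (commutator K) hcK
    obtain ⟨⟨z, hz⟩, hz1⟩ := Subgroup.ne_bot_iff_exists_ne_one.mp h1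
    intro h
    have : (z : L) ∈ Z := by
      rw [hZdef]
      refine ⟨?_, ?_⟩
      · rw [← Subgroup.map_subtype_commutator K]; exact ⟨z, hz.1, rfl⟩
      · show (z : L) ∈ Subgroup.centralizer (K : Set L)
        rw [Subgroup.mem_centralizer_iff]
        intro k hk
        exact congrArg Subtype.val (Subgroup.mem_center_iff.mp hz.2 ⟨k, hk⟩)
    rw [h, Subgroup.mem_bot] at this
    exact hz1 (Subtype.ext (Subtype.ext this))
  have hXcoh := central_coherent hsolv hS hodd hnil hKK hfrob hZ1 hZK hZc (fun χ hχ => hirr χ hχ.1)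
  have hXY := key P hτ hL hTI hodd hKP hfpf hsolv hS hZ1 hZc hZK' hKK hXcoh hYcoh
  -- grow
  have h1 : ∀ φ ∈ inducedIrrAbove K ⊥, ∃ d : ℕ, 0 < d ∧ φ 1 = d := fun φ hφ => cs_deg hS hφ
  choose! d hd using h1
  have hn : ∀ φ ∈ inducedIrrAbove K ⊥, classInner φ φ = ((1 : ℕ) : ℂ) := fun φ hφ => by rw [irr_inner_self (hirr φ hφ)]; simp
  obtain ⟨ψ₁, hψ₁, hψ₁d⟩ := exists_degree_e hsolv hKK
  have hdψ : d ψ₁ = K.index := by
    have := (hd ψ₁ (iia_mono bot_le hψ₁)).2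
    rw [hψ₁d] at this
    exact_mod_cast this.symm
  obtain ⟨X, hX⟩ : ∃ X : Finset (L → ℂ), (↑X : Set (L → ℂ)) = inducedIrrAbove K ⊥ \ inducedIrrAbove K Z :=
    ⟨((iia_finite (K := K) ⊥).subset Set.diff_subset).toFinset, Set.Finite.coe_toFinset _⟩
  obtain ⟨Y, hY⟩ : ∃ Y : Finset (L → ℂ), (↑Y : Set (L → ℂ)) = inducedIrrAbove K ⁅K, K⁆ :=
    ⟨(iia_finite (K := K) ⁅K, K⁆).toFinset, Set.Finite.coe_toFinset _⟩
  obtain ⟨T, hT⟩ : ∃ T : Finset (L → ℂ), (↑T : Set (L → ℂ)) = inducedIrrAbove K ⊥ :=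
    ⟨(iia_finite (K := K) ⊥).toFinset, Set.Finite.coe_toFinset _⟩
  have hmX : ∀ {φ}, φ ∈ X ↔ φ ∈ inducedIrrAbove K ⊥ \ inducedIrrAbove K Z := fun {φ} => by rw [← hX]; exact Iff.rfl
  have hmY : ∀ {φ}, φ ∈ Y ↔ φ ∈ inducedIrrAbove K ⁅K, K⁆ := fun {φ} => by rw [← hY]; exact Iff.rfl
  have hmT : ∀ {φ}, φ ∈ T ↔ φ ∈ inducedIrrAbove K ⊥ := fun {φ} => by rw [← hT]; exact Iff.rfl
  have e0 : 0 < K.index := Nat.pos_of_ne_zero Subgroup.FiniteIndex.index_ne_zero
  have hsumX : ∑ φ ∈ X, ((d φ : ℝ) ^ 2 / ((1 : ℕ) : ℝ)) = K.index * (Nat.card K : ℝ) - K.index * (Z.relIndex K : ℝ) := by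
    have hA := sum_formula (K := K) ⊥ (fun χ hχ φ hφ => hS.orthogonal χ hχ φ hφ) (n := fun _ => 1) (fun φ hφ => (hd φ hφ).2) hn
      (fun _ _ => one_pos) hT
    have hB := sum_formula (K := K) Z (fun χ hχ φ hφ => hS.orthogonal χ hχ φ hφ) (n := fun _ => 1) (fun φ hφ => (hd φ hφ).2) hn
      (fun _ _ => one_pos) (iia_finite (K := K) Z).coe_toFinset
    have hu : T = X ∪ (iia_finite (K := K) Z).toFinset := by
      apply Finset.coe_injective
      rw [Finset.coe_union, Set.Finite.coe_toFinset, hT, hX, Set.diff_union_of_subset (iia_mono bot_le)]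
    have hdis : Disjoint X (iia_finite (K := K) Z).toFinset := by
      rw [← Finset.disjoint_coe, hX, Set.Finite.coe_toFinset]
      exact Set.disjoint_sdiff_left
    rw [hu, Finset.sum_union hdis, hB, Subgroup.relIndex_bot_left] at hA
    linarith
  have hrelc : Z.relIndex K * Nat.card Z = Nat.card K := Cfsg.Agent.Lib.CharClifford.relIndex_mul_card' Z K hZK
  have hZodd : Odd (Nat.card Z) := Odd.of_dvd_nat hodd (Subgroup.card_subgroup_dvd_card Z)
  have heodd : Odd K.index := Odd.of_dvd_nat hodd K.index_dvd_card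
  have hZ2 : 2 * K.index + 1 ≤ Nat.card Z := by
    refine two_mul_le heodd hZodd ?_ ?_
    · have := Nat.card_pos (α := Z)
      have h3 : Nat.card Z ≠ 1 := fun h => hZ1 (Subgroup.card_eq_one.mp h)
      omega
    · have := index_dvd_card_sub_one' (K := K) (H₁ := ⊥) (N := Z) bot_le (fun x hx z hz => by
        rw [Subgroup.mem_bot, ← hZc z hz x hx]; group) (fun z hz hz1 x hx => by
        by_contra hxK
        rw [Subgroup.mem_bot] at hx hz1
        refine hz1 (hfpf x hxK z (hZK hz) ?_)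
        rw [mul_inv_eq_one, mul_inv_eq_iff_eq_mul] at hx
        exact hx)
      rwa [Subgroup.relIndex_bot_left] at this
  have hZrel : 1 < Z.relIndex K := by
    have hlt : Z < K := by
      refine lt_of_le_of_ne hZK ?_
      intro h
      apply hcomm
      rw [eq_bot_iff, Subgroup.commutator_le]
      intro x hx y hy
      rw [← h] at hx
      rw [Subgroup.mem_bot, commutatorElement_def, hZc x hx y hy]; group
    have h4 := Cfsg.Agent.Lib.Basic.card_lt_card_of_lt hlt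
    by_contra h5
    push_neg at h5
    have : Z.relIndex K * Nat.card Z ≤ 1 * Nat.card Z := Nat.mul_le_mul_right _ h5
    omega
  have hg := grow hS (fun φ hφ => (hd φ hφ).2) hn (S₀ := X ∪ Y) (T := T) (by
      rw [Finset.coe_union, hX, hY]; exact Set.union_subset Set.diff_subset (iia_mono bot_le)) (by rw [hT])
    (fun φ hφ => by
      rw [Finset.mem_union] at hφ ⊢
      rcases hφ with h | h
      · exact Or.inl (hmX.mpr (conj_diff (hmX.mp h)))
      · exact Or.inr (hmY.mpr (iia_conj (hmY.mp h))))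
    (fun φ hφ => hmT.mpr (iia_conj (hmT.mp hφ))) (by rw [Finset.coe_union, hX, hY]; exact hXY) (χ₁ := ψ₁)
    (Finset.mem_union_right _ (hmY.mpr hψ₁)) (by
      intro χ hχ _
      have hχS := hmT.mp hχ
      have hdχ := (hd χ hχS).2
      refine ⟨by rw [hdψ]; exact index_dvd_deg hχS hdχ, ?_⟩
      have hb := deg_sq_le (B := ⊥) (C := K) (D := Z) bot_le hZK le_rfl (fun z hz k hk => by
        rw [Subgroup.mem_bot, hZc z hz k hk]; group) hχS hdχ
      obtain ⟨θ, hθ⟩ := index_dvd_deg hχS hdχ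
      rw [hθ, mul_pow] at hb
      have hb' : θ ^ 2 ≤ Z.relIndex K := Nat.le_of_mul_le_mul_left hb (by positivity)
      have hθlt : θ < Z.relIndex K := by
        rcases Nat.lt_or_ge θ 2 with h | h
        · omega
        · nlinarith
      have hfinal : 2 * (K.index * θ) * K.index + K.index * Z.relIndex K < K.index * Nat.card K := by
        rw [← hrelc]
        have h3 : 2 * K.index * θ + Z.relIndex K < Z.relIndex K * Nat.card Z := by
          calc 2 * K.index * θ + Z.relIndex K < 2 * K.index * Z.relIndex K + Z.relIndex K := by nlinarith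
            _ = Z.relIndex K * (2 * K.index + 1) := by ring
            _ ≤ _ := Nat.mul_le_mul_left _ hZ2
        calc 2 * (K.index * θ) * K.index + K.index * Z.relIndex K = K.index * (2 * K.index * θ + Z.relIndex K) := by ring
          _ < _ := Nat.mul_lt_mul_of_pos_left h3 e0
      have hfinal' : (2 * (K.index * θ) * K.index + K.index * Z.relIndex K : ℝ) < K.index * Nat.card K := by exact_mod_cast hfinal
      refine lt_of_lt_of_le ?_ (Finset.sum_le_sum_of_subset_of_nonneg (Finset.subset_union_left : X ⊆ X ∪ Y) (fun φ _ _ => by positivity))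
      rw [hsumX, hdψ, hθ]
      push_cast
      linarith)
  have hset : (↑(X ∪ Y) ∪ ↑T : Set (L → ℂ)) = inducedIrrAbove K ⊥ := by
    rw [Finset.coe_union, hX, hY, hT]
    exact Set.union_eq_right.mpr (Set.union_subset Set.diff_subset (iia_mono bot_le))
  rw [hset] at hg
  exact hg

end sibley

end

end Cfsg.Agent.Lib.OddSib
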