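import Cfsg.Agent.Lib.OddSib

set_option autoImplicit false

namespace Cfsg.Agent.Lib.OddTIFN

open Cfsg Cfsg.Agent.Lib.CharBasic Cfsg.Agent.Lib.CharInd Cfsg.Agent.Lib.CharExc Cfsg.Agent.Lib.OddSgn
open Cfsg.Agent.Lib.OddCoh Cfsg.Agent.Lib.OddCohB Cfsg.Agent.Lib.OddCohC Cfsg.Agent.Lib.OddCohD Cfsg.Agent.Lib.OddCohE
open Cfsg.Agent.Lib.OddCohF Cfsg.Agent.Lib.OddSib
open Cfsg.Agent.Lib.CharNormal Cfsg.Agent.Lib.CharMono Cfsg.Agent.Lib.OddZ
open Cfsg.Agent.Lib.OddDadeB (conj_isIrr conj_isChar conj_conj conj_sub conj_add conj_neg)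
open scoped ComplexConjugate

noncomputable section

section const

variable {L G : Type*} [Group L] [Fintype L] [Group G] [Fintype G]

/-- Coherence of a finite set of at least two irreducible characters of the same degree. -/
theorem const_coherent {S₀ : Finset (L → ℂ)} (hirr : ∀ ξ ∈ S₀, IsIrrCharacter L ξ)
    (hdeg : ∀ ξ ∈ S₀, ∀ ψ ∈ S₀, ξ 1 = ψ 1) (h2 : 2 ≤ S₀.card) {τ : (L → ℂ) → (G → ℂ)}
    (hτ : IsLinearIsometryOn (zspanOn (↑S₀ : Set (L → ℂ)) {1}ᶜ) τ)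
    (hτ1 : ∀ α ∈ zspanOn (↑S₀ : Set (L → ℂ)) {1}ᶜ, τ α 1 = 0) :
    IsCoherent (↑S₀ : Set (L → ℂ)) {1}ᶜ τ := by
  classical
  let e := S₀.equivFin
  let χ : Fin S₀.card → (L → ℂ) := fun i => (e.symm i).1
  have hχ : ∀ i, χ i ∈ S₀ := fun i => (e.symm i).2
  have hinj : Function.Injective χ := fun i j h => e.symm.injective (Subtype.ext h)
  let i₀ : Fin S₀.card := ⟨0, by omega⟩
  let i₁ : Fin S₀.card := ⟨1, by omega⟩
  have h' : IsLinearIsometryOn ((zon (↑S₀ : Set (L → ℂ)) {1}ᶜ : Submodule ℤ (L → ℂ)) : Set (L → ℂ)) τ := hτ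
  have hmem : ∀ i, χ i - χ i₀ ∈ zspanOn (↑S₀ : Set (L → ℂ)) {1}ᶜ := by
    intro i
    rw [mem_zon_one]
    exact ⟨(zsp (↑S₀ : Set (L → ℂ))).sub_mem (subset_zspan _ (hχ i)) (subset_zspan _ (hχ i₀)), by
      rw [Pi.sub_apply, hdeg _ (hχ i) _ (hχ i₀), sub_self]⟩
  have hin : ∀ i j, classInner (χ i) (χ j) = if i = j then 1 else 0 := by
    intro i j
    by_cases h : i = j
    · rw [if_pos h, h, irr_inner_self (hirr _ (hχ j))]
    · rw [if_neg h, irr_inner_ne (hirr _ (hχ i)) (hirr _ (hχ j)) (fun e => h (hinj e))]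
  obtain ⟨ε, hε, μ, hμ, hμi, hT⟩ := exceptional S₀.card i₀ (fun i => τ (χ i - χ i₀)) (by
      rw [sub_self]; exact iso_zero h')
    (fun i => hτ.2.2.2 _ (hmem i)) (fun i => hτ1 _ (hmem i)) (by
      intro i j hi hj
      rw [hτ.2.2.1 _ (hmem i) _ (hmem j), classInner_sub_left, classInner_sub_right, classInner_sub_right, hin, hin, hin, hin,
        if_neg hi, if_neg (Ne.symm hj), if_pos rfl]
      split_ifs <;> norm_num)
  refine ⟨⟨χ i₁ - χ i₀, hmem i₁, sub_ne_zero.mpr (fun h => by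
    have := hinj h
    simp [i₀, i₁] at this)⟩, ?_⟩
  have hχ1 : χ i₀ 1 ≠ 0 := isIrr_one_ne_zero (hirr _ (hχ i₀))
  have hεε : ε * (starRingEnd ℂ) ε = 1 := by rcases hε with h | h <;> simp [h]
  have hYgen : IsGeneralizedCharacter G (ε • μ i₀) := by
    rcases hε with h | h
    · rw [h, one_smul]; exact gen_of_irr (hμ i₀)
    · rw [h]
      have := gen_zs (-1) (gen_of_irr (hμ i₀))
      rw [zs] at this
      simpa using this
  have hμin : ∀ i j, classInner (μ i) (μ j) = if i = j then 1 else 0 := by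
    intro i j
    by_cases h : i = j
    · rw [if_pos h, h, irr_inner_self (hμ j)]
    · rw [if_neg h, irr_inner_ne (hμ i) (hμ j) (fun e => h (hμi e))]
  obtain ⟨τ₂, h1, h2', -⟩ := ext_min hτ (hχ i₀) hχ1 (fun φ hφ => ⟨1, by rw [hdeg φ hφ _ (hχ i₀)]; simp⟩) hYgen
    (by rw [classInner_smul_left, classInner_smul_right, hμin, hin, if_pos rfl, mul_one, hεε])
    (hYo_of_gen hτ (hχ i₀) hχ1 (fun φ hφ => ⟨1, by rw [hdeg φ hφ _ (hχ i₀)]; simp, by
      obtain ⟨i, hi⟩ : ∃ i, χ i = φ := ⟨e ⟨φ, hφ⟩, by simp [χ]⟩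
      rw [one_smul, ← hi]
      have e1 : χ i₀ - χ i = -(χ i - χ i₀) := by rw [neg_sub]
      have e2 : τ (χ i₀ - χ i) = -(ε • (μ i - μ i₀)) := by
        rw [e1, iso_neg h' (hmem i), ← hT i]
      rw [e2, ← smul_neg, neg_sub, classInner_smul_left, classInner_smul_right, classInner_sub_right, classInner_sub_right,
        hμin, hμin, hin, hin, ← mul_assoc, hεε, one_mul]⟩))
  exact ⟨τ₂, h1, h2'⟩

end const

section odd

variable {L : Type*} [Group L] [Finite L] {K : Subgroup L} [hK : K.Normal]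

/-- A Frobenius kernel of odd order that is not abelian has odd index. -/
theorem odd_index (hodd : Odd (Nat.card K)) (hfpf : ∀ g : L, g ∉ K → ∀ k ∈ K, g * k = k * g → k = 1)
    (hna : ¬ ∀ a ∈ K, ∀ b ∈ K, a * b = b * a) : Odd K.index := by
  by_contra h
  rw [Nat.not_odd_iff_even, even_iff_two_dvd] at h
  apply hna
  have h2 : 2 ∣ Nat.card L := h.trans K.index_dvd_card
  haveI : Fact (Nat.Prime 2) := ⟨Nat.prime_two⟩
  obtain ⟨t, ht⟩ := exists_prime_orderOf_dvd_card' (G := L) 2 h2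
  have htK : t ∉ K := by
    intro h
    have h3 : orderOf (⟨t, h⟩ : K) = 2 := by rw [← ht]; exact Subgroup.orderOf_mk t h
    have h4 := orderOf_dvd_natCard (⟨t, h⟩ : K)
    rw [h3] at h4
    exact (Nat.not_even_iff_odd.mpr hodd) (even_iff_two_dvd.mpr h4)
  have ht2 : t * t = 1 := by rw [← sq, ← ht, pow_orderOf_eq_one]
  let φ : K →* K := (MulAut.conjNormal t : MulAut K).toMonoidHom
  have hφ : ∀ k : K, ((φ k : K) : L) = t * k * t⁻¹ := fun k => MulAut.conjNormal_apply t k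
  have hfp : MonoidHom.FixedPointFree φ := by
    intro k hk
    have h5 := congrArg Subtype.val hk
    rw [hφ, mul_inv_eq_iff_eq_mul] at h5
    exact Subtype.ext (hfpf t htK k k.2 h5)
  have hinv : Function.Involutive φ := by
    intro k
    apply Subtype.ext
    rw [hφ, hφ]
    have : t⁻¹ = t := inv_eq_of_mul_eq_one_left ht2
    rw [this, ← mul_assoc, ← mul_assoc, ht2, one_mul, mul_assoc, ht2, mul_one]
  intro a ha b hb
  exact congrArg Subtype.val (hfp.commute_all_of_involutive hinv ⟨a, ha⟩ ⟨b, hb⟩)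

end odd

section setup

variable {G : Type*} [Group G] [Fintype G] {K₀ L : Subgroup G}

theorem sub_normal (hL : L = Subgroup.normalizer (K₀ : Set G)) : (K₀.subgroupOf L).Normal := by
  subst hL
  exact Subgroup.normal_in_normalizer

theorem sub_fpf (hC : ∀ k ∈ K₀, k ≠ 1 → Subgroup.centralizer ({k} : Set G) ≤ K₀) :
    ∀ g : L, g ∉ K₀.subgroupOf L → ∀ k ∈ K₀.subgroupOf L, g * k = k * g → k = 1 := by
  intro g hg k hk h
  by_contra hk1
  apply hg
  rw [Subgroup.mem_subgroupOf] at hk ⊢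
  apply hC k hk (fun e => hk1 (Subtype.ext e))
  rw [Subgroup.mem_centralizer_iff]
  intro x hx
  rw [Set.mem_singleton_iff.mp hx]
  exact (congrArg Subtype.val h).symm

theorem sub_TI (hL : L = Subgroup.normalizer (K₀ : Set G)) (hTI : IsTISubset (K₀ : Set G)) :
    ∀ g : G, g ∉ L → ∀ t : G, (∃ k ∈ K₀.subgroupOf L, (k : G) = t) → (∃ k ∈ K₀.subgroupOf L, (k : G) = g * t * g⁻¹) →
      t = 1 := by
  rintro g hg t ⟨k, hk, rfl⟩ ⟨k', hk', h⟩
  rw [hL] at hg
  exact hTI g hg _ hk (by rw [← h]; exact hk')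

theorem iia_irr' {L : Type*} [Group L] [Fintype L] {K : Subgroup L} [K.Normal]
    (hfpf : ∀ g : L, g ∉ K → ∀ k ∈ K, g * k = k * g → k = 1) {A : Subgroup L} {χ : L → ℂ} (hχ : χ ∈ inducedIrrAbove K A) :
    IsIrrCharacter L χ := by
  obtain ⟨θ, h1, h2, -, rfl⟩ := hχ
  exact CharFrob.ind_irr hfpf h1 h2

/-- The set of irreducible characters nontrivial on a Frobenius kernel. -/
theorem iia_eq {L : Type*} [Group L] [Fintype L] {K : Subgroup L} [K.Normal]
    (hfpf : ∀ g : L, g ∉ K → ∀ k ∈ K, g * k = k * g → k = 1) :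
    inducedIrrAbove K ⊥ = {χ | IsIrrCharacter L χ ∧ ∃ z ∈ K, χ z ≠ χ 1} := by
  haveI : Fintype K := Fintype.ofFinite _
  rw [← central_set (K := K) (Z := K) le_rfl (fun χ hχ => iia_irr' hfpf hχ.1)]
  have : inducedIrrAbove K K = ∅ := by
    rw [Set.eq_empty_iff_forall_notMem]
    rintro χ ⟨θ, hθ, hθ1, hk, -⟩
    apply hθ1
    funext a
    rw [hk a a.2]
    have h1 : ∀ a, θ a = θ 1 := fun a => hk a a.2
    have hin := irr_inner_self hθ
    rw [classInner_def] at hin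
    have h2 : ∀ a, θ a * (starRingEnd ℂ) (θ a) = θ 1 * (starRingEnd ℂ) (θ 1) := fun a => by rw [h1 a]
    rw [Finset.sum_congr rfl (fun a _ => h2 a), Finset.sum_const, Finset.card_univ, nsmul_eq_mul, Nat.card_eq_fintype_card,
      ← mul_assoc, inv_mul_cancel₀ (Nat.cast_ne_zero.mpr Fintype.card_ne_zero), one_mul] at hin
    obtain ⟨d, hd0, hd⟩ := isIrr_one_eq hθ
    rw [hd] at hin ⊢
    rw [Complex.conj_natCast] at hin
    have : d * d = 1 := by exact_mod_cast hin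
    rw [Nat.eq_one_of_mul_eq_one_right this]; simp
  rw [this, Set.diff_empty]

end setup

end

end Cfsg.Agent.Lib.OddTIFN
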