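import Cfsg.Agent.Lib.OmgA
import Cfsg.Agent.Lib.QfD
import Cfsg.Agent.Lib.PGrpA

/-!
Inverting automorphisms from two transvection groups; strongly closed subgroups with a small `Ω₁`.
-/

set_option autoImplicit false
set_option linter.unusedSectionVars false
set_option linter.style.haveILetI false
set_option linter.unusedVariables false

namespace Cfsg.Agent.Lib.OmgB

open Cfsg Cfsg.FusionSystem Cfsg.Agent.Lib.FusBase Cfsg.Agent.Lib.FusSat Cfsg.Agent.Lib.FusNormal Cfsg.Agent.Lib.FusNormalB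
open Cfsg.Agent.Lib.OmgA Cfsg.Agent.Lib.QfD Cfsg.Agent.Lib.FusNK

section neg

variable {V : Type*} [Group V]

theorem neg_xz {t t' : MulAut V} {x z : V} (hxz : z * x = x * z) (h1 : t z = z) (h2 : t x = z * x) (h3 : t' x = x)
    (h4 : t' z = z * x⁻¹) : ((t * t' * t) ^ 2) x = x⁻¹ ∧ ((t * t' * t) ^ 2) z = z⁻¹ := by
  have hwx : (t * t' * t) x = z := by
    show t (t' (t x)) = z
    rw [h2, map_mul, h3, h4, inv_mul_cancel_right, h1]
  have hwz : (t * t' * t) z = x⁻¹ := by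
    show t (t' (t z)) = x⁻¹
    rw [h1, h4, map_mul, map_inv, h1, h2, mul_inv_rev, ← mul_assoc]
    have : z * x⁻¹ = x⁻¹ * z := by
      rw [eq_inv_mul_iff_mul_eq, ← mul_assoc, ← hxz, mul_inv_cancel_right]
    rw [this, mul_inv_cancel_right]
  constructor
  · rw [sq, MulAut.mul_apply, hwx, hwz]
  · rw [sq, MulAut.mul_apply, hwz, map_inv, hwx]

theorem pow_apply_fix {t : MulAut V} {c : V} (h : t c = c) (n : ℕ) : (t ^ n) c = c := by
  induction n with
  | zero => rfl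
  | succ n ih => rw [pow_succ', MulAut.mul_apply, ih, h]

theorem pow_apply_tr {t : MulAut V} {z u : V} (hz : t z = z * u) (hu : t u = u) (n : ℕ) : (t ^ n) z = z * u ^ n := by
  induction n with
  | zero => simp
  | succ n ih => rw [pow_succ', MulAut.mul_apply, ih, map_mul, hz, map_pow, hu, mul_assoc, ← pow_succ']

theorem mem_zpowers_of_order {p : ℕ} [hp : Fact p.Prime] {x u : V} (hx : orderOf x = p) (hu : u ∈ Subgroup.zpowers x) (hu1 : u ≠ 1) :
    x ∈ Subgroup.zpowers u := by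
  have hfin : Finite (Subgroup.zpowers x) := Nat.finite_of_card_ne_zero (by
    rw [Nat.card_zpowers, hx]; exact hp.out.ne_zero)
  have h1 : Subgroup.zpowers u ≤ Subgroup.zpowers x := by rw [Subgroup.zpowers_le]; exact hu
  have h2 : Nat.card (Subgroup.zpowers u) ∣ p := by
    rw [← hx, ← Nat.card_zpowers]; exact Subgroup.card_dvd_of_le h1
  have h3 : Nat.card (Subgroup.zpowers u) ≠ 1 := by
    rw [Nat.card_zpowers, Ne, orderOf_eq_one_iff]; exact hu1
  have h4 : Nat.card (Subgroup.zpowers u) = p := ((Nat.dvd_prime hp.out).1 h2).resolve_left h3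
  have h5 : Subgroup.zpowers u = Subgroup.zpowers x := Subgroup.eq_of_le_of_card_ge h1 (by
    rw [h4, Nat.card_zpowers, hx])
  rw [h5]; exact Subgroup.mem_zpowers x

theorem exists_neg {p : ℕ} [hp : Fact p.Prime] [Finite V] (hcomm : ∀ a b : V, a * b = b * a) {A : Subgroup (MulAut V)} {t g : MulAut V}
    (ht : t ∈ A) (hg : g ∈ A) {x z a : V} (h1 : t z = z) (h2 : t x = z * x) (h3 : g x = a) (h4 : t a = a)
    (h5 : ∀ v, v⁻¹ * t v ∈ Subgroup.zpowers a) (h6 : t (g z) ≠ g z) (hx : orderOf x = p) :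
    ∃ τ ∈ A, τ x = x⁻¹ ∧ τ z = z⁻¹ ∧ ∀ c, t c = c → t (g c) = g c → τ c = c := by
  set t' : MulAut V := g⁻¹ * t * g with ht'
  have hg' : ∀ v, g⁻¹ (g v) = v := fun v => by rw [← MulAut.mul_apply, inv_mul_cancel]; rfl
  have htx : t' x = x := by
    show g⁻¹ (t (g x)) = x
    rw [h3, h4, ← h3, hg']
  set u := z⁻¹ * t' z with hu
  have hgu : g u = (g z)⁻¹ * t (g z) := by
    rw [hu, map_mul, map_inv]
    congr 1
    show g (g⁻¹ (t (g z))) = _
    rw [← MulAut.mul_apply, mul_inv_cancel]; rfl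
  have hux : u ∈ Subgroup.zpowers x := by
    obtain ⟨i, hi⟩ := h5 (g z)
    refine ⟨i, g.injective ?_⟩
    show g (x ^ i) = g u
    rw [map_zpow, h3, hgu]; exact hi
  have hu1 : u ≠ 1 := by
    intro h
    rw [h, map_one] at hgu
    exact h6 (inv_mul_eq_one.1 hgu.symm).symm
  have htu : t' u = u := by
    obtain ⟨i, hi⟩ := hux
    have hi' : x ^ i = u := hi
    rw [← hi', map_zpow, htx]
  have htz : t' z = z * u := by rw [hu]; group
  have h7 := mem_zpowers_of_order hx hux hu1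
  obtain ⟨n, hn⟩ := mem_powers_iff_mem_zpowers.2 (Subgroup.inv_mem _ h7)
  have hn' : u ^ n = x⁻¹ := hn
  have ht'A : t' ∈ A := A.mul_mem (A.mul_mem (A.inv_mem hg) ht) hg
  obtain ⟨h8, h9⟩ := neg_xz (t := t) (t' := t' ^ n) (hcomm z x) h1 h2 (pow_apply_fix htx n) (by
    rw [pow_apply_tr htz htu, hn'])
  refine ⟨(t * t' ^ n * t) ^ 2, A.pow_mem (A.mul_mem (A.mul_mem ht (A.pow_mem ht'A n)) ht) 2, h8, h9, fun c hc1 hc2 => ?_⟩
  have hc3 : t' c = c := by
    show g⁻¹ (t (g c)) = c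
    rw [hc2, hg']
  have hc4 := pow_apply_fix hc3 n
  apply pow_apply_fix
  show t ((t' ^ n) (t c)) = c
  rw [hc1, hc4, hc1]

end neg

variable {Ω : Type*} [Group Ω] {S : Subgroup Ω} {F : FusionSystem S} {p : ℕ} [Finite S] [Fact p.Prime]
variable {P Q R X Y V : Subgroup Ω} {f g h : Ω → Ω} {s t k z : Ω}

/-- a subgroup of order `p` normalized by `S` is centralized by `S` -/
theorem central_of_card (hS : IsPGroup p S) {Z : Subgroup Ω} (hZ : Z ≤ S) (hZn : ∀ s ∈ S, ∀ x ∈ Z, s * x * s⁻¹ ∈ Z)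
    (hc : Nat.card Z = p) : ∀ s ∈ S, ∀ x ∈ Z, s * x = x * s := by
  haveI : (Z.subgroupOf S).Normal := ⟨fun x hx g => hZn g g.2 x hx⟩
  have h1 : Nat.card (Z.subgroupOf S) = p := by rw [Nat.card_congr (Subgroup.subgroupOfEquivOfLe hZ).toEquiv, hc]
  have h2 := PGrpA.le_center_of_card_eq_prime hS h1
  intro s hs x hx
  exact congrArg Subtype.val (Subgroup.mem_center_iff.1 (h2 (show (⟨x, hZ hx⟩ : S) ∈ Z.subgroupOf S from hx)) ⟨s, hs⟩)

/-- if a central element of order `p` of `S` is conjugate to an element `x`, some map on `C_S(x)` realizes this -/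
theorem exists_to_central (hS : IsPGroup p S) (hF : F.IsSaturated p) {A : Subgroup Ω} {a : Ω} (hf : Mor F A f) (ha : a ∈ A)
    (hac : ∀ s ∈ S, s * a = a * s) : ∃ g, Mor F (centralizerIn S (Subgroup.zpowers (f a))) g ∧ g (f a) = a := by
  have haS : a ∈ S := hf.le ha
  have hzS : Subgroup.zpowers a ≤ S := by rw [Subgroup.zpowers_le]; exact haS
  have hza : Subgroup.zpowers a ≤ A := by rw [Subgroup.zpowers_le]; exact ha
  have h1 := (hf.restrict hza)
  have himg : img (Subgroup.zpowers a) f = Subgroup.zpowers (f a) := by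
    ext y
    rw [h1.mem_img]
    constructor
    · rintro ⟨w, ⟨i, rfl⟩, rfl⟩
      exact ⟨i, (h1.zpow (Subgroup.mem_zpowers a) i).symm⟩
    · rintro ⟨i, rfl⟩
      exact ⟨a ^ i, ⟨i, rfl⟩, h1.zpow (Subgroup.mem_zpowers a) i⟩
  obtain ⟨k, hk, hk1, hk2⟩ := h1.iso.symm
  have hn : S ≤ Subgroup.normalizer (Subgroup.zpowers a : Set Ω) := by
    haveI : Finite (Subgroup.zpowers a) := finite_of_le hzS
    intro s hs
    refine mem_normalizer_of_conj_mem fun w hw => ?_
    obtain ⟨i, rfl⟩ := hw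
    have h2 : Commute s a := hac s hs
    have h3 : s * a ^ i * s⁻¹ = a ^ i := by rw [(h2.zpow_right i).eq, mul_inv_cancel_right]
    show s * a ^ i * s⁻¹ ∈ _
    rw [h3]; exact ⟨i, rfl⟩
  have hFN : F.IsFullyNormalized (Subgroup.zpowers a) := FN_of_norm hzS hn
  obtain ⟨g, hg, hgk⟩ := (receptive_iff.1 (FC_receptive hS hF (FN_FC hS hF hFN))).2 _ _ hk
  rw [himg] at hg hgk
  have h4 : centralizerIn S (Subgroup.zpowers (f a)) ≤ Nx S (Subgroup.zpowers (f a)) k := by
    have := hk.mor.centralizerIn_le_Nx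
    rwa [himg] at this
  refine ⟨g, hg.restrict h4, ?_⟩
  rw [hgk _ (Subgroup.mem_zpowers _), hk1 _ (Subgroup.mem_zpowers _)]

/-- an automorphism of `V` in `F` inverting `V` extends to an automorphism of `S` of 2-power order inverting `V` -/
theorem exists_neg_top (hS : IsPGroup p S) (hF : F.IsSaturated p) (hVS : V ≤ S) (hVn : S ≤ Subgroup.normalizer (V : Set Ω)) {τ : MulAut V}
    (hτ : τ ∈ F.autGroup V) (hinv : ∀ v : V, τ v = v⁻¹) :
    ∃ (η : MulAut S) (k : ℕ), η ∈ F.autGroup S ∧ η ^ 2 ^ k = 1 ∧ ∀ v : S, (v : Ω) ∈ V → η v = v⁻¹ := by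
  have hFN : F.IsFullyNormalized V := FN_of_norm hVS hVn
  have hi : Iso F V V (fn τ) := iso_fn hVS hτ
  have hfn : ∀ v ∈ V, fn τ v = v⁻¹ := fun v hv => by rw [fn_mem _ hv, hinv]; rfl
  obtain ⟨h, hh, hh1⟩ := (receptive_iff.1 (FC_receptive hS hF (FN_FC hS hF hFN))).2 _ _ hi
  have hN : S ≤ Nx S V (fn τ) := by
    intro s hs
    refine mem_Nx.2 ⟨hs, hVn hs, s, hs, fun v hv => ?_⟩
    rw [hfn _ ((Subgroup.mem_normalizer_iff.1 (hVn hs) v).1 hv), hfn v hv]; group
  have hhS := hh.restrict hN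
  have hiS : Iso F S S h := hhS.iso_of_map fun x hx => hhS.mem hx
  obtain ⟨n, m, hm, he⟩ := Nat.exists_eq_pow_mul_and_not_dvd (orderOf_pos (autOf hiS)).ne' 2 (by norm_num)
  have hv1 : ∀ v : S, (v : Ω) ∈ V → (autOf hiS) v = v⁻¹ := by
    intro v hv
    apply Subtype.ext
    rw [autOf_apply, hh1 _ hv, hfn _ hv]; rfl
  have hpow : ∀ (j : ℕ) (v : S), (v : Ω) ∈ V → ((autOf hiS) ^ (2 * j)) v = v ∧ ((autOf hiS) ^ (2 * j + 1)) v = v⁻¹ := by
    intro j
    induction j with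
    | zero => intro v hv; exact ⟨by simp, by simpa using hv1 v hv⟩
    | succ j ih =>
      intro v hv
      have h1 : ((autOf hiS) ^ (2 * (j + 1))) v = v := by
        have e : 2 * (j + 1) = 2 * j + 1 + 1 := by ring
        rw [e, pow_succ, MulAut.mul_apply, hv1 v hv, map_inv, (ih v hv).2, inv_inv]
      refine ⟨h1, ?_⟩
      rw [pow_succ, MulAut.mul_apply, hv1 v hv, map_inv, h1]
  refine ⟨(autOf hiS) ^ m, n, Subgroup.pow_mem _ (autOf_mem hiS) m, ?_, fun v hv => ?_⟩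
  · rw [← pow_mul, mul_comm, ← he, pow_orderOf_eq_one]
  · have hodd : Odd m := by
      rw [← Nat.not_even_iff_odd]
      exact fun h => hm h.two_dvd
    obtain ⟨j, hj⟩ := hodd
    rw [hj]
    exact (hpow j v hv).2

end Cfsg.Agent.Lib.OmgB
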