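import Cfsg.Agent.Lib.OmgB
import Cfsg.Agent.Lib.Nilp

/-!
Strongly closed subgroups with `|Ω₁| = p²`, `p` odd.
-/

set_option autoImplicit false
set_option linter.unusedSectionVars false
set_option linter.style.haveILetI false
set_option linter.unusedVariables false

namespace Cfsg.Agent.Lib.OmgC

open Cfsg Cfsg.FusionSystem Cfsg.Agent.Lib.FusBase Cfsg.Agent.Lib.FusSat Cfsg.Agent.Lib.FusNormal Cfsg.Agent.Lib.FusNormalB
open Cfsg.Agent.Lib.OmgA Cfsg.Agent.Lib.OmgB Cfsg.Agent.Lib.QfD Cfsg.Agent.Lib.FusNK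

open scoped commutatorElement

variable {Ω : Type*} [Group Ω] {S : Subgroup Ω} {F : FusionSystem S} {p : ℕ} [Finite S] [Fact p.Prime]
variable {P Q R X Y V : Subgroup Ω} {f g h : Ω → Ω} {s t k z : Ω}

/-- the centre of `P` inside a normal subgroup `V` of order `p²` -/
theorem center_facts (hP : IsPGroup p P) [Finite P] (hVP : V ≤ P) (hVn : ∀ y ∈ P, ∀ v ∈ V, y * v * y⁻¹ ∈ V)
    (hVc : Nat.card V = p ^ 2) (hnc : ¬ V ≤ Subgroup.centralizer (P : Set Ω)) :
    Nat.card (V ⊓ Subgroup.centralizer (P : Set Ω) : Subgroup Ω) = p ∧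
      ∀ y ∈ P, ∀ v ∈ V, v⁻¹ * (y * v * y⁻¹) ∈ V ⊓ Subgroup.centralizer (P : Set Ω) := by
  have hp : p.Prime := Fact.out
  haveI hVn' : (V.subgroupOf P).Normal := ⟨fun x hx g => hVn g g.2 x hx⟩
  have hcard : ∀ B : Subgroup Ω, B ≤ P → Nat.card (B.subgroupOf P) = Nat.card B := fun B hB =>
    Nat.card_congr (Subgroup.subgroupOfEquivOfLe hB).toEquiv
  have hZP : V ⊓ Subgroup.centralizer (P : Set Ω) ≤ P := inf_le_left.trans hVP
  have hZeq : (V ⊓ Subgroup.centralizer (P : Set Ω)).subgroupOf P = V.subgroupOf P ⊓ Subgroup.center P := by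
    ext x
    constructor
    · intro hx
      refine ⟨hx.1, Subgroup.mem_center_iff.2 fun y => Subtype.ext (Subgroup.mem_centralizer_iff.1 hx.2 y y.2)⟩
    · intro hx
      refine ⟨hx.1, Subgroup.mem_centralizer_iff.2 fun y hy => congrArg Subtype.val (Subgroup.mem_center_iff.1 hx.2 ⟨y, hy⟩)⟩
  have h1 : V.subgroupOf P ≠ ⊥ := by
    intro h
    have h2 := hcard V hVP
    rw [h, Subgroup.card_bot, hVc] at h2
    exact (Nat.one_lt_pow two_ne_zero hp.one_lt).ne h2
  haveI : Group.IsNilpotent P := hP.isNilpotent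
  have h2 := Nilp.normal_inf_center_ne_bot (V.subgroupOf P) h1
  rw [← hZeq] at h2
  haveI hZn : ((V ⊓ Subgroup.centralizer (P : Set Ω)).subgroupOf P).Normal := by rw [hZeq]; infer_instance
  have h3 : Nat.card (V ⊓ Subgroup.centralizer (P : Set Ω) : Subgroup Ω) ∣ p ^ 2 := by
    rw [← hVc]; exact Subgroup.card_dvd_of_le inf_le_left
  have hfV : Finite V := Finite.of_injective _ (Subgroup.inclusion_injective hVP)
  have h4 : Nat.card (V ⊓ Subgroup.centralizer (P : Set Ω) : Subgroup Ω) = p := by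
    obtain ⟨i, hi, hi'⟩ := (Nat.dvd_prime_pow hp).1 h3
    interval_cases i
    · exfalso
      apply h2
      rw [← hcard _ hZP, pow_zero] at hi'
      exact Subgroup.card_eq_one.1 hi'
    · rw [hi', pow_one]
    · exfalso
      apply hnc
      have h5 : V ⊓ Subgroup.centralizer (P : Set Ω) = V := Subgroup.eq_of_le_of_card_ge inf_le_left (by rw [hi', hVc])
      rw [← h5]; exact inf_le_right
  refine ⟨h4, fun y hy v hv => ?_⟩
  have h5 := PGrpA.commutator_le_of_card hP (B := (V ⊓ Subgroup.centralizer (P : Set Ω)).subgroupOf P) (N := V.subgroupOf P)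
    (fun x hx => hx.1) (by rw [hcard _ hZP, hcard _ hVP, h4, hVc]; ring)
  have h6 := h5 (Subgroup.commutator_mem_commutator (show (⟨v⁻¹, P.inv_mem (hVP hv)⟩ : P) ∈ V.subgroupOf P from V.inv_mem hv)
    (Subgroup.mem_top (⟨y, hy⟩ : P)))
  have h7 : ((⁅(⟨v⁻¹, P.inv_mem (hVP hv)⟩ : P), (⟨y, hy⟩ : P)⁆ : P) : Ω) ∈ V ⊓ Subgroup.centralizer (P : Set Ω) := h6
  rw [commutatorElement_def] at h7
  have e : ((⟨v⁻¹, P.inv_mem (hVP hv)⟩ * ⟨y, hy⟩ * (⟨v⁻¹, P.inv_mem (hVP hv)⟩)⁻¹ * (⟨y, hy⟩)⁻¹ : P) : Ω) = v⁻¹ * (y * v * y⁻¹) := by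
    show v⁻¹ * y * v⁻¹⁻¹ * y⁻¹ = _
    group
  rw [e] at h7
  exact h7

/-- the key statement -/
theorem sc_center (hS : IsPGroup p S) (hF : F.IsSaturated p) (hp2 : p ≠ 2) (hP : F.StronglyClosed P) (hVP : V ≤ P)
    (hV : ∀ v ∈ P, v ^ p = 1 → v ∈ V) (hVp : ∀ v ∈ V, v ^ p = 1) (hVab : ∀ x ∈ V, ∀ y ∈ V, x * y = y * x) (hVc : Nat.card V = p ^ 2)
    (hnc : ¬ V ≤ Subgroup.centralizer (P : Set Ω)) : F.StronglyClosed (V ⊓ Subgroup.centralizer (P : Set Ω)) := by
  have hp : p.Prime := Fact.out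
  have hPS := hP.1
  have hVS : V ≤ S := hVP.trans hPS
  have hfP : Finite P := finite_of_le hPS
  have hfV : Finite V := finite_of_le hVS
  have hPn : ∀ s ∈ S, ∀ x ∈ P, s * x * s⁻¹ ∈ P := fun s hs x hx => StronglyClosed_conj hP hs hx
  have hVn : ∀ s ∈ S, ∀ x ∈ V, s * x * s⁻¹ ∈ V := fun s hs x hx => hV _ (hPn s hs x (hVP hx)) (by
    rw [conj_pow, hVp x hx]; group)
  have hVsc : ∀ A f, Mor F A f → ∀ x ∈ A, x ∈ V → f x ∈ V := fun A f hf x hx hxV =>
    hV _ (StronglyClosed_mem hP hf hx (hVP hxV)) (by rw [← hf.pow hx, hVp x hxV, hf.one])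
  obtain ⟨hZc, hcomm⟩ := center_facts (hS.to_le hPS) hVP (fun y hy => hVn y (hPS hy)) hVc hnc
  obtain ⟨Z, hZ⟩ : ∃ Z, Z = V ⊓ Subgroup.centralizer (P : Set Ω) := ⟨_, rfl⟩
  rw [← hZ] at hZc hcomm ⊢
  have hZV : Z ≤ V := by rw [hZ]; exact inf_le_left
  have hZP : ∀ x ∈ Z, ∀ y ∈ P, y * x = x * y := by
    intro x hx y hy
    rw [hZ] at hx
    exact Subgroup.mem_centralizer_iff.1 hx.2 y hy
  have hZmem : ∀ x ∈ V, (∀ y ∈ P, y * x = x * y) → x ∈ Z := by
    intro x hx h
    rw [hZ]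
    exact ⟨hx, Subgroup.mem_centralizer_iff.2 fun y hy => h y hy⟩
  have hZn : ∀ s ∈ S, ∀ x ∈ Z, s * x * s⁻¹ ∈ Z := by
    intro s hs x hx
    refine hZmem _ (hVn s hs x (hZV hx)) fun y hy => ?_
    have h1 := hZP x hx (s⁻¹ * y * s⁻¹⁻¹) (hPn _ (S.inv_mem hs) y hy)
    have h2 : y * (s * x * s⁻¹) = s * (s⁻¹ * y * s⁻¹⁻¹ * x) * s⁻¹ := by group
    rw [h2, h1]; group
  have hZcen := central_of_card hS (hZV.trans hVS) hZn hZc
  have hfZ : Finite Z := finite_of_le (hZV.trans hVS)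
  -- generators of `Z`
  have hgen : ∀ b ∈ Z, b ≠ 1 → ∀ c ∈ Z, c ∈ Subgroup.zpowers b := by
    intro b hb hb1 c hc
    have h1 : Subgroup.zpowers b ≤ Z := by rw [Subgroup.zpowers_le]; exact hb
    have h2 : Nat.card (Subgroup.zpowers b) ∣ p := by rw [← hZc]; exact Subgroup.card_dvd_of_le h1
    have h3 : Nat.card (Subgroup.zpowers b) ≠ 1 := by
      rw [Nat.card_zpowers, Ne, orderOf_eq_one_iff]; exact hb1
    have h4 : Nat.card (Subgroup.zpowers b) = p := ((Nat.dvd_prime hp).1 h2).resolve_left h3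
    have h5 : Subgroup.zpowers b = Z := Subgroup.eq_of_le_of_card_ge h1 (by rw [h4, hZc])
    rw [h5]; exact hc
  rw [stronglyClosed_iff]
  refine ⟨hZV.trans hVS, fun A f hf a haA haZ => ?_⟩
  by_contra hfaZ
  have ha1 : a ≠ 1 := by
    rintro rfl
    apply hfaZ
    rw [hf.one]; exact Z.one_mem
  obtain ⟨x, hx⟩ : ∃ x, x = f a := ⟨_, rfl⟩
  rw [← hx] at hfaZ
  have hxV : x ∈ V := by rw [hx]; exact hVsc A f hf a haA (hZV haZ)
  obtain ⟨g, hg, hgx⟩ := exists_to_central hS hF hf haA (fun s hs => hZcen s hs a haZ)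
  rw [← hx] at hg hgx
  have hVC : V ≤ centralizerIn S (Subgroup.zpowers x) := by
    intro v hv
    refine mem_centralizerIn.2 ⟨hVS hv, fun w hw => ?_⟩
    obtain ⟨i, rfl⟩ := hw
    have : Commute v x := hVab v hv x hxV
    exact (this.zpow_right i).symm.eq
  have hgV := hg.restrict hVC
  have hgi : Iso F V V g := hgV.iso_of_map fun v hv => hVsc _ _ hgV v hv hv
  -- an element `y`
  have hexy : ∃ y ∈ P, y * x * y⁻¹ ≠ x := by
    by_contra hcon
    push Not at hcon
    exact hfaZ (hZmem x hxV fun y hy => by rw [← mul_inv_eq_iff_eq_mul]; exact hcon y hy)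
  obtain ⟨y, hyP, hyx⟩ := hexy
  have hyS := hPS hyP
  have hti : Iso F V V (fun v => y * v * y⁻¹) := (mor_conj F hVS hyS).iso_of_map fun v hv => hVn y hyS v hv
  obtain ⟨z, hz⟩ : ∃ z, z = x⁻¹ * (y * x * y⁻¹) := ⟨_, rfl⟩
  have hzZ : z ∈ Z := by rw [hz]; exact hcomm y hyP x hxV
  have hz1 : z ≠ 1 := by
    intro h
    rw [h] at hz
    exact hyx (inv_mul_eq_one.1 hz.symm).symm
  have hcy : ∀ v ∈ V, y * v * y⁻¹ = v → v ∈ Z := by
    -- the centralizer of `y` in `V` has order `p`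
    intro v hv hyv
    obtain ⟨D, hD⟩ : ∃ D : Subgroup Ω, D = V ⊓ Subgroup.centralizer {y} := ⟨_, rfl⟩
    have hZD : Z ≤ D := by
      rw [hD]
      refine le_inf hZV fun w hw => Subgroup.mem_centralizer_singleton_iff.2 (hZP w hw y hyP).symm
    have hDV : D ≤ V := by rw [hD]; exact inf_le_left
    have hfD : Finite D := finite_of_le (hDV.trans hVS)
    have h1 : Nat.card D ∣ p ^ 2 := by rw [← hVc]; exact Subgroup.card_dvd_of_le hDV
    have h2 : D ≠ V := by
      intro h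
      have h3 : x ∈ D := by rw [h]; exact hxV
      rw [hD] at h3
      have h4 : x * y = y * x := Subgroup.mem_centralizer_singleton_iff.1 h3.2
      apply hyx
      rw [← h4, mul_inv_cancel_right]
    have h3 : Z = D := by
      refine Subgroup.eq_of_le_of_card_ge hZD ?_
      obtain ⟨i, hi, hi'⟩ := (Nat.dvd_prime_pow hp).1 h1
      interval_cases i
      · rw [hi', pow_zero]; exact Nat.card_pos
      · rw [hi', hZc, pow_one]
      · exact absurd (Subgroup.eq_of_le_of_card_ge hDV (by rw [hi', hVc])) h2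
    rw [h3, hD]
    refine ⟨hv, Subgroup.mem_centralizer_singleton_iff.2 ?_⟩
    rw [mul_inv_eq_iff_eq_mul] at hyv
    exact hyv.symm
  -- the inverting automorphism
  have hord : orderOf (⟨x, hxV⟩ : V) = p := by
    refine orderOf_eq_prime (Subtype.ext (hVp x hxV)) fun h => hfaZ ?_
    have : x = 1 := congrArg Subtype.val h
    rw [this]; exact Z.one_mem
  obtain ⟨τ, hτ, hτx, hτz, -⟩ := exists_neg (A := F.autGroup V) (t := autOf hti) (g := autOf hgi) (x := ⟨x, hxV⟩) (z := ⟨z, hZV hzZ⟩)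
    (a := ⟨a, hZV haZ⟩) (p := p)
    (fun a b => Subtype.ext (hVab a a.2 b b.2)) (autOf_mem hti) (autOf_mem hgi)
    (by apply Subtype.ext; rw [autOf_apply]; show y * z * y⁻¹ = z; rw [hZP z hzZ y hyP, mul_inv_cancel_right])
    (by
      apply Subtype.ext; rw [autOf_apply]
      show y * x * y⁻¹ = z * x
      have h1 : x * z = y * x * y⁻¹ := by rw [hz]; group
      rw [← h1]; exact hVab x hxV z (hZV hzZ))
    (by apply Subtype.ext; rw [autOf_apply]; exact hgx)
    (by apply Subtype.ext; rw [autOf_apply]; show y * a * y⁻¹ = a; rw [hZP a haZ y hyP, mul_inv_cancel_right])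
    (by
      intro v
      have h1 := hcomm y hyP v v.2
      obtain ⟨i, hi⟩ := hgen a haZ ha1 _ h1
      refine ⟨i, Subtype.ext ?_⟩
      have hi' : a ^ i = (v : Ω)⁻¹ * (y * v * y⁻¹) := hi
      show a ^ i = (v : Ω)⁻¹ * ((autOf hti v : V) : Ω)
      rw [autOf_apply, hi'])
    (by
      intro h
      have h1 := congrArg Subtype.val h
      rw [autOf_apply] at h1
      have h2 : y * ((autOf hgi ⟨z, hZV hzZ⟩ : V) : Ω) * y⁻¹ = ((autOf hgi ⟨z, hZV hzZ⟩ : V) : Ω) := h1
      have h3 := hcy _ (Subtype.mem _) h2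
      rw [autOf_apply] at h3
      -- `g z ∈ ⟨a⟩`, so `z ∈ ⟨x⟩`
      obtain ⟨i, hi⟩ := hgen a haZ ha1 _ h3
      have hi' : a ^ i = g z := hi
      have hxa : x ∈ centralizerIn S (Subgroup.zpowers x) := hVC hxV
      have h4 : g (x ^ i) = g z := by rw [hg.zpow hxa, hgx, hi']
      have h5 : x ^ i = z := hg.inj (Subgroup.zpow_mem _ hxa i) (hVC (hZV hzZ)) h4
      have h6 : z ∈ Subgroup.zpowers x := ⟨i, h5⟩
      have hordx : orderOf x = p := by
        have := hord
        rwa [Subgroup.orderOf_mk] at this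
      have h7 := mem_zpowers_of_order hordx h6 hz1
      have h8 : Subgroup.zpowers z ≤ Z := by rw [Subgroup.zpowers_le]; exact hzZ
      exact hfaZ (h8 h7))
    hord
  -- `V = ⟨x, z⟩`
  have hspan : ∀ v : V, τ v = v⁻¹ := by
    obtain ⟨D, hD⟩ : ∃ D : Subgroup V, D = Subgroup.zpowers (⟨x, hxV⟩ : V) ⊔ Subgroup.zpowers (⟨z, hZV hzZ⟩ : V) := ⟨_, rfl⟩
    have hDtop : D = ⊤ := by
      have h1 : Nat.card D ∣ p ^ 2 := by rw [← hVc]; exact Subgroup.card_subgroup_dvd_card D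
      have h2 : p < Nat.card D := by
        have h3 : Subgroup.zpowers (⟨x, hxV⟩ : V) ≤ D := by rw [hD]; exact le_sup_left
        have h4 : Nat.card (Subgroup.zpowers (⟨x, hxV⟩ : V)) = p := by rw [Nat.card_zpowers, hord]
        have h5 := Subgroup.card_le_of_le h3
        rw [h4] at h5
        refine lt_of_le_of_ne h5 fun h => ?_
        have h6 : Subgroup.zpowers (⟨x, hxV⟩ : V) = D := Subgroup.eq_of_le_of_card_ge h3 (by rw [h4, ← h])
        have h7 : (⟨z, hZV hzZ⟩ : V) ∈ Subgroup.zpowers (⟨x, hxV⟩ : V) := by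
          rw [h6, hD]; exact Subgroup.mem_sup_right (Subgroup.mem_zpowers _)
        have h8 := mem_zpowers_of_order hord h7 (fun h => hz1 (congrArg Subtype.val h))
        obtain ⟨i, hi⟩ := h8
        have hi' : z ^ i = x := congrArg Subtype.val hi
        exact hfaZ (by rw [← hi']; exact Z.zpow_mem hzZ i)
      obtain ⟨i, hi, hi'⟩ := (Nat.dvd_prime_pow hp).1 h1
      have h3 : Nat.card D = Nat.card V := by
        interval_cases i
        · rw [hi', pow_zero] at h2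
          have := hp.one_lt
          omega
        · rw [hi', pow_one] at h2
          exact absurd h2 (lt_irrefl _)
        · rw [hi', hVc]
      exact Subgroup.eq_top_of_card_eq D h3
    intro v
    have hv : v ∈ D := by rw [hDtop]; exact Subgroup.mem_top v
    have hVab' : ∀ a b : V, a * b = b * a := fun a b => Subtype.ext (hVab a a.2 b b.2)
    have hle : D ≤ { carrier := {v : V | τ v = v⁻¹}, one_mem' := by simp, mul_mem' := by
                      intro a b ha hb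
                      show τ (a * b) = (a * b)⁻¹
                      rw [map_mul, show τ a = a⁻¹ from ha, show τ b = b⁻¹ from hb, mul_inv_rev, hVab' a⁻¹]
                     inv_mem' := by
                      intro a ha
                      show τ a⁻¹ = a⁻¹⁻¹
                      rw [map_inv, show τ a = a⁻¹ from ha] : Subgroup V } := by
      rw [hD]
      refine sup_le ?_ ?_
      · rw [Subgroup.zpowers_le]; exact hτx
      · rw [Subgroup.zpowers_le]; exact hτz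
    exact hle hv
  obtain ⟨η, k, hη, hηk, hηV⟩ := exists_neg_top hS hF hVS (fun s hs => mem_normalizer_of_conj_mem (hVn s hs)) hτ hspan
  -- a fixed point of `η` in the coset of `y`
  have hηP : ∀ u : S, (u : Ω) ∈ P → ((η u : S) : Ω) ∈ P := by
    intro u hu
    have h1 := StronglyClosed_mem hP (iso_fn le_rfl hη).mor u.2 hu
    rwa [fn_apply] at h1
  have hηC : ∀ u : S, (u : Ω) ∈ P → y⁻¹ * (u : Ω) ∈ Subgroup.centralizer (V : Set Ω) → y⁻¹ * ((η u : S) : Ω) ∈ Subgroup.centralizer (V : Set Ω) := by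
    intro u hu huC
    have h1 : ∀ v ∈ V, (u : Ω) * v * (u : Ω)⁻¹ = y * v * y⁻¹ := by
      intro v hv
      have h2 := Subgroup.mem_centralizer_iff.1 huC v hv
      have e : (u : Ω) * v * (u : Ω)⁻¹ = y * ((y⁻¹ * (u : Ω)) * v) * (u : Ω)⁻¹ := by group
      rw [e, ← h2]; group
    rw [Subgroup.mem_centralizer_iff]
    intro v hv
    -- apply `η` to `u v u⁻¹`
    have h2 : η (u * ⟨v, hVS hv⟩ * u⁻¹) = η u * (⟨v, hVS hv⟩ : S)⁻¹ * (η u)⁻¹ := by
      rw [map_mul, map_mul, map_inv, hηV ⟨v, hVS hv⟩ hv]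
    have h3 : ((u * ⟨v, hVS hv⟩ * u⁻¹ : S) : Ω) ∈ V := hVn u u.2 v hv
    rw [hηV _ h3] at h2
    have h4 : ((u : Ω) * v * (u : Ω)⁻¹)⁻¹ = ((η u : S) : Ω) * v⁻¹ * ((η u : S) : Ω)⁻¹ := congrArg Subtype.val h2
    rw [h1 v hv] at h4
    have h5 : y * v * y⁻¹ = ((η u : S) : Ω) * v * ((η u : S) : Ω)⁻¹ := by
      have := congrArg (fun w => w⁻¹) h4
      simp only [inv_inv] at this
      rw [this]; group
    have e : y⁻¹ * ((η u : S) : Ω) * v = y⁻¹ * (((η u : S) : Ω) * v * ((η u : S) : Ω)⁻¹) * ((η u : S) : Ω) := by group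
    rw [e, ← h5]; group
  classical
  let X := {u : S // (u : Ω) ∈ P ∧ y⁻¹ * (u : Ω) ∈ Subgroup.centralizer (V : Set Ω)}
  haveI : Fintype X := Fintype.ofFinite X
  let φ : Function.End X := fun u => ⟨η u.1, hηP _ u.2.1, hηC _ u.2.1 u.2.2⟩
  have hφpow : ∀ (n : ℕ) (u : X), ((φ ^ n) u).1 = (η ^ n) u.1 := by
    intro n
    induction n with
    | zero => intro u; rfl
    | succ n ih =>
      intro u
      rw [pow_succ', pow_succ', MulAut.mul_apply, ← ih]; rfl
  have hφ : φ ^ 2 ^ k = 1 := by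
    funext u
    apply Subtype.ext
    rw [hφpow, hηk]; rfl
  have hmod := Equiv.Perm.card_fixedPoints_modEq (p := 2) (n := k) hφ
  have hcardX : Odd (Fintype.card X) := by
    have hCP : Nat.card X = Nat.card (P ⊓ Subgroup.centralizer (V : Set Ω) : Subgroup Ω) := by
      refine Nat.card_congr ⟨fun u => ⟨y⁻¹ * u.1, P.mul_mem (P.inv_mem hyP) u.2.1, u.2.2⟩,
        fun c => ⟨⟨y * c, S.mul_mem hyS (hPS c.2.1)⟩, P.mul_mem hyP c.2.1, by
          show y⁻¹ * (y * (c : Ω)) ∈ _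
          rw [inv_mul_cancel_left]; exact c.2.2⟩, fun u => ?_, fun c => ?_⟩
      · apply Subtype.ext; apply Subtype.ext
        show y * (y⁻¹ * (u.1 : Ω)) = u.1
        group
      · apply Subtype.ext
        show y⁻¹ * (y * (c : Ω)) = c
        group
    have h1 : IsPGroup p (P ⊓ Subgroup.centralizer (V : Set Ω) : Subgroup Ω) := hS.to_le (inf_le_left.trans hPS)
    haveI : Finite (P ⊓ Subgroup.centralizer (V : Set Ω) : Subgroup Ω) := finite_of_le (inf_le_left.trans hPS)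
    obtain ⟨j, hj⟩ := IsPGroup.iff_card.1 h1
    rw [← Nat.card_eq_fintype_card, hCP, hj]
    exact (hp.odd_of_ne_two hp2).pow
  have hfix : ∃ u : X, φ u = u := by
    by_contra hcon
    push Not at hcon
    have h0 : Fintype.card φ.fixedPoints = 0 := by
      rw [Fintype.card_eq_zero_iff]
      exact ⟨fun u => hcon u.1 u.2⟩
    rw [h0] at hmod
    have := (Nat.odd_iff.1 hcardX)
    have h3 : Fintype.card X % 2 = 0 % 2 := hmod
    omega
  obtain ⟨⟨u, huP, huC⟩, hu⟩ := hfix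
  have hηu : η u = u := congrArg Subtype.val hu
  have hu1 : u ≠ 1 := by
    rintro rfl
    have h1 : y⁻¹ ∈ Subgroup.centralizer (V : Set Ω) := by
      have := huC
      rwa [Subgroup.coe_one, mul_one] at this
    have h2 := Subgroup.mem_centralizer_iff.1 (Subgroup.inv_mem _ h1) x hxV
    rw [inv_inv] at h2
    apply hyx
    rw [← h2, mul_inv_cancel_right]
  -- a power of order `p`
  obtain ⟨j, hj⟩ := hS u
  have hexj : ∃ n, u ^ p ^ n = 1 := ⟨j, hj⟩
  obtain ⟨m, hm⟩ : ∃ m, Nat.find hexj = m + 1 := by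
    refine Nat.exists_eq_succ_of_ne_zero fun h => hu1 ?_
    have := Nat.find_spec hexj
    rwa [h, pow_zero, pow_one] at this
  obtain ⟨w, hw⟩ : ∃ w, w = u ^ p ^ m := ⟨_, rfl⟩
  have hw1 : w ≠ 1 := by rw [hw]; exact Nat.find_min hexj (by omega)
  have hwp : w ^ p = 1 := by
    have := Nat.find_spec hexj
    rw [hm, pow_succ, pow_mul] at this
    rw [hw]; exact this
  have hwV : (w : Ω) ∈ V := by
    refine hV _ ?_ (congrArg Subtype.val hwp)
    rw [hw, Subgroup.coe_pow]; exact P.pow_mem huP _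
  have h1 := hηV w hwV
  have h2 : η w = w := by rw [hw, map_pow, hηu]
  rw [h2] at h1
  have h3 : w ^ 2 = 1 := by rw [sq]; nth_rw 1 [h1]; exact inv_mul_cancel w
  apply hw1
  have h4 : (2 : ℕ).Coprime p := (Nat.coprime_primes Nat.prime_two hp).2 (Ne.symm hp2)
  have h5 : orderOf w ∣ Nat.gcd 2 p := Nat.dvd_gcd (orderOf_dvd_of_pow_eq_one h3) (orderOf_dvd_of_pow_eq_one hwp)
  rw [h4, Nat.dvd_one, orderOf_eq_one_iff] at h5
  exact h5

end Cfsg.Agent.Lib.OmgC
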