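import Cfsg.Agent.Lib.OmgC

/-!
Strongly closed generalized extraspecial subgroups.
-/

set_option autoImplicit false
set_option linter.unusedSectionVars false
set_option linter.style.haveILetI false
set_option linter.unusedVariables false

namespace Cfsg.Agent.Lib.OmgD

open Cfsg Cfsg.FusionSystem Cfsg.Agent.Lib.FusBase Cfsg.Agent.Lib.FusSat Cfsg.Agent.Lib.FusNormal Cfsg.Agent.Lib.FusNormalB
open Cfsg.Agent.Lib.OmgA Cfsg.Agent.Lib.OmgB Cfsg.Agent.Lib.OmgC Cfsg.Agent.Lib.QfD Cfsg.Agent.Lib.FusNK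

open scoped commutatorElement

variable {Ω : Type*} [Group Ω] {S : Subgroup Ω} {F : FusionSystem S} {p : ℕ} [Finite S] [Fact p.Prime]
variable {P Q R X Y V D B : Subgroup Ω} {f g h : Ω → Ω} {s t k z : Ω}

/-- the setting -/
structure GE (F : FusionSystem S) (p : ℕ) (P D : Subgroup Ω) : Prop where
  sc : F.StronglyClosed P
  le : D ≤ P
  card : Nat.card D = p
  comm : ∀ u ∈ P, ∀ v ∈ P, u * v * u⁻¹ * v⁻¹ ∈ D
  pow : ∀ u ∈ P, u ^ p ∈ D
  nab : ∃ u ∈ P, ∃ v ∈ P, u * v ≠ v * u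
  norm : ∀ s ∈ S, ∀ x ∈ D, s * x * s⁻¹ ∈ D

namespace GE

theorem cen (h : GE F p P D) (hS : IsPGroup p S) : ∀ s ∈ S, ∀ x ∈ D, s * x = x * s :=
  central_of_card hS (h.le.trans h.sc.1) h.norm h.card

theorem gen (h : GE F p P D) {b c : Ω} (hb : b ∈ D) (hb1 : b ≠ 1) (hc : c ∈ D) : c ∈ Subgroup.zpowers b := by
  have hfD : Finite D := finite_of_le (h.le.trans h.sc.1)
  have h1 : Subgroup.zpowers b ≤ D := by rw [Subgroup.zpowers_le]; exact hb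
  have h2 : Nat.card (Subgroup.zpowers b) ∣ p := by rw [← h.card]; exact Subgroup.card_dvd_of_le h1
  have h3 : Nat.card (Subgroup.zpowers b) ≠ 1 := by
    rw [Nat.card_zpowers, Ne, orderOf_eq_one_iff]; exact hb1
  have h4 : Nat.card (Subgroup.zpowers b) = p := ((Nat.dvd_prime Fact.out).1 h2).resolve_left h3
  have h5 : Subgroup.zpowers b = D := Subgroup.eq_of_le_of_card_ge h1 (by rw [h4, h.card])
  rw [h5]; exact hc

/-- a map sending a non-identity element of `D` into `D` permutes `D` -/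
theorem onto (h : GE F p P D) (hg : Mor F B g) (hDB : D ≤ B) {c : Ω} (hc : c ∈ D) (hc1 : c ≠ 1) (hgc : g c ∈ D) {a : Ω} (ha : a ∈ D) :
    ∃ d ∈ D, g d = a := by
  have hfD : Finite D := finite_of_le (h.le.trans h.sc.1)
  have hgD := hg.restrict hDB
  have h1 : ∀ x ∈ D, g x ∈ D := by
    intro x hx
    obtain ⟨i, hi⟩ := h.gen hc hc1 hx
    have hi' : c ^ i = x := hi
    rw [← hi', hgD.zpow hc]; exact D.zpow_mem hgc i
  have h2 := hgD.iso_of_map h1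
  obtain ⟨d, hd, hda⟩ := h2.mem_right.1 ha
  exact ⟨d, hd, hda⟩

theorem powD (h : GE F p P D) {c : Ω} (hc : c ∈ D) : c ^ p = 1 := by
  have hfD : Finite D := finite_of_le (h.le.trans h.sc.1)
  have h1 : (⟨c, hc⟩ : D) ^ Nat.card D = 1 := pow_card_eq_one'
  rw [h.card] at h1
  exact congrArg Subtype.val h1

/-- the structure of the centralizer of a conjugate `x ∉ D` of an element of `D` -/
theorem cent (hS : IsPGroup p S) (hF : F.IsSaturated p) (h : GE F p P D) {A : Subgroup Ω} {a : Ω} (hf : Mor F A f) (haA : a ∈ A)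
    (haD : a ∈ D) (hfa : f a ∉ D) :
    ∃ g, Mor F (centralizerIn S (Subgroup.zpowers (f a))) g ∧ g (f a) = a ∧ (∃ y ∈ P, y * f a ≠ f a * y) ∧
      (∀ v ∈ P, v * f a = f a * v → v ^ p = 1) ∧
      (∀ v ∈ P, ∀ w ∈ P, v * f a = f a * v → w * f a = f a * w → v * w = w * v) := by
  have hPS := h.sc.1
  have hDS := h.le.trans hPS
  obtain ⟨g, hg, hga⟩ := exists_to_central hS hF hf haA (fun s hs => h.cen hS s hs a haD)
  obtain ⟨x, hx⟩ : ∃ x, x = f a := ⟨_, rfl⟩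
  rw [← hx] at hg hga hfa ⊢
  have hxP : x ∈ P := by rw [hx]; exact StronglyClosed_mem h.sc hf haA (h.le haD)
  have hmem : ∀ v ∈ S, v * x = x * v → v ∈ centralizerIn S (Subgroup.zpowers x) := by
    intro v hv hvx
    refine mem_centralizerIn.2 ⟨hv, fun w hw => ?_⟩
    obtain ⟨i, rfl⟩ := hw
    have : Commute v x := hvx
    exact (this.zpow_right i).symm.eq
  have hDC : D ≤ centralizerIn S (Subgroup.zpowers x) := fun d hd => hmem d (hDS hd) (h.cen hS x (hPS hxP) d hd).symm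
  have hxC : x ∈ centralizerIn S (Subgroup.zpowers x) := hmem x (hPS hxP) rfl
  -- no non-identity element of `D` goes to `D`
  have hbad : ∀ c ∈ D, g c ∈ D → c = 1 := by
    intro c hc hgc
    by_contra hc1
    obtain ⟨d, hd, hda⟩ := h.onto hg hDC hc hc1 hgc haD
    have := hg.inj (hDC hd) hxC (hda.trans hga.symm)
    exact hfa (this ▸ hd)
  have hgP : ∀ v ∈ P, v * x = x * v → g v ∈ P := fun v hv hvx => StronglyClosed_mem h.sc hg (hmem v (hPS hv) hvx) hv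
  have h4 : ∀ v ∈ P, ∀ w ∈ P, v * x = x * v → w * x = x * w → v * w = w * v := by
    intro v hv w hw hvx hwx
    have hvC := hmem v (hPS hv) hvx
    have hwC := hmem w (hPS hw) hwx
    have h1 := hbad _ (h.comm v hv w hw) (by
      have hC := centralizerIn S (Subgroup.zpowers x)
      rw [hg.mul (Subgroup.mul_mem _ (Subgroup.mul_mem _ hvC hwC) (Subgroup.inv_mem _ hvC)) (Subgroup.inv_mem _ hwC),
        hg.mul (Subgroup.mul_mem _ hvC hwC) (Subgroup.inv_mem _ hvC), hg.mul hvC hwC, hg.inv hvC, hg.inv hwC]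
      exact h.comm _ (hgP v hv hvx) _ (hgP w hw hwx))
    rw [mul_inv_eq_one, mul_inv_eq_iff_eq_mul] at h1
    exact h1
  refine ⟨g, hg, hga, ?_, ?_, h4⟩
  · by_contra hcon
    push Not at hcon
    obtain ⟨u, hu, v, hv, huv⟩ := h.nab
    exact huv (h4 u hu v hv (hcon u hu) (hcon v hv))
  · intro v hv hvx
    have hvC := hmem v (hPS hv) hvx
    refine hbad _ (h.pow v hv) ?_
    rw [hg.pow hvC]
    exact h.pow _ (hgP v hv hvx)

theorem class2 (hS : IsPGroup p S) (h : GE F p P D) : PGrpA.Class2 P := by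
  intro u v
  rw [Subgroup.mem_center_iff]
  intro w
  apply Subtype.ext
  have h1 : ((⁅u, v⁆ : P) : Ω) ∈ D := by
    rw [commutatorElement_def]; exact h.comm u u.2 v v.2
  exact h.cen hS w (h.sc.1 w.2) _ h1

theorem mul_pow (hS : IsPGroup p S) (hp2 : p ≠ 2) (h : GE F p P D) {u v : Ω} (hu : u ∈ P) (hv : v ∈ P) : (u * v) ^ p = u ^ p * v ^ p := by
  have h1 := (h.class2 hS).mul_pow ⟨u, hu⟩ ⟨v, hv⟩ p
  have h2 : (⁅(⟨v, hv⟩ : P), (⟨u, hu⟩ : P)⁆) ^ (p.choose 2) = 1 := by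
    have h3 : p ∣ p.choose 2 := (Fact.out : p.Prime).dvd_choose_self (by norm_num)
      (lt_of_le_of_ne (Fact.out : p.Prime).two_le (Ne.symm hp2))
    obtain ⟨m, hm⟩ := h3
    have h4 : (⁅(⟨v, hv⟩ : P), (⟨u, hu⟩ : P)⁆) ^ p = 1 := by
      apply Subtype.ext
      rw [commutatorElement_def]
      exact h.powD (h.comm v hv u hu)
    rw [hm, pow_mul, h4, one_pow]
  rw [h2, mul_one] at h1
  exact congrArg Subtype.val h1

theorem zpow_comm (hS : IsPGroup p S) (h : GE F p P D) {u v : Ω} (hu : u ∈ P) (hv : v ∈ P) (i : ℤ) :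
    u ^ i * v * (u ^ i)⁻¹ * v⁻¹ = (u * v * u⁻¹ * v⁻¹) ^ i := by
  have h1 := (h.class2 hS).zpow_left ⟨u, hu⟩ ⟨v, hv⟩ i
  rw [commutatorElement_def, commutatorElement_def] at h1
  exact congrArg Subtype.val h1

/-- elements of `P` in terms of `y` and the centralizer of `x` -/
theorem decomp (hS : IsPGroup p S) (h : GE F p P D) {x y w : Ω} (hx : x ∈ P) (hy : y ∈ P) (hyx : y * x ≠ x * y) (hw : w ∈ P) :
    ∃ i : ℤ, ∃ v ∈ P, v * x = x * v ∧ w = y ^ i * v ∧ w * x * w⁻¹ * x⁻¹ = (y * x * y⁻¹ * x⁻¹) ^ i := by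
  have hz1 : y * x * y⁻¹ * x⁻¹ ≠ 1 := by
    intro h1
    rw [mul_inv_eq_one, mul_inv_eq_iff_eq_mul] at h1
    exact hyx h1
  obtain ⟨i, hi⟩ := h.gen (h.comm y hy x hx) hz1 (h.comm w hw x hx)
  have hi' : (y * x * y⁻¹ * x⁻¹) ^ i = w * x * w⁻¹ * x⁻¹ := hi
  refine ⟨i, (y ^ i)⁻¹ * w, P.mul_mem (P.inv_mem (P.zpow_mem hy i)) hw, ?_, by group, hi'.symm⟩
  rw [← h.zpow_comm hS hy hx i] at hi'
  have h1 : y ^ i * x * (y ^ i)⁻¹ = w * x * w⁻¹ := mul_right_cancel hi'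
  have e : (y ^ i)⁻¹ * w * x = (y ^ i)⁻¹ * (w * x * w⁻¹) * w := by group
  rw [e, ← h1]; group

/-- for odd `p` the group has exponent `p` -/
theorem exponent (hS : IsPGroup p S) (hF : F.IsSaturated p) (hp2 : p ≠ 2) (h : GE F p P D) {A : Subgroup Ω} {a : Ω} (hf : Mor F A f)
    (haA : a ∈ A) (haD : a ∈ D) (hfa : f a ∉ D) : ∀ u ∈ P, u ^ p = 1 := by
  have hp : p.Prime := Fact.out
  have hPS := h.sc.1
  have hDS := h.le.trans hPS
  obtain ⟨g, hg, hga, -, hexp, hab⟩ := h.cent hS hF hf haA haD hfa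
  have hxP : f a ∈ P := StronglyClosed_mem h.sc hf haA (h.le haD)
  generalize f a = x at hg hga hexp hab hxP hfa
  clear hf haA
  by_contra hcon
  push Not at hcon
  obtain ⟨y, hyP, hyp⟩ := hcon
  have hyS := hPS hyP
  have hyx : y * x ≠ x * y := fun hh => hyp (hexp y hyP hh)
  obtain ⟨z, hz⟩ : ∃ z, z = y * x * y⁻¹ * x⁻¹ := ⟨_, rfl⟩
  have hzD : z ∈ D := by rw [hz]; exact h.comm y hyP x hxP
  have hz1 : z ≠ 1 := by
    intro h1
    rw [h1] at hz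
    have h2 := hz.symm
    rw [mul_inv_eq_one, mul_inv_eq_iff_eq_mul] at h2
    exact hyx h2
  have hx1 : x ≠ 1 := fun h1 => hfa (h1 ▸ D.one_mem)
  have hxp : x ^ p = 1 := hexp x hxP rfl
  -- the subgroup `V`
  obtain ⟨V, hVd⟩ : ∃ V : Subgroup Ω, V = P ⊓ Subgroup.centralizer {x} := ⟨_, rfl⟩
  have hVmem : ∀ v, v ∈ V ↔ v ∈ P ∧ v * x = x * v := by
    intro v; rw [hVd, Subgroup.mem_inf, Subgroup.mem_centralizer_singleton_iff]
  have hVP : V ≤ P := fun v hv => ((hVmem v).1 hv).1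
  have hVS := hVP.trans hPS
  have hVp : ∀ v ∈ V, v ^ p = 1 := fun v hv => hexp v ((hVmem v).1 hv).1 ((hVmem v).1 hv).2
  have hVab : ∀ v ∈ V, ∀ w ∈ V, v * w = w * v := fun v hv w hw =>
    hab v ((hVmem v).1 hv).1 w ((hVmem w).1 hw).1 ((hVmem v).1 hv).2 ((hVmem w).1 hw).2
  have hV : ∀ w ∈ P, w ^ p = 1 → w ∈ V := by
    intro w hw hwp
    obtain ⟨i, v, hv, hvx, hwv, hwz⟩ := h.decomp hS hxP hyP hyx hw
    have h1 : (y ^ p) ^ i = 1 := by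
      have h2 := h.mul_pow hS hp2 (P.zpow_mem hyP i) hv
      rw [← hwv, hwp, hexp v hv hvx, mul_one] at h2
      rw [← zpow_natCast, ← zpow_mul, mul_comm, zpow_mul, zpow_natCast]
      exact h2.symm
    have h2 : orderOf (y ^ p) = p := orderOf_eq_prime (h.powD (h.pow y hyP)) hyp
    have h3 : (p : ℤ) ∣ i := by
      rw [← h2]; exact orderOf_dvd_iff_zpow_eq_one.2 h1
    obtain ⟨m, rfl⟩ := h3
    rw [← hz, zpow_mul, zpow_natCast, h.powD hzD, one_zpow, mul_inv_eq_one, mul_inv_eq_iff_eq_mul] at hwz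
    exact (hVmem w).2 ⟨hw, hwz⟩
  have hxV : x ∈ V := (hVmem x).2 ⟨hxP, rfl⟩
  have hDV : D ≤ V := fun d hd => hV d (h.le hd) (h.powD hd)
  have hVn : ∀ s ∈ S, ∀ v ∈ V, s * v * s⁻¹ ∈ V := fun s hs v hv => hV _ (StronglyClosed_conj h.sc hs (hVP hv)) (by
    rw [conj_pow, hVp v hv]; group)
  have hfV : Finite V := finite_of_le hVS
  have hVC : V ≤ centralizerIn S (Subgroup.zpowers x) := by
    intro v hv
    refine mem_centralizerIn.2 ⟨hVS hv, fun w hw => ?_⟩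
    obtain ⟨i, rfl⟩ := hw
    have : Commute v x := ((hVmem v).1 hv).2
    exact (this.zpow_right i).symm.eq
  have hgV := hg.restrict hVC
  have hgi : Iso F V V g := hgV.iso_of_map fun v hv => hV _ (StronglyClosed_mem h.sc hgV hv (hVP hv)) (by
    rw [← hgV.pow hv, hVp v hv, hgV.one])
  have hti : Iso F V V (fun v => y * v * y⁻¹) := (mor_conj F hVS hyS).iso_of_map fun v hv => hVn y hyS v hv
  have hgzD : g z ∉ D := by
    intro hgz
    obtain ⟨d, hd, hda⟩ := h.onto hgV hDV hzD hz1 hgz haD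
    exact hfa ((hgV.inj (hDV hd) hxV (hda.trans hga.symm)) ▸ hd)
  have hygz : y * g z ≠ g z * y := by
    intro hcom
    obtain ⟨-, -, -, ⟨y', hy', hne⟩, -, -⟩ := h.cent hS hF hgV (hDV hzD) hzD hgzD
    apply hne
    obtain ⟨i, v, hv, hvx, hwv, -⟩ := h.decomp hS hxP hyP hyx hy'
    have h1 : Commute y (g z) := hcom
    have h2 : Commute v (g z) := hVab v ((hVmem v).2 ⟨hv, hvx⟩) (g z) (hgi.map_mem (hDV hzD))
    rw [hwv]
    exact ((h1.zpow_left i).mul_left h2).eq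
  have ha1 : a ≠ 1 := by
    rintro rfl
    rw [← hgV.one] at hga
    exact hx1 (hgV.inj hxV V.one_mem hga)
  have hord : orderOf (⟨x, hxV⟩ : V) = p := orderOf_eq_prime (Subtype.ext hxp) fun hh => hx1 (congrArg Subtype.val hh)
  obtain ⟨t, ht⟩ : ∃ t, t = autOf hti := ⟨_, rfl⟩
  obtain ⟨γ, hγ⟩ : ∃ γ, γ = autOf hgi := ⟨_, rfl⟩
  have htv : ∀ v : V, ((t v : V) : Ω) = y * v * y⁻¹ := fun v => by rw [ht, autOf_apply]
  have hγv : ∀ v : V, ((γ v : V) : Ω) = g v := fun v => by rw [hγ, autOf_apply]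
  have hVab' : ∀ a b : V, a * b = b * a := fun a b => Subtype.ext (hVab a a.2 b b.2)
  have htD : ∀ d (hd : d ∈ D), t ⟨d, hDV hd⟩ = ⟨d, hDV hd⟩ := fun d hd => Subtype.ext (by
    rw [htv]; show y * d * y⁻¹ = d
    rw [h.cen hS y hyS d hd, mul_inv_cancel_right])
  have htx : t ⟨x, hxV⟩ = ⟨z, hDV hzD⟩ * ⟨x, hxV⟩ := Subtype.ext (by
    rw [htv]; show y * x * y⁻¹ = z * x
    rw [hz]; group)
  have htD' : ∀ v : V, ((v⁻¹ * t v : V) : Ω) ∈ D := fun v => by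
    have h1 := h.comm (v : Ω)⁻¹ (P.inv_mem (hVP v.2)) y hyP
    have e : ((v⁻¹ * t v : V) : Ω) = (v : Ω)⁻¹ * y * (v : Ω)⁻¹⁻¹ * y⁻¹ := by
      rw [Subgroup.coe_mul, Subgroup.coe_inv, htv]; group
    rw [e]; exact h1
  obtain ⟨τ, hτ, hτx, hτz, hτc⟩ := exists_neg (A := F.autGroup V) (t := t) (g := γ) (x := ⟨x, hxV⟩) (z := ⟨z, hDV hzD⟩)
    (a := ⟨a, hDV haD⟩) (p := p) hVab' (by rw [ht]; exact autOf_mem hti) (by rw [hγ]; exact autOf_mem hgi) (htD z hzD) htx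
    (Subtype.ext (by rw [hγv]; exact hga)) (htD a haD)
    (fun v => by
      obtain ⟨i, hi⟩ := h.gen haD ha1 (htD' v)
      exact ⟨i, Subtype.ext hi⟩)
    (fun hh => by
      have h1 := congrArg Subtype.val hh
      rw [htv, hγv, mul_inv_eq_iff_eq_mul] at h1
      exact hygz h1)
    hord
  -- `τ` commutes with `t`
  have hcomm : ∀ v : V, τ (t v) = t (τ v) := by
    obtain ⟨K, hK⟩ : ∃ K : Subgroup V, ∀ v, v ∈ K ↔ τ (t v) = t (τ v) :=
      ⟨MonoidHom.eqLocus ((τ * t).toMonoidHom) ((t * τ).toMonoidHom), fun v => Iff.rfl⟩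
    have hKz : (⟨z, hDV hzD⟩ : V) ∈ K := by
      rw [hK, htD z hzD, hτz, map_inv, htD z hzD]
    have hKx : (⟨x, hxV⟩ : V) ∈ K := by
      rw [hK, htx, map_mul, hτz, hτx, map_inv, htx, mul_inv_rev]
      exact hVab' _ _
    have hKc : ∀ c, t c = c → t (γ c) = γ c → c ∈ K := by
      intro c h1 h2
      rw [hK, h1, hτc c h1 h2, h1]
    intro v
    rw [← hK]
    obtain ⟨i, hi⟩ := h.gen hzD hz1 (htD' v)
    have hi' : (⟨z, hDV hzD⟩ : V) ^ i = v⁻¹ * t v := Subtype.ext hi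
    obtain ⟨v₁, hv₁⟩ : ∃ v₁ : V, v₁ = v * (⟨x, hxV⟩ ^ i)⁻¹ := ⟨_, rfl⟩
    have h1 : t v₁ = v₁ := by
      have h2 : t v = v * (⟨z, hDV hzD⟩ : V) ^ i := by rw [hi']; group
      have h3 : Commute (⟨z, hDV hzD⟩ : V) ⟨x, hxV⟩ := hVab' _ _
      rw [hv₁, map_mul, map_inv, map_zpow, htx, h2, h3.mul_zpow, mul_inv_rev, mul_assoc, hVab' ((⟨x, hxV⟩ : V) ^ i)⁻¹,
        ← mul_assoc (_ ^ i), mul_inv_cancel, one_mul]
    obtain ⟨e, he⟩ : ∃ e : V, e = (γ ⟨z, hDV hzD⟩)⁻¹ * t (γ ⟨z, hDV hzD⟩) := ⟨_, rfl⟩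
    have heD : (e : Ω) ∈ D := by rw [he]; exact htD' _
    have he1 : (e : Ω) ≠ 1 := by
      intro hh
      have h2 : e = 1 := Subtype.ext hh
      rw [h2] at he
      have h3 := (inv_mul_eq_one.1 he.symm).symm
      have h4 := congrArg Subtype.val h3
      rw [htv, hγv, mul_inv_eq_iff_eq_mul] at h4
      exact hygz h4
    obtain ⟨j, hj⟩ := h.gen heD he1 (htD' (γ v₁))
    have hj' : e ^ j = (γ v₁)⁻¹ * t (γ v₁) := Subtype.ext hj
    obtain ⟨v₂, hv₂⟩ : ∃ v₂ : V, v₂ = v₁ * (⟨z, hDV hzD⟩ ^ j)⁻¹ := ⟨_, rfl⟩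
    have h2 : t v₂ = v₂ := by rw [hv₂, map_mul, map_inv, map_zpow, h1, htD z hzD]
    have h3 : t (γ v₂) = γ v₂ := by
      have h4 : t (γ v₁) = γ v₁ * e ^ j := by rw [hj']; group
      have h5 : t (γ ⟨z, hDV hzD⟩) = γ ⟨z, hDV hzD⟩ * e := by rw [he]; group
      have h6 : Commute (γ ⟨z, hDV hzD⟩) e := hVab' _ _
      rw [hv₂, map_mul, map_inv, map_zpow, map_mul, map_inv, map_zpow, h4, h5, h6.mul_zpow, mul_inv_rev, mul_assoc,
        ← mul_assoc (e ^ j), mul_inv_cancel, one_mul]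
    have h4 : v = v₂ * (⟨z, hDV hzD⟩ : V) ^ j * (⟨x, hxV⟩ : V) ^ i := by rw [hv₂, hv₁]; group
    rw [h4]
    exact K.mul_mem (K.mul_mem (hKc v₂ h2 h3) (K.zpow_mem hKz j)) (K.zpow_mem hKx i)
  -- extension of `τ`
  have hVN : S ≤ Subgroup.normalizer (V : Set Ω) := fun s hs => mem_normalizer_of_conj_mem (hVn s hs)
  have hFN : F.IsFullyNormalized V := FN_of_norm hVS hVN
  have hi : Iso F V V (fn τ) := iso_fn hVS hτ
  obtain ⟨k, hk, hkτ⟩ := (receptive_iff.1 (FC_receptive hS hF (FN_FC hS hF hFN))).2 _ _ hi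
  have hyN : y ∈ Nx S V (fn τ) := by
    refine mem_Nx.2 ⟨hyS, hVN hyS, y, hyS, fun v hv => ?_⟩
    have h1 := congrArg Subtype.val (hcomm ⟨v, hv⟩)
    rw [htv] at h1
    have h2 : y * v * y⁻¹ ∈ V := hVn y hyS v hv
    have h3 : (⟨y * v * y⁻¹, h2⟩ : V) = t ⟨v, hv⟩ := Subtype.ext (htv ⟨v, hv⟩).symm
    rw [fn_mem _ h2, fn_mem _ hv, h3]
    exact h1
  have hVk : V ≤ Nx S V (fn τ) := hi.mor.le_Nx
  have hy'P : k y ∈ P := StronglyClosed_mem h.sc hk hyN hyP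
  have hkx : k x⁻¹ = x := by
    rw [hkτ _ (V.inv_mem hxV), fn_mem _ (V.inv_mem hxV)]
    have h1 : τ ⟨x⁻¹, V.inv_mem hxV⟩ = ⟨x, hxV⟩ := by
      have h2 : (⟨x⁻¹, V.inv_mem hxV⟩ : V) = (⟨x, hxV⟩ : V)⁻¹ := rfl
      rw [h2, map_inv, hτx, inv_inv]
    rw [h1]
  have h1 : k (y * x⁻¹ * y⁻¹) = k y * x * (k y)⁻¹ := by
    rw [hk.conj hyN (hVk (V.inv_mem hxV)), hkx]
  have h2 : k (y * x⁻¹ * y⁻¹) = y * x * y⁻¹ := by
    have h3 : y * x⁻¹ * y⁻¹ ∈ V := hVn y hyS _ (V.inv_mem hxV)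
    rw [hkτ _ h3, fn_mem _ h3]
    have h4 : (⟨y * x⁻¹ * y⁻¹, h3⟩ : V) = t ⟨x⁻¹, V.inv_mem hxV⟩ := Subtype.ext (htv ⟨x⁻¹, V.inv_mem hxV⟩).symm
    rw [h4, hcomm, htv]
    have h5 : τ ⟨x⁻¹, V.inv_mem hxV⟩ = ⟨x, hxV⟩ := by
      have h2 : (⟨x⁻¹, V.inv_mem hxV⟩ : V) = (⟨x, hxV⟩ : V)⁻¹ := rfl
      rw [h2, map_inv, hτx, inv_inv]
    rw [h5]
  obtain ⟨v₀, hv₀⟩ : ∃ v₀, v₀ = y⁻¹ * k y := ⟨_, rfl⟩
  have hv₀P : v₀ ∈ P := by rw [hv₀]; exact P.mul_mem (P.inv_mem hyP) hy'P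
  have hv₀x : v₀ * x = x * v₀ := by
    have h3 : k y * x * (k y)⁻¹ = y * x * y⁻¹ := by rw [← h1, h2]
    rw [hv₀]
    have e : y⁻¹ * k y * x = y⁻¹ * (k y * x * (k y)⁻¹) * k y := by group
    rw [e, h3]; group
  have h3 : (k y) ^ p = y ^ p := by
    have h4 : k y = y * v₀ := by rw [hv₀]; group
    rw [h4, h.mul_pow hS hp2 hyP hv₀P, hexp v₀ hv₀P hv₀x, mul_one]
  have hypD := h.pow y hyP
  have h4 : k (y ^ p) = (y ^ p)⁻¹ := by
    rw [hkτ _ (hDV hypD), fn_mem _ (hDV hypD)]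
    obtain ⟨m, hm⟩ := h.gen hzD hz1 hypD
    have h5 : (⟨y ^ p, hDV hypD⟩ : V) = (⟨z, hDV hzD⟩ : V) ^ m := Subtype.ext hm.symm
    rw [h5, map_zpow, hτz]
    have h6 : ((⟨z, hDV hzD⟩ : V)⁻¹ ^ m : V) = ((⟨z, hDV hzD⟩ : V) ^ m)⁻¹ := inv_zpow _ _
    rw [h6, ← h5]; rfl
  rw [hk.pow hyN, h3] at h4
  apply hyp
  have h5 : (y ^ p) ^ 2 = 1 := by rw [sq]; nth_rw 1 [h4]; exact inv_mul_cancel _
  have h6 : (2 : ℕ).Coprime p := (Nat.coprime_primes Nat.prime_two hp).2 (Ne.symm hp2)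
  have h7 : orderOf (y ^ p) ∣ Nat.gcd 2 p := Nat.dvd_gcd (orderOf_dvd_of_pow_eq_one h5) (orderOf_dvd_of_pow_eq_one (h.powD hypD))
  rw [h6, Nat.dvd_one, orderOf_eq_one_iff] at h7
  exact h7

end GE

end Cfsg.Agent.Lib.OmgD
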