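import Mathlib
import Cfsg.Prelude
import Cfsg.Agent.Lib.Basic
import Cfsg.Agent.Lib.Cyc
import Cfsg.Agent.Lib.Cores
import Cfsg.Agent.Lib.SchurZas

/-!
Supersolvable groups.
-/

set_option autoImplicit false

namespace Cfsg.Agent.Lib.SuperA

open Subgroup Cfsg Cfsg.Agent.Lib.Basic
open scoped commutatorElement Pointwise

universe u v

variable {G : Type*} [Group G]

theorem of_subsingleton [Subsingleton G] : IsSupersolvable G :=
  ⟨0, fun _ => ⊥, rfl, Subsingleton.elim _ _, fun _ => inferInstance, fun i => i.elim0⟩

/-- pulling back along a surjective homomorphism with cyclic kernel -/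
theorem of_surjective {K : Type*} [Group K] (f : G →* K) (hf : Function.Surjective f)
    (hker : IsCyclic f.ker) (h : IsSupersolvable K) : IsSupersolvable G := by
  obtain ⟨n, H, h0, h1, hn, hs⟩ := h
  obtain ⟨g, hg⟩ := hker.exists_generator
  refine ⟨n + 1, Fin.cons ⊥ (fun i => (H i).comap f), by simp, ?_, ?_, ?_⟩
  · rw [← Fin.succ_last, Fin.cons_succ, h1, comap_top]
  · intro i
    refine Fin.cases ?_ (fun j => ?_) i
    · simpa using (inferInstance : (⊥ : Subgroup G).Normal)
    · rw [Fin.cons_succ]; exact (hn j).comap f
  · intro i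
    refine Fin.cases ?_ (fun j => ?_) i
    · refine ⟨g, ?_⟩
      rw [Fin.cons_succ, Fin.castSucc_zero, Fin.cons_zero, h0, bot_sup_eq]
      ext x
      rw [mem_comap, mem_bot, ← MonoidHom.mem_ker]
      constructor
      · intro hx
        obtain ⟨k, hk⟩ := mem_zpowers_iff.mp (hg ⟨x, hx⟩)
        exact mem_zpowers_iff.mpr ⟨k, by simpa using congrArg Subtype.val hk⟩
      · intro hx
        exact (zpowers_le.mpr g.2) hx
    · obtain ⟨k, hk⟩ := hs j
      obtain ⟨g', rfl⟩ := hf k
      refine ⟨g', ?_⟩
      rw [Fin.cons_succ, ← Fin.succ_castSucc, Fin.cons_succ, hk]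
      have hle : f.ker ≤ (H j.castSucc).comap f := by
        intro x hx
        rw [mem_comap, MonoidHom.mem_ker.mp hx]; exact one_mem _
      apply le_antisymm
      · intro x hx
        have := hn j.castSucc
        rw [mem_comap, mem_sup_of_normal_left] at hx
        obtain ⟨y, hy, z, hz, hyz⟩ := hx
        obtain ⟨m, rfl⟩ := mem_zpowers_iff.mp hz
        have h2 : x * (g' ^ m)⁻¹ ∈ (H j.castSucc).comap f := by
          rw [mem_comap, map_mul, ← hyz, map_inv, map_zpow, mul_inv_cancel_right]; exact hy
        have h3 : x = x * (g' ^ m)⁻¹ * g' ^ m := by group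
        rw [h3]
        exact mul_mem (mem_sup_left h2) (mem_sup_right (zpow_mem (mem_zpowers _) m))
      · apply sup_le
        · exact comap_mono le_sup_left
        · rw [zpowers_le, mem_comap]; exact mem_sup_right (mem_zpowers _)

theorem of_cyclic_normal {N : Subgroup G} [N.Normal] (hN : IsCyclic N)
    (h : IsSupersolvable (G ⧸ N)) : IsSupersolvable G := by
  refine of_surjective (QuotientGroup.mk' N) (QuotientGroup.mk'_surjective N) ?_ h
  rw [QuotientGroup.ker_mk']; exact hN

/-- images -/
theorem map {K : Type*} [Group K] (f : G →* K) (hf : Function.Surjective f)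
    (h : IsSupersolvable G) : IsSupersolvable K := by
  obtain ⟨n, H, h0, h1, hn, hs⟩ := h
  refine ⟨n, fun i => (H i).map f, by simp [h0], ?_, fun i => (hn i).map f hf, fun i => ?_⟩
  · simp only [h1]; exact Subgroup.map_top_of_surjective f hf
  · obtain ⟨g, hg⟩ := hs i
    refine ⟨f g, ?_⟩
    simp only [hg, Subgroup.map_sup, MonoidHom.map_zpowers]

theorem of_equiv {K : Type*} [Group K] (e : G ≃* K) (h : IsSupersolvable G) : IsSupersolvable K :=
  map e.toMonoidHom e.surjective h

theorem quotient (h : IsSupersolvable G) (N : Subgroup G) [N.Normal] : IsSupersolvable (G ⧸ N) :=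
  map (QuotientGroup.mk' N) (QuotientGroup.mk'_surjective N) h

theorem exists_cyclic_normal [Nontrivial G] (h : IsSupersolvable G) :
    ∃ N : Subgroup G, N.Normal ∧ N ≠ ⊥ ∧ IsCyclic N := by
  obtain ⟨n, H, h0, h1, hn, hs⟩ := h
  by_contra hcon
  push Not at hcon
  have key : ∀ i : Fin (n + 1), H i = ⊥ := by
    intro i
    induction i using Fin.induction with
    | zero => exact h0
    | succ i ih =>
      obtain ⟨g, hg⟩ := hs i
      by_contra hne
      apply hcon _ (hn i.succ) hne
      rw [hg, ih, bot_sup_eq]
      infer_instance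
  have := key (Fin.last n)
  rw [h1] at this
  exact top_ne_bot this

theorem exists_prime_normal [Finite G] [Nontrivial G] (h : IsSupersolvable G) :
    ∃ N : Subgroup G, N.Normal ∧ (Nat.card N).Prime := by
  obtain ⟨N, hN, hN0, hNc⟩ := exists_cyclic_normal h
  have h1 : Nat.card N ≠ 1 := fun h => hN0 (card_eq_one.mp h)
  obtain ⟨p, hp, hpd⟩ := Nat.exists_prime_and_dvd h1
  obtain ⟨M, hM⟩ := Cyc.exists_subgroup_card (C := N) hpd
  refine ⟨M.map N.subtype, Cyc.normal_of_le_isCyclic hNc (map_subtype_le M), ?_⟩
  rw [Nat.card_congr (equivMapOfInjective M _ (subtype_injective _)).symm.toEquiv, hM]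
  exact hp

theorem of_injective (n : ℕ) : ∀ (G : Type u) [Group G] [Finite G] (K : Type v) [Group K],
    Nat.card G ≤ n → ∀ f : K →* G, Function.Injective f → IsSupersolvable G → IsSupersolvable K := by
  induction n with
  | zero => intro G _ _ K _ h; have := Nat.card_pos (α := G); omega
  | succ n ih =>
    intro G _ _ K _ hn f hf hG
    by_cases hnt : Nontrivial G
    · obtain ⟨N, hN, hN0, hNc⟩ := exists_cyclic_normal hG
      have hlt := card_quotient_lt hN0
      have h1 : IsSupersolvable (K ⧸ N.comap f) := by
        refine ih (G ⧸ N) (K ⧸ N.comap f) (by omega)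
          (QuotientGroup.map (N.comap f) N f le_rfl) ?_ (quotient hG N)
        intro x y hxy
        obtain ⟨x, rfl⟩ := QuotientGroup.mk'_surjective _ x
        obtain ⟨y, rfl⟩ := QuotientGroup.mk'_surjective _ y
        have h2 : (f x : G ⧸ N) = (f y : G ⧸ N) := hxy
        rw [QuotientGroup.eq] at h2
        apply QuotientGroup.eq.mpr
        rw [mem_comap, map_mul, map_inv]; exact h2
      have h2 : IsCyclic (N.comap f) := by
        let φ : N.comap f →* N := (f.comp (N.comap f).subtype).codRestrict N (fun x => x.2)
        refine isCyclic_of_injective φ ?_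
        intro x y hxy
        exact Subtype.ext (hf (congrArg Subtype.val hxy))
      exact of_cyclic_normal h2 h1
    · rw [not_nontrivial_iff_subsingleton] at hnt
      have : Subsingleton K := ⟨fun x y => hf (Subsingleton.elim _ _)⟩
      exact of_subsingleton

theorem subgroup [Finite G] (hG : IsSupersolvable G) (H : Subgroup G) : IsSupersolvable H :=
  of_injective (Nat.card G) G H le_rfl H.subtype (subtype_injective H) hG

theorem prod (n : ℕ) : ∀ (G : Type u) [Group G] [Finite G] (H : Type v) [Group H],
    Nat.card G ≤ n → IsSupersolvable G → IsSupersolvable H → IsSupersolvable (G × H) := by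
  induction n with
  | zero => intro G _ _ K _ h; have := Nat.card_pos (α := G); omega
  | succ n ih =>
    intro G _ _ K _ hn hG hK
    by_cases hnt : Nontrivial G
    · obtain ⟨N, hN, hN0, hNc⟩ := exists_cyclic_normal hG
      have hlt := card_quotient_lt hN0
      have h1 := ih (G ⧸ N) K (by omega) (quotient hG N) hK
      refine of_surjective ((QuotientGroup.mk' N).prodMap (MonoidHom.id K)) ?_ ?_ h1
      · rintro ⟨x, y⟩
        obtain ⟨x, rfl⟩ := QuotientGroup.mk'_surjective _ x
        exact ⟨(x, y), rfl⟩
      · have hmem : ∀ x : ((QuotientGroup.mk' N).prodMap (MonoidHom.id K)).ker,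
            (x : G × K).1 ∈ N ∧ (x : G × K).2 = 1 := by
          rintro ⟨⟨x, y⟩, hx⟩
          rw [MonoidHom.mem_ker] at hx
          have h2 := Prod.ext_iff.mp hx
          exact ⟨(QuotientGroup.eq_one_iff x).mp h2.1, h2.2⟩
        let φ : ((QuotientGroup.mk' N).prodMap (MonoidHom.id K)).ker →* N :=
          ((MonoidHom.fst G K).comp (Subgroup.subtype _)).codRestrict N (fun x => (hmem x).1)
        refine isCyclic_of_injective φ ?_
        intro x y hxy
        apply Subtype.ext
        apply Prod.ext
        · exact congrArg Subtype.val hxy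
        · rw [(hmem x).2, (hmem y).2]
    · rw [not_nontrivial_iff_subsingleton] at hnt
      exact of_equiv (G := K) (K := G × K)
        { toFun := fun k => (1, k)
          invFun := fun x => x.2
          left_inv := fun k => rfl
          right_inv := fun x => Prod.ext (Subsingleton.elim _ _) rfl
          map_mul' := fun a b => by simp } hK

/-- induction principle -/
theorem isSolvable (n : ℕ) : ∀ (G : Type u) [Group G] [Finite G], Nat.card G ≤ n →
    IsSupersolvable G → Group.IsSolvable G := by
  induction n with
  | zero => intro G _ _ h; have := Nat.card_pos (α := G); omega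
  | succ n ih =>
    intro G _ _ hn hG
    by_cases hnt : Nontrivial G
    · obtain ⟨N, hN, hN0, hNc⟩ := exists_cyclic_normal hG
      have hlt := card_quotient_lt hN0
      have h1 := ih (G ⧸ N) (by omega) (quotient hG N)
      have h2 : Group.IsSolvable N := by
        have := Cyc.isMulCommutative_of_isCyclic hNc
        exact isSolvable_of_comm fun a b => this.is_comm.comm a b
      exact solvable_of_ker_le_range N.subtype (QuotientGroup.mk' N) (by
        rw [QuotientGroup.ker_mk', range_subtype])
    · rw [not_nontrivial_iff_subsingleton] at hnt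
      infer_instance

/-- a nontrivial normal subgroup contains a normal subgroup of prime order -/
theorem exists_prime_normal_le (n : ℕ) : ∀ (G : Type u) [Group G] [Finite G], Nat.card G ≤ n →
    IsSupersolvable G → ∀ M : Subgroup G, M.Normal → M ≠ ⊥ →
    ∃ N : Subgroup G, N.Normal ∧ N ≤ M ∧ (Nat.card N).Prime := by
  induction n with
  | zero => intro G _ _ h; have := Nat.card_pos (α := G); omega
  | succ n ih =>
    intro G _ _ hn hG M hM hM0
    have hnt : Nontrivial G := by
      by_contra h
      rw [not_nontrivial_iff_subsingleton] at h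
      exact hM0 (Subsingleton.elim _ _)
    obtain ⟨L, hL, hLp⟩ := exists_prime_normal hG
    have hL0 : L ≠ ⊥ := by
      rintro rfl
      rw [card_bot] at hLp
      exact Nat.not_prime_one hLp
    by_cases hLM : L ≤ M
    · exact ⟨L, hL, hLM, hLp⟩
    have hinf : L ⊓ M = ⊥ := by
      have h1 : Nat.card (L ⊓ M : Subgroup G) ∣ Nat.card L := card_dvd_of_le inf_le_left
      rcases (Nat.dvd_prime hLp).mp h1 with h | h
      · exact card_eq_one.mp h
      · exact absurd (inf_eq_left.mp (eq_of_le_of_card_ge inf_le_left h.ge)) hLM
    have hlt := card_quotient_lt hL0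
    have hMn : (M.map (QuotientGroup.mk' L)).Normal := hM.map _ (QuotientGroup.mk'_surjective L)
    have hM1 : M.map (QuotientGroup.mk' L) ≠ ⊥ := by
      intro h0
      rw [Subgroup.map_eq_bot_iff, QuotientGroup.ker_mk'] at h0
      apply hM0
      rw [← inf_eq_right.mpr h0]
      exact hinf
    obtain ⟨X, hX, hXM, hXp⟩ := ih (G ⧸ L) (by omega) (quotient hG L) _ hMn hM1
    have hY : (X.comap (QuotientGroup.mk' L) ⊓ M).Normal := by
      have := hX.comap (QuotientGroup.mk' L)
      infer_instance
    refine ⟨X.comap (QuotientGroup.mk' L) ⊓ M, hY, inf_le_right, ?_⟩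
    have hmap : (X.comap (QuotientGroup.mk' L) ⊓ M).map (QuotientGroup.mk' L) = X := by
      apply le_antisymm
      · rw [map_le_iff_le_comap]; exact inf_le_left
      · intro x hx
        obtain ⟨m, hm, rfl⟩ := hXM hx
        exact ⟨m, ⟨hx, hm⟩, rfl⟩
    have hcard : Nat.card (X.comap (QuotientGroup.mk' L) ⊓ M : Subgroup G) = Nat.card X := by
      have hinj : Function.Injective ((QuotientGroup.mk' L).subgroupMap (X.comap (QuotientGroup.mk' L) ⊓ M)) := by
        rw [injective_iff_map_eq_one]
        rintro ⟨x, hx⟩ h1
        have h2 : (x : G ⧸ L) = 1 := congrArg Subtype.val h1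
        rw [QuotientGroup.eq_one_iff] at h2
        have h3 : x ∈ L ⊓ M := ⟨h2, hx.2⟩
        rw [hinf] at h3
        exact Subtype.ext (mem_bot.mp h3)
      rw [Nat.card_congr (Equiv.ofBijective _ ⟨hinj, MonoidHom.subgroupMap_surjective _ _⟩), hmap]
    rw [hcard]; exact hXp

/-- maximal subgroups have prime index -/
theorem index_prime (n : ℕ) : ∀ (G : Type u) [Group G] [Finite G], Nat.card G ≤ n →
    IsSupersolvable G → ∀ M : Subgroup G, IsCoatom M → M.index.Prime := by
  induction n with
  | zero => intro G _ _ h; have := Nat.card_pos (α := G); omega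
  | succ n ih =>
    intro G _ _ hn hG M hM
    have hnt : Nontrivial G := by
      by_contra h
      rw [not_nontrivial_iff_subsingleton] at h
      exact hM.1 (Subsingleton.elim _ _)
    obtain ⟨L, hL, hLp⟩ := exists_prime_normal hG
    have hL0 : L ≠ ⊥ := by
      rintro rfl
      rw [card_bot] at hLp
      exact Nat.not_prime_one hLp
    have hlt := card_quotient_lt hL0
    by_cases hLM : L ≤ M
    · have e : (M.map (QuotientGroup.mk' L)).comap (QuotientGroup.mk' L) = M := by
        rw [QuotientGroup.comap_map_mk', sup_eq_right.mpr hLM]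
      have hM' : IsCoatom (M.map (QuotientGroup.mk' L)) := by
        constructor
        · intro h
          rw [h, comap_top] at e
          exact hM.1 e.symm
        · intro K hK
          have h1 : M < K.comap (QuotientGroup.mk' L) := by
            rw [← e]
            exact (comap_lt_comap_of_surjective (QuotientGroup.mk'_surjective L)).mpr hK
          have h2 := hM.2 _ h1
          have h3 := congrArg (Subgroup.map (QuotientGroup.mk' L)) h2
          rw [map_comap_eq_self_of_surjective (QuotientGroup.mk'_surjective L),
            map_top_of_surjective _ (QuotientGroup.mk'_surjective L)] at h3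
          exact h3
      have h1 := ih (G ⧸ L) (by omega) (quotient hG L) _ hM'
      rwa [← index_comap_of_surjective _ (QuotientGroup.mk'_surjective L), e] at h1
    · have hsup : L ⊔ M = ⊤ := hM.2 _ (lt_of_le_of_ne le_sup_right (fun h => hLM (by
        rw [h]; exact le_sup_left)))
      have hinf : L ⊓ M = ⊥ := by
        have h1 : Nat.card (L ⊓ M : Subgroup G) ∣ Nat.card L := card_dvd_of_le inf_le_left
        rcases (Nat.dvd_prime hLp).mp h1 with h | h
        · exact card_eq_one.mp h
        · exact absurd (inf_eq_left.mp (eq_of_le_of_card_ge inf_le_left h.ge)) hLM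
      have h1 := card_sup_of_inf_eq_bot (N := L) (H := M) (by
        rw [normalizer_eq_top_iff.mpr hL]; exact le_top) hinf
      rw [hsup, card_top, mul_comm, ← M.card_mul_index] at h1
      rw [Nat.eq_of_mul_eq_mul_left Nat.card_pos h1]
      exact hLp

end Cfsg.Agent.Lib.SuperA
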