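import Mathlib
import Cfsg.Prelude
import Cfsg.Agent.Lib.SuperA
import Cfsg.Agent.Lib.PGrpA
import Cfsg.Agent.Lib.PGrpC
import Cfsg.Agent.Lib.Coprime
import Cfsg.Agent.Lib.CoprimeB
import Cfsg.Agent.Lib.Hall
import Cfsg.Agent.Lib.SolvCrit

/-!
Supersolvable groups, II.
-/

set_option autoImplicit false

namespace Cfsg.Agent.Lib.SuperB

open Subgroup Cfsg Cfsg.Agent.Lib.Basic Cfsg.Agent.Lib.SuperA
open scoped commutatorElement Pointwise

universe u v

variable {G : Type*} [Group G]

theorem commutator_le_centralizer_of_cyclic {N : Subgroup G} [hN : N.Normal] (hNc : IsCyclic N) :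
    _root_.commutator G ≤ centralizer (N : Set G) := by
  obtain ⟨g, hg⟩ := hNc.exists_generator
  have hgen : ∀ y ∈ N, ∃ k : ℤ, (g : G) ^ k = y := by
    intro y hy
    obtain ⟨k, hk⟩ := mem_zpowers_iff.mp (hg ⟨y, hy⟩)
    exact ⟨k, by simpa using congrArg Subtype.val hk⟩
  rw [_root_.commutator_def, commutator_le]
  intro x _ y _
  obtain ⟨a, ha⟩ := hgen _ (hN.conj_mem g g.2 x)
  obtain ⟨b, hb⟩ := hgen _ (hN.conj_mem g g.2 y)
  have h1 : (x * y) * g * (x * y)⁻¹ = (g : G) ^ (a * b) := by
    calc (x * y) * g * (x * y)⁻¹ = x * (y * g * y⁻¹) * x⁻¹ := by group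
      _ = x * (g : G) ^ b * x⁻¹ := by rw [hb]
      _ = (x * g * x⁻¹) ^ b := by rw [conj_zpow]
      _ = _ := by rw [← ha, zpow_mul]
  have h2 : (y * x) * g * (y * x)⁻¹ = (g : G) ^ (a * b) := by
    calc (y * x) * g * (y * x)⁻¹ = y * (x * g * x⁻¹) * y⁻¹ := by group
      _ = y * (g : G) ^ a * y⁻¹ := by rw [ha]
      _ = (y * g * y⁻¹) ^ a := by rw [conj_zpow]
      _ = _ := by rw [← hb, zpow_mul, ← zpow_mul, ← zpow_mul, mul_comm b a]
  have h3 : Commute (g : G) ⁅x, y⁆ := by
    have h4 : ⁅x, y⁆ * g * ⁅x, y⁆⁻¹ = g := by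
      have h5 : ⁅x, y⁆ * g * ⁅x, y⁆⁻¹ = (x * y) * ((y * x)⁻¹ * g * (y * x)) * (x * y)⁻¹ := by
        rw [commutatorElement_def]; group
      have h6 : ∃ z : ℤ, (y * x)⁻¹ * g * (y * x) = (g : G) ^ z := by
        obtain ⟨z, hz⟩ := hgen _ (hN.conj_mem g g.2 (y * x)⁻¹)
        exact ⟨z, by rw [hz]; group⟩
      obtain ⟨z, hz⟩ := h6
      have h7 : (g : G) = (g : G) ^ (a * b * z) := by
        calc (g : G) = (y * x) * ((y * x)⁻¹ * g * (y * x)) * (y * x)⁻¹ := by group
          _ = (y * x) * (g : G) ^ z * (y * x)⁻¹ := by rw [hz]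
          _ = ((y * x) * g * (y * x)⁻¹) ^ z := by rw [conj_zpow]
          _ = _ := by rw [h2, ← zpow_mul]
      rw [h5, hz, ← conj_zpow, h1, ← zpow_mul, ← h7]
    exact (mul_inv_eq_iff_eq_mul.mp h4).symm
  rw [mem_centralizer_iff]
  intro n hn
  obtain ⟨k, rfl⟩ := hgen n hn
  exact (h3.zpow_left k).eq

theorem commutator_nilpotent (n : ℕ) : ∀ (G : Type u) [Group G] [Finite G], Nat.card G ≤ n →
    IsSupersolvable G → Group.IsNilpotent (_root_.commutator G) := by
  induction n with
  | zero => intro G _ _ h; have := Nat.card_pos (α := G); omega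
  | succ n ih =>
    intro G _ _ hn hG
    by_cases hnt : Nontrivial G
    · obtain ⟨N, hN, hN0, hNc⟩ := exists_cyclic_normal hG
      have hlt := card_quotient_lt hN0
      have h1 := ih (G ⧸ N) (by omega) (quotient hG N)
      have hle : ∀ x : _root_.commutator G, QuotientGroup.mk' N (x : G) ∈ _root_.commutator (G ⧸ N) := by
        intro x
        have h2 : (_root_.commutator G).map (QuotientGroup.mk' N) = _root_.commutator (G ⧸ N) := by
          rw [_root_.commutator_def, _root_.commutator_def, Subgroup.map_commutator,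
            Subgroup.map_top_of_surjective _ (QuotientGroup.mk'_surjective N)]
        rw [← h2]
        exact mem_map_of_mem _ x.2
      refine Subgroup.isNilpotent_of_ker_le_center
        (((QuotientGroup.mk' N).comp (_root_.commutator G).subtype).codRestrict
          (_root_.commutator (G ⧸ N)) hle) ?_
      intro x hx
      rw [MonoidHom.mem_ker] at hx
      have h3 : ((x : G) : G ⧸ N) = 1 := congrArg Subtype.val hx
      rw [QuotientGroup.eq_one_iff] at h3
      rw [mem_center_iff]
      intro y
      have h4 := commutator_le_centralizer_of_cyclic hNc y.2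
      exact Subtype.ext (mem_centralizer_iff.mp h4 _ h3).symm
    · rw [not_nontrivial_iff_subsingleton] at hnt
      infer_instance

/-- a `p`-element normalizing a subgroup of prime order `r < p` centralizes it -/
theorem le_centralizer_of_card_prime_lt [Finite G] {p r : ℕ} [hp : Fact p.Prime] (hr : r.Prime)
    (hrp : r < p) {L P : Subgroup G} [hL : L.Normal] (hLr : Nat.card L = r) (hP : IsPGroup p P) :
    P ≤ centralizer (L : Set G) := by
  haveI := Fact.mk hr
  have hLc : IsCyclic L := isCyclic_of_prime_card hLr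
  let φ : P →* MulAut L := MulAut.conjNormal.comp P.subtype
  have h1 : Nat.card φ.range ∣ r - 1 := by
    have h2 := φ.range.card_subgroup_dvd_card
    rw [IsCyclic.card_mulAut, hLr, Nat.totient_prime hr] at h2
    exact h2
  obtain ⟨k, hk⟩ := IsPGroup.iff_card.mp (hP.of_surjective φ.rangeRestrict φ.rangeRestrict_surjective)
  have hk0 : k = 0 := by
    by_contra h
    have h2 : p ∣ r - 1 := (dvd_pow_self p h).trans (hk ▸ h1)
    have h3 := Nat.le_of_dvd (by have := hr.one_lt; omega) h2
    omega
  rw [hk0, pow_zero, card_eq_one] at hk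
  intro x hx
  rw [mem_centralizer_iff]
  intro l hl
  have h2 : φ ⟨x, hx⟩ = 1 := by
    have : φ ⟨x, hx⟩ ∈ φ.range := ⟨_, rfl⟩
    rw [hk] at this
    exact mem_bot.mp this
  have h3 := congrArg (fun f : MulAut L => ((f ⟨l, hl⟩ : L) : G)) h2
  have h4 : x * l * x⁻¹ = l := h3
  exact (mul_inv_eq_iff_eq_mul.mp h4).symm

/-- a Sylow subgroup that is normal in a normal subgroup is normal -/
theorem sylow_normal_of_normal_in [Finite G] {p : ℕ} [Fact p.Prime] (P : Sylow p G) {X : Subgroup G}
    [hX : X.Normal] (hPX : (P : Subgroup G) ≤ X) (hn : ((P : Subgroup G).subgroupOf X).Normal) :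
    (P : Subgroup G).Normal := by
  have h1 : ((P.subtype hPX : Sylow p X) : Subgroup X).Normal := hn
  have h2 := Sylow.characteristic_of_normal _ h1
  have h3 : (((P.subtype hPX : Sylow p X) : Subgroup X).map X.subtype).Normal := inferInstance
  have h4 : ((P.subtype hPX : Sylow p X) : Subgroup X).map X.subtype = (P : Subgroup G) := by
    rw [Sylow.coe_subtype, subgroupOf_map_subtype, inf_eq_left.mpr hPX]
  rwa [h4] at h3

theorem normal_of_map_normal [Finite G] {p : ℕ} [Fact p.Prime] (P : Sylow p G) {L : Subgroup G}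
    [hL : L.Normal] (hLP : L ≤ P) (h : ((P : Subgroup G).map (QuotientGroup.mk' L)).Normal) :
    (P : Subgroup G).Normal := by
  have h1 := h.comap (QuotientGroup.mk' L)
  rwa [QuotientGroup.comap_map_mk', sup_eq_right.mpr hLP] at h1

/-- the Sylow subgroup for the largest prime is normal -/
theorem sylow_normal_of_max (n : ℕ) : ∀ (G : Type u) [Group G] [Finite G], Nat.card G ≤ n →
    IsSupersolvable G → ∀ (p : ℕ) [Fact p.Prime], (∀ q : ℕ, q.Prime → q ∣ Nat.card G → q ≤ p) →
    ∀ P : Sylow p G, (P : Subgroup G).Normal := by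
  induction n with
  | zero => intro G _ _ h; have := Nat.card_pos (α := G); omega
  | succ n ih =>
    intro G _ _ hn hG p hp hmax P
    by_cases hnt : Nontrivial G
    · obtain ⟨L, hL, hLp⟩ := exists_prime_normal hG
      have hL0 : L ≠ ⊥ := by
        rintro rfl
        rw [card_bot] at hLp
        exact Nat.not_prime_one hLp
      have hlt := card_quotient_lt hL0
      have hdv : Nat.card (G ⧸ L) ∣ Nat.card G := card_quotient_dvd_card L
      have hP' := ih (G ⧸ L) (by omega) (quotient hG L) p (fun q hq hqd => hmax q hq (hqd.trans hdv))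
        (P.mapSurjective (QuotientGroup.mk'_surjective L))
      rw [Sylow.coe_mapSurjective] at hP'
      by_cases hr : Nat.card L = p
      · refine normal_of_map_normal P ?_ hP'
        have h1 : IsPGroup p L := IsPGroup.of_card (n := 1) (by rw [hr, pow_one])
        exact (Cores.le_pCore hL h1).trans (Cores.pCore_le_sylow P)
      · have hlt' : Nat.card L < p := lt_of_le_of_ne (hmax _ hLp L.card_subgroup_dvd_card) hr
        have hcen := le_centralizer_of_card_prime_lt hLp hlt' (L := L) rfl P.isPGroup'
        have hX := hP'.comap (QuotientGroup.mk' L)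
        rw [QuotientGroup.comap_map_mk'] at hX
        refine sylow_normal_of_normal_in P (X := L ⊔ P) le_sup_right ?_
        rw [normal_subgroupOf_iff_le_normalizer le_sup_right]
        refine sup_le ?_ le_normalizer
        refine le_trans ?_ (centralizer_le_normalizer _)
        intro l hl
        rw [mem_centralizer_iff]
        intro x hx
        exact (mem_centralizer_iff.mp (hcen hx) l hl).symm
    · rw [not_nontrivial_iff_subsingleton] at hnt
      rw [Subsingleton.elim (P : Subgroup G) ⊥]
      infer_instance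

theorem exists_max_prime {n : ℕ} (hn : n ≠ 0) (hn1 : n ≠ 1) :
    ∃ p : ℕ, p.Prime ∧ p ∣ n ∧ ∀ q : ℕ, q.Prime → q ∣ n → q ≤ p := by
  have hne : n.primeFactors.Nonempty := by
    obtain ⟨q, hq, hqd⟩ := Nat.exists_prime_and_dvd hn1
    exact ⟨q, Nat.mem_primeFactors.mpr ⟨hq, hqd, hn⟩⟩
  have h1 := Nat.mem_primeFactors.mp (Finset.max'_mem _ hne)
  exact ⟨_, h1.1, h1.2.1, fun q hq hqd => Finset.le_max' _ q (Nat.mem_primeFactors.mpr ⟨hq, hqd, hn⟩)⟩

/-- a normal subgroup of order the largest prime -/
theorem exists_normal_max_prime [Finite G] [Nontrivial G] (hG : IsSupersolvable G) {p : ℕ}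
    (hp : p.Prime) (hpd : p ∣ Nat.card G) (hmax : ∀ q : ℕ, q.Prime → q ∣ Nat.card G → q ≤ p) :
    ∃ N : Subgroup G, N.Normal ∧ Nat.card N = p := by
  haveI := Fact.mk hp
  obtain ⟨P⟩ : Nonempty (Sylow p G) := inferInstance
  have hPn := sylow_normal_of_max (Nat.card G) G le_rfl hG p hmax P
  have hP0 : (P : Subgroup G) ≠ ⊥ := P.ne_bot_of_dvd_card hpd
  obtain ⟨N, hN, hNP, hNp⟩ := exists_prime_normal_le (Nat.card G) G le_rfl hG P hPn hP0
  refine ⟨N, hN, ?_⟩
  obtain ⟨k, hk⟩ := IsPGroup.iff_card.mp (P.isPGroup'.to_le hNP)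
  rw [hk] at hNp ⊢
  have := hNp.eq_one_of_pow
  rw [this, pow_one]

/-- the ordered Sylow tower chain -/
theorem exists_chain (n : ℕ) : ∀ (G : Type u) [Group G] [Finite G], Nat.card G ≤ n →
    IsSupersolvable G → ∃ (n : ℕ) (H : Fin (n + 1) → Subgroup G), H 0 = ⊥ ∧ H (Fin.last n) = ⊤ ∧
      (∀ i, (H i).Normal) ∧
      (∀ i : Fin n, H i.castSucc ≤ H i.succ ∧ ((H i.castSucc).relIndex (H i.succ)).Prime) ∧
      ∀ i j : Fin n, i ≤ j →
        (H j.castSucc).relIndex (H j.succ) ≤ (H i.castSucc).relIndex (H i.succ) := by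
  induction n with
  | zero => intro G _ _ h; have := Nat.card_pos (α := G); omega
  | succ n ih =>
    intro G _ _ hn hG
    by_cases hnt : Nontrivial G
    · have hc1 : Nat.card G ≠ 1 := by
        have := Finite.one_lt_card (α := G); omega
      obtain ⟨p, hp, hpd, hmax⟩ := exists_max_prime Nat.card_pos.ne' hc1
      obtain ⟨N, hN, hNp⟩ := exists_normal_max_prime hG hp hpd hmax
      have hN0 : N ≠ ⊥ := by
        rintro rfl
        rw [card_bot] at hNp
        exact hp.ne_one hNp.symm
      have hlt := card_quotient_lt hN0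
      obtain ⟨m, H, h0, h1, hn', hs, hmono⟩ := ih (G ⧸ N) (by omega) (quotient hG N)
      have hsurj := QuotientGroup.mk'_surjective N
      have hrel : ∀ i j : Fin (m + 1), ((H i).comap (QuotientGroup.mk' N)).relIndex
          ((H j).comap (QuotientGroup.mk' N)) = (H i).relIndex (H j) := by
        intro i j
        rw [relIndex_comap, map_comap_eq_self_of_surjective hsurj]
      have hfirst : (⊥ : Subgroup G).relIndex ((H 0).comap (QuotientGroup.mk' N)) = p := by
        rw [h0, relIndex_bot_left]
        have : (⊥ : Subgroup (G ⧸ N)).comap (QuotientGroup.mk' N) = N := by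
          rw [MonoidHom.comap_bot, QuotientGroup.ker_mk']
        rw [this, hNp]
      have hrelle : ∀ j : Fin m, (H j.castSucc).relIndex (H j.succ) ≤ p := by
        intro j
        have h2 := (hs j).2
        apply hmax _ h2
        exact ((relIndex_dvd_card _ _).trans (card_subgroup_dvd_card _)).trans (card_quotient_dvd_card N)
      refine ⟨m + 1, Fin.cons ⊥ (fun i => (H i).comap (QuotientGroup.mk' N)), by simp, ?_, ?_, ?_, ?_⟩
      · rw [← Fin.succ_last, Fin.cons_succ, h1, comap_top]
      · intro i
        refine Fin.cases ?_ (fun j => ?_) i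
        · simpa using (inferInstance : (⊥ : Subgroup G).Normal)
        · rw [Fin.cons_succ]; exact (hn' j).comap _
      · intro i
        refine Fin.cases ?_ (fun j => ?_) i
        · rw [Fin.cons_succ, Fin.castSucc_zero, Fin.cons_zero, hfirst]
          exact ⟨bot_le, hp⟩
        · rw [Fin.cons_succ, ← Fin.succ_castSucc, Fin.cons_succ, hrel]
          exact ⟨comap_mono (hs j).1, (hs j).2⟩
      · intro i j
        refine Fin.cases ?_ (fun i => ?_) i <;> refine Fin.cases ?_ (fun j => ?_) j
        · intro _; exact le_rfl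
        · intro _
          rw [Fin.cons_succ, ← Fin.succ_castSucc, Fin.cons_succ, hrel, Fin.castSucc_zero,
            Fin.cons_zero, Fin.cons_succ, hfirst]
          exact hrelle j
        · intro h
          exact absurd h (by simp [Fin.le_def])
        · intro h
          rw [Fin.cons_succ, ← Fin.succ_castSucc, Fin.cons_succ, hrel, Fin.cons_succ,
            ← Fin.succ_castSucc, Fin.cons_succ, hrel]
          exact hmono i j (Fin.succ_le_succ_iff.mp h)
    · rw [not_nontrivial_iff_subsingleton] at hnt
      exact ⟨0, fun _ => ⊥, rfl, Subsingleton.elim _ _, fun _ => inferInstance,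
        fun i => i.elim0, fun i => i.elim0⟩

/-- supersolvable groups have subgroups of every order -/
theorem hasSubgroupOfEveryOrder (n : ℕ) : ∀ (G : Type u) [Group G] [Finite G], Nat.card G ≤ n →
    IsSupersolvable G → HasSubgroupOfEveryOrder G := by
  induction n with
  | zero => intro G _ _ h; have := Nat.card_pos (α := G); omega
  | succ n ih =>
    intro G _ _ hn hG d hd
    by_cases hnt : Nontrivial G
    · have hc1 : Nat.card G ≠ 1 := by
        have := Finite.one_lt_card (α := G); omega
      obtain ⟨p, hp, hpd, hmax⟩ := exists_max_prime Nat.card_pos.ne' hc1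
      haveI := Fact.mk hp
      by_cases hdp : p ∣ d
      · obtain ⟨N, hN, hNp⟩ := exists_normal_max_prime hG hp hpd hmax
        have hN0 : N ≠ ⊥ := by
          rintro rfl
          rw [card_bot] at hNp
          exact hp.ne_one hNp.symm
        have hlt := card_quotient_lt hN0
        obtain ⟨e, rfl⟩ := hdp
        have he : e ∣ Nat.card (G ⧸ N) := by
          have h1 := N.card_mul_index
          rw [index_eq_card, hNp] at h1
          rw [← h1] at hd
          exact Nat.dvd_of_mul_dvd_mul_left hp.pos hd
        obtain ⟨K, hK⟩ := ih (G ⧸ N) (by omega) (quotient hG N) e he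
        refine ⟨K.comap (QuotientGroup.mk' N), ?_⟩
        rw [Cores.card_comap_eq _ (QuotientGroup.mk'_surjective N), QuotientGroup.ker_mk', hK, hNp]
      · obtain ⟨P⟩ : Nonempty (Sylow p G) := inferInstance
        have hPn := sylow_normal_of_max (Nat.card G) G le_rfl hG p hmax P
        have hP0 : (P : Subgroup G) ≠ ⊥ := P.ne_bot_of_dvd_card hpd
        obtain ⟨K, hK⟩ := exists_right_complement'_of_coprime (N := (P : Subgroup G))
          P.card_coprime_index
        have hcard := hK.card_mul
        obtain ⟨k, hk⟩ := IsPGroup.iff_card.mp P.isPGroup'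
        have hdK : d ∣ Nat.card K := by
          rw [← hcard, hk] at hd
          exact (Nat.Coprime.pow_right k ((Nat.Prime.coprime_iff_not_dvd hp).mpr hdp).symm).dvd_of_dvd_mul_left hd
        have hKlt : Nat.card K < Nat.card G := by
          rw [← hcard]
          have h1 : 1 < Nat.card (P : Subgroup G) := by
            have h2 : Nat.card (P : Subgroup G) ≠ 1 := fun h => hP0 (card_eq_one.mp h)
            have h3 : 0 < Nat.card (P : Subgroup G) := Nat.card_pos
            omega
          exact lt_mul_of_one_lt_left Nat.card_pos h1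
        obtain ⟨L, hL⟩ := ih K (by omega) (subgroup hG K) d hdK
        refine ⟨L.map K.subtype, ?_⟩
        rw [Nat.card_congr (equivMapOfInjective L _ (subtype_injective _)).symm.toEquiv, hL]
    · rw [not_nontrivial_iff_subsingleton] at hnt
      have h1 : Nat.card G = 1 := Nat.card_of_subsingleton 1
      rw [h1, Nat.dvd_one] at hd
      exact ⟨⊥, by rw [hd, card_bot]⟩

theorem of_comm (n : ℕ) : ∀ (G : Type u) [Group G] [Finite G], Nat.card G ≤ n →
    (∀ x y : G, x * y = y * x) → IsSupersolvable G := by
  induction n with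
  | zero => intro G _ _ h; have := Nat.card_pos (α := G); omega
  | succ n ih =>
    intro G _ _ hn hG
    by_cases hnt : Nontrivial G
    · obtain ⟨x, hx⟩ := exists_ne (1 : G)
      have hxn : (zpowers x).Normal := ⟨fun y hy g => by rw [hG g y]; simpa using hy⟩
      have hx0 : zpowers x ≠ ⊥ := by rw [Ne, zpowers_eq_bot]; exact hx
      have hlt := card_quotient_lt hx0
      refine of_cyclic_normal (N := zpowers x) inferInstance (ih _ (by omega) ?_)
      intro a b
      obtain ⟨a, rfl⟩ := QuotientGroup.mk'_surjective _ a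
      obtain ⟨b, rfl⟩ := QuotientGroup.mk'_surjective _ b
      rw [← map_mul, hG a b, map_mul]
    · rw [not_nontrivial_iff_subsingleton] at hnt
      exact of_subsingleton

/-- `p`-groups are supersolvable -/
theorem of_isPGroup {p : ℕ} [Fact p.Prime] (n : ℕ) : ∀ (G : Type u) [Group G] [Finite G],
    Nat.card G ≤ n → IsPGroup p G → IsSupersolvable G := by
  induction n with
  | zero => intro G _ _ h; have := Nat.card_pos (α := G); omega
  | succ n ih =>
    intro G _ _ hn hG
    by_cases hnt : Nontrivial G
    · obtain ⟨Z, -, hZc, hZ⟩ := PGrpA.exists_normal_card_prime hG (N := ⊤) top_ne_bot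
      have hZn := PGrpA.normal_of_center_card hZc
      have hZ0 : Z ≠ ⊥ := by
        rintro rfl
        rw [card_bot] at hZ
        exact (Fact.out : p.Prime).ne_one hZ.symm
      have hlt := card_quotient_lt hZ0
      exact of_cyclic_normal (isCyclic_of_prime_card hZ) (ih _ (by omega) (hG.to_quotient Z))
    · rw [not_nontrivial_iff_subsingleton] at hnt
      exact of_subsingleton

end Cfsg.Agent.Lib.SuperB
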