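import Mathlib
import Cfsg.Prelude
import Cfsg.Agent.Lib.SuperB
import Cfsg.Agent.Lib.SchurZas
import Cfsg.Agent.Lib.PGrpG

/-!
Supersolvable groups, III: an extension criterion, the converse of Lagrange.
-/

set_option autoImplicit false

namespace Cfsg.Agent.Lib.SuperC

open Subgroup Cfsg Cfsg.Agent.Lib.Basic Cfsg.Agent.Lib.SuperA Cfsg.Agent.Lib.SuperB
open scoped commutatorElement Pointwise

universe u v

theorem exists_eigen_aux {p : ℕ} [hp : Fact p.Prime] {M : Type*} [AddCommGroup M] [Module (ZMod p) M]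
    [Finite M] [Nontrivial M] (f : Module.End (ZMod p) M) (hT : ∀ v, f^[p - 1] v = v) :
    ∃ v : M, v ≠ 0 ∧ ∃ r : ZMod p, f v = r • v := by
  have haev : Polynomial.aeval f (Polynomial.X ^ p - Polynomial.X : Polynomial (ZMod p)) = 0 := by
    rw [map_sub, map_pow, Polynomial.aeval_X]
    have h0 : p = (p - 1) + 1 := (Nat.succ_pred_prime hp.out).symm
    have h1 : f ^ p = f := by
      apply LinearMap.ext
      intro x
      rw [Module.End.pow_apply]
      have : f^[p] x = f^[(p - 1) + 1] x := congrArg (fun n => f^[n] x) h0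
      rw [this, Function.iterate_succ_apply, hT]
    rw [h1, sub_self]
  have hne : (Polynomial.X ^ p - Polynomial.X : Polynomial (ZMod p)) ≠ 0 := FiniteField.X_pow_card_sub_X_ne_zero _ hp.out.one_lt
  have hdvd := minpoly.dvd (ZMod p) f haev
  have hspl : Polynomial.Splits (minpoly (ZMod p) f) :=
    Polynomial.Splits.of_dvd (GaloisField.splits_zmod_X_pow_sub_X p) hne hdvd
  have hint : IsIntegral (ZMod p) f := Algebra.IsIntegral.isIntegral f
  have hdeg : (minpoly (ZMod p) f).degree ≠ 0 := (minpoly.degree_pos hint).ne'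
  obtain ⟨r, hr⟩ := hspl.exists_eval_eq_zero hdeg
  obtain ⟨v, hv⟩ := (Module.End.hasEigenvalue_of_isRoot (f := f) hr).exists_hasEigenvector
  exact ⟨v, hv.2, r, hv.apply_eq_smul⟩

theorem exists_eigen {V : Type*} [CommGroup V] [Finite V] [Nontrivial V] {p : ℕ} [hp : Fact p.Prime]
    (hV : ∀ v : V, v ^ p = 1) (T : V →* V) (hT : ∀ v, T^[p - 1] v = v) :
    ∃ v : V, v ≠ 1 ∧ ∃ r : ℕ, T v = v ^ r := by
  letI : Module (ZMod p) (Additive V) := AddCommGroup.zmodModule (n := p) (fun x => by
    have := hV x.toMul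
    exact congrArg Additive.ofMul this)
  obtain ⟨v, hv, r, hr⟩ := exists_eigen_aux (p := p) (M := Additive V) (T.toAdditive.toZModLinearMap p)
    (fun v => by
      have h1 : ∀ n : ℕ, (⇑(T.toAdditive.toZModLinearMap p))^[n] v = Additive.ofMul (T^[n] v.toMul) := by
        intro n
        induction n with
        | zero => rfl
        | succ n ih => rw [Function.iterate_succ_apply', Function.iterate_succ_apply', ih]; rfl
      rw [h1, hT]; rfl)
  refine ⟨v.toMul, fun h => hv (congrArg Additive.ofMul h), r.val, ?_⟩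
  have h2 : (r • v) = r.val • v := by
    conv_lhs => rw [← ZMod.natCast_zmod_val r]
    rw [Nat.cast_smul_eq_nsmul]
  have h3 : T.toAdditive v = r • v := hr
  rw [h2] at h3
  exact h3

variable {G : Type*} [Group G]

/-- the subgroup form of `exists_eigen` -/
theorem exists_eigen_conj [Finite G] {p : ℕ} [hp : Fact p.Prime] {V : Subgroup G} (hV0 : V ≠ ⊥)
    (hVc : ∀ x ∈ V, ∀ y ∈ V, x * y = y * x) (hV : ∀ v ∈ V, v ^ p = 1) {k : G}
    (hk : ∀ v ∈ V, k * v * k⁻¹ ∈ V) (hkp : k ^ (p - 1) ∈ centralizer (V : Set G)) :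
    ∃ v ∈ V, v ≠ 1 ∧ ∃ r : ℕ, k * v * k⁻¹ = v ^ r := by
  letI : CommGroup V := { (inferInstance : Group V) with
    mul_comm := fun a b => Subtype.ext (hVc a a.2 b b.2) }
  haveI : Nontrivial V := (nontrivial_iff_ne_bot V).mpr hV0
  let T : V →* V :=
    { toFun := fun v => ⟨k * v * k⁻¹, hk v v.2⟩
      map_one' := Subtype.ext (by simp)
      map_mul' := fun a b => Subtype.ext (by
        change k * ((a : G) * b) * k⁻¹ = k * a * k⁻¹ * (k * b * k⁻¹); group) }
  have hT : ∀ n : ℕ, ∀ v : V, ((T^[n] v : V) : G) = k ^ n * v * (k ^ n)⁻¹ := by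
    intro n
    induction n with
    | zero => intro v; simp
    | succ n ih =>
      intro v
      rw [Function.iterate_succ_apply']
      change k * ((T^[n] v : V) : G) * k⁻¹ = _
      rw [ih, pow_succ']; group
  obtain ⟨v, hv, r, hr⟩ := exists_eigen (p := p) (V := V) (fun v => Subtype.ext (hV v v.2)) T
    (fun v => Subtype.ext (by
      rw [hT, ← mem_centralizer_iff.mp hkp v v.2]; group))
  exact ⟨v, v.2, fun h => hv (Subtype.ext h), r, congrArg Subtype.val hr⟩

/-- a normal subgroup of order `p` in `G = PK` -/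
theorem exists_normal_card_of_exponent [Finite G] {p : ℕ} [hp : Fact p.Prime] {P K : Subgroup G}
    [hPn : P.Normal] (hP : IsPGroup p P) (hP0 : P ≠ ⊥) (hPK : P ⊔ K = ⊤)
    (h1 : ∀ k ∈ K, ∀ l ∈ K, ⁅k, l⁆ ∈ centralizer (P : Set G))
    (h2 : ∀ k ∈ K, k ^ (p - 1) ∈ centralizer (P : Set G)) :
    ∃ N : Subgroup G, N.Normal ∧ N ≤ P ∧ Nat.card N = p := by
  obtain ⟨V, hVn, hV0, hVP, hVmin⟩ := exists_minimal_normal P hP0
  have hVp : IsPGroup p V := hP.to_le hVP
  -- `V` is central in `P`
  have hVcen : V ≤ centralizer (P : Set G) := by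
    have h3 : ((V ⊓ centralizer (P : Set G) : Subgroup G)).Normal := inferInstance
    have h4 : V ⊓ centralizer (P : Set G) ≠ ⊥ := by
      have hVs : V.subgroupOf P ≠ ⊥ := by
        intro h
        rw [subgroupOf_eq_bot] at h
        exact hV0 (le_bot_iff.mp (h le_rfl hVP))
      have hnil := hP.isNilpotent
      have h5 := Nilp.normal_inf_center_ne_bot (G := P) (V.subgroupOf P) hVs
      intro h6
      apply h5
      rw [eq_bot_iff]
      intro x hx
      have h7 : (x : G) ∈ V ⊓ centralizer (P : Set G) := by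
        exact ⟨mem_subgroupOf.mp hx.1, mem_centralizer_iff.mpr fun y hy =>
          congrArg Subtype.val (mem_center_iff.mp hx.2 ⟨y, hy⟩)⟩
      rw [h6] at h7
      exact Subtype.ext (mem_bot.mp h7)
    rcases hVmin _ h3 inf_le_left with h | h
    · exact absurd h h4
    · exact inf_eq_left.mp h
  have hVc : ∀ x ∈ V, ∀ y ∈ V, x * y = y * x := fun x hx y hy =>
    mem_centralizer_iff.mp (hVcen hy) x (hVP hx)
  -- exponent `p`
  have hVe : ∀ v ∈ V, v ^ p = 1 := by
    obtain ⟨W, hWn, hW⟩ := PGrpG.exists_omega_normal (A := V) (Nilp.isMulCommutative_iff_forall.mpr hVc) p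
    have hW0 : W ≠ ⊥ := by
      obtain ⟨Z, hZV, -, hZ⟩ : ∃ Z : Subgroup V, Z ≤ ⊤ ∧ Z ≤ center V ∧ Nat.card Z = p :=
        PGrpA.exists_normal_card_prime hVp (by
          haveI : Nontrivial V := (nontrivial_iff_ne_bot V).mpr hV0
          exact top_ne_bot)
      intro h0
      have hZ1 : Z = ⊥ := by
        rw [eq_bot_iff]
        intro z hz
        have h3 : (z : G) ∈ W := by
          rw [hW]
          refine ⟨z.2, ?_⟩
          have h4 : (⟨z, hz⟩ : Z) ^ Nat.card Z = 1 := pow_card_eq_one'
          rw [hZ] at h4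
          exact congrArg (fun t : Z => ((t : V) : G)) h4
        rw [h0] at h3
        exact Subtype.ext (mem_bot.mp h3)
      rw [hZ1, card_bot] at hZ
      exact hp.out.ne_one hZ.symm
    rcases hVmin W hWn (fun x hx => ((hW x).mp hx).1) with h | h
    · exact absurd h hW0
    · intro v hv
      rw [← h] at hv
      exact ((hW v).mp hv).2
  have hGcen : ∀ L : Subgroup G, L ≤ V → (∀ k ∈ K, ∀ x ∈ L, k * x * k⁻¹ ∈ L) → L.Normal := by
    intro L hL hK
    have h3 : (⊤ : Subgroup G) ≤ normalizer (L : Set G) := by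
      rw [← hPK]
      apply sup_le
      · refine le_trans ?_ (centralizer_le_normalizer _)
        intro x hx
        rw [mem_centralizer_iff]
        intro y hy
        exact (mem_centralizer_iff.mp (hVcen (hL hy)) x hx).symm
      · intro k hk
        exact mem_normalizer_fintype (hK k hk)
    exact normalizer_eq_top_iff.mp (eq_top_iff.mpr h3)
  -- every `k ∈ K` acts as a power
  have hscalar : ∀ k ∈ K, ∃ r : ℕ, ∀ v ∈ V, k * v * k⁻¹ = v ^ r := by
    intro k hk
    have hCle : centralizer (P : Set G) ≤ centralizer (V : Set G) :=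
      centralizer_le (show (V : Set G) ⊆ P from hVP)
    obtain ⟨v, hv, hv1, r, hr⟩ := exists_eigen_conj (p := p) hV0 hVc hVe
      (fun v hv => hVn.conj_mem v hv k) (hCle (h2 k hk))
    let L : Subgroup G :=
      { carrier := {x | x ∈ V ∧ k * x * k⁻¹ = x ^ r}
        one_mem' := ⟨one_mem _, by simp⟩
        mul_mem' := by
          rintro x y ⟨hx, hx'⟩ ⟨hy, hy'⟩
          refine ⟨mul_mem hx hy, ?_⟩
          rw [(show Commute x y from hVc x hx y hy).mul_pow, ← hx', ← hy']; group
        inv_mem' := by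
          rintro x ⟨hx, hx'⟩
          refine ⟨inv_mem hx, ?_⟩
          rw [inv_pow, ← hx']; group }
    have hL : L.Normal := by
      apply hGcen L (fun x hx => hx.1)
      rintro l hl x ⟨hx, hx'⟩
      refine ⟨hVn.conj_mem x hx l, ?_⟩
      have h3 := hCle (h1 k hk l hl)
      have h4 := mem_centralizer_iff.mp h3 _ (hVn.conj_mem _ (hVn.conj_mem x hx k) l)
      rw [commutatorElement_def] at h4
      calc k * (l * x * l⁻¹) * k⁻¹
          = (k * l * k⁻¹ * l⁻¹) * (l * (k * x * k⁻¹) * l⁻¹) * (k * l * k⁻¹ * l⁻¹)⁻¹ := by group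
        _ = (l * (k * x * k⁻¹) * l⁻¹) * (k * l * k⁻¹ * l⁻¹) * (k * l * k⁻¹ * l⁻¹)⁻¹ := by rw [h4]
        _ = l * (k * x * k⁻¹) * l⁻¹ := by group
        _ = _ := by rw [hx', ← conj_pow]
    rcases hVmin L hL (fun x hx => hx.1) with h | h
    · exfalso
      have : v ∈ L := ⟨hv, hr⟩
      rw [h] at this
      exact hv1 (mem_bot.mp this)
    · exact ⟨r, fun v hv => by rw [← h] at hv; exact hv.2⟩
  obtain ⟨v, hv1⟩ := Subgroup.ne_bot_iff_exists_ne_one.mp hV0
  refine ⟨zpowers (v : G), ?_, (zpowers_le.mpr v.2).trans hVP, ?_⟩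
  · apply hGcen _ (zpowers_le.mpr v.2)
    intro k hk x hx
    obtain ⟨r, hr⟩ := hscalar k hk
    rw [hr x ((zpowers_le.mpr v.2) hx)]
    exact pow_mem hx r
  · rw [Nat.card_zpowers]
    exact orderOf_eq_prime (hVe v v.2) (fun h => hv1 (Subtype.ext h))

/-- supersolvability criterion -/
theorem of_exponent {p : ℕ} [hp : Fact p.Prime] (n : ℕ) : ∀ (G : Type u) [Group G] [Finite G],
    Nat.card G ≤ n → ∀ P K : Subgroup G, P.Normal → IsPGroup p P → P ⊔ K = ⊤ →
    (∀ k ∈ K, ∀ l ∈ K, ⁅k, l⁆ ∈ centralizer (P : Set G)) →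
    (∀ k ∈ K, k ^ (p - 1) ∈ centralizer (P : Set G)) → IsSupersolvable K → IsSupersolvable G := by
  induction n with
  | zero => intro G _ _ h; have := Nat.card_pos (α := G); omega
  | succ n ih =>
    intro G _ _ hn P K hPn hP hPK h1 h2 hK
    by_cases hP0 : P = ⊥
    · rw [hP0, bot_sup_eq] at hPK
      exact of_equiv ((MulEquiv.subgroupCongr hPK).trans topEquiv) hK
    · obtain ⟨N, hN, hNP, hNp⟩ := exists_normal_card_of_exponent hP hP0 hPK h1 h2
      have hN0 : N ≠ ⊥ := by
        rintro rfl
        rw [card_bot] at hNp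
        exact hp.out.ne_one hNp.symm
      have hlt := card_quotient_lt hN0
      have hcen : ∀ x ∈ centralizer (P : Set G), QuotientGroup.mk' N x ∈
          centralizer ((P.map (QuotientGroup.mk' N) : Subgroup (G ⧸ N)) : Set (G ⧸ N)) := by
        intro x hx
        rw [mem_centralizer_iff]
        rintro _ ⟨y, hy, rfl⟩
        rw [← map_mul, mem_centralizer_iff.mp hx y hy, map_mul]
      refine of_cyclic_normal (N := N) (isCyclic_of_prime_card hNp)
        (ih (G ⧸ N) (by omega) (P.map (QuotientGroup.mk' N)) (K.map (QuotientGroup.mk' N))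
          (hPn.map _ (QuotientGroup.mk'_surjective N)) (hP.map _) ?_ ?_ ?_ ?_)
      · rw [← Subgroup.map_sup, hPK, Subgroup.map_top_of_surjective _ (QuotientGroup.mk'_surjective N)]
      · rintro _ ⟨k, hk, rfl⟩ _ ⟨l, hl, rfl⟩
        rw [← map_commutatorElement]
        exact hcen _ (h1 k hk l hl)
      · rintro _ ⟨k, hk, rfl⟩
        rw [← map_pow]
        exact hcen _ (h2 k hk)
      · exact SuperA.map _ (MonoidHom.subgroupMap_surjective _ K) hK

/-- order twice a prime power -/
theorem of_card_two_mul {p n : ℕ} (hp : p.Prime) [Finite G] (hG : Nat.card G = 2 * p ^ n) :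
    IsSupersolvable G := by
  haveI := Fact.mk hp
  by_cases hp2 : p = 2
  · subst hp2
    exact of_isPGroup (p := 2) _ G le_rfl (IsPGroup.of_card (n := n + 1) (by rw [hG, pow_succ']))
  · obtain ⟨P⟩ : Nonempty (Sylow p G) := inferInstance
    have hPc : Nat.card (P : Subgroup G) = p ^ n := by
      rw [P.card_eq_multiplicity, hG, Nat.factorization_mul (by norm_num) (pow_ne_zero _ hp.ne_zero),
        Finsupp.add_apply, Nat.Prime.factorization_pow hp, Finsupp.single_eq_same,
        Nat.factorization_eq_zero_of_not_dvd (fun h => hp2 ((Nat.prime_dvd_prime_iff_eq hp Nat.prime_two).mp h)),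
        zero_add]
    have hPi : (P : Subgroup G).index = 2 := by
      have h1 := (P : Subgroup G).card_mul_index
      rw [hPc, hG, mul_comm 2] at h1
      exact Nat.eq_of_mul_eq_mul_left (pow_pos hp.pos n) h1
    have hPn : (P : Subgroup G).Normal := normal_of_index_eq_two hPi
    obtain ⟨K, hK⟩ := exists_right_complement'_of_coprime (N := (P : Subgroup G)) P.card_coprime_index
    have hKc : Nat.card K = 2 := by
      have h1 := hK.card_mul_card
      rw [hPc, hG, mul_comm 2] at h1
      exact Nat.eq_of_mul_eq_mul_left (pow_pos hp.pos n) h1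
    have hKcyc : IsCyclic K := isCyclic_of_prime_card (p := 2) hKc
    have hKcomm := (Cyc.isMulCommutative_of_isCyclic hKcyc).is_comm.comm
    refine of_exponent (p := p) (Nat.card G) G le_rfl P K hPn P.isPGroup' hK.sup_eq_top ?_ ?_ ?_
    · intro k hk l hl
      have h1 : ⁅k, l⁆ = 1 := by
        rw [commutatorElement_eq_one_iff_mul_comm]
        exact congrArg Subtype.val (hKcomm ⟨k, hk⟩ ⟨l, hl⟩)
      rw [h1]; exact one_mem _
    · intro k hk
      have h1 : k ^ 2 = 1 := by
        have : (⟨k, hk⟩ : K) ^ Nat.card K = 1 := pow_card_eq_one'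
        rw [hKc] at this
        exact congrArg Subtype.val this
      obtain ⟨m, hm⟩ : 2 ∣ p - 1 := (hp.even_sub_one hp2).two_dvd
      rw [hm, pow_mul, h1, one_pow]; exact one_mem _
    · exact of_comm _ K le_rfl hKcomm

/-- converse of Lagrange for all subgroups -/
theorem every_of_equiv {K : Type*} [Group K] (e : G ≃* K) (h : HasSubgroupOfEveryOrder G) :
    HasSubgroupOfEveryOrder K := by
  intro d hd
  rw [← Nat.card_congr e.toEquiv] at hd
  obtain ⟨H, hH⟩ := h d hd
  exact ⟨H.map e.toMonoidHom, by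
    rw [Nat.card_congr (equivMapOfInjective H _ e.injective).symm.toEquiv, hH]⟩

theorem every_subgroup (h : ∀ H : Subgroup G, HasSubgroupOfEveryOrder H) (M : Subgroup G) :
    ∀ H : Subgroup M, HasSubgroupOfEveryOrder H := fun H =>
  every_of_equiv (equivMapOfInjective H _ (subtype_injective M)).symm (h _)

theorem sylow_normal_of_every (n : ℕ) : ∀ (G : Type u) [Group G] [Finite G], Nat.card G ≤ n →
    (∀ H : Subgroup G, HasSubgroupOfEveryOrder H) → ∀ (p : ℕ) [Fact p.Prime],
    (∀ q : ℕ, q.Prime → q ∣ Nat.card G → q ≤ p) → ∀ P : Sylow p G, (P : Subgroup G).Normal := by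
  induction n with
  | zero => intro G _ _ h; have := Nat.card_pos (α := G); omega
  | succ n ih =>
    intro G _ _ hn h p hp hmax P
    by_cases hnt : Nontrivial G
    · have hc1 : Nat.card G ≠ 1 := by
        have := Finite.one_lt_card (α := G); omega
      have hq := Nat.minFac_prime hc1
      obtain ⟨q, hqdef⟩ : ∃ q, q = (Nat.card G).minFac := ⟨_, rfl⟩
      rw [← hqdef] at hq
      have hqd : q ∣ Nat.card G := hqdef ▸ Nat.minFac_dvd _
      by_cases hqp : q = p
      · -- `G` is a `p`-group
        have hGp : IsPGroup p G := by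
          rw [IsPGroup.iff_card]
          refine ⟨_, Nat.eq_prime_pow_of_unique_prime_dvd Nat.card_pos.ne' (fun {r} hr hrd => ?_)⟩
          have h1 := hmax r hr hrd
          have h2 : q ≤ r := hqdef ▸ Nat.minFac_le_of_dvd hr.two_le hrd
          omega
        have h1 : (P : Subgroup G) = ⊤ := by
          have h2 : IsPGroup p (⊤ : Subgroup G) := hGp.to_subgroup ⊤
          exact (P.3 h2 le_top).symm
        rw [h1]; infer_instance
      · obtain ⟨m, hm⟩ := hqd
        have hG' := every_of_equiv topEquiv (h ⊤)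
        obtain ⟨H, hH⟩ := hG' m ⟨q, by rw [hm, mul_comm]⟩
        have hmpos : 0 < m := by
          rw [← hH]; exact Nat.card_pos
        have hHi : H.index = q := by
          have h1 := H.card_mul_index
          rw [hH, hm, mul_comm q] at h1
          exact Nat.eq_of_mul_eq_mul_left hmpos h1
        have hHn : H.Normal := normal_of_index_eq_minFac_card (by rw [hHi, hqdef])
        have hPH : (P : Subgroup G) ≤ H := by
          have h1 : IsPGroup p ((P : Subgroup G).map (QuotientGroup.mk' H)) := P.isPGroup'.map _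
          have h2 : Nat.card ((P : Subgroup G).map (QuotientGroup.mk' H)) ∣ q := by
            rw [← hHi, index_eq_card]; exact card_subgroup_dvd_card _
          obtain ⟨k, hk⟩ := IsPGroup.iff_card.mp h1
          have hk0 : k = 0 := by
            by_contra h0
            have h3 : p ∣ q := (dvd_pow_self p h0).trans (hk ▸ h2)
            exact hqp ((Nat.prime_dvd_prime_iff_eq hp.out hq).mp h3).symm
          rw [hk0, pow_zero, card_eq_one, Subgroup.map_eq_bot_iff, QuotientGroup.ker_mk'] at hk
          exact hk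
        have hlt : Nat.card H < Nat.card G := by
          rw [hH, hm]
          exact lt_mul_of_one_lt_left hmpos hq.one_lt
        have h1 := ih H (by omega) (every_subgroup h H) p
          (fun r hr hrd => hmax r hr (hrd.trans H.card_subgroup_dvd_card)) (P.subtype hPH)
        exact sylow_normal_of_normal_in P hPH h1
    · rw [not_nontrivial_iff_subsingleton] at hnt
      rw [Subsingleton.elim (P : Subgroup G) ⊥]
      infer_instance

/-- elements acting trivially on a normal series of length two -/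
theorem mem_centralizer_of_series [Finite G] {P P₁ : Subgroup G} [hP : P.Normal] [hP₁ : P₁.Normal]
    {x : G} (hx : (orderOf x).Coprime (Nat.card P)) (h1 : x ∈ centralizer (P₁ : Set G))
    (h2 : ∀ y ∈ P, ⁅y, x⁆ ∈ P₁) : x ∈ centralizer (P : Set G) := by
  have hsol : Group.IsSolvable (zpowers x) := by
    exact isSolvable_of_comm fun a b =>
      (Cyc.isMulCommutative_of_isCyclic (inferInstance : IsCyclic (zpowers x))).is_comm.comm a b
  have h3 : ⁅P, zpowers x⁆ ≤ P₁ := by
    rw [commutator_le]
    intro y hy z hz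
    obtain ⟨k, rfl⟩ := mem_zpowers_iff.mp hz
    rw [← QuotientGroup.eq_one_iff]
    have h4 : Commute (y : G ⧸ P₁) (x : G ⧸ P₁) := by
      rw [← commutatorElement_eq_one_iff_commute]
      have := h2 y hy
      rw [← QuotientGroup.eq_one_iff] at this
      exact this
    have h5 : Commute (y : G ⧸ P₁) ((x : G ⧸ P₁) ^ k) := h4.zpow_right k
    exact commutatorElement_eq_one_iff_commute.mpr h5
  have h4 : ⁅P₁, zpowers x⁆ = ⊥ := by
    rw [Coprime.commutator_eq_bot_iff_le_centralizer', zpowers_le]; exact h1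
  have h5 := Coprime.le_centralizer_of_commutator_le (A := zpowers x) (K := P) (N := P₁) (by
    rw [normalizer_eq_top_iff.mpr hP]; exact le_top) (by rw [Nat.card_zpowers]; exact hx) (Or.inl hsol)
    h3 h4
  rw [Coprime.commutator_eq_bot_iff_le_centralizer', zpowers_le] at h5
  exact h5

/-- the action on a normal section of order `p` -/
theorem section_action [Finite G] {p : ℕ} [hp : Fact p.Prime] {P P₁ : Subgroup G} [hP : P.Normal]
    [hP₁ : P₁.Normal] (hi : Nat.card (P.map (QuotientGroup.mk' P₁)) = p) :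
    (∀ k l : G, ∀ y ∈ P, ⁅y, ⁅k, l⁆⁆ ∈ P₁) ∧ ∀ k : G, ∀ y ∈ P, ⁅y, k ^ (p - 1)⁆ ∈ P₁ := by
  have hn : (P.map (QuotientGroup.mk' P₁)).Normal := hP.map _ (QuotientGroup.mk'_surjective P₁)
  have hc : IsCyclic (P.map (QuotientGroup.mk' P₁)) := isCyclic_of_prime_card hi
  have key : ∀ x : G, QuotientGroup.mk' P₁ x ∈
      centralizer ((P.map (QuotientGroup.mk' P₁) : Subgroup (G ⧸ P₁)) : Set (G ⧸ P₁)) →
      ∀ y ∈ P, ⁅y, x⁆ ∈ P₁ := by
    intro x hx y hy
    have h1 := mem_centralizer_iff.mp hx _ (mem_map_of_mem (QuotientGroup.mk' P₁) hy)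
    rw [← QuotientGroup.eq_one_iff]
    exact commutatorElement_eq_one_iff_mul_comm.mpr h1
  constructor
  · intro k l
    apply key
    have h1 := commutator_le_centralizer_of_cyclic hc
    apply h1
    rw [map_commutatorElement, _root_.commutator_def]
    exact commutator_mem_commutator trivial trivial
  · intro k
    apply key
    have h1 : (MulAut.conjNormal (H := P.map (QuotientGroup.mk' P₁)) (QuotientGroup.mk' P₁ k)) ^ (p - 1) = 1 := by
      have h2 : (MulAut.conjNormal (H := P.map (QuotientGroup.mk' P₁)) (QuotientGroup.mk' P₁ k)) ^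
        Nat.card (MulAut (P.map (QuotientGroup.mk' P₁))) = 1 := pow_card_eq_one'
      rwa [IsCyclic.card_mulAut, hi, Nat.totient_prime hp.out] at h2
    rw [mem_centralizer_iff]
    intro y hy
    rw [← map_pow] at h1
    have h3 := congrArg (fun f : MulAut (P.map (QuotientGroup.mk' P₁)) =>
      ((f ⟨y, hy⟩ : P.map (QuotientGroup.mk' P₁)) : G ⧸ P₁)) h1
    have h4 : (QuotientGroup.mk' P₁ k) ^ (p - 1) * y * ((QuotientGroup.mk' P₁ k) ^ (p - 1))⁻¹ = y := h3
    rw [map_pow]
    exact (mul_inv_eq_iff_eq_mul.mp h4).symm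

end Cfsg.Agent.Lib.SuperC
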