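import Mathlib
import Cfsg.Prelude
import Cfsg.Agent.Lib.SuperC
import Cfsg.Agent.Lib.Gaschutz
import Cfsg.Agent.Lib.PGrpF

/-!
Supersolvable groups, IV: McLain/Huppert criteria.
-/

set_option autoImplicit false

namespace Cfsg.Agent.Lib.SuperD

open Subgroup Cfsg Cfsg.Agent.Lib.Basic Cfsg.Agent.Lib.SuperA Cfsg.Agent.Lib.SuperB
  Cfsg.Agent.Lib.SuperC
open scoped commutatorElement Pointwise

universe u v

theorem exponent_of_every {p : ℕ} [hp : Fact p.Prime] (n : ℕ) : ∀ (G : Type u) [Group G] [Finite G],
    Nat.card G ≤ n → (∀ H : Subgroup G, HasSubgroupOfEveryOrder H) → ∀ P K : Subgroup G, P.Normal →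
    IsPGroup p P → IsComplement' P K → (Nat.card K).Coprime p →
    (∀ k ∈ K, ∀ l ∈ K, ⁅k, l⁆ ∈ centralizer (P : Set G)) ∧
    (∀ k ∈ K, k ^ (p - 1) ∈ centralizer (P : Set G)) := by
  induction n with
  | zero => intro G _ _ h; have := Nat.card_pos (α := G); omega
  | succ n ih =>
    intro G _ _ hn hev P K hPn hP hPK hKp
    by_cases hP0 : P = ⊥
    · have : centralizer (P : Set G) = ⊤ := by
        rw [hP0, eq_top_iff]
        intro x _
        rw [mem_centralizer_iff]
        intro y hy
        rw [mem_bot.mp hy, one_mul, mul_one]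
      rw [this]
      exact ⟨fun _ _ _ _ => trivial, fun _ _ => trivial⟩
    obtain ⟨a, ha⟩ := IsPGroup.iff_card.mp hP
    have ha0 : a ≠ 0 := by
      rintro rfl
      rw [pow_zero, card_eq_one] at ha
      exact hP0 ha
    obtain ⟨b, rfl⟩ := Nat.exists_eq_succ_of_ne_zero ha0
    have hcG := hPK.card_mul_card
    rw [ha, Nat.succ_eq_add_one, pow_succ] at hcG
    -- a subgroup of index p
    obtain ⟨M₀, hM₀⟩ := every_of_equiv topEquiv (hev ⊤) (p ^ b * Nat.card K) ⟨p, by rw [← hcG]; ring⟩
    have hM₀i : M₀.index = p := by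
      have h1 := M₀.card_mul_index
      rw [hM₀, ← hcG] at h1
      have h2 : p ^ b * p * Nat.card K = p ^ b * Nat.card K * p := by ring
      rw [h2] at h1
      exact Nat.eq_of_mul_eq_mul_left (Nat.mul_pos (pow_pos hp.out.pos b) Nat.card_pos) h1
    -- for every M of index p
    have hM : ∀ M : Subgroup G, M.index = p → Nat.card (P ⊓ M : Subgroup G) = p ^ b ∧ P ⊔ M = ⊤ ∧
        (P ⊓ M).Normal := by
      intro M hMi
      have hMc : Nat.card M = p ^ b * Nat.card K := by
        have h1 := M.card_mul_index
        rw [hMi, ← hcG] at h1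
        have h2 : p ^ b * p * Nat.card K = p ^ b * Nat.card K * p := by ring
        rw [h2] at h1
        exact Nat.eq_of_mul_eq_mul_right hp.out.pos h1
      have hPM : ¬ P ≤ M := by
        intro h
        have h1 := card_dvd_of_le h
        rw [ha, hMc, Nat.succ_eq_add_one, pow_succ] at h1
        have h2 := Nat.dvd_of_mul_dvd_mul_left (pow_pos hp.out.pos b) h1
        have h3 := Nat.dvd_gcd h2 dvd_rfl
        rw [hKp] at h3
        exact hp.out.one_lt.ne' (Nat.dvd_one.mp h3)
      have hsup : P ⊔ M = ⊤ := PGrpF.eq_top_of_prime_index hp.out hMi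
        (lt_of_le_of_ne le_sup_right (fun h => hPM (by rw [h]; exact le_sup_left)))
      have hc := card_sup_mul_card_inf (N := P) (H := M) (by
        rw [normalizer_eq_top_iff.mpr hPn]; exact le_top)
      rw [hsup, card_top, ha, ← M.card_mul_index, hMi] at hc
      have hc' : Nat.card (P ⊓ M : Subgroup G) = p ^ b := by
        have h1 : Nat.card M * p * Nat.card (P ⊓ M : Subgroup G) = Nat.card M * p * p ^ b := by
          rw [hc, Nat.succ_eq_add_one, pow_succ]; ring
        exact Nat.eq_of_mul_eq_mul_left (Nat.mul_pos Nat.card_pos hp.out.pos) h1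
      refine ⟨hc', hsup, ?_⟩
      have h1 : (P ⊓ M).relIndex P = p := by
        have h2 := card_mul_relIndex (H := P ⊓ M) (K := P) inf_le_left
        rw [hc', ha, Nat.succ_eq_add_one, pow_succ] at h2
        exact Nat.eq_of_mul_eq_mul_left (pow_pos hp.out.pos b) h2
      have h2 : ((P ⊓ M).subgroupOf P).Normal := PGrpC.normal_of_index hP h1
      rw [normal_subgroupOf_iff_le_normalizer inf_le_left] at h2
      apply normalizer_eq_top_iff.mp
      rw [eq_top_iff, ← hsup]
      refine sup_le h2 ?_
      intro x hx
      apply mem_normalizer_fintype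
      rintro y ⟨hy1, hy2⟩
      exact mem_inf.mpr ⟨hPn.conj_mem y hy1 x, mul_mem (mul_mem hx hy2) (inv_mem hx)⟩
    -- a subgroup of index p containing K
    obtain ⟨M, hMi, hKM⟩ : ∃ M : Subgroup G, M.index = p ∧ K ≤ M := by
      obtain ⟨h1, h2, h3⟩ := hM M₀ hM₀i
      have h4 : ((P ⊓ M₀).subgroupOf M₀).Normal := h3.subgroupOf M₀
      have h5 : Nat.card ((P ⊓ M₀).subgroupOf M₀) = p ^ b := by
        rw [Nat.card_congr (subgroupOfEquivOfLe inf_le_right).toEquiv, h1]
      have h6 : ((P ⊓ M₀).subgroupOf M₀).index = Nat.card K := by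
        have h7 := ((P ⊓ M₀).subgroupOf M₀).card_mul_index
        rw [h5, hM₀] at h7
        exact Nat.eq_of_mul_eq_mul_left (pow_pos hp.out.pos b) h7
      obtain ⟨L, hL⟩ := exists_right_complement'_of_coprime (N := (P ⊓ M₀).subgroupOf M₀) (by
        rw [h5, h6]; exact Nat.Coprime.pow_left b hKp.symm)
      have hLc : Nat.card L = Nat.card K := by
        have h7 := hL.card_mul_card
        rw [h5, hM₀] at h7
        exact Nat.eq_of_mul_eq_mul_left (pow_pos hp.out.pos b) h7
      have hLc' : Nat.card (L.map M₀.subtype) = Nat.card K := by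
        rw [Nat.card_congr (equivMapOfInjective L _ (subtype_injective _)).symm.toEquiv, hLc]
      have hPL : IsComplement' P (L.map M₀.subtype) := by
        apply isComplement'_of_coprime
        · rw [hLc', hPK.card_mul_card]
        · rw [hLc', ha]; exact Nat.Coprime.pow_left _ hKp.symm
      obtain ⟨g, hg⟩ := SchurZas.conj_of_coprime P (by
        rw [hPK.symm.index_eq_card, ha]; exact Nat.Coprime.pow_left _ hKp.symm) _ _ (Or.inl
          (CoprimeB.isSolvable_of_isPGroup hP)) hPL hPK
      refine ⟨MulAut.conj g • M₀, ?_, ?_⟩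
      · rw [← hM₀i]
        have h8 := (MulAut.conj g • M₀).card_mul_index
        rw [SchurZas.card_conj_smul, ← M₀.card_mul_index] at h8
        exact Nat.eq_of_mul_eq_mul_left Nat.card_pos h8
      · rw [← hg]
        exact pointwise_smul_le_pointwise_smul_iff.mpr (map_subtype_le L)
    obtain ⟨h1, h2, h3⟩ := hM M hMi
    have hlt : Nat.card M < Nat.card G := by
      apply card_lt_of_ne_top
      intro h
      rw [h, index_top] at hMi
      exact hp.out.one_lt.ne hMi
    have hPMs : P.subgroupOf M = (P ⊓ M).subgroupOf M := (inf_subgroupOf_right P M).symm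
    have hIH := ih M (by omega) (every_subgroup hev M) (P.subgroupOf M) (K.subgroupOf M)
      (hPn.subgroupOf M) (hP.comap_of_injective _ (subtype_injective M))
      (SchurZas.isComplement'_subgroupOf hKM hPK) (by
        rw [Nat.card_congr (subgroupOfEquivOfLe hKM).toEquiv]; exact hKp)
    have hup : ∀ x (hx : x ∈ M), (⟨x, hx⟩ : M) ∈ centralizer ((P.subgroupOf M : Subgroup M) : Set M) →
        x ∈ centralizer ((P ⊓ M : Subgroup G) : Set G) := by
      intro x hx hxc
      rw [mem_centralizer_iff]
      rintro y ⟨hy1, hy2⟩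
      have := mem_centralizer_iff.mp hxc ⟨y, hy2⟩ (mem_subgroupOf.mpr hy1)
      exact congrArg Subtype.val this
    have hsec := section_action (p := p) (P := P) (P₁ := P ⊓ M) (by
      have e := card_mul_relIndex (H := P ⊓ M) (K := P) inf_le_left
      have h4 : Nat.card (P.map (QuotientGroup.mk' (P ⊓ M))) = (P ⊓ M).relIndex P := by
        have h5 := (QuotientGroup.mk' (P ⊓ M)).subgroupMap P
        have h6 : ((QuotientGroup.mk' (P ⊓ M)).subgroupMap P).ker = (P ⊓ M).subgroupOf P := by
          ext x
          rw [MonoidHom.mem_ker, mem_subgroupOf]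
          constructor
          · intro h
            exact (QuotientGroup.eq_one_iff (x : G)).mp (congrArg Subtype.val h)
          · intro h
            exact Subtype.ext ((QuotientGroup.eq_one_iff (x : G)).mpr h)
        rw [relIndex, ← h6, index_ker, MonoidHom.range_eq_top.mpr (MonoidHom.subgroupMap_surjective _ P),
          card_top]
      rw [h4]
      rw [h1, ha, Nat.succ_eq_add_one, pow_succ] at e
      exact Nat.eq_of_mul_eq_mul_left (pow_pos hp.out.pos b) e)
    have hord : ∀ x ∈ K, (orderOf x).Coprime (Nat.card P) := by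
      intro x hx
      have h4 : orderOf x ∣ Nat.card K := by
        have := orderOf_dvd_natCard (⟨x, hx⟩ : K)
        rwa [orderOf_mk] at this
      rw [ha]
      exact (Nat.Coprime.coprime_dvd_left h4 hKp).pow_right _
    constructor
    · intro k hk l hl
      have hm : ⁅k, l⁆ ∈ K := by
        rw [commutatorElement_def]
        exact mul_mem (mul_mem (mul_mem hk hl) (inv_mem hk)) (inv_mem hl)
      refine mem_centralizer_of_series (P₁ := P ⊓ M) (hord _ hm) ?_ (hsec.1 k l)
      exact hup _ (hKM hm) (hIH.1 ⟨k, hKM hk⟩ (mem_subgroupOf.mpr hk) ⟨l, hKM hl⟩ (mem_subgroupOf.mpr hl))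
    · intro k hk
      refine mem_centralizer_of_series (P₁ := P ⊓ M) (hord _ (pow_mem hk _)) ?_ (hsec.2 k)
      exact hup _ (hKM (pow_mem hk _)) (hIH.2 ⟨k, hKM hk⟩ (mem_subgroupOf.mpr hk))

theorem of_every (n : ℕ) : ∀ (G : Type u) [Group G] [Finite G],
    Nat.card G ≤ n → (∀ H : Subgroup G, HasSubgroupOfEveryOrder H) → IsSupersolvable G := by
  induction n with
  | zero => intro G _ _ h; have := Nat.card_pos (α := G); omega
  | succ n ih =>
    intro G _ _ hn hev
    by_cases hnt : Nontrivial G
    · have hc1 : Nat.card G ≠ 1 := by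
        have := Finite.one_lt_card (α := G); omega
      obtain ⟨p, hp, hpd, hmax⟩ := exists_max_prime Nat.card_pos.ne' hc1
      haveI := Fact.mk hp
      obtain ⟨P⟩ : Nonempty (Sylow p G) := inferInstance
      have hPn := sylow_normal_of_every (Nat.card G) G le_rfl hev p hmax P
      have hP0 : (P : Subgroup G) ≠ ⊥ := P.ne_bot_of_dvd_card hpd
      obtain ⟨K, hK⟩ := exists_right_complement'_of_coprime (N := (P : Subgroup G))
        P.card_coprime_index
      have hcard := hK.card_mul_card
      have hKlt : Nat.card K < Nat.card G := by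
        rw [← hcard]
        have h1 : 1 < Nat.card (P : Subgroup G) := by
          have h2 : Nat.card (P : Subgroup G) ≠ 1 := fun h => hP0 (card_eq_one.mp h)
          have h3 : 0 < Nat.card (P : Subgroup G) := Nat.card_pos
          omega
        exact lt_mul_of_one_lt_left Nat.card_pos h1
      have hKs := ih K (by omega) (every_subgroup hev K)
      have hKp : (Nat.card K).Coprime p := by
        have h1 := P.card_coprime_index
        rw [hK.symm.index_eq_card] at h1
        exact (Nat.Coprime.coprime_dvd_left (P.dvd_card_of_dvd_card hpd) h1).symm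
      obtain ⟨h1, h2⟩ := exponent_of_every (p := p) (Nat.card G) G le_rfl hev P K hPn P.isPGroup' hK hKp
      exact of_exponent (p := p) (Nat.card G) G le_rfl P K hPn P.isPGroup' hK.sup_eq_top h1 h2 hKs
    · rw [not_nontrivial_iff_subsingleton] at hnt
      exact of_subsingleton

/-! ### maximal subgroups of prime index -/

theorem coatom_quotient {G : Type*} [Group G] {N : Subgroup G} [N.Normal]
    (h : ∀ M : Subgroup G, IsCoatom M → M.index.Prime) :
    ∀ M : Subgroup (G ⧸ N), IsCoatom M → M.index.Prime := by
  intro M hM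
  rw [← index_comap_of_surjective M (QuotientGroup.mk'_surjective N)]
  apply h
  constructor
  · intro h1
    apply hM.1
    have h3 := congrArg (Subgroup.map (QuotientGroup.mk' N)) h1
    rw [map_comap_eq_self_of_surjective (QuotientGroup.mk'_surjective N),
      map_top_of_surjective _ (QuotientGroup.mk'_surjective N)] at h3
    exact h3
  · intro K hK
    have hNK : N ≤ K := by
      refine le_trans ?_ hK.le
      intro x hx
      rw [mem_comap, QuotientGroup.mk'_apply, (QuotientGroup.eq_one_iff x).mpr hx]
      exact one_mem _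
    have e : (K.map (QuotientGroup.mk' N)).comap (QuotientGroup.mk' N) = K := by
      rw [QuotientGroup.comap_map_mk', sup_eq_right.mpr hNK]
    rw [← e] at hK
    have h1 := hM.2 _ ((comap_lt_comap_of_surjective (QuotientGroup.mk'_surjective N)).mp hK)
    rw [← e, h1, comap_top]

theorem card_coprime_aux {G : Type*} [Group G] [Finite G] {p : ℕ} [Fact p.Prime] (P : Sylow p G)
    {M : Subgroup G} (hM : normalizer ((P : Subgroup G) : Set G) ≤ M) : M.index ≡ 1 [MOD p] := by
  have hPM : (P : Subgroup G) ≤ M := le_normalizer.trans hM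
  have h1 : (normalizer ((P : Subgroup G) : Set G)).index ≡ 1 [MOD p] := by
    have := card_sylow_modEq_one p G
    rwa [Sylow.card_eq_index_normalizer P] at this
  have h2 : (normalizer ((P : Subgroup G) : Set G)).relIndex M ≡ 1 [MOD p] := by
    have := card_sylow_modEq_one p M
    rw [Sylow.card_eq_index_normalizer (P.subtype hPM)] at this
    change (normalizer (((P : Subgroup G).subgroupOf M : Subgroup M) : Set M)).index ≡ 1 [MOD p] at this
    rw [← subgroupOf_normalizer_eq hPM] at this
    exact this
  have h3 := relIndex_mul_index hM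
  rw [← h3] at h1
  have h4 := h2.mul_right M.index
  rw [one_mul] at h4
  exact h4.symm.trans h1

theorem isSolvable_of_prime_index (n : ℕ) : ∀ (G : Type u) [Group G] [Finite G],
    Nat.card G ≤ n → (∀ M : Subgroup G, IsCoatom M → M.index.Prime) → 
    Group.IsSolvable G ∧ ∀ (p : ℕ) [Fact p.Prime], (∀ q : ℕ, q.Prime → q ∣ Nat.card G → q ≤ p) →
      ∀ P : Sylow p G, (P : Subgroup G).Normal := by
  induction n with
  | zero => intro G _ _ h; have := Nat.card_pos (α := G); omega
  | succ n ih =>
    intro G _ _ hn h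
    have hnorm : ∀ (p : ℕ) [Fact p.Prime], (∀ q : ℕ, q.Prime → q ∣ Nat.card G → q ≤ p) →
      ∀ P : Sylow p G, (P : Subgroup G).Normal := by
      intro p hp hmax P
      by_contra hPn
      have hne : normalizer ((P : Subgroup G) : Set G) ≠ ⊤ := fun h1 => hPn (normalizer_eq_top_iff.mp h1)
      obtain ⟨M, hM, hPM⟩ := exists_le_coatom hne
      have h1 := h M hM
      have h2 := card_coprime_aux P hPM
      have h3 := hmax _ h1 M.index_dvd_card
      have h4 : p ∣ M.index - 1 := (Nat.modEq_iff_dvd' h1.one_lt.le).mp h2.symm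
      have h5 := Nat.le_of_dvd (by have := h1.one_lt; omega) h4
      have := h1.one_lt
      omega
    refine ⟨?_, hnorm⟩
    by_cases hnt : Nontrivial G
    · have hc1 : Nat.card G ≠ 1 := by
        have := Finite.one_lt_card (α := G); omega
      obtain ⟨p, hp, hpd, hmax⟩ := exists_max_prime Nat.card_pos.ne' hc1
      haveI := Fact.mk hp
      obtain ⟨P⟩ : Nonempty (Sylow p G) := inferInstance
      have hPn := hnorm p hmax P
      have hP0 : (P : Subgroup G) ≠ ⊥ := P.ne_bot_of_dvd_card hpd
      have hlt := card_quotient_lt hP0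
      have h1 := (ih (G ⧸ (P : Subgroup G)) (by omega) (coatom_quotient h)).1
      have h2 : Group.IsSolvable (P : Subgroup G) := CoprimeB.isSolvable_of_isPGroup P.isPGroup'
      exact SolvCrit.isSolvable_of_normal (P : Subgroup G) h2 h1
    · rw [not_nontrivial_iff_subsingleton] at hnt
      infer_instance

end Cfsg.Agent.Lib.SuperD
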