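import Mathlib
import Cfsg.Prelude
import Cfsg.Agent.Lib.SuperD

/-!
Supersolvable groups, V: Huppert's theorem, Hall subgroups, the order trick.
-/

set_option autoImplicit false

namespace Cfsg.Agent.Lib.SuperE

open Subgroup Cfsg Cfsg.Agent.Lib.Basic Cfsg.Agent.Lib.SuperA Cfsg.Agent.Lib.SuperB
  Cfsg.Agent.Lib.SuperC Cfsg.Agent.Lib.SuperD
open scoped commutatorElement Pointwise

universe u v

/-- complements in elementary abelian groups -/
theorem exists_compl_elementary {G : Type*} [Group G] [Finite G] {p : ℕ} [hp : Fact p.Prime]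
    {P N : Subgroup G} (hNP : N ≤ P) (hPc : ∀ x ∈ P, ∀ y ∈ P, x * y = y * x)
    (hPe : ∀ x ∈ P, x ^ p = 1) : ∃ L : Subgroup G, L ≤ P ∧ N ⊓ L = ⊥ ∧ N ⊔ L = P := by
  obtain ⟨L, hL⟩ := (Set.toFinite {L : Subgroup G | L ≤ P ∧ N ⊓ L = ⊥}).exists_maximal
    ⟨⊥, bot_le, inf_bot_eq N⟩
  refine ⟨L, hL.prop.1, hL.prop.2, le_antisymm (sup_le hNP hL.prop.1) ?_⟩
  intro y hy
  by_contra hyn
  have hnorm : ∀ A B : Subgroup G, A ≤ P → B ≤ P → B ≤ normalizer (A : Set G) := by
    intro A B hA hB
    refine le_trans ?_ (centralizer_le_normalizer _)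
    intro x hx
    rw [mem_centralizer_iff]
    intro z hz
    exact hPc z (hA hz) x (hB hx)
  have hLy : L ⊔ zpowers y ≤ P := sup_le hL.prop.1 (zpowers_le.mpr hy)
  have hy1 : y ≠ 1 := by
    rintro rfl; exact hyn (one_mem _)
  have hinf : N ⊓ (L ⊔ zpowers y) = ⊥ := by
    rw [eq_bot_iff]
    rintro n ⟨hn, hn'⟩
    change n ∈ L ⊔ zpowers y at hn'
    rw [mem_sup_iff_left (hnorm L (zpowers y) hL.prop.1 (zpowers_le.mpr hy))] at hn'
    obtain ⟨l, hl, z, hz, rfl⟩ := hn'
    have hzNL : z ∈ N ⊔ L := by
      have h1 : z = l⁻¹ * (l * z) := by group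
      rw [h1]
      exact mul_mem (mem_sup_right (inv_mem hl)) (mem_sup_left hn)
    have hz1 : z = 1 := by
      by_contra hz1
      have hoy : orderOf y = p := orderOf_eq_prime (hPe y hy) hy1
      have hzP : z ∈ P := (zpowers_le.mpr hy) hz
      have hzz : zpowers z = zpowers y := by
        apply Subgroup.eq_of_le_of_card_ge (zpowers_le.mpr hz)
        rw [Nat.card_zpowers, Nat.card_zpowers, hoy, orderOf_eq_prime (hPe z hzP) hz1]
      exact hyn ((zpowers_le.mpr hzNL) (by rw [hzz]; exact mem_zpowers y))
    rw [hz1, mul_one] at hn ⊢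
    have : l ∈ N ⊓ L := ⟨hn, hl⟩
    rwa [hL.prop.2] at this
  have h1 := hL.le_of_ge ⟨hLy, hinf⟩ le_sup_left
  exact hyn (mem_sup_right (h1 (mem_sup_right (mem_zpowers y))))

/-- in a supersolvable group, `p'`-commutators and `p'`-elements that are `(p-1)`-th powers
centralize the normal `p`-subgroups -/
theorem centralizes_of_supersolvable {p : ℕ} [hp : Fact p.Prime] (n : ℕ) : ∀ (G : Type u) [Group G]
    [Finite G], Nat.card G ≤ n → IsSupersolvable G → ∀ P : Subgroup G, P.Normal → IsPGroup p P →
    ∀ x : G, (orderOf x).Coprime p → ((∃ k l : G, x = ⁅k, l⁆) ∨ ∃ k : G, x = k ^ (p - 1)) →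
    x ∈ centralizer (P : Set G) := by
  induction n with
  | zero => intro G _ _ h; have := Nat.card_pos (α := G); omega
  | succ n ih =>
    intro G _ _ hn hG P hPn hP x hx hxk
    by_cases hP0 : P = ⊥
    · rw [hP0, mem_centralizer_iff]
      intro y hy
      rw [mem_bot.mp hy, one_mul, mul_one]
    obtain ⟨N, hN, hNP, hNp⟩ := exists_prime_normal_le (Nat.card G) G le_rfl hG P hPn hP0
    have hNp' : Nat.card N = p := by
      obtain ⟨k, hk⟩ := IsPGroup.iff_card.mp (hP.to_le hNP)
      rw [hk] at hNp ⊢
      have := hNp.eq_one_of_pow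
      rw [this, pow_one]
    have hN0 : N ≠ ⊥ := by
      rintro rfl
      rw [card_bot] at hNp
      exact Nat.not_prime_one hNp
    have hlt := card_quotient_lt hN0
    have hb : Nat.card (N.map (QuotientGroup.mk' (⊥ : Subgroup G))) = p := by
      rw [← hNp']
      symm
      apply Nat.card_congr
      exact (equivMapOfInjective N _ (by
        rw [← MonoidHom.ker_eq_bot_iff, QuotientGroup.ker_mk'])).toEquiv
    have hsec := section_action (p := p) (P := N) (P₁ := ⊥) hb
    have hxN : x ∈ centralizer (N : Set G) := by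
      have h1 : ∀ y ∈ N, ⁅y, x⁆ ∈ (⊥ : Subgroup G) := by
        rcases hxk with ⟨k, l, rfl⟩ | ⟨k, rfl⟩
        · exact hsec.1 k l
        · exact hsec.2 k
      rw [mem_centralizer_iff]
      intro y hy
      exact commutatorElement_eq_one_iff_mul_comm.mp (mem_bot.mp (h1 y hy))
    have hq := ih (G ⧸ N) (by omega) (quotient hG N) (P.map (QuotientGroup.mk' N))
      (hPn.map _ (QuotientGroup.mk'_surjective N)) (hP.map _) (QuotientGroup.mk' N x)
      (Nat.Coprime.coprime_dvd_left (orderOf_map_dvd _ x) hx) (by
        rcases hxk with ⟨k, l, rfl⟩ | ⟨k, rfl⟩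
        · exact Or.inl ⟨QuotientGroup.mk' N k, QuotientGroup.mk' N l, map_commutatorElement _ _ _⟩
        · exact Or.inr ⟨QuotientGroup.mk' N k, map_pow _ _ _⟩)
    refine mem_centralizer_of_series (P₁ := N) ?_ hxN ?_
    · obtain ⟨k, hk⟩ := IsPGroup.iff_card.mp hP
      rw [hk]; exact hx.pow_right k
    · intro y hy
      have h1 := mem_centralizer_iff.mp hq _ (mem_map_of_mem (QuotientGroup.mk' N) hy)
      rw [← QuotientGroup.eq_one_iff]
      exact commutatorElement_eq_one_iff_mul_comm.mpr h1

/-- Huppert -/
theorem of_prime_index (n : ℕ) : ∀ (G : Type u) [Group G] [Finite G],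
    Nat.card G ≤ n → (∀ M : Subgroup G, IsCoatom M → M.index.Prime) → IsSupersolvable G := by
  induction n with
  | zero => intro G _ _ h; have := Nat.card_pos (α := G); omega
  | succ n ih =>
    intro G _ _ hn h
    by_cases hnt : Nontrivial G
    · have hc1 : Nat.card G ≠ 1 := by
        have := Finite.one_lt_card (α := G); omega
      obtain ⟨p, hp, hpd, hmax⟩ := exists_max_prime Nat.card_pos.ne' hc1
      haveI := Fact.mk hp
      obtain ⟨P⟩ : Nonempty (Sylow p G) := inferInstance
      have hPn := (isSolvable_of_prime_index (Nat.card G) G le_rfl h).2 p hmax P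
      have hP0 : (P : Subgroup G) ≠ ⊥ := P.ne_bot_of_dvd_card hpd
      obtain ⟨K, hK⟩ := exists_right_complement'_of_coprime (N := (P : Subgroup G))
        P.card_coprime_index
      have hKp : (Nat.card K).Coprime p := by
        have h1 := P.card_coprime_index
        rw [hK.symm.index_eq_card] at h1
        exact (Nat.Coprime.coprime_dvd_left (P.dvd_card_of_dvd_card hpd) h1).symm
      have hlt := card_quotient_lt hP0
      have hGP := ih (G ⧸ (P : Subgroup G)) (by omega) (coatom_quotient h)
      have hKs : IsSupersolvable K := of_equiv (SchurZas.complementEquivQuotient hK).symm hGP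
      obtain ⟨D, hD⟩ : ∃ D, D = (frattini (P : Subgroup G)).map (P : Subgroup G).subtype := ⟨_, rfl⟩
      have hDn : D.Normal := by rw [hD]; infer_instance
      have hDP : D ≤ P := by rw [hD]; exact map_subtype_le _
      by_cases hD0 : D = ⊥
      · -- `P` is elementary abelian
        have hfr : frattini (P : Subgroup G) = ⊥ := by
          rw [hD, Subgroup.map_eq_bot_iff_of_injective _ (subtype_injective _)] at hD0
          exact hD0
        have hPc : ∀ x ∈ (P : Subgroup G), ∀ y ∈ (P : Subgroup G), x * y = y * x := by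
          intro x hx y hy
          have h1 := Nilp.commutator_le_frattini P.isPGroup'
          rw [hfr] at h1
          have h2 : ⁅(⟨x, hx⟩ : (P : Subgroup G)), ⟨y, hy⟩⁆ ∈ _root_.commutator (P : Subgroup G) := by
            rw [_root_.commutator_def]
            exact commutator_mem_commutator trivial trivial
          exact congrArg Subtype.val (commutatorElement_eq_one_iff_mul_comm.mp (mem_bot.mp (h1 h2)))
        have hPe : ∀ x ∈ (P : Subgroup G), x ^ p = 1 := by
          intro x hx
          have h1 := Nilp.pow_mem_frattini P.isPGroup' (⟨x, hx⟩ : (P : Subgroup G))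
          rw [hfr] at h1
          exact congrArg Subtype.val (mem_bot.mp h1)
        obtain ⟨N, hNn, hN0, hNP, hNmin⟩ := exists_minimal_normal (P : Subgroup G) hP0
        obtain ⟨L, hLP, hNL, hNLs⟩ := exists_compl_elementary (p := p) hNP hPc hPe
        obtain ⟨H, hH⟩ := Gaschutz.exists_complement (K := N) (U := (P : Subgroup G)) (A := L) hLP hNP
          hNL hNLs (fun x hx y hy => hPc x (hNP hx) y (hNP hy))
          (Nat.Coprime.coprime_dvd_left (card_dvd_of_le hNP) P.card_coprime_index)
        have hHtop : H ≠ ⊤ := by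
          intro h1
          have h2 := hH.disjoint.eq_bot
          rw [h1, inf_top_eq] at h2
          exact hN0 h2
        obtain ⟨M, hM, hHM⟩ := exists_le_coatom hHtop
        have hNM : ¬ N ≤ M := by
          intro h1
          apply hM.1
          rw [eq_top_iff, ← hH.sup_eq_top]
          exact sup_le h1 hHM
        have hsup : N ⊔ M = ⊤ := by
          rw [eq_top_iff, ← hH.sup_eq_top]
          exact sup_le_sup_left hHM _
        have hNMn : (N ⊓ M).Normal := by
          apply normalizer_eq_top_iff.mp
          rw [eq_top_iff, ← hsup]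
          apply sup_le
          · refine le_trans ?_ (centralizer_le_normalizer _)
            intro x hx
            rw [mem_centralizer_iff]
            rintro y ⟨hy, -⟩
            exact hPc y (hNP hy) x (hNP hx)
          · intro x hx
            apply mem_normalizer_fintype
            rintro y ⟨hy1, hy2⟩
            exact mem_inf.mpr ⟨hNn.conj_mem y hy1 x, mul_mem (mul_mem hx hy2) (inv_mem hx)⟩
        have hNM0 : N ⊓ M = ⊥ := by
          rcases hNmin _ hNMn inf_le_left with h1 | h1
          · exact h1
          · exact absurd (inf_eq_left.mp h1) hNM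
        have hc := card_sup_of_inf_eq_bot (N := N) (H := M) (by
          rw [normalizer_eq_top_iff.mpr hNn]; exact le_top) hNM0
        rw [hsup, card_top, mul_comm, ← M.card_mul_index] at hc
        have hNc : Nat.card N = M.index := (Nat.eq_of_mul_eq_mul_left Nat.card_pos hc).symm
        have hMp := h M hM
        rw [← hNc] at hMp
        haveI := Fact.mk hMp
        have hlt' := card_quotient_lt hN0
        exact of_cyclic_normal (N := N) (isCyclic_of_prime_card rfl)
          (ih (G ⧸ N) (by omega) (coatom_quotient h))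
      · have hlt' := card_quotient_lt hD0
        have hGD := ih (G ⧸ D) (by omega) (coatom_quotient h)
        have key : ∀ x ∈ K, ((∃ k l : G, x = ⁅k, l⁆) ∨ ∃ k : G, x = k ^ (p - 1)) →
            x ∈ centralizer ((P : Subgroup G) : Set G) := by
          intro x hxK hxk
          have hxo : (orderOf x).Coprime p := by
            have h4 : orderOf x ∣ Nat.card K := by
              have := orderOf_dvd_natCard (⟨x, hxK⟩ : K)
              rwa [orderOf_mk] at this
            exact Nat.Coprime.coprime_dvd_left h4 hKp
          have h1 := centralizes_of_supersolvable (p := p) (Nat.card (G ⧸ D)) (G ⧸ D) le_rfl hGD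
            ((P : Subgroup G).map (QuotientGroup.mk' D)) (hPn.map _ (QuotientGroup.mk'_surjective D))
            (P.isPGroup'.map _) (QuotientGroup.mk' D x)
            (Nat.Coprime.coprime_dvd_left (orderOf_map_dvd _ x) hxo) (by
              rcases hxk with ⟨k, l, rfl⟩ | ⟨k, rfl⟩
              · exact Or.inl ⟨QuotientGroup.mk' D k, QuotientGroup.mk' D l, map_commutatorElement _ _ _⟩
              · exact Or.inr ⟨QuotientGroup.mk' D k, map_pow _ _ _⟩)
          have h2 := Coprime.le_centralizer_of_frattini (A := zpowers x) (K := (P : Subgroup G)) (by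
            rw [normalizer_eq_top_iff.mpr hPn]; exact le_top) (by
            rw [Nat.card_zpowers]
            obtain ⟨m, hm⟩ := IsPGroup.iff_card.mp (P.isPGroup'.to_subgroup (frattini (P : Subgroup G)))
            rw [hm]; exact hxo.pow_right m) (by
            intro a ha k hk
            obtain ⟨m, rfl⟩ := mem_zpowers_iff.mp ha
            rw [← hD, ← QuotientGroup.eq_one_iff]
            have h3 := mem_centralizer_iff.mp h1 _ (mem_map_of_mem (QuotientGroup.mk' D) hk)
            have h4 : Commute (x : G ⧸ D) (k : G ⧸ D) := h3.symm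
            have h5 : Commute ((x : G ⧸ D) ^ m) (k : G ⧸ D) := h4.zpow_left m
            exact commutatorElement_eq_one_iff_commute.mpr h5)
          exact h2 (mem_zpowers x)
        refine of_exponent (p := p) (Nat.card G) G le_rfl P K hPn P.isPGroup' hK.sup_eq_top ?_ ?_ hKs
        · intro k hk l hl
          exact key _ (by
            rw [commutatorElement_def]
            exact mul_mem (mul_mem (mul_mem hk hl) (inv_mem hk)) (inv_mem hl)) (Or.inl ⟨k, l, rfl⟩)
        · intro k hk
          exact key _ (pow_mem hk _) (Or.inr ⟨k, rfl⟩)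
    · rw [not_nontrivial_iff_subsingleton] at hnt
      exact of_subsingleton

end Cfsg.Agent.Lib.SuperE
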