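import Cfsg.Agent.Lib.ExSp
import Cfsg.Agent.Lib.SuperE
import Cfsg.Agent.Lib.OddFeit
import Cfsg.Agent.Lib.PGrpA
import Cfsg.Agent.Lib.PGrpD
import Cfsg.Agent.Lib.Nilp

/-!
Splitting off an elementary abelian factor from a group with small commutator subgroup.
-/

set_option autoImplicit false
set_option linter.unusedSectionVars false
set_option linter.style.haveILetI false
set_option linter.unusedVariables false

namespace Cfsg.Agent.Lib.OmgE

open Subgroup Cfsg.Agent.Lib Cfsg.Agent.Lib.PGrpA Cfsg.Agent.Lib.ExSp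
open scoped commutatorElement

variable {G : Type*} [Group G] [Finite G] {p : ℕ} [hp : Fact p.Prime] {z x y : G}

/-- the hypotheses -/
structure Hy (p : ℕ) (z x y : G) : Prop where
  ord : orderOf z = p
  comm : ∀ g h : G, ⁅g, h⁆ ∈ zpowers z
  zc : ∀ g : G, g * z = z * g
  yx : ⁅y, x⁆ = z
  yp : y ^ p = 1
  cp : ∀ v : G, v * x = x * v → v ^ p = 1
  cab : ∀ v w : G, v * x = x * v → w * x = x * w → v * w = w * v

namespace Hy

theorem cz (h : Hy p z x y) {c : G} (hc : c ∈ zpowers z) (g : G) : Commute g c := by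
  obtain ⟨i, rfl⟩ := hc
  have : Commute g z := h.zc g
  exact this.zpow_right i

theorem class2 (h : Hy p z x y) : Class2 G := fun a b => mem_center_iff.2 fun g => (h.cz (h.comm a b) g).eq

theorem xp (h : Hy p z x y) : x ^ p = 1 := h.cp x rfl

theorem decomp (h : Hy p z x y) (w : G) : ∃ i j : ℤ, ∃ c ∈ center G, w = y ^ i * x ^ j * c := by
  have hcl := h.class2
  have key : ∀ w : G, ∃ i : ℤ, ∃ v, v * x = x * v ∧ w = y ^ i * v := by
    intro w
    obtain ⟨i, hi⟩ := h.comm w x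
    have hi' : z ^ i = ⁅w, x⁆ := hi
    refine ⟨i, (y ^ i)⁻¹ * w, ?_, by group⟩
    rw [← commutatorElement_eq_one_iff_mul_comm, hcl.mul_left, hcl.inv_left, hcl.zpow_left, h.yx, hi', inv_mul_cancel]
  obtain ⟨i, v, hv, hw⟩ := key w
  obtain ⟨j, hj⟩ := h.comm y v
  have hj' : z ^ j = ⁅y, v⁆ := hj
  obtain ⟨c, hc⟩ : ∃ c, c = (x ^ j)⁻¹ * v := ⟨_, rfl⟩
  have hcx : c * x = x * c := by
    have h1 : Commute v x := hv
    have h2 : Commute x x := Commute.refl x
    rw [hc]
    exact ((h2.zpow_left j).inv_left.mul_left h1).eq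
  have hcy : y * c = c * y := by
    rw [← commutatorElement_eq_one_iff_mul_comm, hc, hcl.mul_right, hcl.inv_right, hcl.zpow_right, h.yx, hj', inv_mul_cancel]
  refine ⟨i, j, c, mem_center_iff.2 fun g => ?_, by rw [hw, hc]; group⟩
  obtain ⟨a, v', hv', hg⟩ := key g
  have h1 : Commute y c := hcy
  have h2 : Commute v' c := h.cab v' c hv' hcx
  rw [hg]
  exact ((h1.zpow_left a).mul_left h2).eq

theorem form (h : Hy p z x y) {e : G} (he : e ∈ closure ({x, y} : Set G)) : ∃ i j : ℤ, ∃ c ∈ zpowers z, e = y ^ i * x ^ j * c := by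
  induction he using closure_induction with
  | mem e he =>
    rcases he with rfl | rfl
    · exact ⟨0, 1, 1, one_mem _, by simp⟩
    · exact ⟨1, 0, 1, one_mem _, by simp⟩
  | one => exact ⟨0, 0, 1, one_mem _, by simp⟩
  | mul a b _ _ ha hb =>
    obtain ⟨i, j, c, hc, rfl⟩ := ha
    obtain ⟨i', j', c', hc', rfl⟩ := hb
    have h1 := h.comm (y ^ i')⁻¹ (x ^ j)
    refine ⟨i + i', j + j', ⁅(y ^ i')⁻¹, x ^ j⁆ * c * c', mul_mem (mul_mem h1 hc) hc', ?_⟩
    have e1 : x ^ j * y ^ i' = y ^ i' * ⁅(y ^ i')⁻¹, x ^ j⁆ * x ^ j := by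
      rw [commutatorElement_def]; group
    have c1 := (h.cz hc (y ^ i' * x ^ j')).eq
    have c2 := (h.cz h1 (x ^ j * x ^ j')).eq
    rw [zpow_add, zpow_add]
    calc y ^ i * x ^ j * c * (y ^ i' * x ^ j' * c') = y ^ i * x ^ j * (c * (y ^ i' * x ^ j')) * c' := by group
      _ = y ^ i * (x ^ j * y ^ i') * x ^ j' * c * c' := by rw [← c1]; group
      _ = y ^ i * y ^ i' * (⁅(y ^ i')⁻¹, x ^ j⁆ * (x ^ j * x ^ j')) * c * c' := by rw [e1]; group
      _ = _ := by rw [← c2]; group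
  | inv a _ ha =>
    obtain ⟨i, j, c, hc, rfl⟩ := ha
    have h1 := h.comm (y ^ i) (x ^ j)⁻¹
    refine ⟨-i, -j, ⁅y ^ i, (x ^ j)⁻¹⁆ * c⁻¹, mul_mem h1 (inv_mem hc), ?_⟩
    have e1 : (x ^ j)⁻¹ * (y ^ i)⁻¹ = (y ^ i)⁻¹ * ⁅y ^ i, (x ^ j)⁻¹⁆ * (x ^ j)⁻¹ := by
      rw [commutatorElement_def]; group
    have c1 := (h.cz (inv_mem hc) ((x ^ j)⁻¹ * (y ^ i)⁻¹)).eq
    have c2 := (h.cz h1 (x ^ j)⁻¹).eq
    rw [zpow_neg, zpow_neg]
    calc (y ^ i * x ^ j * c)⁻¹ = c⁻¹ * ((x ^ j)⁻¹ * (y ^ i)⁻¹) := by group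
      _ = (x ^ j)⁻¹ * (y ^ i)⁻¹ * c⁻¹ := by rw [← c1]
      _ = (y ^ i)⁻¹ * (⁅y ^ i, (x ^ j)⁻¹⁆ * (x ^ j)⁻¹) * c⁻¹ := by rw [e1]; group
      _ = _ := by rw [← c2]; group

theorem cen (h : Hy p z x y) {e : G} (he : e ∈ closure ({x, y} : Set G)) (hx : e * x = x * e) (hy : e * y = y * e) : e ∈ zpowers z := by
  have hcl := h.class2
  obtain ⟨i, j, c, hc, rfl⟩ := h.form he
  have hc' := h.cz hc
  have h1 : z ^ i = 1 := by
    have h2 := commutatorElement_eq_one_iff_mul_comm.2 hx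
    rw [hcl.mul_left, hcl.mul_left, hcl.zpow_left, hcl.zpow_left, h.yx, commutatorElement_self, one_zpow, mul_one,
      commutatorElement_eq_one_iff_mul_comm.2 (hc' x).symm.eq, mul_one] at h2
    exact h2
  have h3 : z ^ j = 1 := by
    have h2 := commutatorElement_eq_one_iff_mul_comm.2 hy.symm
    rw [hcl.mul_right, hcl.mul_right, hcl.zpow_right, hcl.zpow_right, h.yx, commutatorElement_self, one_zpow, one_mul,
      commutatorElement_eq_one_iff_mul_comm.2 (hc' y).eq, mul_one] at h2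
    exact h2
  have h4 : ∀ k : ℤ, z ^ k = 1 → (p : ℤ) ∣ k := fun k hk => by rw [← h.ord]; exact orderOf_dvd_iff_zpow_eq_one.2 hk
  obtain ⟨m, rfl⟩ := h4 i h1
  obtain ⟨n, rfl⟩ := h4 j h3
  rw [zpow_mul, zpow_mul, zpow_natCast, zpow_natCast, h.yp, h.xp, one_zpow, one_zpow, one_mul, one_mul]
  exact hc

theorem split (h : Hy p z x y) : ∃ A : Subgroup G, IsCompl (closure ({x, y} : Set G)) A ∧ A ≤ center G ∧ ∀ a ∈ A, a ^ p = 1 := by
  have hzE : zpowers z ≤ closure ({x, y} : Set G) := by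
    rw [zpowers_le, ← h.yx, commutatorElement_def]
    have hx : x ∈ closure ({x, y} : Set G) := subset_closure (Or.inl rfl)
    have hy : y ∈ closure ({x, y} : Set G) := subset_closure (Or.inr rfl)
    exact mul_mem (mul_mem (mul_mem hy hx) (inv_mem hy)) (inv_mem hx)
  have hzc : zpowers z ≤ center G := by
    rw [zpowers_le, mem_center_iff]; exact h.zc
  have hcen : ∀ c ∈ center G, c ^ p = 1 := fun c hc => h.cp c (mem_center_iff.1 hc x).symm
  obtain ⟨L, hL, hL1, hL2⟩ := SuperE.exists_compl_elementary hzc (fun a ha b _ => (mem_center_iff.1 ha b).symm) hcen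
  refine ⟨L, ⟨?_, ?_⟩, hL, fun a ha => hcen a (hL ha)⟩
  · rw [disjoint_iff, eq_bot_iff]
    rintro e ⟨he, heL⟩
    have hc := mem_center_iff.1 (hL heL)
    rw [← hL1]
    exact ⟨h.cen he (hc x).symm (hc y).symm, heL⟩
  · rw [codisjoint_iff, eq_top_iff]
    intro w _
    obtain ⟨i, j, c, hc, rfl⟩ := h.decomp w
    have hx : x ∈ closure ({x, y} : Set G) := subset_closure (Or.inl rfl)
    have hy : y ∈ closure ({x, y} : Set G) := subset_closure (Or.inr rfl)
    refine mul_mem (mem_sup_left (mul_mem (zpow_mem hy i) (zpow_mem hx j))) ?_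
    rw [← hL2] at hc
    exact sup_le_sup_right hzE _ hc

theorem dat (h : Hy p z x y) : ∃ z' x' y' : closure ({x, y} : Set G), Dat p z' ∧ ⁅y', x'⁆ = z' ∧ (x' : G) = x ∧ (y' : G) = y ∧ (z' : G) = z ∧
    Nat.card (closure ({x, y} : Set G)) = p ^ 3 := by
  have hx : x ∈ closure ({x, y} : Set G) := subset_closure (Or.inl rfl)
  have hy : y ∈ closure ({x, y} : Set G) := subset_closure (Or.inr rfl)
  have hz : z ∈ closure ({x, y} : Set G) := by
    rw [← h.yx, commutatorElement_def]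
    exact mul_mem (mul_mem (mul_mem hy hx) (inv_mem hy)) (inv_mem hx)
  have hmem : ∀ (w : closure ({x, y} : Set G)), (w : G) ∈ zpowers z → w ∈ zpowers (⟨z, hz⟩ : closure ({x, y} : Set G)) := by
    rintro w ⟨i, hi⟩
    exact ⟨i, Subtype.ext hi⟩
  have D : Dat p (⟨z, hz⟩ : closure ({x, y} : Set G)) := by
    refine ⟨?_, fun w => Subtype.ext (h.zc w), fun a b => hmem _ (h.comm a b), fun w hw => hmem _ (h.cen w.2 ?_ ?_)⟩
    · rw [← Subgroup.orderOf_coe]; exact h.ord
    · exact congrArg Subtype.val (hw ⟨x, hx⟩)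
    · exact congrArg Subtype.val (hw ⟨y, hy⟩)
  have hyx : ⁅(⟨y, hy⟩ : closure ({x, y} : Set G)), (⟨x, hx⟩ : closure ({x, y} : Set G))⁆ = (⟨z, hz⟩ : closure ({x, y} : Set G)) := Subtype.ext h.yx
  refine ⟨⟨z, hz⟩, ⟨x, hx⟩, ⟨y, hy⟩, D, hyx, rfl, rfl, rfl, ?_⟩
  rw [D.card_eq hyx]
  have h1 : centralizer ({⟨y, hy⟩, ⟨x, hx⟩} : Set (closure ({x, y} : Set G))) = zpowers (⟨z, hz⟩ : closure ({x, y} : Set G)) := by
    apply le_antisymm
    · intro w hw
      rw [mem_centralizer_iff] at hw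
      refine hmem _ (h.cen w.2 ?_ ?_)
      · exact (congrArg Subtype.val (hw ⟨x, hx⟩ (Or.inr rfl))).symm
      · exact (congrArg Subtype.val (hw ⟨y, hy⟩ (Or.inl rfl))).symm
    · rw [zpowers_le, mem_centralizer_iff]
      intro w _
      exact D.zc w
  rw [h1, Nat.card_zpowers, D.ord]; ring

end Hy

/-- extraspecial groups from the data -/
theorem exsp_of_dat {E : Type*} [Group E] [Finite E] {z x y : E} (D : Dat p z) (hyx : ⁅y, x⁆ = z) (hc : Nat.card E = p ^ 3) :
    Cfsg.IsExtraspecial p E := by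
  have hE : IsPGroup p E := IsPGroup.of_card hc
  have hcen : center E = zpowers z := by
    apply le_antisymm
    · intro w hw; exact D.cen w fun y => (mem_center_iff.1 hw y).symm
    · rw [zpowers_le, mem_center_iff]; exact D.zc
  have hcom : commutator E = zpowers z := by
    apply le_antisymm
    · rw [commutator_def, commutator_le]; exact fun a _ b _ => D.comm a b
    · rw [zpowers_le, ← hyx, commutator_def]; exact commutator_mem_commutator (mem_top _) (mem_top _)
  have hfr : frattini E = zpowers z := by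
    apply le_antisymm
    · haveI : (zpowers z).Normal := by rw [← hcen]; infer_instance
      exact Nilp.frattini_le_of_elementary_quotient (p := p) _ (by rw [hcom]) (fun w => D.pow_mem w)
    · rw [← hcom]; exact Nilp.commutator_le_frattini hE
  exact ⟨⟨hE, by rw [hfr, hcen], by rw [hcom, hcen]⟩, by rw [hcen, Nat.card_zpowers, D.ord]⟩

/-- transport of extraspecial groups -/
theorem exsp_equiv {E : Type*} {E' : Type*} [Group E] [Group E'] [Finite E] (e : E ≃* E') (h : Cfsg.IsExtraspecial p E) :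
    Cfsg.IsExtraspecial p E' := by
  haveI : Finite E' := Finite.of_equiv E e.toEquiv
  obtain ⟨⟨h1, h2, h3⟩, h4⟩ := h
  have hcen : (center E).map e.toMonoidHom = center E' := by
    ext w
    constructor
    · rintro ⟨v, hv, rfl⟩
      rw [mem_center_iff]
      intro g
      obtain ⟨g, rfl⟩ := e.surjective g
      show e g * e v = e v * e g
      rw [← map_mul, ← map_mul, mem_center_iff.1 hv g]
    · intro hw
      refine ⟨e.symm w, mem_center_iff.2 fun g => e.injective ?_, e.apply_symm_apply w⟩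
      rw [map_mul, map_mul, e.apply_symm_apply]; exact mem_center_iff.1 hw (e g)
  have hcom : (commutator E).map e.toMonoidHom = commutator E' := by
    rw [commutator_def, commutator_def, map_commutator, map_top_of_surjective _ e.surjective]
  have hp' : IsPGroup p E' := h1.of_equiv e
  have hfr : frattini E' = center E' := by
    apply le_antisymm
    · refine Nilp.frattini_le_of_elementary_quotient (p := p) _ ?_ fun w => ?_
      · rw [← hcom, ← hcen, h3]
      · rw [← hcen, ← h2]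
        refine ⟨(e.symm w) ^ p, Nilp.pow_mem_frattini h1 _, ?_⟩
        show e ((e.symm w) ^ p) = w ^ p
        rw [map_pow, e.apply_symm_apply]
    · rw [← hcen, ← h3, hcom]; exact Nilp.commutator_le_frattini hp'
  refine ⟨⟨hp', hfr, by rw [← hcom, h3, hcen]⟩, ?_⟩
  rw [← hcen, card_map_of_injective e.injective, h4]

/-- odd exponent `p` -/
theorem odd_iso (h : Hy p z x y) (hexp : ∀ g : G, g ^ p = 1) :
    ∃ (E : Type) (_ : Group E) (A : Type) (_ : CommGroup A), Cfsg.IsExtraspecial p E ∧ Nat.card E = p ^ 3 ∧ Monoid.exponent E = p ∧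
      (∀ a : A, a ^ p = 1) ∧ Nonempty (G ≃* E × A) := by
  obtain ⟨A, hcompl, hA, hAp⟩ := h.split
  obtain ⟨z', x', y', D, hyx, hx', hy', hz', hcard⟩ := h.dat
  obtain ⟨e, he⟩ := OddFeit.exists_equiv hcompl (fun a _ b hb => mem_center_iff.1 (hA hb) a)
  letI : CommGroup A := { mul_comm := fun a b => Subtype.ext ((mem_center_iff.1 (hA a.2) b).symm) }
  let eE := (Shrink.mulEquiv.{0} (α := closure ({x, y} : Set G)))
  let eA := (Shrink.mulEquiv.{0} (α := A))
  have hex := exsp_of_dat D hyx hcard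
  refine ⟨Shrink.{0} (closure ({x, y} : Set G)), inferInstance, Shrink.{0} A, inferInstance, exsp_equiv eE.symm hex, ?_, ?_, ?_, ⟨?_⟩⟩
  · rw [← hcard]; exact Nat.card_congr eE.toEquiv
  · rw [Monoid.exponent_eq_of_mulEquiv eE]
    have h1 : Monoid.exponent (closure ({x, y} : Set G)) ∣ p := Monoid.exponent_dvd_of_forall_pow_eq_one fun g => Subtype.ext (hexp g)
    refine ((Nat.dvd_prime hp.out).1 h1).resolve_left fun h2 => ?_
    have h3 : z' = 1 := by
      have h5 := Monoid.pow_exponent_eq_one z'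
      rwa [h2, pow_one] at h5
    have h4 := D.ord
    rw [h3, orderOf_one] at h4
    exact hp.out.one_lt.ne h4
  · intro a
    apply eA.injective
    rw [map_pow, map_one]
    exact Subtype.ext (hAp _ (eA a).2)
  · exact e.symm.trans (MulEquiv.prodCongr eE.symm eA.symm)

/-- `p = 2` -/
theorem two_iso {z x y : G} (h : Hy 2 z x y) :
    ∃ (A : Type) (_ : CommGroup A), (∀ a : A, a ^ 2 = 1) ∧ Nonempty (G ≃* DihedralGroup 4 × A) := by
  obtain ⟨A, hcompl, hA, hAp⟩ := h.split
  obtain ⟨z', x', y', D, hyx, hx', hy', hz', hcard⟩ := h.dat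
  obtain ⟨e, he⟩ := OddFeit.exists_equiv hcompl (fun a _ b hb => mem_center_iff.1 (hA hb) a)
  letI : CommGroup A := { mul_comm := fun a b => Subtype.ext ((mem_center_iff.1 (hA a.2) b).symm) }
  let eA := (Shrink.mulEquiv.{0} (α := A))
  have hx2 : x' ^ 2 = 1 := Subtype.ext (by rw [Subgroup.coe_pow, hx']; exact h.xp)
  have hy2 : y' ^ 2 = 1 := Subtype.ext (by rw [Subgroup.coe_pow, hy']; exact h.yp)
  have hxi : x'⁻¹ = x' := by rw [inv_eq_iff_mul_eq_one, ← sq, hx2]
  have hyi : y'⁻¹ = y' := by rw [inv_eq_iff_mul_eq_one, ← sq, hy2]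
  rw [commutatorElement_def, hxi, hyi] at hyx
  -- `a = y x` has order 4
  have ha2 : (y' * x') ^ 2 = z' := by rw [sq, ← hyx]; group
  have hz2 : z' ^ 2 = 1 := by
    have := pow_orderOf_eq_one z'
    rwa [D.ord] at this
  have hz1 : z' ≠ 1 := by
    intro h1
    have h4 := D.ord
    rw [h1, orderOf_one] at h4
    exact absurd h4 (by norm_num)
  have ho : orderOf (y' * x') = 2 ^ (1 + 1) := by
    apply orderOf_eq_prime_pow
    · rw [pow_one, ha2]; exact hz1
    · rw [pow_succ, pow_one, pow_mul, ha2, hz2]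
  have ho4 : orderOf (y' * x') = 4 := by rw [ho]; norm_num
  have hinv : x' * (y' * x') * x'⁻¹ = (y' * x')⁻¹ := by
    rw [mul_inv_rev, hxi, hyi]
    calc x' * (y' * x') * x' = x' * y' * (x' * x') := by group
      _ = _ := by rw [← sq, hx2, mul_one]
  have hnot : x' ∉ zpowers (y' * x') := by
    rintro ⟨i, hi⟩
    have hi' : (y' * x') ^ i = x' := hi
    have h1 : Commute x' (y' * x') := by
      have h5 : Commute ((y' * x') ^ i) (y' * x') := (Commute.refl (y' * x')).zpow_left i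
      rwa [hi'] at h5
    have h2 : x' * (y' * x') * x'⁻¹ = y' * x' := by rw [h1.eq, mul_inv_cancel_right]
    rw [hinv] at h2
    have h3 : (y' * x') ^ 2 = 1 := by rw [sq]; nth_rw 1 [← h2]; exact inv_mul_cancel _
    rw [ha2] at h3
    exact hz1 h3
  obtain ⟨φ⟩ := PGrpD.dihedral_iso hx2 hinv hnot (by rw [hcard, ho4]; norm_num)
  rw [ho4] at φ
  refine ⟨Shrink.{0} A, inferInstance, ?_, ⟨?_⟩⟩
  · intro a
    apply eA.injective
    rw [map_pow, map_one]
    exact Subtype.ext (hAp _ (eA a).2)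
  · exact e.symm.trans (MulEquiv.prodCongr φ eA.symm)

end Cfsg.Agent.Lib.OmgE
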