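import Mathlib
import Cfsg.Agent.Lib.Orth17

/-! Discriminants of the standard forms. -/

set_option linter.all false

namespace Cfsg.Agent.Lib.Orth

open Module QuadraticMap

variable {F : Type*} [Field F]

theorem det_gram_plus (m : ℕ) :
    (gram ⇑(qPlus m F) (Pi.basisFun F (Fin m ⊕ Fin m))).det = (-1) ^ m := by
  rw [← det_swap_block m]
  congr 1
  ext i j
  rcases i with i | i <;> rcases j with j | j <;>
    simp [gram, Matrix.of_apply, polar_qPlus, Matrix.fromBlocks, Matrix.one_apply, Pi.single_apply,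
      Finset.sum_ite_eq, eq_comm]

theorem gram_swap_fromBlocks (m : ℕ) (D : Matrix (Fin 2) (Fin 2) F) :
    (Matrix.fromBlocks (Matrix.fromBlocks (0 : Matrix (Fin m) (Fin m) F) (1 : Matrix (Fin m) (Fin m) F)
      (1 : Matrix (Fin m) (Fin m) F) (0 : Matrix (Fin m) (Fin m) F)) 0 0 D).det
      = (-1) ^ m * D.det := by
  rw [Matrix.det_fromBlocks_zero₁₂, det_swap_block]

theorem det_gram_minus (m : ℕ) (a b : F) :
    (gram ⇑(qMinus m F a b) (Pi.basisFun F ((Fin m ⊕ Fin m) ⊕ Fin 2))).det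
      = (-1) ^ m * (4 * b - a ^ 2) := by
  have : gram ⇑(qMinus m F a b) (Pi.basisFun F ((Fin m ⊕ Fin m) ⊕ Fin 2))
      = Matrix.fromBlocks (Matrix.fromBlocks (0 : Matrix (Fin m) (Fin m) F) (1 : Matrix (Fin m) (Fin m) F)
      (1 : Matrix (Fin m) (Fin m) F) (0 : Matrix (Fin m) (Fin m) F)) 0 0 !![2, a; a, 2 * b] := by
    ext i j
    rcases i with (i | i) | i <;> rcases j with (j | j) | j <;>
      first
      | (simp [gram, Matrix.of_apply, polar_qMinus, Matrix.fromBlocks, Matrix.one_apply,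
          Pi.single_apply, Finset.sum_ite_eq, eq_comm]; done)
      | (fin_cases i <;> fin_cases j <;>
        simp [gram, Matrix.of_apply, polar_qMinus, Matrix.fromBlocks, Matrix.one_apply,
          Pi.single_apply, Finset.sum_ite_eq, eq_comm])
  rw [this, gram_swap_fromBlocks, Matrix.det_fin_two_of]
  ring

theorem even_half_iff {q m : ℕ} (hq : Odd q) : q ^ m % 4 = 1 ↔ Even (m * (q - 1) / 2) := by
  obtain ⟨k, rfl⟩ := hq
  have h1 : m * (2 * k + 1 - 1) / 2 = m * k := by
    rw [Nat.add_sub_cancel]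
    rw [show m * (2 * k) = 2 * (m * k) by ring]
    exact Nat.mul_div_cancel_left _ (by norm_num)
  rw [h1]
  rcases Nat.even_or_odd k with hk | hk
  · obtain ⟨l, rfl⟩ := hk
    have : (2 * (l + l) + 1) ^ m % 4 = 1 := by
      rw [Nat.pow_mod, show (2 * (l + l) + 1) % 4 = 1 by omega, one_pow]
      norm_num
    refine iff_of_true this ?_
    exact ⟨m * l, by ring⟩
  · obtain ⟨l, rfl⟩ := hk
    have h3 : (2 * (2 * l + 1) + 1) % 4 = 3 := by omega
    rw [Nat.pow_mod, h3]
    rcases Nat.even_or_odd m with hm | hm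
    · obtain ⟨j, rfl⟩ := hm
      refine iff_of_true ?_ ?_
      · rw [← two_mul, pow_mul, Nat.pow_mod, show 3 ^ 2 % 4 = 1 by norm_num, one_pow]
        norm_num
      · exact ⟨j * (2 * l + 1), by ring⟩
    · obtain ⟨j, rfl⟩ := hm
      refine iff_of_false ?_ ?_
      · rw [pow_succ, pow_mul, Nat.mul_mod, Nat.pow_mod, show 3 ^ 2 % 4 = 1 by norm_num, one_pow]
        norm_num
      · rw [Nat.not_even_iff_odd]
        exact (odd_two_mul_add_one j).mul (odd_two_mul_add_one l)

end Cfsg.Agent.Lib.Orth
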