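import Mathlib
import Cfsg.Agent.Lib.Orth14

/-! Maximal totally singular subspaces in even dimension `2m` (plus type) and reflections:
the parity of `dim (U ∩ W)`. -/

set_option linter.all false

namespace Cfsg.Agent.Lib.Orth

open Module QuadraticMap

section MS

variable {F : Type*} [Field F] {V : Type*} [AddCommGroup V] [Module F V] {Q : QuadraticForm F V}

/-- totally singular subspace of half the dimension -/
structure MS (Q : QuadraticForm F V) (U : Submodule F V) : Prop where
  sing : ∀ u ∈ U, Q u = 0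
  fr : 2 * finrank F U = finrank F V

theorem polar_eq_zero_of_sing {U : Submodule F V} (hU : ∀ u ∈ U, Q u = 0) {x y : V} (hx : x ∈ U)
    (hy : y ∈ U) : polar Q x y = 0 := by
  rw [polar, hU _ (U.add_mem hx hy), hU _ hx, hU _ hy]
  ring

theorem MS.map [FiniteDimensional F V] {U : Submodule F V} (h : MS Q U) {g : V ≃ₗ[F] V}
    (hg : g ∈ O Q) : MS Q (U.map (g : V →ₗ[F] V)) where
  sing := by
    rintro _ ⟨u, hu, rfl⟩
    exact (hg u).trans (h.sing u hu)
  fr := by
    rw [← h.fr]
    congr 1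
    exact LinearEquiv.finrank_map_eq g U

variable [FiniteDimensional F V]

theorem MS.perp_eq (hQ : ND Q) {U : Submodule F V} (h : MS Q U) : perp Q U = U := by
  symm
  refine Submodule.eq_of_le_of_finrank_eq ?_ ?_
  · intro x hx
    rw [mem_perp]
    intro y hy
    exact polar_eq_zero_of_sing h.sing hy hx
  · rw [finrank_perp hQ]
    have := h.fr
    omega

theorem MS.mem_iff (hQ : ND Q) {U : Submodule F V} (h : MS Q U) {x : V} :
    x ∈ U ↔ ∀ u ∈ U, polar Q x u = 0 := by
  conv_lhs => rw [← h.perp_eq hQ]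
  rw [mem_perp']

theorem MS.exists_ne (hQ : ND Q) {U : Submodule F V} (h : MS Q U) {x : V} (hx : x ∉ U) :
    ∃ u ∈ U, polar Q x u ≠ 0 := by
  by_contra hcon
  push Not at hcon
  exact hx ((h.mem_iff hQ).mpr hcon)

theorem map_refl_refl (W : Submodule F V) (v : V) :
    (W.map (refl Q v : V →ₗ[F] V)).map (refl Q v : V →ₗ[F] V) = W := by
  rw [← Submodule.map_comp]
  have : (refl Q v : V →ₗ[F] V).comp (refl Q v : V →ₗ[F] V) = LinearMap.id := by
    ext x
    have := congrArg (fun g : V ≃ₗ[F] V => g x) (refl_mul_self Q v)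
    exact this
  rw [this, Submodule.map_id]

theorem mem_map_refl {W : Submodule F V} {v x : V} :
    x ∈ W.map (refl Q v : V →ₗ[F] V) ↔ refl Q v x ∈ W := by
  constructor
  · rintro ⟨y, hy, rfl⟩
    have := congrArg (fun g : V ≃ₗ[F] V => g y) (refl_mul_self Q v)
    have h2 : refl Q v (refl Q v y) = y := this
    show refl Q v (refl Q v y) ∈ W
    rw [h2]
    exact hy
  · intro h
    refine ⟨refl Q v x, h, ?_⟩
    have := congrArg (fun g : V ≃ₗ[F] V => g x) (refl_mul_self Q v)
    exact this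

/-- the intersection drops by one -/
theorem flip_down (hQ : ND Q) {U W : Submodule F V} (hU : MS Q U) (hW : MS Q W) {v : V}
    (hv : Q v ≠ 0) (h : ∃ x ∈ U ⊓ W, polar Q x v ≠ 0) :
    finrank F ↥(U ⊓ W.map (refl Q v : V →ₗ[F] V)) + 1 = finrank F ↥(U ⊓ W) := by
  obtain ⟨w0, hw0, hw0v⟩ := h
  have hker : ∀ x, x ∈ LinearMap.ker (QuadraticMap.polarBilin Q v) ↔ polar Q x v = 0 := by
    intro x
    rw [LinearMap.mem_ker, QuadraticMap.polarBilin_apply_apply, polar_comm]
  have hlt := finrank_inf_ker_add_one (U ⊓ W) (QuadraticMap.polarBilin Q v)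
    ⟨w0, hw0, by rw [QuadraticMap.polarBilin_apply_apply, polar_comm]; exact hw0v⟩
  rw [← hlt]
  congr 1
  have heq : U ⊓ W.map (refl Q v : V →ₗ[F] V)
      = U ⊓ W ⊓ LinearMap.ker (QuadraticMap.polarBilin Q v) := by
    ext x
    simp only [Submodule.mem_inf, mem_map_refl, hker]
    constructor
    · rintro ⟨hxU, hxW⟩
      have h0 : polar Q x v = 0 := by
        have h1 : polar Q w0 (refl Q v x) = 0 :=
          polar_eq_zero_of_sing hW.sing hw0.2 hxW
        rw [refl_apply, polar_sub_right, polar_smul_right,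
          polar_eq_zero_of_sing hU.sing hw0.1 hxU, zero_sub, neg_eq_zero, smul_eq_mul] at h1
        rcases mul_eq_zero.mp h1 with h1 | h1
        · exact (mul_eq_zero.mp h1).resolve_left (inv_ne_zero hv)
        · exact absurd h1 hw0v
      rw [refl_of_orth h0] at hxW
      exact ⟨⟨hxU, hxW⟩, h0⟩
    · rintro ⟨⟨hxU, hxW⟩, h0⟩
      rw [refl_of_orth h0]
      exact ⟨hxU, hxW⟩
  rw [heq]

theorem mem_sup_of_orth (hQ : ND Q) {U W : Submodule F V} (hU : MS Q U) (hW : MS Q W) {v : V}
    (h : ∀ x ∈ U ⊓ W, polar Q x v = 0) : v ∈ U ⊔ W := by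
  rw [← perp_perp hQ (U ⊔ W), mem_perp]
  intro x hx
  refine h x ⟨?_, ?_⟩
  · refine (hU.mem_iff hQ).mpr (fun u hu => ?_)
    rw [polar_comm]
    exact mem_perp.mp hx u (Submodule.mem_sup_left hu)
  · refine (hW.mem_iff hQ).mpr (fun u hu => ?_)
    rw [polar_comm]
    exact mem_perp.mp hx u (Submodule.mem_sup_right hu)

/-- the intersection grows by one -/
theorem flip_up (hQ : ND Q) {U W : Submodule F V} (hU : MS Q U) (hW : MS Q W) {v : V}
    (hv : Q v ≠ 0) (h : ∀ x ∈ U ⊓ W, polar Q x v = 0) :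
    finrank F ↥(U ⊓ W.map (refl Q v : V →ₗ[F] V)) = finrank F ↥(U ⊓ W) + 1 := by
  obtain ⟨u, hu, w, hw, huw⟩ := Submodule.mem_sup.mp (mem_sup_of_orth hQ hU hW h)
  have hQv : Q v = polar Q u w := by
    rw [← huw, map_add', hU.sing u hu, hW.sing w hw, zero_add, zero_add]
  have hrw : refl Q v u = -w := by
    have h1 : polar Q u v = Q v := by
      rw [← huw, polar_add_right, polar_eq_zero_of_sing hU.sing hu hu, zero_add, huw, ← hQv]
    rw [refl_apply, h1, inv_mul_cancel₀ hv, one_smul, ← huw]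
    abel
  have := flip_down hQ hU (hW.map (refl_mem Q v)) hv ⟨u, ⟨hu, mem_map_refl.mpr (by
    rw [hrw]; exact W.neg_mem hw)⟩, by
      rw [← huw, polar_add_right, polar_eq_zero_of_sing hU.sing hu hu, zero_add, ← hQv]
      exact hv⟩
  rw [map_refl_refl] at this
  exact this.symm

theorem flip_parity (hQ : ND Q) {U W : Submodule F V} (hU : MS Q U) (hW : MS Q W) {v : V}
    (hv : Q v ≠ 0) : Even (finrank F ↥(U ⊓ W.map (refl Q v : V →ₗ[F] V)) +
      finrank F ↥(U ⊓ W) + 1) := by
  by_cases h : ∀ x ∈ U ⊓ W, polar Q x v = 0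
  · rw [flip_up hQ hU hW hv h]
    exact ⟨finrank F ↥(U ⊓ W) + 1, by ring⟩
  · push Not at h
    rw [← flip_down hQ hU hW hv h]
    exact ⟨finrank F ↥(U ⊓ W.map (refl Q v : V →ₗ[F] V)) + 1, by ring⟩

theorem parity_rprod (hQ : ND Q) {U W : Submodule F V} (hU : MS Q U) (hW : MS Q W) (vs : List V)
    (h : ∀ v ∈ vs, Q v ≠ 0) :
    Even (finrank F ↥(U ⊓ W.map (rprod Q vs : V →ₗ[F] V)) + finrank F ↥(U ⊓ W) + vs.length) := by
  induction vs with
  | nil =>
    have : W.map ((rprod Q [] : V ≃ₗ[F] V) : V →ₗ[F] V) = W := by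
      rw [rprod_nil]
      exact Submodule.map_id W
    rw [this, List.length_nil, add_zero]
    exact ⟨_, rfl⟩
  | cons v vs ih =>
    have h1 : W.map ((rprod Q (v :: vs) : V ≃ₗ[F] V) : V →ₗ[F] V)
        = (W.map (rprod Q vs : V →ₗ[F] V)).map (refl Q v : V →ₗ[F] V) := by
      rw [rprod_cons, ← Submodule.map_comp]
      rfl
    have h2 := ih (fun w hw => h w (List.mem_cons_of_mem _ hw))
    have h3 := flip_parity hQ hU (hW.map (rprod_mem vs)) (h v List.mem_cons_self)
    rw [h1, List.length_cons]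
    rw [Nat.even_iff] at h2 h3 ⊢
    omega

/-- every totally singular subspace can be moved into `W` by reflections -/
theorem exists_le_map (hQ : ND Q) {U W : Submodule F V} (hU : ∀ u ∈ U, Q u = 0) (hW : MS Q W) :
    ∃ vs : List V, (∀ v ∈ vs, Q v ≠ 0) ∧ U ≤ W.map (rprod Q vs : V →ₗ[F] V) := by
  have key : ∀ k : ℕ, ∀ W : Submodule F V, MS Q W → finrank F U ≤ finrank F ↥(U ⊓ W) + k →
      ∃ vs : List V, (∀ v ∈ vs, Q v ≠ 0) ∧ U ≤ W.map (rprod Q vs : V →ₗ[F] V) := by
    intro k
    induction k with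
    | zero =>
      intro W hW hk
      refine ⟨[], by simp, ?_⟩
      have : U ⊓ W = U := Submodule.eq_of_le_of_finrank_le inf_le_left (by simpa using hk)
      have h1 : W.map ((rprod Q [] : V ≃ₗ[F] V) : V →ₗ[F] V) = W := by
        rw [rprod_nil]
        exact Submodule.map_id W
      rw [h1]
      exact inf_eq_left.mp this
    | succ k ih =>
      intro W hW hk
      by_cases hle : U ≤ W
      · refine ⟨[], by simp, ?_⟩
        have h1 : W.map ((rprod Q [] : V ≃ₗ[F] V) : V →ₗ[F] V) = W := by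
          rw [rprod_nil]
          exact Submodule.map_id W
        rw [h1]
        exact hle
      · obtain ⟨u, hu, huW⟩ := Set.not_subset.mp hle
        obtain ⟨w, hw, huw⟩ := hW.exists_ne hQ huW
        have hQv : Q (u + w) = polar Q u w := by
          rw [map_add', hU u hu, hW.sing w hw, zero_add, zero_add]
        have hv : Q (u + w) ≠ 0 := by rw [hQv]; exact huw
        have hsub : ∀ x ∈ U ⊓ W, polar Q x (u + w) = 0 := by
          rintro x ⟨hxU, hxW⟩
          rw [polar_add_right, polar_eq_zero_of_sing hU hxU hu,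
            polar_eq_zero_of_sing hW.sing hxW hw, add_zero]
        have hrw : refl Q (u + w) u = -w := by
          have h1 : polar Q u (u + w) = Q (u + w) := by
            rw [polar_add_right, polar_eq_zero_of_sing hU hu hu, zero_add, hQv]
          rw [refl_apply, h1, inv_mul_cancel₀ hv, one_smul]
          abel
        have hlt : U ⊓ W < U ⊓ W.map (refl Q (u + w) : V →ₗ[F] V) := by
          refine lt_of_le_of_ne ?_ ?_
          · rintro x hx
            refine ⟨hx.1, mem_map_refl.mpr ?_⟩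
            rw [refl_of_orth (hsub x hx)]
            exact hx.2
          · intro heq
            have : u ∈ U ⊓ W := by
              rw [heq]
              refine ⟨hu, mem_map_refl.mpr ?_⟩
              rw [hrw]
              exact W.neg_mem hw
            exact huW this.2
        have hfr := Submodule.finrank_lt_finrank_of_lt hlt
        obtain ⟨vs, hvs, hle'⟩ := ih (W.map (refl Q (u + w) : V →ₗ[F] V)) (hW.map (refl_mem Q _))
          (by omega)
        refine ⟨vs ++ [u + w], ?_, ?_⟩
        · intro v hv'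
          rcases List.mem_append.mp hv' with hv' | hv'
          · exact hvs v hv'
          · rw [List.mem_singleton.mp hv']
            exact hv
        · refine hle'.trans (le_of_eq ?_)
          rw [rprod_append, ← Submodule.map_comp]
          congr 1
  exact key (finrank F U) W hW (by omega)

theorem MS.eq_of_le {U W : Submodule F V} (hU : MS Q U) (hW : MS Q W) (h : U ≤ W) : U = W :=
  Submodule.eq_of_le_of_finrank_eq h (by have := hU.fr; have := hW.fr; omega)

/-- **the two families** -/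
theorem parity_three (hQ : ND Q) {U W X : Submodule F V} (hU : MS Q U) (hW : MS Q W)
    (hX : MS Q X) : Even (finrank F ↥(U ⊓ W) + finrank F ↥(W ⊓ X) + finrank F ↥(U ⊓ X)
      + finrank F U) := by
  obtain ⟨vs, hvs, hle⟩ := exists_le_map hQ hX.sing hW
  have heq := hX.eq_of_le (hW.map (rprod_mem vs)) hle
  have h1 := parity_rprod hQ hU hW vs hvs
  have h2 := parity_rprod hQ hW hW vs hvs
  rw [← heq] at h1 h2
  rw [inf_idem] at h2
  have hfr : finrank F U = finrank F W := by have := hU.fr; have := hW.fr; omega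
  rw [Nat.even_iff] at h1 h2 ⊢
  omega

theorem exists_meet_codim_one (hQ : ND Q) {U : Submodule F V} (hU : MS Q U)
    (hpos : 1 ≤ finrank F V) : ∃ W, MS Q W ∧ finrank F ↥(U ⊓ W) + 1 = finrank F U := by
  obtain ⟨v, hv⟩ := exists_Q_ne_zero hQ hpos
  refine ⟨U.map (refl Q v : V →ₗ[F] V), hU.map (refl_mem Q v), ?_⟩
  have hvU : v ∉ U := fun h => hv (hU.sing v h)
  obtain ⟨u, hu, huv⟩ := hU.exists_ne hQ hvU
  have := flip_down hQ hU hU hv ⟨u, ⟨hu, hu⟩, by rw [polar_comm]; exact huv⟩
  rw [this, inf_idem]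

theorem exists_MS_ge (hQ : ND Q) {E : Submodule F V} (hE : MS Q E) {U : Submodule F V}
    (hU : ∀ u ∈ U, Q u = 0) : ∃ W, MS Q W ∧ U ≤ W := by
  obtain ⟨vs, hvs, hle⟩ := exists_le_map hQ hU hE
  exact ⟨_, hE.map (rprod_mem vs), hle⟩

/-- a totally singular subspace of codimension one in an `MS` is in exactly two `MS` -/
theorem exists_two_MS (hQ : ND Q) {E : Submodule F V} (hE : MS Q E) {U : Submodule F V}
    (hU : ∀ u ∈ U, Q u = 0) (hfr : 2 * (finrank F U + 1) = finrank F V) :
    ∃ W₁ W₂, W₁ ≠ W₂ ∧ ∀ W, (MS Q W ∧ U ≤ W) ↔ (W = W₁ ∨ W = W₂) := by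
  obtain ⟨W₁, hW₁, hUW₁⟩ := exists_MS_ge hQ hE hU
  -- nonsingular vector in `U^⊥`
  have : ∃ v ∈ perp Q U, Q v ≠ 0 := by
    by_contra hcon
    push Not at hcon
    have h1 := two_mul_finrank_le hQ hcon
    rw [finrank_perp hQ] at h1
    omega
  obtain ⟨v, hvU, hv⟩ := this
  have hfix : ∀ x ∈ U, polar Q x v = 0 := fun x hx => mem_perp.mp hvU x hx
  have hvW : v ∉ W₁ := fun h => hv (hW₁.sing v h)
  obtain ⟨u, hu, huv⟩ := hW₁.exists_ne hQ hvW
  have hd := flip_down hQ hW₁ hW₁ hv ⟨u, ⟨hu, hu⟩, by rw [polar_comm]; exact huv⟩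
  rw [inf_idem] at hd
  have hW₂ := hW₁.map (refl_mem Q v)
  have hUW₂ : U ≤ W₁.map (refl Q v : V →ₗ[F] V) := by
    intro x hx
    rw [mem_map_refl, refl_of_orth (hfix x hx)]
    exact hUW₁ hx
  refine ⟨W₁, W₁.map (refl Q v : V →ₗ[F] V), ?_, ?_⟩
  · intro heq
    rw [← heq, inf_idem] at hd
    omega
  · intro W
    constructor
    · rintro ⟨hW, hUW⟩
      by_contra hcon
      push Not at hcon
      have hf1 := hW₁.fr
      have hf := hW.fr
      have hlow : ∀ A B : Submodule F V, MS Q A → MS Q B → U ≤ A → U ≤ B → A ≠ B →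
          finrank F ↥(A ⊓ B) = finrank F U := by
        intro A B hA hB hUA hUB hne
        have h1 := Submodule.finrank_mono (le_inf hUA hUB)
        have h2 : A ⊓ B < A := by
          refine lt_of_le_of_ne inf_le_left ?_
          intro h
          exact hne (hA.eq_of_le hB (inf_eq_left.mp h))
        have h3 := Submodule.finrank_lt_finrank_of_lt h2
        have := hA.fr
        omega
      have e1 := hlow _ _ hW₁ hW₂ hUW₁ hUW₂ (by
        intro heq
        rw [← heq, inf_idem] at hd
        omega)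
      have e2 := hlow _ _ hW₂ hW hUW₂ hUW (Ne.symm hcon.2)
      have e3 := hlow _ _ hW₁ hW hUW₁ hUW (Ne.symm hcon.1)
      have := parity_three hQ hW₁ hW₂ hW
      rw [e1, e2, e3] at this
      obtain ⟨r, hr⟩ := this
      omega
    · rintro (rfl | rfl)
      · exact ⟨hW₁, hUW₁⟩
      · exact ⟨hW₂, hUW₂⟩

end MS

section Std

variable {F : Type*} [Field F] {m : ℕ}

/-- the standard maximal singular subspace `y = 0` -/
def eSpace (m : ℕ) (F : Type*) [Field F] : Submodule F (Fin m ⊕ Fin m → F) where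
  carrier := {v | ∀ i, v (Sum.inr i) = 0}
  add_mem' := fun {a b} ha hb i => by rw [Pi.add_apply, ha i, hb i, add_zero]
  zero_mem' := fun i => rfl
  smul_mem' := fun c {a} ha i => by rw [Pi.smul_apply, ha i, smul_zero]

theorem mem_eSpace {v : Fin m ⊕ Fin m → F} : v ∈ eSpace m F ↔ ∀ i, v (Sum.inr i) = 0 := Iff.rfl

theorem finrank_eSpace : finrank F (eSpace m F) = m := by
  have e : eSpace m F ≃ₗ[F] (Fin m → F) :=
    { toFun := fun v i => v.1 (Sum.inl i)
      invFun := fun w => ⟨Sum.elim w 0, fun i => rfl⟩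
      left_inv := by
        rintro ⟨v, hv⟩
        apply Subtype.ext
        funext i
        rcases i with i | i
        · rfl
        · exact (hv i).symm
      right_inv := fun w => rfl
      map_add' := fun _ _ => rfl
      map_smul' := fun _ _ => rfl }
  rw [e.finrank_eq, finrank_fin]

theorem eSpace_MS : MS (qPlus m F) (eSpace m F) where
  sing := by
    intro v hv
    rw [qPlus_apply, Cfsg.quadFormPlus]
    exact Finset.sum_eq_zero (fun i _ => by rw [mem_eSpace.mp hv i, mul_zero])
  fr := by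
    rw [finrank_eSpace, finrank_pi', Fintype.card_sum, Fintype.card_fin]
    ring

theorem MS_iff (U : Submodule F (Fin m ⊕ Fin m → F)) : MS (qPlus m F) U ↔
    (finrank F U = m ∧ ∀ w ∈ U, Cfsg.quadFormPlus m F w = 0) := by
  have h0 : finrank F (Fin m ⊕ Fin m → F) = 2 * m := by
    rw [finrank_pi', Fintype.card_sum, Fintype.card_fin]; ring
  constructor
  · intro h
    refine ⟨?_, fun w hw => (qPlus_apply w).symm.trans (h.sing w hw)⟩
    have := h.fr
    omega
  · rintro ⟨h1, h2⟩
    exact ⟨fun w hw => (qPlus_apply w).trans (h2 w hw), by omega⟩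

end Std

end Cfsg.Agent.Lib.Orth
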