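import Mathlib
import Cfsg.Agent.Lib.Orth19
import Cfsg.Agent.Lib.Orth18

/-! Swaps and diagonal elements as products of reflections. -/

set_option linter.all false

namespace Cfsg.Agent.Lib.Orth

open Module QuadraticMap

section Lists

variable {F : Type*} [Field F] {V : Type*} [AddCommGroup V] [Module F V] [FiniteDimensional F V]
  {Q : QuadraticForm F V} {m : ℕ} {e f : Fin m → V}

theorem Q_sub_smul (h : HF Q e f) (j : Fin m) (c : F) : Q (e j - c • f j) = -c := by
  rw [map_sub', h.he, map_smul', h.hf, polar_smul_right, h.hef, if_pos rfl, smul_eq_mul]; ring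

/-- `r_{e - c f}` swaps `e` with `c f` -/
theorem refl_sub_e {x y : V} (h : Hyp Q x y) {c : F} (hc : c ≠ 0) :
    refl Q (x - c • y) x = c • y := by
  refine refl_sub ?_ ?_
  · rw [h.he, map_smul', h.hf, mul_zero]
  · rw [map_sub', h.he, map_smul', h.hf, polar_smul_right, h.hef, smul_eq_mul]
    simpa using hc

theorem refl_sub_f {x y : V} (h : Hyp Q x y) {c : F} (hc : c ≠ 0) :
    refl Q (x - c • y) y = c⁻¹ • x := by
  have h1 : refl Q (x - c • y) (c • y) = x := by
    have h2 := refl_sub_e h hc
    have h3 := congrArg (fun g : V ≃ₗ[F] V => g x) (refl_mul_self Q (x - c • y))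
    have h4 : refl Q (x - c • y) (refl Q (x - c • y) x) = x := h3
    rw [h2] at h4
    exact h4
  rw [map_smul] at h1
  calc refl Q (x - c • y) y = c⁻¹ • (c • refl Q (x - c • y) y) := by
        rw [smul_smul, inv_mul_cancel₀ hc, one_smul]
    _ = c⁻¹ • x := by rw [h1]

/-- the swap list -/
def swl {m : ℕ} (e f : Fin m → V) (L : List (Fin m)) : List V := L.map (fun j => e j - f j)

theorem swl_cons (j : Fin m) (L : List (Fin m)) : swl e f (j :: L) = (e j - f j) :: swl e f L := rfl

theorem swl_ne_zero (h : HF Q e f) (L : List (Fin m)) : ∀ v ∈ swl e f L, Q v ≠ 0 := by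
  intro v hv
  obtain ⟨j, -, rfl⟩ := List.mem_map.mp hv
  rw [Q_sub_pair h]
  exact neg_ne_zero.mpr one_ne_zero

theorem prod_swl (h : HF Q e f) (L : List (Fin m)) :
    ((swl e f L).map (fun v => Q v)).prod = (-1) ^ L.length := by
  induction L with
  | nil => simp [swl]
  | cons j L ih =>
    rw [swl_cons, List.map_cons, List.prod_cons, ih, Q_sub_pair h, List.length_cons, pow_succ]
    ring

theorem rprod_swl (h : HF Q e f) {L : List (Fin m)} (hL : L.Nodup) (i : Fin m) :
    rprod Q (swl e f L) (e i) = (if i ∈ L then f i else e i) ∧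
    rprod Q (swl e f L) (f i) = (if i ∈ L then e i else f i) := by
  induction L with
  | nil => simp [swl, rprod]
  | cons j L ih =>
    rw [List.nodup_cons] at hL
    have ih := ih hL.2
    rw [swl_cons, rprod_cons, LinearEquiv.mul_apply, LinearEquiv.mul_apply, ih.1, ih.2]
    by_cases hij : i = j
    · subst hij
      rw [if_neg hL.1, if_pos List.mem_cons_self, if_neg hL.1, if_pos List.mem_cons_self]
      have h1 := refl_sub_e (h.hyp i) (one_ne_zero (α := F))
      have h2 := refl_sub_f (h.hyp i) (one_ne_zero (α := F))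
      rw [one_smul] at h1 h2
      rw [inv_one, one_smul] at h2
      exact ⟨h1, h2⟩
    · have h1 : polar Q (e i) (e j - f j) = 0 := by
        rw [polar_sub_right, h.hee, h.hef, if_neg hij, sub_zero]
      have h2 : polar Q (f i) (e j - f j) = 0 := by
        rw [polar_sub_right, h.hff, h.hfe, if_neg hij, sub_zero]
      have h3 : i ∈ j :: L ↔ i ∈ L := by simp [hij]
      by_cases hiL : i ∈ L
      · rw [if_pos hiL, if_pos (h3.mpr hiL), if_pos hiL, if_pos (h3.mpr hiL), refl_of_orth h1,
          refl_of_orth h2]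
        exact ⟨rfl, rfl⟩
      · rw [if_neg hiL, if_neg (fun h => hiL (h3.mp h)), if_neg hiL,
          if_neg (fun h => hiL (h3.mp h)), refl_of_orth h1, refl_of_orth h2]
        exact ⟨rfl, rfl⟩

/-- the diagonal list -/
def dl {m : ℕ} (e f : Fin m → V) (d : Fin m → F) (L : List (Fin m)) : List V :=
  L.flatMap (fun j => [e j - f j, e j - d j • f j])

theorem dl_cons (d : Fin m → F) (j : Fin m) (L : List (Fin m)) :
    dl e f d (j :: L) = (e j - f j) :: (e j - d j • f j) :: dl e f d L := rfl

theorem length_dl (d : Fin m → F) (L : List (Fin m)) : (dl e f d L).length = 2 * L.length := by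
  induction L with
  | nil => rfl
  | cons j L ih => rw [dl_cons, List.length_cons, List.length_cons, ih, List.length_cons]; ring

theorem dl_ne_zero (h : HF Q e f) {d : Fin m → F} (hd : ∀ i, d i ≠ 0) (L : List (Fin m)) :
    ∀ v ∈ dl e f d L, Q v ≠ 0 := by
  intro v hv
  obtain ⟨j, -, hj⟩ := List.mem_flatMap.mp hv
  simp only [List.mem_cons, List.not_mem_nil, or_false] at hj
  rcases hj with rfl | rfl
  · rw [Q_sub_pair h]; exact neg_ne_zero.mpr one_ne_zero
  · rw [Q_sub_smul h]; exact neg_ne_zero.mpr (hd j)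

theorem prod_dl (h : HF Q e f) (d : Fin m → F) (L : List (Fin m)) :
    ((dl e f d L).map (fun v => Q v)).prod = (L.map d).prod := by
  induction L with
  | nil => simp [dl]
  | cons j L ih =>
    rw [dl_cons, List.map_cons, List.map_cons, List.prod_cons, List.prod_cons, ih,
      Q_sub_smul h, Q_sub_pair h, List.map_cons, List.prod_cons]
    ring

theorem rprod_dl (h : HF Q e f) {d : Fin m → F} (hd : ∀ i, d i ≠ 0) {L : List (Fin m)}
    (hL : L.Nodup) (i : Fin m) :
    rprod Q (dl e f d L) (e i) = (if i ∈ L then d i • e i else e i) ∧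
    rprod Q (dl e f d L) (f i) = (if i ∈ L then (d i)⁻¹ • f i else f i) := by
  induction L with
  | nil => simp [dl, rprod]
  | cons j L ih =>
    rw [List.nodup_cons] at hL
    have ih := ih hL.2
    rw [dl_cons, rprod_cons, rprod_cons, LinearEquiv.mul_apply, LinearEquiv.mul_apply,
      LinearEquiv.mul_apply, LinearEquiv.mul_apply, ih.1, ih.2]
    by_cases hij : i = j
    · subst hij
      rw [if_neg hL.1, if_pos List.mem_cons_self, if_neg hL.1, if_pos List.mem_cons_self]
      have h1 := refl_sub_e (h.hyp i) (one_ne_zero (α := F))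
      have h2 := refl_sub_f (h.hyp i) (one_ne_zero (α := F))
      rw [one_smul] at h1 h2
      rw [inv_one, one_smul] at h2
      have h3 := refl_sub_e (h.hyp i) (hd i)
      have h4 := refl_sub_f (h.hyp i) (hd i)
      rw [h3, h4, map_smul, map_smul, h1, h2]
      exact ⟨rfl, rfl⟩
    · have h1 : polar Q (e i) (e j - f j) = 0 := by
        rw [polar_sub_right, h.hee, h.hef, if_neg hij, sub_zero]
      have h2 : polar Q (f i) (e j - f j) = 0 := by
        rw [polar_sub_right, h.hff, h.hfe, if_neg hij, sub_zero]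
      have h1' : polar Q (e i) (e j - d j • f j) = 0 := by
        rw [polar_sub_right, polar_smul_right, h.hee, h.hef, if_neg hij, smul_zero, sub_zero]
      have h2' : polar Q (f i) (e j - d j • f j) = 0 := by
        rw [polar_sub_right, polar_smul_right, h.hff, h.hfe, if_neg hij, smul_zero, sub_zero]
      have h3 : i ∈ j :: L ↔ i ∈ L := by simp [hij]
      by_cases hiL : i ∈ L
      · rw [if_pos hiL, if_pos (h3.mpr hiL), if_pos hiL, if_pos (h3.mpr hiL)]
        simp only [map_smul, refl_of_orth h1, refl_of_orth h2, refl_of_orth h1', refl_of_orth h2']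
        exact ⟨trivial, trivial⟩
      · rw [if_neg hiL, if_neg (fun h => hiL (h3.mp h)), if_neg hiL,
          if_neg (fun h => hiL (h3.mp h))]
        simp only [map_smul, refl_of_orth h1, refl_of_orth h2, refl_of_orth h1', refl_of_orth h2']
        exact ⟨trivial, trivial⟩

end Lists

section Comm

variable {F : Type*} [Field F] {V : Type*} [AddCommGroup V] [Module F V] [FiniteDimensional F V]
  {Q : QuadraticForm F V}

theorem even_length_of_mem (hQ : ND Q) (hR : R Q = O Q) {vs : List V} (h : ∀ v ∈ vs, Q v ≠ 0)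
    (hm : rp Q vs ∈ commutator ↥(O Q)) : Even vs.length := by
  have h1 := map_eq_one_of_mem_commutator (dhom hQ hR) hm
  rw [dhom_rp hQ hR vs h] at h1
  exact neg_one_pow_eq_one_iff'.mp h1

theorem rp_mem_iff [Finite F] (hQ : ND Q) (hR : R Q = O Q) {vs : List V} (h : ∀ v ∈ vs, Q v ≠ 0) :
    rp Q vs ∈ commutator ↥(O Q) ↔ Even vs.length ∧ IsSquare (vs.map (fun v => Q v)).prod := by
  by_cases h2 : (2 : F) = 0
  · rw [← ker_dhom hQ h2 hR, MonoidHom.mem_ker, dhom_rp hQ hR vs h, neg_one_pow_eq_one_iff']
    obtain ⟨b, hb⟩ := exists_sq_of_two_eq_zero h2 (vs.map (fun v => Q v)).prod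
    exact ⟨fun h => ⟨h, ⟨b, by rw [← hb, pow_two]⟩⟩, fun h => h.1⟩
  · exact rp_mem_commutator_iff' hQ h2 vs h

theorem mem_commutator_parity (hQ : ND Q) (hR : R Q = O Q) {g : ↥(O Q)}
    (hg : g ∈ commutator ↥(O Q)) {U : Submodule F V} (hU : MS Q U) :
    Even (finrank F ↥(U ⊓ U.map (g.1 : V →ₗ[F] V)) + finrank F U) := by
  obtain ⟨vs, hvs, rfl⟩ := exists_rp hR g
  have h1 := even_length_of_mem hQ hR hvs hg
  have h2 := parity_rprod hQ hU hU vs hvs
  rw [inf_idem] at h2
  rw [rp_coe]
  rw [Nat.even_iff] at *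
  omega

end Comm

end Cfsg.Agent.Lib.Orth
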