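import Mathlib
import Cfsg.Agent.Lib.Orth20
import Cfsg.Agent.Lib.Orth10

/-! The Levi subgroup `diag(A, A⁻ᵀ)` of the plus type group and its spinor norm. -/

set_option linter.all false

namespace Cfsg.Agent.Lib.Orth

open Module QuadraticMap

variable {F : Type*} [Field F] {m : ℕ}

/-- the matrix `diag(A, A⁻ᵀ)` -/
noncomputable def levM (A : Matrix (Fin m) (Fin m) F) : Matrix (Fin m ⊕ Fin m) (Fin m ⊕ Fin m) F :=
  Matrix.fromBlocks A 0 0 (A⁻¹).transpose

theorem levM_mul (A B : Matrix (Fin m) (Fin m) F) : levM A * levM B = levM (A * B) := by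
  rw [levM, levM, levM, Matrix.fromBlocks_multiply, Matrix.mul_inv_rev, Matrix.transpose_mul]
  simp

theorem levM_single_inl (A : Matrix (Fin m) (Fin m) F) (j : Fin m) :
    (levM A).mulVec (Pi.single (Sum.inl j) 1) = Sum.elim (fun i => A i j) (0 : Fin m → F) := by
  funext i
  rcases i with i | i <;> simp [levM, Matrix.mulVec_single]

theorem levM_single_inr (A : Matrix (Fin m) (Fin m) F) (j : Fin m) :
    (levM A).mulVec (Pi.single (Sum.inr j) 1) = Sum.elim (0 : Fin m → F) (fun i => A⁻¹ j i) := by
  funext i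
  rcases i with i | i <;> simp [levM, Matrix.mulVec_single]

/-- the spinor-norm statement for `diag(A, A⁻ᵀ)` -/
def LevP (A : Matrix (Fin m) (Fin m) F) : Prop :=
  ∃ vs : List (Fin m ⊕ Fin m → F), (∀ v ∈ vs, qPlus m F v ≠ 0) ∧ Even vs.length ∧
    IsSquare ((vs.map (fun v => qPlus m F v)).prod * A.det) ∧
    ∀ x, (rp (qPlus m F) vs).1 x = (levM A).mulVec x

theorem levP_mul {A B : Matrix (Fin m) (Fin m) F} (hA : LevP A) (hB : LevP B) : LevP (A * B) := by
  obtain ⟨vs, h1, h2, h3, h4⟩ := hA
  obtain ⟨ws, g1, g2, g3, g4⟩ := hB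
  refine ⟨vs ++ ws, ?_, ?_, ?_, ?_⟩
  · intro v hv
    rcases List.mem_append.mp hv with h | h
    · exact h1 v h
    · exact g1 v h
  · rw [List.length_append]
    exact h2.add g2
  · rw [List.map_append, List.prod_append, Matrix.det_mul]
    obtain ⟨s, hs⟩ := h3
    obtain ⟨s', hs'⟩ := g3
    refine ⟨s * s', ?_⟩
    calc _ = ((vs.map (fun v => qPlus m F v)).prod * A.det) *
          ((ws.map (fun v => qPlus m F v)).prod * B.det) := by ring
      _ = _ := by rw [hs, hs']; ring
  · intro x
    have : rp (qPlus m F) (vs ++ ws) = rp (qPlus m F) vs * rp (qPlus m F) ws := by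
      simp [rp]
    rw [this]
    show (rp (qPlus m F) vs).1 ((rp (qPlus m F) ws).1 x) = _
    rw [g4, h4, Matrix.mulVec_mulVec, levM_mul]

theorem levP_diagonal {d : Fin m → F} (hd : ∀ i, d i ≠ 0) : LevP (Matrix.diagonal d) := by
  have hf := hfPlus (m := m) (F := F)
  refine ⟨dl ePlus fPlus d (List.finRange m), dl_ne_zero hf hd _, ?_, ?_, ?_⟩
  · rw [length_dl]; exact even_two_mul _
  · rw [prod_dl hf, Matrix.det_diagonal]
    rw [← Fin.prod_univ_def]
    exact ⟨_, rfl⟩
  · intro x
    refine eq_mulVec_of_single _ _ ?_ x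
    intro k
    have h0 := rprod_dl hf hd (List.nodup_finRange m)
    have hdu : IsUnit (Matrix.diagonal d) := by
      rw [Matrix.isUnit_iff_isUnit_det, Matrix.det_diagonal]
      exact isUnit_iff_ne_zero.mpr (Finset.prod_ne_zero_iff.mpr (fun i _ => hd i))
    have hinv : (Matrix.diagonal d)⁻¹ = Matrix.diagonal (fun i => (d i)⁻¹) := by
      refine Matrix.inv_eq_right_inv ?_
      rw [Matrix.diagonal_mul_diagonal]
      ext i j
      by_cases hij : i = j
      · subst hij
        simp [hd i]
      · simp [hij]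
    have hlev : levM (Matrix.diagonal d) = Matrix.diagonal (Sum.elim d (fun i => (d i)⁻¹)) := by
      rw [levM, hinv, Matrix.diagonal_transpose, Matrix.fromBlocks_diagonal]
    rw [hlev, diagonal_mulVec_single', rp_coe]
    rcases k with k | k
    · have := (h0 k).1
      rw [if_pos (List.mem_finRange k)] at this
      exact this
    · have := (h0 k).2
      rw [if_pos (List.mem_finRange k)] at this
      exact this

theorem levP_transvection [Finite F] (hR : R (qPlus m F) = O (qPlus m F))
    (hex : (∃ a : F, a ≠ 0 ∧ a ≠ -1) ∨ finrank F (Fin m ⊕ Fin m → F) ≠ 4)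
    {i j : Fin m} (hij : i ≠ j) (c : F) : LevP (Matrix.transvection i j c) := by
  have hf := hfPlus (m := m) (F := F)
  have hQ : ND (qPlus m F) := nd_plus
  have hw : qPlus m F (ePlus i) = 0 := hf.he i
  have hwz : polar (qPlus m F) (ePlus i) (-(c • fPlus j)) = 0 := by
    rw [polar_neg_right, polar_smul_right, hf.hef, if_neg hij, smul_zero, neg_zero]
  obtain ⟨vs, hvs, hsg⟩ := exists_rp hR (sg (qPlus m F) (ePlus i) (-(c • fPlus j)) hw hwz)
  have hmem : rp (qPlus m F) vs ∈ commutator ↥(O (qPlus m F)) := by
    rw [← hsg]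
    exact sg_mem_commutator hQ hex hw hwz
  rw [rp_mem_iff hQ hR hvs] at hmem
  refine ⟨vs, hvs, hmem.1, ?_, ?_⟩
  · rw [Matrix.det_transvection_of_ne i j hij, mul_one]
    exact hmem.2
  · intro x
    refine eq_mulVec_of_single _ _ ?_ x
    intro k
    rw [← hsg, sg_apply]
    have hinv : (Matrix.transvection i j c)⁻¹ = Matrix.transvection i j (-c) := by
      refine Matrix.inv_eq_right_inv ?_
      rw [Matrix.transvection_mul_transvection_same i j hij]
      simp
    have hz0 : qPlus m F (-(c • fPlus j)) = 0 := by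
      rw [QuadraticMap.map_neg, map_smul', hf.hf, mul_zero]
    rcases k with k | k
    · rw [levM_single_inl]
      have e1 : polar (qPlus m F) (Pi.single (Sum.inl k) 1) (ePlus i) = 0 := hf.hee k i
      have e2 : polar (qPlus m F) (Pi.single (Sum.inl k) 1) (-(c • fPlus j)) = if k = j then -c else 0 := by
        rw [polar_neg_right, polar_smul_right]
        have : polar (qPlus m F) (Pi.single (Sum.inl k) 1) (fPlus j) = if k = j then 1 else 0 := hf.hef k j
        rw [this]
        split_ifs <;> simp
      rw [e1, e2, hz0]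
      funext l
      rcases l with l | l
      · simp only [Pi.add_apply, Pi.sub_apply, Pi.smul_apply, smul_eq_mul, Sum.elim_inl, ePlus,
          Matrix.transvection, Matrix.add_apply, Matrix.one_apply, Matrix.single_apply, Pi.single_apply,
          zero_mul, mul_zero, add_zero, sub_zero, Sum.inl.injEq]
        by_cases h1 : k = j
        · by_cases h2 : l = i
          · subst h1; subst h2; simp
          · subst h1; simp [h2, Ne.symm h2]
        · simp [h1, Ne.symm h1]
      · split_ifs <;> simp [ePlus]
    · rw [levM_single_inr, hinv]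
      have e1 : polar (qPlus m F) (Pi.single (Sum.inr k) 1) (ePlus i) = if k = i then 1 else 0 :=
        hf.hfe k i
      have e2 : polar (qPlus m F) (Pi.single (Sum.inr k) 1) (-(c • fPlus j)) = 0 := by
        rw [polar_neg_right, polar_smul_right]
        have : polar (qPlus m F) (Pi.single (Sum.inr k) 1) (fPlus j) = 0 := hf.hff k j
        rw [this]
        simp
      rw [e1, e2, hz0]
      funext l
      rcases l with l | l
      · split_ifs <;> simp [fPlus]
      · simp only [Pi.add_apply, Pi.sub_apply, Pi.smul_apply, smul_eq_mul, Sum.elim_inr, ePlus, fPlus,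
          Matrix.transvection, Matrix.add_apply, Matrix.one_apply, Matrix.single_apply, Pi.single_apply,
          zero_mul, mul_zero, add_zero, sub_zero, Sum.inr.injEq, Pi.neg_apply]
        by_cases h1 : k = i
        · by_cases h2 : l = j
          · subst h1; subst h2; simp [hij, Ne.symm hij]
          · subst h1; simp [h2, Ne.symm h2, eq_comm]
        · simp [h1, Ne.symm h1, eq_comm]

theorem levP_all [Finite F] (hR : R (qPlus m F) = O (qPlus m F))
    (hex : (∃ a : F, a ≠ 0 ∧ a ≠ -1) ∨ finrank F (Fin m ⊕ Fin m → F) ≠ 4)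
    (A : Matrix (Fin m) (Fin m) F) (hA : A.det ≠ 0) : LevP A := by
  refine Matrix.diagonal_transvection_induction_of_det_ne_zero LevP A hA ?_ ?_ ?_
  · intro d hd
    rw [Matrix.det_diagonal] at hd
    exact levP_diagonal (fun i => Finset.prod_ne_zero_iff.mp hd i (Finset.mem_univ i))
  · intro t
    exact levP_transvection hR hex t.hij t.c
  · intro A B _ _ hA hB
    exact levP_mul hA hB

end Cfsg.Agent.Lib.Orth
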