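import Mathlib
import Cfsg.Agent.Lib.Orth21
import Cfsg.Agent.Lib.Orth11

/-! Transitivity of the commutator subgroup; orthogonal sums. -/

set_option linter.all false

namespace Cfsg.Agent.Lib.Orth

open Module QuadraticMap

section Even

variable {F : Type*} [Field F] {V : Type*} [AddCommGroup V] [Module F V] [FiniteDimensional F V]
  {Q : QuadraticForm F V}

theorem even_rp_mem_closure (vs : List V) : (∀ v ∈ vs, Q v ≠ 0) → Even vs.length →
    rp Q vs ∈ Subgroup.closure {g : ↥(O Q) | ∃ u v, Q u ≠ 0 ∧ Q v ≠ 0 ∧ g = rf Q u * rf Q v} := by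
  induction vs using List.twoStepInduction with
  | nil =>
    intro _ _
    exact one_mem _
  | singleton v =>
    intro _ h
    simp at h
  | cons_cons u v vs ih _ =>
    intro h he
    have h1 : rp Q (u :: v :: vs) = (rf Q u * rf Q v) * rp Q vs := by
      simp only [rp, List.map_cons, List.prod_cons, mul_assoc]
    rw [h1]
    refine mul_mem (Subgroup.subset_closure ⟨u, v, h u (by simp), h v (by simp), rfl⟩)
      (ih (fun w hw => h w (by simp [hw])) ?_)
    rw [Nat.even_iff] at he ⊢
    simp only [List.length_cons] at he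
    omega

theorem rp_append (vs ws : List V) : rp Q (vs ++ ws) = rp Q vs * rp Q ws := by
  simp [rp]

theorem rp_cons (v : V) (vs : List V) : rp Q (v :: vs) = rf Q v * rp Q vs := by
  simp [rp]

theorem rp_nil : rp Q ([] : List V) = 1 := rfl

end Even

section Trans

variable {F : Type*} [Field F] {V : Type*} [AddCommGroup V] [Module F V] [FiniteDimensional F V]
  {Q : QuadraticForm F V}

/-- scalings stabilising a totally singular subspace -/
theorem exists_scale_stab (hQ : ND Q) {U : Submodule F V} (hU : ∀ u ∈ U, Q u = 0) (hne : U ≠ ⊥)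
    {a : F} (ha : a ≠ 0) : ∃ u v : V, Q u * Q v = a ∧
      U.map ((rf Q u * rf Q v : ↥(O Q)).1 : V →ₗ[F] V) = U := by
  obtain ⟨e, heU, he0⟩ := Submodule.exists_mem_ne_zero_of_ne_bot hne
  -- complement of `e` in `U`
  obtain ⟨C, hC⟩ := Submodule.exists_isCompl (F ∙ e)
  set U' := U ⊓ C with hU'
  have heU' : e ∉ U' := by
    intro h
    have : e ∈ (F ∙ e) ⊓ C := ⟨Submodule.mem_span_singleton_self e, h.2⟩
    rw [hC.inf_eq_bot] at this
    exact he0 this
  obtain ⟨z, hz, hez⟩ := exists_perp_eq_one hQ heU'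
  have hQe := hU e heU
  set f := z - Q z • e with hf
  have hpze : polar Q z e = 1 := by rw [polar_comm]; exact hez
  have hQf : Q f = 0 := by
    rw [hf, map_sub', map_smul', hQe, polar_smul_right, hpze, smul_eq_mul]
    ring
  have hef : polar Q e f = 1 := by
    rw [hf, polar_sub_right, hez, polar_smul_right, polar_self', hQe, mul_zero, smul_zero, sub_zero]
  have hh : Hyp Q e f := ⟨hQe, hQf, hef⟩
  have hfU' : ∀ u ∈ U', polar Q u f = 0 := by
    intro u hu
    rw [hf, polar_sub_right, polar_smul_right, polar_eq_zero_of_sing hU hu.1 heU, smul_zero,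
      sub_zero]
    exact mem_perp.mp hz u hu
  have heU'' : ∀ u ∈ U', polar Q u e = 0 := fun u hu => polar_eq_zero_of_sing hU hu.1 heU
  refine ⟨e - f, e - a • f, ?_, ?_⟩
  · have e1 : Q (e - f) = -1 := by rw [map_sub', hQe, hQf, hef]; ring
    have e2 : Q (e - a • f) = -a := by
      rw [map_sub', hQe, map_smul', hQf, polar_smul_right, hef, smul_eq_mul]; ring
    rw [e1, e2]
    ring
  · have hfix : ∀ u ∈ U', (rf Q (e - f) * rf Q (e - a • f) : ↥(O Q)).1 u = u := by
      intro u hu
      show refl Q (e - f) (refl Q (e - a • f) u) = u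
      rw [refl_of_orth (v := e - a • f), refl_of_orth]
      · rw [polar_sub_right, heU'' u hu, hfU' u hu, sub_zero]
      · rw [polar_sub_right, polar_smul_right, heU'' u hu, hfU' u hu, smul_zero, sub_zero]
    have hsc : (rf Q (e - f) * rf Q (e - a • f) : ↥(O Q)).1 e = a • e := by
      show refl Q (e - f) (refl Q (e - a • f) e) = _
      have h1 := refl_sub_f hh (one_ne_zero (α := F))
      rw [one_smul, inv_one, one_smul] at h1
      rw [refl_sub_e hh ha, map_smul, h1]
    have hle : U.map ((rf Q (e - f) * rf Q (e - a • f) : ↥(O Q)).1 : V →ₗ[F] V) ≤ U := by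
      rintro _ ⟨u, hu, rfl⟩
      have hu1 : u ∈ (F ∙ e) ⊔ C := by rw [hC.sup_eq_top]; trivial
      obtain ⟨x, hx, c, hc, hxc⟩ := Submodule.mem_sup.mp hu1
      obtain ⟨t, rfl⟩ := Submodule.mem_span_singleton.mp hx
      have hcU : c ∈ U' := by
        refine ⟨?_, hc⟩
        have : c = u - t • e := by rw [← hxc]; abel
        rw [this]
        exact U.sub_mem hu (U.smul_mem t heU)
      have : ((rf Q (e - f) * rf Q (e - a • f) : ↥(O Q)).1 : V →ₗ[F] V) u = t • a • e + c := by
        rw [← hxc, map_add, map_smul]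
        congr 1
        · congr 1
        · exact hfix c hcU
      rw [this]
      exact U.add_mem (U.smul_mem _ (U.smul_mem _ heU)) hcU.1
    exact Submodule.eq_of_le_of_finrank_eq hle
      (LinearEquiv.finrank_map_eq (rf Q (e - f) * rf Q (e - a • f) : ↥(O Q)).1 U)

theorem map_mul_O (U : Submodule F V) (g h : ↥(O Q)) :
    U.map ((g * h : ↥(O Q)).1 : V →ₗ[F] V)
      = (U.map (h.1 : V →ₗ[F] V)).map (g.1 : V →ₗ[F] V) := by
  rw [← Submodule.map_comp]
  rfl

theorem exists_comm_of_even [Finite F] (hQ : ND Q) (hR : R Q = O Q) {U W : Submodule F V}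
    (hU : ∀ u ∈ U, Q u = 0) (hne : U ≠ ⊥) {vs : List V} (hvs : ∀ v ∈ vs, Q v ≠ 0)
    (he : Even vs.length) (hmap : U.map ((rp Q vs).1 : V →ₗ[F] V) = W) :
    ∃ g ∈ commutator ↥(O Q), U.map (g.1 : V →ₗ[F] V) = W := by
  have hp : (vs.map (fun v => Q v)).prod ≠ 0 := by
    intro h0
    obtain ⟨v, hv, hv0⟩ := List.mem_map.mp (List.prod_eq_zero_iff.mp h0)
    exact hvs v hv hv0
  obtain ⟨u, v, huv, hst⟩ := exists_scale_stab hQ hU hne hp
  have hu0 : Q u ≠ 0 := by
    intro h; rw [h, zero_mul] at huv; exact hp huv.symm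
  have hv0 : Q v ≠ 0 := by
    intro h; rw [h, mul_zero] at huv; exact hp huv.symm
  refine ⟨rp Q (vs ++ [u, v]), ?_, ?_⟩
  · rw [rp_mem_iff hQ hR]
    · refine ⟨?_, ?_⟩
      · rw [List.length_append]
        exact he.add ⟨1, rfl⟩
      · rw [List.map_append, List.prod_append]
        refine ⟨(vs.map (fun v => Q v)).prod, ?_⟩
        simp only [List.map_cons, List.map_nil, List.prod_cons, List.prod_nil, mul_one, huv]
    · intro w hw
      rcases List.mem_append.mp hw with h | h
      · exact hvs w h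
      · simp only [List.mem_cons, List.not_mem_nil, or_false] at h
        rcases h with rfl | rfl
        · exact hu0
        · exact hv0
  · rw [rp_append]
    have : rp Q [u, v] = rf Q u * rf Q v := by simp [rp]
    rw [this, map_mul_O, hst, hmap]

/-- two MS in the same class are conjugate under the commutator subgroup -/
theorem MS_comm_trans [Finite F] (hQ : ND Q) (hR : R Q = O Q) (hpos : 1 ≤ finrank F V)
    {U W : Submodule F V} (hU : MS Q U) (hW : MS Q W)
    (he : Even (finrank F U + finrank F ↥(U ⊓ W))) :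
    ∃ g ∈ commutator ↥(O Q), U.map (g.1 : V →ₗ[F] V) = W := by
  obtain ⟨vs, hvs, hle⟩ := exists_le_map hQ hW.sing hU
  have heq := hW.eq_of_le (hU.map (rprod_mem vs)) hle
  have h1 := parity_rprod hQ hU hU vs hvs
  rw [← heq, inf_idem] at h1
  refine exists_comm_of_even hQ hR hU.sing ?_ hvs ?_ ?_
  · rintro rfl
    have := hU.fr
    rw [finrank_bot] at this
    omega
  · rw [Nat.even_iff] at *
    omega
  · rw [rp_coe]; exact heq.symm

/-- totally singular subspaces of dimension `< n/2` -/
theorem sing_comm_trans [Finite F] (hQ : ND Q) (hR : R Q = O Q)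
    {U W : Submodule F V} (hU : ∀ u ∈ U, Q u = 0) (hW : ∀ w ∈ W, Q w = 0)
    (hfr : finrank F U = finrank F W) (hlt : 2 * finrank F U < finrank F V) :
    ∃ g ∈ commutator ↥(O Q), U.map (g.1 : V →ₗ[F] V) = W := by
  by_cases hne : U = ⊥
  · refine ⟨1, one_mem _, ?_⟩
    have : W = ⊥ := by
      rw [hne, finrank_bot] at hfr
      exact Submodule.finrank_eq_zero.mp hfr.symm
    rw [hne, this, Submodule.map_bot]
  · let e := LinearEquiv.ofFinrankEq U W hfr
    obtain ⟨g, hg, hgU⟩ := witt hQ U (W.subtype.comp e.toLinearMap) (by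
      intro x y hxy
      exact e.injective (Subtype.ext hxy)) (by
      intro x
      rw [hU _ x.2]
      exact hW _ (e x).2)
    have hgmap : U.map (g : V →ₗ[F] V) = W := by
      refine Submodule.eq_of_le_of_finrank_eq ?_ ?_
      · rintro _ ⟨u, hu, rfl⟩
        have := hgU ⟨u, hu⟩
        show g u ∈ W
        rw [this]
        exact (e ⟨u, hu⟩).2
      · rw [LinearEquiv.finrank_map_eq g U]
        exact hfr
    obtain ⟨vs, hvs, hgv⟩ := exists_rp hR ⟨g, hg⟩
    have hgv' : ((rp Q vs).1 : V →ₗ[F] V) = (g : V →ₗ[F] V) := by rw [← hgv]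
    rcases Nat.even_or_odd vs.length with he | ho
    · exact exists_comm_of_even hQ hR hU hne hvs he (by rw [hgv']; exact hgmap)
    · have : ∃ x ∈ perp Q U, Q x ≠ 0 := by
        by_contra hcon
        push Not at hcon
        have h1 := two_mul_finrank_le hQ hcon
        rw [finrank_perp hQ] at h1
        omega
      obtain ⟨x, hx, hx0⟩ := this
      refine exists_comm_of_even hQ hR hU hne (vs := vs ++ [x]) ?_ ?_ ?_
      · intro w hw
        rcases List.mem_append.mp hw with h | h
        · exact hvs w h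
        · rw [List.mem_singleton.mp h]; exact hx0
      · rw [List.length_append, Nat.even_iff]
        rw [Nat.odd_iff] at ho
        simp only [List.length_cons, List.length_nil]
        omega
      · rw [rp_append, map_mul_O]
        have h2 : rp Q [x] = rf Q x := by simp [rp]
        have h3 : U.map ((rf Q x).1 : V →ₗ[F] V) = U := by
          ext y
          constructor
          · rintro ⟨u, hu, rfl⟩
            have : refl Q x u = u := refl_of_orth (mem_perp.mp hx u hu)
            show refl Q x u ∈ U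
            rw [this]; exact hu
          · intro hy
            exact ⟨y, hy, refl_of_orth (mem_perp.mp hx y hy)⟩
        rw [h2, h3, hgv']
        exact hgmap

/-- non-degenerate subspaces -/
theorem nd_comm_trans [Finite F] (hQ : ND Q) (hR : R Q = O Q) (hn : 3 ≤ finrank F V)
    {U W : Submodule F V} (hU : ND (res Q U)) (e : U ≃ₗ[F] W)
    (he : ∀ u : U, Q (e u : V) = Q (u : V)) :
    ∃ g ∈ commutator ↥(O Q), U.map (g.1 : V →ₗ[F] V) = W := by
  obtain ⟨g, hg, hgU⟩ := witt hQ U (W.subtype.comp e.toLinearMap) (by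
      intro x y hxy
      exact e.injective (Subtype.ext hxy)) (fun x => he x)
  have hgmap : U.map (g : V →ₗ[F] V) = W := by
    refine Submodule.eq_of_le_of_finrank_eq ?_ ?_
    · rintro _ ⟨u, hu, rfl⟩
      have := hgU ⟨u, hu⟩
      show g u ∈ W
      rw [this]
      exact (e ⟨u, hu⟩).2
    · rw [LinearEquiv.finrank_map_eq g U]
      exact e.finrank_eq
  have hfp := finrank_perp hQ U
  by_cases h2 : 2 ≤ finrank F U
  · obtain ⟨p, hp, hgp⟩ := exists_fix_mul hQ hR hU h2 ⟨g, hg⟩
    refine ⟨_, hgp, ?_⟩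
    rw [map_mul_O]
    have : U.map (p.1 : V →ₗ[F] V) = U := by
      refine Submodule.eq_of_le_of_finrank_eq ?_ (LinearEquiv.finrank_map_eq p.1 U)
      rintro _ ⟨u, hu, rfl⟩
      have h3 : u ∈ perp Q (perp Q U) := by rw [perp_perp hQ]; exact hu
      have h4 := fixer_map_perp hp h3
      rw [perp_perp hQ] at h4
      exact h4
    rw [this]
    exact hgmap
  · have hle : finrank F U ≤ finrank F V := Submodule.finrank_le U
    obtain ⟨p, hp, hgp⟩ := exists_fix_mul hQ hR (nd_res_perp hQ hU) (by omega) ⟨g, hg⟩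
    refine ⟨_, hgp, ?_⟩
    rw [map_mul_O]
    have : U.map (p.1 : V →ₗ[F] V) = U := by
      rw [perp_perp hQ] at hp
      ext y
      constructor
      · rintro ⟨u, hu, rfl⟩
        have := mem_fixer.mp hp u hu
        show p.1 u ∈ U
        rw [this]; exact hu
      · intro hy
        exact ⟨y, hy, mem_fixer.mp hp y hy⟩
    rw [this]
    exact hgmap

end Trans

section Transfer

variable {F : Type*} [Field F] {ι : Type} [Fintype ι] [DecidableEq ι]
  {Q : QuadraticForm F (ι → F)}

theorem mulVecLin_isoO (g : ↥(Cfsg.isometryGroup F ⇑Q)) :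
    Matrix.mulVecLin ((g : Matrix.GeneralLinearGroup ι F) : Matrix ι ι F)
      = ((isoO Q g).1 : (ι → F) →ₗ[F] (ι → F)) := by
  ext x i
  simp [isoO_coe]

theorem exists_Omega_map {U W : Submodule F (ι → F)}
    (h : ∃ g ∈ commutator ↥(O Q), U.map (g.1 : (ι → F) →ₗ[F] (ι → F)) = W) :
    ∃ g : ↥(Cfsg.isometryGroup F ⇑Q), g ∈ Cfsg.Omega F ⇑Q ∧
      U.map (Matrix.mulVecLin ((g : Matrix.GeneralLinearGroup ι F) : Matrix ι ι F)) = W := by
  obtain ⟨g, hg, hgU⟩ := h
  refine ⟨(isoO Q).symm g, ?_, ?_⟩
  · rw [mem_Omega_iff, MulEquiv.apply_symm_apply]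
    exact hg
  · rw [mulVecLin_isoO, MulEquiv.apply_symm_apply]
    exact hgU

end Transfer

end Cfsg.Agent.Lib.Orth
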