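import Mathlib
import Cfsg.Agent.Lib.CharBasic

set_option autoImplicit false
set_option maxHeartbeats 400000

namespace Cfsg.Agent.Lib.PFour

open Subgroup

/-- an abelian normal subgroup of prime index in a nonabelian group: `|P'| * |Z| = |A|` -/
theorem card_mul {P : Type*} [Group P] [Finite P] {p : ℕ} [hp : Fact p.Prime] (A : Subgroup P) [hA : A.Normal]
    (hab : ∀ a ∈ A, ∀ b ∈ A, a * b = b * a) (hi : A.index = p) (hna : ∃ x y : P, x * y ≠ y * x) :
    Nat.card (commutator P) * Nat.card (center P) = Nat.card A := by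
  classical
  obtain ⟨y, hy⟩ : ∃ y, y ∉ A := by
    by_contra h
    push Not at h
    have h1 : A = ⊤ := eq_top_iff.mpr fun x _ => h x
    rw [h1, index_top] at hi
    exact hp.out.one_lt.ne hi
  -- every element is `a * y ^ k`
  have hgen : ∀ g : P, ∃ a ∈ A, ∃ k : ℤ, g = a * y ^ k := by
    intro g
    have hc : Nat.card (P ⧸ A) = p := hi
    have hy1 : (y : P ⧸ A) ≠ 1 := fun h => hy ((QuotientGroup.eq_one_iff y).mp h)
    have h1 : (g : P ⧸ A) ∈ zpowers (y : P ⧸ A) := mem_zpowers_of_prime_card hc hy1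
    obtain ⟨k, hk⟩ := mem_zpowers_iff.mp h1
    refine ⟨g * (y ^ k)⁻¹, ?_, k, by group⟩
    rw [← QuotientGroup.eq_one_iff, QuotientGroup.mk_mul, QuotientGroup.mk_inv, QuotientGroup.mk_zpow, hk, mul_inv_cancel]
  -- the displacement map
  let f : A →* P := ⟨⟨fun w => (w : P) * y * (w : P)⁻¹ * y⁻¹, by simp⟩, fun u v => by
    show (u : P) * v * y * ((u : P) * v)⁻¹ * y⁻¹ = (u : P) * y * (u : P)⁻¹ * y⁻¹ * ((v : P) * y * (v : P)⁻¹ * y⁻¹)
    have h1 : (v : P) * y * (v : P)⁻¹ * y⁻¹ ∈ A := by
      have : (v : P) * y * (v : P)⁻¹ * y⁻¹ = (v : P) * (y * (v : P)⁻¹ * y⁻¹) := by group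
      rw [this]; exact A.mul_mem v.2 (hA.conj_mem _ (A.inv_mem v.2) y)
    have h2 : y * (u : P)⁻¹ * y⁻¹ ∈ A := hA.conj_mem _ (A.inv_mem u.2) y
    calc (u : P) * v * y * ((u : P) * v)⁻¹ * y⁻¹ = (u : P) * (((v : P) * y * (v : P)⁻¹ * y⁻¹) * (y * (u : P)⁻¹ * y⁻¹)) := by group
      _ = (u : P) * ((y * (u : P)⁻¹ * y⁻¹) * ((v : P) * y * (v : P)⁻¹ * y⁻¹)) := by rw [hab _ h1 _ h2]
      _ = _ := by group⟩
  have hfv : ∀ w : A, f w = (w : P) * y * (w : P)⁻¹ * y⁻¹ := fun w => rfl
  -- centre
  have hZA : center P ≤ A := by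
    intro z hz
    by_contra hzA
    obtain ⟨a, b, hab'⟩ := hna
    apply hab'
    have hgen' : ∀ g : P, ∃ a ∈ A, ∃ k : ℤ, g = a * z ^ k := by
      intro g
      have hc : Nat.card (P ⧸ A) = p := hi
      have hy1 : (z : P ⧸ A) ≠ 1 := fun h => hzA ((QuotientGroup.eq_one_iff z).mp h)
      have h1 : (g : P ⧸ A) ∈ zpowers (z : P ⧸ A) := mem_zpowers_of_prime_card hc hy1
      obtain ⟨k, hk⟩ := mem_zpowers_iff.mp h1
      refine ⟨g * (z ^ k)⁻¹, ?_, k, by group⟩
      rw [← QuotientGroup.eq_one_iff, QuotientGroup.mk_mul, QuotientGroup.mk_inv, QuotientGroup.mk_zpow, hk, mul_inv_cancel]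
    obtain ⟨u, hu, i, rfl⟩ := hgen' a
    obtain ⟨v, hv, j, rfl⟩ := hgen' b
    have hzi : ∀ (i : ℤ) (g : P), g * z ^ i = z ^ i * g := fun i g => mem_center_iff.mp (zpow_mem hz i) g
    calc u * z ^ i * (v * z ^ j) = u * (z ^ i * v) * z ^ j := by group
      _ = (u * v) * (z ^ i * z ^ j) := by rw [← hzi i v]; group
      _ = (v * u) * (z ^ j * z ^ i) := by rw [hab u hu v hv, hzi j (z ^ i)]
      _ = v * (u * z ^ j) * z ^ i := by group
      _ = _ := by rw [hzi j u]; group
  have hker : Nat.card f.ker = Nat.card (center P) := by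
    refine Nat.card_congr ⟨fun w => ⟨((w : A) : P), ?_⟩, fun z => ⟨⟨z.1, hZA z.2⟩, ?_⟩, fun w => rfl, fun z => rfl⟩
    · have h1 : ((w : A) : P) * y * ((w : A) : P)⁻¹ * y⁻¹ = 1 := MonoidHom.mem_ker.mp w.2
      have h2 : ((w : A) : P) * y = y * ((w : A) : P) := by
        calc ((w : A) : P) * y = ((w : A) : P) * y * ((w : A) : P)⁻¹ * y⁻¹ * (y * ((w : A) : P)) := by group
          _ = _ := by rw [h1, one_mul]
      rw [mem_center_iff]
      intro g
      obtain ⟨a, ha, k, rfl⟩ := hgen g
      have h3 : ((w : A) : P) * y ^ k = y ^ k * ((w : A) : P) := ((show Commute ((w : A) : P) y from h2).zpow_right k).eq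
      calc a * y ^ k * ((w : A) : P) = a * (y ^ k * ((w : A) : P)) := by group
        _ = (a * ((w : A) : P)) * y ^ k := by rw [← h3]; group
        _ = _ := by rw [hab a ha _ (w : A).2]; group
    · rw [MonoidHom.mem_ker, hfv]
      show (z : P) * y * (z : P)⁻¹ * y⁻¹ = 1
      rw [← mem_center_iff.mp z.2 y]; group
  -- the image is the commutator subgroup
  have hrA : ∀ x ∈ f.range, x ∈ A := by
    rintro _ ⟨v, rfl⟩
    rw [hfv]
    have : (v : P) * y * (v : P)⁻¹ * y⁻¹ = (v : P) * (y * (v : P)⁻¹ * y⁻¹) := by group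
    rw [this]; exact A.mul_mem v.2 (hA.conj_mem _ (A.inv_mem v.2) y)
  have hry : ∀ x ∈ f.range, y * x * y⁻¹ ∈ f.range := by
    rintro _ ⟨v, rfl⟩
    refine ⟨⟨y * v * y⁻¹, hA.conj_mem _ v.2 y⟩, ?_⟩
    rw [hfv, hfv]
    show y * v * y⁻¹ * y * (y * v * y⁻¹)⁻¹ * y⁻¹ = _
    group
  haveI hfin : f.range.Normal := by
    refine ⟨fun x hx g => ?_⟩
    obtain ⟨v, rfl⟩ := hx
    obtain ⟨a, ha, k, rfl⟩ := hgen g
    have h1 : y ^ k * f v * (y ^ k)⁻¹ ∈ A := hA.conj_mem _ (hrA _ ⟨v, rfl⟩) (y ^ k)
    refine ⟨⟨y ^ k * v * (y ^ k)⁻¹, hA.conj_mem _ v.2 (y ^ k)⟩, ?_⟩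
    have h2 : a * y ^ k * f v * (a * y ^ k)⁻¹ = y ^ k * f v * (y ^ k)⁻¹ := by
      calc a * y ^ k * f v * (a * y ^ k)⁻¹ = a * (y ^ k * f v * (y ^ k)⁻¹) * a⁻¹ := by group
        _ = _ := by rw [hab a ha _ h1]; group
    rw [h2, hfv, hfv]
    show y ^ k * (v : P) * (y ^ k)⁻¹ * y * (y ^ k * (v : P) * (y ^ k)⁻¹)⁻¹ * y⁻¹ = _
    group
  have hrange : f.range = commutator P := by
    apply le_antisymm
    · rintro _ ⟨v, rfl⟩
      rw [hfv]
      exact commutator_mem_commutator (mem_top _) (mem_top _)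
    · rw [_root_.commutator_def, commutator_le]
      intro g₁ _ g₂ _
      obtain ⟨a, ha, i, rfl⟩ := hgen g₁
      obtain ⟨b, hb, j, rfl⟩ := hgen g₂
      have hq : ∀ c ∈ A, Commute (c : P ⧸ f.range) (y : P ⧸ f.range) := by
        intro c hc
        have h1 : c * y * c⁻¹ * y⁻¹ ∈ f.range := ⟨⟨c, hc⟩, rfl⟩
        have h2 := (QuotientGroup.eq_one_iff _).mpr h1
        have h3 : (c : P ⧸ f.range) * (y : P ⧸ f.range) * (c : P ⧸ f.range)⁻¹ * (y : P ⧸ f.range)⁻¹ = 1 := h2
        show (c : P ⧸ f.range) * (y : P ⧸ f.range) = (y : P ⧸ f.range) * (c : P ⧸ f.range)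
        calc (c : P ⧸ f.range) * (y : P ⧸ f.range) = (c : P ⧸ f.range) * (y : P ⧸ f.range) * (c : P ⧸ f.range)⁻¹ * (y : P ⧸ f.range)⁻¹ *
              ((y : P ⧸ f.range) * (c : P ⧸ f.range)) := by group
          _ = _ := by rw [h3, one_mul]
      have hqab : Commute (a : P ⧸ f.range) (b : P ⧸ f.range) := by
        show (a : P ⧸ f.range) * (b : P ⧸ f.range) = (b : P ⧸ f.range) * (a : P ⧸ f.range)
        rw [← QuotientGroup.mk_mul, ← QuotientGroup.mk_mul, hab a ha b hb]
      have hcm : Commute ((a : P ⧸ f.range) * (y : P ⧸ f.range) ^ i) ((b : P ⧸ f.range) * (y : P ⧸ f.range) ^ j) :=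
        ((hqab.mul_right ((hq a ha).zpow_right j))).mul_left
          (((hq b hb).symm.zpow_left i).mul_right ((Commute.refl _).zpow_zpow i j))
      rw [← QuotientGroup.eq_one_iff]
      show ((a : P ⧸ f.range) * (y : P ⧸ f.range) ^ i) * ((b : P ⧸ f.range) * (y : P ⧸ f.range) ^ j) *
        ((a : P ⧸ f.range) * (y : P ⧸ f.range) ^ i)⁻¹ * ((b : P ⧸ f.range) * (y : P ⧸ f.range) ^ j)⁻¹ = 1
      rw [hcm.eq]; group
  have h1 : Nat.card f.ker * Nat.card f.range = Nat.card A := by
    rw [← index_ker, card_mul_index]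
  rw [← h1, hker, hrange, mul_comm]

theorem comm_of_center_index {A : Type*} [Group A] [Finite A] {p : ℕ} [hp : Fact p.Prime]
    (h : (center A).index ∣ p) (a b : A) : a * b = b * a := by
  have hc : Nat.card (A ⧸ center A) = (center A).index := rfl
  haveI : IsCyclic (A ⧸ center A) := by
    rcases (Nat.dvd_prime hp.out).mp h with h1 | h1
    · haveI : Subsingleton (A ⧸ center A) := (Nat.card_eq_one_iff_unique.mp (hc.trans h1)).1
      exact isCyclic_of_subsingleton
    · exact isCyclic_of_prime_card (hc.trans h1)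
  exact commutative_of_cyclic_center_quotient (QuotientGroup.mk' (center A)) (by rw [QuotientGroup.ker_mk']) a b

theorem exists_abelian {P : Type*} [Group P] [Finite P] {p : ℕ} [hp : Fact p.Prime] (hP : Nat.card P = p ^ 4)
    (h : Nat.card (commutator P) = p ∨ (center P).index = p ^ 2) :
    ∃ A : Subgroup P, A.Normal ∧ (∀ a ∈ A, ∀ b ∈ A, a * b = b * a) ∧ A.index = p ∧ ∃ x y : P, x * y ≠ y * x := by
  classical
  have hp1 := hp.out.one_lt
  have hPG : IsPGroup p P := IsPGroup.of_card hP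
  have hna : ∃ x : P, x ∉ center P := by
    by_contra hcon
    push Not at hcon
    have h1 : center P = ⊤ := eq_top_iff.mpr fun x _ => hcon x
    rcases h with h | h
    · have h2 : commutator P = ⊥ := by
        rw [_root_.commutator_def, commutator_eq_bot_iff_le_centralizer]
        intro x _
        rw [mem_centralizer_iff]
        intro y _
        exact (mem_center_iff.mp (hcon x)) y
      rw [h2, card_bot] at h
      exact hp1.ne h
    · rw [h1, index_top] at h
      have := Nat.one_lt_pow (n := 2) (by norm_num) hp1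
      omega
  obtain ⟨x, hx⟩ := hna
  have hna' : ∃ x y : P, x * y ≠ y * x := by
    by_contra hcon
    push Not at hcon
    exact hx (mem_center_iff.mpr fun g => hcon g x)
  have hZA : center P ≤ centralizer ({x} : Set P) := fun z hz =>
    mem_centralizer_singleton_iff.mpr ((mem_center_iff.mp hz x).symm)
  have hxA : x ∈ centralizer ({x} : Set P) := mem_centralizer_singleton_iff.mpr rfl
  have hA1 : (centralizer ({x} : Set P)).index ≠ 1 := by
    intro h1
    rw [index_eq_one] at h1
    apply hx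
    rw [mem_center_iff]
    intro g
    have h2 : g ∈ centralizer ({x} : Set P) := by rw [h1]; exact mem_top _
    exact mem_centralizer_singleton_iff.mp h2
  have hmulc := (centralizer ({x} : Set P)).card_mul_index
  -- index of the centralizer
  have hdvd : (centralizer ({x} : Set P)).index ∣ p ^ 4 := by rw [← hP]; exact index_dvd_card _
  obtain ⟨j, hj4, hj⟩ := (Nat.dvd_prime_pow hp.out).mp hdvd
  have hj0 : j ≠ 0 := by rintro rfl; exact hA1 (by rw [hj, pow_zero])
  have hZx : (center P).relIndex (centralizer ({x} : Set P)) ≠ 1 := by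
    intro h1
    exact hx (relIndex_eq_one.mp h1 hxA)
  have hrel : (center P).relIndex (centralizer ({x} : Set P)) * (centralizer ({x} : Set P)).index = (center P).index :=
    relIndex_mul_index hZA
  have hi : (centralizer ({x} : Set P)).index = p := by
    rcases h with h | h
    · have h1 : (centralizer ({x} : Set P)).index ≤ p := by
        have h2 : Nat.card {y : P // IsConj x y} = (centralizer ({x} : Set P)).index := Cfsg.Agent.Lib.CharBasic.card_conj_class x
        rw [← h2, ← h]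
        refine Nat.card_le_card_of_injective (fun y => (⟨y.1 * x⁻¹, ?_⟩ : commutator P)) ?_
        · obtain ⟨c, hc⟩ := isConj_iff.mp y.2
          rw [← hc]
          exact commutator_mem_commutator (mem_top _) (mem_top _)
        · intro y z hyz
          exact Subtype.ext (mul_right_cancel (congrArg Subtype.val hyz))
      rw [hj] at h1 ⊢
      have h3 : p ^ 1 ≤ p ^ j := Nat.pow_le_pow_right hp.out.pos (by omega)
      rw [pow_one] at h3
      omega
    · rw [h, hj] at hrel
      have h1 : (center P).relIndex (centralizer ({x} : Set P)) ∣ p ^ 2 := ⟨p ^ j, hrel.symm⟩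
      obtain ⟨i, hi2, hi⟩ := (Nat.dvd_prime_pow hp.out).mp h1
      have hi0 : i ≠ 0 := by rintro rfl; exact hZx (by rw [hi, pow_zero])
      rw [hi, ← pow_add] at hrel
      have h3 := Nat.pow_right_injective hp1 hrel
      have h4 : j = 1 := by
        have : i + j = 2 := h3
        omega
      rw [hj, h4, pow_one]
  haveI hAn : (centralizer ({x} : Set P)).Normal := by
    apply normal_of_index_eq_minFac_card
    rw [hP, hp.out.pow_minFac (by norm_num), hi]
  -- centre of `A`
  have hZle : (center P).subgroupOf (centralizer ({x} : Set P)) ≤ center (centralizer ({x} : Set P)) := by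
    intro z hz
    rw [mem_center_iff]
    intro g
    exact Subtype.ext (mem_center_iff.mp (mem_subgroupOf.mp hz) g)
  have hxc : (⟨x, hxA⟩ : centralizer ({x} : Set P)) ∈ center (centralizer ({x} : Set P)) := by
    rw [mem_center_iff]
    intro g
    exact Subtype.ext (mem_centralizer_singleton_iff.mp g.2)
  have hcA : Nat.card (centralizer ({x} : Set P)) = p ^ 3 := by
    rw [hi, hP, pow_succ] at hmulc
    exact Nat.eq_of_mul_eq_mul_right hp.out.pos hmulc
  have hcen : (center (centralizer ({x} : Set P))).index ∣ p := by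
    obtain ⟨a, ha3, ha⟩ : ∃ a, a ≤ 3 ∧ Nat.card (center (centralizer ({x} : Set P))) = p ^ a := by
      have h1 : Nat.card (center (centralizer ({x} : Set P))) ∣ p ^ 3 := by rw [← hcA]; exact card_subgroup_dvd_card _
      obtain ⟨a, h2, h3⟩ := (Nat.dvd_prime_pow hp.out).mp h1
      exact ⟨a, h2, h3⟩
    have hlt : Nat.card ((center P).subgroupOf (centralizer ({x} : Set P))) < Nat.card (center (centralizer ({x} : Set P))) := by
      refine lt_of_le_of_ne (card_le_of_le hZle) (fun h1 => ?_)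
      have h2 := eq_of_le_of_card_ge hZle (le_of_eq h1.symm)
      rw [← h2] at hxc
      exact hx (mem_subgroupOf.mp hxc)
    have hcZ : Nat.card ((center P).subgroupOf (centralizer ({x} : Set P))) = Nat.card (center P) :=
      Nat.card_congr (subgroupOfEquivOfLe hZA).toEquiv
    haveI : Nontrivial P := ⟨⟨x, 1, fun h => hx (by rw [h]; exact one_mem _)⟩⟩
    haveI := hPG.center_nontrivial
    have hZp : p ≤ Nat.card (center P) := by
      obtain ⟨b, hb⟩ := IsPGroup.iff_card.mp (hPG.to_subgroup (center P))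
      have h1 : 1 < Nat.card (center P) := Finite.one_lt_card
      rw [hb] at h1 ⊢
      have hb0 : b ≠ 0 := by rintro rfl; rw [pow_zero] at h1; omega
      calc p = p ^ 1 := (pow_one p).symm
        _ ≤ p ^ b := Nat.pow_le_pow_right hp.out.pos (by omega)
    rw [hcZ, ha] at hlt
    have ha2 : 2 ≤ a := by
      by_contra hcon
      have h1 : p ^ a ≤ p ^ 1 := Nat.pow_le_pow_right hp.out.pos (by omega)
      rw [pow_one] at h1
      omega
    have h1 := (center (centralizer ({x} : Set P))).card_mul_index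
    rw [hcA, ha, show 3 = a + (3 - a) by omega, pow_add] at h1
    have h2 := Nat.eq_of_mul_eq_mul_left (pow_pos hp.out.pos a) h1
    rw [h2]
    have h3 : p ^ (3 - a) ∣ p ^ 1 := pow_dvd_pow p (by omega)
    rwa [pow_one] at h3
  refine ⟨centralizer ({x} : Set P), hAn, fun a ha b hb => ?_, hi, hna'⟩
  exact congrArg Subtype.val (comm_of_center_index hcen ⟨a, ha⟩ ⟨b, hb⟩)

theorem iff_main {P : Type*} [Group P] [Finite P] (p : ℕ) [hp : Fact p.Prime] (hP : Nat.card P = p ^ 4) :
    Nat.card (commutator P) = p ↔ (center P).index = p ^ 2 := by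
  have key : (Nat.card (commutator P) = p ∨ (center P).index = p ^ 2) →
      Nat.card (commutator P) * Nat.card (center P) = p ^ 3 := by
    intro h
    obtain ⟨A, hAn, hab, hi, hna⟩ := exists_abelian hP h
    haveI := hAn
    rw [card_mul A hab hi hna]
    have h1 := A.card_mul_index
    rw [hi, hP, pow_succ] at h1
    exact Nat.eq_of_mul_eq_mul_right hp.out.pos h1
  have h2 := (center P).card_mul_index
  rw [hP] at h2
  constructor
  · intro h
    have h1 := key (Or.inl h)
    rw [h, pow_succ'] at h1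
    have h3 := Nat.eq_of_mul_eq_mul_left hp.out.pos h1
    rw [h3] at h2
    have h4 : p ^ 2 * (center P).index = p ^ 2 * p ^ 2 := by rw [h2]; ring
    exact Nat.eq_of_mul_eq_mul_left (pow_pos hp.out.pos 2) h4
  · intro h
    have h1 := key (Or.inr h)
    rw [h] at h2
    have h3 : Nat.card (center P) * p ^ 2 = p ^ 2 * p ^ 2 := by rw [h2]; ring
    have h4 := Nat.eq_of_mul_eq_mul_right (pow_pos hp.out.pos 2) h3
    rw [h4] at h1
    have h5 : Nat.card (commutator P) * p ^ 2 = p * p ^ 2 := by rw [h1]; ring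
    exact Nat.eq_of_mul_eq_mul_right (pow_pos hp.out.pos 2) h5

end Cfsg.Agent.Lib.PFour
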