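import Cfsg.Agent.Lib.LabC
import Cfsg.Agent.Lib.FusInvB

/-!
Subsystems of `p`-power index: existence, uniqueness, normality.
-/

set_option autoImplicit false
set_option linter.unusedSectionVars false
set_option linter.style.haveILetI false
set_option linter.unusedVariables false

namespace Cfsg.Agent.Lib.PPIA

open Cfsg Cfsg.FusionSystem Cfsg.Agent.Lib.FusBase Cfsg.Agent.Lib.FusSat Cfsg.Agent.Lib.StrongEmb
open Cfsg.Agent.Lib.FusAlperin Cfsg.Agent.Lib.FusNormal Cfsg.Agent.Lib.FusNormalB Cfsg.Agent.Lib.SylRel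
open Cfsg.Agent.Lib.FusSub Cfsg.Agent.Lib.FusPuig Cfsg.Agent.Lib.FusNK Cfsg.Agent.Lib.FusNKB Cfsg.Agent.Lib.FusMor Cfsg.Agent.Lib.FusGroup
open Cfsg.Agent.Lib.FusHyp Cfsg.Agent.Lib.FusHypB Cfsg.Agent.Lib.LabA Cfsg.Agent.Lib.LabB Cfsg.Agent.Lib.LabC Cfsg.Agent.Lib.FusInv

universe u

variable {Ω : Type u} [Group Ω] {S : Subgroup Ω} {F : FusionSystem S} {p : ℕ}
variable {P Q R K T : Subgroup Ω} {f g h : Ω → Ω} {s t k : Ω}

/-- the maps of the subsystem of `p`-power index over `T` -/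
def CT (F : FusionSystem S) (p : ℕ) (K T : Subgroup Ω) (P : Subgroup Ω) (f : Ω → Ω) : Prop :=
  P ≤ T ∧ (∀ x ∈ P, f x ∈ T) ∧ ∃ s ∈ T, Lab F p K P f s

theorem subPred (hK : KS F p K) (hTS : T ≤ S) : SubPred F T (CT F p K T) where
  mor := fun h => h.2.2.choose_spec.2.mor
  le := fun h => h.1
  mem := fun h hx => h.2.1 _ hx
  congr := fun ⟨h1, h2, s, hs, h3⟩ hfg => ⟨h1, fun x hx => by rw [← hfg x hx]; exact h2 x hx, s, hs, h3.congr hfg⟩
  conj := fun hP hs => ⟨hP, fun x hx => T.mul_mem (T.mul_mem hs (hP hx)) (T.inv_mem hs), _, hs, Lab.conj (hP.trans hTS) (hTS hs)⟩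
  comp := fun ⟨h1, h2, s, hs, h3⟩ ⟨h4, h5, t, ht, h6⟩ hfg =>
    ⟨h1, fun x hx => h5 _ (hfg x hx), t * s, T.mul_mem ht hs, h3.comp h6 hfg⟩
  inv := fun {P Q f g} ⟨h1, h2, s, hs, h3⟩ hf hg h4 h5 => by
    have h6 := h3.inv' hK h4
    rw [hf.img_eq] at h6
    refine ⟨?_, ?_, s⁻¹, T.inv_mem hs, h6⟩
    · intro y hy
      obtain ⟨x, hx, rfl⟩ := hf.mem_right.1 hy
      exact h2 x hx
    · intro y hy
      exact h1 (hg.map_mem hy)

/-- the subsystem over `T` -/
noncomputable def ET (hK : KS F p K) (hTS : T ≤ S) : FusionSystem T := ofPred (subPred hK hTS).pred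

theorem mor_ET (hK : KS F p K) (hTS : T ≤ S) : Mor (ET hK hTS) P f ↔ CT F p K T P f := mor_ofPred _

theorem ET_sub (hK : KS F p K) (hTS : T ≤ S) : ∀ P f, Mor (ET hK hTS) P f → Mor F P f := by
  intro P f h
  obtain ⟨_, _, s, _, h⟩ := (mor_ET hK hTS).1 h
  exact h.mor

theorem autGroup_sub {E : FusionSystem T} (hTS : T ≤ S) (hE : ∀ P f, Mor E P f → Mor F P f) (hP : P ≤ T) :
    E.autGroup P ≤ F.autGroup P := fun α hα =>
  (mem_autGroup (hP.trans hTS)).2 (hE _ _ ((mem_autGroup hP).1 hα))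

theorem res_mono {E : FusionSystem T} (hTS : T ≤ S) (hE : ∀ P f, Mor E P f → Mor F P f) (hP : P ≤ T) :
    (pResidual p (E.autGroup P)).map (E.autGroup P).subtype ≤ (pResidual p (F.autGroup P)).map (F.autGroup P).subtype := by
  rintro _ ⟨β, hβ, rfl⟩
  exact ⟨Subgroup.inclusion (autGroup_sub hTS hE hP) β,
    Cfsg.Agent.Lib.PRes.map_mem (p := p) (Subgroup.inclusion (autGroup_sub hTS hE hP)) hβ, rfl⟩

theorem res_trans {X : Type u} [Group X] {A B : Subgroup X} (h : (pResidual p A).map A.subtype ≤ B) :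
    (pResidual p A).map A.subtype ≤ (pResidual p B).map B.subtype := by
  conv_lhs => rw [pResidual, MonoidHom.map_closure]
  rw [Subgroup.closure_le]
  rintro _ ⟨a, ha, rfl⟩
  have h1 : (a : X) ∈ B := h ⟨a, Cfsg.Agent.Lib.PRes.mem_of_coprime ha, rfl⟩
  refine ⟨⟨a, h1⟩, Cfsg.Agent.Lib.PRes.mem_of_coprime ?_, rfl⟩
  have h2 : orderOf (⟨a, h1⟩ : B) = orderOf a := by
    rw [← Subgroup.orderOf_coe a, ← Subgroup.orderOf_coe (⟨a, h1⟩ : B)]
  rw [h2]; exact ha

variable [Finite S] [Fact p.Prime]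

theorem FN_img (hP : F.IsFullyNormalized P) (hs : s ∈ S) : F.IsFullyNormalized (img P fun x => s * x * s⁻¹) := by
  have h1 : Mor F P (fun x => s * x * s⁻¹) := mor_conj F hP.1 hs
  refine ⟨h1.img_le, fun Q hQ => ?_⟩
  have h2 := hP.2 Q (isConj_trans h1.iso.isConj hQ)
  refine h2.trans ?_
  have h3 : Mor F (normalizerIn S P) (fun x => s * x * s⁻¹) := mor_conj F normalizerIn_le hs
  rw [h3.iso.card_eq]
  have : Finite ↥(normalizerIn S (img P fun x => s * x * s⁻¹)) := finite_of_le normalizerIn_le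
  refine Subgroup.card_le_of_le (img_le_iff.2 fun x hx => ?_)
  exact map_normalizer h3 (le_normalizerIn hP.1) hx (mem_normalizerIn.1 hx).2

theorem FA_ET (hS : IsPGroup p S) (hF : F.IsSaturated p) (hK : KS F p K) (hTS : T ≤ S) (hKT : K ≤ T)
    (hP : F.IsFullyNormalized P) (hPT : P ≤ T) : (ET hK hTS).IsFullyAutomized p P := by
  have hT : IsPGroup p T := isPGroup_le hS hTS
  have : Finite T := finite_of_le hTS
  have : Finite P := finite_of_le hP.1
  rw [FA_iff hT hPT]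
  have h1 := FA_sylIn hS (FN_FA hS hF hP)
  set O : Subgroup (MulAut P) := (pResidual p (F.autGroup P)).map (F.autGroup P).subtype with hO
  have hON : F.autGroup P ≤ Subgroup.normalizer (O : Set (MulAut P)) := by
    intro α hα
    refine mem_normalizer_of_conj_mem ?_
    rintro _ ⟨β, hβ, rfl⟩
    have h1 := (Cfsg.Agent.Lib.PRes.normal p (F.autGroup P)).conj_mem β hβ ⟨α, hα⟩
    exact Subgroup.mem_map_of_mem (F.autGroup P).subtype h1
  have hOF : O ≤ F.autGroup P := Subgroup.map_subtype_le _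
  have h2 : SylIn p (autInducedBy S P ⊓ O) O := h1.inf_normal hOF hON
  have h3 : autInducedBy S P ⊓ O ≤ autInducedBy T P := by
    rintro α ⟨hα1, hα2⟩
    obtain ⟨β, hβ, hβα⟩ := hα2
    obtain ⟨x, hx, hxα⟩ := mem_autInducedBy.1 hα1
    have hxN := mem_normalizerIn.2 ⟨hx, mem_normalizer_of_forall_conj hxα⟩
    have h4 : cF F P hP.1 ⟨x, hxN⟩ = β := by
      apply Subtype.ext
      rw [show ((β : F.autGroup P) : MulAut P) = α from hβα]
      ext y
      exact (hxα y).symm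
    obtain ⟨k, hk, hkS, c, hc, hxk⟩ := hf_aut hS hF hP hK.hyp ⟨x, hxN⟩ (by rw [h4]; exact hβ)
    refine mem_autInducedBy.2 ⟨k, hKT hk, fun y => ?_⟩
    rw [hxα y]
    have hxk : x = k * c := hxk
    rw [hxk]
    have h5 : (y : Ω) * c = c * y := (mem_centralizerIn.1 hc).2 y y.2
    have : k * c * (y : Ω) * (k * c)⁻¹ = k * (c * y * c⁻¹) * k⁻¹ := by group
    rw [this, ← h5]; group
  have h4 : (ET hK hTS).autGroup P ≤ O ⊔ autInducedBy T P := by
    intro α hα
    obtain ⟨_, _, s, hs, hL⟩ := (mor_ET hK hTS).1 ((mem_autGroup hPT).1 hα)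
    obtain ⟨β, hβ, x, k, hk, hsx, h5⟩ := LP_all hS hF hK P hP _ _ hL (fun y hy => fn_mem' α hy)
    have hxT : (x : Ω) ∈ T := by
      have : (x : Ω) = s * k⁻¹ := by rw [hsx]; group
      rw [this]; exact T.mul_mem hs (T.inv_mem (hKT hk))
    have h6 : α = (β : MulAut P) * ((cF F P hP.1 x : F.autGroup P) : MulAut P) := fn_ext fun y hy => h5 y hy
    rw [h6]
    refine Subgroup.mul_mem _ (Subgroup.mem_sup_left ⟨β, hβ, rfl⟩) (Subgroup.mem_sup_right ?_)
    exact mem_autInducedBy.2 ⟨x, hxT, fun y => rfl⟩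
  have hVE : autInducedBy T P ≤ (ET hK hTS).autGroup P := autInducedBy_le hPT
  have hVS : autInducedBy T P ≤ autInducedBy S P := by
    intro α hα
    obtain ⟨x, hx, h⟩ := mem_autInducedBy.1 hα
    exact mem_autInducedBy.2 ⟨x, hTS hx, h⟩
  have hinf : autInducedBy T P ⊓ O = autInducedBy S P ⊓ O :=
    le_antisymm (inf_le_inf_right _ hVS) (le_inf h3 inf_le_right)
  have h5 : SylIn p (autInducedBy T P) (O ⊔ autInducedBy T P) := by
    refine ⟨le_sup_right, isPGroup_autInducedBy hT P, ?_⟩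
    have h6 := Basic.card_sup_mul_card_inf (N := O) (H := autInducedBy T P)
      (hVE.trans ((autGroup_sub hTS (ET_sub hK hTS) hPT).trans hON))
    have h7 := relIndex_mul_card' (H := autInducedBy T P) (K := O ⊔ autInducedBy T P) le_sup_right
    have h8 := relIndex_mul_card' (H := autInducedBy S P ⊓ O) (K := O) inf_le_right
    rw [inf_comm, hinf] at h6
    have h9 : 0 < Nat.card ↥(autInducedBy S P ⊓ O) := Nat.card_pos
    have h10 : 0 < Nat.card ↥(autInducedBy T P) := Nat.card_pos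
    have h11 : (autInducedBy T P).relIndex (O ⊔ autInducedBy T P) = (autInducedBy S P ⊓ O).relIndex O := by
      rw [← h7, ← h8] at h6
      have h12 : (autInducedBy T P).relIndex (O ⊔ autInducedBy T P) * (Nat.card ↥(autInducedBy T P) * Nat.card ↥(autInducedBy S P ⊓ O)) =
          (autInducedBy S P ⊓ O).relIndex O * (Nat.card ↥(autInducedBy T P) * Nat.card ↥(autInducedBy S P ⊓ O)) := by
        rw [← mul_assoc, h6]; ring
      exact Nat.eq_of_mul_eq_mul_right (Nat.mul_pos h10 h9) h12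
    rw [h11]; exact h2.not_dvd
  exact (h5.mono hVE h4).not_dvd

theorem sat_ET (hS : IsPGroup p S) (hF : F.IsSaturated p) (hK : KS F p K) (hTS : T ≤ S) (hKT : K ≤ T) :
    (ET hK hTS).IsSaturated p := by
  intro P hPT
  have hT : IsPGroup p T := isPGroup_le hS hTS
  have : Finite T := finite_of_le hTS
  obtain ⟨P₀, hPP₀, hP₀⟩ := exists_FN F (hPT.trans hTS)
  obtain ⟨φ, hφ⟩ := isConj_iff.1 hPP₀
  obtain ⟨s, hs⟩ := Lab.exists_lab hS hF hK P φ hφ.mor
  have hsS := hs.mem hK.le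
  have hsS' := S.inv_mem hsS
  have h1 : Lab F p K P (fun x => s⁻¹ * φ x * s⁻¹⁻¹) 1 := by
    have := hs.comp (Lab.conj (F := F) (p := p) (K := K) (le_refl S) hsS') fun x hx => hφ.mor.mem hx
    rwa [inv_mul_cancel] at this
  have h2 : ∀ x ∈ P, s⁻¹ * φ x * s⁻¹⁻¹ ∈ T := by
    intro x hx
    have h3 := h1.spec hK x hx
    have h4 := T.mul_mem (hKT h3) (hPT hx)
    convert h4 using 1
    group
  have hCT : Mor (ET hK hTS) P (fun x => s⁻¹ * φ x * s⁻¹⁻¹) := (mor_ET hK hTS).2 ⟨hPT, h2, 1, T.one_mem, h1⟩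
  have hP₁ : F.IsFullyNormalized (img P (fun x => s⁻¹ * φ x * s⁻¹⁻¹)) := by
    have h3 := FN_img hP₀ hsS'
    have h4 : img P₀ (fun x => s⁻¹ * x * s⁻¹⁻¹) = img P (fun x => s⁻¹ * φ x * s⁻¹⁻¹) := by
      rw [← hφ.img_eq]
      exact img_img φ _ hφ.mor
    rwa [h4] at h3
  set P₁ := img P (fun x => s⁻¹ * φ x * s⁻¹⁻¹) with hP₁def
  have hP₁T : P₁ ≤ T := img_le_iff.2 h2
  refine ⟨P₁, hCT.iso.isConj, FA_ET hS hF hK hTS hKT hP₁ hP₁T, ?_⟩
  rw [receptive_iff]
  refine ⟨hP₁T, fun R f hf => ?_⟩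
  obtain ⟨hRT, hfT, t, ht, hL⟩ := (mor_ET hK hTS).1 hf.mor
  obtain ⟨g, hg, hgf⟩ := ext_lab hS hF hK (FN_FC hS hF hP₁) hL hf.img_eq
  have hNx : Nx T R f ≤ Nx S R f := by
    intro x hx
    obtain ⟨h3, h4, y, hy, h5⟩ := mem_Nx.1 hx
    exact mem_Nx.2 ⟨hTS h3, h4, y, hTS hy, h5⟩
  have hg' := hg.restrict hNx
  refine ⟨g, (mor_ET hK hTS).2 ⟨Nx_le, fun x hx => ?_, t, ht, hg'⟩, hgf⟩
  have h3 := hg'.spec hK x hx
  have h4 := T.mul_mem (hKT h3) (T.mul_mem (T.mul_mem ht (Nx_le hx)) (T.inv_mem ht))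
  convert h4 using 1
  group

theorem idx_ET (hS : IsPGroup p S) (hF : F.IsSaturated p) (hK : KS F p K) (hTS : T ≤ S) (hKT : K ≤ T) :
    (ET hK hTS).HasPPowerIndexIn F p := by
  refine ⟨isSubsystemOf_iff.2 (ET_sub hK hTS), hK.hyp.trans hKT, fun P hP => ?_⟩
  rintro _ ⟨β, hβ, rfl⟩
  rw [mem_autGroup hP, mor_ET]
  exact ⟨hP, fun x hx => hP (fn_mem' _ hx), 1, T.one_mem, Lab.res (hP.trans hTS) β hβ⟩

/-- comparing saturated systems through `O^p` of the automizers -/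
theorem le_of_res (hT : IsPGroup p T) [Finite T] {E E' : FusionSystem T} (hE : E.IsSaturated p)
    (h : ∀ P ≤ T, (pResidual p (E.autGroup P)).map (E.autGroup P).subtype ≤ E'.autGroup P) : E ≤ E' := by
  refine alperin_le hT hE fun P hP => ?_
  have hPT : P ≤ T := by
    rcases hP with rfl | hP
    · exact le_rfl
    · exact hP.2.1.1
  have hFN : E.IsFullyNormalized P := by
    rcases hP with rfl | hP
    · exact S_FN E
    · exact hP.2.1
  intro α hα
  obtain ⟨β, hβ, s, hs, h1⟩ := FA_decomp hT (FN_FA hT hE hFN) hα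
  have h2 : (β : MulAut P) ∈ E'.autGroup P := h P hPT ⟨β, hβ, rfl⟩
  rw [mem_autGroup hPT] at h2 ⊢
  exact (((mor_conj E' hPT hs).comp h2 fun x hx => (h1 x hx).1).congr fun x hx => ((h1 x hx).2).symm)

theorem eq_ET (hS : IsPGroup p S) (hF : F.IsSaturated p) (hK : KS F p K) (hTS : T ≤ S) (hKT : K ≤ T)
    {E : FusionSystem T} (hE : E.IsSaturated p) (hEi : E.HasPPowerIndexIn F p) : E = ET hK hTS := by
  have hT : IsPGroup p T := isPGroup_le hS hTS
  have : Finite T := finite_of_le hTS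
  apply le_antisymm'
  · exact le_of_res hT hE fun P hP => (res_mono hTS (isSubsystemOf_iff.1 hEi.1) hP).trans
      ((idx_ET hS hF hK hTS hKT).2.2 P hP)
  · exact le_of_res hT (sat_ET hS hF hK hTS hKT) fun P hP => (res_mono hTS (ET_sub hK hTS) hP).trans (hEi.2.2 P hP)

theorem ks (F : FusionSystem S) (p : ℕ) [Fact p.Prime] : KS F p (F.hyperfocalSubgroup p) :=
  ⟨le_rfl, hyp_le, fun s hs k hk => hyp_conj hs hk⟩

end Cfsg.Agent.Lib.PPIA
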