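import Cfsg.Agent.Lib.PPIA
import Cfsg.Agent.Lib.FusSimple

/-!
Subsystems of `p`-power index: normality, group fusion systems, residual limits.
-/

set_option autoImplicit false
set_option linter.unusedSectionVars false
set_option linter.style.haveILetI false
set_option linter.unusedVariables false

namespace Cfsg.Agent.Lib.PPIB

open Cfsg Cfsg.FusionSystem Cfsg.Agent.Lib.FusBase Cfsg.Agent.Lib.FusSat Cfsg.Agent.Lib.StrongEmb
open Cfsg.Agent.Lib.FusAlperin Cfsg.Agent.Lib.FusNormal Cfsg.Agent.Lib.FusNormalB Cfsg.Agent.Lib.SylRel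
open Cfsg.Agent.Lib.FusSub Cfsg.Agent.Lib.FusPuig Cfsg.Agent.Lib.FusNK Cfsg.Agent.Lib.FusNKB Cfsg.Agent.Lib.FusMor Cfsg.Agent.Lib.FusGroup
open Cfsg.Agent.Lib.FusHyp Cfsg.Agent.Lib.FusHypB Cfsg.Agent.Lib.LabA Cfsg.Agent.Lib.LabB Cfsg.Agent.Lib.LabC Cfsg.Agent.Lib.FusInv
open Cfsg.Agent.Lib.PPIA

universe u

variable {Ω : Type u} [Group Ω] {S : Subgroup Ω} {F : FusionSystem S} {p : ℕ} [Finite S] [Fact p.Prime]
variable {P Q R K T : Subgroup Ω} {f g h : Ω → Ω} {s t k : Ω}

set_option maxHeartbeats 1000000 in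
theorem normal_ET (hS : IsPGroup p S) (hF : F.IsSaturated p) (hK : KS F p K) (hTS : T ≤ S) (hKT : K ≤ T)
    (hTn : ∀ s ∈ S, ∀ t ∈ T, s * t * s⁻¹ ∈ T) : (ET hK hTS).IsNormalIn F p := by
  have hT : IsPGroup p T := isPGroup_le hS hTS
  have : Finite T := finite_of_le hTS
  have hmap : ∀ (P : Subgroup Ω) (f : Ω → Ω) (s : Ω), P ≤ T → Lab F p K P f s → ∀ x ∈ P, f x ∈ T := by
    intro P f s hP hL x hx
    have h1 := hL.spec hK x hx
    have h2 := T.mul_mem (hKT h1) (hTn s (hL.mem hK.le) x (hP hx))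
    convert h2 using 1
    group
  have hTN : T ≤ normalizerIn S T := le_normalizerIn hTS
  have hSN : ∀ s ∈ S, s ∈ Subgroup.normalizer (T : Set Ω) := fun s hs =>
    mem_normalizer_of_conj_mem fun x hx => hTn s hs x hx
  have hTFN : F.IsFullyNormalized T := by
    refine ⟨hTS, fun Q hQ => ?_⟩
    have h1 : normalizerIn S T = S := le_antisymm normalizerIn_le fun s hs => mem_normalizerIn.2 ⟨hs, hSN s hs⟩
    rw [h1]
    exact Subgroup.card_le_of_le normalizerIn_le
  refine ⟨⟨sat_ET hS hF hK hTS hKT, hF, isInvariant_iff.2 ⟨ET_sub hK hTS, ⟨hTS, fun R hR φ hφ x => ?_⟩, ?_, ?_⟩⟩, ?_⟩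
  · obtain ⟨s, hs⟩ := Lab.exists_lab hS hF hK R (ext φ) (mor_ext hφ)
    have := hmap R _ s hR hs x x.2
    rwa [ext_apply] at this
  · intro P f a hf ha
    obtain ⟨hP, hfT, s, hs, hL⟩ := (mor_ET hK hTS).1 hf
    obtain ⟨r, hr⟩ := Lab.exists_lab hS hF hK T a ha.mor
    have hrS := hr.mem hK.le
    have hrP := hr.restrict hP
    obtain ⟨g', hg', h1⟩ := hrP.inv hK
    have h2 : ∀ y ∈ img P a, g' y ∈ P := by
      intro y hy
      obtain ⟨x, hx, rfl⟩ := hrP.mor.mem_img.1 hy
      rw [h1 x hx]; exact hx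
    have h3 := (hg'.comp hL h2).comp hr fun y hy => hfT _ (h2 y hy)
    have h4 : img P a ≤ T := img_le_iff.2 fun x hx => ha.map_mem (hP hx)
    refine ⟨fun y => a (f (g' y)), (mor_ET hK hTS).2 ⟨h4, hmap _ _ _ h4 h3, _, ?_, h3⟩, fun x hx => ?_⟩
    · rw [← mul_assoc]; exact hTn r hrS s hs
    · show a (f (g' (a x))) = a (f x)
      rw [h1 x hx]
  · intro P f hP hf
    obtain ⟨s, hs⟩ := Lab.exists_lab hS hF hK P f hf
    have hsS := hs.mem hK.le
    have hsS' := S.inv_mem hsS
    have h1 : Lab F p K P (fun x => s⁻¹ * f x * s⁻¹⁻¹) 1 := by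
      have := hs.comp (Lab.conj (F := F) (p := p) (K := K) (le_refl S) hsS') fun x hx => hf.mem hx
      rwa [inv_mul_cancel] at this
    have h2 : Iso F T T (fun x => s * x * s⁻¹) := (mor_conj F hTS hsS).iso_of_map fun x hx => hTn s hsS x hx
    have h3 := hmap P (fun x => s⁻¹ * f x * s⁻¹⁻¹) 1 hP h1
    have h4 : Mor (ET hK hTS) P (fun x => s⁻¹ * f x * s⁻¹⁻¹) := (mor_ET hK hTS).2 ⟨hP, h3, 1, T.one_mem, h1⟩
    exact ⟨_, _, h2, h4, fun x hx => by show f x = s * (s⁻¹ * f x * s⁻¹⁻¹) * s⁻¹; group⟩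
  · intro α hα
    obtain ⟨_, _, t, ht, hL⟩ := (mor_ET hK hTS).1 ((mem_autGroup le_rfl).1 hα)
    have hαT : img T (fn α) = T := by
      have hM : Iso (ET hK hTS) T T (fn α) := iso_fn le_rfl hα
      exact hM.img_eq
    obtain ⟨g, hg, hgf⟩ := ext_lab hS hF hK (FN_FC hS hF hTFN) hL hαT
    have hC : T ⊔ centralizerIn S T ≤ Nx S T (fn α) :=
      sup_le hL.mor.le_Nx hL.mor.centralizerIn_le_Nx
    have hgC := hg.restrict hC
    have hgT : ∀ x ∈ T, g x ∈ T := fun x hx => by rw [hgf x hx]; exact fn_mem' α hx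
    have hgc : ∀ c ∈ centralizerIn S T, g c ∈ centralizerIn S T := by
      intro c hc
      have h1 := map_centralizer hgC.mor (le_sup_left : T ≤ T ⊔ centralizerIn S T) (Subgroup.mem_sup_right hc) hc
      have h2 : img T g = T := (img_congr hgf).trans hαT
      rwa [h2] at h1
    have hfin : Finite ↥(T ⊔ centralizerIn S T) := finite_of_le (sup_le hTS centralizerIn_le)
    have hiso : Iso F (T ⊔ centralizerIn S T) (T ⊔ centralizerIn S T) g := by
      refine hgC.mor.iso_of_map ?_
      have h3 : T ⊔ centralizerIn S T ≤ (T ⊔ centralizerIn S T : Subgroup Ω) := le_rfl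
      have h4 : img (T ⊔ centralizerIn S T) g ≤ T ⊔ centralizerIn S T := by
        intro y hy
        obtain ⟨x, hx, rfl⟩ := hgC.mor.mem_img.1 hy
        have hn : centralizerIn S T ≤ Subgroup.normalizer (T : Set Ω) := fun c hc =>
          hSN c (centralizerIn_le hc)
        obtain ⟨a, ha, c, hc, rfl⟩ := (Basic.mem_sup_iff_left hn).1 hx
        rw [hgC.mor.mul (Subgroup.mem_sup_left ha) (Subgroup.mem_sup_right hc)]
        exact Subgroup.mul_mem _ (Subgroup.mem_sup_left (hgT a ha)) (Subgroup.mem_sup_right (hgc c hc))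
      exact fun x hx => h4 (mem_img_of_mem hx)
    refine ⟨autOf hiso, autOf_mem hiso, fun x => ?_, fun c hc => ?_⟩
    · rw [autOf_apply]
      show g (x : Ω) = _
      rw [hgf x x.2, fn_apply]
    · rw [autOf_apply]
      have h1 := hgC.spec hK c c.2
      have hcc := (mem_centralizerIn.1 hc).2
      have h2 : t * (c : Ω) * t⁻¹ = c := by rw [hcc t ht]; group
      rw [h2] at h1
      have h3 : (c : Ω)⁻¹ * g c = (c : Ω)⁻¹ * (g c * (c : Ω)⁻¹) * c := by group
      have h4 := hgc c hc
      refine ⟨?_, ?_⟩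
      · rw [h3]; exact hKT (hK.norm' (centralizerIn_le hc) h1)
      · have h5 := (centralizerIn S T).mul_mem ((centralizerIn S T).inv_mem hc) h4
        exact h5.2

/-- `O^p` of the automizer in a group fusion system -/
theorem pres_grp {G : Type u} [Group G] [Finite G] {R : Subgroup G} {P : Subgroup G} (hP : P ≤ R)
    {β : (groupFusionSystem R).autGroup P}
    (hβ : β ∈ pResidual p ((groupFusionSystem R).autGroup P)) :
    ∃ g ∈ pResidual p G, g ∈ Subgroup.normalizer (P : Set G) ∧ ∀ x : P, (((β : MulAut P) x : P) : G) = g * x * g⁻¹ := by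
  set N : Subgroup G := Subgroup.normalizer (P : Set G) with hN
  let φ : N →* (groupFusionSystem R).autGroup P :=
    MonoidHom.mk' (fun n => ⟨cj P (n : G) n.2, by
      rw [autGroup_grp hP]; exact cj_mem _ (Subgroup.mem_top _)⟩) (by
      intro a b
      apply Subtype.ext
      ext y
      show (((a * b : N) : G)) * (y : G) * (((a * b : N) : G))⁻¹ = (a : G) * ((b : G) * y * (b : G)⁻¹) * (a : G)⁻¹
      simp only [Subgroup.coe_mul]
      group)
  have hφ : Function.Surjective φ := by
    rintro ⟨α, hα⟩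
    rw [autGroup_grp hP] at hα
    obtain ⟨g, hg, h⟩ := mem_autInducedBy.1 hα
    have hgN : g ∈ Subgroup.normalizer (P : Set G) := by
      refine mem_normalizer_of_conj_mem fun y hy => ?_
      rw [← h ⟨y, hy⟩]; exact Subtype.mem _
    refine ⟨⟨g, hgN⟩, ?_⟩
    apply Subtype.ext
    ext y
    exact (h y).symm
  rw [← Cfsg.Agent.Lib.PRes.map_eq φ hφ] at hβ
  obtain ⟨n, hn, rfl⟩ := hβ
  exact ⟨n, Cfsg.Agent.Lib.PRes.map_mem (p := p) N.subtype hn, n.2, fun x => rfl⟩

/-- the hyperfocal subgroup of a subsystem of `p`-power index -/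
theorem hyp_eq {E : FusionSystem T} (hS : IsPGroup p S) (hTS : T ≤ S) (hE : E.HasPPowerIndexIn F p) :
    E.hyperfocalSubgroup p = F.hyperfocalSubgroup p := by
  have hEs := isSubsystemOf_iff.1 hE.1
  refine le_antisymm (hyp_mono hTS hEs) ?_
  have : Finite T := finite_of_le hTS
  set H := E.hyperfocalSubgroup p with hH
  have hHc : ∀ s ∈ T, ∀ x ∈ H, s * x * s⁻¹ ∈ H := fun s hs x hx => hyp_conj hs hx
  conv_lhs => unfold FusionSystem.hyperfocalSubgroup
  rw [Subgroup.closure_le]
  rintro _ ⟨P, α, x, hP, hα, rfl⟩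
  have hfP : Finite P := finite_of_le hP
  have key : ∀ α : F.autGroup P, α ∈ pResidual p (F.autGroup P) → ∀ x ∈ P, x⁻¹ * fn (α : MulAut P) x ∈ H := by
    intro α hα
    have hα' : α ∈ Subgroup.closure {g : F.autGroup P | Nat.Coprime (orderOf g) p} := hα
    induction hα' using Subgroup.closure_induction with
    | mem α hco =>
      have hco : Nat.Coprime (orderOf α) p := hco
      intro x hx
      set n := orderOf α with hn
      -- M = P ⊓ T
      set M : Subgroup Ω := P ⊓ T with hM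
      have hMP : M ≤ P := inf_le_left
      have hMT : M ≤ T := inf_le_right
      have hcomm : ∀ y ∈ P, y⁻¹ * fn (α : MulAut P) y ∈ T := fun y hy =>
        hE.2.1 (mem_hyp hP (Cfsg.Agent.Lib.PRes.mem_of_coprime hco) hy)
      have hαM : ∀ y ∈ M, fn (α : MulAut P) y ∈ M := by
        intro y hy
        refine ⟨fn_mem' _ hy.1, ?_⟩
        have := T.mul_mem hy.2 (hcomm y hy.1)
        rwa [mul_inv_cancel_left] at this
      have hfM : Finite M := finite_of_le (hMP.trans hP)
      have hiso : Iso F M M (fn (α : MulAut P)) := ((iso_fn hP α.2).mor.restrict hMP).iso_of_map hαM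
      set β : F.autGroup M := ⟨autOf hiso, autOf_mem hiso⟩ with hβ
      have hβn : ∀ k : ℕ, ∀ y ∈ M, fn ((β ^ k : F.autGroup M) : MulAut M) y = fn ((α ^ k : F.autGroup P) : MulAut P) y := by
        intro k
        induction k with
        | zero => intro y hy; rw [pow_zero, pow_zero]; exact (fn_one hy).trans (fn_one (hMP hy)).symm
        | succ k ih =>
          intro y hy
          rw [pow_succ, pow_succ, Subgroup.coe_mul, Subgroup.coe_mul, fn_mul _ _ hy, fn_mul _ _ (hMP hy)]
          have h1 : fn (β : MulAut M) y = fn (α : MulAut P) y := by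
            rw [fn_mem _ hy]; exact autOf_apply hiso ⟨y, hy⟩
          rw [h1, ih _ (hαM y hy)]
      have hβ1 : β ^ n = 1 := by
        apply Subtype.ext
        refine fn_ext fun y hy => ?_
        rw [hβn n y hy, hn, pow_orderOf_eq_one]
        exact (fn_one (hMP hy)).trans (fn_one hy).symm
      have hβco : Nat.Coprime (orderOf β) p := Nat.Coprime.coprime_dvd_left (orderOf_dvd_of_pow_eq_one hβ1) hco
      have hβE : (β : MulAut M) ∈ (pResidual p (E.autGroup M)).map (E.autGroup M).subtype :=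
        res_trans (hE.2.2 M hMT) ⟨β, Cfsg.Agent.Lib.PRes.mem_of_coprime hβco, rfl⟩
      obtain ⟨γ, hγ, hγβ⟩ := hβE
      have hMH : ∀ y ∈ M, y⁻¹ * fn (α : MulAut P) y ∈ H := by
        intro y hy
        have h1 := mem_hyp hMT hγ hy
        rw [show ((γ : E.autGroup M) : MulAut M) = (β : MulAut M) from hγβ] at h1
        have h2 : fn (β : MulAut M) y = fn (α : MulAut P) y := by
          rw [fn_mem _ hy]; exact autOf_apply hiso ⟨y, hy⟩
        rwa [h2] at h1
      set m := x⁻¹ * fn (α : MulAut P) x with hm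
      have hmM : m ∈ M := ⟨P.mul_mem (P.inv_mem hx) (fn_mem' _ hx), hcomm x hx⟩
      have hmor : Mor F P (fn (α : MulAut P)) := (iso_fn hP α.2).mor
      -- c k = x⁻¹ α^k x
      have hc : ∀ k : ℕ, ∃ h ∈ H, x⁻¹ * fn ((α ^ k : F.autGroup P) : MulAut P) x = m ^ k * h ∧
          x⁻¹ * fn ((α ^ k : F.autGroup P) : MulAut P) x ∈ M := by
        intro k
        induction k with
        | zero =>
          refine ⟨1, H.one_mem, ?_, ?_⟩
          · rw [pow_zero, pow_zero, mul_one, Subgroup.coe_one, fn_one hx, inv_mul_cancel]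
          · rw [pow_zero, Subgroup.coe_one, fn_one hx, inv_mul_cancel]; exact M.one_mem
        | succ k ih =>
          obtain ⟨h, hh, h1, h2⟩ := ih
          set c := x⁻¹ * fn ((α ^ k : F.autGroup P) : MulAut P) x with hcd
          have h3 : fn ((α ^ (k + 1) : F.autGroup P) : MulAut P) x = fn (α : MulAut P) x * fn (α : MulAut P) c := by
            rw [pow_succ', Subgroup.coe_mul, fn_mul _ _ hx, ← hmor.mul hx (hMP h2), hcd, mul_inv_cancel_left]
          have h4 := hMH c h2
          refine ⟨h * (c⁻¹ * fn (α : MulAut P) c), H.mul_mem hh h4, ?_, ?_⟩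
          · have h5 : x⁻¹ * fn ((α ^ (k + 1) : F.autGroup P) : MulAut P) x = m * (c * (c⁻¹ * fn (α : MulAut P) c)) := by
              rw [h3, hm]; group
            rw [h5]
            nth_rw 1 [h1]
            rw [pow_succ']; group
          · rw [h3]
            have h5 : x⁻¹ * (fn (α : MulAut P) x * fn (α : MulAut P) c) = m * fn (α : MulAut P) c := by rw [hm]; group
            rw [h5]
            exact M.mul_mem hmM (hαM c h2)
      obtain ⟨h, hh, h1, _⟩ := hc n
      rw [hn, pow_orderOf_eq_one, Subgroup.coe_one, fn_one hx, inv_mul_cancel] at h1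
      have h2 : m ^ n ∈ H := by
        rw [hn]
        have : m ^ orderOf α = h⁻¹ := eq_inv_of_mul_eq_one_left h1.symm
        rw [this]; exact H.inv_mem hh
      obtain ⟨e, he⟩ := orderOf_dvd_card_pow hS (hTS (hMT hmM))
      have hco' : Nat.Coprime n (p ^ e) := hco.pow_right e
      have h3 : Nat.Coprime n (orderOf m) := Nat.Coprime.coprime_dvd_right (orderOf_dvd_of_pow_eq_one he) hco'
      obtain ⟨j, hj⟩ := exists_pow_eq_self_of_coprime h3
      rw [← hj]
      exact H.pow_mem h2 j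
    | one => intro x hx; rw [Subgroup.coe_one, fn_one hx, inv_mul_cancel]; exact H.one_mem
    | mul a b ha hb iha ihb =>
      intro x hx
      rw [Subgroup.coe_mul, fn_mul _ _ hx]
      have h1 := ihb hb x hx
      have h2 := iha ha _ (fn_mem' (b : MulAut P) hx)
      have h3 := H.mul_mem h1 h2
      convert h3 using 1
      group
    | inv a ha iha =>
      intro x hx
      have hy := fn_mem' ((a⁻¹ : F.autGroup P) : MulAut P) hx
      have h1 := H.inv_mem (iha ha _ hy)
      rw [← fn_mul _ _ hx] at h1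
      have h2 : ((a : MulAut P) * ((a⁻¹ : F.autGroup P) : MulAut P)) = 1 := by
        rw [Subgroup.coe_inv, mul_inv_cancel]
      rw [h2, fn_one hx, mul_inv_rev, inv_inv] at h1
      exact h1
  have h1 := key α hα x x.2
  rwa [fn_mem _ x.2] at h1

end Cfsg.Agent.Lib.PPIB
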