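import Cfsg.Agent.Lib.PPIB
import Cfsg.Prelude.Def_FusionReduction

/-!
Residual limits.
-/

set_option autoImplicit false
set_option linter.unusedSectionVars false
set_option linter.style.haveILetI false
set_option linter.unusedVariables false

namespace Cfsg.Agent.Lib.PPIC

open Cfsg Cfsg.FusionSystem Cfsg.Agent.Lib.FusBase Cfsg.Agent.Lib.FusSat Cfsg.Agent.Lib.StrongEmb
open Cfsg.Agent.Lib.FusAlperin Cfsg.Agent.Lib.FusNormal Cfsg.Agent.Lib.FusNormalB Cfsg.Agent.Lib.SylRel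
open Cfsg.Agent.Lib.FusSub Cfsg.Agent.Lib.FusPuig Cfsg.Agent.Lib.FusNK Cfsg.Agent.Lib.FusNKB Cfsg.Agent.Lib.FusMor Cfsg.Agent.Lib.FusGroup
open Cfsg.Agent.Lib.FusHyp Cfsg.Agent.Lib.FusHypB Cfsg.Agent.Lib.LabA Cfsg.Agent.Lib.LabB Cfsg.Agent.Lib.LabC Cfsg.Agent.Lib.FusInv
open Cfsg.Agent.Lib.PPIA Cfsg.Agent.Lib.PPIB

universe u

variable {Ω : Type u} [Group Ω]

theorem eq_of_idx {S : Subgroup Ω} [Finite S] {p : ℕ} [Fact p.Prime] {F : FusionSystem S} (hS : IsPGroup p S)
    (hF : F.IsSaturated p) {T : Subgroup Ω} {E E' : FusionSystem T} (hE : E.IsSaturated p) (hEi : E.HasPPowerIndexIn F p)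
    (hE' : E'.IsSaturated p) (hE'i : E'.HasPPowerIndexIn F p) : E = E' := by
  have hTS : T ≤ S := subsystem_le hEi.1
  rw [eq_ET hS hF (ks F p) hTS hEi.2.1 hE hEi, eq_ET hS hF (ks F p) hTS hEi.2.1 hE' hE'i]

theorem idx_self {S : Subgroup Ω} [Finite S] {p : ℕ} [Fact p.Prime] (F : FusionSystem S) : F.HasPPowerIndexIn F p :=
  ⟨fun _ => subset_rfl, hyp_le, fun P hP => Subgroup.map_subtype_le _⟩

theorem ppr_unique {S : Subgroup Ω} {p : ℕ} {F D D' : FusionSystem S} (h : F.IsPPrimeResidual p D)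
    (h' : F.IsPPrimeResidual p D') : D = D' :=
  le_antisymm' (h.2.2 D' h'.1 h'.2.1) (h'.2.2 D h.1 h.2.1)

theorem lim_stable : ∀ {T : Subgroup Ω} {E : FusionSystem T} {S : Subgroup Ω} {F : FusionSystem S} {p : ℕ},
    IsResidualLimitOf E F p → Fact p.Prime → Finite S → IsPGroup p S → F.IsSaturated p →
      F.hyperfocalSubgroup p = S → F.IsPPrimeResidual p F → ∀ P, E.Hom P = F.Hom P := by
  intro T E S F p h
  induction h with
  | stable F p h1 h2 => intros; rfl
  | @step S E F p D D' hD hD' hlim ih =>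
    intro hp hfin hS hF hhyp hres
    have key : ∀ (H : Subgroup Ω) (D D' : FusionSystem H), H = S → D.IsSaturated p → D.HasPPowerIndexIn F p →
        D.IsPPrimeResidual p D' → D'.hyperfocalSubgroup p = H ∧ D'.IsPPrimeResidual p D' ∧ ∀ P, D'.Hom P = F.Hom P := by
      intro H D₁ D₁' hH hDs hDi hD₁
      subst hH
      have h1 : D₁ = F := eq_of_idx hS hF hDs hDi hF (idx_self F)
      rw [h1] at hD₁
      have h2 : D₁' = F := ppr_unique hD₁ hres
      rw [h2]
      exact ⟨hhyp, hres, fun P => rfl⟩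
    obtain ⟨h1, h2, h3⟩ := key _ D D' hhyp hD.1 hD.2 hD'
    intro P
    rw [← h3 P]
    exact ih hp (finite_of_le hyp_le) (isPGroup_le hS hyp_le) hD'.1 h1 h2 P

theorem lim_unique : ∀ {T : Subgroup Ω} {E : FusionSystem T} {S : Subgroup Ω} {F : FusionSystem S} {p : ℕ},
    IsResidualLimitOf E F p → Fact p.Prime → Finite S → IsPGroup p S → F.IsSaturated p →
      ∀ {T' : Subgroup Ω} {E' : FusionSystem T'}, IsResidualLimitOf E' F p → ∀ P, E.Hom P = E'.Hom P := by
  intro T E S F p h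
  induction h with
  | stable F p h1 h2 =>
    intro hp hfin hS hF T' E' h' P
    exact (lim_stable h' hp hfin hS hF h1 h2 P).symm
  | @step S E F p D D' hD hD' hlim ih =>
    intro hp hfin hS hF T' E' h'
    cases h' with
    | stable _ _ h1 h2 =>
      exact lim_stable (IsResidualLimitOf.step F p D D' hD hD' hlim) hp hfin hS hF h1 h2
    | step _ _ D₂ D₂' hD₂ hD₂' hlim₂ =>
      have h1 : D₂ = D := eq_of_idx hS hF hD₂.1 hD₂.2 hD.1 hD.2
      subst h1
      have h2 : D₂' = D' := ppr_unique hD₂' hD'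
      subst h2
      exact ih hp (finite_of_le hyp_le) (isPGroup_le hS hyp_le) hD'.1 hlim₂

theorem lim_idx {S : Subgroup Ω} [hfin : Finite S] {p : ℕ} [hp : Fact p.Prime] {F : FusionSystem S} (hS : IsPGroup p S)
    (hF : F.IsSaturated p) {T : Subgroup Ω} {E : FusionSystem T} (hE : E.IsSaturated p) (hEi : E.HasPPowerIndexIn F p)
    {U V : Subgroup Ω} {Finf : FusionSystem U} (hFinf : Finf.IsResidualLimitOf F p) {Einf : FusionSystem V}
    (hEinf : Einf.IsResidualLimitOf E p) : ∀ P : Subgroup Ω, Finf.Hom P = Einf.Hom P := by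
  have hTS : T ≤ S := subsystem_le hEi.1
  have hT : IsPGroup p T := isPGroup_le hS hTS
  have hfT : Finite T := finite_of_le hTS
  have hhyp := hyp_eq hS hTS hEi
  cases hFinf with
  | stable _ _ h1 h2 =>
    have hST : T = S := le_antisymm hTS (h1 ▸ hEi.2.1)
    subst hST
    have h3 : E = F := eq_of_idx hS hF hE hEi hF (idx_self F)
    subst h3
    intro P
    exact (lim_stable hEinf hp hfT hT hE h1 h2 P).symm
  | step _ _ D D' hD hD' hlim =>
    cases hEinf with
    | stable _ _ h1 h2 =>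
      -- D = E
      have key : ∀ (H : Subgroup Ω) (D D' : FusionSystem H), H = T → D.IsSaturated p → D.HasPPowerIndexIn F p →
          D.IsPPrimeResidual p D' → D'.hyperfocalSubgroup p = H ∧ D'.IsPPrimeResidual p D' ∧ ∀ P, D'.Hom P = E.Hom P := by
        intro H D₁ D₁' hH hDs hDi hD₁
        subst hH
        have h3 : D₁ = E := eq_of_idx hS hF hDs hDi hE hEi
        rw [h3] at hD₁
        have h4 : D₁' = E := ppr_unique hD₁ h2
        rw [h4]
        exact ⟨h1, h2, fun P => rfl⟩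
      obtain ⟨h3, h4, h5⟩ := key _ D D' (hhyp.symm.trans h1) hD.1 hD.2 hD'
      intro P
      rw [← h5 P]
      exact lim_stable hlim hp (finite_of_le hyp_le) (isPGroup_le hS hyp_le) hD'.1 h3 h4 P
    | step _ _ D₂ D₂' hD₂ hD₂' hlim₂ =>
      have hD₂F : D₂.HasPPowerIndexIn F p := by
        refine ⟨fun P => (hD₂.2.1 P).trans (hEi.1 P), hhyp.symm.le, fun P hP => ?_⟩
        exact (res_trans (hEi.2.2 P (hP.trans hyp_le))).trans (hD₂.2.2.2 P hP)
      have key : ∀ (H H' : Subgroup Ω) (D D' : FusionSystem H) (D₂ D₂' : FusionSystem H'), H = H' → H ≤ S →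
          D.IsSaturated p → D.HasPPowerIndexIn F p →
          D.IsPPrimeResidual p D' → D₂.IsSaturated p → D₂.HasPPowerIndexIn F p → D₂.IsPPrimeResidual p D₂' →
          Finf.IsResidualLimitOf D' p → Einf.IsResidualLimitOf D₂' p → ∀ P, Finf.Hom P = Einf.Hom P := by
        intro H H' D D' D₂ D₂' hH hHS h1 h2 h3 h4 h5 h6 h7 h8
        subst hH
        have h9 : D = D₂ := eq_of_idx hS hF h1 h2 h4 h5
        subst h9
        have h10 : D' = D₂' := ppr_unique h3 h6
        subst h10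
        exact lim_unique h7 hp (finite_of_le hHS) (isPGroup_le hS hHS) h3.1 h8
      exact key _ _ D D' D₂ D₂' hhyp.symm hyp_le hD.1 hD.2 hD' hD₂.1 hD₂F hD₂' hlim hlim₂

end Cfsg.Agent.Lib.PPIC
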