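import Mathlib
import Cfsg.Prelude.Def_LocalStructure
import Cfsg.Agent.Lib.Cores
import Cfsg.Agent.Lib.Nilp

set_option autoImplicit false
set_option linter.all false

namespace Cfsg.Agent.Lib.ParC2

open Subgroup Cfsg Cfsg.Agent.Lib.Cores

variable {G : Type*} [Group G] [Finite G]

theorem fix_eq_one (hG : IsOfParabolicCharacteristic 2 G) (T : Sylow 2 G) (z : G) (hz : orderOf z = 2)
    (hzc : ∀ t ∈ (T : Subgroup G), t * z = z * t) (x : G) (hx : x ∈ oddCore G) (hzx : z * x = x * z) : x = 1 := by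
  have : Fact (Nat.Prime 2) := ⟨Nat.prime_two⟩
  let N : Subgroup G := normalizer (zpowers z : Set G)
  have hR : IsPGroup 2 (zpowers z) := by
    apply IsPGroup.of_card (n := 1)
    rw [Nat.card_zpowers, hz]; rfl
  have hR1 : zpowers z ≠ ⊥ := by
    intro h
    rw [zpowers_eq_bot] at h
    rw [h, orderOf_one] at hz
    exact absurd hz (by norm_num)
  have hmem : ∀ t : G, t * z = z * t → t ∈ N := by
    intro t ht
    have h1 : t ∈ centralizer (zpowers z : Set G) := by
      rw [mem_centralizer_iff]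
      rintro y ⟨k, rfl⟩
      exact ((show Commute t z from ht).zpow_right k).symm
    exact (centralizer_le_normalizer _) h1
  have hTN : (T : Subgroup G) ≤ N := fun t ht => hmem t (hzc t ht)
  have h1 := hG (zpowers z) hR hR1 ⟨T, hTN⟩
  have hn1 : (pCore 2 N).Normal := pCore_normal 2 _
  have hn2 : (oddCore G).Normal := pPrimeCore_normal 2 _
  have hn3 : ((oddCore G).subgroupOf N).Normal := inferInstance
  have hc : (Nat.card ((oddCore G).subgroupOf N)).Coprime 2 := by
    have h2 : Nat.card ((oddCore G).subgroupOf N) ∣ Nat.card (oddCore G) := by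
      have := card_dvd_of_injective (Subgroup.inclusion (inf_le_left : oddCore G ⊓ N ≤ oddCore G)) (Subgroup.inclusion_injective _)
      have h3 : Nat.card ((oddCore G).subgroupOf N) = Nat.card (oddCore G ⊓ N : Subgroup G) := by
        rw [← Subgroup.inf_subgroupOf_right]
        exact Nat.card_congr (Subgroup.subgroupOfEquivOfLe inf_le_right).toEquiv
      rw [h3]; exact this
    exact Nat.Coprime.coprime_dvd_left h2 (pPrimeCore_coprime 2)
  obtain ⟨k, hk⟩ := (pCore_isPGroup (G := N) 2).exists_card_eq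
  have hdis : Disjoint ((oddCore G).subgroupOf N) (pCore 2 N) := by
    rw [disjoint_iff]
    apply Subgroup.inf_eq_bot_of_coprime
    rw [hk]
    exact Nat.Coprime.pow_right k hc
  have h2 : (oddCore G).subgroupOf N ≤ centralizer (pCore 2 N : Set N) := by
    intro a ha
    rw [mem_centralizer_iff]
    intro b hb
    exact (Subgroup.commute_of_normal_of_disjoint _ _ hn3 hn1 hdis a b ha hb).symm
  have h3 : (oddCore G).subgroupOf N ≤ ⊥ := by
    have h7 : Disjoint ((oddCore G).subgroupOf N) ((oddCore G).subgroupOf N) := hdis.mono_right (h2.trans h1)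
    rw [disjoint_self] at h7
    exact h7.le
  have hxN : x ∈ N := hmem x hzx.symm
  have h4 : (⟨x, hxN⟩ : N) ∈ (oddCore G).subgroupOf N := hx
  have h5 := h3 h4
  rw [mem_bot] at h5
  exact congrArg Subtype.val h5

theorem inverts (hG : IsOfParabolicCharacteristic 2 G) (T : Sylow 2 G) (z : G) (hz : orderOf z = 2)
    (hzc : ∀ t ∈ (T : Subgroup G), t * z = z * t) (x : G) (hx : x ∈ oddCore G) : z * x * z⁻¹ = x⁻¹ := by
  have hn2 : (oddCore G).Normal := pPrimeCore_normal 2 _
  let φ : oddCore G →* oddCore G := (MulAut.conjNormal z : MulAut (oddCore G)).toMonoidHom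
  have hφ : ∀ y : oddCore G, ((φ y : oddCore G) : G) = z * y * z⁻¹ := fun y => MulAut.conjNormal_apply z y
  have hzz : z * z = 1 := by rw [← pow_two, ← hz, pow_orderOf_eq_one]
  have hzi : z⁻¹ = z := inv_eq_of_mul_eq_one_left hzz
  have h1 : MonoidHom.FixedPointFree φ := by
    intro y hy
    apply Subtype.ext
    apply fix_eq_one hG T z hz hzc y y.2
    have h2 : z * (y : G) * z⁻¹ = y := by rw [← hφ, hy]
    rw [← mul_inv_eq_iff_eq_mul]; exact h2
  have h2 : Function.Involutive φ := by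
    intro y
    apply Subtype.ext
    rw [hφ, hφ, hzi]
    calc z * (z * (y : G) * z) * z = (z * z) * y * (z * z) := by group
      _ = y := by rw [hzz]; group
  have h3 := h1.coe_eq_inv_of_involutive h2
  have h4 : φ ⟨x, hx⟩ = (⟨x, hx⟩ : oddCore G)⁻¹ := congrFun h3 ⟨x, hx⟩
  have h5 := hφ ⟨x, hx⟩
  rw [h4] at h5
  exact h5.symm

theorem main (h2 : 2 ∣ Nat.card G) (hG : IsOfParabolicCharacteristic 2 G) [hN : (oddCore G).Normal]
    (hZ : Subgroup.center (G ⧸ oddCore G) = ⊥) : oddCore G = ⊥ := by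
  classical
  have : Fact (Nat.Prime 2) := ⟨Nat.prime_two⟩
  by_contra hne
  obtain ⟨T⟩ : Nonempty (Sylow 2 G) := inferInstance
  have hT1 : (T : Subgroup G) ≠ ⊥ := T.ne_bot_of_dvd_card h2
  -- a central involution in any nontrivial normal subgroup
  have hcent : ∀ K : Subgroup T, K.Normal → K ≠ ⊥ → ∃ z : G, orderOf z = 2 ∧ (∀ t ∈ (T : Subgroup G), t * z = z * t) ∧ ∃ hz : z ∈ (T : Subgroup G), (⟨z, hz⟩ : T) ∈ K := by
    intro K hK hK1
    have : Group.IsNilpotent T := T.2.isNilpotent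
    have h3 := Cfsg.Agent.Lib.Nilp.normal_inf_center_ne_bot K hK1
    have h4 : 2 ∣ Nat.card (K ⊓ center T : Subgroup T) := by
      have h5 : IsPGroup 2 (K ⊓ center T : Subgroup T) := T.2.to_subgroup _
      obtain ⟨k, hk⟩ := h5.exists_card_eq
      rw [hk]
      apply dvd_pow_self
      rintro rfl
      rw [pow_zero] at hk
      exact h3 (Subgroup.card_eq_one.1 hk)
    obtain ⟨y, hy⟩ := exists_prime_orderOf_dvd_card' 2 h4
    refine ⟨((y : T) : G), ?_, ?_, (y : T).2, y.2.1⟩
    · rw [Subgroup.orderOf_coe, Subgroup.orderOf_coe]; exact hy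
    · intro t ht
      have h6 := mem_center_iff.1 y.2.2 ⟨t, ht⟩
      exact congrArg Subtype.val h6
  let C : Subgroup G := centralizer (oddCore G : Set G)
  have hC : C.Normal := inferInstance
  have hodd : Odd (Nat.card (oddCore G)) := (Nat.coprime_two_right).1 (pPrimeCore_coprime 2)
  have hC2 : ¬ 2 ∣ Nat.card C := by
    intro h3
    obtain ⟨y, hy⟩ := exists_prime_orderOf_dvd_card' 2 h3
    have h4 : IsPGroup 2 (zpowers (y : G)) := by
      apply IsPGroup.of_card (n := 1)
      rw [Nat.card_zpowers, Subgroup.orderOf_coe, hy]; rfl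
    obtain ⟨Q, hQ⟩ := h4.exists_le_sylow
    obtain ⟨g, hg⟩ := MulAction.exists_smul_eq G Q T
    have h5 : g * y * g⁻¹ ∈ (T : Subgroup G) := by
      rw [← hg]
      show g * y * g⁻¹ ∈ ((g • Q : Sylow 2 G) : Subgroup G)
      rw [Sylow.coe_subgroup_smul]
      exact ⟨y, hQ (mem_zpowers _), rfl⟩
    let K : Subgroup T := C.subgroupOf T
    have hK1 : K ≠ ⊥ := by
      intro hb
      have h6 : (⟨g * y * g⁻¹, h5⟩ : T) ∈ K := hC.conj_mem _ y.2 g
      rw [hb, mem_bot] at h6
      have h7 : g * (y : G) * g⁻¹ = 1 := congrArg Subtype.val h6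
      have h8 : (y : G) = 1 := by
        rw [mul_inv_eq_one] at h7
        exact mul_eq_left.1 h7
      have h9 : orderOf (y : G) = 2 := by rw [Subgroup.orderOf_coe]; exact hy
      rw [h8, orderOf_one] at h9
      exact absurd h9 (by norm_num)
    obtain ⟨z, hz, hzc, hzT, hzK⟩ := hcent K inferInstance hK1
    apply hne
    rw [eq_bot_iff]
    intro x hx
    rw [mem_bot]
    have h6 := inverts hG T z hz hzc x hx
    have h7 : z * x * z⁻¹ = x := by
      have h8 : z ∈ C := hzK
      have h9 := mem_centralizer_iff.1 h8 x hx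
      rw [← h9]; group
    rw [h7] at h6
    have h10 : x ^ 2 = 1 := by
      rw [pow_two]; nth_rw 1 [h6]; group
    have h11 : orderOf x ∣ 2 := orderOf_dvd_of_pow_eq_one h10
    have h12 : orderOf x ∣ Nat.card (oddCore G) := by
      have := orderOf_dvd_natCard (⟨x, hx⟩ : oddCore G)
      rwa [← Subgroup.orderOf_coe] at this
    have h13 : orderOf x ∣ 1 := by
      have h14 : Nat.Coprime (Nat.card (oddCore G)) 2 := pPrimeCore_coprime 2
      rw [← h14.gcd_eq_one]
      exact Nat.dvd_gcd h12 h11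
    exact orderOf_eq_one_iff.1 (Nat.dvd_one.1 h13)
  have hCO : C ≤ oddCore G := le_pPrimeCore hC ((Nat.Prime.coprime_iff_not_dvd Nat.prime_two).2 hC2).symm
  have hT1' : (⊤ : Subgroup T) ≠ ⊥ := by
    intro h
    apply hT1
    rw [eq_bot_iff]
    intro t ht
    have h3 : (⟨t, ht⟩ : T) ∈ (⊤ : Subgroup T) := mem_top _
    rw [h, mem_bot] at h3
    exact congrArg Subtype.val h3
  obtain ⟨z, hz, hzc, -, -⟩ := hcent ⊤ inferInstance hT1'
  have hinv := inverts hG T z hz hzc
  have hzz : z * z = 1 := by rw [← pow_two, ← hz, pow_orderOf_eq_one]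
  have hzi : z⁻¹ = z := inv_eq_of_mul_eq_one_left hzz
  have hcomm : ∀ g : G, z * (g * z⁻¹ * g⁻¹) ∈ C := by
    intro g
    rw [mem_centralizer_iff]
    intro x hx
    have hx' : x ∈ oddCore G := hx
    have h3 : g⁻¹ * x * g ∈ oddCore G := by
      have := hN.conj_mem x hx' g⁻¹
      rwa [inv_inv] at this
    have h4 := hinv _ h3
    have h5 := hinv _ hx'
    -- z x z⁻¹ = x⁻¹
    have h6 : g * z⁻¹ * g⁻¹ * x * (g * z * g⁻¹) = x⁻¹ := by
      have h7 : z⁻¹ * (g⁻¹ * x * g) * z = (g⁻¹ * x * g)⁻¹ := by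
        rw [hzi] at h4 ⊢
        exact h4
      calc g * z⁻¹ * g⁻¹ * x * (g * z * g⁻¹) = g * (z⁻¹ * (g⁻¹ * x * g) * z) * g⁻¹ := by group
        _ = g * (g⁻¹ * x * g)⁻¹ * g⁻¹ := by rw [h7]
        _ = x⁻¹ := by group
    have h8 : z * x⁻¹ * z⁻¹ = x := by
      have h9 := congrArg (·⁻¹) h5
      simp only [inv_inv] at h9
      have h11 : (z * x * z⁻¹)⁻¹ = z * x⁻¹ * z⁻¹ := by group
      rw [h11] at h9
      exact h9
    have h10 : (z * (g * z⁻¹ * g⁻¹)) * x * (z * (g * z⁻¹ * g⁻¹))⁻¹ = x := by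
      calc (z * (g * z⁻¹ * g⁻¹)) * x * (z * (g * z⁻¹ * g⁻¹))⁻¹ = z * (g * z⁻¹ * g⁻¹ * x * (g * z * g⁻¹)) * z⁻¹ := by group
        _ = z * x⁻¹ * z⁻¹ := by rw [h6]
        _ = x := h8
    rw [mul_inv_eq_iff_eq_mul] at h10
    exact h10.symm
  have hzc : (QuotientGroup.mk z : G ⧸ oddCore G) ∈ Subgroup.center (G ⧸ oddCore G) := by
    rw [mem_center_iff]
    intro q
    obtain ⟨g, rfl⟩ := QuotientGroup.mk_surjective q
    rw [← QuotientGroup.mk_mul, ← QuotientGroup.mk_mul, QuotientGroup.eq]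
    have h3 := hCO (hcomm g⁻¹)
    have h4 : (g * z)⁻¹ * (z * g) = z * (g⁻¹ * z⁻¹ * g⁻¹⁻¹) := by
      have : (g * z)⁻¹ * (z * g) = z⁻¹ * (g⁻¹ * z * g) := by group
      rw [this, inv_inv, hzi]
    rw [h4]; exact h3
  rw [hZ, mem_bot, QuotientGroup.eq_one_iff] at hzc
  have h12 : orderOf z ∣ Nat.card (oddCore G) := by
    have := orderOf_dvd_natCard (⟨z, hzc⟩ : oddCore G)
    rwa [← Subgroup.orderOf_coe] at this
  rw [hz] at h12
  have h14 : Nat.Coprime (Nat.card (oddCore G)) 2 := pPrimeCore_coprime 2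
  exact (Nat.Prime.coprime_iff_not_dvd Nat.prime_two).1 h14.symm h12

end Cfsg.Agent.Lib.ParC2
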