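import Cfsg.Agent.Lib.ExSp
import Cfsg.Agent.Lib.StrongEmb
import Cfsg.Agent.Lib.PGrpA
import Cfsg.Prelude.Def_TwoFusion

/-!
# Sylow subgroups of type `p^{1+2}_-`: the centre is strongly closed
-/

set_option autoImplicit false

namespace Cfsg.Agent.Lib.SClosed

open Subgroup
open scoped commutatorElement

variable {G : Type*} [Group G] {p : ℕ}

/-- `P` is extraspecial of order `p ^ 3` with centre `⟨z⟩` -/
structure PZ (p : ℕ) (P : Subgroup G) (z : G) : Prop where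
  zP : z ∈ P
  ord : orderOf z = p
  zc : ∀ x ∈ P, x * z = z * x
  comm : ∀ x ∈ P, ∀ y ∈ P, ⁅x, y⁆ ∈ zpowers z
  cen : ∀ x ∈ P, (∀ y ∈ P, x * y = y * x) → x ∈ zpowers z
  card : Nat.card P = p ^ 3

theorem PZ.gen [hp : Fact p.Prime] {P : Subgroup G} {z z' : G} (h : PZ p P z) (hz' : z' ∈ zpowers z)
    (h1 : z' ≠ 1) : PZ p P z' := by
  have ho : orderOf z' = p := by
    have h2 : orderOf z' ∣ p := by
      obtain ⟨k, rfl⟩ := mem_zpowers_iff.mp hz'
      apply orderOf_dvd_of_pow_eq_one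
      rw [← zpow_natCast, ← zpow_mul, mul_comm, zpow_mul, zpow_natCast, ← h.ord, pow_orderOf_eq_one, one_zpow]
    rcases (Nat.dvd_prime hp.out).mp h2 with h3 | h3
    · exact absurd (orderOf_eq_one_iff.mp h3) h1
    · exact h3
  have he : zpowers z' = zpowers z := by
    haveI : Finite (zpowers z) := by
      apply Nat.finite_of_card_ne_zero
      rw [Nat.card_zpowers, h.ord]; exact hp.out.ne_zero
    apply Subgroup.eq_of_le_of_card_ge (zpowers_le.mpr hz')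
    rw [Nat.card_zpowers, Nat.card_zpowers, ho, h.ord]
  refine ⟨(zpowers_le.mpr h.zP) hz', ho, ?_, ?_, ?_, h.card⟩
  · intro x hx
    obtain ⟨k, rfl⟩ := mem_zpowers_iff.mp hz'
    exact (Commute.zpow_right (h.zc x hx) k).eq
  · rw [he]; exact h.comm
  · rw [he]; exact h.cen

theorem PZ.conj {P : Subgroup G} {z : G} (h : PZ p P z) {P' : Subgroup G} {g : G}
    (hP' : ∀ x, x ∈ P' ↔ g⁻¹ * x * g ∈ P) : PZ p P' (g * z * g⁻¹) := by
  have hz : ∀ x, x ∈ zpowers (g * z * g⁻¹) ↔ g⁻¹ * x * g ∈ zpowers z := by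
    intro x
    rw [mem_zpowers_iff, mem_zpowers_iff]
    constructor
    · rintro ⟨k, rfl⟩
      exact ⟨k, by rw [conj_zpow]; group⟩
    · rintro ⟨k, hk⟩
      exact ⟨k, by rw [conj_zpow, hk]; group⟩
  refine ⟨?_, ?_, ?_, ?_, ?_, ?_⟩
  · rw [hP', show g⁻¹ * (g * z * g⁻¹) * g = z by group]; exact h.zP
  · rw [StrongEmb.orderOf_conj', h.ord]
  · intro x hx
    have h1 := h.zc _ ((hP' x).mp hx)
    calc x * (g * z * g⁻¹) = g * ((g⁻¹ * x * g) * z) * g⁻¹ := by group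
      _ = g * (z * (g⁻¹ * x * g)) * g⁻¹ := by rw [h1]
      _ = _ := by group
  · intro x hx y hy
    have h1 := h.comm _ ((hP' x).mp hx) _ ((hP' y).mp hy)
    rw [hz]
    rw [show g⁻¹ * ⁅x, y⁆ * g = ⁅g⁻¹ * x * g, g⁻¹ * y * g⁆ by simp only [commutatorElement_def]; group]
    exact h1
  · intro x hx hxc
    rw [hz]
    apply h.cen _ ((hP' x).mp hx)
    intro y hy
    have h1 := hxc (g * y * g⁻¹) (by rw [hP', show g⁻¹ * (g * y * g⁻¹) * g = y by group]; exact hy)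
    calc g⁻¹ * x * g * y = g⁻¹ * (x * (g * y * g⁻¹)) * g := by group
      _ = g⁻¹ * (g * y * g⁻¹ * x) * g := by rw [h1]
      _ = _ := by group
  · rw [← h.card]
    exact Nat.card_congr
      { toFun := fun x => ⟨g⁻¹ * x * g, (hP' x).mp x.2⟩
        invFun := fun x => ⟨g * x * g⁻¹, by
          rw [hP', show g⁻¹ * (g * (x : G) * g⁻¹) * g = x by group]; exact x.2⟩
        left_inv := fun x => Subtype.ext (by simp only; group)
        right_inv := fun x => Subtype.ext (by simp only; group) }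

/-- the centraliser of a noncentral element of order `p` -/
theorem PZ.cent_pow [Finite G] [hp : Fact p.Prime] {P : Subgroup G} {z : G} (h : PZ p P z) {y e : G}
    (hy : y ∈ P) (hyp : y ^ p = 1) (hyz : y ∉ zpowers z) (he : e ∈ P) (hey : e * y = y * e) : e ^ p = 1 := by
  set C : Subgroup G := P ⊓ centralizer ({y} : Set G) with hC
  set E : Subgroup G := zpowers y ⊔ zpowers z with hE
  have hzn : zpowers z ≤ normalizer (zpowers y : Set G) := by
    rw [zpowers_le]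
    apply mem_normalizer_iff.mpr
    intro x
    have : ∀ w ∈ zpowers y, z * w * z⁻¹ = w := by
      intro w hw
      obtain ⟨k, rfl⟩ := mem_zpowers_iff.mp hw
      have h1 : Commute z (y ^ k) := Commute.zpow_right (h.zc y hy).symm k
      rw [h1.eq, mul_inv_cancel_right]
    constructor
    · intro hx; rw [this x hx]; exact hx
    · intro hx
      have h2 := this _ hx
      have h3 : z * (z * x * z⁻¹) * z⁻¹ = z * x * z⁻¹ := h2
      have h4 : z * x * z⁻¹ = x := mul_left_cancel (mul_right_cancel (h3.trans (by rfl : z * x * z⁻¹ = z * x * z⁻¹)))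
      rw [← h4]; exact hx
  have hEC : E ≤ C := by
    apply sup_le
    · rw [zpowers_le]
      exact ⟨hy, mem_centralizer_singleton_iff.mpr rfl⟩
    · rw [zpowers_le]
      exact ⟨h.zP, mem_centralizer_singleton_iff.mpr (h.zc y hy).symm⟩
  have hCP : C < P := by
    refine lt_of_le_of_ne inf_le_left ?_
    intro e'
    apply hyz
    apply h.cen y hy
    intro x hx
    rw [← e'] at hx
    exact (mem_centralizer_singleton_iff.mp hx.2).symm
  have hzE : zpowers z < E := by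
    refine lt_of_le_of_ne le_sup_right ?_
    intro e'
    apply hyz
    rw [e']
    exact (le_sup_left : zpowers y ≤ E) (mem_zpowers y)
  obtain ⟨a, ha, hca⟩ := (Nat.dvd_prime_pow hp.out).mp (h.card ▸ Subgroup.card_dvd_of_le hCP.le)
  obtain ⟨b, hb, hcb⟩ := (Nat.dvd_prime_pow hp.out).mp (h.card ▸ Subgroup.card_dvd_of_le (hEC.trans hCP.le))
  have h1 : Nat.card C < Nat.card P := by
    apply lt_of_le_of_ne (Subgroup.card_le_of_le hCP.le)
    intro e'
    exact hCP.ne (Subgroup.eq_of_le_of_card_ge hCP.le (le_of_eq e'.symm))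
  have h2 : Nat.card (zpowers z) < Nat.card E := by
    apply lt_of_le_of_ne (Subgroup.card_le_of_le hzE.le)
    intro e'
    exact hzE.ne (Subgroup.eq_of_le_of_card_ge hzE.le (le_of_eq e'.symm))
  rw [hca, h.card] at h1
  rw [Nat.card_zpowers, h.ord, hcb] at h2
  have ha' : a < 3 := (Nat.pow_lt_pow_iff_right hp.out.one_lt).mp h1
  have hb' : 1 < b := by
    have : p ^ 1 < p ^ b := by rw [pow_one]; exact h2
    exact (Nat.pow_lt_pow_iff_right hp.out.one_lt).mp this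
  have hEeq : E = C := by
    apply Subgroup.eq_of_le_of_card_ge hEC
    rw [hca, hcb]
    exact Nat.pow_le_pow_right hp.out.pos (by omega)
  have he' : e ∈ E := by
    rw [hEeq]
    exact ⟨he, mem_centralizer_singleton_iff.mpr hey⟩
  obtain ⟨u, hu, v, hv, rfl⟩ := (Basic.mem_sup_iff_left hzn).mp he'
  obtain ⟨i, rfl⟩ := mem_zpowers_iff.mp hu
  obtain ⟨j, rfl⟩ := mem_zpowers_iff.mp hv
  have hc : Commute (y ^ i) (z ^ j) := (Commute.zpow_zpow (h.zc y hy) i j)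
  rw [hc.mul_pow, ← zpow_natCast, ← zpow_natCast, ← zpow_mul, ← zpow_mul, mul_comm i, mul_comm j, zpow_mul,
    zpow_mul, zpow_natCast, zpow_natCast, hyp, ← h.ord, pow_orderOf_eq_one, one_zpow, one_zpow, one_mul]

theorem zp {p : ℕ} {z : G} (ho : z ^ p = 1) (k : ℤ) : (z ^ k) ^ p = 1 := by
  rw [← zpow_natCast, ← zpow_mul, mul_comm, zpow_mul, zpow_natCast, ho, one_zpow]

theorem not_dvd_of_ne {p : ℕ} {z : G} (ho : z ^ p = 1) {a : ℤ} (h : z ^ a ≠ 1) : ¬ (p : ℤ) ∣ a := by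
  rintro ⟨c, rfl⟩
  apply h
  rw [zpow_mul, zpow_natCast, ho, one_zpow]

theorem zpow_of_dvd {p : ℕ} {z : G} (ho : z ^ p = 1) {a : ℤ} (h : (p : ℤ) ∣ a) : z ^ a = 1 := by
  obtain ⟨c, rfl⟩ := h
  rw [zpow_mul, zpow_natCast, ho, one_zpow]

theorem exists_m [hp : Fact p.Prime] {a b : ℤ} (ha : ¬ (p : ℤ) ∣ a) (hb : ¬ (p : ℤ) ∣ b) :
    ∃ m : ℕ, (p : ℤ) ∣ (m * a) * b + 1 := by
  have ha' : (a : ZMod p) ≠ 0 := fun e => ha ((ZMod.intCast_zmod_eq_zero_iff_dvd a p).mp e)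
  have hb' : (b : ZMod p) ≠ 0 := fun e => hb ((ZMod.intCast_zmod_eq_zero_iff_dvd b p).mp e)
  refine ⟨(-((a : ZMod p) * b)⁻¹).val, ?_⟩
  rw [← ZMod.intCast_zmod_eq_zero_iff_dvd]
  push_cast
  rw [ZMod.natCast_zmod_val]
  field_simp
  ring

/-- the element inverting `⟨z, y⟩` -/
theorem exists_j [hp : Fact p.Prime] {z y s t : G} (hz : z ^ p = 1) (hy : y ^ p = 1) (hzy : z * y = y * z)
    {a b : ℤ} (hsz : s * z * s⁻¹ = z) (hsy : s * y * s⁻¹ = z ^ a * y) (hty : t * y * t⁻¹ = y)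
    (htz : t * z * t⁻¹ = y ^ b * z) (ha : z ^ a ≠ 1) (hb : y ^ b ≠ 1) :
    ∃ j : G, j * z * j⁻¹ = z⁻¹ ∧ j * y * j⁻¹ = y⁻¹ := by
  obtain ⟨m, hm⟩ := exists_m (not_dvd_of_ne hz ha) (not_dvd_of_ne hy hb)
  have hc : Commute z y := hzy
  -- conjugation homomorphisms
  have cj : ∀ g x x' : G, g * (x * x') * g⁻¹ = (g * x * g⁻¹) * (g * x' * g⁻¹) := by intro g x x'; group
  have cz : ∀ (g x : G) (k : ℤ), g * x ^ k * g⁻¹ = (g * x * g⁻¹) ^ k := by intro g x k; rw [conj_zpow]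
  set s' := s ^ m with hs'
  have hs'z : s' * z * s'⁻¹ = z := by
    have h1 : Commute s z := mul_inv_eq_iff_eq_mul.mp hsz
    rw [hs', (h1.pow_left m).eq, mul_inv_cancel_right]
  have hs'y : s' * y * s'⁻¹ = z ^ ((m : ℤ) * a) * y := by
    have h1 : Commute s (z ^ a) := Commute.zpow_right (mul_inv_eq_iff_eq_mul.mp hsz) a
    have h2 : ∀ k : ℕ, s ^ k * y * (s ^ k)⁻¹ = (z ^ a) ^ k * y := by
      intro k
      induction k with
      | zero => simp
      | succ k ih =>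
        calc s ^ (k + 1) * y * (s ^ (k + 1))⁻¹ = s ^ k * (s * y * s⁻¹) * (s ^ k)⁻¹ := by
              rw [pow_succ]; group
          _ = (s ^ k * z ^ a) * y * (s ^ k)⁻¹ := by rw [hsy]; group
          _ = (z ^ a * s ^ k) * y * (s ^ k)⁻¹ := by rw [(h1.pow_left k).eq]
          _ = z ^ a * (s ^ k * y * (s ^ k)⁻¹) := by group
          _ = (z ^ a) ^ (k + 1) * y := by rw [ih, pow_succ', mul_assoc]
    rw [hs', h2 m, ← zpow_natCast, ← zpow_mul, mul_comm a]
  set a' := (m : ℤ) * a with ha'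
  have hzab : z ^ (a' * b) = z⁻¹ := by
    have := zpow_of_dvd hz hm
    rw [zpow_add, zpow_one] at this
    exact eq_inv_of_mul_eq_one_left this
  have hyab : y ^ (b * a') = y⁻¹ := by
    have := zpow_of_dvd hy hm
    rw [zpow_add, zpow_one] at this
    rw [mul_comm]
    exact eq_inv_of_mul_eq_one_left this
  set w := s' * t * s' with hw
  have cw : ∀ x, w * x * w⁻¹ = s' * (t * (s' * x * s'⁻¹) * t⁻¹) * s'⁻¹ := by intro x; rw [hw]; group
  have hwz : w * z * w⁻¹ = y ^ b := by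
    rw [cw, hs'z, htz, cj, cz, hs'y, hs'z]
    have h1 : Commute (z ^ a') y := hc.zpow_left a'
    rw [h1.mul_zpow, ← zpow_mul, hzab, mul_assoc, (hc.symm.zpow_left b).eq, ← mul_assoc, inv_mul_cancel, one_mul]
  have hwy : w * y * w⁻¹ = z ^ a' := by
    have h1 : Commute (y ^ b) z := hc.symm.zpow_left b
    have h3 : Commute (z ^ a') y := hc.zpow_left a'
    have e1 : t * (z ^ a' * y) * t⁻¹ = z ^ a' := by
      rw [cj, cz, hty, htz, h1.mul_zpow, ← zpow_mul, hyab, mul_assoc, h3.eq, inv_mul_cancel_left]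
    rw [cw, hs'y, e1, cz, hs'z]
  refine ⟨w * w, ?_, ?_⟩
  · calc w * w * z * (w * w)⁻¹ = w * (w * z * w⁻¹) * w⁻¹ := by group
      _ = (w * y * w⁻¹) ^ b := by rw [hwz, cz]
      _ = z⁻¹ := by rw [hwy, ← zpow_mul, hzab]
  · calc w * w * y * (w * w)⁻¹ = w * (w * y * w⁻¹) * w⁻¹ := by group
      _ = (w * z * w⁻¹) ^ a' := by rw [hwy, cz]
      _ = y⁻¹ := by rw [hwz, ← zpow_mul, hyab]

theorem pz_of [Finite G] [hp : Fact p.Prime] {P : Subgroup G} (hE : IsExtraspecial p P)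
    (hcard : Nat.card P = p ^ 3) : ∃ z : P, ExSp.Dat p z ∧ PZ p P (z : G) := by
  obtain ⟨z, D⟩ := ExSp.dat_of hE
  have hz : ∀ x : P, x ∈ zpowers z ↔ (x : G) ∈ zpowers (z : G) := by
    intro x
    rw [mem_zpowers_iff, mem_zpowers_iff]
    constructor
    · rintro ⟨k, rfl⟩
      exact ⟨k, rfl⟩
    · rintro ⟨k, hk⟩
      exact ⟨k, Subtype.ext hk⟩
  refine ⟨z, D, z.2, ?_, ?_, ?_, ?_, hcard⟩
  · rw [Subgroup.orderOf_coe, D.ord]
  · intro x hx
    exact congrArg Subtype.val (D.zc ⟨x, hx⟩)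
  · intro x hx y hy
    exact (hz ⁅(⟨x, hx⟩ : P), (⟨y, hy⟩ : P)⁆).mp (D.comm ⟨x, hx⟩ ⟨y, hy⟩)
  · intro x hx h
    apply (hz ⟨x, hx⟩).mp
    apply D.cen
    intro y
    exact Subtype.ext (h y y.2)

theorem main [Finite G] [hp : Fact p.Prime] (h2 : p ≠ 2) (P : Sylow p G) {z : G}
    (h : PZ p (P : Subgroup G) z) (hpow : ∀ x ∈ (P : Subgroup G), x ^ p ∈ zpowers z)
    (hexp : ∃ x ∈ (P : Subgroup G), x ^ p ≠ 1) {x g : G} (hx : x ∈ zpowers z)
    (hg : g * x * g⁻¹ ∈ (P : Subgroup G)) : g * x * g⁻¹ ∈ zpowers z := by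
  by_contra hcon
  set y := g * x * g⁻¹ with hydef
  have hzp : z ^ p = 1 := by rw [← h.ord, pow_orderOf_eq_one]
  have hxp : x ^ p = 1 := by
    obtain ⟨k, rfl⟩ := mem_zpowers_iff.mp hx
    exact zp hzp k
  have hyp : y ^ p = 1 := by rw [hydef, conj_pow, hxp]; group
  have hx1 : x ≠ 1 := by
    rintro rfl
    apply hcon
    rw [hydef, mul_one, mul_inv_cancel]
    exact one_mem _
  have hzy : z * y = y * z := (h.zc y hg).symm
  -- a Sylow subgroup containing `z` with centre `⟨y⟩`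
  have hxP : ∀ u ∈ (P : Subgroup G), u * x = x * u := by
    intro u hu
    obtain ⟨k, rfl⟩ := mem_zpowers_iff.mp hx
    exact (Commute.zpow_right (h.zc u hu) k).eq
  have hT : ((g • P : Sylow p G) : Subgroup G) ≤ centralizer ({y} : Set G) := by
    intro u hu
    have h1 : g⁻¹ * u * g ∈ P := StrongEmb.mem_smul.mp hu
    have h3 := hxP _ h1
    rw [mem_centralizer_singleton_iff, hydef]
    calc u * (g * x * g⁻¹) = g * (g⁻¹ * u * g * x) * g⁻¹ := by group
      _ = g * (x * (g⁻¹ * u * g)) * g⁻¹ := by rw [h3]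
      _ = _ := by group
  have hzpg : IsPGroup p (zpowers z) := by
    apply IsPGroup.of_card (n := 1)
    rw [Nat.card_zpowers, h.ord, pow_one]
  obtain ⟨c, hc, hcz⟩ := StrongEmb.exists_conj_mem (g • P) (centralizer ({y} : Set G)) hT hzpg
    (by rw [zpowers_le]; exact mem_centralizer_singleton_iff.mpr hzy)
  have hcy : c * y = y * c := mem_centralizer_singleton_iff.mp hc
  have hcz' : g⁻¹ * (c * z * c⁻¹) * g ∈ P := StrongEmb.mem_smul.mp (hcz z (mem_zpowers z))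
  set k := c⁻¹ * g with hk
  have hky : k * x * k⁻¹ = y := by
    calc k * x * k⁻¹ = c⁻¹ * (g * x * g⁻¹) * c := by rw [hk]; group
      _ = c⁻¹ * (y * c) := by rw [← hydef]; group
      _ = y := by rw [← hcy]; group
  have hP1 := h.conj (P' := ((k • P : Sylow p G) : Subgroup G)) (g := k) (fun u => StrongEmb.mem_smul)
  have hyz1 : y ∈ zpowers (k * z * k⁻¹) := by
    obtain ⟨i, hi⟩ := mem_zpowers_iff.mp hx
    rw [mem_zpowers_iff]
    exact ⟨i, by rw [conj_zpow, hi, hky]⟩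
  have hy1 : y ≠ 1 := by
    intro e
    apply hcon
    rw [e]; exact one_mem _
  have hP2 := hP1.gen hyz1 hy1
  have hzP1 : z ∈ ((k • P : Sylow p G) : Subgroup G) := by
    rw [show (z ∈ ((k • P : Sylow p G) : Subgroup G)) ↔ k⁻¹ * z * k ∈ P from StrongEmb.mem_smul, hk]
    rwa [show (c⁻¹ * g)⁻¹ * z * (c⁻¹ * g) = g⁻¹ * (c * z * c⁻¹) * g by group]
  have hz1 : z ≠ 1 := by
    intro e
    have h3 := h.ord
    rw [e, orderOf_one] at h3
    exact hp.out.one_lt.ne h3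
  have hzy' : z ∉ zpowers y := by
    intro hc
    have h3 := (hP2.gen hc hz1)
    apply hcon
    apply h3.cen y hP2.zP
    exact fun u hu => (hP2.zc u hu).symm
  -- the transvections
  obtain ⟨t, htP, htz⟩ : ∃ t ∈ ((k • P : Sylow p G) : Subgroup G), z * t ≠ t * z := by
    by_contra hc
    push Not at hc
    exact hzy' (hP2.cen z hzP1 hc)
  obtain ⟨s, hsP, hsy⟩ : ∃ s ∈ (P : Subgroup G), y * s ≠ s * y := by
    by_contra hc
    push Not at hc
    exact hcon (h.cen y hg hc)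
  obtain ⟨b, hb⟩ := mem_zpowers_iff.mp (hP2.comm t htP z hzP1)
  obtain ⟨a, ha⟩ := mem_zpowers_iff.mp (h.comm s hsP y hg)
  have htz' : t * z * t⁻¹ = y ^ b * z := by rw [hb, commutatorElement_def]; group
  have hsy' : s * y * s⁻¹ = z ^ a * y := by rw [ha, commutatorElement_def]; group
  have hb1 : y ^ b ≠ 1 := by
    intro e
    apply htz
    rw [e, one_mul] at htz'
    exact (mul_inv_eq_iff_eq_mul.mp htz').symm
  have ha1 : z ^ a ≠ 1 := by
    intro e
    apply hsy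
    rw [e, one_mul] at hsy'
    exact (mul_inv_eq_iff_eq_mul.mp hsy').symm
  obtain ⟨j, hjz, hjy⟩ := exists_j hzp hyp hzy (s := s) (t := t) (a := a) (b := b)
    (by rw [h.zc s hsP, mul_inv_cancel_right]) hsy' (by rw [hP2.zc t htP, mul_inv_cancel_right]) htz' ha1 hb1
  -- the centralizer `C` of `⟨z, y⟩`
  set C := centralizer ({z, y} : Set G) with hC
  have hCmem : ∀ u, u ∈ C ↔ u * z = z * u ∧ u * y = y * u := by
    intro u
    rw [hC, mem_centralizer_iff]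
    constructor
    · intro hu
      exact ⟨(hu z (by simp)).symm, (hu y (by simp)).symm⟩
    · rintro ⟨h3, h4⟩ v hv
      rcases hv with rfl | hv
      · exact h3.symm
      · rw [Set.mem_singleton_iff.mp hv]; exact h4.symm
  -- the action of elements of `P` on `y`
  have hPy : ∀ u ∈ (P : Subgroup G), ∃ i : ℤ, u * y * u⁻¹ = z ^ i * y := by
    intro u hu
    obtain ⟨i, hi⟩ := mem_zpowers_iff.mp (h.comm u hu y hg)
    exact ⟨i, by rw [hi, commutatorElement_def]; group⟩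
  have hPz : ∀ u ∈ (P : Subgroup G), u * z * u⁻¹ = z := by
    intro u hu
    rw [h.zc u hu, mul_inv_cancel_right]
  -- the commutator of `j'` (inverting `z`, `y`) with elements of `P`
  have hcommj : ∀ j' : G, j' * z * j'⁻¹ = z⁻¹ → j' * y * j'⁻¹ = y⁻¹ → ∀ u ∈ (P : Subgroup G),
      j' * u * j'⁻¹ * u⁻¹ ∈ C := by
    intro j' hj'z hj'y u hu
    obtain ⟨i, hi⟩ := hPy u⁻¹ (inv_mem hu)
    have huz := hPz u hu
    have huz' := hPz u⁻¹ (inv_mem hu)
    rw [inv_inv] at hi huz'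
    have hji : ∀ v : G, j' * v * j'⁻¹ = v⁻¹ → j'⁻¹ * v * j' = v⁻¹ := by
      intro v hv
      have h4 : v = j'⁻¹ * (j' * v * j'⁻¹) * j' := by group
      rw [hv] at h4
      have h5 : v⁻¹ = (j'⁻¹ * v⁻¹ * j')⁻¹ := by rw [← h4]
      rw [h5]; group
    have huy : u * (z ^ i * y) * u⁻¹ = y := by rw [← hi]; group
    have hcz : Commute (z ^ i) y := (Commute.zpow_left hzy i)
    have e1 : j'⁻¹ * (z ^ i * y) * j' = (z ^ i * y)⁻¹ := by
      have h4 := hji z hj'z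
      have h5 := hji y hj'y
      calc j'⁻¹ * (z ^ i * y) * j' = (j'⁻¹ * z ^ i * j'⁻¹⁻¹) * (j'⁻¹ * y * j') := by group
        _ = z⁻¹ ^ i * y⁻¹ := by rw [← conj_zpow, inv_inv, h4, h5]
        _ = (y * z ^ i)⁻¹ := by rw [inv_zpow, mul_inv_rev y (z ^ i)]
        _ = _ := by rw [hcz.eq]
    have e2 : (j' * u * j'⁻¹ * u⁻¹) * z * (j' * u * j'⁻¹ * u⁻¹)⁻¹ = z := by
      calc (j' * u * j'⁻¹ * u⁻¹) * z * (j' * u * j'⁻¹ * u⁻¹)⁻¹
          = j' * (u * (j'⁻¹ * (u⁻¹ * z * u) * j') * u⁻¹) * j'⁻¹ := by group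
        _ = j' * (u * z⁻¹ * u⁻¹) * j'⁻¹ := by rw [huz', hji z hj'z]
        _ = j' * (u * z * u⁻¹)⁻¹ * j'⁻¹ := by group
        _ = (j' * z * j'⁻¹)⁻¹ := by rw [huz]; group
        _ = z := by rw [hj'z, inv_inv]
    have e3 : (j' * u * j'⁻¹ * u⁻¹) * y * (j' * u * j'⁻¹ * u⁻¹)⁻¹ = y := by
      calc (j' * u * j'⁻¹ * u⁻¹) * y * (j' * u * j'⁻¹ * u⁻¹)⁻¹
          = j' * (u * (j'⁻¹ * (u⁻¹ * y * u) * j') * u⁻¹) * j'⁻¹ := by group
        _ = j' * (u * (z ^ i * y)⁻¹ * u⁻¹) * j'⁻¹ := by rw [hi, e1]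
        _ = j' * (u * (z ^ i * y) * u⁻¹)⁻¹ * j'⁻¹ := by group
        _ = (j' * y * j'⁻¹)⁻¹ := by rw [huy]; group
        _ = y := by rw [hj'y, inv_inv]
    rw [hCmem]
    exact ⟨mul_inv_eq_iff_eq_mul.mp e2, mul_inv_eq_iff_eq_mul.mp e3⟩
  -- `P` normalises `C`
  have hPC : (P : Subgroup G) ≤ normalizer (C : Set G) := by
    have h3 : ∀ u ∈ (P : Subgroup G), ∀ v ∈ C, u * v * u⁻¹ ∈ C := by
      intro u hu v hv
      rw [hCmem] at hv ⊢
      obtain ⟨i, hi⟩ := hPy u⁻¹ (inv_mem hu)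
      rw [inv_inv] at hi
      have huz' := hPz u⁻¹ (inv_mem hu)
      rw [inv_inv] at huz'
      have hv1 : Commute v z := hv.1
      have hv2 : Commute v (z ^ i * y) := (hv1.zpow_right i).mul_right hv.2
      constructor
      · calc u * v * u⁻¹ * z = u * (v * (u⁻¹ * z * u)) * u⁻¹ := by group
          _ = u * ((u⁻¹ * z * u) * v) * u⁻¹ := by rw [huz', hv1.eq]
          _ = _ := by group
      · calc u * v * u⁻¹ * y = u * (v * (u⁻¹ * y * u)) * u⁻¹ := by group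
          _ = u * ((u⁻¹ * y * u) * v) * u⁻¹ := by rw [hi, hv2.eq]
          _ = _ := by group
    exact Subgroup.le_normalizer_iff.mpr h3
  set M := (P : Subgroup G) ⊔ C with hM
  have hAM : ((P : Subgroup G).map (MulAut.conj j).toMonoidHom) ≤ M := by
    rintro _ ⟨u, hu, rfl⟩
    have h3 := hcommj j hjz hjy u hu
    have h4 : (MulAut.conj j).toMonoidHom u = (j * u * j⁻¹ * u⁻¹) * u := by
      show j * u * j⁻¹ = _
      group
    rw [h4]
    exact M.mul_mem ((le_sup_right : C ≤ M) h3) ((le_sup_left : (P : Subgroup G) ≤ M) hu)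
  obtain ⟨m, hmM, hm⟩ := StrongEmb.exists_conj_mem P M le_sup_left (P.isPGroup'.map _) hAM
  obtain ⟨x₀, hx₀, c', hc', rfl⟩ := (Basic.mem_sup_iff_right hPC).mp (by rw [hM, sup_comm] at hmM; exact hmM)
  have hj' : ∀ u ∈ (P : Subgroup G), (c' * j) * u * (c' * j)⁻¹ ∈ (P : Subgroup G) := by
    intro u hu
    have h3 := hm _ ⟨u, hu, rfl⟩
    have h4 : x₀⁻¹ * ((x₀ * c') * ((MulAut.conj j).toMonoidHom u) * (x₀ * c')⁻¹) * x₀ ∈ (P : Subgroup G) :=
      mul_mem (mul_mem (inv_mem hx₀) h3) hx₀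
    have h5 : x₀⁻¹ * ((x₀ * c') * ((MulAut.conj j).toMonoidHom u) * (x₀ * c')⁻¹) * x₀ =
        (c' * j) * u * (c' * j)⁻¹ := by
      show x₀⁻¹ * ((x₀ * c') * (j * u * j⁻¹) * (x₀ * c')⁻¹) * x₀ = _
      group
    rwa [h5] at h4
  obtain ⟨hc'z, hc'y⟩ := (hCmem c').mp hc'
  have hj'z : (c' * j) * z * (c' * j)⁻¹ = z⁻¹ := by
    have h3 : Commute c' z⁻¹ := (show Commute c' z from hc'z).inv_right
    calc (c' * j) * z * (c' * j)⁻¹ = c' * (j * z * j⁻¹) * c'⁻¹ := by group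
      _ = z⁻¹ := by rw [hjz, h3.eq, mul_inv_cancel_right]
  have hj'y : (c' * j) * y * (c' * j)⁻¹ = y⁻¹ := by
    have h3 : Commute c' y⁻¹ := (show Commute c' y from hc'y).inv_right
    calc (c' * j) * y * (c' * j)⁻¹ = c' * (j * y * j⁻¹) * c'⁻¹ := by group
      _ = y⁻¹ := by rw [hjy, h3.eq, mul_inv_cancel_right]
  -- the contradiction
  obtain ⟨v, hv, hvp⟩ := hexp
  set e := (c' * j) * v * (c' * j)⁻¹ * v⁻¹ with he
  have heP : e ∈ (P : Subgroup G) := mul_mem (hj' v hv) (inv_mem hv)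
  have heC := hcommj _ hj'z hj'y v hv
  rw [← he, hCmem] at heC
  have hep : e ^ p = 1 := h.cent_pow hg hyp hcon heP heC.2
  have hev : (e * v) ^ p = v ^ p := by
    obtain ⟨i, hi⟩ := mem_zpowers_iff.mp (h.comm v⁻¹ (inv_mem hv) e⁻¹ (inv_mem heP))
    have h3 : v * e = e * v * z ^ i := by
      rw [hi, commutatorElement_def]; group
    have hze : Commute (z ^ i) e := Commute.zpow_left (h.zc e heP).symm i
    have hzv : Commute (z ^ i) v := Commute.zpow_left (h.zc v hv).symm i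
    rw [PGrpA.mul_pow_of_comm h3 hze hzv, hep, one_mul]
    obtain ⟨q, hq⟩ := PGrpA.odd_dvd_choose_two hp.out h2 (dvd_refl p)
    rw [hq, pow_mul, zp hzp, one_pow, mul_one]
  have h3 : (c' * j) * v ^ p * (c' * j)⁻¹ = v ^ p := by
    rw [← conj_pow, ← hev]
    congr 1
    rw [he]; group
  obtain ⟨i, hi⟩ := mem_zpowers_iff.mp (hpow v hv)
  have h4 : (c' * j) * v ^ p * (c' * j)⁻¹ = (v ^ p)⁻¹ := by
    rw [← hi, ← conj_zpow, hj'z, inv_zpow]
  have h5 : v ^ p * v ^ p = 1 := by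
    have := h3.symm.trans h4
    nth_rewrite 1 [this]
    exact inv_mul_cancel _
  apply hvp
  have h6 : orderOf (v ^ p) ∣ 2 := orderOf_dvd_of_pow_eq_one (by rw [pow_two, h5])
  have h7 : orderOf (v ^ p) ∣ p := by
    apply orderOf_dvd_of_pow_eq_one
    rw [← hi]; exact zp hzp i
  have h8 : orderOf (v ^ p) ∣ 1 := by
    have : Nat.Coprime 2 p := (Nat.coprime_primes Nat.prime_two hp.out).mpr (Ne.symm h2)
    rw [← this.gcd_eq_one]
    exact Nat.dvd_gcd h6 h7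
  exact orderOf_eq_one_iff.mp (Nat.dvd_one.mp h8)

end Cfsg.Agent.Lib.SClosed
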