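import Cfsg.Agent.Lib.StrongEmbB
import Cfsg.Agent.Lib.InvolB
import Cfsg.Agent.Lib.IsoInv
import Cfsg.Prelude.Def_Involutions

/-!
Strongly embedded subgroups (for the prime `2`): counting involutions.
-/

set_option autoImplicit false
set_option linter.unusedSectionVars false

namespace Cfsg.Agent.Lib.SEmb

open Cfsg Cfsg.Agent.Lib.StrongEmb Cfsg.Agent.Lib.SylRel Cfsg.Agent.Lib.StrongEmbB Cfsg.Agent.Lib.Invol
  Cfsg.Agent.Lib.InvolB

universe u

variable {G : Type u} [Group G] [Finite G] {H : Subgroup G}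

theorem isStronglyEmbedded_iff : IsStronglyEmbedded H ↔ IsSE 2 H := by
  unfold IsStronglyEmbedded IsSE
  simp only [even_iff_two_dvd, Nat.two_dvd_ne_zero, Nat.odd_iff]

theorem exists_inv (h : IsSE 2 H) : ∃ t ∈ H, orderOf t = 2 := exists_order_p h.2.1

theorem two_pow {t : G} (ht : orderOf t = 2) : ∃ k : ℕ, orderOf t = 2 ^ k := ⟨1, by rw [ht, pow_one]⟩

theorem mem_of_conj_inv (h : IsSE 2 H) {t g : G} (ht : orderOf t = 2) (htH : t ∈ H) (hg : g * t * g⁻¹ ∈ H) : g ∈ H :=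
  mem_of_conj_elt h htH (two_pow ht) (ne_one ht) hg

theorem mem_of_commute (h : IsSE 2 H) {t g : G} (ht : orderOf t = 2) (htH : t ∈ H) (hg : Commute g t) : g ∈ H :=
  mem_of_conj_inv h ht htH (by rw [hg.eq, mul_inv_cancel_right]; exact htH)

theorem odd_mul (h : IsSE 2 H) {t v : G} (ht : orderOf t = 2) (htH : t ∈ H) (hv : orderOf v = 2) (hvH : v ∉ H) :
    Odd (orderOf (t * v)) := by
  by_contra hcon
  rw [Nat.not_odd_iff_even] at hcon
  have h1 := orderOf_half hcon
  have h2 := commute_half_left (mul_self ht) (mul_self hv) hcon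
  have h3 := commute_half_right (mul_self ht) (mul_self hv) hcon
  have h4 := mem_of_commute h ht htH h2
  exact hvH (mem_of_commute h h1 h4 h3.symm)

/-- `t ∈ H` and `v ∉ H` are conjugate by a power of `t v` -/
theorem conj_out (h : IsSE 2 H) {t v : G} (ht : orderOf t = 2) (htH : t ∈ H) (hv : orderOf v = 2) (hvH : v ∉ H) :
    ∃ k : ℤ, (t * v) ^ k * t * ((t * v) ^ k)⁻¹ = v :=
  conj_of_odd (mul_self ht) (mul_self hv) (odd_mul h ht htH hv hvH)

theorem exists_out (h : IsSE 2 H) : ∃ v : G, orderOf v = 2 ∧ v ∉ H := by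
  obtain ⟨t, htH, ht⟩ := exists_inv h
  obtain ⟨g, hg⟩ : ∃ g : G, g ∉ H := by
    by_contra hcon
    push Not at hcon
    exact h.1 (eq_top_iff.2 fun g _ => hcon g)
  exact ⟨g * t * g⁻¹, by rw [orderOf_conj', ht], fun h1 => hg (mem_of_conj_inv h ht htH h1)⟩

theorem all_conj (h : IsSE 2 H) {a b : G} (ha : orderOf a = 2) (hb : orderOf b = 2) : IsConj a b := by
  obtain ⟨v, hv, hvH⟩ := exists_out h
  obtain ⟨t, htH, ht⟩ := exists_inv h
  have h1 : ∀ a : G, orderOf a = 2 → IsConj a v := by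
    intro a ha
    by_cases haH : a ∈ H
    · obtain ⟨k, hk⟩ := conj_out h ha haH hv hvH
      exact isConj_iff.2 ⟨_, hk⟩
    · obtain ⟨k, hk⟩ := conj_out h ht htH hv hvH
      obtain ⟨l, hl⟩ := conj_out h ht htH ha haH
      exact (isConj_iff.2 ⟨_, hl⟩ : IsConj t a).symm.trans (isConj_iff.2 ⟨_, hk⟩)
  exact (h1 a ha).trans (h1 b hb).symm

theorem odd_order_inf (h : IsSE 2 H) {v c : G} (hvH : v ∉ H) (hc : c ∈ H) (hc' : v * c * v⁻¹ ∈ H) : Odd (orderOf c) := by
  by_contra hcon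
  rw [Nat.not_odd_iff_even] at hcon
  have h2 : 2 ∣ orderOf c := hcon.two_dvd
  have hpos := orderOf_pos c
  have h1 : orderOf (c ^ (orderOf c / 2)) = 2 := by
    rw [orderOf_pow_of_dvd (by omega) (Nat.div_dvd_of_dvd h2), Nat.div_div_self h2 hpos.ne']
  refine hvH (mem_of_conj_inv h h1 (H.pow_mem hc _) ?_)
  rw [← conj_pow]; exact H.pow_mem hc' _

/-- Bender's lemma: an element of `H` inverted by an involution outside `H` and centralized by an involution of `H`
is trivial. -/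
theorem eq_one_of_inv_of_comm (h : IsSE 2 H) {t v c : G} (ht : orderOf t = 2) (htH : t ∈ H) (hv : orderOf v = 2)
    (hvH : v ∉ H) (hc : c ∈ H) (hvc : v * c * v⁻¹ = c⁻¹) (htc : Commute t c) : c = 1 := by
  have hodd := odd_order_inf h hvH hc (by rw [hvc]; exact H.inv_mem hc)
  obtain ⟨k, hk⟩ := conj_out h ht htH hv hvH
  -- `g = (t v)^k` normalizes `{c, c⁻¹}`
  have hg : ∀ k : ℤ, (t * v) ^ k * c * ((t * v) ^ k)⁻¹ = c ∨ (t * v) ^ k * c * ((t * v) ^ k)⁻¹ = c⁻¹ := by
    have h1 : (t * v) * c * (t * v)⁻¹ = c⁻¹ := by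
      have : (t * v) * c * (t * v)⁻¹ = t * (v * c * v⁻¹) * t⁻¹ := by group
      rw [this, hvc, htc.inv_right.eq, mul_inv_cancel_right]
    have h2 : (t * v)⁻¹ * c * (t * v) = c⁻¹ := by
      have h3 := congrArg (fun z => ((t * v)⁻¹ * z * (t * v))⁻¹) h1
      have h4 : ((t * v)⁻¹ * (t * v * c * (t * v)⁻¹) * (t * v))⁻¹ = ((t * v)⁻¹ * c⁻¹ * (t * v))⁻¹ := h3
      have e1 : ((t * v)⁻¹ * (t * v * c * (t * v)⁻¹) * (t * v))⁻¹ = c⁻¹ := by group
      have e2 : ((t * v)⁻¹ * c⁻¹ * (t * v))⁻¹ = (t * v)⁻¹ * c * (t * v) := by group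
      rw [e1, e2] at h4
      exact h4.symm
    intro k
    induction k using Int.induction_on with
    | zero => left; group
    | succ n ih =>
      have e : (t * v) ^ ((n : ℤ) + 1) * c * ((t * v) ^ ((n : ℤ) + 1))⁻¹ = (t * v) * ((t * v) ^ (n : ℤ) * c * ((t * v) ^ (n : ℤ))⁻¹) * (t * v)⁻¹ := by
        rw [add_comm, zpow_one_add, mul_inv_rev (t * v) ((t * v) ^ (n : ℤ))]
        simp only [mul_assoc]
      rw [e]
      rcases ih with ih | ih
      · right; rw [ih, h1]
      · left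
        rw [ih]
        have e2 : t * v * c⁻¹ * (t * v)⁻¹ = (t * v * c * (t * v)⁻¹)⁻¹ := by group
        rw [e2, h1, inv_inv]
    | pred n ih =>
      have e : (t * v) ^ (-(n : ℤ) - 1) * c * ((t * v) ^ (-(n : ℤ) - 1))⁻¹ = (t * v)⁻¹ * ((t * v) ^ (-(n : ℤ)) * c * ((t * v) ^ (-(n : ℤ)))⁻¹) * (t * v) := by
        rw [sub_eq_add_neg, add_comm, zpow_add, zpow_neg_one]; group
      rw [e]
      rcases ih with ih | ih
      · right; rw [ih, h2]
      · left
        rw [ih]
        have e2 : (t * v)⁻¹ * c⁻¹ * (t * v) = ((t * v)⁻¹ * c * (t * v))⁻¹ := by group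
        rw [e2, h2, inv_inv]
  have h5 : v * c * v⁻¹ = c := by
    set g := (t * v) ^ k with hgd
    have h6 : g⁻¹ * c * g = c ∨ g⁻¹ * c * g = c⁻¹ := by
      have := hg (-k)
      rw [zpow_neg, inv_inv, ← hgd] at this
      exact this
    have h7 : Commute t (g⁻¹ * c * g) := by
      rcases h6 with h6 | h6
      · rw [h6]; exact htc
      · rw [h6]; exact htc.inv_right
    calc v * c * v⁻¹ = g * (t * (g⁻¹ * c * g)) * t⁻¹ * g⁻¹ := by rw [← hk]; group
      _ = g * ((g⁻¹ * c * g) * t) * t⁻¹ * g⁻¹ := by rw [h7.eq]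
      _ = c := by group
  rw [hvc] at h5
  refine IsoInv.sqrt_unique (b := 1) hodd (by rw [orderOf_one]; exact odd_one) ?_
  nth_rewrite 1 [← h5]
  rw [inv_mul_cancel, mul_one]

/-- The elements of `H` inverted by `v ∉ H` act "freely" on the involutions of `H`. -/
theorem inj_on_inv (h : IsSE 2 H) {t v : G} (ht : orderOf t = 2) (htH : t ∈ H) (hv : orderOf v = 2)
    (hvH : v ∉ H) {j j' : G} (hj : j ∈ H) (hj' : j' ∈ H) (hvj : v * j * v⁻¹ = j⁻¹) (hvj' : v * j' * v⁻¹ = j'⁻¹)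
    (e : j⁻¹ * t * j = j'⁻¹ * t * j') : j = j' := by
  have hv2 := mul_self hv
  -- `c = j' j⁻¹` commutes with `t` and is inverted by `w = j v`
  have hw2 : (j * v) * (j * v) = 1 := by
    calc (j * v) * (j * v) = j * (v * j * v) := by group
      _ = j * (v * j * v⁻¹) := by rw [inv_eq hv2]
      _ = 1 := by rw [hvj, mul_inv_cancel]
  have hwH : j * v ∉ H := fun h1 => hvH (by
    have := H.mul_mem (H.inv_mem hj) h1
    rwa [inv_mul_cancel_left] at this)
  have hw1 : orderOf (j * v) = 2 := orderOf_eq_two hw2 (fun h1 => hwH (h1 ▸ H.one_mem))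
  have h1 : j' * j⁻¹ = 1 := by
    refine eq_one_of_inv_of_comm h ht htH hw1 hwH (H.mul_mem hj' (H.inv_mem hj)) ?_ ?_
    · rw [inv_eq hw2]
      calc j * v * (j' * j⁻¹) * (j * v) = j * (v * j' * v) := by group
        _ = j * (v * j' * v⁻¹) := by rw [inv_eq hv2]
        _ = (j' * j⁻¹)⁻¹ := by rw [hvj']; group
    · show t * (j' * j⁻¹) = j' * j⁻¹ * t
      calc t * (j' * j⁻¹) = j' * (j'⁻¹ * t * j') * j⁻¹ := by group
        _ = j' * (j⁻¹ * t * j) * j⁻¹ := by rw [e]
        _ = _ := by group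
  exact (mul_inv_eq_one.1 h1).symm

/-- the involutions of `H` -/
abbrev Invs (H : Subgroup G) := {t : G // orderOf t = 2 ∧ t ∈ H}

/-- the involutions mapping the base point to `y` -/
abbrev Sw (H : Subgroup G) (y : G ⧸ H) := {i : G // orderOf i = 2 ∧ i • (QuotientGroup.mk 1 : G ⧸ H) = y}

theorem smul_one_eq_iff {g : G} : g • (QuotientGroup.mk 1 : G ⧸ H) = QuotientGroup.mk 1 ↔ g ∈ H := by
  have : g • (QuotientGroup.mk 1 : G ⧸ H) = QuotientGroup.mk (g * 1) := rfl
  rw [this, mul_one, QuotientGroup.eq, mul_one, H.inv_mem_iff]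

theorem smul_eq_iff {g a b : G} : g • (QuotientGroup.mk a : G ⧸ H) = QuotientGroup.mk b ↔ b⁻¹ * g * a ∈ H := by
  have : g • (QuotientGroup.mk a : G ⧸ H) = QuotientGroup.mk (g * a) := rfl
  rw [this, eq_comm, QuotientGroup.eq, ← mul_assoc]

theorem card_sw_le (h : IsSE 2 H) {y : G ⧸ H} (hy : y ≠ QuotientGroup.mk 1) : Nat.card (Sw H y) ≤ Nat.card (Invs H) := by
  by_cases hne : Nonempty (Sw H y)
  · obtain ⟨⟨v, hv, hvy⟩⟩ := hne
    obtain ⟨t, htH, ht⟩ := exists_inv h
    have hv2 := mul_self hv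
    have hvH : v ∉ H := fun h1 => hy (by rw [← hvy, smul_one_eq_iff.2 h1])
    have key : ∀ i : Sw H y, v * i ∈ H ∧ v * (v * i) * v⁻¹ = (v * (i : G))⁻¹ := by
      rintro ⟨i, hi, hiy⟩
      have hi2 := mul_self hi
      constructor
      · have h1 : (QuotientGroup.mk v : G ⧸ H) = QuotientGroup.mk i := by
          have e1 : v • (QuotientGroup.mk 1 : G ⧸ H) = QuotientGroup.mk v := by
            show QuotientGroup.mk (v * 1) = _
            rw [mul_one]
          have e2 : i • (QuotientGroup.mk 1 : G ⧸ H) = QuotientGroup.mk i := by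
            show QuotientGroup.mk (i * 1) = _
            rw [mul_one]
          rw [← e1, ← e2, hvy, hiy]
        have := QuotientGroup.eq.1 h1
        rwa [inv_eq hv2] at this
      · show v * (v * i) * v⁻¹ = (v * i)⁻¹
        rw [mul_inv_rev, inv_eq hi2, ← mul_assoc v v, hv2, one_mul]
    refine Nat.card_le_card_of_injective (fun i : Sw H y => (⟨(v * (i : G))⁻¹ * t * (v * (i : G)), ?_, ?_⟩ : Invs H)) ?_
    · have := orderOf_conj' (v * (i : G))⁻¹ t
      rw [inv_inv] at this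
      rw [this, ht]
    · exact H.mul_mem (H.mul_mem (H.inv_mem (key i).1) htH) (key i).1
    · intro i i' hii
      have e := congrArg (fun x : Invs H => (x : G)) hii
      have := inj_on_inv h ht htH hv hvH (key i).1 (key i').1 (key i).2 (key i').2 e
      exact Subtype.ext (mul_left_cancel this)
  · rw [not_nonempty_iff] at hne
    rw [Nat.card_of_isEmpty]
    exact Nat.zero_le _

/-- the unique fixed point -/
theorem fix_unique (h : IsSE 2 H) {t : G} (ht : orderOf t = 2) {x y : G ⧸ H} (hx : t • x = x) (hy : t • y = y) : x = y := by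
  obtain ⟨a, rfl⟩ := QuotientGroup.mk_surjective x
  obtain ⟨b, rfl⟩ := QuotientGroup.mk_surjective y
  rw [smul_eq_iff] at hx hy
  rw [QuotientGroup.eq]
  have h1 : (b⁻¹ * a) * (a⁻¹ * t * a) * (b⁻¹ * a)⁻¹ ∈ H := by
    have e : (b⁻¹ * a) * (a⁻¹ * t * a) * (b⁻¹ * a)⁻¹ = b⁻¹ * t * b := by group
    rw [e]; exact hy
  have h2 := mem_of_conj_inv h (t := a⁻¹ * t * a) (by
    have := orderOf_conj' a⁻¹ t
    rw [inv_inv] at this
    rw [this, ht]) hx h1
  have := H.inv_mem h2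
  have e : (b⁻¹ * a)⁻¹ = a⁻¹ * b := by group
  rwa [e] at this

theorem exists_fix (h : IsSE 2 H) {t : G} (ht : orderOf t = 2) : ∃ x : G ⧸ H, t • x = x := by
  obtain ⟨s, hsH, hs⟩ := exists_inv h
  obtain ⟨g, hg⟩ := isConj_iff.1 (all_conj h hs ht)
  refine ⟨QuotientGroup.mk g, ?_⟩
  rw [smul_eq_iff, ← hg]
  have e : g⁻¹ * (g * s * g⁻¹) * g = s := by group
  rw [e]; exact hsH

/-- total number of involutions -/
theorem card_inv (h : IsSE 2 H) : Nat.card {t : G // orderOf t = 2} = Nat.card (G ⧸ H) * Nat.card (Invs H) := by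
  rw [← Nat.card_prod]
  classical
  have hch : ∀ x : G ⧸ H, ∃ g : G, QuotientGroup.mk g = x := QuotientGroup.mk_surjective
  choose r hr using hch
  have hfix : ∀ (g : G) (x : G ⧸ H), g • x = x ↔ (r x)⁻¹ * g * r x ∈ H := fun g x => by
    have := smul_eq_iff (H := H) (g := g) (a := r x) (b := r x)
    rwa [hr x] at this
  refine (Nat.card_congr (Equiv.ofBijective (fun x : (G ⧸ H) × Invs H =>
    (⟨r x.1 * (x.2 : G) * (r x.1)⁻¹, by rw [orderOf_conj', x.2.2.1]⟩ : {t : G // orderOf t = 2})) ⟨?_, ?_⟩)).symm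
  · rintro ⟨x, t, ht, htH⟩ ⟨y, s, hs, hsH⟩ e
    have e' : r x * t * (r x)⁻¹ = r y * s * (r y)⁻¹ := congrArg Subtype.val e
    have hxy : x = y := by
      refine fix_unique h (t := r x * t * (r x)⁻¹) (by rw [orderOf_conj', ht]) ?_ ?_
      · rw [hfix]
        have : (r x)⁻¹ * (r x * t * (r x)⁻¹) * r x = t := by group
        rw [this]; exact htH
      · rw [e']
        rw [hfix]
        have : (r y)⁻¹ * (r y * s * (r y)⁻¹) * r y = s := by group
        rw [this]; exact hsH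
    subst hxy
    have : t = s := by
      have := congrArg (fun z => (r x)⁻¹ * z * r x) e'
      simpa [mul_assoc] using this
    subst this
    rfl
  · rintro ⟨t, ht⟩
    obtain ⟨x, hx⟩ := exists_fix h ht
    have hx' : (r x)⁻¹ * t * r x ∈ H := by
      rw [← smul_eq_iff, hr x]; exact hx
    refine ⟨(x, ⟨(r x)⁻¹ * t * r x, ?_, hx'⟩), ?_⟩
    · have := orderOf_conj' (r x)⁻¹ t
      rw [inv_inv] at this
      rw [this, ht]
    · apply Subtype.ext
      show r x * ((r x)⁻¹ * t * r x) * (r x)⁻¹ = t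
      group

theorem card_sw (h : IsSE 2 H) {y : G ⧸ H} (hy : y ≠ QuotientGroup.mk 1) : Nat.card (Sw H y) = Nat.card (Invs H) := by
  classical
  let _ : Fintype (G ⧸ H) := Fintype.ofFinite _
  have h1 : Nat.card {t : G // orderOf t = 2} = ∑ y : G ⧸ H, Nat.card (Sw H y) := by
    rw [← Nat.card_sigma]
    refine Nat.card_congr ⟨fun t => ⟨(t : G) • (QuotientGroup.mk 1 : G ⧸ H), ⟨t, t.2, rfl⟩⟩, fun x => ⟨x.2, x.2.2.1⟩, fun t => rfl, ?_⟩
    rintro ⟨y, i, hi, rfl⟩
    rfl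
  rw [card_inv h, ← Finset.add_sum_erase _ _ (Finset.mem_univ (QuotientGroup.mk 1 : G ⧸ H))] at h1
  have h2 : Nat.card (Sw H (QuotientGroup.mk 1)) = Nat.card (Invs H) := by
    refine Nat.card_congr ⟨fun x => ⟨x, x.2.1, smul_one_eq_iff.1 x.2.2⟩, fun x => ⟨x, x.2.1, smul_one_eq_iff.2 x.2.2⟩, fun x => rfl, fun x => rfl⟩
  rw [h2] at h1
  have h3 : ∑ y ∈ Finset.univ.erase (QuotientGroup.mk 1 : G ⧸ H), (Nat.card (Invs H) - Nat.card (Sw H y)) = 0 := by
    have h4 : ∑ y ∈ Finset.univ.erase (QuotientGroup.mk 1 : G ⧸ H), (Nat.card (Invs H) - Nat.card (Sw H y)) +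
        ∑ y ∈ Finset.univ.erase (QuotientGroup.mk 1 : G ⧸ H), Nat.card (Sw H y) =
        (Nat.card (G ⧸ H) - 1) * Nat.card (Invs H) := by
      rw [← Finset.sum_add_distrib]
      have h5 : ∀ y ∈ Finset.univ.erase (QuotientGroup.mk 1 : G ⧸ H),
          Nat.card (Invs H) - Nat.card (Sw H y) + Nat.card (Sw H y) = Nat.card (Invs H) := fun y hy =>
        Nat.sub_add_cancel (card_sw_le h (Finset.ne_of_mem_erase hy))
      rw [Finset.sum_congr rfl h5, Finset.sum_const, Finset.card_erase_of_mem (Finset.mem_univ _), Finset.card_univ,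
        smul_eq_mul, ← Nat.card_eq_fintype_card]
    have hpos : 0 < Nat.card (G ⧸ H) := Nat.card_pos
    obtain ⟨n, hn⟩ := Nat.exists_eq_succ_of_ne_zero hpos.ne'
    rw [hn] at h4 h1
    have h6 : (n.succ - 1) * Nat.card (Invs H) + Nat.card (Invs H) = n.succ * Nat.card (Invs H) := by
      rw [Nat.succ_sub_one, Nat.succ_mul]
    omega
  have h4 := (Finset.sum_eq_zero_iff.1 h3) y (Finset.mem_erase.2 ⟨hy, Finset.mem_univ _⟩)
  have h5 := card_sw_le h hy
  omega

/-- `J` is transitive on the involutions of `H` -/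
theorem exists_j (h : IsSE 2 H) {t s v : G} (ht : orderOf t = 2) (htH : t ∈ H) (hs : orderOf s = 2) (hsH : s ∈ H)
    (hv : orderOf v = 2) (hvH : v ∉ H) : ∃ j ∈ H, v * j * v⁻¹ = j⁻¹ ∧ j⁻¹ * t * j = s := by
  have hv2 := mul_self hv
  set y : G ⧸ H := v • (QuotientGroup.mk 1 : G ⧸ H) with hy
  have hy1 : y ≠ QuotientGroup.mk 1 := fun h1 => hvH (smul_one_eq_iff.1 h1)
  have key : ∀ i : Sw H y, v * i ∈ H ∧ v * (v * i) * v⁻¹ = (v * (i : G))⁻¹ := by
    rintro ⟨i, hi, hiy⟩
    have hi2 := mul_self hi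
    constructor
    · have h1 : (QuotientGroup.mk v : G ⧸ H) = QuotientGroup.mk i := by
        have e1 : v • (QuotientGroup.mk 1 : G ⧸ H) = QuotientGroup.mk v := by
          show QuotientGroup.mk (v * 1) = _
          rw [mul_one]
        have e2 : i • (QuotientGroup.mk 1 : G ⧸ H) = QuotientGroup.mk i := by
          show QuotientGroup.mk (i * 1) = _
          rw [mul_one]
        rw [← e1, ← e2, hiy]
      have := QuotientGroup.eq.1 h1
      rwa [inv_eq hv2] at this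
    · show v * (v * i) * v⁻¹ = (v * i)⁻¹
      rw [mul_inv_rev, inv_eq hi2, ← mul_assoc v v, hv2, one_mul]
  let f : Sw H y → Invs H := fun i => ⟨(v * (i : G))⁻¹ * t * (v * (i : G)), by
    have := orderOf_conj' (v * (i : G))⁻¹ t
    rw [inv_inv] at this
    rw [this, ht], H.mul_mem (H.mul_mem (H.inv_mem (key i).1) htH) (key i).1⟩
  have hf : Function.Injective f := by
    intro i i' hii
    have e := congrArg (fun x : Invs H => (x : G)) hii
    have := inj_on_inv h ht htH hv hvH (key i).1 (key i').1 (key i).2 (key i').2 e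
    exact Subtype.ext (mul_left_cancel this)
  have hb : Function.Bijective f := (Nat.bijective_iff_injective_and_card f).2 ⟨hf, card_sw h hy1⟩
  obtain ⟨i, hi⟩ := hb.2 ⟨s, hs, hsH⟩
  exact ⟨v * i, (key i).1, (key i).2, congrArg Subtype.val hi⟩

end Cfsg.Agent.Lib.SEmb
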