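import Mathlib
import Cfsg.Agent.Lib.Symp4

/-! Totally isotropic lines. -/

set_option linter.all false
set_option maxHeartbeats 1000000

namespace Cfsg.Agent.Lib.Ti

open Matrix Cfsg.Agent.Lib.Symp

section

variable {F : Type*} [Field F] {V : Type*} [AddCommGroup V] [Module F V]

theorem card_diff [Finite F] [Module.Finite F V] {U W : Submodule F V} (h : U ≤ W) :
    Nat.card {w : V // w ∈ W ∧ w ∉ U} = Nat.card F ^ Module.finrank F W - Nat.card F ^ Module.finrank F U := by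
  haveI : Finite V := Module.finite_of_finite F
  have h1 : Nat.card {w : V // w ∈ W ∧ w ∉ U} = ((W : Set V) \ (U : Set V)).ncard := rfl
  have h2 : (U : Set V).ncard = Nat.card U := rfl
  have h3 : (W : Set V).ncard = Nat.card W := rfl
  rw [h1, Set.ncard_diff h, h2, h3, Module.natCard_eq_pow_finrank (K := F) (V := U), Module.natCard_eq_pow_finrank (K := F) (V := W)]

theorem finrank_pair {v w : V} (hv : v ≠ 0) (hw : w ∉ Submodule.span F {v}) : Module.finrank F (Submodule.span F {v, w}) = 2 := by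
  have hli : LinearIndependent F ![v, w] := by
    rw [LinearIndependent.pair_iff]
    intro a b hab
    have hb : b = 0 := by
      by_contra hb
      apply hw
      rw [Submodule.mem_span_singleton]
      refine ⟨-(b⁻¹ * a), ?_⟩
      have h1 : b • w = -(a • v) := by rw [← sub_eq_zero, sub_neg_eq_add, add_comm]; exact hab
      have h2 : w = b⁻¹ • (b • w) := by rw [smul_smul, inv_mul_cancel₀ hb, one_smul]
      rw [h2, h1, smul_neg, smul_smul, neg_smul]
    rw [hb, zero_smul, add_zero] at hab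
    exact ⟨(smul_eq_zero.mp hab).resolve_right hv, hb⟩
  have h1 := finrank_span_eq_card hli
  rw [Matrix.range_cons, Matrix.range_cons, Matrix.range_empty, Set.union_empty, Set.singleton_union, Fintype.card_fin] at h1
  exact h1

theorem span_pair_eq [Module.Finite F V] {v w : V} (hv : v ≠ 0) (hw : w ∉ Submodule.span F {v}) {W : Submodule F V} (hW : Module.finrank F W = 2) (h1 : v ∈ W) (h2 : w ∈ W) :
    Submodule.span F {v, w} = W := by
  apply Submodule.eq_of_le_of_finrank_eq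
  · rw [Submodule.span_le]
    rintro x (rfl | rfl)
    · exact h1
    · exact h2
  · rw [finrank_pair hv hw, hW]

end

variable {F : Type*} [Field F]

theorem ti_span {m : ℕ} {v w : Fin m ⊕ Fin m → F} (h : Cfsg.sympForm m F v w = 0) :
    ∀ u ∈ Submodule.span F {v, w}, ∀ u' ∈ Submodule.span F {v, w}, Cfsg.sympForm m F u u' = 0 := by
  intro u hu u' hu'
  obtain ⟨a, b, rfl⟩ := Submodule.mem_span_pair.mp hu
  obtain ⟨a', b', rfl⟩ := Submodule.mem_span_pair.mp hu'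
  rw [sympForm_add_left, sympForm_add_right, sympForm_add_right, sympForm_smul_left, sympForm_smul_left, sympForm_smul_left, sympForm_smul_left,
    sympForm_smul_right, sympForm_smul_right, sympForm_smul_right, sympForm_smul_right, sympForm_self, sympForm_self, sympForm_swap v w, h]
  ring

/-- perp of a vector -/
def perp {m : ℕ} (v : Fin m ⊕ Fin m → F) : Submodule F (Fin m ⊕ Fin m → F) := LinearMap.ker (sympBilin m F v)

theorem mem_perp {m : ℕ} {v w : Fin m ⊕ Fin m → F} : w ∈ perp v ↔ Cfsg.sympForm m F v w = 0 := Iff.rfl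

theorem finrank_perp {m : ℕ} {v : Fin m ⊕ Fin m → F} (hv : v ≠ 0) : Module.finrank F (perp v) = 2 * m - 1 := by
  have h1 := (sympBilin m F v).finrank_range_add_finrank_ker
  have h2 : LinearMap.range (sympBilin m F v) = ⊤ := by
    rw [LinearMap.range_eq_top]
    obtain ⟨y, hy⟩ := exists_form_ne_zero hv
    intro c
    refine ⟨(-c / Cfsg.sympForm m F y v) • y, ?_⟩
    rw [sympBilin_apply, sympForm_smul_right, sympForm_swap y v]
    field_simp
  rw [h2, finrank_top, Module.finrank_self, Module.finrank_fintype_fun_eq_card, Fintype.card_sum, Fintype.card_fin] at h1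
  show Module.finrank F (LinearMap.ker (sympBilin m F v)) = _
  omega

abbrev Lv (v : Fin 2 ⊕ Fin 2 → F) := {W : Submodule F (Fin 2 ⊕ Fin 2 → F) // Module.finrank F W = 2 ∧ v ∈ W ∧ ∀ u ∈ W, ∀ w ∈ W, Cfsg.sympForm 2 F u w = 0}

abbrev Ls (F : Type*) [Field F] := {W : Submodule F (Fin 2 ⊕ Fin 2 → F) // Module.finrank F W = 2 ∧ ∀ u ∈ W, ∀ v ∈ W, Cfsg.sympForm 2 F u v = 0}

theorem count_v [Fintype F] {v : Fin 2 ⊕ Fin 2 → F} (hv : v ≠ 0) : Nat.card (Lv v) = Fintype.card F + 1 := by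
  classical
  have hq : 1 < Fintype.card F := Fintype.one_lt_card
  let X := Σ W : Lv v, {w : Fin 2 ⊕ Fin 2 → F // w ∈ W.1 ∧ w ∉ Submodule.span F {v}}
  let A := {w : Fin 2 ⊕ Fin 2 → F // w ∈ perp v ∧ w ∉ Submodule.span F {v}}
  have e : X ≃ A := by
    refine Equiv.ofBijective (fun x => ⟨x.2.1, x.1.2.2.2 v x.1.2.2.1 x.2.1 x.2.2.1, x.2.2.2⟩) ⟨?_, ?_⟩
    · rintro ⟨⟨W, hW1, hW2, hW3⟩, ⟨w, hw1, hw2⟩⟩ ⟨⟨W', hW1', hW2', hW3'⟩, ⟨w', hw1', hw2'⟩⟩ h
      have h1 : w = w' := congrArg Subtype.val h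
      subst h1
      have h2 : W = W' := by
        rw [← span_pair_eq hv hw2 hW1 hW2 hw1, ← span_pair_eq hv hw2 hW1' hW2' hw1']
      subst h2
      rfl
    · rintro ⟨w, hw1, hw2⟩
      exact ⟨⟨⟨Submodule.span F {v, w}, finrank_pair hv hw2, Submodule.subset_span (Or.inl rfl), ti_span hw1⟩, ⟨w, Submodule.subset_span (Or.inr rfl), hw2⟩⟩, rfl⟩
  haveI : Finite (Submodule F (Fin 2 ⊕ Fin 2 → F)) := inferInstance
  haveI : Fintype (Lv v) := Fintype.ofFinite _
  have hX : Nat.card X = ∑ W : Lv v, Nat.card {w : Fin 2 ⊕ Fin 2 → F // w ∈ W.1 ∧ w ∉ Submodule.span F {v}} := Nat.card_sigma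
  have hspan : Module.finrank F (Submodule.span F {v}) = 1 := finrank_span_singleton hv
  have hterm : ∀ W : Lv v, Nat.card {w : Fin 2 ⊕ Fin 2 → F // w ∈ W.1 ∧ w ∉ Submodule.span F {v}} = Fintype.card F ^ 2 - Fintype.card F ^ 1 := by
    intro W
    rw [card_diff (Submodule.span_le.mpr (Set.singleton_subset_iff.mpr W.2.2.1)), W.2.1, hspan, Nat.card_eq_fintype_card]
  have hA : Nat.card A = Fintype.card F ^ 3 - Fintype.card F ^ 1 := by
    have : Submodule.span F {v} ≤ perp v := Submodule.span_le.mpr (Set.singleton_subset_iff.mpr (mem_perp.mpr (sympForm_self v)))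
    rw [card_diff this, finrank_perp hv, hspan, Nat.card_eq_fintype_card]
  rw [Nat.card_congr e, hA, Finset.sum_congr rfl (fun W _ => hterm W), Finset.sum_const, Finset.card_univ, smul_eq_mul, ← Nat.card_eq_fintype_card (α := Lv v)] at hX
  have h4 : Fintype.card F ^ 2 - Fintype.card F ^ 1 = Fintype.card F * (Fintype.card F - 1) := by rw [Nat.mul_sub]; ring_nf
  have h5 : Fintype.card F ^ 3 - Fintype.card F ^ 1 = (Fintype.card F + 1) * (Fintype.card F * (Fintype.card F - 1)) := by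
    obtain ⟨k, hk⟩ : ∃ k, Fintype.card F = k + 1 := ⟨Fintype.card F - 1, by omega⟩
    rw [hk, Nat.add_sub_cancel, Nat.sub_eq_iff_eq_add (Nat.pow_le_pow_right (by omega) (by norm_num))]
    ring
  rw [h4, h5] at hX
  exact (Nat.eq_of_mul_eq_mul_right (Nat.mul_pos (by omega) (by omega)) hX).symm

theorem count [Fintype F] : Nat.card (Ls F) = (Fintype.card F + 1) * (Fintype.card F ^ 2 + 1) := by
  classical
  have hq : 1 < Fintype.card F := Fintype.one_lt_card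
  let X := Σ W : Ls F, {w : Fin 2 ⊕ Fin 2 → F // w ∈ W.1 ∧ w ∉ (⊥ : Submodule F (Fin 2 ⊕ Fin 2 → F))}
  let Y := Σ v : {w : Fin 2 ⊕ Fin 2 → F // w ∈ (⊤ : Submodule F (Fin 2 ⊕ Fin 2 → F)) ∧ w ∉ (⊥ : Submodule F (Fin 2 ⊕ Fin 2 → F))}, Lv v.1
  have e : X ≃ Y :=
    { toFun := fun x => ⟨⟨x.2.1, Submodule.mem_top, x.2.2.2⟩, ⟨x.1.1, x.1.2.1, x.2.2.1, x.1.2.2⟩⟩
      invFun := fun y => ⟨⟨y.2.1, y.2.2.1, y.2.2.2.2⟩, ⟨y.1.1, y.2.2.2.1, y.1.2.2⟩⟩
      left_inv := fun x => rfl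
      right_inv := fun y => rfl }
  haveI : Fintype (Ls F) := Fintype.ofFinite _
  have hX : Nat.card X = ∑ W : Ls F, Nat.card {w : Fin 2 ⊕ Fin 2 → F // w ∈ W.1 ∧ w ∉ (⊥ : Submodule F (Fin 2 ⊕ Fin 2 → F))} := Nat.card_sigma
  haveI : Fintype {w : Fin 2 ⊕ Fin 2 → F // w ∈ (⊤ : Submodule F (Fin 2 ⊕ Fin 2 → F)) ∧ w ∉ (⊥ : Submodule F (Fin 2 ⊕ Fin 2 → F))} := Fintype.ofFinite _
  have hY : Nat.card Y = ∑ v : {w : Fin 2 ⊕ Fin 2 → F // w ∈ (⊤ : Submodule F (Fin 2 ⊕ Fin 2 → F)) ∧ w ∉ (⊥ : Submodule F (Fin 2 ⊕ Fin 2 → F))}, Nat.card (Lv v.1) := Nat.card_sigma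
  have hterm : ∀ W : Ls F, Nat.card {w : Fin 2 ⊕ Fin 2 → F // w ∈ W.1 ∧ w ∉ (⊥ : Submodule F (Fin 2 ⊕ Fin 2 → F))} = Fintype.card F ^ 2 - 1 := by
    intro W
    rw [card_diff bot_le, W.2.1, finrank_bot, Nat.card_eq_fintype_card, pow_zero]
  have hterm2 : ∀ v : {w : Fin 2 ⊕ Fin 2 → F // w ∈ (⊤ : Submodule F (Fin 2 ⊕ Fin 2 → F)) ∧ w ∉ (⊥ : Submodule F (Fin 2 ⊕ Fin 2 → F))}, Nat.card (Lv v.1) = Fintype.card F + 1 := by
    intro v
    exact count_v (fun h => v.2.2 ((Submodule.mem_bot F).mpr h))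
  have h3 : Nat.card {w : Fin 2 ⊕ Fin 2 → F // w ∈ (⊤ : Submodule F (Fin 2 ⊕ Fin 2 → F)) ∧ w ∉ (⊥ : Submodule F (Fin 2 ⊕ Fin 2 → F))} = Fintype.card F ^ 4 - 1 := by
    rw [card_diff bot_le, finrank_top, finrank_bot, Module.finrank_fintype_fun_eq_card, Fintype.card_sum, Fintype.card_fin, Nat.card_eq_fintype_card, pow_zero]
  rw [Finset.sum_congr rfl (fun W _ => hterm W), Finset.sum_const, Finset.card_univ, smul_eq_mul, ← Nat.card_eq_fintype_card (α := Ls F)] at hX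
  rw [Finset.sum_congr rfl (fun W _ => hterm2 W), Finset.sum_const, Finset.card_univ, smul_eq_mul, ← Nat.card_eq_fintype_card (α := {w : Fin 2 ⊕ Fin 2 → F // w ∈ (⊤ : Submodule F (Fin 2 ⊕ Fin 2 → F)) ∧ w ∉ (⊥ : Submodule F (Fin 2 ⊕ Fin 2 → F))}), h3] at hY
  rw [Nat.card_congr e, hY] at hX
  have h5 : Fintype.card F ^ 4 - 1 = (Fintype.card F ^ 2 + 1) * (Fintype.card F ^ 2 - 1) := by
    have h6 : 1 ≤ Fintype.card F ^ 2 := Nat.one_le_pow _ _ (by omega)
    obtain ⟨k, hk⟩ : ∃ k, Fintype.card F ^ 2 = k + 1 := ⟨Fintype.card F ^ 2 - 1, by omega⟩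
    have h7 : Fintype.card F ^ 4 = (Fintype.card F ^ 2) ^ 2 := by ring
    rw [h7, hk, Nat.add_sub_cancel, Nat.sub_eq_iff_eq_add (Nat.one_le_pow _ _ (by omega))]
    ring
  rw [h5] at hX
  have h6 : 0 < Fintype.card F ^ 2 - 1 := by
    have := Nat.one_lt_pow (n := 2) (by norm_num) hq
    omega
  apply Nat.eq_of_mul_eq_mul_right h6
  rw [← hX]
  ring

end Cfsg.Agent.Lib.Ti
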