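import Mathlib
import Cfsg.Agent.Lib.Ti1

/-! Totally isotropic frames in the symplectic space. -/

set_option linter.all false
set_option maxHeartbeats 1000000

namespace Cfsg.Agent.Lib.Tis

open Matrix Cfsg.Agent.Lib.Symp

theorem orbit_count {H : Type*} [Group H] [Finite H] {X : Type*} (φ : H → X) (K : Subgroup H)
    (hK : ∀ a b, φ a = φ b ↔ a⁻¹ * b ∈ K) (P : X → Prop) (himg : ∀ x, P x ↔ ∃ a, φ a = x) :
    Nat.card H = Nat.card {x // P x} * Nat.card K := by
  rw [Subgroup.card_eq_card_quotient_mul_card_subgroup K]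
  congr 1
  refine Nat.card_congr (Equiv.ofBijective (Quotient.lift (fun a => (⟨φ a, (himg _).mpr ⟨a, rfl⟩⟩ : {x // P x})) ?_) ⟨?_, ?_⟩)
  · intro a b hab
    exact Subtype.ext ((hK a b).mpr (QuotientGroup.leftRel_apply.mp hab))
  · intro x y
    induction x using Quotient.inductionOn with | _ a => ?_
    induction y using Quotient.inductionOn with | _ b => ?_
    intro h
    apply Quotient.sound
    exact QuotientGroup.leftRel_apply.mpr ((hK a b).mp (congrArg Subtype.val h))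
  · rintro ⟨x, hx⟩
    obtain ⟨a, ha⟩ := (himg x).mp hx
    exact ⟨Quotient.mk _ a, Subtype.ext ha⟩

variable {F : Type*} [Field F] {m : ℕ}

/-- the orthogonal of a subspace -/
def pS (W : Submodule F (Fin m ⊕ Fin m → F)) : Submodule F (Fin m ⊕ Fin m → F) := (sympBilin m F).orthogonal W

theorem mem_pS {W : Submodule F (Fin m ⊕ Fin m → F)} {x : Fin m ⊕ Fin m → F} : x ∈ pS W ↔ ∀ w ∈ W, Cfsg.sympForm m F w x = 0 := Iff.rfl

theorem isRefl : (sympBilin m F).IsRefl := (sympBilin_isAlt (m := m) (F := F)).isRefl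

theorem finrank_pS (W : Submodule F (Fin m ⊕ Fin m → F)) : Module.finrank F (pS W) = 2 * m - Module.finrank F W := by
  have := LinearMap.BilinForm.finrank_orthogonal (sympBilin_nondegenerate (m := m) (F := F)) W
  rw [Module.finrank_fintype_fun_eq_card, Fintype.card_sum, Fintype.card_fin] at this
  rw [two_mul]
  exact this

theorem pS_pS (W : Submodule F (Fin m ⊕ Fin m → F)) : pS (pS W) = W :=
  LinearMap.BilinForm.orthogonal_orthogonal (sympBilin_nondegenerate (m := m) (F := F)) isRefl W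

theorem exists_pair {W : Submodule F (Fin m ⊕ Fin m → F)} {v : Fin m ⊕ Fin m → F} (hv : v ∉ W) : ∃ z ∈ pS W, Cfsg.sympForm m F v z ≠ 0 := by
  by_contra hcon
  push Not at hcon
  apply hv
  rw [← pS_pS W, mem_pS]
  intro w hw
  rw [sympForm_swap, hcon w hw, neg_zero]

theorem joint {W : Submodule F (Fin m ⊕ Fin m → F)} {u v : Fin m ⊕ Fin m → F} (hu : u ∉ W) (hv : v ∉ W) :
    ∃ w ∈ pS W, Cfsg.sympForm m F u w ≠ 0 ∧ Cfsg.sympForm m F v w ≠ 0 := by
  obtain ⟨w1, hw1, h1⟩ := exists_pair hu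
  obtain ⟨w2, hw2, h2⟩ := exists_pair hv
  by_cases h3 : Cfsg.sympForm m F v w1 = 0
  · by_cases h4 : Cfsg.sympForm m F u w2 = 0
    · refine ⟨w1 + w2, add_mem hw1 hw2, ?_, ?_⟩
      · rw [sympForm_add_right, h4, add_zero]; exact h1
      · rw [sympForm_add_right, h3, zero_add]; exact h2
    · exact ⟨w2, hw2, h4, h2⟩
  · exact ⟨w1, hw1, h1, h3⟩

theorem step {W : Submodule F (Fin m ⊕ Fin m → F)} {u v : Fin m ⊕ Fin m → F} (hu : u ∉ W) (hv : v ∉ W) (hu' : u ∈ pS W) (hv' : v ∈ pS W) :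
    ∃ g ∈ TG (pS W), (g : Matrix (Fin m ⊕ Fin m) (Fin m ⊕ Fin m) F) *ᵥ u = v := by
  obtain ⟨w, hw, h1, h2⟩ := joint hu hv
  obtain ⟨g1, hg1, e1⟩ := trans_aux hu' hw h1
  obtain ⟨g2, hg2, e2⟩ := trans_aux hw hv' (by
    rw [sympForm_swap]; exact neg_ne_zero.mpr h2)
  exact ⟨g2 * g1, mul_mem hg2 hg1, by rw [mul_mulVec, e1, e2]⟩

theorem mem_pS_span {ι : Type*} {f : ι → (Fin m ⊕ Fin m → F)} {x : Fin m ⊕ Fin m → F} :
    x ∈ pS (Submodule.span F (Set.range f)) ↔ ∀ i, Cfsg.sympForm m F (f i) x = 0 := by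
  constructor
  · intro h i
    exact mem_pS.mp h _ (Submodule.subset_span ⟨i, rfl⟩)
  · intro h
    rw [mem_pS]
    intro w hw
    induction hw using Submodule.span_induction with
    | mem y hy => obtain ⟨i, rfl⟩ := hy; exact h i
    | zero => exact (congrArg (fun z : (Fin m ⊕ Fin m → F) →ₗ[F] F => z x) (map_zero (sympBilin m F)) :)
    | add a b _ _ ha hb => rw [sympForm_add_left, ha, hb, add_zero]
    | smul c a _ ha => rw [sympForm_smul_left, ha, mul_zero]

theorem li_map (g : Matrix.symplecticGroup (Fin m) F) {ι : Type*} {v : ι → (Fin m ⊕ Fin m → F)} (hv : LinearIndependent F v) :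
    LinearIndependent F (fun i => (g : Matrix (Fin m ⊕ Fin m) (Fin m ⊕ Fin m) F) *ᵥ v i) := by
  have := hv.map' (Matrix.mulVecLin (g : Matrix (Fin m ⊕ Fin m) (Fin m ⊕ Fin m) F)) (LinearMap.ker_eq_bot.mpr (mulVec_injective g))
  exact this

theorem frames : ∀ (k : ℕ) (v w : Fin k → (Fin m ⊕ Fin m → F)), LinearIndependent F v → LinearIndependent F w →
    (∀ i j, Cfsg.sympForm m F (v i) (v j) = 0) → (∀ i j, Cfsg.sympForm m F (w i) (w j) = 0) →
    ∃ g : Matrix.symplecticGroup (Fin m) F, ∀ i, (g : Matrix (Fin m ⊕ Fin m) (Fin m ⊕ Fin m) F) *ᵥ v i = w i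
  | 0, v, w, _, _, _, _ => ⟨1, fun i => i.elim0⟩
  | k + 1, v, w, hv, hw, hvv, hww => by
    obtain ⟨g0, hg0⟩ := frames k (fun i => v i.castSucc) (fun i => w i.castSucc) (hv.comp _ (Fin.castSucc_injective k)) (hw.comp _ (Fin.castSucc_injective k))
      (fun i j => hvv _ _) (fun i j => hww _ _)
    set W := Submodule.span F (Set.range (fun i : Fin k => w i.castSucc)) with hWdef
    have h1 : w (Fin.last k) ∉ W := (linearIndependent_fin_succ'.mp hw).2
    have h2 : (g0 : Matrix (Fin m ⊕ Fin m) (Fin m ⊕ Fin m) F) *ᵥ v (Fin.last k) ∉ W := by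
      have := (linearIndependent_fin_succ'.mp (li_map g0 hv)).2
      have e1 : Fin.init (fun i => (g0 : Matrix (Fin m ⊕ Fin m) (Fin m ⊕ Fin m) F) *ᵥ v i) = fun i : Fin k => w i.castSucc := funext hg0
      rw [e1] at this
      exact this
    have h3 : w (Fin.last k) ∈ pS W := mem_pS_span.mpr (fun i => hww _ _)
    have h4 : (g0 : Matrix (Fin m ⊕ Fin m) (Fin m ⊕ Fin m) F) *ᵥ v (Fin.last k) ∈ pS W := by
      apply mem_pS_span.mpr
      intro i
      show Cfsg.sympForm m F (w i.castSucc) _ = 0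
      rw [← hg0 i, preserves, hvv]
    obtain ⟨h, hh, hh2⟩ := step h2 h1 h4 h3
    refine ⟨h * g0, ?_⟩
    intro i
    rw [mul_mulVec]
    induction i using Fin.lastCases with
    | last => exact hh2
    | cast i =>
      rw [hg0 i]
      exact TG_fix hh (fun z hz => mem_pS.mp hz _ (Submodule.subset_span ⟨i, rfl⟩))

theorem sig_ext {A B : Type*} {P : A → B → Prop} {x y : Σ a : A, {b // P a b}} (h1 : x.1 = y.1) (h2 : (x.2 : B) = y.2) : x = y := by
  obtain ⟨a, b, hb⟩ := x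
  obtain ⟨a', b', hb'⟩ := y
  dsimp only at h1 h2
  subst h1
  subst h2
  rfl

abbrev Fr (m : ℕ) (F : Type*) [Field F] (k : ℕ) := {v : Fin k → (Fin m ⊕ Fin m → F) // LinearIndependent F v ∧ ∀ i j, Cfsg.sympForm m F (v i) (v j) = 0}

def frEquiv (k : ℕ) : Fr m F (k + 1) ≃ Σ w : Fr m F k, {x : Fin m ⊕ Fin m → F // x ∈ pS (Submodule.span F (Set.range w.1)) ∧ x ∉ Submodule.span F (Set.range w.1)} where
  toFun v := ⟨⟨Fin.init v.1, (linearIndependent_fin_succ'.mp v.2.1).1, fun i j => v.2.2 _ _⟩, ⟨v.1 (Fin.last k), mem_pS_span.mpr (fun i => v.2.2 _ _), (linearIndependent_fin_succ'.mp v.2.1).2⟩⟩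
  invFun y := ⟨Fin.snoc y.1.1 y.2.1, linearIndependent_fin_succ'.mpr ⟨by rw [Fin.init_snoc]; exact y.1.2.1, by rw [Fin.init_snoc, Fin.snoc_last]; exact y.2.2.2⟩, by
    have hL : ∀ i : Fin k, Cfsg.sympForm m F (y.1.1 i) y.2.1 = 0 := fun i => mem_pS_span.mp y.2.2.1 i
    intro i j
    induction i using Fin.lastCases with
    | last =>
      induction j using Fin.lastCases with
      | last => exact sympForm_self _
      | cast j => rw [Fin.snoc_last, Fin.snoc_castSucc, sympForm_swap, hL j, neg_zero]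
    | cast i =>
      induction j using Fin.lastCases with
      | last => rw [Fin.snoc_last, Fin.snoc_castSucc]; exact hL i
      | cast j => rw [Fin.snoc_castSucc, Fin.snoc_castSucc]; exact y.1.2.2 i j⟩
  left_inv v := Subtype.ext (Fin.snoc_init_self v.1)
  right_inv := by
    rintro ⟨⟨w, hw1, hw2⟩, ⟨x, hx1, hx2⟩⟩
    have h1 : (Fin.init (Fin.snoc w x : Fin (k + 1) → (Fin m ⊕ Fin m → F)) : Fin k → (Fin m ⊕ Fin m → F)) = w := Fin.init_snoc _ _
    have h2 : (Fin.snoc w x : Fin (k + 1) → (Fin m ⊕ Fin m → F)) (Fin.last k) = x := Fin.snoc_last _ _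
    exact sig_ext (Subtype.ext h1) h2

theorem span_le_pS {k : ℕ} (w : Fr m F k) : Submodule.span F (Set.range w.1) ≤ pS (Submodule.span F (Set.range w.1)) := by
  rw [Submodule.span_le]
  rintro _ ⟨i, rfl⟩
  exact mem_pS_span.mpr (fun j => w.2.2 _ _)

theorem card_Fr [Fintype F] : ∀ k : ℕ, Nat.card (Fr m F k) = ∏ i ∈ Finset.range k, (Fintype.card F ^ (2 * m - i) - Fintype.card F ^ i)
  | 0 => by
    rw [Finset.range_zero, Finset.prod_empty, Nat.card_eq_one_iff_unique]
    exact ⟨⟨fun a b => Subtype.ext (funext fun i => i.elim0)⟩, ⟨⟨fun i => i.elim0, linearIndependent_empty_type, fun i => i.elim0⟩⟩⟩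
  | k + 1 => by
    haveI : Fintype (Fr m F k) := Fintype.ofFinite _
    rw [Nat.card_congr (frEquiv k), Nat.card_sigma, Finset.prod_range_succ, ← card_Fr k]
    rw [Finset.sum_congr rfl (g := fun _ => Fintype.card F ^ (2 * m - k) - Fintype.card F ^ k)]
    · rw [Finset.sum_const, Finset.card_univ, smul_eq_mul, Nat.card_eq_fintype_card (α := Fr m F k)]
    · intro w _
      have hk : Module.finrank F (Submodule.span F (Set.range w.1)) = k := by
        rw [finrank_span_eq_card w.2.1, Fintype.card_fin]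
      rw [Cfsg.Agent.Lib.Ti.card_diff (span_le_pS w), finrank_pS, hk, Nat.card_eq_fintype_card]

theorem arith (q m : ℕ) (hq : 1 ≤ q) : ∀ k ≤ m, (∏ i ∈ Finset.range k, (q ^ (2 * m - i) - q ^ i)) *
    (q ^ (k * (k + 1) / 2 + 2 * k * (m - k)) * (q ^ ((m - k) ^ 2) * ∏ i ∈ Finset.range (m - k), (q ^ (2 * (i + 1)) - 1))) =
    q ^ (m ^ 2) * ∏ i ∈ Finset.range m, (q ^ (2 * (i + 1)) - 1)
  | 0, _ => by simp
  | k + 1, hk => by
    rw [← arith q m hq k (by omega), Finset.prod_range_succ, mul_assoc]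
    congr 1
    obtain ⟨d, rfl⟩ : ∃ d, m = k + 1 + d := ⟨m - (k + 1), by omega⟩
    have h1 : k + 1 + d - (k + 1) = d := by omega
    have h2 : k + 1 + d - k = d + 1 := by omega
    have h3 : 2 * (k + 1 + d) - k = k + 2 * (d + 1) := by omega
    have h4 : (k + 1) * (k + 1 + 1) / 2 = k * (k + 1) / 2 + (k + 1) := by
      have : (k + 1) * (k + 1 + 1) = k * (k + 1) + (k + 1) * 2 := by ring
      rw [this, Nat.add_mul_div_right _ _ (by norm_num)]
    have h5 : q ^ (k + 2 * (d + 1)) - q ^ k = q ^ k * (q ^ (2 * (d + 1)) - 1) := by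
      rw [Nat.mul_sub, ← pow_add, mul_one]
    rw [h1, h2, h3, h4, h5, Finset.prod_range_succ]
    generalize k * (k + 1) / 2 = A
    have h6 : q ^ (A + 2 * k * (d + 1)) * (q ^ ((d + 1) ^ 2) * ((∏ i ∈ Finset.range d, (q ^ (2 * (i + 1)) - 1)) * (q ^ (2 * (d + 1)) - 1))) =
        q ^ (A + 2 * k * (d + 1) + (d + 1) ^ 2) * ((∏ i ∈ Finset.range d, (q ^ (2 * (i + 1)) - 1)) * (q ^ (2 * (d + 1)) - 1)) := by
      rw [pow_add q (A + 2 * k * (d + 1)) ((d + 1) ^ 2)]; ring
    have h7 : q ^ k * (q ^ (2 * (d + 1)) - 1) * (q ^ (A + (k + 1) + 2 * (k + 1) * d) * (q ^ (d ^ 2) * ∏ i ∈ Finset.range d, (q ^ (2 * (i + 1)) - 1))) =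
        q ^ (k + (A + (k + 1) + 2 * (k + 1) * d) + d ^ 2) * ((∏ i ∈ Finset.range d, (q ^ (2 * (i + 1)) - 1)) * (q ^ (2 * (d + 1)) - 1)) := by
      rw [pow_add q (k + (A + (k + 1) + 2 * (k + 1) * d)) (d ^ 2), pow_add q k (A + (k + 1) + 2 * (k + 1) * d)]; ring
    rw [h6, h7]
    congr 2
    ring

theorem s0775 [Fintype F] {q : ℕ} (hF : Fintype.card F = q) (k : ℕ) (hk : k ≤ m) (W : Submodule F (Fin m ⊕ Fin m → F)) (hWk : Module.finrank F W = k) (hW : ∀ u ∈ W, ∀ v ∈ W, Cfsg.sympForm m F u v = 0) : Nat.card ↥(Cfsg.stabilizing (Cfsg.spToMat m F) (W : Set (Fin m ⊕ Fin m → F))) = q ^ (k * (k + 1) / 2 + 2 * k * (m - k)) * (q ^ ((m - k) ^ 2) * ∏ i ∈ Finset.range (m - k), (q ^ (2 * (i + 1)) - 1)) * ∏ i : Fin k, (q ^ k - q ^ (i : ℕ)) := by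
  classical
  subst hF
  subst hWk
  set k := Module.finrank F W with hkdef
  let B := Module.finBasis F W
  let b : Fin k → (Fin m ⊕ Fin m → F) := fun i => (B i : Fin m ⊕ Fin m → F)
  have hb : LinearIndependent F b := B.linearIndependent.map' W.subtype (Submodule.ker_subtype W)
  have hbW : ∀ i, b i ∈ W := fun i => (B i).2
  have hspan : ∀ x : Fin k → (Fin m ⊕ Fin m → F), LinearIndependent F x → (∀ i, x i ∈ W) → Submodule.span F (Set.range x) = W := by
    intro x hx hxW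
    apply Submodule.eq_of_le_of_finrank_eq
    · rw [Submodule.span_le]
      rintro _ ⟨i, rfl⟩
      exact hxW i
    · rw [finrank_span_eq_card hx, Fintype.card_fin]
  let φ : Matrix.symplecticGroup (Fin m) F → (Fin k → (Fin m ⊕ Fin m → F)) := fun g i => (g : Matrix (Fin m ⊕ Fin m) (Fin m ⊕ Fin m) F) *ᵥ b i
  let K : Subgroup (Matrix.symplecticGroup (Fin m) F) :=
    { carrier := {g | ∀ i, (g : Matrix (Fin m ⊕ Fin m) (Fin m ⊕ Fin m) F) *ᵥ b i = b i}
      mul_mem' := by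
        intro g h hg hh i
        rw [mul_mulVec, hh i, hg i]
      one_mem' := fun i => one_mulVec' _
      inv_mem' := by
        intro g hg i
        have := hg i
        conv_lhs => rw [← this]
        exact inv_mulVec_mulVec g _ }
  have hK : ∀ g h, φ g = φ h ↔ g⁻¹ * h ∈ K := by
    intro g h
    constructor
    · intro hgh i
      have h1 : (g : Matrix (Fin m ⊕ Fin m) (Fin m ⊕ Fin m) F) *ᵥ b i = (h : Matrix (Fin m ⊕ Fin m) (Fin m ⊕ Fin m) F) *ᵥ b i := congrFun hgh i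
      rw [mul_mulVec, ← h1, inv_mulVec_mulVec]
    · intro hgh
      funext i
      have h1 := hgh i
      rw [mul_mulVec] at h1
      show (g : Matrix (Fin m ⊕ Fin m) (Fin m ⊕ Fin m) F) *ᵥ b i = (h : Matrix (Fin m ⊕ Fin m) (Fin m ⊕ Fin m) F) *ᵥ b i
      conv_lhs => rw [← h1]
      exact mulVec_inv_mulVec g _
  have hG := orbit_count φ K hK (fun v => LinearIndependent F v ∧ ∀ i j, Cfsg.sympForm m F (v i) (v j) = 0) (by
    intro x
    constructor
    · rintro ⟨hx1, hx2⟩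
      obtain ⟨g, hg⟩ := frames k b x hb hx1 (fun i j => hW _ (hbW i) _ (hbW j)) hx2
      exact ⟨g, funext hg⟩
    · rintro ⟨g, rfl⟩
      exact ⟨li_map g hb, fun i j => (preserves g _ _).trans (hW _ (hbW i) _ (hbW j))⟩)
  set St := Cfsg.stabilizing (Cfsg.spToMat m F) (W : Set (Fin m ⊕ Fin m → F)) with hSt
  have hmemSt : ∀ g : Matrix.symplecticGroup (Fin m) F, (∀ v ∈ W, (g : Matrix (Fin m ⊕ Fin m) (Fin m ⊕ Fin m) F) *ᵥ v ∈ W) → g ∈ St := by
    intro g hg v
    refine ⟨fun hv => hg v hv, fun hv => ?_⟩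
    have hle : W.map (Matrix.mulVecLin (g : Matrix (Fin m ⊕ Fin m) (Fin m ⊕ Fin m) F)) ≤ W := by
      rintro _ ⟨x, hx, rfl⟩
      exact hg x hx
    have heq : W.map (Matrix.mulVecLin (g : Matrix (Fin m ⊕ Fin m) (Fin m ⊕ Fin m) F)) = W := by
      apply Submodule.eq_of_le_of_finrank_eq hle
      exact (LinearEquiv.finrank_eq (Submodule.equivMapOfInjective (Matrix.mulVecLin (g : Matrix (Fin m ⊕ Fin m) (Fin m ⊕ Fin m) F)) (mulVec_injective g) W)).symm
    have hv' : (g : Matrix (Fin m ⊕ Fin m) (Fin m ⊕ Fin m) F) *ᵥ v ∈ W := hv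
    rw [← heq] at hv'
    obtain ⟨x, hx, hxv⟩ := hv'
    have : x = v := mulVec_injective g hxv
    rw [← this]
    exact hx
  have hKSt : K ≤ St := by
    intro g hg
    apply hmemSt
    intro v hv
    have hv' : v ∈ Submodule.span F (Set.range b) := by rw [hspan b hb hbW]; exact hv
    have : (g : Matrix (Fin m ⊕ Fin m) (Fin m ⊕ Fin m) F) *ᵥ v = v := by
      clear hv
      induction hv' using Submodule.span_induction with
      | mem y hy => obtain ⟨i, rfl⟩ := hy; exact hg i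
      | zero => exact Matrix.mulVec_zero _
      | add a b _ _ ha hb => rw [Matrix.mulVec_add, ha, hb]
      | smul c a _ ha => rw [Matrix.mulVec_smul, ha]
    rw [this]
    exact hv
  have hS := orbit_count (fun g : St => φ g.1) (K.subgroupOf St) (by
    intro g h
    rw [hK, Subgroup.mem_subgroupOf]
    rfl) (fun v => LinearIndependent F v ∧ ∀ i, v i ∈ W) (by
    intro x
    constructor
    · rintro ⟨hx1, hx2⟩
      obtain ⟨g, hg⟩ := frames k b x hb hx1 (fun i j => hW _ (hbW i) _ (hbW j)) (fun i j => hW _ (hx2 i) _ (hx2 j))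
      refine ⟨⟨g, hmemSt g ?_⟩, funext hg⟩
      intro v hv
      have hv' : v ∈ Submodule.span F (Set.range b) := by rw [hspan b hb hbW]; exact hv
      clear hv
      induction hv' using Submodule.span_induction with
      | mem y hy => obtain ⟨i, rfl⟩ := hy; rw [hg i]; exact hx2 i
      | zero => rw [Matrix.mulVec_zero]; exact W.zero_mem
      | add a b _ _ ha hb => rw [Matrix.mulVec_add]; exact W.add_mem ha hb
      | smul c a _ ha => rw [Matrix.mulVec_smul]; exact W.smul_mem _ ha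
    · rintro ⟨g, rfl⟩
      exact ⟨li_map g.1 hb, fun i => (g.2 (b i)).mp (hbW i)⟩)
  rw [Nat.card_congr (Subgroup.subgroupOfEquivOfLe hKSt).toEquiv] at hS
  have hcW : Nat.card {v : Fin k → (Fin m ⊕ Fin m → F) // LinearIndependent F v ∧ ∀ i, v i ∈ W} = ∏ i : Fin k, (Fintype.card F ^ k - Fintype.card F ^ (i : ℕ)) := by
    haveI : Fintype W := Fintype.ofFinite _
    rw [← card_linearIndependent (K := F) (V := W) (le_refl k)]
    refine Nat.card_congr
      { toFun := fun v => ⟨fun i => ⟨v.1 i, v.2.2 i⟩, ?_⟩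
        invFun := fun s => ⟨fun i => (s.1 i : Fin m ⊕ Fin m → F), s.2.map' W.subtype (Submodule.ker_subtype W), fun i => (s.1 i).2⟩
        left_inv := fun v => rfl
        right_inv := fun s => rfl }
    exact (LinearMap.linearIndependent_iff W.subtype (Submodule.ker_subtype W)).mp v.2.1
  have hcF : Nat.card {v : Fin k → (Fin m ⊕ Fin m → F) // LinearIndependent F v ∧ ∀ i j, Cfsg.sympForm m F (v i) (v j) = 0} = _ := card_Fr (m := m) (F := F) k
  rw [hcW] at hS
  rw [hcF, card_symplecticGroup, ← arith (Fintype.card F) m Fintype.card_pos k hk] at hG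
  have hpos : 0 < ∏ i ∈ Finset.range k, (Fintype.card F ^ (2 * m - i) - Fintype.card F ^ i) := by
    rw [← hcF]
    exact Nat.card_pos_iff.mpr ⟨⟨⟨b, hb, fun i j => hW _ (hbW i) _ (hbW j)⟩⟩, inferInstance⟩
  have hN := Nat.eq_of_mul_eq_mul_left hpos hG
  rw [hS, ← hN]
  ring

end Cfsg.Agent.Lib.Tis
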