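import Mathlib
import Cfsg.Agent.Lib.BForm3
import Cfsg.Agent.Lib.Tis1

/-! Symmetric bilinear forms in characteristic two. -/

set_option linter.all false
set_option maxHeartbeats 1000000

namespace Cfsg.Agent.Lib.Sc

open Module Cfsg.Agent.Lib.BForm

section

variable {F V W : Type*} [Field F] [AddCommGroup V] [Module F V] [FiniteDimensional F V]
  [AddCommGroup W] [Module F W] [FiniteDimensional F W]

theorem key {ι : Type*} [Fintype ι] [DecidableEq ι] {D : LinearMap.BilinForm F V} (hD : D.Nondegenerate)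
    (hDs : ∀ x y, D x y = D y x) (r : ι → V)
    (hnd : ∀ c : ι → F, (∀ j, ∑ i, c i * D (r i) (r j) = 0) → c = 0) :
    LinearIndependent F r ∧ IsCompl (Submodule.span F (Set.range r)) (D.orthogonal (Submodule.span F (Set.range r))) ∧
      (D.restrict (D.orthogonal (Submodule.span F (Set.range r)))).Nondegenerate := by
  classical
  have hli : LinearIndependent F r := by
    rw [Fintype.linearIndependent_iff]
    intro c hc
    have : c = 0 := by
      apply hnd
      intro j
      have h1 : D (∑ i, c i • r i) (r j) = 0 := by rw [hc]; simp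
      rw [map_sum, LinearMap.sum_apply] at h1
      rw [← h1]
      apply Finset.sum_congr rfl
      intro i _
      rw [map_smul, LinearMap.smul_apply, smul_eq_mul]
    intro i
    rw [this]; rfl
  have hrefl : D.IsRefl := by
    intro x y h
    rw [hDs]; exact h
  have hnd1 : ∀ x ∈ Submodule.span F (Set.range r), (∀ y ∈ Submodule.span F (Set.range r), D x y = 0) → x = 0 := by
    intro x hx h
    obtain ⟨c, rfl⟩ := (Submodule.mem_span_range_iff_exists_fun F).mp hx
    have : c = 0 := by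
      apply hnd
      intro j
      have h1 := h (r j) (Submodule.subset_span ⟨j, rfl⟩)
      rw [map_sum, LinearMap.sum_apply] at h1
      rw [← h1]
      apply Finset.sum_congr rfl
      intro i _
      rw [map_smul, LinearMap.smul_apply, smul_eq_mul]
    rw [this]
    simp
  have hndP : (D.restrict (Submodule.span F (Set.range r))).Nondegenerate := by
    constructor
    · rintro ⟨x, hx⟩ h
      exact Subtype.ext (hnd1 x hx (fun y hy => h ⟨y, hy⟩))
    · rintro ⟨x, hx⟩ h
      exact Subtype.ext (hnd1 x hx (fun y hy => (hDs x y).trans (h ⟨y, hy⟩)))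
  have hcompl := LinearMap.BilinForm.isCompl_orthogonal_of_restrict_nondegenerate hrefl hndP
  refine ⟨hli, hcompl, ?_⟩
  have hnd2 : ∀ x ∈ D.orthogonal (Submodule.span F (Set.range r)), (∀ y ∈ D.orthogonal (Submodule.span F (Set.range r)), D x y = 0) → x = 0 := by
    intro x hx h
    apply hD.1
    intro y
    have hy : y ∈ Submodule.span F (Set.range r) ⊔ D.orthogonal (Submodule.span F (Set.range r)) := by
      rw [hcompl.sup_eq_top]; trivial
    obtain ⟨a, ha, b, hb, rfl⟩ := Submodule.mem_sup.mp hy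
    rw [map_add, h b hb, add_zero, hDs]
    exact hx a ha
  constructor
  · rintro ⟨x, hx⟩ h
    exact Subtype.ext (hnd2 x hx (fun y hy => h ⟨y, hy⟩))
  · rintro ⟨x, hx⟩ h
    exact Subtype.ext (hnd2 x hx (fun y hy => (hDs x y).trans (h ⟨y, hy⟩)))

theorem iso_of_fam {ι : Type*} [Fintype ι] [DecidableEq ι] {B : LinearMap.BilinForm F V} {C : LinearMap.BilinForm F W}
    (hB : B.Nondegenerate) (hC : C.Nondegenerate) (hBs : ∀ x y, B x y = B y x) (hCs : ∀ x y, C x y = C y x)
    (p : ι → V) (p' : ι → W) (hG : ∀ i j, C (p' i) (p' j) = B (p i) (p j))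
    (hnd : ∀ c : ι → F, (∀ j, ∑ i, c i * B (p i) (p j) = 0) → c = 0)
    (halt : ∀ x, (∀ i, B (p i) x = 0) → B x x = 0) (halt' : ∀ x, (∀ i, C (p' i) x = 0) → C x x = 0)
    (hd : finrank F V = finrank F W) : ∃ k : V ≃ₗ[F] W, (∀ x y, C (k x) (k y) = B x y) ∧ ∀ i, k (p i) = p' i := by
  classical
  obtain ⟨hl1, hc1, hn1⟩ := key hB hBs p hnd
  obtain ⟨hl2, hc2, hn2⟩ := key hC hCs p' (by
    intro c hc
    apply hnd
    intro j
    rw [← hc j]
    exact Finset.sum_congr rfl (fun i _ => by rw [hG]))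
  set P := Submodule.span F (Set.range p) with hP
  set P' := Submodule.span F (Set.range p') with hP'
  have ha1 : (B.restrict (B.orthogonal P)).IsAlt := by
    rintro ⟨x, hx⟩
    exact halt x (fun i => hx _ (Submodule.subset_span ⟨i, rfl⟩))
  have ha2 : (C.restrict (C.orthogonal P')).IsAlt := by
    rintro ⟨x, hx⟩
    exact halt' x (fun i => hx _ (Submodule.subset_span ⟨i, rfl⟩))
  have hdim : finrank F (B.orthogonal P) = finrank F (C.orthogonal P') := by
    have e1 := Submodule.finrank_add_eq_of_isCompl hc1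
    have e2 := Submodule.finrank_add_eq_of_isCompl hc2
    have e3 : finrank F P = Fintype.card ι := finrank_span_eq_card hl1
    have e4 : finrank F P' = Fintype.card ι := finrank_span_eq_card hl2
    omega
  obtain ⟨ψ, hψ⟩ := alt_iso hn1 hn2 ha1 ha2 hdim
  let bP := Basis.span hl1
  let bP' := Basis.span hl2
  let φ : P ≃ₗ[F] P' := bP.equiv bP' (Equiv.refl ι)
  have hbP : ∀ i, (bP i : V) = p i := fun i => congrArg Subtype.val (Basis.span_apply hl1 i)
  have hbP' : ∀ i, (bP' i : W) = p' i := fun i => congrArg Subtype.val (Basis.span_apply hl2 i)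
  have hφb : ∀ i, φ (bP i) = bP' i := fun i => by
    show bP.equiv bP' (Equiv.refl ι) (bP i) = _
    rw [Basis.equiv_apply]; rfl
  have hφ : ∀ x y : P, C (φ x : W) (φ y : W) = B (x : V) (y : V) := by
    have h1 : (C.restrict P').comp φ.toLinearMap φ.toLinearMap = B.restrict P := by
      apply LinearMap.BilinForm.ext_basis bP
      intro i j
      show C (φ (bP i) : W) (φ (bP j) : W) = B (bP i : V) (bP j : V)
      rw [hφb, hφb, hbP, hbP, hbP', hbP', hG]
    intro x y
    exact congrArg (fun z : LinearMap.BilinForm F P => z x y) h1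
  have hc2' : IsCompl P' (C.orthogonal P') := hc2
  let k : V ≃ₗ[F] W := (Submodule.prodEquivOfIsCompl _ _ hc1).symm.trans ((φ.prodCongr ψ).trans (Submodule.prodEquivOfIsCompl _ _ hc2'))
  have hk : ∀ (x : P) (y : B.orthogonal P), k ((x : V) + (y : V)) = (φ x : W) + (ψ y : W) := by
    intro x y
    show (Submodule.prodEquivOfIsCompl _ _ hc2') ((φ.prodCongr ψ) ((Submodule.prodEquivOfIsCompl _ _ hc1).symm ((x : V) + (y : V)))) = _
    have h1 : (Submodule.prodEquivOfIsCompl _ _ hc1).symm ((x : V) + (y : V)) = (x, y) := by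
      rw [LinearEquiv.symm_apply_eq]; rfl
    rw [h1]
    rfl
  refine ⟨k, ?_, ?_⟩
  · intro x y
    have hx : x ∈ P ⊔ B.orthogonal P := by rw [hc1.sup_eq_top]; trivial
    have hy : y ∈ P ⊔ B.orthogonal P := by rw [hc1.sup_eq_top]; trivial
    obtain ⟨a, ha, b, hb, rfl⟩ := Submodule.mem_sup.mp hx
    obtain ⟨a', ha', b', hb', rfl⟩ := Submodule.mem_sup.mp hy
    have e1 := hk ⟨a, ha⟩ ⟨b, hb⟩
    have e2 := hk ⟨a', ha'⟩ ⟨b', hb'⟩
    dsimp only at e1 e2
    rw [e1, e2]
    simp only [map_add, LinearMap.add_apply]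
    rw [hφ]
    have e3 : C (ψ ⟨b, hb⟩ : W) (ψ ⟨b', hb'⟩ : W) = B b b' := hψ ⟨b, hb⟩ ⟨b', hb'⟩
    have e4 : C (φ ⟨a, ha⟩ : W) (ψ ⟨b', hb'⟩ : W) = 0 := (ψ ⟨b', hb'⟩).2 _ (φ ⟨a, ha⟩).2
    have e5 : C (ψ ⟨b, hb⟩ : W) (φ ⟨a', ha'⟩ : W) = 0 := (hCs _ _).trans ((ψ ⟨b, hb⟩).2 _ (φ ⟨a', ha'⟩).2)
    have e6 : B a b' = 0 := hb' _ ha
    have e7 : B b a' = 0 := (hBs _ _).trans (hb _ ha')
    rw [e3, e4, e5, e6, e7]
  · intro i
    have h1 : p i ∈ P := Submodule.subset_span ⟨i, rfl⟩
    have h2 := hk ⟨p i, h1⟩ 0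
    have h3 : (⟨p i, h1⟩ : P) = bP i := Subtype.ext (hbP i).symm
    rw [map_zero, ZeroMemClass.coe_zero, ZeroMemClass.coe_zero, add_zero, add_zero, h3, hφb, hbP'] at h2
    rw [← hbP i]
    exact h2

variable [Finite F] [CharP F 2]

theorem exists_sqrt (F : Type*) [Field F] [Finite F] [CharP F 2] : ∃ s : F ≃+* F, ∀ a, s a ^ 2 = a := by
  have hb : Function.Bijective (frobenius F 2) := (Finite.injective_iff_bijective.mp (frobenius_inj F 2))
  refine ⟨(RingEquiv.ofBijective (frobenius F 2) hb).symm, fun a => ?_⟩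
  exact (RingEquiv.ofBijective (frobenius F 2) hb).apply_symm_apply a

/-- the square root of the quadratic map -/
theorem exists_lam (B : LinearMap.BilinForm F V) (hBs : ∀ x y, B x y = B y x) : ∃ l : V →ₗ[F] F, ∀ x, l x ^ 2 = B x x := by
  obtain ⟨s, hs⟩ := exists_sqrt F
  refine ⟨{ toFun := fun x => s (B x x), map_add' := ?_, map_smul' := ?_ }, fun x => hs _⟩
  · intro x y
    have e : B (x + y) (x + y) = B x x + B y y := by
      simp only [map_add, LinearMap.add_apply]
      rw [hBs y x]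
      linear_combination (CharTwo.add_self_eq_zero (B x y))
    rw [e, map_add]
  · intro a x
    have h1 : s (a ^ 2) = a := by
      have h2 : s (a ^ 2) ^ 2 = a ^ 2 := hs _
      have h3 : frobenius F 2 (s (a ^ 2)) = frobenius F 2 a := h2
      exact frobenius_inj F 2 h3
    have e : B (a • x) (a • x) = a ^ 2 * B x x := by
      simp only [map_smul, LinearMap.smul_apply, smul_eq_mul]; ring
    rw [e, map_mul, h1]
    rfl

theorem exists_z {B : LinearMap.BilinForm F V} (hB : B.Nondegenerate) (hBs : ∀ x y, B x y = B y x) :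
    ∃ z, ∀ x, B z x ^ 2 = B x x := by
  obtain ⟨l, hl⟩ := exists_lam B hBs
  refine ⟨(B.toDual hB).symm l, fun x => ?_⟩
  rw [LinearMap.BilinForm.apply_toDual_symm_apply, hl]

theorem even_of_alt {B : LinearMap.BilinForm F V} (hB : B.Nondegenerate) (hA : B.IsAlt) : Even (finrank F V) := by
  obtain ⟨m, b, _⟩ := Alt.exists_basis_of_nondegenerate B hA hB
  have e1 := finrank_eq_card_basis b
  rw [Fintype.card_sum, Fintype.card_fin] at e1
  exact ⟨m, e1⟩

theorem fam_parity {ι : Type*} [Fintype ι] [DecidableEq ι] {D : LinearMap.BilinForm F V} (hD : D.Nondegenerate)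
    (hDs : ∀ x y, D x y = D y x) (r : ι → V)
    (hnd : ∀ c : ι → F, (∀ j, ∑ i, c i * D (r i) (r j) = 0) → c = 0) (halt : ∀ x, (∀ i, D (r i) x = 0) → D x x = 0) :
    ∃ e, Even e ∧ finrank F V = Fintype.card ι + e := by
  obtain ⟨hl1, hc1, hn1⟩ := key hD hDs r hnd
  refine ⟨_, even_of_alt hn1 ?_, ?_⟩
  · rintro ⟨x, hx⟩
    exact halt x (fun i => hx _ (Submodule.subset_span ⟨i, rfl⟩))
  · have e1 := Submodule.finrank_add_eq_of_isCompl hc1
    have e3 : finrank F (Submodule.span F (Set.range r)) = Fintype.card ι := finrank_span_eq_card hl1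
    omega

theorem exists_fam {B : LinearMap.BilinForm F V} (hB : B.Nondegenerate) (hBs : ∀ x y, B x y = B y x) (hna : ∃ x, B x x ≠ 0) :
    ∃ z, (∀ x, B z x ^ 2 = B x x) ∧ (B z z = 1 ∨ B z z = 0 ∧ ∃ y, B z y = 1) := by
  obtain ⟨z, hz⟩ := exists_z hB hBs
  refine ⟨z, hz, ?_⟩
  have h1 := hz z
  have h2 : B z z * (B z z - 1) = 0 := by linear_combination h1
  rcases mul_eq_zero.mp h2 with h3 | h3
  · right
    refine ⟨h3, ?_⟩
    obtain ⟨x, hx⟩ := hna
    have h4 : B z x ≠ 0 := by
      intro h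
      apply hx
      rw [← hz, h]; ring
    exact ⟨(B z x)⁻¹ • x, by rw [map_smul, smul_eq_mul, inv_mul_cancel₀ h4]⟩
  · left
    exact sub_eq_zero.mp h3

theorem nd_one {B : LinearMap.BilinForm F V} {z : V} (h : B z z = 1) :
    ∀ c : Fin 1 → F, (∀ j, ∑ i, c i * B ((![z] : Fin 1 → V) i) ((![z] : Fin 1 → V) j) = 0) → c = 0 := by
  intro c hc
  have := hc 0
  rw [Fin.sum_univ_one] at this
  have h1 : c 0 * B z z = 0 := this
  rw [h, mul_one] at h1
  funext i
  fin_cases i
  exact h1

theorem nd_two {B : LinearMap.BilinForm F V} (hBs : ∀ x y, B x y = B y x) {z y : V} (h : B z z = 0) (hy : B z y = 1) (hyy : B y y = 1) :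
    ∀ c : Fin 2 → F, (∀ j, ∑ i, c i * B ((![z, y] : Fin 2 → V) i) ((![z, y] : Fin 2 → V) j) = 0) → c = 0 := by
  intro c hc
  have h1 := hc 0
  have h2 := hc 1
  rw [Fin.sum_univ_two] at h1 h2
  have h1' : c 0 * B z z + c 1 * B y z = 0 := h1
  have h2' : c 0 * B z y + c 1 * B y y = 0 := h2
  rw [h, hBs y z, hy, mul_zero, zero_add, mul_one] at h1'
  rw [hy, hyy, h1', zero_mul, add_zero, mul_one] at h2'
  funext i
  fin_cases i
  · exact h2'
  · exact h1'

/-- classification of symmetric forms in characteristic two -/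
theorem sym_iso {B : LinearMap.BilinForm F V} {C : LinearMap.BilinForm F W} (hB : B.Nondegenerate) (hC : C.Nondegenerate)
    (hBs : ∀ x y, B x y = B y x) (hCs : ∀ x y, C x y = C y x) (hd : finrank F V = finrank F W)
    (ht : (∀ x, B x x = 0) ↔ (∀ x, C x x = 0)) : ∃ k : V ≃ₗ[F] W, ∀ x y, C (k x) (k y) = B x y := by
  by_cases hA : ∀ x, B x x = 0
  · exact alt_iso hB hC hA (ht.mp hA) hd
  · have hA' : ¬ ∀ x, C x x = 0 := fun h => hA (ht.mpr h)
    push Not at hA hA'
    obtain ⟨z, hz, hzc⟩ := exists_fam hB hBs hA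
    obtain ⟨z', hz', hzc'⟩ := exists_fam hC hCs hA'
    have alt1 : ∀ x, B z x = 0 → B x x = 0 := fun x h => by rw [← hz, h]; ring
    have alt1' : ∀ x, C z' x = 0 → C x x = 0 := fun x h => by rw [← hz', h]; ring
    rcases hzc with h1 | ⟨h1, y, hy⟩
    · obtain ⟨e, he, hee⟩ := fam_parity hB hBs ![z] (nd_one h1) (fun x hx => alt1 x (hx 0))
      rcases hzc' with h1' | ⟨h1', y', hy'⟩
      · obtain ⟨k, hk, _⟩ := iso_of_fam hB hC hBs hCs ![z] ![z'] (by
          intro i j
          fin_cases i; fin_cases j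
          exact h1'.trans h1.symm) (nd_one h1) (fun x hx => alt1 x (hx 0)) (fun x hx => alt1' x (hx 0)) hd
        exact ⟨k, hk⟩
      · exfalso
        have hyy' : C y' y' = 1 := by rw [← hz', hy']; ring
        obtain ⟨e', he', hee'⟩ := fam_parity hC hCs ![z', y'] (nd_two hCs h1' hy' hyy') (fun x hx => alt1' x (hx 0))
        rw [Fintype.card_fin] at hee hee'
        obtain ⟨a, ha⟩ := he
        obtain ⟨b, hb⟩ := he'
        omega
    · have hyy : B y y = 1 := by rw [← hz, hy]; ring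
      obtain ⟨e, he, hee⟩ := fam_parity hB hBs ![z, y] (nd_two hBs h1 hy hyy) (fun x hx => alt1 x (hx 0))
      rcases hzc' with h1' | ⟨h1', y', hy'⟩
      · exfalso
        obtain ⟨e', he', hee'⟩ := fam_parity hC hCs ![z'] (nd_one h1') (fun x hx => alt1' x (hx 0))
        rw [Fintype.card_fin] at hee hee'
        obtain ⟨a, ha⟩ := he
        obtain ⟨b, hb⟩ := he'
        omega
      · have hyy' : C y' y' = 1 := by rw [← hz', hy']; ring
        obtain ⟨k, hk, _⟩ := iso_of_fam hB hC hBs hCs ![z, y] ![z', y'] (by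
          intro i j
          fin_cases i <;> fin_cases j
          · exact h1'.trans h1.symm
          · exact hy'.trans hy.symm
          · exact ((hCs _ _).trans hy').trans ((hBs _ _).trans hy).symm
          · exact hyy'.trans hyy.symm) (nd_two hBs h1 hy hyy) (fun x hx => alt1 x (hx 0)) (fun x hx => alt1' x (hx 0)) hd
        exact ⟨k, hk⟩

end

end Cfsg.Agent.Lib.Sc
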