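import Mathlib
import Cfsg.Agent.Lib.Sc1

/-! Involutions of symplectic groups in characteristic two. -/

set_option linter.all false
set_option maxHeartbeats 1000000

namespace Cfsg.Agent.Lib.Sc

open Matrix Module Cfsg.Agent.Lib.Symp Cfsg.Agent.Lib.Tis

variable {F : Type*} [Field F] {m : ℕ}

/-- `t - 1` as a linear map -/
def Nt (t : Matrix.symplecticGroup (Fin m) F) : (Fin m ⊕ Fin m → F) →ₗ[F] (Fin m ⊕ Fin m → F) :=
  Matrix.mulVecLin ((t : Matrix (Fin m ⊕ Fin m) (Fin m ⊕ Fin m) F) - 1)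

theorem Nt_apply (t : Matrix.symplecticGroup (Fin m) F) (x : Fin m ⊕ Fin m → F) :
    Nt t x = (t : Matrix (Fin m ⊕ Fin m) (Fin m ⊕ Fin m) F) *ᵥ x - x := by
  show ((t : Matrix (Fin m ⊕ Fin m) (Fin m ⊕ Fin m) F) - 1) *ᵥ x = _
  rw [Matrix.sub_mulVec, Matrix.one_mulVec]

theorem f_sub_left (u v w : Fin m ⊕ Fin m → F) : Cfsg.sympForm m F (u - v) w = Cfsg.sympForm m F u w - Cfsg.sympForm m F v w := by
  rw [sub_eq_add_neg, sympForm_add_left, ← neg_one_smul F v, sympForm_smul_left]; ring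

theorem f_sub_right (u v w : Fin m ⊕ Fin m → F) : Cfsg.sympForm m F w (u - v) = Cfsg.sympForm m F w u - Cfsg.sympForm m F w v := by
  rw [sub_eq_add_neg, sympForm_add_right, ← neg_one_smul F v, sympForm_smul_right]; ring

theorem tt {t : Matrix.symplecticGroup (Fin m) F} (ht : t * t = 1) (x : Fin m ⊕ Fin m → F) :
    (t : Matrix (Fin m ⊕ Fin m) (Fin m ⊕ Fin m) F) *ᵥ ((t : Matrix (Fin m ⊕ Fin m) (Fin m ⊕ Fin m) F) *ᵥ x) = x := by
  rw [← mul_mulVec, ht, one_mulVec']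

theorem adj {t : Matrix.symplecticGroup (Fin m) F} (ht : t * t = 1) (u v : Fin m ⊕ Fin m → F) :
    Cfsg.sympForm m F (Nt t u) v = Cfsg.sympForm m F u (Nt t v) := by
  rw [Nt_apply, Nt_apply, f_sub_left, f_sub_right, ← preserves t (_) v, tt ht]

/-- the form attached to an involution -/
def bt (t : Matrix.symplecticGroup (Fin m) F) : LinearMap.BilinForm F (Fin m ⊕ Fin m → F) :=
  (sympBilin m F).compRight (Nt t)

theorem bt_apply (t : Matrix.symplecticGroup (Fin m) F) (x y : Fin m ⊕ Fin m → F) : bt t x y = Cfsg.sympForm m F x (Nt t y) := rfl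

theorem f_ext {u v : Fin m ⊕ Fin m → F} (h : ∀ x, Cfsg.sympForm m F u x = Cfsg.sympForm m F v x) : u = v := by
  rw [← sub_eq_zero]
  apply eq_zero_of_forall_sympForm
  intro x
  rw [sympForm_swap, f_sub_left, h, sub_self, neg_zero]

theorem bt_self (t : Matrix.symplecticGroup (Fin m) F) (x : Fin m ⊕ Fin m → F) :
    bt t x x = Cfsg.sympForm m F x ((t : Matrix (Fin m ⊕ Fin m) (Fin m ⊕ Fin m) F) *ᵥ x) := by
  rw [bt_apply, Nt_apply, f_sub_right, sympForm_self, sub_zero]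

variable [CharP F 2]

theorem NN {t : Matrix.symplecticGroup (Fin m) F} (ht : t * t = 1) (x : Fin m ⊕ Fin m → F) : Nt t (Nt t x) = 0 := by
  rw [Nt_apply t (Nt t x), Nt_apply, Matrix.mulVec_sub, tt ht]
  have h2 : ∀ y : Fin m ⊕ Fin m → F, y + y = 0 := fun y => funext fun i => CharTwo.add_self_eq_zero (y i)
  have e : x - (t : Matrix (Fin m ⊕ Fin m) (Fin m ⊕ Fin m) F) *ᵥ x - ((t : Matrix (Fin m ⊕ Fin m) (Fin m ⊕ Fin m) F) *ᵥ x - x) =
      (x + x) - ((t : Matrix (Fin m ⊕ Fin m) (Fin m ⊕ Fin m) F) *ᵥ x + (t : Matrix (Fin m ⊕ Fin m) (Fin m ⊕ Fin m) F) *ᵥ x) := by abel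
  rw [e, h2, h2, sub_zero]

theorem bt_symm {t : Matrix.symplecticGroup (Fin m) F} (ht : t * t = 1) (x y : Fin m ⊕ Fin m → F) : bt t x y = bt t y x := by
  rw [bt_apply, bt_apply, ← adj ht y x, sympForm_swap, CharTwo.neg_eq]

theorem restrict_nd {t : Matrix.symplecticGroup (Fin m) F} (ht : t * t = 1) {U : Submodule F (Fin m ⊕ Fin m → F)}
    (hU : IsCompl (LinearMap.ker (Nt t)) U) : ((bt t).restrict U).Nondegenerate := by
  have h1 : ∀ x ∈ U, (∀ y ∈ U, bt t x y = 0) → x = 0 := by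
    intro x hx h
    have h2 : Nt t x = 0 := by
      apply f_ext
      intro y
      have hy : y ∈ LinearMap.ker (Nt t) ⊔ U := by rw [hU.sup_eq_top]; trivial
      obtain ⟨a, ha, b, hb, rfl⟩ := Submodule.mem_sup.mp hy
      have e0 : Cfsg.sympForm m F (0 : Fin m ⊕ Fin m → F) (a + b) = 0 := by
        have := sympForm_smul_left (0 : F) (0 : Fin m ⊕ Fin m → F) (a + b)
        simpa using this
      rw [e0, adj ht, map_add, (ha : Nt t a = 0), zero_add]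
      exact h b hb
    have h3 : x ∈ LinearMap.ker (Nt t) ⊓ U := ⟨h2, hx⟩
    rw [hU.inf_eq_bot] at h3
    exact h3
  constructor
  · rintro ⟨x, hx⟩ h
    exact Subtype.ext (h1 x hx (fun y hy => h ⟨y, hy⟩))
  · rintro ⟨x, hx⟩ h
    exact Subtype.ext (h1 x hx (fun y hy => (bt_symm ht x y).trans (h ⟨y, hy⟩)))

theorem conj_of_iso {t t' : Matrix.symplecticGroup (Fin m) F} (ht : t * t = 1) (ht' : t' * t' = 1) {U U' : Submodule F (Fin m ⊕ Fin m → F)}
    (hU : IsCompl (LinearMap.ker (Nt t)) U) (hU' : IsCompl (LinearMap.ker (Nt t')) U') (φ : U ≃ₗ[F] U')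
    (hφ : ∀ x y : U, bt t' (φ x : Fin m ⊕ Fin m → F) (φ y : Fin m ⊕ Fin m → F) = bt t (x : Fin m ⊕ Fin m → F) (y : Fin m ⊕ Fin m → F)) :
    ∃ g : Matrix.symplecticGroup (Fin m) F, g * t * g⁻¹ = t' := by
  classical
  let b := Module.finBasis F U
  have hli : ∀ (s : Matrix.symplecticGroup (Fin m) F) (X : Submodule F (Fin m ⊕ Fin m → F)) (hX : IsCompl (LinearMap.ker (Nt s)) X)
      (c : Fin (finrank F U) → X) (hc : LinearIndependent F c), LinearIndependent F (fun i => Nt s (c i : Fin m ⊕ Fin m → F)) := by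
    intro s X hX c hc
    have h1 : LinearMap.ker ((Nt s).comp X.subtype) = ⊥ := by
      rw [LinearMap.ker_eq_bot']
      rintro ⟨x, hx⟩ h
      have h3 : x ∈ LinearMap.ker (Nt s) ⊓ X := ⟨h, hx⟩
      rw [hX.inf_eq_bot] at h3
      exact Subtype.ext h3
    exact hc.map' _ h1
  have hl1 := hli t U hU b b.linearIndependent
  have hl2 := hli t' U' hU' (fun i => φ (b i)) (b.linearIndependent.map' (φ : U →ₗ[F] U') (LinearEquiv.ker φ))
  have hiso : ∀ (s : Matrix.symplecticGroup (Fin m) F) (hs : s * s = 1) (x y : Fin m ⊕ Fin m → F), Cfsg.sympForm m F (Nt s x) (Nt s y) = 0 := by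
    intro s hs x y
    rw [adj hs, NN hs]
    have := sympForm_smul_right (0 : F) x (0 : Fin m ⊕ Fin m → F)
    simpa using this
  obtain ⟨g, hg⟩ := frames _ _ _ hl1 hl2 (fun i j => hiso t ht _ _) (fun i j => hiso t' ht' _ _)
  have hgN : ∀ x : U, (g : Matrix (Fin m ⊕ Fin m) (Fin m ⊕ Fin m) F) *ᵥ (Nt t (x : Fin m ⊕ Fin m → F)) = Nt t' (φ x : Fin m ⊕ Fin m → F) := by
    have h1 : (Matrix.mulVecLin (g : Matrix (Fin m ⊕ Fin m) (Fin m ⊕ Fin m) F)).comp ((Nt t).comp U.subtype) =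
        (Nt t').comp (U'.subtype.comp (φ : U →ₗ[F] U')) := by
      apply b.ext
      intro i
      exact hg i
    intro x
    exact congrArg (fun z : U →ₗ[F] (Fin m ⊕ Fin m → F) => z x) h1
  have hdec : ∀ v : Fin m ⊕ Fin m → F, ∃ u : U, Nt t v = Nt t (u : Fin m ⊕ Fin m → F) := by
    intro v
    have hy : v ∈ LinearMap.ker (Nt t) ⊔ U := by rw [hU.sup_eq_top]; trivial
    obtain ⟨a, ha, b, hb, rfl⟩ := Submodule.mem_sup.mp hy
    exact ⟨⟨b, hb⟩, by rw [map_add, (ha : Nt t a = 0), zero_add]⟩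
  have hdec' : ∀ v : Fin m ⊕ Fin m → F, ∃ u : U, Nt t' v = Nt t' (φ u : Fin m ⊕ Fin m → F) := by
    intro v
    have hy : v ∈ LinearMap.ker (Nt t') ⊔ U' := by rw [hU'.sup_eq_top]; trivial
    obtain ⟨a, ha, b, hb, rfl⟩ := Submodule.mem_sup.mp hy
    refine ⟨φ.symm ⟨b, hb⟩, ?_⟩
    rw [LinearEquiv.apply_symm_apply, map_add, (ha : Nt t' a = 0), zero_add]
  have key : ∀ v, Nt t' ((g : Matrix (Fin m ⊕ Fin m) (Fin m ⊕ Fin m) F) *ᵥ v) = (g : Matrix (Fin m ⊕ Fin m) (Fin m ⊕ Fin m) F) *ᵥ (Nt t v) := by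
    intro v
    obtain ⟨u, hu⟩ := hdec v
    rw [hu, hgN]
    apply f_ext
    intro x
    obtain ⟨w, hw⟩ := hdec' x
    rw [adj ht', adj ht', hw, ← hgN w, preserves, ← adj ht v, hu, adj ht, hgN w]
    exact (hφ u w).symm
  refine ⟨g, ?_⟩
  rw [mul_inv_eq_iff_eq_mul]
  apply Subtype.ext
  apply Matrix.mulVec_injective
  funext v
  show ((g * t : Matrix.symplecticGroup (Fin m) F) : Matrix (Fin m ⊕ Fin m) (Fin m ⊕ Fin m) F) *ᵥ v = ((t' * g : Matrix.symplecticGroup (Fin m) F) : Matrix (Fin m ⊕ Fin m) (Fin m ⊕ Fin m) F) *ᵥ v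
  rw [mul_mulVec, mul_mulVec]
  have h1 := key v
  rw [Nt_apply, Nt_apply, Matrix.mulVec_sub] at h1
  exact (sub_left_injective h1).symm

theorem finrank_U {t : Matrix.symplecticGroup (Fin m) F} {U : Submodule F (Fin m ⊕ Fin m → F)}
    (hU : IsCompl (LinearMap.ker (Nt t)) U) : finrank F U = ((t : Matrix (Fin m ⊕ Fin m) (Fin m ⊕ Fin m) F) - 1).rank := by
  have h1 := Submodule.finrank_add_eq_of_isCompl hU
  have h2 := (Nt t).finrank_range_add_finrank_ker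
  have h3 : ((t : Matrix (Fin m ⊕ Fin m) (Fin m ⊕ Fin m) F) - 1).rank = finrank F (LinearMap.range (Nt t)) := rfl
  omega

theorem alt_iff {t : Matrix.symplecticGroup (Fin m) F} (ht : t * t = 1) {U : Submodule F (Fin m ⊕ Fin m → F)}
    (hU : IsCompl (LinearMap.ker (Nt t)) U) : (∀ x : U, (bt t).restrict U x x = 0) ↔
      ∀ v, Cfsg.sympForm m F v ((t : Matrix (Fin m ⊕ Fin m) (Fin m ⊕ Fin m) F) *ᵥ v) = 0 := by
  constructor
  · intro h v
    rw [← bt_self]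
    have hy : v ∈ LinearMap.ker (Nt t) ⊔ U := by rw [hU.sup_eq_top]; trivial
    obtain ⟨a, ha, b, hb, rfl⟩ := Submodule.mem_sup.mp hy
    have h1 : bt t (a + b) (a + b) = bt t b b := by
      rw [bt_apply, bt_apply, map_add, (ha : Nt t a = 0), zero_add, sympForm_add_left, ← adj ht a b, (ha : Nt t a = 0)]
      have := sympForm_smul_left (0 : F) (0 : Fin m ⊕ Fin m → F) b
      rw [zero_smul, zero_mul] at this
      rw [this, zero_add]
    rw [h1]
    exact h ⟨b, hb⟩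
  · intro h x
    have := h (x : Fin m ⊕ Fin m → F)
    rw [← bt_self] at this
    exact this

theorem even_rank [Finite F] {t : Matrix.symplecticGroup (Fin m) F} (ht : t * t = 1)
    (h : ∀ v, Cfsg.sympForm m F v ((t : Matrix (Fin m ⊕ Fin m) (Fin m ⊕ Fin m) F) *ᵥ v) = 0) :
    Even ((t : Matrix (Fin m ⊕ Fin m) (Fin m ⊕ Fin m) F) - 1).rank := by
  obtain ⟨U, hU⟩ := Submodule.exists_isCompl (LinearMap.ker (Nt t))
  rw [← finrank_U hU]
  exact even_of_alt (restrict_nd ht hU) ((alt_iff ht hU).mpr h)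

theorem card_Vt [Fintype F] {t : Matrix.symplecticGroup (Fin m) F} (ht : t * t = 1) :
    ((∀ v, Cfsg.sympForm m F v ((t : Matrix (Fin m ⊕ Fin m) (Fin m ⊕ Fin m) F) *ᵥ v) = 0) ∧
      Nat.card {v : Fin m ⊕ Fin m → F // Cfsg.sympForm m F v ((t : Matrix (Fin m ⊕ Fin m) (Fin m ⊕ Fin m) F) *ᵥ v) = 0} = Fintype.card F ^ (2 * m)) ∨
    ((¬ ∀ v, Cfsg.sympForm m F v ((t : Matrix (Fin m ⊕ Fin m) (Fin m ⊕ Fin m) F) *ᵥ v) = 0) ∧
      Nat.card {v : Fin m ⊕ Fin m → F // Cfsg.sympForm m F v ((t : Matrix (Fin m ⊕ Fin m) (Fin m ⊕ Fin m) F) *ᵥ v) = 0} * Fintype.card F = Fintype.card F ^ (2 * m)) := by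
  classical
  have hV : finrank F (Fin m ⊕ Fin m → F) = 2 * m := by
    rw [Module.finrank_fintype_fun_eq_card, Fintype.card_sum, Fintype.card_fin]; ring
  obtain ⟨l, hl⟩ := exists_lam (bt t) (bt_symm ht)
  have h1 : ∀ v, Cfsg.sympForm m F v ((t : Matrix (Fin m ⊕ Fin m) (Fin m ⊕ Fin m) F) *ᵥ v) = 0 ↔ v ∈ LinearMap.ker l := by
    intro v
    rw [← bt_self, ← hl, LinearMap.mem_ker]
    exact pow_eq_zero_iff (by norm_num)
  have h2 : Nat.card {v : Fin m ⊕ Fin m → F // Cfsg.sympForm m F v ((t : Matrix (Fin m ⊕ Fin m) (Fin m ⊕ Fin m) F) *ᵥ v) = 0} = Fintype.card F ^ finrank F (LinearMap.ker l) := by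
    rw [← Nat.card_eq_fintype_card (α := F), ← Module.natCard_eq_pow_finrank (K := F) (V := LinearMap.ker l)]
    exact Nat.card_congr (Equiv.subtypeEquivRight h1)
  rw [h2]
  have h3 := l.finrank_range_add_finrank_ker
  rw [hV] at h3
  by_cases hl0 : l = 0
  · left
    refine ⟨fun v => (h1 v).mpr (by rw [hl0]; rfl), ?_⟩
    rw [hl0, LinearMap.ker_zero, finrank_top, hV]
  · right
    refine ⟨fun h => hl0 (LinearMap.ext fun v => (h1 v).mp (h v)), ?_⟩
    have h4 : LinearMap.range l = ⊤ := LinearMap.range_eq_top.mpr (LinearMap.surjective hl0)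
    rw [h4, finrank_top, Module.finrank_self] at h3
    rw [← pow_succ]
    congr 1
    omega

theorem s2167 [Fintype F] (a : Matrix.symplecticGroup (Fin m) F) (ha : orderOf a = 2) :
    (Nat.card {v : Fin m ⊕ Fin m → F // Cfsg.sympForm m F v (Matrix.mulVec (a : Matrix (Fin m ⊕ Fin m) (Fin m ⊕ Fin m) F) v) = 0} = Fintype.card F ^ (2 * m) ∨ Nat.card {v : Fin m ⊕ Fin m → F // Cfsg.sympForm m F v (Matrix.mulVec (a : Matrix (Fin m ⊕ Fin m) (Fin m ⊕ Fin m) F) v) = 0} * Fintype.card F = Fintype.card F ^ (2 * m)) ∧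
    ((∀ v : Fin m ⊕ Fin m → F, Cfsg.sympForm m F v (Matrix.mulVec (a : Matrix (Fin m ⊕ Fin m) (Fin m ⊕ Fin m) F) v) = 0) → Even ((a : Matrix (Fin m ⊕ Fin m) (Fin m ⊕ Fin m) F) - 1).rank) := by
  have ht : a * a = 1 := by rw [← pow_two, ← ha, pow_orderOf_eq_one]
  refine ⟨?_, even_rank ht⟩
  rcases card_Vt ht with h | h
  · exact Or.inl h.2
  · exact Or.inr h.2

theorem conj_of_type [Fintype F] {a b : Matrix.symplecticGroup (Fin m) F} (ha : a * a = 1) (hb : b * b = 1)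
    (hr : ((a : Matrix (Fin m ⊕ Fin m) (Fin m ⊕ Fin m) F) - 1).rank = ((b : Matrix (Fin m ⊕ Fin m) (Fin m ⊕ Fin m) F) - 1).rank)
    (ht : (∀ v, Cfsg.sympForm m F v ((a : Matrix (Fin m ⊕ Fin m) (Fin m ⊕ Fin m) F) *ᵥ v) = 0) ↔
      ∀ v, Cfsg.sympForm m F v ((b : Matrix (Fin m ⊕ Fin m) (Fin m ⊕ Fin m) F) *ᵥ v) = 0) : IsConj a b := by
  obtain ⟨U, hU⟩ := Submodule.exists_isCompl (LinearMap.ker (Nt a))
  obtain ⟨U', hU'⟩ := Submodule.exists_isCompl (LinearMap.ker (Nt b))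
  have hd : finrank F U = finrank F U' := by rw [finrank_U hU, finrank_U hU', hr]
  obtain ⟨k, hk⟩ := sym_iso (restrict_nd ha hU) (restrict_nd hb hU') (fun x y => bt_symm ha _ _) (fun x y => bt_symm hb _ _) hd
    ((alt_iff ha hU).trans (ht.trans (alt_iff hb hU').symm))
  obtain ⟨g, hg⟩ := conj_of_iso ha hb hU hU' k hk
  exact isConj_iff.mpr ⟨g, hg⟩

omit [CharP F 2] in
theorem conj_rank {a b : Matrix.symplecticGroup (Fin m) F} (h : IsConj a b) :
    ((a : Matrix (Fin m ⊕ Fin m) (Fin m ⊕ Fin m) F) - 1).rank = ((b : Matrix (Fin m ⊕ Fin m) (Fin m ⊕ Fin m) F) - 1).rank := by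
  obtain ⟨g, rfl⟩ := isConj_iff.mp h
  have h1 : (g : Matrix (Fin m ⊕ Fin m) (Fin m ⊕ Fin m) F) * ((g⁻¹ : Matrix.symplecticGroup (Fin m) F) : Matrix (Fin m ⊕ Fin m) (Fin m ⊕ Fin m) F) = 1 := by
    have := congrArg Subtype.val (mul_inv_cancel g)
    exact this
  have h1' : ((g⁻¹ : Matrix.symplecticGroup (Fin m) F) : Matrix (Fin m ⊕ Fin m) (Fin m ⊕ Fin m) F) * (g : Matrix (Fin m ⊕ Fin m) (Fin m ⊕ Fin m) F) = 1 := by
    have := congrArg Subtype.val (inv_mul_cancel g)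
    exact this
  have h2 : ((g * a * g⁻¹ : Matrix.symplecticGroup (Fin m) F) : Matrix (Fin m ⊕ Fin m) (Fin m ⊕ Fin m) F) - 1 =
      (g : Matrix (Fin m ⊕ Fin m) (Fin m ⊕ Fin m) F) * (((a : Matrix (Fin m ⊕ Fin m) (Fin m ⊕ Fin m) F) - 1) * ((g⁻¹ : Matrix.symplecticGroup (Fin m) F) : Matrix (Fin m ⊕ Fin m) (Fin m ⊕ Fin m) F)) := by
    rw [Matrix.sub_mul, Matrix.mul_sub, Matrix.one_mul, h1, ← Matrix.mul_assoc]
    rfl
  have hu : IsUnit (g : Matrix (Fin m ⊕ Fin m) (Fin m ⊕ Fin m) F).det := by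
    have := congrArg Matrix.det h1
    rw [Matrix.det_mul, Matrix.det_one] at this
    exact IsUnit.of_mul_eq_one _ this
  have hu' : IsUnit ((g⁻¹ : Matrix.symplecticGroup (Fin m) F) : Matrix (Fin m ⊕ Fin m) (Fin m ⊕ Fin m) F).det := by
    have := congrArg Matrix.det h1'
    rw [Matrix.det_mul, Matrix.det_one] at this
    exact IsUnit.of_mul_eq_one _ this
  rw [h2, Matrix.rank_mul_eq_right_of_isUnit_det _ _ hu, Matrix.rank_mul_eq_left_of_isUnit_det _ _ hu']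

omit [CharP F 2] in
theorem conj_Vt {a b : Matrix.symplecticGroup (Fin m) F} (h : IsConj a b) :
    Nat.card {v : Fin m ⊕ Fin m → F // Cfsg.sympForm m F v ((a : Matrix (Fin m ⊕ Fin m) (Fin m ⊕ Fin m) F) *ᵥ v) = 0} =
    Nat.card {v : Fin m ⊕ Fin m → F // Cfsg.sympForm m F v ((b : Matrix (Fin m ⊕ Fin m) (Fin m ⊕ Fin m) F) *ᵥ v) = 0} := by
  obtain ⟨g, rfl⟩ := isConj_iff.mp h
  have key : ∀ v, Cfsg.sympForm m F ((g : Matrix (Fin m ⊕ Fin m) (Fin m ⊕ Fin m) F) *ᵥ v)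
      (((g * a * g⁻¹ : Matrix.symplecticGroup (Fin m) F) : Matrix (Fin m ⊕ Fin m) (Fin m ⊕ Fin m) F) *ᵥ ((g : Matrix (Fin m ⊕ Fin m) (Fin m ⊕ Fin m) F) *ᵥ v)) =
      Cfsg.sympForm m F v ((a : Matrix (Fin m ⊕ Fin m) (Fin m ⊕ Fin m) F) *ᵥ v) := by
    intro v
    rw [mul_mulVec, mul_mulVec, inv_mulVec_mulVec, preserves]
  refine Nat.card_congr
    { toFun := fun v => ⟨(g : Matrix (Fin m ⊕ Fin m) (Fin m ⊕ Fin m) F) *ᵥ v.1, (key v.1).trans v.2⟩
      invFun := fun w => ⟨((g⁻¹ : Matrix.symplecticGroup (Fin m) F) : Matrix (Fin m ⊕ Fin m) (Fin m ⊕ Fin m) F) *ᵥ w.1, ?_⟩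
      left_inv := fun v => Subtype.ext (inv_mulVec_mulVec g v.1)
      right_inv := fun w => Subtype.ext (mulVec_inv_mulVec g w.1) }
  have := key (((g⁻¹ : Matrix.symplecticGroup (Fin m) F) : Matrix (Fin m ⊕ Fin m) (Fin m ⊕ Fin m) F) *ᵥ w.1)
  rw [mulVec_inv_mulVec] at this
  rw [← this]
  exact w.2

theorem s2166 [Fintype F] (a b : Matrix.symplecticGroup (Fin m) F) (ha : orderOf a = 2) (hb : orderOf b = 2) :
    IsConj a b ↔ (((a : Matrix (Fin m ⊕ Fin m) (Fin m ⊕ Fin m) F) - 1).rank = ((b : Matrix (Fin m ⊕ Fin m) (Fin m ⊕ Fin m) F) - 1).rank ∧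
      (Even ((a : Matrix (Fin m ⊕ Fin m) (Fin m ⊕ Fin m) F) - 1).rank → Nat.card {v : Fin m ⊕ Fin m → F // Cfsg.sympForm m F v (Matrix.mulVec (a : Matrix (Fin m ⊕ Fin m) (Fin m ⊕ Fin m) F) v) = 0} = Nat.card {v : Fin m ⊕ Fin m → F // Cfsg.sympForm m F v (Matrix.mulVec (b : Matrix (Fin m ⊕ Fin m) (Fin m ⊕ Fin m) F) v) = 0})) := by
  have ha' : a * a = 1 := by rw [← pow_two, ← ha, pow_orderOf_eq_one]
  have hb' : b * b = 1 := by rw [← pow_two, ← hb, pow_orderOf_eq_one]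
  have hq : 1 < Fintype.card F := Fintype.one_lt_card
  constructor
  · intro h
    exact ⟨conj_rank h, fun _ => conj_Vt h⟩
  · rintro ⟨hr, hV⟩
    apply conj_of_type ha' hb' hr
    by_cases he : Even ((a : Matrix (Fin m ⊕ Fin m) (Fin m ⊕ Fin m) F) - 1).rank
    · have h1 := hV he
      have hpos : 0 < Fintype.card F ^ (2 * m) := Nat.pow_pos (by omega)
      rcases card_Vt ha' with h2 | h2 <;> rcases card_Vt hb' with h3 | h3
      · exact ⟨fun _ => h3.1, fun _ => h2.1⟩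
      · exfalso
        have e1 := h3.2
        rw [← h1, h2.2] at e1
        nlinarith
      · exfalso
        have e1 := h2.2
        rw [h1, h3.2] at e1
        nlinarith
      · exact ⟨fun h => absurd h h2.1, fun h => absurd h h3.1⟩
    · constructor
      · intro h
        exact absurd (even_rank ha' h) he
      · intro h
        exact absurd (hr ▸ even_rank hb' h) he

end Cfsg.Agent.Lib.Sc
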