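import Mathlib

/-!
# Second maximal subgroups
-/

set_option autoImplicit false

namespace Cfsg.Agent.Lib.SecMax

open Equiv Equiv.Perm MulAction

variable {G : Type*} [Group G]

lemma coatom_of {H K : Subgroup G} (hne : ∃ k ∈ K, k ∉ H)
    (h : ∀ L : Subgroup G, H ≤ L → L ≤ K → (∃ l ∈ L, l ∉ H) → K ≤ L) (hHK : H ≤ K) : IsCoatom (H.subgroupOf K) := by
  constructor
  · intro htop
    obtain ⟨k, hk, hkH⟩ := hne
    have h1 : (⟨k, hk⟩ : K) ∈ H.subgroupOf K := by rw [htop]; trivial
    exact hkH h1
  · intro L' hL'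
    have h1 := h (L'.map K.subtype) (fun x hx => ⟨⟨x, hHK hx⟩, hL'.le (show (⟨x, hHK hx⟩ : K) ∈ H.subgroupOf K from hx), rfl⟩)
      (by rintro _ ⟨x, _, rfl⟩; exact x.2) (by
        obtain ⟨x, hx, hx2⟩ := SetLike.exists_of_lt hL'
        exact ⟨x, ⟨x, hx, rfl⟩, hx2⟩)
    rw [eq_top_iff]
    intro x _
    obtain ⟨y, hy, hyx⟩ := h1 x.2
    have : y = x := Subtype.ext hyx
    rw [← this]; exact hy

/-- the action of `G` on the cosets of `M` contains the alternating group -/
theorem exists_even [Finite G] {n : ℕ}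
    (hA : ∀ P : Subgroup (Equiv.Perm (Fin n)), MulAction.IsPreprimitive P (Fin n) → alternatingGroup (Fin n) ≤ P)
    {M : Subgroup G} (hM : IsCoatom M) (hn : M.index = n) [Fintype (G ⧸ M)] [DecidableEq (G ⧸ M)] (σ : Perm (G ⧸ M)) (hσ : sign σ = 1) :
    ∃ g : G, ∀ x : G ⧸ M, g • x = σ x := by
  have hcard : Fintype.card (G ⧸ M) = n := by rw [← hn, ← Nat.card_eq_fintype_card]; rfl
  let e : G ⧸ M ≃ Fin n := Fintype.equivFinOfCardEq hcard
  let ψ : G →* Perm (Fin n) := e.permCongrHom.toMonoidHom.comp (MulAction.toPermHom G (G ⧸ M))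
  have hψ : ∀ g x, ψ g (e x) = e (g • x) := by
    intro g x
    show e (g • e.symm (e x)) = e (g • x)
    rw [e.symm_apply_apply]
  have : Nontrivial (G ⧸ M) := by
    rw [← Fintype.one_lt_card_iff_nontrivial, hcard, ← hn]
    have h0 := M.index_ne_zero_of_finite
    have h1 : M.index ≠ 1 := fun h => hM.1 (Subgroup.index_eq_one.1 h)
    omega
  have hprim : IsPreprimitive G (G ⧸ M) := by
    rw [← isCoatom_stabilizer_iff_preprimitive G ((1 : G) : G ⧸ M)]
    have h1 : stabilizer G ((1 : G) : G ⧸ M) = M := stabilizer_quotient M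
    rw [h1]; exact hM
  let f : (G ⧸ M) →ₑ[fun g : G => (⟨ψ g, ⟨g, rfl⟩⟩ : ψ.range)] (Fin n) :=
    { toFun := e
      map_smul' := fun g x => (hψ g x).symm }
  have hprim2 : IsPreprimitive ψ.range (Fin n) := IsPreprimitive.of_surjective (f := f) e.surjective
  obtain ⟨g, hg⟩ := hA _ hprim2 (mem_alternatingGroup.2 (by
    show sign (e.permCongrHom σ) = 1
    exact (sign_permCongr e σ).trans hσ))
  refine ⟨g, fun x => ?_⟩
  apply e.injective
  rw [← hψ, hg]
  show e (σ (e.symm (e x))) = e (σ x)
  rw [e.symm_apply_apply]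

open scoped Pointwise

theorem second_max [Finite G] {n : ℕ} (hodd : Odd n)
    (hA : ∀ P : Subgroup (Equiv.Perm (Fin n)), MulAction.IsPreprimitive P (Fin n) → alternatingGroup (Fin n) ≤ P)
    (M : Subgroup G) (hM : IsCoatom M) (hn : M.index = n) (H : Subgroup G) (hHM : H ≤ M)
    (hmax : IsCoatom (H.subgroupOf M)) (K : Subgroup G) (hK : IsCoatom K) (hHK : H ≤ K) :
    IsCoatom (H.subgroupOf K) := by
  classical
  by_cases hKM : K = M
  · rw [hKM]; exact hmax
  have : Fintype (G ⧸ M) := Fintype.ofFinite _
  have hcard : Nat.card (G ⧸ M) = n := hn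
  have hev := fun σ hσ => exists_even hA hM hn σ hσ
  have hcyc : ∀ u v w : G ⧸ M, u ≠ v → v ≠ w → u ≠ w → ∃ g : G, g • u = v ∧ g • v = w ∧ g • w = u ∧
      ∀ x, x ≠ u → x ≠ v → x ≠ w → g • x = x := by
    intro u v w huv hvw huw
    obtain ⟨g, hg⟩ := hev (swap u v * swap v w) (by rw [map_mul, sign_swap huv, sign_swap hvw]; rfl)
    refine ⟨g, ?_, ?_, ?_, ?_⟩
    · rw [hg, Perm.mul_apply, swap_apply_of_ne_of_ne huv huw, swap_apply_left]
    · rw [hg, Perm.mul_apply, swap_apply_left, swap_apply_of_ne_of_ne huw.symm hvw.symm]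
    · rw [hg, Perm.mul_apply, swap_apply_right, swap_apply_right]
    · intro x h1 h2 h3
      rw [hg, Perm.mul_apply, swap_apply_of_ne_of_ne h2 h3, swap_apply_of_ne_of_ne h1 h2]
  set o : G ⧸ M := ((1 : G) : G ⧸ M) with ho
  have hfix : ∀ g : G, g • o = o ↔ g ∈ M := by
    intro g
    rw [← mem_stabilizer_iff, ho]
    have h1 : stabilizer G ((1 : G) : G ⧸ M) = M := stabilizer_quotient M
    rw [h1]
  -- H = M ⊓ K
  have hcl : ∀ X1 : Subgroup G, H ≤ X1 → X1 ≤ M → X1 ≠ M → X1 ≤ H := by
    intro X1 h1 h2 h3
    have h4 : H.subgroupOf M ≤ X1.subgroupOf M := fun x hx => h1 hx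
    rcases h4.eq_or_lt with h5 | h5
    · intro x hx
      have h6 : (⟨x, h2 hx⟩ : M) ∈ X1.subgroupOf M := hx
      rw [← h5] at h6
      exact h6
    · exfalso
      apply h3
      have h6 := hmax.2 _ h5
      apply le_antisymm h2
      intro x hx
      have h7 : (⟨x, hx⟩ : M) ∈ X1.subgroupOf M := by rw [h6]; trivial
      exact h7
  have hMK : M ⊓ K ≤ H := by
    apply hcl _ (le_inf hHM hHK) inf_le_left
    intro h
    have h1 : M ≤ K := by rw [← h]; exact inf_le_right
    rcases h1.eq_or_lt with h2 | h2
    · exact hKM h2.symm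
    · exact hK.1 (hM.2 _ h2)
  have hKM2 : ¬ K ≤ M := by
    intro h
    rcases h.eq_or_lt with h2 | h2
    · exact hKM h2
    · exact hM.1 (hK.2 _ h2)
  by_cases htr : ∀ x : G ⧸ M, ∃ k ∈ K, k • o = x
  · -- transitive case
    have hpt : IsPretransitive K (G ⧸ M) := by
      constructor
      intro x y
      obtain ⟨k, hk, rfl⟩ := htr x
      obtain ⟨l, hl, rfl⟩ := htr y
      refine ⟨⟨l * k⁻¹, K.mul_mem hl (K.inv_mem hk)⟩, ?_⟩
      show (l * k⁻¹) • k • o = l • o
      rw [← mul_smul, inv_mul_cancel_right]
    have hnt : Nontrivial (G ⧸ M) := by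
      rw [← Finite.one_lt_card_iff_nontrivial, hcard, ← hn]
      have h0 := M.index_ne_zero_of_finite
      have h1 : M.index ≠ 1 := fun h => hM.1 (Subgroup.index_eq_one.1 h)
      omega
    have hprim : IsPreprimitive K (G ⧸ M) := by
      refine IsPreprimitive.of_isTrivialBlock_base o ?_
      intro B hoB hB
      by_contra hcon
      rw [IsTrivialBlock, not_or, Set.not_subsingleton_iff] at hcon
      obtain ⟨hns, hnu⟩ := hcon
      obtain ⟨b, hb, hbo⟩ := hns.exists_ne o
      obtain ⟨c, hc⟩ := (Set.ne_univ_iff_exists_notMem B).1 hnu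
      have hblk : ∀ k ∈ K, ∀ l ∈ K, ∀ x ∈ B, ∀ y ∈ B, k • x = l • y → ∀ z ∈ B, ∃ z' ∈ B, k • z = l • z' := by
        intro k hk l hl x hx y hy hxy z hz
        have h1 := (isBlock_iff_smul_eq_smul_of_nonempty.1 hB) (g₁ := ⟨k, hk⟩) (g₂ := ⟨l, hl⟩)
          ⟨k • x, ⟨x, hx, rfl⟩, ⟨y, hy, hxy.symm⟩⟩
        have h2 : k • z ∈ (⟨k, hk⟩ : K) • B := ⟨z, hz, rfl⟩
        rw [h1] at h2
        obtain ⟨z', hz', h3⟩ := h2
        exact ⟨z', hz', h3.symm⟩
      obtain ⟨k0, hk0, rfl⟩ := htr c
      have hc' : k0 • b ∉ B := by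
        intro h
        obtain ⟨z', hz', h2⟩ := hblk k0 hk0 1 K.one_mem b hb _ h (one_smul _ _).symm o hoB
        rw [one_smul] at h2
        exact hc (h2 ▸ hz')
      have hcc : k0 • o ≠ k0 • b := fun h => hbo (smul_left_cancel k0 h).symm
      obtain ⟨w, hw1, hw2⟩ : ∃ w, w ∉ B ∧ ∀ z ∈ B, w ≠ k0 • z := by
        by_contra hcon
        push Not at hcon
        have h1 : (Set.univ : Set (G ⧸ M)) = B ∪ k0 • B := by
          symm
          apply Set.eq_univ_of_forall
          intro w
          by_cases hw : w ∈ B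
          · exact Or.inl hw
          · obtain ⟨z, hz, h2⟩ := hcon w hw
            exact Or.inr ⟨z, hz, h2.symm⟩
        have h2 : Disjoint B (k0 • B) := by
          rw [Set.disjoint_left]
          rintro x hx ⟨z, hz, hzx⟩
          have hzx' : k0 • z = x := hzx
          obtain ⟨z', hz', h2⟩ := hblk k0 hk0 1 K.one_mem z hz x hx (by rw [one_smul]; exact hzx') o hoB
          rw [one_smul] at h2
          exact hc (h2 ▸ hz')
        have h3 := Set.ncard_union_eq h2 (Set.toFinite _) (Set.toFinite _)
        rw [← h1, Set.ncard_univ, hcard, Set.ncard_smul_set] at h3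
        rcases hodd with ⟨m, hm⟩
        omega
      have hob : o ≠ b := hbo.symm
      have hok : o ≠ k0 • o := fun h => hc (h ▸ hoB)
      have hok' : o ≠ k0 • b := fun h => hc' (h ▸ hoB)
      have hbk : b ≠ k0 • o := fun h => hc (h ▸ hb)
      have hbk' : b ≠ k0 • b := fun h => hc' (h ▸ hb)
      -- the set stabilizer
      let X1 : Subgroup G := M ⊓ stabilizer G B
      have hX1 : X1 ≤ H := by
        apply hcl X1 ?_ inf_le_left ?_
        · intro h hh
          refine ⟨hHM hh, ?_⟩
          show h • B = B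
          have h1 : h • o = o := (hfix h).2 (hHM hh)
          have h1s : (1 : K) • B = B := by
            ext x
            constructor
            · rintro ⟨y, hy, rfl⟩
              have : (1 : K) • y = y := one_smul K y
              show (1 : K) • y ∈ B
              rw [this]; exact hy
            · intro hx
              exact ⟨x, hx, one_smul K x⟩
          have h2 := (isBlock_iff_smul_eq_smul_of_nonempty.1 hB) (g₁ := (⟨h, hHK hh⟩ : K)) (g₂ := (1 : K))
            ⟨o, ⟨o, hoB, h1⟩, ⟨o, hoB, one_smul K o⟩⟩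
          have h3 : (⟨h, hHK hh⟩ : K) • B = B := h2.trans h1s
          exact h3
        · intro h
          obtain ⟨m, hm1, hm2, hm3, hm4⟩ := hcyc b (k0 • o) (k0 • b) hbk hcc hbk'
          have h1 : m ∈ M := (hfix m).1 (hm4 o hob hok hok')
          rw [← h] at h1
          have h2 := mem_stabilizer_iff.1 h1.2
          have h3 : m • b ∈ m • B := ⟨b, hb, rfl⟩
          rw [h2, hm1] at h3
          exact hc h3
      obtain ⟨g, hg1, hg2, hg3, hg4⟩ := hcyc (k0 • o) (k0 • b) w hcc (hw2 b hb).symm (hw2 o hoB).symm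
      have hgB : ∀ x ∈ B, g • x = x := by
        intro x hx
        apply hg4
        · intro h; exact hc (h ▸ hx)
        · intro h; exact hc' (h ▸ hx)
        · intro h; exact hw1 (h ▸ hx)
      have hgX : g ∈ X1 := by
        refine ⟨(hfix g).1 (hgB o hoB), ?_⟩
        show g • B = B
        ext x
        constructor
        · rintro ⟨y, hy, rfl⟩
          show g • y ∈ B
          rw [hgB y hy]; exact hy
        · intro hx
          exact ⟨x, hx, hgB x hx⟩
      have hgK : g ∈ K := hHK (hX1 hgX)
      obtain ⟨z', hz', h3⟩ := hblk (g * k0) (K.mul_mem hgK hk0) k0 hk0 o hoB b hb (by rw [mul_smul, hg1]) b hb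
      rw [mul_smul, hg2] at h3
      exact hw2 z' hz' h3
    have h1 : IsCoatom (stabilizer K o) := IsPreprimitive.isCoatom_stabilizer_of_isPreprimitive K o
    have h2 : stabilizer K o = H.subgroupOf K := by
      ext k
      rw [mem_stabilizer_iff, Subgroup.mem_subgroupOf]
      constructor
      · intro h
        exact hMK ⟨(hfix k).1 h, k.2⟩
      · intro h
        exact (hfix k).2 (hHM h)
    rw [← h2]; exact h1
  · -- intransitive case
    push Not at htr
    obtain ⟨y, hy⟩ := htr
    let Δ : Set (G ⧸ M) := {x | ∃ k ∈ K, k • o = x}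
    have hoΔ : o ∈ Δ := ⟨1, K.one_mem, one_smul _ _⟩
    have hyΔ : y ∉ Δ := fun ⟨k, hk, h⟩ => hy k hk h
    let S : Subgroup G :=
      { carrier := {g | ∀ x, x ∈ Δ ↔ g • x ∈ Δ}
        one_mem' := fun x => by rw [one_smul]
        mul_mem' := fun {a b} ha hb x => by
          rw [mul_smul]
          exact (hb x).trans (ha _)
        inv_mem' := fun {a} ha x => by
          have h := ha (a⁻¹ • x)
          rw [smul_inv_smul] at h
          exact h.symm }
    have hKS : K ≤ S := by
      intro k hk x
      constructor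
      · rintro ⟨l, hl, rfl⟩
        exact ⟨k * l, K.mul_mem hk hl, mul_smul _ _ _⟩
      · rintro ⟨l, hl, h⟩
        exact ⟨k⁻¹ * l, K.mul_mem (K.inv_mem hk) hl, by rw [mul_smul, h, inv_smul_smul]⟩
    have hSK : S ≤ K := by
      rcases hKS.eq_or_lt with h | h
      · exact h.ge
      · exfalso
        have h1 := hK.2 _ h
        obtain ⟨g, hg⟩ := exists_smul_eq G o y
        have h2 : g ∈ S := by rw [h1]; trivial
        have h3 := (h2 o).1 hoΔ
        rw [hg] at h3
        exact hyΔ h3
    refine coatom_of ?_ ?_ hHK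
    · by_contra hcon
      push Not at hcon
      exact hKM2 (fun k hk => hHM (hcon k hk))
    · rintro L hHL hLK ⟨l, hl, hlH⟩ k hk
      have hlo : l • o ≠ o := fun h => hlH (hMK ⟨(hfix l).1 h, hLK hl⟩)
      by_cases hc : k • o = o
      · exact hHL (hMK ⟨(hfix k).1 hc, hk⟩)
      · have key : ∃ h ∈ H, h • (l • o) = k • o := by
          by_cases hbc : l • o = k • o
          · exact ⟨1, H.one_mem, by rw [one_smul, hbc]⟩
          · have hbΔ : l • o ∈ Δ := ⟨l, hLK hl, rfl⟩
            have hcΔ : k • o ∈ Δ := ⟨k, hk, rfl⟩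
            by_cases hex : ∃ d ∈ Δ, d ≠ o ∧ d ≠ l • o ∧ d ≠ k • o
            · obtain ⟨d, hdΔ, hd1, hd2, hd3⟩ := hex
              obtain ⟨g, hg1, hg2, hg3, hg4⟩ := hcyc (l • o) (k • o) d hbc hd3.symm hd2.symm
              have hgo : g • o = o := hg4 o hlo.symm (fun h => hc h.symm) hd1.symm
              have hgS : g ∈ S := by
                intro x
                by_cases h1 : x = l • o
                · rw [h1, hg1]; exact iff_of_true hbΔ hcΔ
                · by_cases h2 : x = k • o
                  · rw [h2, hg2]; exact iff_of_true hcΔ hdΔ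
                  · by_cases h3 : x = d
                    · rw [h3, hg3]; exact iff_of_true hdΔ hbΔ
                    · rw [hg4 x h1 h2 h3]
              exact ⟨g, hMK ⟨(hfix g).1 hgo, hSK hgS⟩, hg1⟩
            · push Not at hex
              have hΔ : Δ = {o, l • o, k • o} := by
                ext x
                constructor
                · intro hx
                  by_cases h1 : x = o
                  · exact Or.inl h1
                  · by_cases h2 : x = l • o
                    · exact Or.inr (Or.inl h2)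
                    · exact Or.inr (Or.inr (hex x hx h1 h2))
                · rintro (rfl | rfl | rfl)
                  · exact hoΔ
                  · exact hbΔ
                  · exact hcΔ
              have hΔ3 : Δ.ncard = 3 := by
                rw [hΔ]
                exact Set.ncard_eq_three.2 ⟨o, l • o, k • o, hlo.symm, fun h => hc h.symm, hbc, rfl⟩
              obtain ⟨y', hy'Δ, hyy⟩ : ∃ y', y' ∉ Δ ∧ y' ≠ y := by
                by_contra hcon
                push Not at hcon
                have h1 : Δᶜ = {y} := by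
                  ext x
                  constructor
                  · intro hx; exact hcon x hx
                  · intro hx
                    rw [Set.mem_singleton_iff] at hx
                    rw [hx]; exact hyΔ
                have h2 := Set.ncard_add_ncard_compl Δ
                rw [h1, hΔ3, Set.ncard_singleton, hcard] at h2
                rcases hodd with ⟨m, hm⟩
                omega
              obtain ⟨g, hg⟩ := hev (swap (l • o) (k • o) * swap y y') (by
                rw [map_mul, sign_swap hbc, sign_swap hyy.symm]; rfl)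
              have n1 : ∀ x ∈ Δ, x ≠ y := fun x hx h => hyΔ (h ▸ hx)
              have n2 : ∀ x ∈ Δ, x ≠ y' := fun x hx h => hy'Δ (h ▸ hx)
              have hgo : g • o = o := by
                rw [hg, Perm.mul_apply, swap_apply_of_ne_of_ne (n1 o hoΔ) (n2 o hoΔ), swap_apply_of_ne_of_ne hlo.symm (fun h => hc h.symm)]
              have hgb : g • (l • o) = k • o := by
                rw [hg, Perm.mul_apply, swap_apply_of_ne_of_ne (n1 _ hbΔ) (n2 _ hbΔ), swap_apply_left]
              have hgc : g • (k • o) = l • o := by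
                rw [hg, Perm.mul_apply, swap_apply_of_ne_of_ne (n1 _ hcΔ) (n2 _ hcΔ), swap_apply_right]
              have hgS : g ∈ S := by
                intro x
                by_cases h1 : x = l • o
                · rw [h1, hgb]; exact iff_of_true hbΔ hcΔ
                · by_cases h2 : x = k • o
                  · rw [h2, hgc]; exact iff_of_true hcΔ hbΔ
                  · by_cases h3 : x = y
                    · have h4 : g • y = y' := by
                        rw [hg, Perm.mul_apply, swap_apply_left, swap_apply_of_ne_of_ne (n2 _ hbΔ).symm (n2 _ hcΔ).symm]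
                      rw [h3, h4]; exact iff_of_false hyΔ hy'Δ
                    · by_cases h5 : x = y'
                      · have h4 : g • y' = y := by
                          rw [hg, Perm.mul_apply, swap_apply_right, swap_apply_of_ne_of_ne (n1 _ hbΔ).symm (n1 _ hcΔ).symm]
                        rw [h5, h4]; exact iff_of_false hy'Δ hyΔ
                      · rw [hg x, Perm.mul_apply, swap_apply_of_ne_of_ne h3 h5, swap_apply_of_ne_of_ne h1 h2]
              exact ⟨g, hMK ⟨(hfix g).1 hgo, hSK hgS⟩, hgb⟩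
        obtain ⟨h, hh, hk2⟩ := key
        have h1 : ((h * l)⁻¹ * k) • o = o := by
          rw [mul_smul, inv_smul_eq_iff, mul_smul, hk2]
        have h2 : (h * l)⁻¹ * k ∈ H := hMK ⟨(hfix _).1 h1, K.mul_mem (K.inv_mem (K.mul_mem (hHK hh) (hLK hl))) hk⟩
        have h3 : k = (h * l) * ((h * l)⁻¹ * k) := by group
        rw [h3]
        exact L.mul_mem (L.mul_mem (hHL hh) hl) (hHL h2)

end Cfsg.Agent.Lib.SecMax
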