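import Mathlib

/-! Split extensions, diagonal involutions. -/

set_option linter.all false
set_option maxHeartbeats 400000

namespace Cfsg.Agent.Lib.Spc

theorem s2516 {F : Type*} [Field F] (p : ℕ) [hp : Fact p.Prime] [CharP F p] {V : Type*} [AddCommGroup V] [Module F V] [FiniteDimensional F V] [Nontrivial V]
    {G : Type*} [Group G] [Finite G] (ρ : Representation F G V) (g : G) :
    (∃ x : Multiplicative V ⋊[(MulAutMultiplicative V).symm.toMonoidHom.comp
        ((DistribMulAction.toAddAut ((V →ₗ[F] V)ˣ) V).comp ρ.asGroupHom)] G,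
        x.right = g ∧ orderOf x = p * orderOf g) ↔
      ¬ (minpoly F (ρ g) ∣ ∑ i ∈ Finset.range (orderOf g), (Polynomial.X : Polynomial F) ^ i) := by
  classical
  set φ := (MulAutMultiplicative V).symm.toMonoidHom.comp ((DistribMulAction.toAddAut ((V →ₗ[F] V)ˣ) V).comp ρ.asGroupHom) with hφ
  have hφa : ∀ (h : G) (v : V), φ h (Multiplicative.ofAdd v) = Multiplicative.ofAdd (ρ h v) := fun h v => rfl
  let N : V →ₗ[F] V := ∑ i ∈ Finset.range (orderOf g), (ρ g) ^ i
  have hk : 0 < orderOf g := orderOf_pos g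
  have hpow : ∀ (v : V) (n : ℕ), (⟨Multiplicative.ofAdd v, g⟩ : Multiplicative V ⋊[φ] G) ^ n =
      ⟨Multiplicative.ofAdd ((∑ i ∈ Finset.range n, (ρ g) ^ i : V →ₗ[F] V) v), g ^ n⟩ := by
    intro v n
    induction n with
    | zero =>
      rw [pow_zero, pow_zero, Finset.range_zero, Finset.sum_empty, LinearMap.zero_apply]
      rfl
    | succ n ih =>
      rw [pow_succ, ih]
      apply SemidirectProduct.ext
      · show Multiplicative.ofAdd ((∑ i ∈ Finset.range n, (ρ g) ^ i : V →ₗ[F] V) v) * φ (g ^ n) (Multiplicative.ofAdd v) = _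
        rw [hφa, ← ofAdd_add, Finset.sum_range_succ, LinearMap.add_apply, map_pow]
      · show g ^ n * g = g ^ (n + 1)
        rw [pow_succ]
  have hdvd : ∀ v : V, orderOf g ∣ orderOf (⟨Multiplicative.ofAdd v, g⟩ : Multiplicative V ⋊[φ] G) := by
    intro v
    exact orderOf_map_dvd (SemidirectProduct.rightHom : Multiplicative V ⋊[φ] G →* G) ⟨Multiplicative.ofAdd v, g⟩
  have hkpow : ∀ v : V, (⟨Multiplicative.ofAdd v, g⟩ : Multiplicative V ⋊[φ] G) ^ orderOf g = SemidirectProduct.inl (Multiplicative.ofAdd (N v)) := by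
    intro v
    rw [hpow, pow_orderOf_eq_one]
    rfl
  have h1 : (minpoly F (ρ g) ∣ ∑ i ∈ Finset.range (orderOf g), (Polynomial.X : Polynomial F) ^ i) ↔ N = 0 := by
    rw [minpoly.dvd_iff, map_sum]
    simp only [map_pow, Polynomial.aeval_X]
    rfl
  rw [h1]
  constructor
  · rintro ⟨x, hx, hord⟩ hN
    obtain ⟨v, rfl⟩ : ∃ v : V, x = ⟨Multiplicative.ofAdd v, g⟩ := ⟨Multiplicative.toAdd x.left, by rw [← hx]; rfl⟩
    have h2 := hkpow v
    rw [hN, LinearMap.zero_apply, ofAdd_zero, map_one] at h2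
    have h3 := orderOf_dvd_of_pow_eq_one h2
    rw [hord] at h3
    have h4 := Nat.le_of_dvd hk h3
    have h5 := hp.out.two_le
    nlinarith
  · intro hN
    obtain ⟨v, hv⟩ : ∃ v, N v ≠ 0 := by
      by_contra hcon
      push Not at hcon
      exact hN (LinearMap.ext hcon)
    refine ⟨⟨Multiplicative.ofAdd v, g⟩, rfl, ?_⟩
    have h2 : orderOf ((⟨Multiplicative.ofAdd v, g⟩ : Multiplicative V ⋊[φ] G) ^ orderOf g) = p := by
      rw [hkpow]
      apply orderOf_eq_prime
      · rw [← map_pow, ← ofAdd_nsmul]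
        have : (p : ℕ) • N v = 0 := by
          rw [← Nat.cast_smul_eq_nsmul F, CharP.cast_eq_zero, zero_smul]
        rw [this, ofAdd_zero, map_one]
      · intro h3
        rw [← map_one (SemidirectProduct.inl : Multiplicative V →* Multiplicative V ⋊[φ] G)] at h3
        have h4 := SemidirectProduct.inl_injective h3
        exact hv h4
    rw [orderOf_pow_of_dvd hk.ne' (hdvd v)] at h2
    rw [← h2]
    exact (Nat.div_mul_cancel (hdvd v)).symm

theorem neg_one_ne {F : Type*} [Field F] [Fintype F] {q : ℕ} (hF : Fintype.card F = q) (hq : Odd q) : (-1 : F) ≠ 1 := by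
  intro h
  have h2 : (2 : F) = 0 := by linear_combination -h
  have h3 : CharP F 2 := CharTwo.of_one_ne_zero_of_two_eq_zero one_ne_zero h2
  have := FiniteField.even_card_of_char_two (F := F) (ringChar.eq F 2 |>.symm ▸ rfl)
  rw [hF] at this
  have := Nat.odd_iff.mp hq
  omega

end Cfsg.Agent.Lib.Spc
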