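import Mathlib
import Cfsg.Prelude.Def_Classical
import Cfsg.Prelude.Def_Sporadic

/-! Cubes in the orders of alternating and sporadic groups; spectra of powers. -/

set_option linter.all false
set_option maxHeartbeats 400000

namespace Cfsg.Agent.Lib.Spc

open scoped Nat

def PL : List ℕ := [2, 3, 5, 7, 11, 13, 17, 19, 23, 29, 31, 37, 41, 43, 47, 53, 59, 61, 67, 71]

theorem PL_prime : ∀ x ∈ PL, x.Prime := by
  intro x hx
  simp only [PL, List.mem_cons, List.not_mem_nil, or_false] at hx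
  rcases hx with rfl | rfl | rfl | rfl | rfl | rfl | rfl | rfl | rfl | rfl | rfl | rfl | rfl | rfl | rfl | rfl | rfl | rfl | rfl | rfl <;> norm_num

theorem chk (L : List (ℕ × ℕ)) (a N : ℕ) (hN : (L.map (fun x => x.1 ^ x.2)).prod = N) (hL : ∀ x ∈ L, x.1 ∈ PL)
    (hc : ∀ x ∈ L, x.1 = 2 ∨ N % x.1 ^ 4 = 0 ∨ N % x.1 ^ 3 ≠ 0 ∨ x.1 ^ 3 < 2 ^ a) (h0 : N ≠ 0) (h2 : N % 2 ^ a = 0)
    (p : ℕ) (hp : p.Prime) (hodd : p ≠ 2) (h3 : N.factorization p = 3) : p ^ 3 < 2 ^ N.factorization 2 := by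
  have h4 : p ^ 3 ∣ N := (hp.pow_dvd_iff_le_factorization h0).mpr h3.ge
  have h5 : ¬ p ^ 4 ∣ N := by
    rw [hp.pow_dvd_iff_le_factorization h0, h3]
    norm_num
  have h6 : p ∣ N := (dvd_pow_self p (by norm_num)).trans h4
  rw [← hN, hp.prime.dvd_prod_iff] at h6
  obtain ⟨y, hy, hpy⟩ := h6
  obtain ⟨x, hx, rfl⟩ := List.mem_map.mp hy
  have h7 : p = x.1 := (Nat.prime_dvd_prime_iff_eq hp (PL_prime _ (hL x hx))).mp (hp.dvd_of_dvd_pow hpy)
  have h8 : 2 ^ a ≤ 2 ^ N.factorization 2 := by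
    apply Nat.pow_le_pow_right (by norm_num)
    exact (Nat.prime_two.pow_dvd_iff_le_factorization h0).mp (Nat.dvd_of_mod_eq_zero h2)
  rcases hc x hx with h | h | h | h
  · exact absurd (h7.trans h) hodd
  · exact absurd (h7 ▸ Nat.dvd_of_mod_eq_zero h) h5
  · exact absurd (h7 ▸ Nat.mod_eq_zero_of_dvd (h7 ▸ h4)) h
  · exact (h7 ▸ h).trans_le h8

theorem two_pow_gt {p : ℕ} (hp : 5 ≤ p) : p ^ 3 < 2 ^ (2 * p - 1) := by
  induction p, hp using Nat.le_induction with
  | base => norm_num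
  | succ p hp ih =>
    have h1 : 2 ^ (2 * (p + 1) - 1) = 4 * 2 ^ (2 * p - 1) := by
      rw [show 2 * (p + 1) - 1 = 2 + (2 * p - 1) by omega, pow_add]
      norm_num
    rw [h1]
    have h2 : (p + 1) ^ 3 ≤ 4 * p ^ 3 := by nlinarith [pow_two_nonneg p, Nat.pow_le_pow_left hp 2, Nat.pow_le_pow_left hp 3]
    omega

theorem alt_case {n p : ℕ} (hn : 5 ≤ n) (hp : p.Prime) (hodd : p ≠ 2) {N : ℕ} (hN : 2 * N = n !) (h3 : N.factorization p = 3) :
    p ^ 3 < 2 ^ N.factorization 2 := by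
  haveI : Fact p.Prime := ⟨hp⟩
  have hfac : n ! ≠ 0 := Nat.factorial_ne_zero n
  have hN0 : N ≠ 0 := by rintro rfl; rw [mul_zero] at hN; exact hfac hN.symm
  have hf : ∀ r, (n !).factorization r = (Nat.factorization 2) r + N.factorization r := by
    intro r
    rw [← hN, Nat.factorization_mul (by norm_num) hN0]
    rfl
  have hp3 : (n !).factorization p = 3 := by
    rw [hf, h3, Nat.Prime.factorization Nat.prime_two, Finsupp.single_eq_of_ne hodd]
  have h2f : (n !).factorization 2 = 1 + N.factorization 2 := by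
    rw [hf, Nat.Prime.factorization_self Nat.prime_two]
  -- p ≠ 3
  have hp5 : 5 ≤ p := by
    have h1 := hp.two_le
    by_contra hcon
    have h4 : p = 3 := by
      rcases (show p = 2 ∨ p = 3 ∨ p = 4 by omega) with h | h | h
      · exact absurd h hodd
      · exact h
      · rw [h] at hp; exact absurd hp (by norm_num)
    subst h4
    rcases Nat.lt_or_ge n 9 with h5 | h5
    · have h6 : 3 ^ 3 ∣ n ! := (hp.pow_dvd_iff_le_factorization hfac).mpr hp3.ge
      have h7 : 3 ^ 3 ∣ 8 ! := h6.trans (Nat.factorial_dvd_factorial (by omega))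
      revert h7
      decide
    · have h6 : 3 ^ 4 ∣ n ! := (by decide : 3 ^ 4 ∣ 9 !).trans (Nat.factorial_dvd_factorial h5)
      have h7 := (hp.pow_dvd_iff_le_factorization hfac).mp h6
      omega
  have h3p : 3 * p ≤ n := by
    by_contra hcon
    push Not at hcon
    have hlog : Nat.log p n < 2 := by
      apply Nat.log_lt_of_lt_pow (by omega)
      nlinarith
    have h4 := padicValNat_factorial (p := p) hlog
    rw [Finset.sum_Ico_succ_top (by norm_num), Finset.Ico_self, Finset.sum_empty, zero_add, pow_one, ← Nat.factorization_def _ hp, hp3] at h4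
    have h5 : n / p < 3 := Nat.div_lt_of_lt_mul (by omega)
    omega
  have h2n : n / 2 + n / 4 ≤ (n !).factorization 2 := by
    have hlog : Nat.log 2 n < Nat.log 2 n + 1 := Nat.lt_succ_self _
    have h4 := padicValNat_factorial (p := 2) hlog
    rw [Nat.factorization_def _ Nat.prime_two, h4]
    have h5 : 2 ≤ Nat.log 2 n := by
      rw [Nat.le_log_iff_pow_le (by norm_num) (by omega)]
      omega
    have h6 : Finset.Ico 1 3 ⊆ Finset.Ico 1 (Nat.log 2 n + 1) := Finset.Ico_subset_Ico_right (by omega)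
    refine le_trans (le_of_eq ?_) (Finset.sum_le_sum_of_subset h6)
    rw [Finset.sum_Ico_succ_top (by norm_num), Finset.sum_Ico_succ_top (by norm_num), Finset.Ico_self, Finset.sum_empty, zero_add, pow_one]
    norm_num
  have h5 := two_pow_gt hp5
  refine h5.trans_le (Nat.pow_le_pow_right (by norm_num) ?_)
  omega

theorem s2367 {G : Type*} [Group G] [Finite G] (hG : Cfsg.IsAlternating G ∨ Cfsg.IsSporadic G)
    (p : ℕ) (hp : p.Prime) (hodd : p ≠ 2) (h3 : (Nat.card G).factorization p = 3) :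
    p ^ 3 < 2 ^ (Nat.card G).factorization 2 := by
  rcases hG with ⟨n, hn, ⟨e⟩⟩ | h
  · refine alt_case hn hp hodd ?_ h3
    haveI : Nontrivial (Fin n) := Fin.nontrivial_iff_two_le.mpr (by omega)
    rw [Nat.card_congr e.toEquiv, two_mul_nat_card_alternatingGroup, Nat.card_perm, Nat.card_eq_fintype_card, Fintype.card_fin]
  rcases h with h | h | h | h | h | h | h | h | h | h | h | h | h | h | h | h | h | h | h | h | h | h | h | h | h | h
  · rw [h.2] at h3 ⊢
    exact chk [(2, 4), (3, 2), (5, 1), (11, 1)] 4 _ (by decide +kernel) (by decide +kernel) (by decide +kernel) (by decide +kernel) (by decide +kernel) p hp hodd h3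
  · rw [h.2] at h3 ⊢
    exact chk [(2, 6), (3, 3), (5, 1), (11, 1)] 6 _ (by decide +kernel) (by decide +kernel) (by decide +kernel) (by decide +kernel) (by decide +kernel) p hp hodd h3
  · rw [h.2] at h3 ⊢
    exact chk [(2, 7), (3, 2), (5, 1), (7, 1), (11, 1)] 7 _ (by decide +kernel) (by decide +kernel) (by decide +kernel) (by decide +kernel) (by decide +kernel) p hp hodd h3
  · rw [h.2] at h3 ⊢
    exact chk [(2, 7), (3, 2), (5, 1), (7, 1), (11, 1), (23, 1)] 7 _ (by decide +kernel) (by decide +kernel) (by decide +kernel) (by decide +kernel) (by decide +kernel) p hp hodd h3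
  · rw [h.2] at h3 ⊢
    exact chk [(2, 10), (3, 3), (5, 1), (7, 1), (11, 1), (23, 1)] 10 _ (by decide +kernel) (by decide +kernel) (by decide +kernel) (by decide +kernel) (by decide +kernel) p hp hodd h3
  · rw [h.2] at h3 ⊢
    exact chk [(2, 3), (3, 1), (5, 1), (7, 1), (11, 1), (19, 1)] 3 _ (by decide +kernel) (by decide +kernel) (by decide +kernel) (by decide +kernel) (by decide +kernel) p hp hodd h3
  · rw [h.2] at h3 ⊢
    exact chk [(2, 7), (3, 3), (5, 2), (7, 1)] 7 _ (by decide +kernel) (by decide +kernel) (by decide +kernel) (by decide +kernel) (by decide +kernel) p hp hodd h3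
  · rw [h.2] at h3 ⊢
    exact chk [(2, 7), (3, 5), (5, 1), (17, 1), (19, 1)] 7 _ (by decide +kernel) (by decide +kernel) (by decide +kernel) (by decide +kernel) (by decide +kernel) p hp hodd h3
  · rw [h.2] at h3 ⊢
    exact chk [(2, 21), (3, 3), (5, 1), (7, 1), (11, 3), (23, 1), (29, 1), (31, 1), (37, 1), (43, 1)] 21 _ (by decide +kernel) (by decide +kernel) (by decide +kernel) (by decide +kernel) (by decide +kernel) p hp hodd h3
  · rw [h.2] at h3 ⊢
    exact chk [(2, 21), (3, 9), (5, 4), (7, 2), (11, 1), (13, 1), (23, 1)] 21 _ (by decide +kernel) (by decide +kernel) (by decide +kernel) (by decide +kernel) (by decide +kernel) p hp hodd h3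
  · rw [h.2] at h3 ⊢
    exact chk [(2, 18), (3, 6), (5, 3), (7, 1), (11, 1), (23, 1)] 18 _ (by decide +kernel) (by decide +kernel) (by decide +kernel) (by decide +kernel) (by decide +kernel) p hp hodd h3
  · rw [h.2] at h3 ⊢
    exact chk [(2, 10), (3, 7), (5, 3), (7, 1), (11, 1), (23, 1)] 10 _ (by decide +kernel) (by decide +kernel) (by decide +kernel) (by decide +kernel) (by decide +kernel) p hp hodd h3
  · rw [h.2] at h3 ⊢
    exact chk [(2, 17), (3, 9), (5, 2), (7, 1), (11, 1), (13, 1)] 17 _ (by decide +kernel) (by decide +kernel) (by decide +kernel) (by decide +kernel) (by decide +kernel) p hp hodd h3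
  · rw [h.2] at h3 ⊢
    exact chk [(2, 18), (3, 13), (5, 2), (7, 1), (11, 1), (13, 1), (17, 1), (23, 1)] 18 _ (by decide +kernel) (by decide +kernel) (by decide +kernel) (by decide +kernel) (by decide +kernel) p hp hodd h3
  · rw [h.2] at h3 ⊢
    exact chk [(2, 21), (3, 16), (5, 2), (7, 3), (11, 1), (13, 1), (17, 1), (23, 1), (29, 1)] 21 _ (by decide +kernel) (by decide +kernel) (by decide +kernel) (by decide +kernel) (by decide +kernel) p hp hodd h3
  · rw [h.2] at h3 ⊢
    exact chk [(2, 9), (3, 2), (5, 3), (7, 1), (11, 1)] 9 _ (by decide +kernel) (by decide +kernel) (by decide +kernel) (by decide +kernel) (by decide +kernel) p hp hodd h3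
  · rw [h.2] at h3 ⊢
    exact chk [(2, 7), (3, 6), (5, 3), (7, 1), (11, 1)] 7 _ (by decide +kernel) (by decide +kernel) (by decide +kernel) (by decide +kernel) (by decide +kernel) p hp hodd h3
  · rw [h.2] at h3 ⊢
    exact chk [(2, 10), (3, 3), (5, 2), (7, 3), (17, 1)] 10 _ (by decide +kernel) (by decide +kernel) (by decide +kernel) (by decide +kernel) (by decide +kernel) p hp hodd h3
  · rw [h.2] at h3 ⊢
    exact chk [(2, 14), (3, 3), (5, 3), (7, 1), (13, 1), (29, 1)] 14 _ (by decide +kernel) (by decide +kernel) (by decide +kernel) (by decide +kernel) (by decide +kernel) p hp hodd h3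
  · rw [h.2] at h3 ⊢
    exact chk [(2, 13), (3, 7), (5, 2), (7, 1), (11, 1), (13, 1)] 13 _ (by decide +kernel) (by decide +kernel) (by decide +kernel) (by decide +kernel) (by decide +kernel) p hp hodd h3
  · rw [h.2] at h3 ⊢
    exact chk [(2, 9), (3, 4), (5, 1), (7, 3), (11, 1), (19, 1), (31, 1)] 9 _ (by decide +kernel) (by decide +kernel) (by decide +kernel) (by decide +kernel) (by decide +kernel) p hp hodd h3
  · rw [h.2] at h3 ⊢
    exact chk [(2, 14), (3, 6), (5, 6), (7, 1), (11, 1), (19, 1)] 14 _ (by decide +kernel) (by decide +kernel) (by decide +kernel) (by decide +kernel) (by decide +kernel) p hp hodd h3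
  · rw [h.2] at h3 ⊢
    exact chk [(2, 8), (3, 7), (5, 6), (7, 1), (11, 1), (31, 1), (37, 1), (67, 1)] 8 _ (by decide +kernel) (by decide +kernel) (by decide +kernel) (by decide +kernel) (by decide +kernel) p hp hodd h3
  · rw [h.2] at h3 ⊢
    exact chk [(2, 15), (3, 10), (5, 3), (7, 2), (13, 1), (19, 1), (31, 1)] 15 _ (by decide +kernel) (by decide +kernel) (by decide +kernel) (by decide +kernel) (by decide +kernel) p hp hodd h3
  · rw [h.2] at h3 ⊢
    exact chk [(2, 41), (3, 13), (5, 6), (7, 2), (11, 1), (13, 1), (17, 1), (19, 1), (23, 1), (31, 1), (47, 1)] 41 _ (by decide +kernel) (by decide +kernel) (by decide +kernel) (by decide +kernel) (by decide +kernel) p hp hodd h3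
  · rw [h.2] at h3 ⊢
    exact chk [(2, 46), (3, 20), (5, 9), (7, 6), (11, 2), (13, 3), (17, 1), (19, 1), (23, 1), (29, 1), (31, 1), (41, 1), (47, 1), (59, 1), (71, 1)] 46 _ (by decide +kernel) (by decide +kernel) (by decide +kernel) (by decide +kernel) (by decide +kernel) p hp hodd h3

theorem closed {X : Type*} [Group X] [Finite X] {n m : ℕ} (hn : n ∈ Set.range (orderOf : X → ℕ)) (hm : m ∣ n) : m ∈ Set.range (orderOf : X → ℕ) := by
  obtain ⟨g, rfl⟩ := hn
  obtain ⟨c, hc⟩ := hm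
  refine ⟨g ^ c, ?_⟩
  have hpos := orderOf_pos g
  have hc0 : c ≠ 0 := by rintro rfl; omega
  rw [orderOf_pow_of_dvd hc0 ⟨m, by rw [hc, mul_comm]⟩, hc, Nat.mul_div_cancel _ (Nat.pos_of_ne_zero hc0)]

theorem maxi {X : Type*} [Group X] [Finite X] {n : ℕ} (hn : n ∈ Set.range (orderOf : X → ℕ)) :
    ∃ M, (M ∈ Set.range (orderOf : X → ℕ) ∧ ∀ m ∈ Set.range (orderOf : X → ℕ), M ∣ m → m = M) ∧ n ∣ M := by
  have hfin : {m : ℕ | m ∈ Set.range (orderOf : X → ℕ) ∧ n ∣ m}.Finite := (Set.finite_range _).subset (fun m hm => hm.1)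
  obtain ⟨M, ⟨hM1, hM2⟩, hM3⟩ := hfin.exists_maximal ⟨n, hn, dvd_rfl⟩
  refine ⟨M, ⟨hM1, ?_⟩, hM2⟩
  intro m hm hMm
  have hpos : 0 < m := by obtain ⟨g, rfl⟩ := hm; exact orderOf_pos g
  exact le_antisymm (hM3 ⟨hm, hM2.trans hMm⟩ (Nat.le_of_dvd hpos hMm)) (Nat.le_of_dvd hpos hMm)

theorem s2514 {G H : Type*} [Group G] [Finite G] [Group H] [Finite H] (k : ℕ) (hk : 1 ≤ k)
    (hsub : {n : ℕ | n ∈ Set.range (orderOf : H → ℕ) ∧ ∀ m ∈ Set.range (orderOf : H → ℕ), n ∣ m → m = n} ⊆ {n : ℕ | n ∈ Set.range (orderOf : G → ℕ) ∧ ∀ m ∈ Set.range (orderOf : G → ℕ), n ∣ m → m = n})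
    (hfew : ({n : ℕ | n ∈ Set.range (orderOf : G → ℕ) ∧ ∀ m ∈ Set.range (orderOf : G → ℕ), n ∣ m → m = n} \ {n : ℕ | n ∈ Set.range (orderOf : H → ℕ) ∧ ∀ m ∈ Set.range (orderOf : H → ℕ), n ∣ m → m = n}).ncard < k) :
    Set.range (orderOf : (Fin k → G) → ℕ) = Set.range (orderOf : (Fin (k - 1) → G) × H → ℕ) := by
  classical
  obtain ⟨k', rfl⟩ : ∃ k', k = k' + 1 := ⟨k - 1, by omega⟩
  show Set.range (orderOf : (Fin (k' + 1) → G) → ℕ) = Set.range (orderOf : (Fin k' → G) × H → ℕ)
  set μG := {n : ℕ | n ∈ Set.range (orderOf : G → ℕ) ∧ ∀ m ∈ Set.range (orderOf : G → ℕ), n ∣ m → m = n} with hμG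
  set μH := {n : ℕ | n ∈ Set.range (orderOf : H → ℕ) ∧ ∀ m ∈ Set.range (orderOf : H → ℕ), n ∣ m → m = n} with hμH
  have closedG : ∀ {n m : ℕ}, n ∈ Set.range (orderOf : G → ℕ) → m ∣ n → m ∈ Set.range (orderOf : G → ℕ) := fun {n m} => closed
  have hpi : ∀ {n : ℕ} (x : Fin n → G) (j : ℕ), x ^ j = 1 ↔ ∀ i, orderOf (x i) ∣ j := by
    intro n x j
    rw [funext_iff]
    simp only [Pi.pow_apply, Pi.one_apply, orderOf_dvd_iff_pow_eq_one]
  have hprod : ∀ (y : Fin k' → G) (h : H) (j : ℕ), (y, h) ^ j = 1 ↔ (∀ i, orderOf (y i) ∣ j) ∧ orderOf h ∣ j := by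
    intro y h j
    rw [Prod.pow_mk, Prod.mk_eq_one, hpi, orderOf_dvd_iff_pow_eq_one]
  ext n
  constructor
  · rintro ⟨x, rfl⟩
    by_cases hcase : ∃ i0, orderOf (x i0) ∈ Set.range (orderOf : H → ℕ)
    · obtain ⟨i0, h, hh⟩ := hcase
      refine ⟨(fun i => x (i0.succAbove i), h), ?_⟩
      rw [orderOf_eq_orderOf_iff]
      intro j
      rw [hprod, hpi, Fin.forall_iff_succAbove i0, hh, and_comm]
    · push Not at hcase
      have h1 : ∀ i, ∃ M, (M ∈ μG \ μH) ∧ orderOf (x i) ∣ M := by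
        intro i
        obtain ⟨M, hM1, hM2⟩ := maxi (X := G) (n := orderOf (x i)) ⟨x i, rfl⟩
        refine ⟨M, ⟨hM1, fun hM3 => ?_⟩, hM2⟩
        exact hcase i (closed hM3.1 hM2)
      choose M hM1 hM2 using h1
      have hfin : (μG \ μH).Finite := ((Set.finite_range _).subset (fun m hm => hm.1)).subset Set.diff_subset
      obtain ⟨i1, -, i2, -, h12, hM12⟩ := Finset.exists_ne_map_eq_of_card_lt_of_maps_to (s := (Finset.univ : Finset (Fin (k' + 1)))) (t := hfin.toFinset)
        (f := M) (by rw [← Set.ncard_eq_toFinset_card _ hfin, Finset.card_univ, Fintype.card_fin]; exact hfew) (fun i _ => by simpa using hM1 i)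
      have hL : Nat.lcm (orderOf (x i1)) (orderOf (x i2)) ∈ Set.range (orderOf : G → ℕ) :=
        closedG (hM1 i1).1.1 (Nat.lcm_dvd (hM2 i1) (hM12 ▸ hM2 i2))
      obtain ⟨z, hz⟩ := hL
      refine ⟨(fun i => Function.update x i2 z (i1.succAbove i), 1), ?_⟩
      rw [orderOf_eq_orderOf_iff]
      intro j
      rw [hprod, hpi, Fin.forall_iff_succAbove i1, orderOf_one]
      obtain ⟨i', hi'⟩ := Fin.exists_succAbove_eq (x := i2) (y := i1) h12.symm
      constructor
      · rintro ⟨h3, -⟩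
        have h4 := h3 i'
        rw [hi', Function.update_self, hz] at h4
        refine ⟨(Nat.dvd_lcm_left _ _).trans h4, fun i => ?_⟩
        by_cases h5 : i1.succAbove i = i2
        · rw [h5]; exact (Nat.dvd_lcm_right _ _).trans h4
        · have := h3 i
          rwa [Function.update_of_ne h5] at this
      · rintro ⟨h2, h3⟩
        refine ⟨fun i => ?_, one_dvd _⟩
        by_cases h5 : i1.succAbove i = i2
        · rw [h5, Function.update_self, hz]
          exact Nat.lcm_dvd h2 (h5 ▸ h3 i)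
        · rw [Function.update_of_ne h5]
          exact h3 i
  · rintro ⟨⟨y, h⟩, rfl⟩
    obtain ⟨M, hM1, hM2⟩ := maxi (X := H) (n := orderOf h) ⟨h, rfl⟩
    obtain ⟨z, hz⟩ := closedG (hsub hM1).1 hM2
    refine ⟨Fin.cons z y, ?_⟩
    rw [orderOf_eq_orderOf_iff]
    intro j
    rw [hprod, hpi, Fin.forall_fin_succ, Fin.cons_zero, hz, and_comm]
    simp only [Fin.cons_succ]

end Cfsg.Agent.Lib.Spc
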