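import Mathlib
import Cfsg.Agent.Lib.Herm12
import Cfsg.Agent.Lib.Rk1
import Cfsg.Agent.Lib.CharBasic

/-! Involutions of `SU_3(q)`, `q` odd. -/

set_option linter.all false
set_option maxHeartbeats 1000000

namespace Cfsg.Agent.Lib.Su3

open Matrix Cfsg.Agent.Lib.Herm Module

section

variable {F : Type*} [Field F] {V : Type*} [AddCommGroup V] [Module F V] {σ : F ≃+* F} {B : HF σ V}

/-- the involution attached to a unit vector -/
def IsT (B : HF σ V) (u : V) (g : V ≃ₗ[F] V) : Prop := ∀ x, g x = -x + (2 * B.h x u) • u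

theorem inv_form [Finite F] [FiniteDimensional F V] (hB : B.ND) (hσ : orderOf σ = 2) (h2 : (2 : F) ≠ 0) (hn : finrank F V = 3) {g : V ≃ₗ[F] V}
    (hg : g ∈ B.siso) (hg1 : g ≠ 1) (hgg : g * g = 1) : ∃ u, B.h u u = 1 ∧ IsT B u g := by
  classical
  have hgg' : ∀ x, g (g x) = x := fun x => congrArg (fun z : V ≃ₗ[F] V => z x) hgg
  let ρ : Subgroup.zpowers g →* Module.End F V :=
    { toFun := fun a => (a.1 : V →ₗ[F] V)
      map_one' := rfl
      map_mul' := fun a b => rfl }
  obtain ⟨b0, hb0⟩ := Cfsg.Agent.Lib.Rk.exists_basis (A := Subgroup.zpowers g) h2 (fun a b => Subtype.ext (by obtain ⟨_, i, rfl⟩ := a; obtain ⟨_, j, rfl⟩ := b; exact zpow_mul_comm g i j)) (by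
    rintro ⟨a, k, rfl⟩
    apply Subtype.ext
    show g ^ k * g ^ k = 1
    rw [← (Commute.refl g).mul_zpow, hgg, _root_.one_zpow]) ρ
  let b := b0.reindex (finCongr hn)
  have hb : ∀ i, g (b i) = b i ∨ g (b i) = -b i := by
    intro i
    have : b i = b0 ((finCongr hn).symm i) := Basis.reindex_apply _ _ _
    rw [this]
    exact hb0 _ ⟨g, Subgroup.mem_zpowers g⟩
  have hex : ∀ i, ∃ c : F, (c = 1 ∨ c = -1) ∧ g (b i) = c • b i := by
    intro i
    rcases hb i with h | h
    · exact ⟨1, Or.inl rfl, by rw [h, one_smul]⟩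
    · exact ⟨-1, Or.inr rfl, by rw [h, neg_one_smul]⟩
  choose c hc1 hc using hex
  have hdet : c 0 * c 1 * c 2 = 1 := by
    have h1 : ((LinearEquiv.det g : Fˣ) : F) = 1 := by rw [hg.2]; rfl
    rw [LinearEquiv.coe_det, ← LinearMap.det_toMatrix b] at h1
    have h3 : LinearMap.toMatrix b b (g : V →ₗ[F] V) = Matrix.diagonal c := by
      apply Matrix.ext
      intro i j
      rw [LinearMap.toMatrix_apply, LinearEquiv.coe_coe, hc, map_smul, Finsupp.smul_apply, Basis.repr_self, Finsupp.single_apply, Matrix.diagonal_apply]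
      by_cases h : j = i
      · subst h; simp
      · rw [if_neg h, if_neg (Ne.symm h), smul_zero]
    rw [h3, Matrix.det_diagonal, Fin.prod_univ_three] at h1
    exact h1
  have hne : ¬ ((1 : F) = -1) := by
    intro h
    apply h2
    linear_combination h
  have hne1 : ¬ (∀ i, c i = 1) := by
    intro h
    apply hg1
    apply LinearEquiv.toLinearMap_injective
    apply b.ext
    intro i
    show g (b i) = b i
    rw [hc, h, one_smul]
  obtain ⟨i0, hi0, hi1⟩ : ∃ i0, c i0 = 1 ∧ ∀ j, j ≠ i0 → c j = -1 := by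
    rcases hc1 0 with h0 | h0 <;> rcases hc1 1 with h1 | h1 <;> rcases hc1 2 with h2' | h2'
    · exact absurd (fun i => by fin_cases i; exacts [h0, h1, h2']) hne1
    · exfalso; rw [h0, h1, h2'] at hdet; apply hne; linear_combination -hdet
    · exfalso; rw [h0, h1, h2'] at hdet; apply hne; linear_combination -hdet
    · exact ⟨0, h0, fun j hj => by fin_cases j; exacts [absurd rfl hj, h1, h2']⟩
    · exfalso; rw [h0, h1, h2'] at hdet; apply hne; linear_combination -hdet
    · exact ⟨1, h1, fun j hj => by fin_cases j; exacts [h0, absurd rfl hj, h2']⟩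
    · exact ⟨2, h2', fun j hj => by fin_cases j; exacts [h0, h1, absurd rfl hj]⟩
    · exfalso; rw [h0, h1, h2'] at hdet; apply hne; linear_combination -hdet
  have hform : ∀ x, g x = -x + (2 * b.coord i0 x) • b i0 := by
    let T : V →ₗ[F] V := -LinearMap.id + ((2 : F) • b.coord i0).smulRight (b i0)
    have hT : (g : V →ₗ[F] V) = T := by
      apply b.ext
      intro j
      show g (b j) = -b j + ((2 : F) • b.coord i0 (b j)) • b i0
      rw [Basis.coord_apply, Basis.repr_self, Finsupp.single_apply, hc]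
      by_cases hj : j = i0
      · subst hj
        rw [if_pos rfl, hi0, one_smul, smul_eq_mul, mul_one, two_smul]; abel
      · rw [if_neg hj, hi1 j hj, smul_zero, zero_smul, add_zero, neg_one_smul]
    intro x
    exact congrArg (fun z : V →ₗ[F] V => z x) hT
  have hb00 : g (b i0) = b i0 := by rw [hc, hi0, one_smul]
  have hφ : ∀ x, b.coord i0 x * B.h (b i0) (b i0) = B.h x (b i0) := by
    intro x
    have h1 := hg.1 x (b i0)
    rw [hb00, hform x, B.add_left, B.neg_left, B.smul_left] at h1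
    have h3 : 2 * (b.coord i0 x * B.h (b i0) (b i0) - B.h x (b i0)) = 0 := by linear_combination h1
    rcases mul_eq_zero.mp h3 with h4 | h4
    · exact absurd h4 h2
    · exact sub_eq_zero.mp h4
  have hb0ne : B.h (b i0) (b i0) ≠ 0 := by
    intro h
    apply b.ne_zero i0
    apply hB.right
    intro x
    rw [← hφ, h, mul_zero]
  obtain ⟨β, hβ0, hβ⟩ := B.exists_norm_one hσ hb0ne
  refine ⟨β • b i0, hβ, fun x => ?_⟩
  rw [hform x, B.smul_right, ← hφ, smul_smul]
  congr 2
  rw [B.smul_left, B.smul_right] at hβ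
  linear_combination (-2 * b.coord i0 x) * hβ

theorem IsT.unique {u : V} {g g' : V ≃ₗ[F] V} (h : IsT B u g) (h' : IsT B u g') : g = g' := by
  apply LinearEquiv.ext
  intro x
  rw [h x, h' x]

theorem IsT.smul {u : V} {g : V ≃ₗ[F] V} (h : IsT B u g) {l : F} (hl : l * σ l = 1) : IsT B (l • u) g := by
  intro x
  rw [h x, B.smul_right, smul_smul]
  congr 2
  linear_combination (-2 * B.h x u) * hl

theorem IsT.conj {u : V} {g k : V ≃ₗ[F] V} (h : IsT B u g) (hk : k ∈ B.iso) : IsT B (k u) (k * g * k⁻¹) := by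
  intro x
  have h1 : k (k⁻¹ x) = x := k.apply_symm_apply x
  show k (g (k⁻¹ x)) = _
  rw [h, map_add, map_neg, map_smul, h1]
  have h3 : B.h x (k u) = B.h (k⁻¹ x) u := by
    rw [← hk (k⁻¹ x) u, h1]
  rw [h3]

theorem exists_conj [Finite F] [FiniteDimensional F V] (hB : B.ND) (hσ : orderOf σ = 2) {u w : V} (hu : B.h u u = 1) (hw : B.h w w = 1)
    {g g' : V ≃ₗ[F] V} (h : IsT B u g) (h' : IsT B w g') : ∃ k ∈ B.siso, k * g * k⁻¹ = g' := by
  have hu0 : u ≠ 0 := by rintro rfl; rw [B.zero_left] at hu; exact zero_ne_one hu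
  have hw0 : w ≠ 0 := by rintro rfl; rw [B.zero_left] at hw; exact zero_ne_one hw
  obtain ⟨k, hk, hk2⟩ := hB.witt hσ (k := 1) (v := fun _ => u) (w := fun _ => w) (LinearIndependent.of_subsingleton 0 hu0)
    (LinearIndependent.of_subsingleton 0 hw0) (fun i j => by rw [hu, hw])
  have hku : k u = w := hk2 0
  set d : F := ((LinearEquiv.det k : Fˣ) : F) with hd
  have hdd : d * σ d = 1 := hB.det_norm hσ hk
  have hd0 : d ≠ 0 := by intro h; rw [h, zero_mul] at hdd; exact zero_ne_one hdd
  have hl : d⁻¹ * σ d⁻¹ = 1 := by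
    rw [map_inv₀, ← mul_inv, hdd, inv_one]
  obtain ⟨r, hr, hrd, hrx⟩ := B.exists_qrefl hw hl
  refine ⟨r * k, ⟨mul_mem hr hk, ?_⟩, ?_⟩
  · show LinearEquiv.det (r * k) = 1
    rw [map_mul]
    apply Units.ext
    rw [Units.val_mul, hrd, Units.val_one]
    exact inv_mul_cancel₀ hd0
  · have h1 := h.conj (mul_mem hr hk)
    have h3 : (r * k) u = d⁻¹ • w := by
      show r (k u) = _
      rw [hku, hrx, hw, mul_one, sub_smul, one_smul]; abel
    rw [h3] at h1
    exact h1.unique (h'.smul hl)

theorem commute_iff [FiniteDimensional F V] (h2 : (2 : F) ≠ 0) {u : V} (hu : B.h u u = 1) {g k : V ≃ₗ[F] V} (h : IsT B u g) (hk : k ∈ B.iso) :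
    k * g = g * k ↔ k ∈ B.stabI (Submodule.span F {u}) := by
  constructor
  · intro hkg
    have h1 : k * g * k⁻¹ = g := by rw [hkg, mul_inv_cancel_right]
    have h3 := h.conj hk
    rw [h1] at h3
    have h4 : g (k u) = g (k u) := rfl
    have hku : B.h (k u) (k u) = 1 := (hk u u).trans hu
    have h5 := h3 (k u)
    rw [h (k u), hku, mul_one] at h5
    have h6 : (2 * B.h (k u) u) • u = (2 : F) • k u := by
      have := add_left_cancel h5
      exact this
    have h7 : k u = B.h (k u) u • u := by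
      have := congrArg (fun z => (2 : F)⁻¹ • z) h6
      beta_reduce at this
      rw [smul_smul, smul_smul, inv_mul_cancel₀ h2, one_smul, ← mul_assoc, inv_mul_cancel₀ h2, one_mul] at this
      exact this.symm
    refine ⟨hk, mem_iff_of_map_le ?_⟩
    intro v hv
    obtain ⟨a, rfl⟩ := Submodule.mem_span_singleton.mp hv
    rw [map_smul, h7]
    exact Submodule.smul_mem _ _ (Submodule.smul_mem _ _ (Submodule.mem_span_singleton_self u))
  · rintro ⟨_, hk3⟩
    obtain ⟨a, ha⟩ := Submodule.mem_span_singleton.mp ((hk3 u).mp (Submodule.mem_span_singleton_self u))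
    have h1 : a * σ a = 1 := by
      have := hk u u
      rw [← ha, B.smul_left, B.smul_right, hu, mul_one] at this
      exact this
    have h3 := h.conj hk
    rw [← ha] at h3
    have h4 : k * g * k⁻¹ = g := h3.unique (h.smul h1)
    calc k * g = (k * g * k⁻¹) * k := by group
      _ = g * k := by rw [h4]

theorem card_stab [Fintype F] [FiniteDimensional F V] (hB : B.ND) {q : ℕ} (hF : Fintype.card F = q ^ 2) (hσ : orderOf σ = 2) (hq : ∀ a, σ a = a ^ q)
    (hn : finrank F V = 3) {u : V} (hu : B.h u u = 1) :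
    Nat.card (B.stabI (Submodule.span F {u}) ⊓ (LinearEquiv.det (R := F) (M := V)).ker : Subgroup (V ≃ₗ[F] V)) = q * (q + 1) * (q ^ 2 - 1) := by
  have hu0 : u ≠ 0 := by rintro rfl; rw [B.zero_left] at hu; exact zero_ne_one hu
  have hND : (B.res (Submodule.span F {u})).ND := by
    rintro ⟨x, hx⟩ h
    obtain ⟨a, rfl⟩ := Submodule.mem_span_singleton.mp hx
    have h1 : B.h (a • u) u = 0 := h ⟨u, Submodule.mem_span_singleton_self u⟩
    rw [B.smul_left, hu, mul_one] at h1
    apply Subtype.ext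
    show a • u = 0
    rw [h1, zero_smul]
  obtain ⟨⟨e⟩, hND2, hdim⟩ := hB.stab_prod hσ hND
  have hd1 : finrank F (Submodule.span F {u}) = 1 := finrank_span_singleton hu0
  have hd2 : finrank F (B.perp (Submodule.span F {u})) = 2 := by omega
  have h1 := card_det hB hF hσ hq (B.stabI (Submodule.span F {u})) (fun g hg => hg.1) (by
    intro l hl
    obtain ⟨r, hr, hrd, hrx⟩ := B.exists_qrefl hu hl
    refine ⟨r, ⟨hr, mem_iff_of_map_le ?_⟩, hrd⟩
    intro v hv
    obtain ⟨a, rfl⟩ := Submodule.mem_span_singleton.mp hv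
    rw [hrx]
    exact Submodule.add_mem _ hv (Submodule.smul_mem _ _ (Submodule.mem_span_singleton_self u)))
  rw [Nat.card_congr e.toEquiv, Nat.card_prod, hND.card_iso hF hσ hq hd1, hND2.card_iso hF hσ hq hd2] at h1
  have e1 : ∏ i ∈ Finset.range 1, Nn q (1 - i) = q + 1 := by
    rw [Finset.prod_range_one]
    show (if Even 1 then _ else _) = _
    rw [if_neg (by decide)]; simp
  have e2 : ∏ i ∈ Finset.range 2, Nn q (2 - i) = q * (q ^ 2 - 1) * (q + 1) := by
    rw [Finset.prod_range_succ, Finset.prod_range_one]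
    show (if Even 2 then _ else _) * (if Even 1 then _ else _) = _
    rw [if_pos (by decide), if_neg (by decide)]; simp
  rw [e1, e2] at h1
  have := Nat.eq_of_mul_eq_mul_left (Nat.succ_pos q) h1
  rw [← this]
  ring

theorem commute_orth (h2 : (2 : F) ≠ 0) {u w : V} (hu : B.h u u = 1) (hw : B.h w w = 1) {g k : V ≃ₗ[F] V} (h : IsT B u g) (h' : IsT B w k)
    (hc : g * k = k * g) (hne : g ≠ k) : B.h w u = 0 := by
  by_contra hcon
  apply hne
  have h1 : g (k w) = k (g w) := congrArg (fun z : V ≃ₗ[F] V => z w) hc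
  have h3 : k w = w := by rw [h' w, hw, mul_one, two_smul]; abel
  have h4 : k u = -u + (2 * B.h u w) • w := h' u
  rw [h3, h w, map_add, map_neg, map_smul, h3, h4] at h1
  have h5 : (2 * B.h w u) • u = (2 * B.h w u) • (-u + (2 * B.h u w) • w) := add_left_cancel h1
  have h6 : u = -u + (2 * B.h u w) • w := smul_right_injective V (mul_ne_zero h2 hcon) h5
  have h7 : u = B.h u w • w := by
    have e1 : (2 : F) • u = (2 : F) • (B.h u w • w) := by
      rw [smul_smul, two_smul]
      calc u + u = u + (-u + (2 * B.h u w) • w) := congrArg (fun z => u + z) h6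
        _ = (2 * B.h u w) • w := by abel
    exact smul_right_injective V h2 e1
  have h8 : B.h u w * σ (B.h u w) = 1 := by
    have := hu
    rw [h7, B.smul_left, B.smul_right, hw, mul_one] at this
    rw [h7, B.smul_left, hw, mul_one]
    exact this
  have h9 := h'.smul h8
  rw [← h7] at h9
  exact h.unique h9

theorem third [FiniteDimensional F V] (hσ2 : ∀ a, σ (σ a) = a) (hn : finrank F V = 3) {u w z : V} (hu : B.h u u = 1) (hw : B.h w w = 1) (hz : B.h z z = 1)
    (h1 : B.h w u = 0) (h2 : B.h z u = 0) (h3 : B.h z w = 0) {g k l : V ≃ₗ[F] V} (hg : IsT B u g) (hk : IsT B w k) (hl : IsT B z l) : l = g * k := by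
  have h1' : B.h u w = 0 := B.eq_zero_comm.mp h1
  have h2' : B.h u z = 0 := B.eq_zero_comm.mp h2
  have h3' : B.h w z = 0 := B.eq_zero_comm.mp h3
  have hON : B.ON ![u, w, z] := by
    constructor
    · intro i; fin_cases i; exacts [hu, hw, hz]
    · intro i j hij
      fin_cases i <;> fin_cases j
      · exact absurd rfl hij
      · exact h1'
      · exact h2'
      · exact h1
      · exact absurd rfl hij
      · exact h3'
      · exact h2
      · exact h3
      · exact absurd rfl hij
  apply LinearEquiv.ext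
  intro x
  have hx : x = B.h x u • u + B.h x w • w + B.h x z • z := by
    let b := basisOfLinearIndependentOfCardEqFinrank hON.li (by rw [Fintype.card_fin, hn])
    have hb : ∀ i, b i = ![u, w, z] i := fun i => by
      show (basisOfLinearIndependentOfCardEqFinrank _ _) i = _
      rw [coe_basisOfLinearIndependentOfCardEqFinrank]
    have hx1 : x = ∑ i, b.repr x i • ![u, w, z] i := by
      conv_lhs => rw [← b.sum_repr x]
      exact Finset.sum_congr rfl (fun i _ => by rw [hb])
    have hc : ∀ i, B.h x (![u, w, z] i) = b.repr x i := by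
      intro i
      conv_lhs => rw [hx1]
      exact hON.h_sum _ i
    conv_lhs => rw [hx1]
    rw [Fin.sum_univ_three, ← hc 0, ← hc 1, ← hc 2]
    rfl
  show l x = g (k x)
  rw [hl x, hk x, map_add, map_neg, map_smul, hg x, hg w, h1, mul_zero, zero_smul, add_zero]
  clear hl hk hg
  generalize B.h x u = a at hx ⊢
  generalize B.h x w = b at hx ⊢
  generalize B.h x z = c at hx ⊢
  subst hx
  module

theorem main [Fintype F] [FiniteDimensional F V] (hB : B.ND) {q : ℕ} (hF : Fintype.card F = q ^ 2) (hσ : orderOf σ = 2) (hq : ∀ a, σ a = a ^ q)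
    (h2 : (2 : F) ≠ 0) (hn : finrank F V = 3) {G : Type*} [Group G] (e : G ≃* B.siso) (t : G) (ht : t ≠ 1) (ht2 : t * t = 1) :
    (∀ x : G, x ≠ 1 → x * x = 1 → ∃ g : G, g * t * g⁻¹ = x) ∧
    Nat.card {x : G // x ≠ 1 ∧ x * x = 1} = q ^ 2 * (q ^ 2 - q + 1) ∧
    Nat.card ↥(Subgroup.centralizer ({t} : Set G)) = q * (q + 1) * (q ^ 2 - 1) ∧
    ∀ x : G, x ≠ 1 → x * x = 1 → x ≠ t → Commute t x →
      Nat.card {y : G // y ≠ 1 ∧ y * y = 1 ∧ y ≠ t ∧ y ≠ x ∧ Commute t y ∧ Commute x y} = 1 := by
  classical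
  haveI : Finite V := Module.finite_of_finite F
  haveI : Finite (V ≃ₗ[F] V) := Finite.of_injective (fun g : V ≃ₗ[F] V => (g : V → V)) DFunLike.coe_injective
  haveI : Finite G := Finite.of_equiv _ e.symm.toEquiv
  obtain ⟨hσ2, hσ1, hσ3⟩ := sigma_facts hσ
  have hq1 := one_lt_q hF
  have hinj : ∀ a b : G, (e a).1 = (e b).1 → a = b := fun a b h => e.injective (Subtype.ext h)
  have hmul : ∀ a b : G, (e (a * b)).1 = (e a).1 * (e b).1 := fun a b => by rw [map_mul]; rfl
  have hform : ∀ x : G, x ≠ 1 → x * x = 1 → ∃ u, B.h u u = 1 ∧ IsT B u (e x).1 := by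
    intro x hx hxx
    apply inv_form hB hσ h2 hn (e x).2
    · intro h
      exact hx (hinj x 1 (by rw [h, map_one]; rfl))
    · rw [← hmul, hxx, map_one]; rfl
  have hconj : ∀ x : G, x ≠ 1 → x * x = 1 → ∃ g : G, g * t * g⁻¹ = x := by
    intro x hx hxx
    obtain ⟨u, hu, hut⟩ := hform t ht ht2
    obtain ⟨w, hw, hwx⟩ := hform x hx hxx
    obtain ⟨k, hk, hkk⟩ := exists_conj hB hσ hu hw hut hwx
    refine ⟨e.symm ⟨k, hk⟩, hinj _ _ ?_⟩
    rw [hmul, hmul, map_inv, MulEquiv.apply_symm_apply]
    exact hkk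
  obtain ⟨u, hu, hut⟩ := hform t ht ht2
  have hcent : Nat.card ↥(Subgroup.centralizer ({t} : Set G)) = q * (q + 1) * (q ^ 2 - 1) := by
    rw [← card_stab hB hF hσ hq hn hu]
    have hcomm : ∀ g : G, g ∈ Subgroup.centralizer ({t} : Set G) ↔ (e g).1 ∈ B.stabI (Submodule.span F {u}) := by
      intro g
      rw [Subgroup.mem_centralizer_singleton_iff, ← commute_iff h2 hu hut (e g).2.1, ← hmul, ← hmul]
      constructor
      · intro h; rw [h]
      · intro h; exact hinj _ _ h
    refine Nat.card_congr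
      { toFun := fun g => ⟨(e g.1).1, ⟨(hcomm g.1).mp g.2, (e g.1).2.2⟩⟩
        invFun := fun k => ⟨e.symm ⟨k.1, ⟨k.2.1.1, k.2.2⟩⟩, (hcomm _).mpr (by rw [MulEquiv.apply_symm_apply]; exact k.2.1)⟩
        left_inv := fun g => Subtype.ext (e.symm_apply_apply g.1)
        right_inv := fun k => Subtype.ext (by
          show (e (e.symm _)).1 = _
          rw [MulEquiv.apply_symm_apply]) }
  refine ⟨hconj, ?_, hcent, ?_⟩
  · have h1 : Nat.card {x : G // x ≠ 1 ∧ x * x = 1} = Nat.card {x : G // IsConj t x} := by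
      refine Nat.card_congr (Equiv.subtypeEquivRight (fun x => ?_))
      constructor
      · rintro ⟨hx, hxx⟩
        obtain ⟨g, hg⟩ := hconj x hx hxx
        exact isConj_iff.mpr ⟨g, hg⟩
      · intro h
        obtain ⟨g, rfl⟩ := isConj_iff.mp h
        refine ⟨?_, ?_⟩
        · intro h1
          apply ht
          have : t = g⁻¹ * (g * t * g⁻¹) * g := by group
          rw [this, h1]; group
        · calc g * t * g⁻¹ * (g * t * g⁻¹) = g * (t * t) * g⁻¹ := by group
            _ = 1 := by rw [ht2]; group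
    rw [h1, Cfsg.Agent.Lib.CharBasic.card_conj_class]
    have h3 := Subgroup.card_mul_index (Subgroup.centralizer ({t} : Set G))
    have h4 : Nat.card G = Nat.card B.siso := Nat.card_congr e.toEquiv
    have h5 := hB.card_iso_siso hF hσ hq (by rw [hn]; norm_num)
    rw [hB.card_iso hF hσ hq hn] at h5
    have e2 : ∏ i ∈ Finset.range 3, Nn q (3 - i) = (q + 1) * (q ^ 2 * (q ^ 3 + 1) * (q * (q ^ 2 - 1))) := by
      rw [Finset.prod_range_succ, Finset.prod_range_succ, Finset.prod_range_one]
      show (if Even 3 then _ else _) * (if Even 2 then _ else _) * (if Even 1 then _ else _) = _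
      rw [if_neg (by decide), if_pos (by decide), if_neg (by decide)]
      simp
      ring
    rw [e2] at h5
    have h6 := Nat.eq_of_mul_eq_mul_left (Nat.succ_pos q) h5
    rw [hcent, h4, ← h6] at h3
    have hpos : 0 < q * (q + 1) * (q ^ 2 - 1) := by
      have : 1 < q ^ 2 := Nat.one_lt_pow (by norm_num) hq1
      exact Nat.mul_pos (Nat.mul_pos (by omega) (by omega)) (by omega)
    apply Nat.eq_of_mul_eq_mul_left hpos
    rw [h3]
    obtain ⟨c, hc⟩ : ∃ c, q ^ 2 = c + q := ⟨q ^ 2 - q, by
      have : q ≤ q ^ 2 := by nlinarith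
      omega⟩
    have e3 : q ^ 3 + 1 = (q + 1) * (q ^ 2 - q + 1) := by
      rw [hc, Nat.add_sub_cancel]
      have e4 : q ^ 3 = q * (c + q) := by rw [← hc]; ring
      have e5 : q * q = c + q := by rw [← hc]; ring
      rw [e4]
      nlinarith
    rw [e3]
    ring
  · intro x hx hxx hxt hcx
    have hT : ∀ y : G, y ≠ 1 ∧ y * y = 1 ∧ y ≠ t ∧ y ≠ x ∧ Commute t y ∧ Commute x y → y = t * x := by
      rintro y ⟨hy, hyy, hyt, hyx, hcy1, hcy2⟩
      obtain ⟨w, hw, hwx⟩ := hform x hx hxx
      obtain ⟨z, hz, hzy⟩ := hform y hy hyy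
      have hc : ∀ a b : G, Commute a b → (e a).1 * (e b).1 = (e b).1 * (e a).1 := by
        intro a b hab
        rw [← hmul, ← hmul, hab.eq]
      apply hinj
      rw [hmul]
      exact third hσ2 hn hu hw hz
        (commute_orth h2 hu hw hut hwx (hc t x hcx) (fun h => hxt (hinj _ _ h).symm))
        (commute_orth h2 hu hz hut hzy (hc t y hcy1) (fun h => hyt (hinj _ _ h).symm))
        (commute_orth h2 hw hz hwx hzy (hc x y hcy2) (fun h => hyx (hinj _ _ h).symm)) hut hwx hzy
    rw [Nat.card_eq_one_iff_unique]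
    refine ⟨⟨fun a b => Subtype.ext ((hT a.1 a.2).trans (hT b.1 b.2).symm)⟩, ⟨⟨t * x, ?_, ?_, ?_, ?_, ?_, ?_⟩⟩⟩
    · intro h
      apply hxt
      calc x = t * t * x := by rw [ht2, one_mul]
        _ = t * (t * x) := mul_assoc _ _ _
        _ = t := by rw [h, mul_one]
    · calc t * x * (t * x) = t * (x * t) * x := by group
        _ = t * (t * x) * x := by rw [hcx.eq]
        _ = (t * t) * (x * x) := by group
        _ = 1 := by rw [ht2, hxx, one_mul]
    · intro h
      exact hx (mul_left_cancel (h.trans (mul_one t).symm))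
    · intro h
      exact ht (mul_right_cancel (h.trans (one_mul x).symm))
    · exact (Commute.refl t).mul_right hcx
    · exact hcx.symm.mul_right (Commute.refl x)

end

end Cfsg.Agent.Lib.Su3
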