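import Mathlib
import Cfsg.Agent.Lib.Su3

/-! The commuting graph on the involutions of `SU_3(q)`, `q` odd. -/

set_option linter.all false
set_option maxHeartbeats 1000000

namespace Cfsg.Agent.Lib.Su3

open Matrix Cfsg.Agent.Lib.Herm Module

section

variable {F : Type*} [Field F] {V : Type*} [AddCommGroup V] [Module F V] {σ : F ≃+* F} {B : HF σ V}

theorem orth_commute {w v : V} {g k : V ≃ₗ[F] V} (hg : IsT B w g) (hk : IsT B v k) (h : B.h w v = 0) : g * k = k * g := by
  have h' : B.h v w = 0 := B.eq_zero_comm.mp h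
  apply LinearEquiv.ext
  intro x
  show g (k x) = k (g x)
  rw [hk x, hg x, map_add, map_add, map_neg, map_neg, map_smul, map_smul, hk x, hg x, hg v, hk w, h, h']
  module

theorem orth_ne (h2 : (2 : F) ≠ 0) {w v : V} (hw : B.h w w = 1) {g k : V ≃ₗ[F] V} (hg : IsT B w g) (hk : IsT B v k) (h : B.h w v = 0) : g ≠ k := by
  rintro rfl
  have h1 := hg w
  have h3 := hk w
  rw [h, mul_zero, zero_smul, add_zero] at h3
  rw [h3, hw, mul_one] at h1
  have h4 : (2 : F) • w = 0 := by
    have := h1
    have h5 : -w + (2 : F) • w = -w + 0 := by rw [← h1, add_zero]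
    exact add_left_cancel h5
  have h5 : w = 0 := (smul_eq_zero.mp h4).resolve_left h2
  rw [h5, B.zero_left] at hw
  exact zero_ne_one hw

theorem IsT.same (h2 : (2 : F) ≠ 0) {w w' : V} (hw : B.h w w = 1) (hw' : B.h w' w' = 1) {g : V ≃ₗ[F] V} (hg : IsT B w g) (hg' : IsT B w' g) :
    w' = B.h w' w • w ∧ B.h w' w * σ (B.h w' w) = 1 := by
  have h1 : g w' = w' := by rw [hg' w', hw', mul_one, two_smul]; abel
  have h3 := hg w'
  rw [h1] at h3
  have h4 : (2 : F) • w' = (2 : F) • (B.h w' w • w) := by
    rw [smul_smul]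
    calc (2 : F) • w' = w' + w' := two_smul _ _
      _ = w' + (-w' + (2 * B.h w' w) • w) := congrArg (fun z => w' + z) h3
      _ = (2 * B.h w' w) • w := by abel
  have h5 : w' = B.h w' w • w := smul_right_injective V h2 h4
  refine ⟨h5, ?_⟩
  have h6 := hw'
  rw [h5, B.smul_left, B.smul_right, hw, mul_one] at h6
  rw [h5, B.smul_left, hw, mul_one]
  exact h6

variable [Finite F] [FiniteDimensional F V]

theorem common (hB : B.ND) (hσ : orderOf σ = 2) (hn : finrank F V = 3) {u w : V} (hu : B.h u u = 1) (hw : B.h w w = 1) :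
    (∃ z, B.h z z = 1 ∧ B.h z u = 0 ∧ B.h z w = 0) ↔ (B.h w u * σ (B.h w u) ≠ 1 ∨ w = B.h w u • u) := by
  have huw : B.h u w = σ (B.h w u) := B.symm _ _
  set a := B.h w u with ha
  have hru : B.h (w - a • u) u = 0 := by rw [B.sub_left, B.smul_left, hu, mul_one, sub_self]
  have hrr : B.h (w - a • u) (w - a • u) = 1 - a * σ a := by
    rw [B.sub_right, B.smul_right, hru, mul_zero, sub_zero, B.sub_left, hw, B.smul_left, huw]
  have hON1 : B.ON ![u] := by
    constructor
    · intro i; fin_cases i; exact hu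
    · intro i j hij; exact absurd (Subsingleton.elim i j) hij
  constructor
  · rintro ⟨z, hz, hzu, hzw⟩
    by_contra hcon
    push Not at hcon
    obtain ⟨h1, h2⟩ := hcon
    apply h2
    have huz : B.h u z = 0 := B.eq_zero_comm.mp hzu
    have hON : B.ON ![u, z] := by
      constructor
      · intro i; fin_cases i; exacts [hu, hz]
      · intro i j hij
        fin_cases i <;> fin_cases j
        · exact absurd rfl hij
        · exact huz
        · exact hzu
        · exact absurd rfl hij
    obtain ⟨v, hv, hvo⟩ := B.exists_ON_extend hσ hB hON (by rw [hn]; norm_num)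
    have hvu : B.h v u = 0 := hvo 0
    have hvz : B.h v z = 0 := hvo 1
    have hON3 : B.ON ![u, z, v] := by
      constructor
      · intro i; fin_cases i; exacts [hu, hz, hv]
      · intro i j hij
        fin_cases i <;> fin_cases j
        · exact absurd rfl hij
        · exact huz
        · exact B.eq_zero_comm.mp hvu
        · exact hzu
        · exact absurd rfl hij
        · exact B.eq_zero_comm.mp hvz
        · exact hvu
        · exact hvz
        · exact absurd rfl hij
    let b := basisOfLinearIndependentOfCardEqFinrank hON3.li (by rw [Fintype.card_fin, hn])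
    have hb : ∀ i, b i = ![u, z, v] i := fun i => by
      show (basisOfLinearIndependentOfCardEqFinrank _ _) i = _
      rw [coe_basisOfLinearIndependentOfCardEqFinrank]
    have hx1 : ∀ x, x = B.h x u • u + B.h x z • z + B.h x v • v := by
      intro x
      have hx1 : x = ∑ i, b.repr x i • ![u, z, v] i := by
        conv_lhs => rw [← b.sum_repr x]
        exact Finset.sum_congr rfl (fun i _ => by rw [hb])
      have hc : ∀ i, B.h x (![u, z, v] i) = b.repr x i := by
        intro i
        conv_lhs => rw [hx1]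
        exact hON3.h_sum _ i
      conv_lhs => rw [hx1]
      rw [Fin.sum_univ_three, ← hc 0, ← hc 1, ← hc 2]
      rfl
    have hrz : B.h (w - a • u) z = 0 := by
      rw [B.sub_left, B.smul_left, huz, mul_zero, sub_zero]
      exact B.eq_zero_comm.mp hzw
    have hr := hx1 (w - a • u)
    rw [hru, hrz, zero_smul, zero_smul, zero_add, zero_add] at hr
    have h3 : B.h (w - a • u) v * σ (B.h (w - a • u) v) = 0 := by
      have h4 : B.h (w - a • u) (w - a • u) = 0 := by rw [hrr, h1, sub_self]
      rw [hr, B.smul_left, B.smul_right, hv, mul_one] at h4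
      exact h4
    have h4 : B.h (w - a • u) v = 0 := by
      rcases mul_eq_zero.mp h3 with h5 | h5
      · exact h5
      · exact (map_eq_zero_iff σ σ.injective).mp h5
    rw [h4, zero_smul] at hr
    exact sub_eq_zero.mp hr
  · rintro (h1 | h1)
    · have h3 : B.h (w - a • u) (w - a • u) ≠ 0 := by
        rw [hrr]
        intro h
        exact h1 (sub_eq_zero.mp h).symm
      obtain ⟨β, hβ0, hβ⟩ := B.exists_norm_one hσ h3
      have hβu : B.h (β • (w - a • u)) u = 0 := by rw [B.smul_left, hru, mul_zero]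
      have hON : B.ON ![u, β • (w - a • u)] := by
        constructor
        · intro i; fin_cases i; exacts [hu, hβ]
        · intro i j hij
          fin_cases i <;> fin_cases j
          · exact absurd rfl hij
          · exact B.eq_zero_comm.mp hβu
          · exact hβu
          · exact absurd rfl hij
      obtain ⟨v, hv, hvo⟩ := B.exists_ON_extend hσ hB hON (by rw [hn]; norm_num)
      have hvu : B.h v u = 0 := hvo 0
      have hvr : B.h v (β • (w - a • u)) = 0 := hvo 1
      refine ⟨v, hv, hvu, ?_⟩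
      rw [B.smul_right, B.sub_right, B.smul_right, hvu, mul_zero, sub_zero] at hvr
      rcases mul_eq_zero.mp hvr with h5 | h5
      · exact absurd ((map_eq_zero_iff σ σ.injective).mp h5) hβ0
      · exact h5
    · obtain ⟨v, hv, hvo⟩ := B.exists_ON_extend hσ hB hON1 (by rw [hn]; norm_num)
      have hvu : B.h v u = 0 := hvo 0
      refine ⟨v, hv, hvu, ?_⟩
      rw [h1, B.smul_right, hvu, mul_zero]

/-- a helper for the diameter -/
theorem exists_v (hB : B.ND) (hσ : orderOf σ = 2) (h2 : (2 : F) ≠ 0) (hn : finrank F V = 3) {u w : V} (hu : B.h u u = 1) (hw : B.h w w = 1)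
    (h1 : B.h w u * σ (B.h w u) = 1) : ∃ v, B.h v v = 1 ∧ B.h v u = 0 ∧ B.h w v * σ (B.h w v) ≠ 1 := by
  obtain ⟨hσ2, _, _⟩ := sigma_facts hσ
  have hON1 : B.ON ![u] := by
    constructor
    · intro i; fin_cases i; exact hu
    · intro i j hij; exact absurd (Subsingleton.elim i j) hij
  obtain ⟨v, hv, hvo⟩ := B.exists_ON_extend hσ hB hON1 (by rw [hn]; norm_num)
  have hvu : B.h v u = 0 := hvo 0
  by_cases h3 : B.h w v * σ (B.h w v) = 1
  · have huv : B.h u v = 0 := B.eq_zero_comm.mp hvu
    have hON : B.ON ![u, v] := by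
      constructor
      · intro i; fin_cases i; exacts [hu, hv]
      · intro i j hij
        fin_cases i <;> fin_cases j
        · exact absurd rfl hij
        · exact huv
        · exact hvu
        · exact absurd rfl hij
    obtain ⟨z, hz, hzo⟩ := B.exists_ON_extend hσ hB hON (by rw [hn]; norm_num)
    have hzu : B.h z u = 0 := hzo 0
    have hzv : B.h z v = 0 := hzo 1
    have hON3 : B.ON ![u, v, z] := by
      constructor
      · intro i; fin_cases i; exacts [hu, hv, hz]
      · intro i j hij
        fin_cases i <;> fin_cases j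
        · exact absurd rfl hij
        · exact huv
        · exact B.eq_zero_comm.mp hzu
        · exact hvu
        · exact absurd rfl hij
        · exact B.eq_zero_comm.mp hzv
        · exact hzu
        · exact hzv
        · exact absurd rfl hij
    let b := basisOfLinearIndependentOfCardEqFinrank hON3.li (by rw [Fintype.card_fin, hn])
    have hb : ∀ i, b i = ![u, v, z] i := fun i => by
      show (basisOfLinearIndependentOfCardEqFinrank _ _) i = _
      rw [coe_basisOfLinearIndependentOfCardEqFinrank]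
    have hx1 : w = B.h w u • u + B.h w v • v + B.h w z • z := by
      have hx1 : w = ∑ i, b.repr w i • ![u, v, z] i := by
        conv_lhs => rw [← b.sum_repr w]
        exact Finset.sum_congr rfl (fun i _ => by rw [hb])
      have hc : ∀ i, B.h w (![u, v, z] i) = b.repr w i := by
        intro i
        conv_lhs => rw [hx1]
        exact hON3.h_sum _ i
      conv_lhs => rw [hx1]
      rw [Fin.sum_univ_three, ← hc 0, ← hc 1, ← hc 2]
      rfl
    have h4 : B.h w w = B.h w u * σ (B.h w u) + B.h w v * σ (B.h w v) + B.h w z * σ (B.h w z) := by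
      have e1 : B.h u w = σ (B.h w u) := B.symm _ _
      have e2 : B.h v w = σ (B.h w v) := B.symm _ _
      have e3 : B.h z w = σ (B.h w z) := B.symm _ _
      conv_lhs => rw [show B.h w w = B.h (B.h w u • u + B.h w v • v + B.h w z • z) w from congrArg (fun y => B.h y w) hx1]
      rw [B.add_left, B.add_left, B.smul_left, B.smul_left, B.smul_left, e1, e2, e3]
    refine ⟨z, hz, hzu, ?_⟩
    intro h5
    rw [hw, h1, h3, h5] at h4
    apply h2
    linear_combination -h4
  · exact ⟨v, hv, hvu, h3⟩

end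

theorem split_card {α : Type*} [Finite α] (p q : α → Prop) :
    Nat.card {x // p x} = Nat.card {x // p x ∧ q x} + Nat.card {x // p x ∧ ¬ q x} := by
  classical
  rw [← Nat.card_sum]
  refine (Nat.card_congr (Equiv.ofBijective (Sum.elim (fun x : {x // p x ∧ q x} => (⟨x.1, x.2.1⟩ : {x // p x}))
    (fun x : {x // p x ∧ ¬ q x} => ⟨x.1, x.2.1⟩)) ⟨?_, ?_⟩)).symm
  · rintro (⟨x, hx⟩ | ⟨x, hx⟩) (⟨y, hy⟩ | ⟨y, hy⟩) h
    · have : x = y := congrArg Subtype.val h
      subst this; rfl
    · have : x = y := congrArg Subtype.val h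
      subst this
      exact absurd hx.2 hy.2
    · have : x = y := congrArg Subtype.val h
      subst this
      exact absurd hy.2 hx.2
    · have : x = y := congrArg Subtype.val h
      subst this; rfl
  · rintro ⟨x, hx⟩
    by_cases hq : q x
    · exact ⟨Sum.inl ⟨x, hx, hq⟩, rfl⟩
    · exact ⟨Sum.inr ⟨x, hx, hq⟩, rfl⟩

section

variable {F : Type*} [Field F] [Fintype F] {V : Type*} [AddCommGroup V] [Module F V] [FiniteDimensional F V] {σ : F ≃+* F} {B : HF σ V}

theorem card_fiber {q : ℕ} (hF : Fintype.card F = q ^ 2) (hσ : orderOf σ = 2) (hq : ∀ a, σ a = a ^ q) (h2 : (2 : F) ≠ 0)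
    {w0 : V} (hw0 : B.h w0 w0 = 1) {g : V ≃ₗ[F] V} (hg : IsT B w0 g) : Nat.card {w : V // B.h w w = 1 ∧ IsT B w g} = q + 1 := by
  rw [← card_norm_sol hF hσ hq one_ne_zero (map_one σ)]
  refine Nat.card_congr
    { toFun := fun w => ⟨B.h w.1 w0, (IsT.same h2 hw0 w.2.1 hg w.2.2).2⟩
      invFun := fun l => ⟨l.1 • w0, by rw [B.smul_left, B.smul_right, hw0, mul_one]; exact l.2, hg.smul l.2⟩
      left_inv := fun w => Subtype.ext (IsT.same h2 hw0 w.2.1 hg w.2.2).1.symm
      right_inv := fun l => Subtype.ext (by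
        show B.h (l.1 • w0) w0 = l.1
        rw [B.smul_left, hw0, mul_one]) }

theorem perp_facts (hB : B.ND) (hσ : orderOf σ = 2) (hn : finrank F V = 3) {u : V} (hu : B.h u u = 1) :
    (B.res (B.perp (Submodule.span F {u}))).ND ∧ finrank F (B.perp (Submodule.span F {u})) = 2 := by
  have hu0 : u ≠ 0 := by rintro rfl; rw [B.zero_left] at hu; exact zero_ne_one hu
  have hND : (B.res (Submodule.span F {u})).ND := by
    rintro ⟨x, hx⟩ h
    obtain ⟨a, rfl⟩ := Submodule.mem_span_singleton.mp hx
    have h1 : B.h (a • u) u = 0 := h ⟨u, Submodule.mem_span_singleton_self u⟩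
    rw [B.smul_left, hu, mul_one] at h1
    apply Subtype.ext
    show a • u = 0
    rw [h1, zero_smul]
  obtain ⟨_, hND2, hdim⟩ := hB.stab_prod hσ hND
  have hd1 : finrank F (Submodule.span F {u}) = 1 := finrank_span_singleton hu0
  exact ⟨hND2, by omega⟩

omit [Fintype F] [FiniteDimensional F V] in
theorem mem_perp_u {u x : V} : x ∈ B.perp (Submodule.span F {u}) ↔ B.h x u = 0 := by
  rw [HF.mem_perp_span]
  constructor
  · intro h; exact h u rfl
  · rintro h w rfl; exact h

theorem card_Q1 (hB : B.ND) {q : ℕ} (hF : Fintype.card F = q ^ 2) (hσ : orderOf σ = 2) (hq : ∀ a, σ a = a ^ q) (hn : finrank F V = 3)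
    {u : V} (hu : B.h u u = 1) : Nat.card {w : V // B.h w w = 1 ∧ B.h w u = 0} = q * (q ^ 2 - 1) := by
  obtain ⟨h1, h3⟩ := perp_facts hB hσ hn hu
  have h4 := h1.card_one hF hσ hq h3
  rw [if_pos (by decide)] at h4
  have h5 : q ^ (2 - 1) * (q ^ 2 - 1) = q * (q ^ 2 - 1) := by norm_num
  rw [← h5, ← h4]
  exact Nat.card_congr
    { toFun := fun w => ⟨⟨w.1, mem_perp_u.mpr w.2.2⟩, w.2.1⟩
      invFun := fun v => ⟨v.1.1, v.2, mem_perp_u.mp v.1.2⟩
      left_inv := fun w => rfl
      right_inv := fun v => rfl }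

theorem card_Q3 (hB : B.ND) {q : ℕ} (hF : Fintype.card F = q ^ 2) (hσ : orderOf σ = 2) (hq : ∀ a, σ a = a ^ q) (hn : finrank F V = 3)
    {u : V} (hu : B.h u u = 1) : Nat.card {w : V // B.h w w = 1 ∧ (B.h w u * σ (B.h w u) = 1 ∧ w ≠ B.h w u • u)} = (q + 1) * ((q + 1) * (q ^ 2 - 1)) := by
  haveI : Finite V := Module.finite_of_finite F
  obtain ⟨h1, h3⟩ := perp_facts hB hσ hn hu
  have h4 := h1.card_zero hF hσ hq h3
  rw [if_pos (by decide)] at h4
  set P := B.perp (Submodule.span F {u}) with hP
  have h5 : Nat.card {v : P // (B.res P).h v v = 0 ∧ v ≠ 0} = (q + 1) * (q ^ 2 - 1) := by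
    have e1 : Nat.card {v : P // (B.res P).h v v = 0 ∧ v ≠ 0} = ({v : P | (B.res P).h v v = 0} \ {0}).ncard := rfl
    have e2 : Nat.card {v : P // (B.res P).h v v = 0} = ({v : P | (B.res P).h v v = 0}).ncard := rfl
    have e3 : (0 : P) ∈ {v : P | (B.res P).h v v = 0} := (B.res P).zero_left 0
    rw [e1, Set.ncard_diff_singleton_of_mem e3, ← e2, h4, Nat.add_sub_cancel]
    have e4 : q ^ (2 - 1) = q := by norm_num
    rw [e4]; ring
  rw [← h5, ← card_norm_sol hF hσ hq one_ne_zero (map_one σ), ← Nat.card_prod]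
  have hdec : ∀ (a : F) (v : V), B.h v u = 0 → B.h (a • u + v) u = a := by
    intro a v hv
    rw [B.add_left, B.smul_left, hu, hv]; ring
  have hnorm : ∀ (a : F) (v : V), B.h v u = 0 → B.h (a • u + v) (a • u + v) = a * σ a + B.h v v := by
    intro a v hv
    have hv' : B.h u v = 0 := B.eq_zero_comm.mp hv
    rw [B.add_left, B.add_right, B.add_right, B.smul_left, B.smul_left, B.smul_right, B.smul_right, hu, hv, hv']; ring
  refine Nat.card_congr
    { toFun := fun w => (⟨B.h w.1 u, w.2.2.1⟩, ⟨⟨w.1 - B.h w.1 u • u, mem_perp_u.mpr (by rw [B.sub_left, B.smul_left, hu, mul_one, sub_self])⟩, ?_, ?_⟩)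
      invFun := fun y => ⟨y.1.1 • u + (y.2.1 : V), ?_, ?_, ?_⟩
      left_inv := ?_
      right_inv := ?_ }
  · have e1 := hnorm (B.h w.1 u) (w.1 - B.h w.1 u • u) (by rw [B.sub_left, B.smul_left, hu, mul_one, sub_self])
    rw [add_sub_cancel, w.2.1, w.2.2.1] at e1
    show B.h (w.1 - B.h w.1 u • u) (w.1 - B.h w.1 u • u) = 0
    linear_combination -e1
  · intro h
    exact w.2.2.2 (sub_eq_zero.mp (congrArg Subtype.val h))
  · rw [hnorm _ _ (mem_perp_u.mp y.2.1.2), y.1.2]
    have : B.h (y.2.1 : V) (y.2.1 : V) = 0 := y.2.2.1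
    rw [this, add_zero]
  · rw [hdec _ _ (mem_perp_u.mp y.2.1.2)]
    exact y.1.2
  · rw [hdec _ _ (mem_perp_u.mp y.2.1.2)]
    intro h
    apply y.2.2.2
    apply Subtype.ext
    have : y.1.1 • u + (y.2.1 : V) = y.1.1 • u + 0 := by rw [add_zero]; exact h
    exact add_left_cancel this
  · intro w
    apply Subtype.ext
    show B.h w.1 u • u + (w.1 - B.h w.1 u • u) = w.1
    abel
  · rintro ⟨⟨a, ha⟩, ⟨⟨v, hv⟩, hv2⟩⟩
    have e1 := hdec a v (mem_perp_u.mp hv)
    apply Prod.ext
    · exact Subtype.ext e1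
    · apply Subtype.ext
      apply Subtype.ext
      show a • u + v - B.h (a • u + v) u • u = v
      rw [e1]; abel

end

end Cfsg.Agent.Lib.Su3
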