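import Mathlib
import Cfsg.Agent.Lib.Su4

/-! The commuting graph on the involutions of `SU_3(q)`, `q` odd: main theorem. -/

set_option linter.all false
set_option maxHeartbeats 1000000

namespace Cfsg.Agent.Lib.Su3

open Matrix Cfsg.Agent.Lib.Herm Module

variable {F : Type*} [Field F] [Fintype F] {V : Type*} [AddCommGroup V] [Module F V] [FiniteDimensional F V] {σ : F ≃+* F} {B : HF σ V}

theorem cnt {q : ℕ} (hF : Fintype.card F = q ^ 2) (hσ : orderOf σ = 2) (hq : ∀ a, σ a = a ^ q) (h2 : (2 : F) ≠ 0)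
    {G : Type*} [Group G] [Finite G] (e : G ≃* B.siso)
    (hform : ∀ x : G, x ≠ 1 → x * x = 1 → ∃ u, B.h u u = 1 ∧ IsT B u (e x).1)
    (hex : ∀ w : V, B.h w w = 1 → ∃ x : G, x ≠ 1 ∧ x * x = 1 ∧ IsT B w (e x).1)
    (R : G → Prop) (Q : V → Prop) (hRQ : ∀ x, x ≠ 1 → x * x = 1 → ∀ w, B.h w w = 1 → IsT B w (e x).1 → (R x ↔ Q w)) :
    (q + 1) * Nat.card {x : G // (x ≠ 1 ∧ x * x = 1) ∧ R x} = Nat.card {w : V // B.h w w = 1 ∧ Q w} := by
  classical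
  have e0 : (Σ x : {x : G // (x ≠ 1 ∧ x * x = 1) ∧ R x}, {w : V // B.h w w = 1 ∧ IsT B w (e x.1).1}) ≃ {w : V // B.h w w = 1 ∧ Q w} := by
    refine Equiv.ofBijective (fun y => ⟨y.2.1, y.2.2.1, (hRQ y.1.1 y.1.2.1.1 y.1.2.1.2 y.2.1 y.2.2.1 y.2.2.2).mp y.1.2.2⟩) ⟨?_, ?_⟩
    · rintro ⟨⟨x, hx⟩, ⟨w, hw1, hw2⟩⟩ ⟨⟨x', hx'⟩, ⟨w', hw1', hw2'⟩⟩ h
      have h1 : w = w' := congrArg Subtype.val h
      subst h1
      have h3 : x = x' := e.injective (Subtype.ext (hw2.unique hw2'))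
      subst h3
      rfl
    · rintro ⟨w, hw, hQ⟩
      obtain ⟨x, hx1, hx2, hx3⟩ := hex w hw
      exact ⟨⟨⟨x, ⟨hx1, hx2⟩, (hRQ x hx1 hx2 w hw hx3).mpr hQ⟩, ⟨w, hw, hx3⟩⟩, rfl⟩
  haveI : Fintype {x : G // (x ≠ 1 ∧ x * x = 1) ∧ R x} := Fintype.ofFinite _
  haveI : Finite V := Module.finite_of_finite F
  rw [← Nat.card_congr e0, Nat.card_sigma, Finset.sum_congr rfl (g := fun _ => q + 1)]
  · rw [Finset.sum_const, Finset.card_univ, smul_eq_mul, Nat.card_eq_fintype_card (α := {x : G // (x ≠ 1 ∧ x * x = 1) ∧ R x}), mul_comm]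
  · rintro ⟨x, ⟨hx1, hx2⟩, hx3⟩ _
    obtain ⟨w0, hw0, hg⟩ := hform x hx1 hx2
    exact card_fiber hF hσ hq h2 hw0 hg

theorem main2 (hB : B.ND) {q : ℕ} (hF : Fintype.card F = q ^ 2) (hσ : orderOf σ = 2) (hq : ∀ a, σ a = a ^ q)
    (h2 : (2 : F) ≠ 0) (hn : finrank F V = 3) {G : Type*} [Group G] (e : G ≃* B.siso) (t : G) (ht : t ≠ 1) (ht2 : t * t = 1) :
    Nat.card {x : G // x ≠ 1 ∧ x * x = 1 ∧ x ≠ t ∧ Commute t x} = q * (q - 1) ∧
    Nat.card {x : G // x ≠ 1 ∧ x * x = 1 ∧ ¬ Commute t x ∧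
        ∃ y : G, y ≠ 1 ∧ y * y = 1 ∧ Commute t y ∧ Commute y x} = q * (q - 2) * (q ^ 2 - 1) ∧
    Nat.card {x : G // x ≠ 1 ∧ x * x = 1 ∧ ¬ Commute t x ∧
        ∀ y : G, y ≠ 1 → y * y = 1 → ¬ (Commute t y ∧ Commute y x)} = (q + 1) * (q ^ 2 - 1) ∧
    ∀ x : G, x ≠ 1 → x * x = 1 →
      ∃ y z : G, y ≠ 1 ∧ y * y = 1 ∧ z ≠ 1 ∧ z * z = 1 ∧
        Commute t y ∧ Commute y z ∧ Commute z x := by
  classical
  haveI : Finite V := Module.finite_of_finite F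
  haveI : Finite (V ≃ₗ[F] V) := Finite.of_injective (fun g : V ≃ₗ[F] V => (g : V → V)) DFunLike.coe_injective
  haveI : Finite G := Finite.of_equiv _ e.symm.toEquiv
  obtain ⟨hσ2, hσ1, hσ3⟩ := sigma_facts hσ
  have hq1 := one_lt_q hF
  have hinj : ∀ a b : G, (e a).1 = (e b).1 → a = b := fun a b h => e.injective (Subtype.ext h)
  have hmul : ∀ a b : G, (e (a * b)).1 = (e a).1 * (e b).1 := fun a b => by rw [map_mul]; rfl
  have hone : (e 1).1 = 1 := by rw [map_one]; rfl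
  have hform : ∀ x : G, x ≠ 1 → x * x = 1 → ∃ u, B.h u u = 1 ∧ IsT B u (e x).1 := by
    intro x hx hxx
    apply inv_form hB hσ h2 hn (e x).2
    · intro h
      exact hx (hinj x 1 (by rw [h, hone]))
    · rw [← hmul, hxx, hone]
  obtain ⟨u, hu, hut⟩ := hform t ht ht2
  have hu0 : u ≠ 0 := by rintro rfl; rw [B.zero_left] at hu; exact zero_ne_one hu
  have hex : ∀ w : V, B.h w w = 1 → ∃ x : G, x ≠ 1 ∧ x * x = 1 ∧ IsT B w (e x).1 := by
    intro w hw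
    have hw0 : w ≠ 0 := by rintro rfl; rw [B.zero_left] at hw; exact zero_ne_one hw
    obtain ⟨k, hk, hk2⟩ := hB.witt hσ (k := 1) (v := fun _ => u) (w := fun _ => w) (LinearIndependent.of_subsingleton 0 hu0)
      (LinearIndependent.of_subsingleton 0 hw0) (fun i j => by rw [hu, hw])
    have hku : k u = w := hk2 0
    have hT := hut.conj hk
    rw [hku] at hT
    have hmem : k * (e t).1 * k⁻¹ ∈ B.siso := by
      refine ⟨B.iso.mul_mem (B.iso.mul_mem hk (e t).2.1) (B.iso.inv_mem hk), ?_⟩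
      show LinearEquiv.det (k * (e t).1 * k⁻¹) = 1
      have h1 : LinearEquiv.det (e t).1 = 1 := (e t).2.2
      rw [map_mul, map_mul, h1, mul_one, ← map_mul, mul_inv_cancel, map_one]
    have hval : (e (e.symm ⟨_, hmem⟩)).1 = k * (e t).1 * k⁻¹ := by rw [MulEquiv.apply_symm_apply]
    refine ⟨e.symm ⟨_, hmem⟩, ?_, ?_, ?_⟩
    · intro h
      rw [h, hone] at hval
      apply ht
      apply hinj
      rw [hone]
      calc (e t).1 = k⁻¹ * (k * (e t).1 * k⁻¹) * k := by group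
        _ = 1 := by rw [← hval]; group
    · apply hinj
      rw [hmul, hval, hone]
      calc k * (e t).1 * k⁻¹ * (k * (e t).1 * k⁻¹) = k * ((e t).1 * (e t).1) * k⁻¹ := by group
        _ = 1 := by rw [← hmul, ht2, hone]; group
    · rw [hval]; exact hT
  have hcm : ∀ a b : G, Commute a b ↔ (e a).1 * (e b).1 = (e b).1 * (e a).1 := by
    intro a b
    constructor
    · intro h
      rw [← hmul, ← hmul, h.eq]
    · intro h
      exact hinj _ _ (by rw [hmul, hmul, h])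
  -- commuting distinct
  have hco : ∀ a b : G, ∀ v w, B.h v v = 1 → B.h w w = 1 → IsT B v (e a).1 → IsT B w (e b).1 → Commute a b → a ≠ b → B.h w v = 0 := by
    intro a b v w hv hw ha hb hab hne
    exact commute_orth h2 hv hw ha hb ((hcm a b).mp hab) (fun h => hne (hinj _ _ h))
  have hoc : ∀ a b : G, ∀ v w, IsT B v (e a).1 → IsT B w (e b).1 → B.h v w = 0 → Commute a b := by
    intro a b v w ha hb h
    exact (hcm a b).mpr (orth_commute ha hb h)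
  have hR1 : ∀ x, x ≠ 1 → x * x = 1 → ∀ w, B.h w w = 1 → IsT B w (e x).1 → ((x ≠ t ∧ Commute t x) ↔ B.h w u = 0) := by
    intro x hx hxx w hw hwx
    constructor
    · rintro ⟨h1, h3⟩
      exact hco t x u w hu hw hut hwx h3 (Ne.symm h1)
    · intro h
      refine ⟨fun h1 => orth_ne h2 hw hwx hut h (by rw [h1]), (hoc x t w u hwx hut h).symm⟩
  have hCN : ∀ x, x ≠ 1 → x * x = 1 → ∀ w, B.h w w = 1 → IsT B w (e x).1 → ¬ Commute t x →
      ((∃ y : G, y ≠ 1 ∧ y * y = 1 ∧ Commute t y ∧ Commute y x) ↔ (B.h w u * σ (B.h w u) ≠ 1 ∨ w = B.h w u • u)) := by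
    intro x hx hxx w hw hwx hnc
    rw [← common hB hσ hn hu hw]
    constructor
    · rintro ⟨y, hy, hyy, hty, hyx⟩
      obtain ⟨z, hz, hzy⟩ := hform y hy hyy
      refine ⟨z, hz, hco t y u z hu hz hut hzy hty ?_, hco x y w z hw hz hwx hzy hyx.symm ?_⟩
      · rintro rfl; exact hnc hyx
      · rintro rfl; exact hnc hty
    · rintro ⟨z, hz, hzu, hzw⟩
      obtain ⟨y, hy, hyy, hzy⟩ := hex z hz
      exact ⟨y, hy, hyy, (hoc y t z u hzy hut hzu).symm, hoc y x z w hzy hwx hzw⟩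
  have hR3 : ∀ x, x ≠ 1 → x * x = 1 → ∀ w, B.h w w = 1 → IsT B w (e x).1 →
      ((¬ Commute t x ∧ ∀ y : G, y ≠ 1 → y * y = 1 → ¬ (Commute t y ∧ Commute y x)) ↔ (B.h w u * σ (B.h w u) = 1 ∧ w ≠ B.h w u • u)) := by
    intro x hx hxx w hw hwx
    constructor
    · rintro ⟨h1, h3⟩
      have h4 := (not_congr (hCN x hx hxx w hw hwx h1)).mp (by
        rintro ⟨y, hy, hyy, h5, h6⟩
        exact h3 y hy hyy ⟨h5, h6⟩)
      push Not at h4
      exact h4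
    · rintro ⟨h1, h3⟩
      have hnc : ¬ Commute t x := by
        intro hc
        by_cases hxt : x = t
        · subst hxt
          exact h3 (IsT.same h2 hu hw hut hwx).1
        · have := hco t x u w hu hw hut hwx hc (Ne.symm hxt)
          rw [this, zero_mul] at h1
          exact zero_ne_one h1
      refine ⟨hnc, ?_⟩
      rintro y hy hyy ⟨h5, h6⟩
      rcases (hCN x hx hxx w hw hwx hnc).mp ⟨y, hy, hyy, h5, h6⟩ with h7 | h7
      · exact h7 h1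
      · exact h3 h7
  have hN1 := cnt hF hσ hq h2 e hform hex (fun x => x ≠ t ∧ Commute t x) (fun w => B.h w u = 0) hR1
  rw [card_Q1 hB hF hσ hq hn hu] at hN1
  have hN3 := cnt hF hσ hq h2 e hform hex (fun x => ¬ Commute t x ∧ ∀ y : G, y ≠ 1 → y * y = 1 → ¬ (Commute t y ∧ Commute y x))
    (fun w => B.h w u * σ (B.h w u) = 1 ∧ w ≠ B.h w u • u) hR3
  rw [card_Q3 hB hF hσ hq hn hu] at hN3
  have hN3' := Nat.eq_of_mul_eq_mul_left (Nat.succ_pos q) hN3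
  obtain ⟨c, hc⟩ : ∃ c, q = c + 2 := ⟨q - 2, by omega⟩
  have hqq : q ^ 2 - 1 = (q + 1) * (q - 1) := by
    rw [hc, show c + 2 - 1 = c + 1 from rfl, show (c + 2) ^ 2 = (c + 2 + 1) * (c + 1) + 1 by ring, Nat.add_sub_cancel]
  have hN1' : Nat.card {x : G // (x ≠ 1 ∧ x * x = 1) ∧ (x ≠ t ∧ Commute t x)} = q * (q - 1) := by
    apply Nat.eq_of_mul_eq_mul_left (Nat.succ_pos q)
    rw [Nat.succ_eq_add_one, hN1, hqq]; ring
  have a1 : Nat.card {x : G // x ≠ 1 ∧ x * x = 1 ∧ x ≠ t ∧ Commute t x} = q * (q - 1) := by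
    rw [← hN1']
    exact Nat.card_congr (Equiv.subtypeEquivRight (fun x => by tauto))
  have a3 : Nat.card {x : G // x ≠ 1 ∧ x * x = 1 ∧ ¬ Commute t x ∧
        ∀ y : G, y ≠ 1 → y * y = 1 → ¬ (Commute t y ∧ Commute y x)} = (q + 1) * (q ^ 2 - 1) := by
    rw [← hN3']
    exact Nat.card_congr (Equiv.subtypeEquivRight (fun x => (and_assoc).symm))
  refine ⟨a1, ?_, a3, ?_⟩
  · have htot := (main hB hF hσ hq h2 hn e t ht ht2).2.1
    have s1 := split_card (fun x : G => x ≠ 1 ∧ x * x = 1) (fun x => x = t)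
    have s2 := split_card (fun x : G => (x ≠ 1 ∧ x * x = 1) ∧ ¬ x = t) (fun x => Commute t x)
    have s3 := split_card (fun x : G => ((x ≠ 1 ∧ x * x = 1) ∧ ¬ x = t) ∧ ¬ Commute t x)
      (fun x => ∃ y : G, y ≠ 1 ∧ y * y = 1 ∧ Commute t y ∧ Commute y x)
    have b1 : Nat.card {x : G // (x ≠ 1 ∧ x * x = 1) ∧ x = t} = 1 := by
      rw [Nat.card_eq_one_iff_unique]
      exact ⟨⟨fun a b => Subtype.ext (a.2.2.trans b.2.2.symm)⟩, ⟨⟨t, ⟨ht, ht2⟩, rfl⟩⟩⟩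
    have b2 : Nat.card {x : G // ((x ≠ 1 ∧ x * x = 1) ∧ ¬ x = t) ∧ Commute t x} = q * (q - 1) := by
      rw [← a1]
      exact Nat.card_congr (Equiv.subtypeEquivRight (fun x => by tauto))
    have hne : ∀ x, ¬ Commute t x → ¬ x = t := by
      rintro x h rfl
      exact h (Commute.refl _)
    have b3 : Nat.card {x : G // (((x ≠ 1 ∧ x * x = 1) ∧ ¬ x = t) ∧ ¬ Commute t x) ∧ ∃ y : G, y ≠ 1 ∧ y * y = 1 ∧ Commute t y ∧ Commute y x} =
        Nat.card {x : G // x ≠ 1 ∧ x * x = 1 ∧ ¬ Commute t x ∧ ∃ y : G, y ≠ 1 ∧ y * y = 1 ∧ Commute t y ∧ Commute y x} := by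
      apply Nat.card_congr
      apply Equiv.subtypeEquivRight
      intro x
      constructor
      · rintro ⟨⟨⟨⟨h1, h3⟩, h4⟩, h5⟩, h6⟩
        exact ⟨h1, h3, h5, h6⟩
      · rintro ⟨h1, h3, h5, h6⟩
        exact ⟨⟨⟨⟨h1, h3⟩, hne x h5⟩, h5⟩, h6⟩
    have b4 : Nat.card {x : G // (((x ≠ 1 ∧ x * x = 1) ∧ ¬ x = t) ∧ ¬ Commute t x) ∧ ¬ ∃ y : G, y ≠ 1 ∧ y * y = 1 ∧ Commute t y ∧ Commute y x} =
        (q + 1) * (q ^ 2 - 1) := by
      rw [← a3]
      apply Nat.card_congr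
      apply Equiv.subtypeEquivRight
      intro x
      constructor
      · rintro ⟨⟨⟨⟨h1, h3⟩, h4⟩, h5⟩, h6⟩
        exact ⟨h1, h3, h5, fun y hy hyy h => h6 ⟨y, hy, hyy, h.1, h.2⟩⟩
      · rintro ⟨h1, h3, h5, h6⟩
        refine ⟨⟨⟨⟨h1, h3⟩, hne x h5⟩, h5⟩, ?_⟩
        rintro ⟨y, hy, hyy, h7, h8⟩
        exact h6 y hy hyy ⟨h7, h8⟩
    rw [← b3]
    rw [b4] at s3
    rw [b2, s3] at s2
    rw [b1, s2, htot] at s1
    set N := Nat.card {x : G // (((x ≠ 1 ∧ x * x = 1) ∧ ¬ x = t) ∧ ¬ Commute t x) ∧ ∃ y : G, y ≠ 1 ∧ y * y = 1 ∧ Commute t y ∧ Commute y x} with hN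
    have e1 : q ^ 2 - q = (c + 2) * (c + 1) := by
      rw [hc, show (c + 2) ^ 2 = (c + 2) * (c + 1) + (c + 2) by ring, Nat.add_sub_cancel]
    have e2 : q ^ 2 - 1 = (c + 1) * (c + 3) := by
      rw [hc, show (c + 2) ^ 2 = (c + 1) * (c + 3) + 1 by ring, Nat.add_sub_cancel]
    rw [e1, e2] at s1
    rw [e2]
    have e3 : q - 1 = c + 1 := by omega
    have e4 : q - 2 = c := by omega
    rw [e3] at s1
    rw [e4]
    rw [hc] at s1 ⊢
    have key : (c + 2) ^ 2 * ((c + 2) * (c + 1) + 1) = 1 + ((c + 2) * (c + 1) + ((c + 2) * c * ((c + 1) * (c + 3)) + (c + 2 + 1) * ((c + 1) * (c + 3)))) := by ring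
    rw [key] at s1
    omega
  · intro x hx hxx
    obtain ⟨w, hw, hwx⟩ := hform x hx hxx
    by_cases hcn : ∃ z, B.h z z = 1 ∧ B.h z u = 0 ∧ B.h z w = 0
    · obtain ⟨z, hz, hzu, hzw⟩ := hcn
      obtain ⟨y, hy, hyy, hzy⟩ := hex z hz
      exact ⟨y, y, hy, hyy, hy, hyy, (hoc y t z u hzy hut hzu).symm, Commute.refl y, hoc y x z w hzy hwx hzw⟩
    · rw [common hB hσ hn hu hw] at hcn
      push Not at hcn
      obtain ⟨v, hv, hvu, hvw⟩ := exists_v hB hσ h2 hn hu hw hcn.1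
      obtain ⟨z, hz, hzv, hzw⟩ := (common hB hσ hn hv hw).mpr (Or.inl hvw)
      obtain ⟨y, hy, hyy, hvy⟩ := hex v hv
      obtain ⟨z', hz', hzz', hzz⟩ := hex z hz
      exact ⟨y, z', hy, hyy, hz', hzz', (hoc y t v u hvy hut hvu).symm, (hoc z' y z v hzz hvy hzv).symm, hoc z' x z w hzz hwx hzw⟩

end Cfsg.Agent.Lib.Su3
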