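import Cfsg.Agent.Lib.TwoRank
import Cfsg.Agent.S0215
import Cfsg.Agent.S0111
import Cfsg.Agent.S0112
import Cfsg.Agent.S0113

/-!
# Involutions with at most three involutions in their centralizer
-/

open Subgroup
open scoped commutatorElement Pointwise

namespace Cfsg.Agent.Lib.ThreeInv

open Cfsg.Agent.Lib Cfsg.Agent.Lib.PGrpA Cfsg.Agent.Lib.TwoRank

variable {G : Type*} [Group G]

/-- all involutions commuting with `x` are `x`, `y`, `xy` for any of them `y ≠ x` -/
def P3 (x : G) : Prop :=
  ∀ y w : G, x * y = y * x → x * w = w * x → y * y = 1 → w * w = 1 → y ≠ 1 → y ≠ x → w ≠ 1 →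
    w = x ∨ w = y ∨ w = x * y

theorem P3.conj {x : G} (h : P3 x) (g : G) : P3 (g * x * g⁻¹) := by
  intro y w hy hw hyy hww hy1 hyx hw1
  have key : ∀ v : G, g * x * g⁻¹ * v = v * (g * x * g⁻¹) → x * (g⁻¹ * v * g) = g⁻¹ * v * g * x := by
    intro v hv
    calc x * (g⁻¹ * v * g) = g⁻¹ * (g * x * g⁻¹ * v) * g := by group
      _ = g⁻¹ * (v * (g * x * g⁻¹)) * g := by rw [hv]
      _ = _ := by group
  have key2 : ∀ v : G, v * v = 1 → g⁻¹ * v * g * (g⁻¹ * v * g) = 1 := by
    intro v hv
    calc g⁻¹ * v * g * (g⁻¹ * v * g) = g⁻¹ * (v * v) * g := by group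
      _ = 1 := by rw [hv]; group
  have key3 : ∀ v u : G, g⁻¹ * v * g = u → v = g * u * g⁻¹ := by
    rintro v _ rfl; group
  rcases h _ _ (key y hy) (key w hw) (key2 y hyy) (key2 w hww) (fun h1 => hy1 (by rw [key3 y 1 h1]; group))
    (fun h1 => hyx (key3 y x h1)) (fun h1 => hw1 (by rw [key3 w 1 h1]; group)) with h1 | h1 | h1
  · exact Or.inl (key3 _ _ h1)
  · right; left; rw [key3 _ _ h1]; group
  · right; right; rw [key3 _ _ h1]; group

theorem p3_of_card [Finite G] {x : G} (hx : orderOf x = 2)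
    (h3 : Nat.card {u : ↥(Subgroup.centralizer ({x} : Set G)) // orderOf u = 2} ≤ 3) : P3 x := by
  classical
  intro y w hy hw hyy hww hy1 hyx hw1
  have hxx : x * x = 1 := by rw [← pow_two, ← hx, pow_orderOf_eq_one]
  have hx1 : x ≠ 1 := fun h => by rw [h, orderOf_one] at hx; norm_num at hx
  by_contra hcon
  push Not at hcon
  obtain ⟨hwx, hwy, hwxy⟩ := hcon
  have hmem : ∀ v, x * v = v * x → v ∈ Subgroup.centralizer ({x} : Set G) := fun v hv => by
    rw [mem_centralizer_singleton_iff]; exact hv.symm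
  have hord : ∀ v : G, v * v = 1 → v ≠ 1 → ∀ hv : v ∈ Subgroup.centralizer ({x} : Set G),
      orderOf (⟨v, hv⟩ : Subgroup.centralizer ({x} : Set G)) = 2 := by
    intro v hvv hv1 hv
    rw [← orderOf_coe]
    exact orderOf_eq_prime (by rw [pow_two]; exact hvv) hv1
  have hxy1 : x * y ≠ 1 := fun h => hyx (by
    have := congrArg (x * ·) h
    simp only [mul_one, ← mul_assoc, hxx, one_mul] at this
    exact this)
  have hxyxy : x * y * (x * y) = 1 := by
    calc x * y * (x * y) = x * (y * x) * y := by group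
      _ = x * (x * y) * y := by rw [hy]
      _ = (x * x) * (y * y) := by group
      _ = 1 := by rw [hxx, hyy, one_mul]
  have hxyc : x * (x * y) = x * y * x := by rw [mul_assoc, hy]
  let f : Fin 4 → {u : ↥(Subgroup.centralizer ({x} : Set G)) // orderOf u = 2} := fun i =>
    match i with
    | 0 => ⟨⟨x, hmem x rfl⟩, hord x hxx hx1 _⟩
    | 1 => ⟨⟨y, hmem y hy⟩, hord y hyy hy1 _⟩
    | 2 => ⟨⟨w, hmem w hw⟩, hord w hww hw1 _⟩
    | 3 => ⟨⟨x * y, hmem _ hxyc⟩, hord _ hxyxy hxy1 _⟩
  have hf : Function.Injective f := by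
    have hxyx : x * y ≠ x := fun h => hy1 (by simpa using h)
    have hxyy : x * y ≠ y := fun h => hx1 (by simpa using h)
    have hval : ∀ i j, f i = f j → ((f i).1 : G) = ((f j).1 : G) := fun i j h => by rw [h]
    intro i j hij
    have h1 := hval i j hij
    fin_cases i <;> fin_cases j <;> first
      | rfl
      | (exfalso; first
          | exact hyx h1
          | exact hyx h1.symm
          | exact hwx h1
          | exact hwx h1.symm
          | exact hwy h1
          | exact hwy h1.symm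
          | exact hwxy h1
          | exact hwxy h1.symm
          | exact hxyx h1
          | exact hxyx h1.symm
          | exact hxyy h1
          | exact hxyy h1.symm)
  have h4 := Nat.card_le_card_of_injective f hf
  rw [Nat.card_eq_fintype_card, Fintype.card_fin] at h4
  omega

theorem eq_of_cyclic {C : Type*} [Group C] [Finite C] [IsCyclic C] {u v : C} (hu : orderOf u = 2) (hv : orderOf v = 2) :
    u = v := by
  classical
  haveI := Fintype.ofFinite C
  have h1 := IsCyclic.card_orderOf_eq_totient (α := C) (d := 2) (by rw [← hu]; exact orderOf_dvd_card)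
  rw [Nat.totient_two] at h1
  exact Finset.card_le_one.mp h1.le u (by simpa using hu) v (by simpa using hv)

theorem relIndex_map {S : Subgroup G} (M : Subgroup S) : (M.map S.subtype).relIndex S = M.index := by
  rw [relIndex, ← comap_subtype, comap_map_eq_self_of_injective (subtype_injective _)]

/-- the cyclic case -/
theorem contra_cyclic [Finite G] (hno : ∀ H : Subgroup G, H.index ≠ 2) {x : G} (hx : orderOf x = 2) (S : Sylow 2 G)
    (hxS : x ∈ S) (H1 : ∀ g : G, ¬ ∀ s ∈ S, s * (g * x * g⁻¹) = g * x * g⁻¹ * s) (C : Subgroup S) (hC : IsCyclic C)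
    (hCi : C.index ≤ 2) : False := by
  have hxx : x * x = 1 := by rw [← pow_two, ← hx, pow_orderOf_eq_one]
  have hx1 : x ≠ 1 := fun h => by rw [h, orderOf_one] at hx; norm_num at hx
  have hi0 : C.index ≠ 0 := index_ne_zero_of_finite
  by_cases hi1 : C.index = 1
  · rw [index_eq_one] at hi1
    apply H1 1
    intro s hs
    have h1 : (⟨s, hs⟩ : S) ∈ C := by rw [hi1]; trivial
    have h2 : (⟨x, hxS⟩ : S) ∈ C := by rw [hi1]; trivial
    letI := IsCyclic.commGroup (α := C)
    have h3 : (⟨⟨s, hs⟩, h1⟩ : C) * ⟨⟨x, hxS⟩, h2⟩ = ⟨⟨x, hxS⟩, h2⟩ * ⟨⟨s, hs⟩, h1⟩ := mul_comm _ _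
    have h4 : s * x = x * s := congrArg (fun c : C => ((c : S) : G)) h3
    rw [one_mul, inv_one, mul_one]; exact h4
  · have hi2 : C.index = 2 := by omega
    have hCn : C.Normal := normal_of_index_eq_two hi2
    have hcen : ∀ c ∈ C, orderOf c = 2 → ∀ s : S, s * c = c * s := by
      intro c hc hco s
      have h1 : s * c * s⁻¹ ∈ C := hCn.conj_mem c hc s
      have h2 : orderOf (s * c * s⁻¹) = 2 :=
        (orderOf_injective (MulAut.conj s).toMonoidHom (MulAut.conj s).injective c).trans hco
      have h3 : (⟨_, h1⟩ : C) = ⟨c, hc⟩ := eq_of_cyclic (by rw [← orderOf_coe]; exact h2) (by rw [← orderOf_coe]; exact hco)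
      have h4 : s * c * s⁻¹ = c := congrArg Subtype.val h3
      calc s * c = s * c * s⁻¹ * s := by group
        _ = c * s := by rw [h4]
    have hkey : ∀ g : G, g * x * g⁻¹ ∈ C.map (S : Subgroup G).subtype → False := by
      rintro g ⟨c, hc, hcg⟩
      have h2 : orderOf (c : G) = 2 := by
        change (c : G) = _ at hcg
        rw [hcg, ← hx]
        exact (orderOf_injective (MulAut.conj g).toMonoidHom (MulAut.conj g).injective x)
      have h3 := hcen c hc (by rw [← orderOf_coe]; exact h2)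
      apply H1 g
      intro s hs
      have h4 := h3 ⟨s, hs⟩
      have h5 : s * (c : G) = c * s := congrArg Subtype.val h4
      change (c : G) = _ at hcg
      rw [← hcg]; exact h5
    have hxQ : x ∉ C.map (S : Subgroup G).subtype := fun h => hkey 1 (by rw [one_mul, inv_one, mul_one]; exact h)
    rcases Cfsg.Agent.S0111.result S (C.map (S : Subgroup G).subtype) (map_subtype_le _)
      (by rw [relIndex_map]; exact hi2) x hx hxS hxQ with ⟨M, -, hM, -⟩ | ⟨g, hg⟩
    · exact hno M hM
    · exact hkey g hg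

/-- the four-group case -/
theorem central_of [Finite G] (hno : ∀ H : Subgroup G, H.index ≠ 2)
    (hiso : ∀ (P : Sylow 2 G) (u : G), orderOf u = 2 → u ∈ P → ∃ g : G, g * u * g⁻¹ ∈ P ∧ g * u * g⁻¹ ≠ u)
    {x : G} (hx : orderOf x = 2) (h3 : P3 x) : ∃ S : Sylow 2 G, (S : Subgroup G) ≤ centralizer ({x} : Set G) := by
  by_contra hcon
  push Not at hcon
  have hxx : x * x = 1 := by rw [← pow_two, ← hx, pow_orderOf_eq_one]
  have hx1 : x ≠ 1 := fun h => by rw [h, orderOf_one] at hx; norm_num at hx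
  obtain ⟨S, hxS⟩ : ∃ S : Sylow 2 G, x ∈ S := by
    have h1 : IsPGroup 2 (zpowers x) := IsPGroup.of_card (n := 1) (by rw [Nat.card_zpowers, hx, pow_one])
    obtain ⟨S, hS⟩ := h1.exists_le_sylow
    exact ⟨S, hS (mem_zpowers x)⟩
  have H1 : ∀ g : G, ¬ ∀ s ∈ S, s * (g * x * g⁻¹) = g * x * g⁻¹ * s := by
    intro g hg
    apply hcon (g⁻¹ • S)
    rintro _ ⟨s, hs, rfl⟩
    rw [mem_centralizer_singleton_iff]
    have h1 := hg s hs
    change g⁻¹ * s * g⁻¹⁻¹ * x = x * (g⁻¹ * s * g⁻¹⁻¹)
    calc g⁻¹ * s * g⁻¹⁻¹ * x = g⁻¹ * (s * (g * x * g⁻¹)) * g := by group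
      _ = g⁻¹ * (g * x * g⁻¹ * s) * g := by rw [h1]
      _ = _ := by group
  have hSp := S.isPGroup'
  -- the central involution
  obtain ⟨z, hzS, hz1, hzz, hzc⟩ : ∃ z ∈ S, z ≠ 1 ∧ z * z = 1 ∧ ∀ s ∈ S, s * z = z * s := by
    haveI : Nontrivial (S : Subgroup G) := ⟨⟨x, hxS⟩, 1, fun h => hx1 (congrArg Subtype.val h)⟩
    obtain ⟨Z, -, hZc, hZ2⟩ := exists_normal_card_prime hSp (N := (⊤ : Subgroup (S : Subgroup G))) top_ne_bot
    have hZb : Z ≠ ⊥ := by rintro rfl; rw [card_bot] at hZ2; norm_num at hZ2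
    obtain ⟨⟨w, hw⟩, hw1⟩ := Subgroup.ne_bot_iff_exists_ne_one.mp hZb
    have hw1' : w ≠ 1 := fun h => hw1 (Subtype.ext h)
    refine ⟨w, w.2, fun h => hw1' (Subtype.ext h), ?_, fun s hs => ?_⟩
    · have h1 : (⟨w, hw⟩ : Z) ^ Nat.card Z = 1 := pow_card_eq_one'
      rw [hZ2, pow_two] at h1
      exact congrArg (fun c : Z => ((c : (S : Subgroup G)) : G)) h1
    · exact congrArg Subtype.val (mem_center_iff.mp (hZc hw) ⟨s, hs⟩)
  have hzx : z ≠ x := fun h => H1 1 (by
    intro s hs
    rw [one_mul, inv_one, mul_one, ← h]; exact hzc s hs)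
  have hzu : ∀ w ∈ S, w * w = 1 → w ≠ 1 → (∀ s ∈ S, s * w = w * s) → w = z := by
    intro w hw hww hw1 hwc
    rcases h3 z w (hzc x hxS) (hwc x hxS) hzz hww hz1 hzx hw1 with h | h | h
    · exfalso
      apply H1 1
      intro s hs
      rw [one_mul, inv_one, mul_one, ← h]; exact hwc s hs
    · exact h
    · exfalso
      apply H1 1
      intro s hs
      have h4 : x = w * z := by rw [h, mul_assoc, hzz, mul_one]
      rw [one_mul, inv_one, mul_one, h4, ← mul_assoc, hwc s hs, mul_assoc, hzc s hs, mul_assoc]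
  by_cases hV : ∃ V : Subgroup (S : Subgroup G), V.Normal ∧ Nat.card V = 4 ∧ ∀ v ∈ V, v ^ 2 = 1
  swap
  · obtain ⟨a, -, ha⟩ := cyclic_of_no_four hSp (fun V h1 h2 h4 => hV ⟨V, h1, h2, h4⟩)
    exact contra_cyclic hno hx S hxS H1 (zpowers a) inferInstance ha
  obtain ⟨V, hVn, hV4, hV2⟩ := hV
  set z' : (S : Subgroup G) := ⟨z, hzS⟩ with hz'
  have hz'1 : z' ≠ 1 := fun h => hz1 (congrArg Subtype.val h)
  have hz'z : z' * z' = 1 := Subtype.ext hzz
  have hz'c : ∀ s : (S : Subgroup G), s * z' = z' * s := fun s => Subtype.ext (hzc s s.2)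
  have hzV : z' ∈ V := by
    have hVb : V ≠ ⊥ := by rintro rfl; rw [card_bot] at hV4; norm_num at hV4
    obtain ⟨Z, hZV, hZc, hZ2⟩ := exists_normal_card_prime hSp hVb
    have hZb : Z ≠ ⊥ := by rintro rfl; rw [card_bot] at hZ2; norm_num at hZ2
    obtain ⟨⟨w, hw⟩, hw1⟩ := Subgroup.ne_bot_iff_exists_ne_one.mp hZb
    have hw1' : w ≠ 1 := fun h => hw1 (Subtype.ext h)
    have h1 : (w : G) = z := hzu w w.2 (by
      have := hV2 w (hZV hw)
      rw [pow_two] at this
      exact congrArg Subtype.val this) (fun h => hw1' (Subtype.ext h))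
      (fun s hs => congrArg Subtype.val (mem_center_iff.mp (hZc hw) ⟨s, hs⟩))
    have h2 : w = z' := Subtype.ext h1
    rw [← h2]; exact hZV hw
  obtain ⟨v, hvV, hv1, hvz⟩ : ∃ v ∈ V, v ≠ 1 ∧ v ≠ z' := by
    by_contra h
    push Not at h
    have h1 : V ≤ zpowers z' := by
      intro w hw
      by_cases hw1 : w = 1
      · rw [hw1]; exact one_mem _
      · rw [h w hw hw1]; exact mem_zpowers z'
    have h2 := card_le_of_le h1
    rw [hV4, Nat.card_zpowers, orderOf_eq_prime (by rw [pow_two]; exact hz'z) hz'1] at h2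
    norm_num at h2
  have hvv : v * v = 1 := by rw [← pow_two]; exact hV2 v hvV
  set M : Subgroup (S : Subgroup G) := centralizer (V : Set (S : Subgroup G)) with hM
  have hMi : M.index = 2 := by
    have h1 : M.index ≤ 2 := by
      have h1 := PGrpB.index_centralizer_le hSp 2 V hVn (by rw [hV4]; norm_num)
      norm_num at h1
      exact h1
    have h2 : M.index ≠ 1 := by
      intro h2
      rw [index_eq_one] at h2
      apply hvz
      apply Subtype.ext
      refine hzu v v.2 (congrArg Subtype.val hvv) (fun h => hv1 (Subtype.ext h)) fun s hs => ?_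
      have h4 : (⟨s, hs⟩ : (S : Subgroup G)) ∈ M := by rw [h2]; trivial
      exact (congrArg Subtype.val (mem_centralizer_iff.mp h4 v hvV)).symm
    have h3 : M.index ≠ 0 := index_ne_zero_of_finite
    omega
  -- a conjugate of `x` in `M`
  obtain ⟨g, u, huM, hu⟩ : ∃ (g : G) (u : (S : Subgroup G)), u ∈ M ∧ (u : G) = g * x * g⁻¹ := by
    by_cases hxM : (⟨x, hxS⟩ : (S : Subgroup G)) ∈ M
    · exact ⟨1, ⟨x, hxS⟩, hxM, by group⟩
    · rcases Cfsg.Agent.S0111.result S (M.map (S : Subgroup G).subtype) (map_subtype_le _)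
        (by rw [relIndex_map]; exact hMi) x hx hxS (by
          rintro ⟨w, hw, hwx⟩
          apply hxM
          have : (⟨x, hxS⟩ : (S : Subgroup G)) = w := Subtype.ext hwx.symm
          rw [this]; exact hw) with ⟨N, -, hN, -⟩ | ⟨g, w, hw, hwg⟩
      · exact absurd hN (hno N)
      · exact ⟨g, w, hw, hwg⟩
  have P3u : P3 (u : G) := by rw [hu]; exact h3.conj g
  have huconj : ∀ w : (S : Subgroup G), (∀ s : (S : Subgroup G), s * w = w * s) → ∀ k : G, (w : G) ≠ k * u * k⁻¹ := by
    intro w hw k hk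
    apply H1 (k * g)
    intro s hs
    have h4 : k * g * x * (k * g)⁻¹ = w := by rw [hk, hu]; group
    rw [h4]
    exact congrArg Subtype.val (hw ⟨s, hs⟩)
  have huz : z' ≠ u := fun h => huconj z' hz'c 1 (by rw [h]; group)
  have hu1 : u ≠ 1 := by
    intro h
    rw [h] at hu
    have : x = g⁻¹ * 1 * g := by
      change (1 : G) = _ at hu
      rw [hu]; group
    exact hx1 (by rw [this]; group)
  have huu : u * u = 1 := by
    apply Subtype.ext
    change (u : G) * u = 1
    rw [hu]
    calc g * x * g⁻¹ * (g * x * g⁻¹) = g * (x * x) * g⁻¹ := by group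
      _ = 1 := by rw [hxx]; group
  have huv : ∀ w ∈ V, u * w = w * u := fun w hw => (mem_centralizer_iff.mp huM w hw).symm
  -- involutions commuting with `u`
  have hinv : ∀ w : (S : Subgroup G), u * w = w * u → w * w = 1 → w ≠ 1 → w = u ∨ w = z' ∨ w = u * z' := by
    intro w hw hww hw1
    rcases P3u z' w (congrArg Subtype.val (hz'c u)) (congrArg Subtype.val hw) hzz (congrArg Subtype.val hww) hz1
      (fun h => huz (Subtype.ext h)) (fun h => hw1 (Subtype.ext h)) with h | h | h
    · exact Or.inl (Subtype.ext h)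
    · exact Or.inr (Or.inl (Subtype.ext h))
    · exact Or.inr (Or.inr (Subtype.ext h))
  have huV : u ∈ V := by
    rcases hinv v (huv v hvV) hvv hv1 with h | h | h
    · rw [← h]; exact hvV
    · exact absurd h hvz
    · have : u = v * z' := by rw [h, mul_assoc, hz'z, mul_one]
      rw [this]; exact mul_mem hvV hzV
  have hVel : ∀ w, w ∈ V → w = 1 ∨ w = z' ∨ w = u ∨ w = z' * u := by
    obtain ⟨W, hW4, hW⟩ := exists_four hz'z huu (hz'c u).symm hz'1 hu1 huz
    have h1 : W ≤ V := by
      intro w hw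
      rcases (hW w).mp hw with rfl | rfl | rfl | rfl
      · exact one_mem V
      · exact hzV
      · exact huV
      · exact mul_mem hzV huV
    have h2 : W = V := eq_of_le_of_card_ge h1 (by rw [hW4, hV4])
    intro w hw
    exact (hW w).mp (h2 ▸ hw)
  have hMu : ∀ s : (S : Subgroup G), s ∈ M ↔ u * s = s * u := by
    intro s
    constructor
    · intro hs; exact mem_centralizer_iff.mp hs u huV
    · intro hs
      rw [hM, mem_centralizer_iff]
      intro w hw
      rcases hVel w hw with rfl | rfl | rfl | rfl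
      · rw [one_mul, mul_one]
      · exact (hz'c s).symm
      · exact hs
      · rw [mul_assoc, hs, ← mul_assoc, ← hz'c s, mul_assoc]
  -- `u` and `uz` are conjugate
  obtain ⟨s₀, hs₀⟩ : ∃ s : (S : Subgroup G), s ∉ M := by
    by_contra h
    push Not at h
    have : M = ⊤ := by rw [eq_top_iff]; exact fun s _ => h s
    rw [this, index_top] at hMi
    norm_num at hMi
  have hs₀u : s₀ * u * s₀⁻¹ = z' * u := by
    rcases hVel _ (hVn.conj_mem u huV s₀) with h | h | h | h
    · exfalso
      apply hu1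
      calc u = s₀⁻¹ * (s₀ * u * s₀⁻¹) * s₀ := by group
        _ = 1 := by rw [h]; group
    · exfalso
      apply huz
      symm
      calc u = s₀⁻¹ * (s₀ * u * s₀⁻¹) * s₀ := by group
        _ = z' := by rw [h, mul_assoc, ← hz'c, inv_mul_cancel_left]
    · exfalso
      apply hs₀
      rw [hMu]
      calc u * s₀ = s₀ * u * s₀⁻¹ * s₀ := by rw [h]
        _ = s₀ * u := by group
    · exact h
  -- conjugates of `z` commuting with `u`
  have hzM : ∀ w : (S : Subgroup G), u * w = w * u → (∃ k : G, (w : G) = k * z * k⁻¹) → w = z' := by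
    rintro w hw ⟨k, hk⟩
    have hww : w * w = 1 := by
      apply Subtype.ext
      change (w : G) * w = 1
      rw [hk]
      calc k * z * k⁻¹ * (k * z * k⁻¹) = k * (z * z) * k⁻¹ := by group
        _ = 1 := by rw [hzz]; group
    have hw1 : w ≠ 1 := by
      intro h
      rw [h] at hk
      apply hz1
      change (1 : G) = _ at hk
      calc z = k⁻¹ * (k * z * k⁻¹) * k := by group
        _ = 1 := by rw [← hk]; group
    rcases hinv w hw hww hw1 with h | h | h
    · exfalso
      refine huconj z' hz'c k⁻¹ ?_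
      rw [← h, hk]
      change z = _
      group
    · exact h
    · exfalso
      refine huconj z' hz'c (k⁻¹ * s₀) ?_
      have h4 : (s₀ : G) * u * (s₀ : G)⁻¹ = w := by
        have h5 := congrArg Subtype.val hs₀u
        change (s₀ : G) * u * (s₀ : G)⁻¹ = _ at h5
        rw [h5, h, hz'c]
      calc (z' : G) = k⁻¹ * (k * z * k⁻¹) * k := by change z = _; group
        _ = k⁻¹ * w * k := by rw [hk]
        _ = k⁻¹ * ((s₀ : G) * u * (s₀ : G)⁻¹) * k := by rw [h4]
        _ = _ := by group
  have hzo : orderOf z = 2 := orderOf_eq_prime (by rw [pow_two]; exact hzz) hz1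
  obtain ⟨k, hkS, hkne⟩ := hiso S z hzo hzS
  set t : (S : Subgroup G) := ⟨k * z * k⁻¹, hkS⟩ with ht
  have htz : t ≠ z' := fun h => hkne (congrArg Subtype.val h)
  have htu : ¬ u * t = t * u := fun h => htz (hzM t h ⟨k, rfl⟩)
  have htt : t * t = 1 := by
    apply Subtype.ext
    change k * z * k⁻¹ * (k * z * k⁻¹) = 1
    calc k * z * k⁻¹ * (k * z * k⁻¹) = k * (z * z) * k⁻¹ := by group
      _ = 1 := by rw [hzz]; group
  have ht1 : t ≠ 1 := fun h => htu (by rw [h, mul_one, one_mul])
  -- alignment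
  obtain ⟨c, hcz, hcS⟩ : ∃ c : G, c * z * c⁻¹ = t ∧ ∀ r : (S : Subgroup G), r * t = t * r → c⁻¹ * r * c ∈ S := by
    have hle : ((k • S : Sylow 2 G) : Subgroup G) ≤ centralizer ({(t : G)} : Set G) := by
      rintro _ ⟨s, hs, rfl⟩
      rw [mem_centralizer_singleton_iff]
      have h4 := hzc s hs
      change k * s * k⁻¹ * (k * z * k⁻¹) = k * z * k⁻¹ * (k * s * k⁻¹)
      calc k * s * k⁻¹ * (k * z * k⁻¹) = k * (s * z) * k⁻¹ := by group
        _ = k * (z * s) * k⁻¹ := by rw [h4]
        _ = _ := by group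
    have hR : IsPGroup 2 (((S : Subgroup G) ⊓ centralizer ({(t : G)} : Set G)).subgroupOf (centralizer ({(t : G)} : Set G))) :=
      (hSp.to_le inf_le_left).of_equiv (subgroupOfEquivOfLe inf_le_right).symm
    obtain ⟨P, hP⟩ := hR.exists_le_sylow
    obtain ⟨d, hd⟩ := MulAction.exists_smul_eq (centralizer ({(t : G)} : Set G)) P ((k • S).subtype hle)
    refine ⟨(d : G)⁻¹ * k, ?_, ?_⟩
    · have hdt : (d : G) * t = t * d := mem_centralizer_singleton_iff.mp d.2
      calc (d : G)⁻¹ * k * z * ((d : G)⁻¹ * k)⁻¹ = (d : G)⁻¹ * (k * z * k⁻¹) * d := by group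
        _ = (d : G)⁻¹ * (t * d) := by rw [mul_assoc]
        _ = t := by rw [← hdt, inv_mul_cancel_left]
    · intro r hr
      have hrc : (r : G) ∈ centralizer ({(t : G)} : Set G) := mem_centralizer_singleton_iff.mpr (congrArg Subtype.val hr)
      have h4 : (⟨r, hrc⟩ : centralizer ({(t : G)} : Set G)) ∈ P := hP (by
        rw [mem_subgroupOf]
        exact ⟨r.2, hrc⟩)
      have h5 : d * ⟨r, hrc⟩ * d⁻¹ ∈ (k • S).subtype hle := by
        rw [← hd]
        exact ⟨_, h4, rfl⟩
      have h6 : (d : G) * r * (d : G)⁻¹ ∈ ((k • S : Sylow 2 G) : Subgroup G) := h5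
      obtain ⟨s, hs, hsd⟩ := h6
      change k * s * k⁻¹ = _ at hsd
      have h7 : ((d : G)⁻¹ * k)⁻¹ * r * ((d : G)⁻¹ * k) = s := by
        calc ((d : G)⁻¹ * k)⁻¹ * r * ((d : G)⁻¹ * k) = k⁻¹ * ((d : G) * r * (d : G)⁻¹) * k := by group
          _ = k⁻¹ * (k * s * k⁻¹) * k := by rw [hsd]
          _ = s := by group
      rw [h7]; exact hs
  have hsq : ∀ y : (S : Subgroup G), u * (y * y) = y * y * u := fun y =>
    (hMu _).mp ((mul_mem_iff_of_index_two hMi).mpr Iff.rfl)
  -- the small centralizer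
  have hD : ∀ d : (S : Subgroup G), d * t = t * d → u * d = d * u → d = 1 ∨ d = z' := by
    intro d hdt hdu
    by_contra hcon2
    push Not at hcon2
    obtain ⟨hd1, hdz⟩ := hcon2
    obtain ⟨n, hn⟩ := (IsPGroup.iff_orderOf.mp hSp) d
    rcases Nat.eq_zero_or_pos n with h0 | h0
    · rw [h0, pow_zero, orderOf_eq_one_iff] at hn
      exact hd1 hn
    obtain ⟨j, rfl⟩ := Nat.exists_eq_succ_of_ne_zero h0.ne'
    have hee : d ^ 2 ^ j * d ^ 2 ^ j = 1 := by
      rw [← pow_add, ← two_mul, ← pow_succ', ← Nat.succ_eq_add_one, ← hn, pow_orderOf_eq_one]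
    have he1 : d ^ 2 ^ j ≠ 1 := by
      intro h
      have h4 := orderOf_dvd_of_pow_eq_one h
      rw [hn] at h4
      have h5 := Nat.le_of_dvd (by positivity) h4
      rw [Nat.pow_le_pow_iff_right (by norm_num)] at h5
      omega
    have hde : d ^ 2 ^ j * t = t * d ^ 2 ^ j := ((show Commute d t from hdt).pow_left _).eq
    have hez : d ^ 2 ^ j = z' := by
      rcases hinv (d ^ 2 ^ j) ((show Commute u d from hdu).pow_right _).eq hee he1 with h | h | h
      · exfalso; rw [h] at hde; exact htu hde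
      · exact h
      · exfalso
        apply htu
        have h4 : u = d ^ 2 ^ j * z' := by rw [h, mul_assoc, hz'z, mul_one]
        rw [h4, mul_assoc, ← hz'c t, ← mul_assoc, hde, mul_assoc]
    have hwS : c⁻¹ * z * c ∈ S := hcS z' (hz'c t).symm
    have hyS : c⁻¹ * d * c ∈ S := hcS d hdt
    have hwz : (⟨c⁻¹ * z * c, hwS⟩ : (S : Subgroup G)) ≠ z' := by
      intro h
      have h4 : c⁻¹ * z * c = z := congrArg Subtype.val h
      apply htz
      apply Subtype.ext
      rw [← hcz]
      change c * z * c⁻¹ = z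
      calc c * z * c⁻¹ = c * (c⁻¹ * z * c) * c⁻¹ := by rw [h4]
        _ = z := by group
    apply hwz
    refine hzM _ ?_ ⟨c⁻¹, by group⟩
    cases j with
    | zero =>
      exfalso
      rw [pow_zero, pow_one] at hez
      exact hdz hez
    | succ i =>
      have h4 : (⟨c⁻¹ * z * c, hwS⟩ : (S : Subgroup G)) =
          (⟨c⁻¹ * d * c, hyS⟩ : (S : Subgroup G)) ^ 2 ^ i * (⟨c⁻¹ * d * c, hyS⟩ : (S : Subgroup G)) ^ 2 ^ i := by
        rw [← pow_add, ← two_mul, ← pow_succ']
        apply Subtype.ext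
        change c⁻¹ * z * c = (c⁻¹ * (d : G) * c) ^ 2 ^ (i + 1)
        have h5 : (d : G) ^ 2 ^ (i + 1) = z := congrArg Subtype.val hez
        have h6 : (c⁻¹ * (d : G) * c) ^ 2 ^ (i + 1) = c⁻¹ * (d : G) ^ 2 ^ (i + 1) * c := by
          have := conj_pow (i := 2 ^ (i + 1)) (a := c⁻¹) (b := (d : G))
          rwa [inv_inv] at this
        rw [h6, h5]
      rw [h4]
      exact hsq _
  have hR : ∀ r : (S : Subgroup G), r * t = t * r → r = 1 ∨ r = z' ∨ r = t ∨ r = z' * t := by
    intro r hr
    by_cases hru : u * r = r * u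
    · rcases hD r hr hru with h | h
      · exact Or.inl h
      · exact Or.inr (Or.inl h)
    · have h4 : r * t ∈ M := (mul_mem_iff_of_index_two hMi).mpr
        ⟨fun h => absurd ((hMu r).mp h) hru, fun h => absurd ((hMu t).mp h) htu⟩
      rcases hD (r * t) (by rw [← mul_assoc, ← hr]) ((hMu _).mp h4) with h | h
      · right; right; left
        calc r = r * t * t := by rw [mul_assoc, htt, mul_one]
          _ = t := by rw [h, one_mul]
      · right; right; right
        calc r = r * t * t := by rw [mul_assoc, htt, mul_one]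
          _ = z' * t := by rw [h]
  obtain ⟨A, hA4, hA⟩ := exists_four hz'z htt (hz'c t).symm hz'1 ht1 htz.symm
  have hAC : centralizer (A : Set (S : Subgroup G)) = A := by
    ext r
    rw [mem_centralizer_iff]
    constructor
    · intro h
      rw [hA]
      exact hR r (h t ((hA t).mpr (Or.inr (Or.inr (Or.inl rfl))))).symm
    · intro h w hw
      have hcomm : ∀ a b : (S : Subgroup G), a ∈ A → b ∈ A → a * b = b * a := by
        intro a b ha hb
        have h5 : ∀ y, y ∈ A → y * t = t * y := by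
          intro y hy
          rcases (hA y).mp hy with rfl | rfl | rfl | rfl
          · rw [one_mul, mul_one]
          · exact (hz'c t).symm
          · rfl
          · calc z' * t * t = t * z' * t := by rw [← hz'c t]
              _ = t * (z' * t) := mul_assoc _ _ _
        rcases (hA b).mp hb with rfl | rfl | rfl | rfl
        · rw [one_mul, mul_one]
        · exact hz'c a
        · exact h5 a ha
        · rw [← mul_assoc, hz'c a, mul_assoc, h5 a ha, mul_assoc]
      exact hcomm w r hw h
  obtain ⟨n, hn⟩ := hSp.exists_card_eq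
  have hn3 : 3 ≤ n := by
    by_contra hlt
    have h4 : n ≤ 2 := by omega
    have h5 : Nat.card (S : Subgroup G) ≤ 4 := by
      rw [hn]
      exact (Nat.pow_le_pow_right (by norm_num) h4)
    have h6 : A = ⊤ := eq_top_of_le_card A (by rw [hA4]; exact h5)
    apply htu
    have h7 : u ∈ centralizer (A : Set (S : Subgroup G)) := by rw [hAC, h6]; trivial
    exact (mem_centralizer_iff.mp h7 t ((hA t).mpr (Or.inr (Or.inr (Or.inl rfl))))).symm
  have hcl := Cfsg.Agent.S0112.result (p := 2) n hn A (by rw [hA4]; norm_num) hAC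
  obtain ⟨C, hCc, hC2⟩ := Cfsg.Agent.S0113.result n hn3 hn hcl
  exact contra_cyclic hno hx S hxS H1 C hCc hC2.le

/-- S3279 -/
theorem main [Finite G] [IsSimpleGroup G] {x : G} (hx : orderOf x = 2) (h3 : P3 x) :
    (∃ S : Sylow 2 G, (S : Subgroup G) ≤ centralizer ({x} : Set G)) ∧
      ∀ u v : G, orderOf u = 2 → orderOf v = 2 → IsConj u v := by
  classical
  have hx1 : x ≠ 1 := fun h => by rw [h, orderOf_one] at hx; norm_num at hx
  by_cases hno : ∃ H : Subgroup G, H.index = 2
  · obtain ⟨H, hH⟩ := hno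
    have hHn : H.Normal := normal_of_index_eq_two hH
    have hHb : H = ⊥ := by
      rcases hHn.eq_bot_or_eq_top with h | h
      · exact h
      · rw [h, index_top] at hH; norm_num at hH
    rw [hHb, index_bot] at hH
    have hall : ∀ g : G, g = 1 ∨ g = x := by
      intro g
      by_contra hcon
      push Not at hcon
      have h4 : ({1, x, g} : Finset G).card ≤ Nat.card G := by
        haveI := Fintype.ofFinite G
        rw [Nat.card_eq_fintype_card]
        exact Finset.card_le_univ _
      rw [Finset.card_insert_of_notMem, Finset.card_insert_of_notMem, Finset.card_singleton, hH] at h4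
      · norm_num at h4
      · rw [Finset.mem_singleton]; exact fun h => hcon.2 h.symm
      · simp only [Finset.mem_insert, Finset.mem_singleton, not_or]
        exact ⟨fun h => hx1 h.symm, fun h => hcon.1 h.symm⟩
    refine ⟨⟨default, fun y _ => ?_⟩, fun u v hu hv => ?_⟩
    · rw [mem_centralizer_singleton_iff]
      rcases hall y with rfl | rfl
      · rw [one_mul, mul_one]
      · rfl
    · have h5 : ∀ w : G, orderOf w = 2 → w = x := by
        intro w hw
        rcases hall w with rfl | rfl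
        · rw [orderOf_one] at hw; norm_num at hw
        · rfl
      rw [h5 u hu, h5 v hv]
  push Not at hno
  have hiso : ∀ (P : Sylow 2 G) (u : G), orderOf u = 2 → u ∈ P → ∃ g : G, g * u * g⁻¹ ∈ P ∧ g * u * g⁻¹ ≠ u := by
    intro P u hu huP
    by_contra hcon
    push Not at hcon
    obtain ⟨N, hNn, hNo, hN⟩ := Cfsg.Agent.S0215.result P u hu huP hcon
    have hev : Even (Nat.card G) := by
      rw [even_iff_two_dvd, ← hu]; exact orderOf_dvd_natCard u
    have hNb : N = ⊥ := by
      rcases hNn.eq_bot_or_eq_top with h | h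
      · exact h
      · rw [h, card_top] at hNo
        exact absurd hNo (Nat.not_odd_iff_even.mpr hev)
    have hcen : ∀ g : G, g * u = u * g := by
      intro g
      have h4 := hN g
      rw [hNb, mem_bot] at h4
      calc g * u = (u * g * u⁻¹ * g⁻¹)⁻¹ * (u * g) := by group
        _ = u * g := by rw [h4, inv_one, one_mul]
    have hun : (zpowers u).Normal := by
      refine ⟨fun y hy g => ?_⟩
      obtain ⟨k, rfl⟩ := mem_zpowers_iff.mp hy
      have h4 : g * u ^ k = u ^ k * g := ((show Commute g u from hcen g).zpow_right k).eq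
      rw [h4, mul_inv_cancel_right]
      exact hy
    have hut : zpowers u = ⊤ := by
      rcases hun.eq_bot_or_eq_top with h | h
      · rw [zpowers_eq_bot] at h
        rw [h, orderOf_one] at hu; norm_num at hu
      · exact h
    apply hno ⊥
    rw [index_bot, ← card_top, ← hut, Nat.card_zpowers, hu]
  obtain ⟨S, hS⟩ := central_of hno hiso hx h3
  refine ⟨⟨S, hS⟩, ?_⟩
  have hxx : x * x = 1 := by rw [← pow_two, ← hx, pow_orderOf_eq_one]
  have hxS : x ∈ S := by
    have h1 : IsPGroup 2 (zpowers x) := IsPGroup.of_card (n := 1) (by rw [Nat.card_zpowers, hx, pow_one])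
    have h2 : zpowers x ≤ normalizer ((S : Subgroup G) : Set G) := by
      rw [zpowers_le, mem_normalizer_iff]
      have h4 : ∀ s, s ∈ (S : Subgroup G) → x * s * x⁻¹ = s := fun s hs => by
        have := mem_centralizer_singleton_iff.mp (hS hs)
        rw [← this, mul_inv_cancel_right]
      intro s
      constructor
      · intro hs; rw [h4 s hs]; exact hs
      · intro hs
        have h5 : x * (x * s * x⁻¹) * x⁻¹ = x * s * x⁻¹ := h4 _ hs
        have h6 : x * s * x⁻¹ = s := by
          have := mul_right_cancel (mul_left_cancel (by simpa [mul_assoc] using h5 : x * (x * s * x⁻¹ * x⁻¹) = x * (s * x⁻¹)))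
          exact this
        rwa [h6] at hs
    have h3 := IsPGroup.to_sup_of_normal_right' h1 S.isPGroup' h2
    have h4 := S.is_maximal' h3 le_sup_right
    have h5 : x ∈ (S : Subgroup G) := by
      rw [← h4]
      exact mem_sup_left (mem_zpowers x)
    exact h5
  have hinvx : ∀ w ∈ S, orderOf w = 2 → IsConj w x := by
    intro w hwS hw
    by_cases hwx : w = x
    · rw [hwx]
    have hw1 : w ≠ 1 := fun h => by rw [h, orderOf_one] at hw; norm_num at hw
    have hww : w * w = 1 := by rw [← pow_two, ← hw, pow_orderOf_eq_one]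
    have hcx : ∀ s ∈ S, x * s = s * x := fun s hs => (mem_centralizer_singleton_iff.mp (hS hs)).symm
    have hel : ∀ s ∈ S, orderOf s = 2 → s = x ∨ s = w ∨ s = x * w := by
      intro s hs hso
      exact h3 w s (hcx w hwS) (hcx s hs) hww (by rw [← pow_two, ← hso, pow_orderOf_eq_one]) hw1 hwx
        (fun h => by rw [h, orderOf_one] at hso; norm_num at hso)
    have hco : ∀ (y g : G), orderOf y = 2 → orderOf (g * y * g⁻¹) = 2 := fun y g hy =>
      (orderOf_injective (MulAut.conj g).toMonoidHom (MulAut.conj g).injective y).trans hy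
    obtain ⟨g, hg1, hg2⟩ := hiso S w hw hwS
    rcases hel _ hg1 (hco w g hw) with h | h | h
    · exact isConj_iff.mpr ⟨g, h⟩
    · exact absurd h hg2
    · have hwxw : IsConj w (x * w) := isConj_iff.mpr ⟨g, h⟩
      obtain ⟨k, hk1, hk2⟩ := hiso S x hx hxS
      rcases hel _ hk1 (hco x k hx) with h' | h' | h'
      · exact absurd h' hk2
      · exact (isConj_iff.mpr ⟨k, h'⟩ : IsConj x w).symm
      · exact hwxw.trans (isConj_iff.mpr ⟨k, h'⟩ : IsConj x (x * w)).symm
  have hall : ∀ u : G, orderOf u = 2 → IsConj u x := by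
    intro u hu
    have h1 : IsPGroup 2 (zpowers u) := IsPGroup.of_card (n := 1) (by rw [Nat.card_zpowers, hu, pow_one])
    obtain ⟨P, hP⟩ := h1.exists_le_sylow
    obtain ⟨g, hg⟩ := MulAction.exists_smul_eq G P S
    have h2 : g * u * g⁻¹ ∈ S := by
      rw [← hg]
      exact ⟨u, hP (mem_zpowers u), rfl⟩
    have h4 : orderOf (g * u * g⁻¹) = 2 :=
      (orderOf_injective (MulAut.conj g).toMonoidHom (MulAut.conj g).injective u).trans hu
    exact (isConj_iff.mpr ⟨g, rfl⟩ : IsConj u (g * u * g⁻¹)).trans (hinvx _ h2 h4)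
  exact fun u v hu hv => (hall u hu).trans (hall v hv).symm

end Cfsg.Agent.Lib.ThreeInv
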