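import Mathlib
import Cfsg.Agent.Lib.Tor9

/-! Sylow `2`-subgroups of `PGL_2(q)`, `q` Mersenne. -/

set_option linter.all false
set_option maxHeartbeats 400000

namespace Cfsg.Agent.Lib.Tor

open Matrix Module Cfsg Cfsg.Agent.Lib.Tw
open scoped MatrixGroups Pointwise

variable {F : Type*} [Field F]

/-- the projection of `GL_2` -/
def mkG (F : Type*) [Field F] : GL (Fin 2) F →* GL (Fin 2) F ⧸ Subgroup.center (GL (Fin 2) F) := QuotientGroup.mk' _

theorem mkG_surj : Function.Surjective (mkG F) := QuotientGroup.mk'_surjective _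

theorem mem_centerG {g : GL (Fin 2) F} : g ∈ Subgroup.center (GL (Fin 2) F) ↔ ¬ NS (g : Matrix (Fin 2) (Fin 2) F) := by
  rw [Matrix.GeneralLinearGroup.mem_center_iff_val_mem_range_scalar]
  constructor
  · rintro ⟨c, hc⟩ hns
    apply (ns_iff.mp hns c)
    rw [← hc]
    ext i j
    simp [Matrix.scalar_apply, Matrix.one_apply, Matrix.diagonal_apply]
  · intro h
    obtain ⟨c, hc⟩ := eq_scG h
    exact ⟨c, by rw [hc]; rfl⟩

theorem mkG_eq_one {g : GL (Fin 2) F} : mkG F g = 1 ↔ ¬ NS (g : Matrix (Fin 2) (Fin 2) F) := by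
  rw [← mem_centerG]
  exact QuotientGroup.eq_one_iff g

theorem mkG_eq {g h : GL (Fin 2) F} : mkG F g = mkG F h ↔ ∃ c : F, (g : Matrix (Fin 2) (Fin 2) F) = c • (h : Matrix (Fin 2) (Fin 2) F) := by
  have h1 : mkG F g = mkG F h ↔ mkG F (g * h⁻¹) = 1 := by
    rw [map_mul, map_inv, mul_inv_eq_one]
  rw [h1, mkG_eq_one]
  constructor
  · intro h2
    obtain ⟨c, hc⟩ := eq_scG h2
    refine ⟨c, ?_⟩
    have h3 : g = scG c * h := by rw [← hc]; group
    rw [h3, Units.val_mul, scG_coe, smul_mul_assoc, one_mul]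
  · rintro ⟨c, hc⟩ hns
    apply ns_iff.mp hns c
    rw [Units.val_mul, hc, smul_mul_assoc, ← Units.val_mul, mul_inv_cancel, Units.val_one]

/-- preimage of the centralizer -/
def CG (Y : GL (Fin 2) F) : Subgroup (GL (Fin 2) F) := (Subgroup.centralizer ({mkG F Y} : Set (GL (Fin 2) F ⧸ Subgroup.center (GL (Fin 2) F)))).comap (mkG F)

theorem mem_CG {Y n : GL (Fin 2) F} : n ∈ CG Y ↔ n * Y = Y * n ∨ n * Y = -(Y * n) := by
  unfold CG
  rw [Subgroup.mem_comap, Subgroup.mem_centralizer_singleton_iff, ← map_mul, ← map_mul, mkG_eq]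
  constructor
  · rintro ⟨c, hc⟩
    have hd := congrArg Matrix.det hc
    rw [Units.val_mul, Matrix.det_smul, Fintype.card_fin, Units.val_mul, Matrix.det_mul, Matrix.det_mul, mul_comm (n : Matrix (Fin 2) (Fin 2) F).det] at hd
    have h0 : (Y : Matrix (Fin 2) (Fin 2) F).det * (n : Matrix (Fin 2) (Fin 2) F).det ≠ 0 :=
      mul_ne_zero ((Matrix.isUnit_iff_isUnit_det _).mp Y.isUnit).ne_zero ((Matrix.isUnit_iff_isUnit_det _).mp n.isUnit).ne_zero
    have hc2 : c * c = 1 := by
      apply mul_right_cancel₀ h0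
      rw [one_mul, ← pow_two]
      exact hd.symm
    rcases mul_self_eq_one_iff.mp hc2 with rfl | rfl
    · left
      apply Units.ext
      rw [hc, one_smul]
    · right
      apply Units.ext
      rw [hc, neg_smul, one_smul, Units.val_neg]
  · rintro (h | h)
    · exact ⟨1, by rw [h, one_smul]⟩
    · exact ⟨-1, by rw [h, Units.val_neg, neg_smul, one_smul]⟩

section fin
variable [Fintype F]

theorem card_CG (h2 : (2 : F) ≠ 0) {Y : GL (Fin 2) F} (hY : NS (Y : Matrix (Fin 2) (Fin 2) F)) (ht : (Y : Matrix (Fin 2) (Fin 2) F).trace = 0) :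
    Nat.card (CG Y) = 2 * Nat.card (Subgroup.centralizer ({Y} : Set (GL (Fin 2) F))) := by
  have hnY : NS ((-Y : GL (Fin 2) F) : Matrix (Fin 2) (Fin 2) F) := by
    rw [Units.val_neg]
    rintro ⟨h1, h3, h4⟩
    exact hY ⟨neg_eq_zero.mp h1, neg_eq_zero.mp h3, neg_injective h4⟩
  obtain ⟨n, hn⟩ := isConj_iff.mp (isConj_GL hY hnY (by rw [Units.val_neg, Matrix.trace_neg, ht, neg_zero]) (by
    rw [Units.val_neg, Matrix.det_neg, Fintype.card_fin]; ring))
  have hn' : n * Y = -(Y * n) := by
    rw [mul_inv_eq_iff_eq_mul] at hn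
    rw [hn, neg_mul]
  have hYne : Y ≠ -Y := by
    intro h
    have h3 : ∀ i j, (Y : Matrix (Fin 2) (Fin 2) F) i j = 0 := by
      intro i j
      have h4 := congrFun (congrFun (congrArg (fun z : GL (Fin 2) F => (z : Matrix (Fin 2) (Fin 2) F)) h) i) j
      simp only [Units.val_neg, Matrix.neg_apply] at h4
      have h5 : (2 : F) * (Y : Matrix (Fin 2) (Fin 2) F) i j = 0 := by linear_combination h4
      exact (mul_eq_zero.mp h5).resolve_left h2
    exact hY ⟨h3 _ _, h3 _ _, (h3 _ _).trans (h3 _ _).symm⟩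
  refine dic_card (n := n) ?_ ?_
  · intro h
    rw [Subgroup.mem_centralizer_singleton_iff, hn'] at h
    apply hYne
    have h3 : -Y * n = Y * n := by rw [neg_mul, h]
    exact (mul_right_cancel h3).symm
  · intro g
    rw [mem_CG, Subgroup.mem_centralizer_singleton_iff, Subgroup.mem_centralizer_singleton_iff]
    have e : n⁻¹ * Y = -(Y * n⁻¹) := by
      rw [inv_mul_eq_iff_eq_mul, mul_neg, ← mul_assoc, hn', neg_mul, neg_neg, mul_inv_cancel_right]
    have e2 : n⁻¹ * g * Y = Y * (n⁻¹ * g) ↔ g * Y = -(Y * g) := by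
      constructor
      · intro h
        calc g * Y = n * (n⁻¹ * g * Y) := by group
          _ = n * (Y * (n⁻¹ * g)) := by rw [h]
          _ = (n * Y) * (n⁻¹ * g) := by group
          _ = -(Y * g) := by rw [hn', neg_mul, mul_assoc, mul_inv_cancel_left]
      · intro h
        rw [mul_assoc, h, mul_neg, ← mul_assoc, e, neg_mul, neg_neg, mul_assoc]
    rw [e2]

theorem card_cent_PG (h2 : (2 : F) ≠ 0) {Y : GL (Fin 2) F} (hY : NS (Y : Matrix (Fin 2) (Fin 2) F)) (ht : (Y : Matrix (Fin 2) (Fin 2) F).trace = 0) :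
    Nat.card (Subgroup.centralizer ({mkG F Y} : Set (GL (Fin 2) F ⧸ Subgroup.center (GL (Fin 2) F)))) * (Fintype.card F - 1) =
      2 * Nat.card (Subgroup.centralizer ({Y} : Set (GL (Fin 2) F))) := by
  rw [← card_CG h2 hY ht]
  have h1 : (CG Y).index = (Subgroup.centralizer ({mkG F Y} : Set (GL (Fin 2) F ⧸ Subgroup.center (GL (Fin 2) F)))).index :=
    Subgroup.index_comap_of_surjective _ mkG_surj
  have h3 := (CG Y).card_mul_index
  have h4 := (Subgroup.centralizer ({mkG F Y} : Set (GL (Fin 2) F ⧸ Subgroup.center (GL (Fin 2) F)))).card_mul_index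
  have h5 := Subgroup.card_eq_card_quotient_mul_card_subgroup (Subgroup.center (GL (Fin 2) F))
  rw [GLSL.card_center_GL, GLSL.card_units_field] at h5
  rw [h1, h5, ← h4] at h3
  have h6 : 0 < (Subgroup.centralizer ({mkG F Y} : Set (GL (Fin 2) F ⧸ Subgroup.center (GL (Fin 2) F)))).index :=
    Nat.pos_of_ne_zero Subgroup.index_ne_zero_of_finite
  apply Nat.eq_of_mul_eq_mul_right h6
  rw [h3]; ring

theorem card_PG : Nat.card (GL (Fin 2) F ⧸ Subgroup.center (GL (Fin 2) F)) = Fintype.card F * (Fintype.card F - 1) * (Fintype.card F + 1) := by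
  have h5 := Subgroup.card_eq_card_quotient_mul_card_subgroup (Subgroup.center (GL (Fin 2) F))
  rw [GLSL.card_center_GL, GLSL.card_units_field, SL2.card_GL2'] at h5
  have hq : 1 < Fintype.card F := Fintype.one_lt_card
  apply Nat.eq_of_mul_eq_mul_right (by omega : 0 < Fintype.card F - 1)
  rw [← h5]; ring

end fin

/-- the commutator of two traceless matrices -/
theorem comm_det {Y Z : Matrix (Fin 2) (Fin 2) F} (hY : NE Y) (hty : Y.trace = 0) (hW : Y * Z - Z * Y ≠ 0) : (Y * Z - Z * Y).det ≠ 0 := by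
  intro hd
  obtain ⟨v, hv0, hv⟩ := Matrix.exists_mulVec_eq_zero_iff.mpr hd
  have hanti : (Y * Z - Z * Y) * Y = -(Y * (Y * Z - Z * Y)) := by
    have hsq : Y * Y = (-Y.det) • (1 : Matrix (Fin 2) (Fin 2) F) := by
      rw [Matrix.trace_fin_two] at hty
      rw [Matrix.det_fin_two]
      ext i j
      fin_cases i <;> fin_cases j <;> simp [Matrix.mul_apply, Fin.sum_univ_two]
      · linear_combination (Y 0 0) * hty
      · linear_combination (Y 0 1) * hty
      · linear_combination (Y 1 0) * hty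
      · linear_combination (Y 1 1) * hty
    have h1 : Z * (Y * Y) = (Y * Y) * Z := by
      rw [hsq, mul_smul_comm, smul_mul_assoc, mul_one, one_mul]
    have h2 : (Y * Z - Z * Y) * Y + Y * (Y * Z - Z * Y) = (Y * Y) * Z - Z * (Y * Y) := by noncomm_ring
    rw [h1, sub_self] at h2
    exact eq_neg_of_add_eq_zero_left h2
  have hu : (Y * Z - Z * Y) *ᵥ (Y *ᵥ v) = 0 := by
    rw [Matrix.mulVec_mulVec, hanti, Matrix.neg_mulVec, ← Matrix.mulVec_mulVec, hv, Matrix.mulVec_zero, neg_zero]
  set W := Y * Z - Z * Y with hWd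
  set u := Y *ᵥ v with hud
  have key : ∀ i, W i 0 * v 0 + W i 1 * v 1 = 0 := by
    intro i
    have := congrFun hv i
    simpa [Matrix.mulVec, dotProduct, Fin.sum_univ_two] using this
  have key2 : ∀ i, W i 0 * u 0 + W i 1 * u 1 = 0 := by
    intro i
    have := congrFun hu i
    simpa [Matrix.mulVec, dotProduct, Fin.sum_univ_two] using this
  by_cases hδ : v 0 * u 1 - v 1 * u 0 = 0
  · -- eigenvector
    by_cases h0 : v 0 = 0
    · have h1 : v 1 ≠ 0 := by
        intro h1
        apply hv0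
        ext i; fin_cases i
        · exact h0
        · exact h1
      apply hY (u 1 / v 1) v hv0
      have hu0 : u 0 = 0 := by
        rw [h0, zero_mul, zero_sub, neg_eq_zero] at hδ
        exact (mul_eq_zero.mp hδ).resolve_left h1
      ext i
      show u i = _
      fin_cases i
      · simp [hu0, h0]
      · simp; field_simp
    · apply hY (u 0 / v 0) v hv0
      ext i
      show u i = _
      fin_cases i
      · simp; field_simp
      · simp; field_simp; linear_combination hδ
  · apply hW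
    ext i j
    have e0 : W i 0 * (v 0 * u 1 - v 1 * u 0) = 0 := by linear_combination u 1 * key i - v 1 * key2 i
    have e1 : W i 1 * (v 0 * u 1 - v 1 * u 0) = 0 := by linear_combination v 0 * key2 i - u 0 * key i
    fin_cases j
    · exact (mul_eq_zero.mp e0).resolve_right hδ
    · exact (mul_eq_zero.mp e1).resolve_right hδ

end Cfsg.Agent.Lib.Tor
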