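import Mathlib
import Cfsg.Agent.Lib.Tor10

/-! Sylow `2`-subgroups of `PGL_2(q)`, `q` Mersenne. -/

set_option linter.all false
set_option maxHeartbeats 400000

namespace Cfsg.Agent.Lib.Tor

open Matrix Module Cfsg Cfsg.Agent.Lib.Tw
open scoped MatrixGroups Pointwise

variable {q k : ℕ} [Fact q.Prime]

theorem card_syl (hk : q + 1 = 2 ^ k) (hq : 7 ≤ q)
    (H : Sylow 2 (GL (Fin 2) (ZMod q) ⧸ Subgroup.center (GL (Fin 2) (ZMod q)))) : Nat.card H = 2 ^ (k + 1) := by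
  have hk3 : 3 ≤ k := by
    by_contra hcon
    have : 2 ^ k ≤ 2 ^ 2 := Nat.pow_le_pow_right (by norm_num) (by omega)
    omega
  obtain ⟨j, rfl⟩ : ∃ j, k = j + 1 := ⟨k - 1, by omega⟩
  have hcard : Nat.card (GL (Fin 2) (ZMod q) ⧸ Subgroup.center (GL (Fin 2) (ZMod q))) = 2 ^ (j + 1 + 1) * (q * (2 ^ j - 1)) := by
    rw [card_PG, ZMod.card, hk]
    have h1 : q - 1 = 2 * (2 ^ j - 1) := by
      rw [pow_succ] at hk; omega
    rw [h1]; ring
  have hodd : ¬ 2 ∣ q * (2 ^ j - 1) := by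
    intro h
    rcases (Nat.Prime.dvd_mul Nat.prime_two).mp h with h1 | h1
    · have : 2 ∣ 2 ^ (j + 1) := dvd_pow_self 2 (by omega)
      omega
    · have h2 : 2 ∣ 2 ^ j := dvd_pow_self 2 (by omega)
      have h3 : 0 < 2 ^ j := by positivity
      omega
  apply Nat.dvd_antisymm
  · obtain ⟨e, he⟩ := IsPGroup.iff_card.mp H.isPGroup'
    have h1 : Nat.card H ∣ 2 ^ (j + 1 + 1) * (q * (2 ^ j - 1)) := by
      rw [← hcard]; exact Subgroup.card_subgroup_dvd_card (H : Subgroup (GL (Fin 2) (ZMod q) ⧸ Subgroup.center (GL (Fin 2) (ZMod q))))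
    have he' : Nat.card H = 2 ^ e := he
    rw [he'] at h1 ⊢
    have hcop : Nat.Coprime (2 ^ e) (q * (2 ^ j - 1)) := Nat.Coprime.pow_left _ ((Nat.Prime.coprime_iff_not_dvd Nat.prime_two).mpr hodd)
    exact hcop.dvd_of_dvd_mul_right h1
  · apply H.pow_dvd_card_of_pow_dvd_card
    rw [hcard]
    exact Dvd.intro _ rfl

theorem two_ne (hk : q + 1 = 2 ^ k) (hq : 7 ≤ q) : (2 : ZMod q) ≠ 0 := by
  intro h
  have h1 : ((2 : ℕ) : ZMod q) = 0 := by exact_mod_cast h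
  rw [ZMod.natCast_eq_zero_iff] at h1
  have := Nat.le_of_dvd (by norm_num) h1
  omega

theorem syl_shape (hk : q + 1 = 2 ^ k) (hq : 7 ≤ q)
    (H : Sylow 2 (GL (Fin 2) (ZMod q) ⧸ Subgroup.center (GL (Fin 2) (ZMod q)))) :
    ∃ Y : GL (Fin 2) (ZMod q), NE (Y : Matrix (Fin 2) (Fin 2) (ZMod q)) ∧ (Y : Matrix (Fin 2) (Fin 2) (ZMod q)).trace = 0 ∧
      (H : Subgroup (GL (Fin 2) (ZMod q) ⧸ Subgroup.center (GL (Fin 2) (ZMod q)))) = Subgroup.centralizer {mkG (ZMod q) Y} := by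
  have h2 := two_ne hk hq
  have hc := card_syl hk hq H
  have hk3 : 3 ≤ k := by
    by_contra hcon
    have : 2 ^ k ≤ 2 ^ 2 := Nat.pow_le_pow_right (by norm_num) (by omega)
    omega
  have hdvd : 2 ∣ Nat.card (GL (Fin 2) (ZMod q) ⧸ Subgroup.center (GL (Fin 2) (ZMod q))) := by
    refine dvd_trans ?_ (H : Subgroup _).card_subgroup_dvd_card
    have : Nat.card (H : Subgroup (GL (Fin 2) (ZMod q) ⧸ Subgroup.center (GL (Fin 2) (ZMod q)))) = 2 ^ (k + 1) := hc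
    rw [this]
    exact dvd_pow_self 2 (by omega)
  obtain ⟨y, hyH, hyo, hHc⟩ := exists_central H hdvd
  obtain ⟨Y, rfl⟩ := mkG_surj y
  have hns : NS (Y : Matrix (Fin 2) (Fin 2) (ZMod q)) := by
    by_contra hcon
    rw [mkG_eq_one.mpr hcon, orderOf_one] at hyo
    omega
  have htr : (Y : Matrix (Fin 2) (Fin 2) (ZMod q)).trace = 0 := by
    have h3 : mkG (ZMod q) (Y * Y) = 1 := by
      have h5 := pow_orderOf_eq_one (mkG (ZMod q) Y)
      rw [hyo, pow_two] at h5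
      rw [map_mul, h5]
    have h4 := mkG_eq_one.mp h3
    by_contra h0
    apply h4
    rw [Units.val_mul]
    rintro ⟨e1, e2, e3⟩
    simp only [Matrix.mul_apply, Fin.sum_univ_two] at e1 e2 e3
    rw [Matrix.trace_fin_two] at h0
    apply hns
    refine ⟨?_, ?_, ?_⟩
    · have : ((Y : Matrix (Fin 2) (Fin 2) (ZMod q)) 0 0 + (Y : Matrix (Fin 2) (Fin 2) (ZMod q)) 1 1) * (Y : Matrix (Fin 2) (Fin 2) (ZMod q)) 0 1 = 0 := by linear_combination e1
      exact (mul_eq_zero.mp this).resolve_left h0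
    · have : ((Y : Matrix (Fin 2) (Fin 2) (ZMod q)) 0 0 + (Y : Matrix (Fin 2) (Fin 2) (ZMod q)) 1 1) * (Y : Matrix (Fin 2) (Fin 2) (ZMod q)) 1 0 = 0 := by linear_combination e2
      exact (mul_eq_zero.mp this).resolve_left h0
    · have : ((Y : Matrix (Fin 2) (Fin 2) (ZMod q)) 0 0 + (Y : Matrix (Fin 2) (Fin 2) (ZMod q)) 1 1) * ((Y : Matrix (Fin 2) (Fin 2) (ZMod q)) 0 0 - (Y : Matrix (Fin 2) (Fin 2) (ZMod q)) 1 1) = 0 := by linear_combination e3
      exact sub_eq_zero.mp ((mul_eq_zero.mp this).resolve_left h0)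
  have hcent := card_cent_PG h2 hns htr
  rw [ZMod.card] at hcent
  obtain ⟨j, rfl⟩ : ∃ j, k = j + 1 := ⟨k - 1, by omega⟩
  have hq1 : q - 1 = 2 * (2 ^ j - 1) := by
    rw [pow_succ] at hk; omega
  have hHdvd : 2 ^ (j + 1 + 1) ∣ Nat.card (Subgroup.centralizer ({mkG (ZMod q) Y} : Set (GL (Fin 2) (ZMod q) ⧸ Subgroup.center (GL (Fin 2) (ZMod q))))) := by
    have : Nat.card (H : Subgroup (GL (Fin 2) (ZMod q) ⧸ Subgroup.center (GL (Fin 2) (ZMod q)))) = 2 ^ (j + 1 + 1) := hc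
    rw [← this]
    exact Subgroup.card_dvd_of_le hHc
  have hj : 2 ≤ j := by omega
  have h2j : 4 ≤ 2 ^ j := by
    calc 4 = 2 ^ 2 := by norm_num
      _ ≤ 2 ^ j := Nat.pow_le_pow_right (by norm_num) hj
  rcases root_cases (Y : Matrix (Fin 2) (Fin 2) (ZMod q)).trace (Y : Matrix (Fin 2) (Fin 2) (ZMod q)).det with ⟨a, b, ht, hd⟩ | hne
  · exfalso
    have hab : a ≠ b := by
      rintro rfl
      have h5 : (2 : ZMod q) * a = 0 := by rw [htr] at ht; linear_combination -ht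
      have h6 := (mul_eq_zero.mp h5).resolve_left h2
      rw [h6, mul_zero] at hd
      exact ((Matrix.isUnit_iff_isUnit_det _).mp Y.isUnit).ne_zero hd
    have h5 := card_centGL_split hab ht hd
    rw [h5, ZMod.card] at hcent
    have h6 : Nat.card (Subgroup.centralizer ({mkG (ZMod q) Y} : Set (GL (Fin 2) (ZMod q) ⧸ Subgroup.center (GL (Fin 2) (ZMod q))))) = 2 * (q - 1) := by
      apply Nat.eq_of_mul_eq_mul_right (by omega : 0 < q - 1)
      rw [hcent]; ring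
    rw [h6, hq1] at hHdvd
    have h7 : 2 ^ (j + 1 + 1) = 2 * (2 * 2 ^ j) := by ring
    rw [h7] at hHdvd
    have h8 : 2 ^ j ∣ 2 ^ j - 1 := by
      have := Nat.dvd_of_mul_dvd_mul_left (by norm_num : 0 < 2) hHdvd
      exact Nat.dvd_of_mul_dvd_mul_left (by norm_num : 0 < 2) this
    have := Nat.le_of_dvd (by omega) h8
    omega
  · have hNE : NE (Y : Matrix (Fin 2) (Fin 2) (ZMod q)) := ne_iff.mpr hne
    refine ⟨Y, hNE, htr, ?_⟩
    have h5 := card_centGL_ne hNE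
    rw [h5, ZMod.card] at hcent
    have h6 : Nat.card (Subgroup.centralizer ({mkG (ZMod q) Y} : Set (GL (Fin 2) (ZMod q) ⧸ Subgroup.center (GL (Fin 2) (ZMod q))))) = 2 * (q + 1) := by
      apply Nat.eq_of_mul_eq_mul_right (by omega : 0 < q - 1)
      rw [hcent]
      have : q ^ 2 - 1 = (q + 1) * (q - 1) := by
        obtain ⟨m, hm⟩ : ∃ m, q = m + 1 := ⟨q - 1, by omega⟩
        rw [hm, Nat.add_sub_cancel]
        have : (m + 1) ^ 2 = (m + 1 + 1) * m + 1 := by ring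
        omega
      rw [this]; ring
    apply Subgroup.eq_of_le_of_card_ge hHc
    have e2 : Nat.card (H : Subgroup (GL (Fin 2) (ZMod q) ⧸ Subgroup.center (GL (Fin 2) (ZMod q)))) = 2 ^ (j + 1 + 1) := hc
    rw [h6, e2, hk, pow_succ 2 (j + 1)]
    omega

theorem syl_inter (hk : q + 1 = 2 ^ k) (hq : 7 ≤ q)
    (H : Sylow 2 (GL (Fin 2) (ZMod q) ⧸ Subgroup.center (GL (Fin 2) (ZMod q))))
    (x : GL (Fin 2) (ZMod q) ⧸ Subgroup.center (GL (Fin 2) (ZMod q))) :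
    (H : Subgroup (GL (Fin 2) (ZMod q) ⧸ Subgroup.center (GL (Fin 2) (ZMod q)))) ⊓ MulAut.conj x • (H : Subgroup _) ≠ ⊥ := by
  have h2 := two_ne hk hq
  obtain ⟨Y, hY, hYt, hHY⟩ := syl_shape hk hq H
  obtain ⟨Z, hZ, hZt, hHZ⟩ := syl_shape hk hq (x • H)
  rw [Sylow.coe_subgroup_smul] at hHZ
  have key : ∀ w : GL (Fin 2) (ZMod q), mkG (ZMod q) w ≠ 1 → mkG (ZMod q) w ∈ Subgroup.centralizer ({mkG (ZMod q) Y} : Set (GL (Fin 2) (ZMod q) ⧸ Subgroup.center (GL (Fin 2) (ZMod q)))) →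
      mkG (ZMod q) w ∈ Subgroup.centralizer ({mkG (ZMod q) Z} : Set (GL (Fin 2) (ZMod q) ⧸ Subgroup.center (GL (Fin 2) (ZMod q)))) →
      (H : Subgroup (GL (Fin 2) (ZMod q) ⧸ Subgroup.center (GL (Fin 2) (ZMod q)))) ⊓ MulAut.conj x • (H : Subgroup _) ≠ ⊥ := by
    intro w hw1 hwY hwZ hbot
    have : mkG (ZMod q) w ∈ (H : Subgroup (GL (Fin 2) (ZMod q) ⧸ Subgroup.center (GL (Fin 2) (ZMod q)))) ⊓ MulAut.conj x • (H : Subgroup _) := by
      rw [Subgroup.mem_inf]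
      refine ⟨by rw [hHY]; exact hwY, ?_⟩
      have e : MulAut.conj x • (H : Subgroup (GL (Fin 2) (ZMod q) ⧸ Subgroup.center (GL (Fin 2) (ZMod q)))) = Subgroup.centralizer {mkG (ZMod q) Z} := hHZ
      rw [e]; exact hwZ
    rw [hbot, Subgroup.mem_bot] at this
    exact hw1 this
  by_cases hW : (Y : Matrix (Fin 2) (Fin 2) (ZMod q)) * (Z : Matrix (Fin 2) (Fin 2) (ZMod q)) - (Z : Matrix (Fin 2) (Fin 2) (ZMod q)) * Y = 0
  · refine key Z ?_ ?_ ?_
    · rw [Ne, mkG_eq_one, not_not]; exact hZ.ns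
    · rw [Subgroup.mem_centralizer_singleton_iff, ← map_mul, ← map_mul]
      congr 1
      apply Units.ext
      rw [Units.val_mul, Units.val_mul]
      exact (sub_eq_zero.mp hW).symm
    · rw [Subgroup.mem_centralizer_singleton_iff]
  · have hdet := comm_det hY hYt hW
    let W : GL (Fin 2) (ZMod q) := Matrix.GeneralLinearGroup.mkOfDetNeZero _ hdet
    have hWc : (W : Matrix (Fin 2) (Fin 2) (ZMod q)) = (Y : Matrix (Fin 2) (Fin 2) (ZMod q)) * (Z : Matrix (Fin 2) (Fin 2) (ZMod q)) - (Z : Matrix (Fin 2) (Fin 2) (ZMod q)) * Y := rfl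
    have hWt : (W : Matrix (Fin 2) (Fin 2) (ZMod q)).trace = 0 := by
      rw [hWc, Matrix.trace_sub, Matrix.trace_mul_comm, sub_self]
    have hWns : NS (W : Matrix (Fin 2) (Fin 2) (ZMod q)) := by
      rintro ⟨h1, h3, h4⟩
      rw [Matrix.trace_fin_two, ← h4] at hWt
      have h5 : (2 : ZMod q) * (W : Matrix (Fin 2) (Fin 2) (ZMod q)) 0 0 = 0 := by linear_combination hWt
      have h6 := (mul_eq_zero.mp h5).resolve_left h2
      apply hW
      rw [← hWc]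
      ext i j
      fin_cases i <;> fin_cases j
      · exact h6
      · exact h1
      · exact h3
      · exact h4.symm.trans h6
    have hsq : ∀ {Y : GL (Fin 2) (ZMod q)}, (Y : Matrix (Fin 2) (Fin 2) (ZMod q)).trace = 0 → (Y : Matrix (Fin 2) (Fin 2) (ZMod q)) * Y = (-(Y : Matrix (Fin 2) (Fin 2) (ZMod q)).det) • (1 : Matrix (Fin 2) (Fin 2) (ZMod q)) := by
      intro Y hty
      rw [Matrix.trace_fin_two] at hty
      rw [Matrix.det_fin_two]
      ext i j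
      fin_cases i <;> fin_cases j <;> simp [Matrix.mul_apply, Fin.sum_univ_two]
      · linear_combination ((Y : Matrix (Fin 2) (Fin 2) (ZMod q)) 0 0) * hty
      · linear_combination ((Y : Matrix (Fin 2) (Fin 2) (ZMod q)) 0 1) * hty
      · linear_combination ((Y : Matrix (Fin 2) (Fin 2) (ZMod q)) 1 0) * hty
      · linear_combination ((Y : Matrix (Fin 2) (Fin 2) (ZMod q)) 1 1) * hty
    have anti : ∀ {Y Z : Matrix (Fin 2) (Fin 2) (ZMod q)} {c : ZMod q}, Y * Y = c • (1 : Matrix (Fin 2) (Fin 2) (ZMod q)) → (Y * Z - Z * Y) * Y = -(Y * (Y * Z - Z * Y)) := by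
      intro Y Z c hsq
      have h1 : Z * (Y * Y) = (Y * Y) * Z := by
        rw [hsq, mul_smul_comm, smul_mul_assoc, mul_one, one_mul]
      have h2 : (Y * Z - Z * Y) * Y + Y * (Y * Z - Z * Y) = (Y * Y) * Z - Z * (Y * Y) := by noncomm_ring
      rw [h1, sub_self] at h2
      exact eq_neg_of_add_eq_zero_left h2
    have mem : ∀ {Y W : GL (Fin 2) (ZMod q)}, (W : Matrix (Fin 2) (Fin 2) (ZMod q)) * Y = -((Y : Matrix (Fin 2) (Fin 2) (ZMod q)) * W) → mkG (ZMod q) W ∈ Subgroup.centralizer ({mkG (ZMod q) Y} : Set (GL (Fin 2) (ZMod q) ⧸ Subgroup.center (GL (Fin 2) (ZMod q)))) := by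
      intro Y W h
      rw [Subgroup.mem_centralizer_singleton_iff, ← map_mul, ← map_mul, mkG_eq]
      refine ⟨-1, ?_⟩
      rw [Units.val_mul, Units.val_mul, h, neg_smul, one_smul]
    refine key W (by rw [Ne, mkG_eq_one, not_not]; exact hWns) (mem ?_) (mem ?_)
    · rw [hWc]; exact anti (hsq hYt)
    · have h5 := anti (Z := (Y : Matrix (Fin 2) (Fin 2) (ZMod q))) (hsq hZt)
      rw [hWc]
      have h6 : (Y : Matrix (Fin 2) (Fin 2) (ZMod q)) * (Z : Matrix (Fin 2) (Fin 2) (ZMod q)) - (Z : Matrix (Fin 2) (Fin 2) (ZMod q)) * Y =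
          -((Z : Matrix (Fin 2) (Fin 2) (ZMod q)) * (Y : Matrix (Fin 2) (Fin 2) (ZMod q)) - (Y : Matrix (Fin 2) (Fin 2) (ZMod q)) * Z) := by abel
      rw [h6, neg_mul, h5, mul_neg]

end Cfsg.Agent.Lib.Tor
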