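import Cfsg.Agent.Lib.H3Grun
import Cfsg.Agent.Lib.InvolB

/-!
# Thompson transfer for elements of order `2 ^ n`
-/

set_option autoImplicit false

namespace Cfsg.Agent.Lib.TrExt

open Subgroup MulAction

variable {G : Type*} [Group G]

/-- the sign homomorphism with kernel a subgroup of index 2 -/
noncomputable def sgn {P : Subgroup G} (Q : Subgroup G) (hQ : (Q.subgroupOf P).index = 2) : P →* ℤˣ := by
  classical
  exact
    { toFun := fun x => if (x : G) ∈ Q then 1 else -1
      map_one' := by rw [if_pos]; exact one_mem _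
      map_mul' := by
        intro x y
        have h1 := mul_mem_iff_of_index_two hQ (a := x) (b := y)
        simp only [mem_subgroupOf] at h1
        by_cases hx : (x : G) ∈ Q <;> by_cases hy : (y : G) ∈ Q
        · have : ((x * y : P) : G) ∈ Q := h1.mpr ⟨fun _ => hy, fun _ => hx⟩
          rw [if_pos hx, if_pos hy, if_pos this, one_mul]
        · have : ((x * y : P) : G) ∉ Q := fun h => hy ((h1.mp h).mp hx)
          rw [if_pos hx, if_neg hy, if_neg this, one_mul]
        · have : ((x * y : P) : G) ∉ Q := fun h => hx ((h1.mp h).mpr hy)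
          rw [if_neg hx, if_pos hy, if_neg this, mul_one]
        · have : ((x * y : P) : G) ∈ Q := h1.mpr ⟨fun h => absurd h hx, fun h => absurd h hy⟩
          rw [if_neg hx, if_neg hy, if_pos this]; rfl }

theorem sgn_pos {P Q : Subgroup G} (hQ : (Q.subgroupOf P).index = 2) {x : P} (hx : (x : G) ∈ Q) :
    sgn Q hQ x = 1 := by
  classical
  exact if_pos hx

theorem sgn_neg {P Q : Subgroup G} (hQ : (Q.subgroupOf P).index = 2) {x : P} (hx : (x : G) ∉ Q) :
    sgn Q hQ x = -1 := by
  classical
  exact if_neg hx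

theorem exists_index_two [Finite G] (P : Sylow 2 G) (Q : Subgroup G)
    (hQi : Q.relIndex (P : Subgroup G) = 2) (u : G) {n : ℕ} (hu : orderOf u = 2 ^ n)
    (h1 : ∀ g : G, ∀ k : ℕ, 1 < k → k ∣ orderOf u → g⁻¹ * u ^ k * g ∈ (P : Subgroup G) → g⁻¹ * u ^ k * g ∈ Q)
    (hno : ∀ g : G, g * u * g⁻¹ ∉ Q) :
    ∃ M : Subgroup G, M.Normal ∧ M.index = 2 ∧ u ∉ M := by
  classical
  haveI : Fact (Nat.Prime 2) := ⟨Nat.prime_two⟩
  haveI : Fintype (G ⧸ (P : Subgroup G)) := Fintype.ofFinite _
  have hQi' : (Q.subgroupOf (P : Subgroup G)).index = 2 := hQi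
  set φ := sgn Q hQi' with hφ
  have h2 := H3Grun.transfer_eq (P : Subgroup G) φ u (by
    intro g k hk hd hm
    rw [H3Grun.ext_of_mem φ hm]
    exact sgn_pos hQi' (h1 g k hk hd hm))
  have h3 : ∀ c ∈ (Finset.univ.filter fun c : G ⧸ (P : Subgroup G) => u • c = c),
      H3Grun.ext φ (c.out⁻¹ * u * c.out) = -1 := by
    intro c hc
    have hm := H3Grun.fix_out.mp (Finset.mem_filter.mp hc).2
    rw [H3Grun.ext_of_mem φ hm]
    apply sgn_neg hQi'
    have := hno c.out⁻¹
    rwa [inv_inv] at this
  rw [Finset.prod_congr rfl h3, Finset.prod_const] at h2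
  have h4 : Odd (Finset.univ.filter fun c : G ⧸ (P : Subgroup G) => u • c = c).card := by
    let f : Function.End (G ⧸ (P : Subgroup G)) := fun c => u • c
    have h5 := Equiv.Perm.card_fixedPoints_modEq (α := G ⧸ (P : Subgroup G))
      (f := f) (p := 2) (n := n) (by
      have h6 : ∀ m : ℕ, f ^ m = (fun c => u ^ m • c) := by
        intro m
        induction m with
        | zero =>
          funext c
          show c = u ^ 0 • c
          rw [pow_zero, one_smul]
        | succ m ih =>
          rw [pow_succ, ih]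
          funext c
          show u ^ m • (u • c) = u ^ (m + 1) • c
          rw [pow_succ, mul_smul]
      rw [h6, ← hu, pow_orderOf_eq_one]
      funext c
      exact one_smul _ c)
    have h7 : ¬ 2 ∣ Fintype.card (G ⧸ (P : Subgroup G)) := by
      have := P.not_dvd_index
      rwa [Subgroup.index, Nat.card_eq_fintype_card] at this
    have h8 : (Finset.univ.filter fun c : G ⧸ (P : Subgroup G) => u • c = c).card =
        Fintype.card (Function.fixedPoints (fun c : G ⧸ (P : Subgroup G) => u • c)) := by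
      rw [Fintype.card_subtype]
      rfl
    rw [h8, Nat.odd_iff]
    have h9 : Fintype.card (G ⧸ (P : Subgroup G)) % 2 = 1 := by omega
    rw [← h9]
    exact h5.symm
  rw [h4.neg_one_pow] at h2
  refine ⟨(MonoidHom.transfer φ).ker, inferInstance, ?_, ?_⟩
  · rw [index_ker]
    have : (MonoidHom.transfer φ : G →* ℤˣ).range = ⊤ := by
      rw [eq_top_iff]
      intro x _
      rcases Int.units_eq_one_or x with rfl | rfl
      · exact one_mem _
      · exact ⟨u, h2⟩
    rw [this, Subgroup.card_top, Nat.card_eq_fintype_card]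
    rfl
  · rw [MonoidHom.mem_ker, h2]
    decide

theorem main [Finite G] (hG : ∀ H : Subgroup G, H.index ≠ 2) (S : Sylow 2 G) (M : Subgroup G)
    (hM : M.relIndex (S : Subgroup G) = 2) (n : ℕ)
    (hord : ∀ y ∈ (S : Subgroup G), y ∉ M → 2 ^ (n - 1) < orderOf y) (x : G)
    (hxn : orderOf x = 2 ^ n) : ∃ g : G, g * x * g⁻¹ ∈ M := by
  by_contra hcon
  push Not at hcon
  obtain ⟨N, -, hN, -⟩ := exists_index_two S M hM x hxn (by
    intro g k hk hd hm
    by_contra hc
    have h1 := hord _ hm hc
    have h2 : orderOf (g⁻¹ * x ^ k * g) = orderOf (x ^ k) := by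
      have := orderOf_injective (MulAut.conj g⁻¹).toMonoidHom (MulAut.conj g⁻¹).injective (x ^ k)
      simpa using this
    rw [h2, orderOf_pow_of_dvd (by omega) hd, hxn] at h1
    rw [hxn] at hd
    obtain ⟨j, hj, rfl⟩ := (Nat.dvd_prime_pow Nat.prime_two).mp hd
    have hj1 : 1 ≤ j := by
      by_contra hc
      have : j = 0 := by omega
      rw [this, pow_zero] at hk
      omega
    rw [Nat.pow_div hj (by norm_num)] at h1
    have h3 : 2 ^ (n - j) ≤ 2 ^ (n - 1) := Nat.pow_le_pow_right (by norm_num) (by omega)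
    omega) hcon
  exact hG N hN

end Cfsg.Agent.Lib.TrExt
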