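import Cfsg.Agent.Lib.PGrpD
import Cfsg.Agent.Lib.PGrpB
import Cfsg.Agent.Lib.PGrpE

/-!
# 2-groups without normal four-groups

* `exists_four` : the four-group generated by two commuting involutions.
* `cyclic_of_no_four` : a 2-group without normal four-groups has a normal cyclic subgroup of index at most two.
-/

open Subgroup
open scoped commutatorElement Pointwise

namespace Cfsg.Agent.Lib.TwoRank

open Cfsg.Agent.Lib Cfsg.Agent.Lib.PGrpA Cfsg.Agent.Lib.PGrpB Cfsg.Agent.Lib.PGrpC Cfsg.Agent.Lib.PGrpD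

variable {G : Type*} [Group G]

/-- the four-group generated by two commuting involutions -/
theorem exists_four {x y : G} (hx : x * x = 1) (hy : y * y = 1) (hxy : x * y = y * x) (hx1 : x ≠ 1) (hy1 : y ≠ 1)
    (hne : x ≠ y) : ∃ V : Subgroup G, Nat.card V = 4 ∧ ∀ w, w ∈ V ↔ w = 1 ∨ w = x ∨ w = y ∨ w = x * y := by
  classical
  have h1 : x * (x * y) = y := by rw [← mul_assoc, hx, one_mul]
  have h2 : y * (x * y) = x := by rw [hxy, ← mul_assoc, hy, one_mul]
  have h3 : x * y * x = y := by rw [hxy, mul_assoc, hx, mul_one]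
  have h4 : x * y * y = x := by rw [mul_assoc, hy, mul_one]
  have h5 : x * y * (x * y) = 1 := by rw [← mul_assoc, h3, hy]
  let V : Subgroup G :=
    { carrier := {w | w = 1 ∨ w = x ∨ w = y ∨ w = x * y}
      one_mem' := Or.inl rfl
      mul_mem' := by
        rintro a b (rfl | rfl | rfl | rfl) (rfl | rfl | rfl | rfl)
        all_goals simp only [Set.mem_setOf_eq, one_mul, mul_one, hx, hy, h1, h2, h3, h4, h5, ← hxy]
        all_goals tauto
      inv_mem' := by
        rintro a (rfl | rfl | rfl | rfl)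
        · exact Or.inl inv_one
        · exact Or.inr (Or.inl (inv_eq_of_mul_eq_one_right hx))
        · exact Or.inr (Or.inr (Or.inl (inv_eq_of_mul_eq_one_right hy)))
        · exact Or.inr (Or.inr (Or.inr (inv_eq_of_mul_eq_one_right h5))) }
  refine ⟨V, ?_, fun w => Iff.rfl⟩
  have hxy1 : x * y ≠ 1 := fun h => hne (by
    have := congrArg (· * y) h
    simp only [one_mul] at this
    rw [h4] at this; exact this)
  have hxyx : x * y ≠ x := fun h => hy1 (by simpa using h)
  have hxyy : x * y ≠ y := fun h => hx1 (by simpa using h)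
  have h6 : (V : Set G) = (({1, x, y, x * y} : Finset G) : Set G) := by
    ext w
    simp only [Finset.coe_insert, Finset.coe_singleton, Set.mem_insert_iff, Set.mem_singleton_iff]
    rfl
  have h7 : Nat.card V = Nat.card ((V : Set G) : Type _) := rfl
  rw [h7, h6, Nat.card_eq_card_toFinset, Finset.toFinset_coe]
  rw [Finset.card_insert_of_notMem, Finset.card_insert_of_notMem, Finset.card_insert_of_notMem, Finset.card_singleton]
  · rw [Finset.mem_singleton]; exact fun h => hxyy h.symm
  · simp only [Finset.mem_insert, Finset.mem_singleton, not_or]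
    exact ⟨hne, fun h => hxyx h.symm⟩
  · simp only [Finset.mem_insert, Finset.mem_singleton, not_or]
    exact ⟨fun h => hx1 h.symm, fun h => hy1 h.symm, fun h => hxy1 h.symm⟩

/-- normal abelian subgroups are cyclic -/
theorem isCyclic_of_no_four [Finite G] (hG : IsPGroup 2 G)
    (h : ∀ V : Subgroup G, V.Normal → Nat.card V = 4 → (∀ v ∈ V, v ^ 2 = 1) → False)
    {A : Subgroup G} (hAn : A.Normal) (hA : IsMulCommutative A) : IsCyclic A := by
  by_contra hnc
  obtain ⟨p, hp, E, hE, he⟩ := Partition.exists_elementary_of_not_isCyclic hA hnc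
  have hp2 : p = 2 := by
    obtain ⟨n, hn⟩ := IsPGroup.iff_card.mp (hG.to_subgroup A)
    have h1 : p ∣ Nat.card A := (dvd_pow_self p two_ne_zero).trans (hE ▸ E.card_subgroup_dvd_card)
    rw [hn] at h1
    exact (Nat.prime_dvd_prime_iff_eq hp Nat.prime_two).mp (hp.dvd_of_dvd_pow h1)
  subst hp2
  have hAc := Nilp.isMulCommutative_iff_forall.mp hA
  -- the subgroup of elements of order dividing two
  let O : Subgroup G :=
    { carrier := {x | x ∈ A ∧ x ^ 2 = 1}
      one_mem' := ⟨one_mem A, one_pow 2⟩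
      mul_mem' := fun {a b} ha hb => ⟨mul_mem ha.1 hb.1, by
        rw [(show Commute a b from hAc a ha.1 b hb.1).mul_pow, ha.2, hb.2, one_mul]⟩
      inv_mem' := fun {a} ha => ⟨inv_mem ha.1, by rw [inv_pow, ha.2, inv_one]⟩ }
  have hOn : O.Normal := ⟨fun n hn g => ⟨hAn.conj_mem n hn.1 g, by rw [conj_pow, hn.2, mul_one, mul_inv_cancel]⟩⟩
  have hEO : E.map A.subtype ≤ O := by
    rintro _ ⟨x, hx, rfl⟩
    exact ⟨x.2, congrArg Subtype.val (he x hx)⟩
  have hOc : 4 ≤ Nat.card O := by
    have h1 := card_le_of_le hEO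
    rw [card_map_of_injective (subtype_injective A), hE] at h1
    exact h1
  obtain ⟨V, hVn, -, hVO, hVc⟩ := exists_normal_card hG (bot_le : (⊥ : Subgroup G) ≤ O) 2 (by
    rw [card_bot, one_mul]; exact hOc)
  rw [card_bot, one_mul] at hVc
  exact h V hVn hVc fun v hv => (hVO hv).2

theorem cyclic_of_no_four [Finite G] (hG : IsPGroup 2 G)
    (h : ∀ V : Subgroup G, V.Normal → Nat.card V = 4 → (∀ v ∈ V, v ^ 2 = 1) → False) :
    ∃ a : G, (zpowers a).Normal ∧ (zpowers a).index ≤ 2 := by
  have := hG.isNilpotent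
  obtain ⟨A, ⟨hAn, hAc⟩, hmax⟩ := Set.exists_max_image {A : Subgroup G | A.Normal ∧ IsMulCommutative A}
    (fun A => Nat.card A) (Set.toFinite _) ⟨⊥, inferInstance, inferInstance⟩
  have hCA : centralizer (A : Set G) = A := Nilp.centralizer_eq_of_maximal_abelian_normal A hAc
    (fun M hM hMc hAM => (eq_of_le_of_card_ge hAM (hmax M ⟨hM, hMc⟩)).symm)
  have hcyc := isCyclic_of_no_four hG h hAn hAc
  obtain ⟨⟨a, haA⟩, ha⟩ := hcyc.exists_generator
  have hAa : zpowers a = A := by
    apply le_antisymm (zpowers_le.mpr haA)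
    intro x hx
    obtain ⟨k, hk⟩ := mem_zpowers_iff.mp (ha ⟨x, hx⟩)
    exact mem_zpowers_iff.mpr ⟨k, by simpa using congrArg Subtype.val hk⟩
  refine ⟨a, hAa ▸ hAn, ?_⟩
  by_cases hAt : A = ⊤
  · rw [hAa, hAt, index_top]; norm_num
  have hcomm_iff : ∀ x : G, x * a = a * x → x ∈ A := by
    intro x hx
    rw [← hCA, mem_centralizer_iff]
    intro y hy
    have hy' : y ∈ zpowers a := hAa ▸ hy
    obtain ⟨k, rfl⟩ := mem_zpowers_iff.mp hy'
    exact ((show Commute x a from hx).zpow_right k).eq.symm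
  obtain ⟨n, hn⟩ := IsPGroup.iff_card.mp (hG.to_subgroup (zpowers a))
  rw [Nat.card_zpowers] at hn
  have hAcen : ¬ A ≤ center G := by
    intro h
    apply hAt
    rw [eq_top_iff]
    intro x _
    exact hcomm_iff x (mem_center_iff.mp (h haA) x)
  have hn2 : 2 ≤ n := by
    by_contra hlt
    have : n = 0 ∨ n = 1 := by omega
    rcases this with rfl | rfl
    · rw [pow_zero, orderOf_eq_one_iff] at hn
      apply hAcen
      rw [← hAa, hn, zpowers_one_eq_bot]; exact bot_le
    · exact hAcen (le_center_of_card_eq_prime hG (by rw [← hAa, Nat.card_zpowers, hn, pow_one]))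
  obtain ⟨m, rfl⟩ : ∃ m, n = m + 1 := ⟨n - 1, by omega⟩
  have hm : 1 ≤ m := by omega
  by_contra hidx
  push Not at hidx
  rw [hAa] at hidx
  have hm2 : 2 ≤ m := by
    by_contra hlt
    have hm1 : m = 1 := by omega
    subst hm1
    have h1 := index_centralizer_le hG 2 A hAn (by rw [← hAa, Nat.card_zpowers, hn])
    rw [hCA] at h1
    norm_num at h1
    omega
  -- the element of order four
  set e := a ^ 2 ^ (m - 1) with he
  have heo : orderOf e = 4 := by
    rw [he, orderOf_pow_of_dvd (by positivity) (by rw [hn]; exact pow_dvd_pow _ (by omega)), hn]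
    have : 2 ^ (m + 1) = 2 ^ (m - 1) * 4 := by
      have : m + 1 = (m - 1) + 2 := by omega
      rw [this, pow_add]
      norm_num
    rw [this, Nat.mul_div_cancel_left _ (by positivity)]
  have he2 : e * e ≠ 1 := by
    intro h1
    have h2 := orderOf_dvd_of_pow_eq_one (by rw [pow_two]; exact h1 : e ^ 2 = 1)
    rw [heo] at h2
    exact absurd (Nat.le_of_dvd (by norm_num) h2) (by norm_num)
  have he4 : e ^ 4 = 1 := by rw [← heo]; exact pow_orderOf_eq_one e
  have heA : e ∈ A := pow_mem haA _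
  have hen : (zpowers e).Normal := by
    refine ⟨fun x hx g => ?_⟩
    obtain ⟨k, rfl⟩ := mem_zpowers_iff.mp hx
    obtain ⟨r, hr⟩ := mem_zpowers_iff.mp (hAa ▸ hAn.conj_mem a haA g : g * a * g⁻¹ ∈ zpowers a)
    have h1 : g * e * g⁻¹ = e ^ r := by
      rw [he, ← conj_pow, ← hr, ← zpow_natCast, ← zpow_mul, ← zpow_natCast, ← zpow_mul, mul_comm]
    rw [← conj_zpow, h1]
    exact zpow_mem (zpow_mem (mem_zpowers e) r) k
  set B := centralizer ((zpowers e : Subgroup G) : Set G) with hB
  haveI : B.Normal := by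
    haveI := hen
    exact inferInstance
  have hBi : B.index ≤ 2 := by
    have h1 := index_centralizer_le hG 2 (zpowers e) hen (by rw [Nat.card_zpowers, heo]; norm_num)
    norm_num at h1
    exact h1
  have hAB : A ≤ B := by
    intro x hx
    rw [hB, mem_centralizer_iff]
    intro y hy
    obtain ⟨k, rfl⟩ := mem_zpowers_iff.mp hy
    exact Nilp.isMulCommutative_iff_forall.mp hAc _ (zpow_mem heA k) _ hx
  have hlt : A < B := lt_of_le_of_ne hAB (fun h1 => by rw [h1] at hidx; omega)
  obtain ⟨C, hCn, hAC, hCB, hCc⟩ := exists_normal_step hG hlt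
  obtain ⟨b, hbC, hbA⟩ := SetLike.exists_of_lt hAC
  have hidx2 : (A.subgroupOf C).index = 2 := by
    have := Cfsg.Agent.Lib.Basic.relIndex_mul_card hAC.le
    rw [hCc] at this
    exact Nat.eq_of_mul_eq_mul_right Nat.card_pos this
  have hmulC : ∀ x ∈ C, ∀ y ∈ C, x ∉ A → y ∉ A → x * y ∈ A := by
    intro x hx y hy hxA hyA
    have h3 := (mul_mem_iff_of_index_two hidx2 (a := ⟨x, hx⟩) (b := ⟨y, hy⟩))
    have h4 : (⟨x, hx⟩ * ⟨y, hy⟩ : C) ∈ A.subgroupOf C := h3.mpr ⟨fun h => absurd h hxA, fun h => absurd h hyA⟩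
    exact h4
  obtain ⟨r, hr⟩ := mem_zpowers_iff.mp (hAa ▸ hAn.conj_mem a haA b : b * a * b⁻¹ ∈ zpowers a)
  have hnc : b * a ≠ a * b := fun h => hbA (hcomm_iff b h)
  have hb2' : b ^ 2 ∈ zpowers a := by rw [hAa, pow_two]; exact hmulC b hbC b hbC hbA hbA
  obtain ⟨l, hl⟩ := mem_zpowers_iff.mp hb2'
  have hl2 : (2 : ℤ) ∣ l := by
    by_contra hodd
    apply hnc
    have h1 : orderOf (b ^ 2) = orderOf a := by
      rw [← hl, orderOf_zpow_natAbs, orderOf_pow, hn]
      have : Nat.gcd (2 ^ (m + 1)) l.natAbs = 1 := by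
        apply Nat.Coprime.pow_left
        rw [Nat.Prime.coprime_iff_not_dvd Nat.prime_two]
        intro h
        exact hodd (Int.natCast_dvd.mpr h)
      rw [this, Nat.div_one]
    have h2 : zpowers (b ^ 2) = zpowers a := by
      apply eq_of_le_of_card_ge (zpowers_le.mpr hb2')
      rw [Nat.card_zpowers, Nat.card_zpowers, h1]
    have h3 : a ∈ zpowers (b ^ 2) := h2 ▸ mem_zpowers a
    obtain ⟨k, hk⟩ := mem_zpowers_iff.mp h3
    rw [← hk]
    exact (((Commute.refl b).pow_right 2).zpow_right k).eq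
  obtain ⟨k, rfl⟩ := hl2
  obtain ⟨j, hj⟩ := two_main hm hn hr.symm hl.symm hnc
  set c := b * a ^ j with hc
  have hcC : c ∈ C := mul_mem hbC (hAC.le (zpow_mem haA j))
  have hcA : c ∉ A := by
    intro h1
    have := mul_mem h1 (inv_mem (zpow_mem haA j))
    rw [hc, mul_inv_cancel_right] at this
    exact hbA this
  have hce : c * e * c⁻¹ = e := by
    have h1 := mem_centralizer_iff.mp (hCB hcC) e (mem_zpowers e)
    rw [← h1, mul_inv_cancel_right]
  clear_value c
  have hpow : ∀ i : ℕ, c * a * c⁻¹ = a ^ i → e = e ^ i := by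
    intro i h1
    have h2 : c * e * c⁻¹ = e ^ i := by
      rw [he, ← conj_pow, h1, ← pow_mul, ← pow_mul, mul_comm]
    rw [← h2, hce]
  have hinv : c * a * c⁻¹ ≠ a⁻¹ := by
    intro h1
    have h2 : c * e * c⁻¹ = e⁻¹ := by rw [he, ← conj_pow, h1, inv_pow]
    rw [hce] at h2
    exact he2 (by nth_rw 1 [h2]; exact inv_mul_cancel e)
  rcases hj with h1 | h1 | h1 | h1
  · exact hinv h1.2
  · exact hinv h1.2
  · obtain ⟨-, hc2, hca⟩ := h1
    set z := a ^ 2 ^ m with hz
    have hzo : orderOf z = 2 := by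
      rw [hz, orderOf_pow_of_dvd (by positivity) (by rw [hn]; exact pow_dvd_pow _ (Nat.le_succ m)), hn,
        pow_succ, Nat.mul_div_cancel_left _ (by positivity)]
    have hz1 : z ≠ 1 := fun h1 => by rw [h1, orderOf_one] at hzo; norm_num at hzo
    have hzz : z * z = 1 := by rw [← pow_two, ← hzo, pow_orderOf_eq_one]
    have hcc : c * c = 1 := by rw [← pow_two]; exact hc2
    have hzA : z ∈ A := pow_mem haA _
    have hzc : z ∈ center G := by
      have h1 : zpowers z ≤ center G := by
        haveI : (zpowers z).Normal := by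
          refine ⟨fun x hx g => ?_⟩
          obtain ⟨k, rfl⟩ := mem_zpowers_iff.mp hx
          obtain ⟨r, hr⟩ := mem_zpowers_iff.mp (hAa ▸ hAn.conj_mem a haA g : g * a * g⁻¹ ∈ zpowers a)
          have h1 : g * z * g⁻¹ = z ^ r := by
            rw [hz, ← conj_pow, ← hr, ← zpow_natCast, ← zpow_mul, ← zpow_natCast, ← zpow_mul, mul_comm]
          rw [← conj_zpow, h1]
          exact zpow_mem (zpow_mem (mem_zpowers z) r) k
        exact le_center_of_card_eq_prime hG (by rw [Nat.card_zpowers, hzo])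
      exact h1 (mem_zpowers z)
    have hzcom : ∀ g : G, g * z = z * g := fun g => mem_center_iff.mp hzc g
    obtain ⟨V, hVc, hV⟩ := exists_four hzz hcc (hzcom c).symm hz1 (fun h1 => hcA (h1 ▸ one_mem A))
      (fun h1 => hcA (h1 ▸ hzA))
    -- conjugates of `c`
    have hconj : ∀ g : G, g * c * g⁻¹ = c ∨ g * c * g⁻¹ = z * c := by
      intro g
      set d := g * c * g⁻¹ with hd
      have hdC : d ∈ C := hCn.conj_mem c hcC g
      have hdA : d ∉ A := by
        intro h1
        have h2 := hAn.conj_mem d h1 g⁻¹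
        rw [hd] at h2
        have h3 : g⁻¹ * (g * c * g⁻¹) * g⁻¹⁻¹ = c := by group
        rw [h3] at h2
        exact hcA h2
      have hdd : d * d = 1 := by
        rw [← pow_two, hd, conj_pow, hc2, mul_one, mul_inv_cancel]
      obtain ⟨i, hi⟩ := mem_zpowers_iff.mp (hAa ▸ hmulC d hdC c hcC hdA hcA : d * c ∈ zpowers a)
      have hdi : d = a ^ i * c := by
        rw [hi, mul_assoc, hcc, mul_one]
      have h1 : a ^ ((2 + 2 ^ m) * i) = 1 := by
        have h2 : d * d = a ^ i * (c * a ^ i * c⁻¹) * (c * c) := by rw [hdi]; group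
        rw [hdd, hcc, mul_one] at h2
        have h3 : c * a ^ i * c⁻¹ = a ^ ((1 + 2 ^ m : ℤ) * i) := by
          rw [← conj_zpow, hca, ← zpow_natCast, ← zpow_mul]
          push_cast
          rfl
        rw [h3, ← zpow_add] at h2
        rw [h2]
        congr 1
        ring
      rw [← zpow_zero a, zpow_eq_iff hn] at h1
      have h2 : ((2 : ℤ) ^ m) ∣ i := by
        have e1 : (((2 ^ (m + 1) : ℕ)) : ℤ) = 2 * 2 ^ m := by push_cast; ring
        have e2 : (2 + 2 ^ m : ℤ) * i - 0 = 2 * ((1 + 2 ^ (m - 1)) * i) := by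
          have : (2 : ℤ) ^ m = 2 * 2 ^ (m - 1) := by
            rw [← pow_succ']; congr 1; omega
          rw [this]; ring
        rw [e1, e2] at h1
        have h3 := Int.dvd_of_mul_dvd_mul_left (by norm_num) h1
        have h4 : IsCoprime ((2 : ℤ) ^ m) (1 + 2 ^ (m - 1)) := by
          apply IsCoprime.pow_left
          have : (2 : ℤ) ^ (m - 1) = 2 * 2 ^ (m - 2) := by
            rw [← pow_succ']; congr 1; omega
          rw [this]
          exact ⟨-2 ^ (m - 2), 1, by ring⟩
        exact h4.dvd_of_dvd_mul_left h3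
      obtain ⟨t, rfl⟩ := h2
      have h3 : a ^ ((2 : ℤ) ^ m * t) = z ^ t := by
        rw [hz, ← zpow_natCast a, ← zpow_mul]
        push_cast
        rfl
      rw [h3] at hdi
      have hz2 : z ^ (2 : ℤ) = 1 := by rw [zpow_ofNat, pow_two]; exact hzz
      rcases Int.even_or_odd' t with ⟨s, rfl | rfl⟩
      · left; rw [hdi, zpow_mul, hz2, one_zpow, one_mul]
      · right; rw [hdi, zpow_add, zpow_mul, hz2, one_zpow, one_mul, zpow_one]
    refine h V ⟨fun w hw g => ?_⟩ hVc ?_
    · rw [hV] at hw ⊢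
      have hgz : g * z * g⁻¹ = z := by rw [hzcom, mul_inv_cancel_right]
      rcases hw with rfl | rfl | rfl | rfl
      · left; rw [mul_one, mul_inv_cancel]
      · right; left; exact hgz
      · rcases hconj g with h2 | h2
        · right; right; left; exact h2
        · right; right; right; exact h2
      · have h3 : g * (z * c) * g⁻¹ = z * (g * c * g⁻¹) := by
          rw [← mul_assoc, hzcom]; simp only [mul_assoc]
        rw [h3]
        rcases hconj g with h2 | h2
        · right; right; right; rw [h2]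
        · right; right; left; rw [h2, ← mul_assoc, hzz, one_mul]
    · intro v hv
      rw [hV] at hv
      rcases hv with rfl | rfl | rfl | rfl
      · exact one_pow 2
      · rw [pow_two]; exact hzz
      · exact hc2
      · rw [(show Commute z c from (hzcom c).symm).mul_pow, hc2, pow_two, hzz, one_mul]
  · obtain ⟨-, -, hca⟩ := h1
    have h2 := hpow _ hca
    have h3 : 4 ∣ 2 ^ m := by
      obtain ⟨s, rfl⟩ : ∃ s, m = s + 2 := ⟨m - 2, by omega⟩
      exact ⟨2 ^ s, by ring⟩
    obtain ⟨s, hs⟩ := h3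
    have h4 : 1 ≤ 2 ^ m := Nat.one_le_two_pow
    have h5 : e * e = e ^ (2 ^ m) := by
      calc e * e = e ^ (2 ^ m - 1) * e := by rw [← h2]
        _ = e ^ (2 ^ m - 1 + 1) := (pow_succ e _).symm
        _ = e ^ (2 ^ m) := by rw [Nat.sub_add_cancel h4]
    rw [hs, pow_mul, he4, one_pow] at h5
    exact he2 h5

end Cfsg.Agent.Lib.TwoRank
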