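import Cfsg.Agent.Lib.GlcG
import Cfsg.Agent.Lib.BisF
import Cfsg.Agent.Lib.QfC

/-!
Characteristic functors controlling transfer in constrained systems control transfer in all saturated systems.
-/

set_option autoImplicit false
set_option linter.unusedSectionVars false
set_option linter.style.haveILetI false
set_option linter.unusedVariables false

namespace Cfsg.Agent.Lib.WTrA

open Cfsg Cfsg.FusionSystem Cfsg.Agent.Lib.FusBase Cfsg.Agent.Lib.FusSat Cfsg.Agent.Lib.StrongEmb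
open Cfsg.Agent.Lib.FusAlperin Cfsg.Agent.Lib.FusNormal Cfsg.Agent.Lib.FusNormalB Cfsg.Agent.Lib.SylRel
open Cfsg.Agent.Lib.FusSub Cfsg.Agent.Lib.FusPuig Cfsg.Agent.Lib.FusNK Cfsg.Agent.Lib.FusNKB Cfsg.Agent.Lib.FusMor Cfsg.Agent.Lib.FusGroup
open Cfsg.Agent.Lib.FusHyp Cfsg.Agent.Lib.FusHypB Cfsg.Agent.Lib.FusInv Cfsg.Agent.Lib.FusInvB Cfsg.Agent.Lib.FusModel
open Cfsg.Agent.Lib.MdlA Cfsg.Agent.Lib.MdlB Cfsg.Agent.Lib.MdlC Cfsg.Agent.Lib.MdlD Cfsg.Agent.Lib.PNilp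
open Cfsg.Agent.Lib.NilA Cfsg.Agent.Lib.NilB Cfsg.Agent.Lib.NilC Cfsg.Agent.Lib.NilE Cfsg.Agent.Lib.CSecA Cfsg.Agent.Lib.CSecB Cfsg.Agent.Lib.FusSimple
open Cfsg.Agent.Lib.QfA Cfsg.Agent.Lib.QfB Cfsg.Agent.Lib.QfC Cfsg.Agent.Lib.QfD Cfsg.Agent.Lib.QfE Cfsg.Agent.Lib.QfG Cfsg.Agent.Lib.Involve
open Cfsg.Agent.Lib.ThfA Cfsg.Agent.Lib.ThC Cfsg.Agent.Lib.GlcD Cfsg.Agent.Lib.GlcF Cfsg.Agent.Lib.GlcG

open scoped commutatorElement

universe u

variable {W : ∀ (Q : Type u) [Group Q], Subgroup Q}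
variable {Ω : Type u} [Group Ω] {S : Subgroup Ω} {F E : FusionSystem S} {p : ℕ} [Finite S] [Fact p.Prime]
variable {P Q R X Y : Subgroup Ω} {f g h : Ω → Ω} {s t k z : Ω}

/-- `W(R)` is invariant under automorphisms -/
theorem w_iso (hW : IsCharPFunctor.{u} p W) (hS : IsPGroup p S) (hf : Iso F R R f) :
    ∀ x ∈ inducedFunctor (G := Ω) W R, f x ∈ inducedFunctor (G := Ω) W R := by
  haveI : Finite R := finite_of_le hf.le_left
  have hRp : IsPGroup p R := isPGroup_le hS hf.le_left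
  rintro _ ⟨y, hy, rfl⟩
  have h1 := hW.2 R R hRp (autOf hf)
  refine ⟨autOf hf y, ?_, ?_⟩
  · rw [← h1]; exact ⟨y, hy, rfl⟩
  · exact autOf_apply hf y

theorem w_ne_bot (hW : IsCharPFunctor.{u} p W) (hR : IsPGroup p R) [Finite R] (h : R ≠ ⊥) : inducedFunctor (G := Ω) W R ≠ ⊥ := by
  haveI : Nontrivial R := (Subgroup.nontrivial_iff_ne_bot R).2 h
  intro hcon
  apply hW.1 R hR inferInstance
  have h1 : (W R).map R.subtype = ⊥ := hcon
  rwa [Subgroup.map_eq_bot_iff_of_injective _ R.subtype_injective] at h1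

/-- the statement -/
def CtlT (W : ∀ (Q : Type u) [Group Q], Subgroup Q) (F : FusionSystem S) : Prop :=
  ∀ H : Subgroup Ω, (∀ P f, Mor F P f → inducedFunctor (G := Ω) W S ≤ P →
    (∀ w ∈ inducedFunctor (G := Ω) W S, f w ∈ inducedFunctor (G := Ω) W S) → ∀ x ∈ P, x⁻¹ * f x ∈ H) →
    ∀ P f, Mor F P f → ∀ x ∈ P, x⁻¹ * f x ∈ H

theorem hPred (F : FusionSystem S) {H : Subgroup Ω} (hH : ∀ s ∈ S, ∀ x ∈ S, x⁻¹ * (s * x * s⁻¹) ∈ H) :
    SubPred F S (fun P f => Mor F P f ∧ ∀ x ∈ P, x⁻¹ * f x ∈ H) where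
  mor := fun h => h.1
  le := fun h => h.1.le
  mem := fun h hx => h.1.mem hx
  congr := fun h hfg => ⟨h.1.congr hfg, fun x hx => by rw [← hfg x hx]; exact h.2 x hx⟩
  conj := fun hP hs => ⟨mor_conj F hP hs, fun x hx => hH _ hs x (hP hx)⟩
  comp := fun {P Q f g} h1 h2 hfg => ⟨h1.1.comp h2.1 hfg, fun x hx => by
    have := H.mul_mem (h1.2 x hx) (h2.2 _ (hfg x hx))
    have e : x⁻¹ * f x * ((f x)⁻¹ * g (f x)) = x⁻¹ * g (f x) := by group
    rwa [e] at this⟩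
  inv := fun {P Q f g} h1 h2 h3 h4 h5 => by
    refine ⟨h3.mor, fun y hy => ?_⟩
    have h6 := H.inv_mem (h1.2 _ (h3.map_mem hy))
    rw [h5 y hy, mul_inv_rev, inv_inv] at h6
    exact h6

/-- the maps moving elements by elements of `H` -/
noncomputable def hSys (F : FusionSystem S) {H : Subgroup Ω} (hH : ∀ s ∈ S, ∀ x ∈ S, x⁻¹ * (s * x * s⁻¹) ∈ H) : FusionSystem S :=
  ofPred (hPred F hH).pred

theorem mor_hSys {H : Subgroup Ω} (hH : ∀ s ∈ S, ∀ x ∈ S, x⁻¹ * (s * x * s⁻¹) ∈ H) :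
    Mor (hSys F hH) P f ↔ Mor F P f ∧ ∀ x ∈ P, x⁻¹ * f x ∈ H := mor_ofPred _

/-- normalizers of `S`-normal subgroups -/
theorem ct_norm_top (hS : IsPGroup p S) (hF : F.IsSaturated p)
    (ih2 : ∀ E : FusionSystem S, mu E < mu F → E.IsSaturated p → CtlT W E) {H : Subgroup Ω}
    (hH : ∀ P f, Mor F P f → inducedFunctor (G := Ω) W S ≤ P →
      (∀ w ∈ inducedFunctor (G := Ω) W S, f w ∈ inducedFunctor (G := Ω) W S) → ∀ x ∈ P, x⁻¹ * f x ∈ H)
    (hXS : X ≤ S) (hn : S ≤ Subgroup.normalizer (X : Set Ω)) (hXn : ¬ F.IsNormal X) :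
    ∀ R ψ, Mor F R ψ → X ≤ R → (∀ x ∈ X, ψ x ∈ X) → ∀ x ∈ R, x⁻¹ * ψ x ∈ H := by
  obtain ⟨E₁, hEF, hEs, hEX, hEmor, -⟩ := norm_over hS hF hXS hn
  have hle : E₁ ≤ F := le_iff_mor.2 hEF
  have hnle : ¬ F ≤ E₁ := by
    intro h
    have : E₁ = F := le_antisymm' hle h
    rw [this] at hEX
    exact hXn hEX
  have h1 := ih2 E₁ (mu_lt hS hF hle hnle) hEs H (fun P f hf => hH P f (hEF P f hf))
  intro R ψ hψ hXR hψX
  exact h1 R ψ (hEmor R ψ hXR hψ hψX)

/-- systems with `O_p(F) = 1` -/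
theorem step_one (hW : IsCharPFunctor.{u} p W) (hS : IsPGroup p S) (hF : F.IsSaturated p)
    (ih1 : ∀ (S' : Subgroup Ω) (F' : FusionSystem S') (_ : Finite S'), Nat.card S' < Nat.card S → IsPGroup p S' → F'.IsSaturated p → CtlT W F')
    (ih2 : ∀ E : FusionSystem S, mu E < mu F → E.IsSaturated p → CtlT W E) {H : Subgroup Ω}
    (hH : ∀ P f, Mor F P f → inducedFunctor (G := Ω) W S ≤ P →
      (∀ w ∈ inducedFunctor (G := Ω) W S, f w ∈ inducedFunctor (G := Ω) W S) → ∀ x ∈ P, x⁻¹ * f x ∈ H)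
    (hcore : F.core = ⊥) : ∀ P f, Mor F P f → ∀ x ∈ P, x⁻¹ * f x ∈ H := by
  have hHc : ∀ s ∈ S, ∀ x ∈ S, x⁻¹ * (s * x * s⁻¹) ∈ H := by
    intro s hs x hx
    refine hH S _ (mor_conj F le_rfl hs) (ind_le W S) ?_ x hx
    exact w_iso hW hS ((mor_conj F le_rfl hs).iso_of_map fun x hx => S.mul_mem (S.mul_mem hs hx) (S.inv_mem hs))
  have key := agE_all (E := hSys F hHc) hS hF (C := fun X => X ≤ S ∧ X ≠ ⊥) (fun X h => h.1) ?_ ?_ ?_ ?_
  · intro P f hf x hx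
    by_cases hP : P = ⊥
    · subst hP
      rw [Subgroup.mem_bot] at hx
      subst hx
      rw [hf.one, inv_one, one_mul]; exact H.one_mem
    · exact ((mor_hSys hHc).1 (key P f hf ⟨hf.le, hP⟩)).2 x hx
  · rintro X ψ ⟨hXS, hne⟩ hψ
    refine ⟨hψ.img_le, fun h => hne ?_⟩
    rw [eq_bot_iff]
    intro x hx
    have h1 : ψ x ∈ img X ψ := mem_img_of_mem hx
    rw [h, Subgroup.mem_bot] at h1
    have h2 := hψ.inj hx X.one_mem (by rw [h1, hψ.one])
    rw [h2]; exact Subgroup.one_mem _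
  · rintro X Y ⟨_, hne⟩ hXY hYS
    exact ⟨hYS, fun h => hne (by rw [eq_bot_iff, ← h]; exact hXY)⟩
  · intro f hf
    exact (mor_hSys hHc).2 ⟨hf.mor, hH S f hf.mor (ind_le W S) (w_iso hW hS hf)⟩
  · rintro X ⟨hXS, hne⟩ hXF hIH
    have hfX : Finite X := finite_of_le hXS
    have hXn : ¬ F.IsNormal X := fun h => hne (by rw [eq_bot_iff, ← hcore]; exact le_core h)
    by_cases hRS : normalizerIn S X = S
    · have hn : S ≤ Subgroup.normalizer (X : Set Ω) := fun s hs => (mem_normalizerIn.1 (show s ∈ normalizerIn S X by rw [hRS]; exact hs)).2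
      intro R ψ hψ hXR _ hψX
      exact (mor_hSys hHc).2 ⟨hψ, ct_norm_top hS hF ih2 hH hXS hn hXn R ψ hψ hXR hψX⟩
    have hTlt : normalizerIn S X < S := lt_of_le_of_ne normalizerIn_le hRS
    obtain ⟨N, hN⟩ := exists_norm F hXS
    have hNs := norm_saturated hS hF hXF hN
    have hNp : IsPGroup p (normalizerIn S X) := isPGroup_le hS normalizerIn_le
    have hNF : ∀ P f, Mor N P f → Mor F P f := fun P f hf => norm_le hN hf
    have hfN : Finite (normalizerIn S X) := finite_of_le normalizerIn_le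
    have hTne : normalizerIn S X ≠ ⊥ := fun h => hne (by rw [eq_bot_iff, ← h]; exact le_normalizerIn hXS)
    have hGL := ih1 (normalizerIn S X) N hfN (card_lt_of_lt hTlt le_rfl) hNp hNs H ?_
    · intro R ψ hψ hXR hRN hψX
      have h1 := Cfsg.Agent.Lib.LabC.norm_mor hN hXS hXR hRN hψ hψX
      exact (mor_hSys hHc).2 ⟨hψ, hGL R ψ h1⟩
    · intro P f hf hWP hfW
      have hY : inducedFunctor (G := Ω) W (normalizerIn S X) ≤ S ∧ inducedFunctor (G := Ω) W (normalizerIn S X) ≠ ⊥ :=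
        ⟨(ind_le W _).trans normalizerIn_le, w_ne_bot hW hNp hTne⟩
      have hle1 : normalizerIn S (normalizerIn S X) ≤ normalizerIn S (inducedFunctor (G := Ω) W (normalizerIn S X)) := by
        intro n hn
        obtain ⟨hnS, hnT⟩ := mem_normalizerIn.1 hn
        exact mem_normalizerIn.2 ⟨hnS, ind_conj hW hNp hnT⟩
      have hcard : Nat.card (normalizerIn S X) < Nat.card (normalizerIn S (inducedFunctor (G := Ω) W (normalizerIn S X))) := by
        have h3 : normalizerIn S X < normalizerIn S (normalizerIn S X) := lt_normalizerIn hS hTlt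
        exact card_lt_of_lt (h3.trans_le hle1) normalizerIn_le
      have hAX := hIH _ hY hcard
      exact ((mor_hSys hHc).1 (hAX P f (hNF _ _ hf) hWP (hf.le.trans ((le_normalizerIn normalizerIn_le).trans hle1)) hfW)).2

/-- the quotient step -/
theorem step_quot (hW : IsCharPFunctor.{u} p W) (hS : IsPGroup p S) (hF : F.IsSaturated p)
    (ihq : ∀ (Ω' : Type u) (_ : Group Ω') (S' : Subgroup Ω') (F' : FusionSystem S') (_ : Finite S'), Nat.card S' < Nat.card S → IsPGroup p S' →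
      F'.IsSaturated p → CtlT W F')
    (ih2 : ∀ E : FusionSystem S, mu E < mu F → E.IsSaturated p → CtlT W E) {H : Subgroup Ω} (hHS : H ≤ S)
    (hH : ∀ P f, Mor F P f → inducedFunctor (G := Ω) W S ≤ P →
      (∀ w ∈ inducedFunctor (G := Ω) W S, f w ∈ inducedFunctor (G := Ω) W S) → ∀ x ∈ P, x⁻¹ * f x ∈ H)
    (hcore : F.core ≠ ⊥) (hcS : F.core ≠ S) : ∀ P f, Mor F P f → ∀ x ∈ P, ∃ a ∈ H, ∃ b ∈ F.core, x⁻¹ * f x = a * b := by
  have hQn := core_normal F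
  have hQsc := normal_stronglyClosed hQn
  have hQN : S ≤ Subgroup.normalizer (F.core : Set Ω) := StronglyClosed_normalizer hQsc
  obtain ⟨Ω', _, θ, E', hE', hker, hθ, hfinΩ⟩ := exists_factor hS hF hQsc
  have hα := surj_of_factor hS hF hQsc hE'
  have hEs' := sat_of_surj hS hF hα
  have hS' : IsPGroup p (⊤ : Subgroup Ω') := (hS.of_surjective θ hθ).to_subgroup ⊤
  have hS'' : IsPGroup p Ω' := hS.of_surjective θ hθ
  have hpreS : preimageAlong θ ⊤ = S :=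
    le_antisymm preimageAlong_le fun x hx => mem_preimageAlong.2 ⟨hx, Subgroup.mem_top _⟩
  have hcard1 : Nat.card S = Nat.card F.core * Nat.card (⊤ : Subgroup Ω') := by
    have h1 := card_preimage (α := θ) (P' := ⊤) (by rw [MonoidHom.range_eq_top.2 hθ])
    rwa [hpreS, hker] at h1
  have hfc : Finite F.core := finite_of_le hQn.1
  have hcard : Nat.card (⊤ : Subgroup Ω') < Nat.card S := by
    have h3 : 1 < Nat.card F.core := (Subgroup.one_lt_card_iff_ne_bot _).2 hcore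
    have h4 : 0 < Nat.card (⊤ : Subgroup Ω') := Nat.card_pos
    rw [hcard1]
    nlinarith
  have hTne : (⊤ : Subgroup Ω') ≠ ⊥ := by
    intro h
    rw [h, Subgroup.card_bot, mul_one] at hcard1
    apply hcS
    haveI : Finite S := inferInstance
    exact Subgroup.eq_of_le_of_card_ge hQn.1 hcard1.le
  have hfT : Finite (⊤ : Subgroup Ω') := inferInstance
  -- the preimage of `W(S/Q)`
  obtain ⟨V, hV⟩ : ∃ V, V = inducedFunctor (G := Ω') W (⊤ : Subgroup Ω') := ⟨_, rfl⟩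
  have hVne : V ≠ ⊥ := by rw [hV]; exact w_ne_bot hW hS' hTne
  obtain ⟨Y, hY⟩ : ∃ Y, Y = preimageAlong θ V := ⟨_, rfl⟩
  have hYS : Y ≤ S := by rw [hY]; exact preimageAlong_le
  have hfY : Finite Y := finite_of_le hYS
  have hVn : ∀ g : Ω', ∀ v ∈ V, g * v * g⁻¹ ∈ V := by
    intro g v hv
    have h1 : g ∈ Subgroup.normalizer ((⊤ : Subgroup Ω') : Set Ω') := by
      rw [Subgroup.normalizer_eq_top_iff.2 inferInstance]; exact Subgroup.mem_top _
    have h2 := ind_conj hW hS' h1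
    rw [← hV] at h2
    exact (Subgroup.mem_normalizer_iff.1 h2 v).1 hv
  have hYn : S ≤ Subgroup.normalizer (Y : Set Ω) := by
    intro s hs
    refine mem_normalizer_of_conj_mem fun y hy => ?_
    rw [hY, mem_preimageAlong] at hy ⊢
    refine ⟨S.mul_mem (S.mul_mem hs hy.1) (S.inv_mem hs), ?_⟩
    rw [ev_conj hs hy.1]
    exact hVn _ _ hy.2
  have hYnn : ¬ F.IsNormal Y := by
    intro h
    apply hVne
    rw [eq_bot_iff]
    intro v hv
    obtain ⟨s, rfl⟩ := hθ v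
    have h1 : (s : Ω) ∈ Y := by rw [hY]; exact mem_preimageAlong.2 ⟨s.2, by rw [ev_apply (α := θ)]; exact hv⟩
    have h2 := le_core h h1
    rw [← hker, mem_ker'] at h2
    rw [Subgroup.mem_bot, ← ev_apply (α := θ)]
    exact h2.2
  have hYmor := ct_norm_top hS hF ih2 hH hYS hYn hYnn
  have hCT := ihq Ω' inferInstance ⊤ E' hfT hcard hS' hEs' (imageAlong θ H) ?_
  · intro P f hf x hx
    obtain ⟨f', hf', hff'⟩ := (isMorphism_iff.1 hα.1).2 P f hf
    have h1 := hCT _ _ hf' (ev θ x) ((mem_imageAlong hf.le).2 ⟨x, hx, rfl⟩)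
    rw [hff' x hx] at h1
    obtain ⟨a, ha, hae⟩ := (mem_imageAlong hHS).1 h1
    have hxS := hf.le hx
    have hfx := hf.mem hx
    have hm : x⁻¹ * f x ∈ S := S.mul_mem (S.inv_mem hxS) hfx
    refine ⟨a, ha, a⁻¹ * (x⁻¹ * f x), ?_, by group⟩
    rw [← hker, mem_ker']
    refine ⟨S.mul_mem (S.inv_mem (hHS ha)) hm, ?_⟩
    rw [ev_mul (S.inv_mem (hHS ha)) hm, ev_inv (hHS ha), hae, ev_mul (S.inv_mem hxS) hfx, ev_inv hxS]
    group
  · intro P' f' hf' hWP hfW x' hx'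
    rw [← hV] at hWP hfW
    obtain ⟨f, hf, hff'⟩ := (isSurj_iff.1 hα).2.2 P' le_top f' hf'
    have hYP : Y ≤ preimageAlong θ P' := by
      rw [hY]; intro y hy
      rw [mem_preimageAlong] at hy ⊢
      exact ⟨hy.1, hWP hy.2⟩
    have hfY : ∀ y ∈ Y, f y ∈ Y := by
      intro y hy
      have hy' := hy
      rw [hY, mem_preimageAlong] at hy' ⊢
      refine ⟨hf.mem (hYP hy), ?_⟩
      rw [← hff' y (hYP hy)]
      exact hfW _ hy'.2
    obtain ⟨s, hsx⟩ := hθ x'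
    have hsP : (s : Ω) ∈ preimageAlong θ P' := mem_preimageAlong.2 ⟨s.2, by rw [ev_apply (α := θ), hsx]; exact hx'⟩
    have h1 := hYmor _ f hf hYP hfY s hsP
    have h2 : x' = ev θ (s : Ω) := by rw [ev_apply (α := θ), hsx]
    rw [h2, hff' _ hsP, ← ev_inv s.2, ← ev_mul (S.inv_mem s.2) (hf.mem hsP)]
    exact (mem_imageAlong hHS).2 ⟨_, h1, rfl⟩

end Cfsg.Agent.Lib.WTrA
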