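import Cfsg.Agent.Lib.WTrA
import Cfsg.Agent.Lib.Nilp

/-!
Characteristic functors controlling transfer: the constrained case, and systems acting on a normal subgroup as `S`.
-/

set_option autoImplicit false
set_option linter.unusedSectionVars false
set_option linter.style.haveILetI false
set_option linter.unusedVariables false

namespace Cfsg.Agent.Lib.WTrB

open Cfsg Cfsg.FusionSystem Cfsg.Agent.Lib.FusBase Cfsg.Agent.Lib.FusSat Cfsg.Agent.Lib.StrongEmb
open Cfsg.Agent.Lib.FusAlperin Cfsg.Agent.Lib.FusNormal Cfsg.Agent.Lib.FusNormalB Cfsg.Agent.Lib.SylRel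
open Cfsg.Agent.Lib.FusSub Cfsg.Agent.Lib.FusPuig Cfsg.Agent.Lib.FusNK Cfsg.Agent.Lib.FusNKB Cfsg.Agent.Lib.FusMor Cfsg.Agent.Lib.FusGroup
open Cfsg.Agent.Lib.FusHyp Cfsg.Agent.Lib.FusHypB Cfsg.Agent.Lib.FusInv Cfsg.Agent.Lib.FusInvB Cfsg.Agent.Lib.FusModel
open Cfsg.Agent.Lib.MdlA Cfsg.Agent.Lib.MdlB Cfsg.Agent.Lib.MdlC Cfsg.Agent.Lib.MdlD Cfsg.Agent.Lib.PNilp
open Cfsg.Agent.Lib.NilA Cfsg.Agent.Lib.NilB Cfsg.Agent.Lib.NilC Cfsg.Agent.Lib.NilE Cfsg.Agent.Lib.CSecA Cfsg.Agent.Lib.CSecB Cfsg.Agent.Lib.FusSimple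
open Cfsg.Agent.Lib.QfA Cfsg.Agent.Lib.QfB Cfsg.Agent.Lib.QfC Cfsg.Agent.Lib.QfD Cfsg.Agent.Lib.QfE Cfsg.Agent.Lib.QfG Cfsg.Agent.Lib.Involve
open Cfsg.Agent.Lib.ThfA Cfsg.Agent.Lib.ThC Cfsg.Agent.Lib.GlcD Cfsg.Agent.Lib.GlcF Cfsg.Agent.Lib.GlcG Cfsg.Agent.Lib.WTrA

open scoped commutatorElement

universe u

variable {W : ∀ (Q : Type u) [Group Q], Subgroup Q}
variable {Ω : Type u} [Group Ω] {S : Subgroup Ω} {F E : FusionSystem S} {p : ℕ} [Finite S] [Fact p.Prime]
variable {P Q R X Y : Subgroup Ω} {f g h : Ω → Ω} {s t k z : Ω}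

/-- the local condition -/
def LocT (p : ℕ) (W : ∀ (Q : Type u) [Group Q], Subgroup Q) : Prop :=
  ∀ (G : Type u) [Group G] [Finite G] (P : Sylow p G), Subgroup.centralizer ((Cfsg.pCore p G : Subgroup G) : Set G) ≤ Cfsg.pCore p G →
    Cfsg.pCore p G ⊓ commutator G = Cfsg.pCore p G ⊓ (commutator ↥(Subgroup.normalizer (((W ↥(P : Subgroup G)).map (P : Subgroup G).subtype : Subgroup G) : Set G))).map
      (Subgroup.normalizer (((W ↥(P : Subgroup G)).map (P : Subgroup G).subtype : Subgroup G) : Set G)).subtype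

/-- the constrained case -/
theorem step_con (hW : IsCharPFunctor.{u} p W) (hT : LocT p W) (hS : IsPGroup p S) (hF : F.IsSaturated p) {H : Subgroup Ω} (hHS : H ≤ S)
    (hH : ∀ P f, Mor F P f → inducedFunctor (G := Ω) W S ≤ P →
      (∀ w ∈ inducedFunctor (G := Ω) W S, f w ∈ inducedFunctor (G := Ω) W S) → ∀ x ∈ P, x⁻¹ * f x ∈ H)
    (hcen : centralizerIn S F.core ≤ F.core) : ∀ y ∈ F.focalSubgroup, y ∈ F.core → y ∈ H := by
  have hQn := core_normal F
  have hQsc := normal_stronglyClosed hQn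
  have hQFN : F.IsFullyNormalized F.core := FN_of_norm hQn.1 (StronglyClosed_normalizer hQsc)
  have hc : F.IsCentric F.core := centric_of_FC (FN_FC hS hF hQFN) hcen
  obtain ⟨L, _, ι, hM, hemb, -, -⟩ := model_over hS hF hQn hc
  haveI hfinL : Finite L := hM.1
  haveI hOn : (pCore p L).Normal := Cores.pCore_normal p
  have hinj := hemb.inj
  obtain ⟨T, hTr⟩ := hM.2.2.1
  have hloc := hT L T hM.2.2.2
  have hWS : inducedFunctor (G := Ω) W S ≤ S := ind_le W S
  have hWim : ((inducedFunctor (G := Ω) W S).subgroupOf S).map ι = inducedFunctor (G := L) W ι.range := by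
    have h1 := ind_im hW hS hinj (le_refl S)
    rw [Subgroup.subgroupOf_self, ← MonoidHom.range_eq_map] at h1
    exact h1
  obtain ⟨N, hN⟩ : ∃ N, N = Subgroup.normalizer ((inducedFunctor (G := L) W ι.range : Subgroup L) : Set L) := ⟨_, rfl⟩
  have hNeq : Subgroup.normalizer (((W ↥(T : Subgroup L)).map (T : Subgroup L).subtype : Subgroup L) : Set L) = N := by
    rw [hN, ← hTr]; rfl
  rw [hNeq] at hloc
  have hrp : IsPGroup p ι.range := hemb.syl.isPGroup
  have hTN : ι.range ≤ N := by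
    rw [hN]; intro x hx; exact ind_conj hW hrp (Subgroup.le_normalizer hx)
  have hsyl : SylIn p ι.range N := hemb.syl.mono hTN le_top
  obtain ⟨PN, hPN⟩ := (sylIn_iff hTN).1 hsyl
  -- the focal subgroup of `N`
  have hfoc : (Subgroup.focalSubgroup (PN : Subgroup N)).map N.subtype ≤ imageAlong ι H := by
    rw [Subgroup.map_le_iff_le_comap]
    unfold Subgroup.focalSubgroup
    rw [Subgroup.closure_le]
    rintro g ⟨hg, x, hx, u, rfl⟩
    have hxT : (x : L) ∈ ι.range := by rw [hPN] at hx; exact hx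
    have hgT : ((⁅x, u⁆ : N) : L) ∈ ι.range := by
      have : ⁅x, u⁆ ∈ (ι.range).subgroupOf N := by rw [← hPN]; exact hg
      exact this
    have h4 : ((⁅x, u⁆ : N) : L) = (x : L) * u * (x : L)⁻¹ * (u : L)⁻¹ := by rw [commutatorElement_def]; rfl
    obtain ⟨a, ha, hax⟩ := exists_of_range (ι.range.inv_mem hxT)
    have h5 : (u : L) * (x : L)⁻¹ * (u : L)⁻¹ ∈ ι.range := by
      have := ι.range.mul_mem (ι.range.inv_mem hxT) hgT
      rw [h4] at this
      have e : (x : L)⁻¹ * ((x : L) * u * (x : L)⁻¹ * (u : L)⁻¹) = u * (x : L)⁻¹ * (u : L)⁻¹ := by group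
      rwa [e] at this
    have hz : ∀ y ∈ Subgroup.zpowers a, (u : L) * ev ι y * (u : L)⁻¹ ∈ ι.range := by
      rintro _ ⟨n, rfl⟩
      have e1 : ev ι (a ^ n) = ev ι a ^ n := by
        rw [ev_mem ha, ev_mem (S.zpow_mem ha n), ← map_zpow]
        congr 1
      show (u : L) * ev ι (a ^ n) * (u : L)⁻¹ ∈ ι.range
      rw [e1, hax, ← conj_zpow]
      exact ι.range.zpow_mem h5 n
    have hw : ∀ y ∈ inducedFunctor (G := Ω) W S, (u : L) * ev ι y * (u : L)⁻¹ ∈ ((inducedFunctor (G := Ω) W S).subgroupOf S).map ι := by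
      intro y hy
      have h1 : (u : L) ∈ Subgroup.normalizer ((inducedFunctor (G := L) W ι.range : Subgroup L) : Set L) := hN.le u.2
      rw [← hWim] at h1
      exact (Subgroup.mem_normalizer_iff.1 h1 _).1 ((mem_im hWS).2 ⟨y, hy, rfl⟩)
    have hzS : Subgroup.zpowers a ≤ S := by rw [Subgroup.zpowers_le]; exact ha
    obtain ⟨k, hk, hk1, hk2⟩ := hemb.exists_mor (sup_le hzS hWS) (conj_sup hzS hWS hz (fun y hy => im_le_range (hw y hy)))
    have hkW : ∀ w ∈ inducedFunctor (G := Ω) W S, k w ∈ inducedFunctor (G := Ω) W S := by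
      intro w hwm
      have h1 := hw w hwm
      rw [← hk2 w (Subgroup.mem_sup_right hwm)] at h1
      obtain ⟨v, hv, hve⟩ := (mem_im hWS).1 h1
      have : v = k w := ev_inj hinj (hWS hv) (hk1 w (Subgroup.mem_sup_right hwm)) hve
      rw [← this]; exact hv
    have haP : a ∈ Subgroup.zpowers a ⊔ inducedFunctor (G := Ω) W S := Subgroup.mem_sup_left (Subgroup.mem_zpowers a)
    have h6 := hH _ k hk le_sup_right hkW a haP
    show ((⁅x, u⁆ : N) : L) ∈ imageAlong ι H
    refine (mem_imageAlong hHS).2 ⟨_, h6, ?_⟩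
    rw [ev_mul (S.inv_mem ha) (hk1 a haP), ev_inv ha, hk2 a haP, hax, h4]
    group
  intro y hy hyc
  have hyS : y ∈ S := hQn.1 hyc
  -- `y` lies in the commutator subgroup
  have h1 : F.focalSubgroup ≤ ((commutator L).comap ι).map S.subtype := by
    refine foc_le _ fun P f hf x hx => ?_
    have hxS := hf.le hx
    have hfx := hf.mem hx
    have hm : x⁻¹ * f x ∈ S := S.mul_mem (S.inv_mem hxS) hfx
    refine ⟨⟨_, hm⟩, ?_, rfl⟩
    show ι ⟨_, hm⟩ ∈ commutator L
    obtain ⟨-, -, g, hg⟩ := (mor_real hM.2.1).1 hf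
    rw [← ev_mem hm, ev_mul (S.inv_mem hxS) hfx, ev_inv hxS, hg x hx]
    have h2 := Subgroup.commutator_mem_commutator (Subgroup.mem_top (ev ι x)⁻¹) (Subgroup.mem_top g)
    rw [commutatorElement_def, inv_inv] at h2
    have e : (ev ι x)⁻¹ * (g * ev ι x * g⁻¹) = (ev ι x)⁻¹ * g * ev ι x * g⁻¹ := by group
    rw [e]
    exact h2
  have h2 : ev ι y ∈ commutator L := by
    obtain ⟨w, hw, hwe⟩ := h1 hy
    have hw' : ι w ∈ commutator L := hw
    have hwe' : (w : Ω) = y := hwe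
    rw [← hwe', ev_apply (α := ι)]; exact hw'
  have h3 : ev ι y ∈ pCore p L ⊓ commutator L := ⟨core_le_model hM hS hyc, h2⟩
  rw [hloc] at h3
  obtain ⟨-, n, hn, hne⟩ := h3
  have hne' : (n : L) = ev ι y := hne
  have h4 : n ∈ (PN : Subgroup N) := by
    rw [hPN]
    show (n : L) ∈ ι.range
    rw [hne']; exact ev_range hyS
  have h5 : n ∈ Subgroup.focalSubgroup (PN : Subgroup N) := by
    rw [← Subgroup.commutator_inf_eq_focalSubgroup PN]; exact ⟨hn, h4⟩
  have h6 := hfoc ⟨n, h5, rfl⟩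
  have h7 : ev ι y ∈ imageAlong ι H := by rw [← hne']; exact h6
  obtain ⟨v, hv, hve⟩ := (mem_imageAlong hHS).1 h7
  have : v = y := ev_inj hinj (hHS hv) hyS hve
  rw [← this]; exact hv

/-- every map acts on `Q` as an element of `S` -/
def ActS (F : FusionSystem S) (Q : Subgroup Ω) : Prop :=
  ∀ P f, Mor F P f → ∃ k, Mor F (P ⊔ Q) k ∧ (∀ x ∈ P, k x = f x) ∧ ∃ s ∈ S, ∀ x ∈ Q, k x = s * x * s⁻¹

theorem foc_act (n : ℕ) : ∀ (Ω : Type u) (_ : Group Ω) (S : Subgroup Ω) (_ : Finite S) (F : FusionSystem S) (Q : Subgroup Ω), Nat.card Q ≤ n →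
    IsPGroup p S → F.IsSaturated p → Q ≤ S → S ≤ Subgroup.normalizer (Q : Set Ω) → ActS F Q → ∀ y ∈ F.focalSubgroup, y ∈ Q → y ∈ ⁅S, S⁆ := by
  induction n with
  | zero =>
    intro Ω _ S _ F Q hn hS hF hQS
    haveI : Finite Q := finite_of_le' hQS
    have := Nat.card_pos (α := Q)
    omega
  | succ n ih =>
    intro Ω _ S _ F Q hn hS hF hQS hQn hact y hy hyQ
    have hfQ : Finite Q := finite_of_le' hQS
    by_cases hQ1 : Q = ⊥
    · subst hQ1
      rw [Subgroup.mem_bot] at hyQ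
      rw [hyQ]; exact Subgroup.one_mem _
    -- the intersection with the centre
    obtain ⟨Z, hZ⟩ : ∃ Z, Z = Q ⊓ Subgroup.centralizer (S : Set Ω) := ⟨_, rfl⟩
    have hZQ : Z ≤ Q := by rw [hZ]; exact inf_le_left
    have hZne : Z ≠ ⊥ := by
      haveI : Group.IsNilpotent S := hS.isNilpotent
      haveI : (Q.subgroupOf S).Normal := ⟨fun x hx g => (Subgroup.mem_normalizer_iff.1 (hQn g.2) _).1 hx⟩
      have h1 : Q.subgroupOf S ≠ ⊥ := by
        intro h
        rw [Subgroup.subgroupOf_eq_bot] at h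
        exact hQ1 (by rw [eq_bot_iff]; intro x hx; exact (h.le_bot ⟨hx, hQS hx⟩))
      have h2 := Nilp.normal_inf_center_ne_bot (Q.subgroupOf S) h1
      intro h
      apply h2
      rw [eq_bot_iff]
      intro x hx
      have h3 : (x : Ω) ∈ Z := by
        rw [hZ]
        refine ⟨hx.1, Subgroup.mem_centralizer_iff.2 fun s hs => ?_⟩
        exact congrArg Subtype.val (Subgroup.mem_center_iff.1 hx.2 ⟨s, hs⟩)
      rw [h, Subgroup.mem_bot] at h3
      rw [Subgroup.mem_bot]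
      exact Subtype.ext h3
    have hZc : F.IsCentral Z := by
      rw [isCentral_iff]
      refine ⟨hZQ.trans hQS, fun P f hf => ?_⟩
      obtain ⟨k, hk, h1, s, hs, h2⟩ := hact P f hf
      refine ⟨k, hk.restrict (sup_le_sup_left hZQ _), h1, fun x hx => ?_⟩
      rw [h2 x (hZQ hx)]
      have hx' := hx
      rw [hZ] at hx'
      have := Subgroup.mem_centralizer_iff.1 hx'.2 s hs
      rw [this, mul_inv_cancel_right]
    have hZsc := normal_stronglyClosed (central_normal hZc)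
    obtain ⟨Ω', _, θ, E', hE', hker, hθ, hfinΩ⟩ := exists_factor hS hF hZsc
    have hα := surj_of_factor hS hF hZsc hE'
    have hEs' := sat_of_surj hS hF hα
    have hS' : IsPGroup p (⊤ : Subgroup Ω') := (hS.of_surjective θ hθ).to_subgroup ⊤
    have hevS : ∀ x ∈ S, ev θ x ∈ (⊤ : Subgroup Ω') := fun x _ => Subgroup.mem_top _
    have hkerle : ker' θ ≤ Q := by rw [hker]; exact hZQ
    have hQ' : preimageAlong θ (imageAlong θ Q) = Q := preimage_image hQS hkerle
    have hcard : Nat.card (imageAlong θ Q) ≤ n := by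
      have h1 := card_preimage (α := θ) (P' := imageAlong θ Q) (by rw [MonoidHom.range_eq_top.2 hθ]; exact le_top)
      rw [hQ', hker] at h1
      haveI : Finite Z := finite_of_le' (hZQ.trans hQS)
      have h3 : 1 < Nat.card Z := (Subgroup.one_lt_card_iff_ne_bot _).2 hZne
      have h4 : 0 < Nat.card (imageAlong θ Q) := Nat.card_pos
      rw [h1] at hn
      nlinarith
    have key := ih Ω' inferInstance ⊤ inferInstance E' (imageAlong θ Q) hcard hS' hEs' le_top ?_ ?_
    · -- conclusion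
      have h1 : ev θ y ∈ E'.focalSubgroup := by
        have h2 : F.focalSubgroup ≤ (E'.focalSubgroup.comap θ).map S.subtype := by
          refine foc_le _ fun P f hf x hx => ?_
          have hxS := hf.le hx
          have hfx := hf.mem hx
          have hm : x⁻¹ * f x ∈ S := S.mul_mem (S.inv_mem hxS) hfx
          refine ⟨⟨_, hm⟩, ?_, rfl⟩
          show θ ⟨_, hm⟩ ∈ E'.focalSubgroup
          obtain ⟨f', hf', hff'⟩ := (isMorphism_iff.1 hα.1).2 P f hf
          rw [← ev_mem hm, ev_mul (S.inv_mem hxS) hfx, ev_inv hxS, ← hff' x hx]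
          exact mem_foc hf' ((mem_imageAlong hf.le).2 ⟨x, hx, rfl⟩)
        obtain ⟨w, hw, hwe⟩ := h2 hy
        have hw' : θ w ∈ E'.focalSubgroup := hw
        have hwe' : (w : Ω) = y := hwe
        rw [← hwe', ev_apply (α := θ)]; exact hw'
      have h2 := key _ h1 ((mem_imageAlong hQS).2 ⟨y, hyQ, rfl⟩)
      -- lift the commutator
      have h3 : ⁅(⊤ : Subgroup Ω'), (⊤ : Subgroup Ω')⁆ = (⁅(⊤ : Subgroup S), (⊤ : Subgroup S)⁆).map θ := by
        rw [Subgroup.map_commutator, Subgroup.map_top_of_surjective θ hθ]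
      rw [h3] at h2
      obtain ⟨c, hc, hce⟩ := h2
      have hcS : (c : Ω) ∈ ⁅S, S⁆ := by
        have h5 : (⁅(⊤ : Subgroup S), (⊤ : Subgroup S)⁆).map S.subtype = ⁅S, S⁆ := by
          rw [Subgroup.map_commutator, ← MonoidHom.range_eq_map, Subgroup.range_subtype]
        rw [← h5]; exact ⟨c, hc, rfl⟩
      have hyS := hQS hyQ
      have hz : (c : Ω)⁻¹ * y ∈ Z := by
        rw [← hker, mem_ker']
        refine ⟨S.mul_mem (S.inv_mem c.2) hyS, ?_⟩
        rw [ev_mul (S.inv_mem c.2) hyS, ev_inv c.2, ev_apply (α := θ), hce, inv_mul_cancel]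
      have hcf : (c : Ω) ∈ F.focalSubgroup := by
        rw [foc_eq hS hF]
        exact Subgroup.mem_sup_right hcS
      have h6 := BisF.foc_center hS hF hZc (F.focalSubgroup.mul_mem (F.focalSubgroup.inv_mem hcf) hy) hz
      have h7 := Subgroup.mul_mem _ hcS h6
      rwa [mul_inv_cancel_left] at h7
    · intro g _
      haveI : Finite (imageAlong θ Q) := inferInstance
      refine mem_normalizer_of_conj_mem fun v hv => ?_
      obtain ⟨s, rfl⟩ := hθ g
      obtain ⟨x, hx, rfl⟩ := (mem_imageAlong hQS).1 hv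
      refine (mem_imageAlong hQS).2 ⟨(s : Ω) * x * (s : Ω)⁻¹, (Subgroup.mem_normalizer_iff.1 (hQn s.2) x).1 hx, ?_⟩
      rw [ev_conj s.2 (hQS hx), ev_apply (α := θ)]
    · intro P' f' hf'
      obtain ⟨f, hf, hff'⟩ := (isSurj_iff.1 hα).2.2 P' le_top f' hf'
      obtain ⟨k, hk, h1, s, hs, h2⟩ := hact _ f hf
      obtain ⟨k', hk', hkk'⟩ := (isMorphism_iff.1 hα.1).2 _ k hk
      have hle : P' ⊔ imageAlong θ Q ≤ imageAlong θ (preimageAlong θ P' ⊔ Q) := by
        refine sup_le (fun y' hy' => ?_) (fun y' hy' => ?_)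
        · obtain ⟨t, rfl⟩ := hθ y'
          refine (mem_imageAlong hk.le).2 ⟨t, Subgroup.mem_sup_left (mem_preimageAlong.2 ⟨t.2, by rw [ev_apply (α := θ)]; exact hy'⟩), ev_apply (α := θ) t⟩
        · obtain ⟨x, hx, rfl⟩ := (mem_imageAlong hQS).1 hy'
          exact (mem_imageAlong hk.le).2 ⟨x, Subgroup.mem_sup_right hx, rfl⟩
      refine ⟨k', hk'.restrict hle, fun y' hy' => ?_, ev θ s, Subgroup.mem_top _, fun y' hy' => ?_⟩
      · obtain ⟨t, rfl⟩ := hθ y'
        have ht : (t : Ω) ∈ preimageAlong θ P' := mem_preimageAlong.2 ⟨t.2, by rw [ev_apply (α := θ)]; exact hy'⟩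
        have h5 := hkk' t (Subgroup.mem_sup_left ht)
        have h6 := hff' t ht
        rw [ev_apply (α := θ)] at h5 h6
        rw [h5, h6, h1 _ ht]
      · obtain ⟨x, hx, rfl⟩ := (mem_imageAlong hQS).1 hy'
        rw [hkk' x (Subgroup.mem_sup_right hx), h2 x hx, ev_conj hs (hQS hx)]

end Cfsg.Agent.Lib.WTrB
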