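import Cfsg.Agent.Lib.WTrB

/-!
Characteristic functors controlling transfer: the system of maps acting on a normal subgroup as elements of `S`,
and the main theorem.
-/

set_option autoImplicit false
set_option linter.unusedSectionVars false
set_option linter.style.haveILetI false
set_option linter.unusedVariables false

namespace Cfsg.Agent.Lib.WTrC

open Cfsg Cfsg.FusionSystem Cfsg.Agent.Lib.FusBase Cfsg.Agent.Lib.FusSat Cfsg.Agent.Lib.StrongEmb
open Cfsg.Agent.Lib.FusAlperin Cfsg.Agent.Lib.FusNormal Cfsg.Agent.Lib.FusNormalB Cfsg.Agent.Lib.SylRel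
open Cfsg.Agent.Lib.FusSub Cfsg.Agent.Lib.FusPuig Cfsg.Agent.Lib.FusNK Cfsg.Agent.Lib.FusNKB Cfsg.Agent.Lib.FusMor Cfsg.Agent.Lib.FusGroup
open Cfsg.Agent.Lib.FusHyp Cfsg.Agent.Lib.FusHypB Cfsg.Agent.Lib.FusInv Cfsg.Agent.Lib.FusInvB Cfsg.Agent.Lib.FusModel
open Cfsg.Agent.Lib.MdlA Cfsg.Agent.Lib.MdlB Cfsg.Agent.Lib.MdlC Cfsg.Agent.Lib.MdlD Cfsg.Agent.Lib.PNilp
open Cfsg.Agent.Lib.NilA Cfsg.Agent.Lib.NilB Cfsg.Agent.Lib.NilC Cfsg.Agent.Lib.NilE Cfsg.Agent.Lib.CSecA Cfsg.Agent.Lib.CSecB Cfsg.Agent.Lib.FusSimple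
open Cfsg.Agent.Lib.QfA Cfsg.Agent.Lib.QfB Cfsg.Agent.Lib.QfC Cfsg.Agent.Lib.QfD Cfsg.Agent.Lib.QfE Cfsg.Agent.Lib.QfG Cfsg.Agent.Lib.Involve
open Cfsg.Agent.Lib.ThfA Cfsg.Agent.Lib.ThC Cfsg.Agent.Lib.GlcD Cfsg.Agent.Lib.GlcF Cfsg.Agent.Lib.GlcG Cfsg.Agent.Lib.WTrA Cfsg.Agent.Lib.WTrB

open scoped commutatorElement

universe u

section

variable {Ω : Type*} [Group Ω] {S : Subgroup Ω} {F : FusionSystem S} {Q : Subgroup Ω}

/-- the automorphisms of `Q` induced by `S` -/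
def KS (S Q : Subgroup Ω) : Subgroup (MulAut Q) where
  carrier := {κ | ∃ s ∈ S, ∀ x ∈ Q, fn κ x = s * x * s⁻¹}
  one_mem' := ⟨1, S.one_mem, fun x hx => by rw [fn_one hx]; group⟩
  mul_mem' := by
    rintro α β ⟨s, hs, h1⟩ ⟨t, ht, h2⟩
    refine ⟨s * t, S.mul_mem hs ht, fun x hx => ?_⟩
    rw [fn_mul _ _ hx, h1 _ (fn_mem' β hx), h2 x hx]; group
  inv_mem' := by
    rintro α ⟨s, hs, h1⟩
    refine ⟨s⁻¹, S.inv_mem hs, fun x hx => ?_⟩
    have h2 := h1 _ (fn_mem' α⁻¹ hx)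
    rw [fn_fn_inv α hx] at h2
    have h3 : s⁻¹ * (s * fn α⁻¹ x * s⁻¹) * s⁻¹⁻¹ = fn α⁻¹ x := by group
    rw [← h2] at h3
    exact h3.symm

theorem mem_KS {κ : MulAut Q} : κ ∈ KS S Q ↔ ∃ s ∈ S, ∀ x ∈ Q, fn κ x = s * x * s⁻¹ := Iff.rfl

theorem isNK_KS (hQ : F.StronglyClosed Q) [Finite Q] : IsNK S (KS S Q) S := by
  intro g
  refine ⟨fun hg => ⟨hg, ?_⟩, fun h => h.1⟩
  have hi : Iso F Q Q (fun x => g * x * g⁻¹) := (mor_conj F hQ.1 hg).iso_of_map fun x hx => StronglyClosed_conj hQ hg hx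
  exact ⟨autOf hi, ⟨g, hg, fun x hx => by rw [fn_mem _ hx]; rfl⟩, fun x hx => by rw [fn_mem _ hx]; rfl⟩

end

variable {W : ∀ (Q : Type u) [Group Q], Subgroup Q}
variable {Ω : Type u} [Group Ω] {S : Subgroup Ω} {F E : FusionSystem S} {p : ℕ} [Finite S] [Fact p.Prime]
variable {P Q R X Y : Subgroup Ω} {f g h : Ω → Ω} {s t k z : Ω}

theorem fullyK_KS (hS : IsPGroup p S) (hF : F.IsSaturated p) (hQ : F.StronglyClosed Q) : FullyK F (KS S Q) := by
  have hfQ : Finite Q := finite_of_le hQ.1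
  have hQFN : F.IsFullyNormalized Q := FN_of_norm hQ.1 (StronglyClosed_normalizer hQ)
  refine ⟨hQ.1, fun Q' ρ hρ M hM hMK => ?_⟩
  obtain ⟨g, hg, hgρ⟩ := (receptive_iff.1 (FC_receptive hS hF (FN_FC hS hF hQFN))).2 _ _ hρ
  refine ⟨1, Subgroup.one_mem _, Subgroup.one_mem _, g, hg.restrict (sup_le hρ.mor.le_Nx ?_), fun x hx => ?_⟩
  · intro m hm
    obtain ⟨κ, ⟨s, hs, hκs⟩, hκ⟩ := hMK m hm
    have hfQ' : Finite Q' := finite_of_le hρ.le_left
    refine mem_Nx.2 ⟨hM hm, mem_normalizer_of_conj_mem fun x hx => (hκ x hx).1, s, hs, fun x hx => ?_⟩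
    rw [(hκ x hx).2, hκs _ (hρ.map_mem hx)]
  · rw [hgρ x hx, fn_one (hρ.map_mem hx)]

/-- the system of the maps acting on `Q` as elements of `S` -/
theorem exists_KS (hS : IsPGroup p S) (hF : F.IsSaturated p) (hQ : F.StronglyClosed Q) :
    ∃ E : FusionSystem S, E.IsSaturated p ∧ ∀ P f, Mor E P f ↔ NKMor F (KS S Q) S P f := by
  have hfQ : Finite Q := finite_of_le hQ.1
  have hT := isNK_KS (F := F) hQ
  have h := (subPred (F := F) hQ.1 hT).pred
  have hE : ∀ P f, Mor (ofPred h) P f ↔ NKMor F (KS S Q) S P f := fun P f => mor_ofPred h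
  exact ⟨ofPred h, FusNK.saturated (K := KS S Q) hE hT hS hF (fullyK_KS hS hF hQ), hE⟩

/-- the case where `O_p(F)` is not centric -/
theorem step_non (hW : IsCharPFunctor.{u} p W) (hS : IsPGroup p S) (hF : F.IsSaturated p)
    (ih2 : ∀ E : FusionSystem S, mu E < mu F → E.IsSaturated p → CtlT W E) {H : Subgroup Ω}
    (hH : ∀ P f, Mor F P f → inducedFunctor (G := Ω) W S ≤ P →
      (∀ w ∈ inducedFunctor (G := Ω) W S, f w ∈ inducedFunctor (G := Ω) W S) → ∀ x ∈ P, x⁻¹ * f x ∈ H)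
    (hcen : ¬ centralizerIn S F.core ≤ F.core) :
    ActS F F.core ∨ ∀ P f, Mor F P f → ∀ x ∈ P, x⁻¹ * f x ∈ H := by
  have hQn := core_normal F
  have hQsc := normal_stronglyClosed hQn
  have hQS := hQn.1
  have hQN : S ≤ Subgroup.normalizer (F.core : Set Ω) := StronglyClosed_normalizer hQsc
  have hfQ : Finite F.core := finite_of_le hQS
  obtain ⟨E, hEs, hE⟩ := exists_KS hS hF hQsc
  by_cases hFE : F ≤ E
  · left
    intro P f hf
    obtain ⟨hP, hfS, k, hk, h1, κ, ⟨s, hs, h2⟩, h3⟩ := (hE P f).1 (le_iff_mor.1 hFE P f hf)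
    exact ⟨k, hk, h1, s, hs, fun x hx => by rw [h3 x hx, h2 x hx]⟩
  right
  have hEF : E ≤ F := le_iff_mor.2 fun P f hf => NKMor.mor ((hE P f).1 hf)
  have hEH := ih2 E (mu_lt hS hF hEF hFE) hEs H (fun P f hf => hH P f (le_iff_mor.1 hEF P f hf))
  -- the normalizer of `Q C_S(Q)`
  have hCN : S ≤ Subgroup.normalizer (centralizerIn S F.core : Set Ω) := by
    intro s hs
    haveI : Finite (centralizerIn S F.core) := finite_of_le centralizerIn_le
    refine mem_normalizer_of_conj_mem fun x hx => ?_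
    rw [mem_centralizerIn] at hx ⊢
    refine ⟨S.mul_mem (S.mul_mem hs hx.1) (S.inv_mem hs), fun y hy => ?_⟩
    have h1 := hx.2 (s⁻¹ * y * s⁻¹⁻¹) ((Subgroup.mem_normalizer_iff.1 (Subgroup.inv_mem _ (hQN hs)) y).1 hy)
    have h2 : y * (s * x * s⁻¹) = s * (s⁻¹ * y * s⁻¹⁻¹ * x) * s⁻¹ := by group
    rw [h2, h1]; group
  obtain ⟨X, hX⟩ : ∃ X, X = F.core ⊔ centralizerIn S F.core := ⟨_, rfl⟩
  have hXS : X ≤ S := by rw [hX]; exact sup_le hQS centralizerIn_le
  have hXN : S ≤ Subgroup.normalizer (X : Set Ω) := by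
    intro s hs; rw [hX]; exact normalizer_inf_le_normalizer_sup _ _ ⟨hQN hs, hCN hs⟩
  have hXn : ¬ F.IsNormal X := fun h => hcen ((le_sup_right : _ ≤ F.core ⊔ centralizerIn S F.core).trans (hX ▸ le_core h))
  have hXH := ct_norm_top hS hF ih2 hH hXS hXN hXn
  intro P f hf x hx
  obtain ⟨-, hext⟩ := isNormal_iff.1 hQn
  obtain ⟨k, hk, hkf, hkQ⟩ := hext P f hf
  have hQP : F.core ≤ P ⊔ F.core := le_sup_right
  have hki : Iso F F.core F.core k := ⟨hk.restrict hQP, hkQ⟩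
  have hQFN : F.IsFullyNormalized F.core := FN_of_norm hQS hQN
  obtain ⟨g, hg, hgk⟩ := (receptive_iff.1 (FC_receptive hS hF (FN_FC hS hF hQFN))).2 _ _ hki
  have hPN : P ≤ Nx S F.core k := by
    intro y hy
    refine mem_Nx.2 ⟨hf.le hy, hQN (hf.le hy), k y, hk.mem (Subgroup.mem_sup_left hy), fun z hz => ?_⟩
    exact hk.conj (Subgroup.mem_sup_left hy) (hQP hz)
  have hCNx : centralizerIn S F.core ≤ Nx S F.core k := hki.mor.centralizerIn_le_Nx
  have hXNx : X ≤ Nx S F.core k := by rw [hX]; exact sup_le hki.mor.le_Nx hCNx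
  have hg1 : Mor F ((P ⊔ F.core) ⊔ X) g := hg.restrict (sup_le (sup_le hPN hki.mor.le_Nx) hXNx)
  have hgX : ∀ y ∈ X, g y ∈ X := by
    have h1 := hg.restrict hXNx
    intro y hy
    rw [hX] at hy h1
    obtain ⟨a, ha, b, hb, rfl⟩ := (Basic.mem_sup_iff_left (centralizerIn_le.trans hQN)).1 hy
    rw [h1.mul (Subgroup.mem_sup_left ha) (Subgroup.mem_sup_right hb), hX]
    refine Subgroup.mul_mem _ (Subgroup.mem_sup_left ?_) (Subgroup.mem_sup_right ?_)
    · rw [hgk a ha]; exact hki.map_mem ha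
    · rw [mem_centralizerIn]
      refine ⟨h1.mem (Subgroup.mem_sup_right hb), fun y hy => ?_⟩
      rw [← hkQ] at hy
      obtain ⟨z, hz, rfl⟩ := (hk.restrict hQP).mem_img.1 hy
      rw [← hgk z hz, ← h1.mul (Subgroup.mem_sup_left hz) (Subgroup.mem_sup_right hb),
        ← h1.mul (Subgroup.mem_sup_right hb) (Subgroup.mem_sup_left hz), (mem_centralizerIn.1 hb).2 z hz]
  have h1 := hXH _ g hg1 le_sup_right hgX x (Subgroup.mem_sup_left (Subgroup.mem_sup_left hx))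
  -- the map `k g⁻¹`
  have hg2 : Mor F (P ⊔ F.core) g := hg1.restrict le_sup_left
  obtain ⟨g', hg', h2, h3⟩ := hg2.iso.symm
  have hh : Mor F (img (P ⊔ F.core) g) (fun y => k (g' y)) := hg'.mor.comp hk fun y hy => hg'.map_mem hy
  have hQimg : F.core ≤ img (P ⊔ F.core) g := by
    intro y hy
    rw [← hkQ] at hy
    obtain ⟨z, hz, rfl⟩ := (hk.restrict hQP).mem_img.1 hy
    rw [← hgk z hz]; exact mem_img_of_mem (hQP hz)
  have hhE : Mor E (img (P ⊔ F.core) g) (fun y => k (g' y)) := by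
    rw [hE]
    refine ⟨hh.le, fun y hy => hh.mem hy, _, ?_, fun y _ => rfl, 1, Subgroup.one_mem _, fun y hy => ?_⟩
    · rw [sup_eq_left.2 hQimg]; exact hh
    · have hy' := hy
      rw [← hkQ] at hy'
      obtain ⟨z, hz, rfl⟩ := (hk.restrict hQP).mem_img.1 hy'
      rw [fn_one hy, ← hgk z hz, h2 z (hQP hz), hgk z hz]
  have hx' : x ∈ P ⊔ F.core := Subgroup.mem_sup_left hx
  have h4 := hEH _ _ hhE (g x) (mem_img_of_mem hx')
  rw [h2 x hx', hkf x hx] at h4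
  have h5 := H.mul_mem h1 h4
  have e : x⁻¹ * g x * ((g x)⁻¹ * f x) = x⁻¹ * f x := by group
  rwa [e] at h5

/-- the inductive step -/
theorem step (hW : IsCharPFunctor.{u} p W) (hT : LocT p W) (hS : IsPGroup p S) (hF : F.IsSaturated p)
    (ihq : ∀ (Ω' : Type u) (_ : Group Ω') (S' : Subgroup Ω') (F' : FusionSystem S') (_ : Finite S'), Nat.card S' < Nat.card S → IsPGroup p S' →
      F'.IsSaturated p → CtlT W F')
    (ih2 : ∀ E : FusionSystem S, mu E < mu F → E.IsSaturated p → CtlT W E) : CtlT W F := by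
  intro H hH
  by_cases hcore : F.core = ⊥
  · exact step_one hW hS hF (fun S' F' hfin => ihq Ω inferInstance S' F' hfin) ih2 hH hcore
  have hQn := core_normal F
  -- the generated subgroup
  obtain ⟨H₀, hH₀⟩ : ∃ H₀ : Subgroup Ω, H₀ = Subgroup.closure {y | ∃ P f x, Mor F P f ∧ inducedFunctor (G := Ω) W S ≤ P ∧
    (∀ w ∈ inducedFunctor (G := Ω) W S, f w ∈ inducedFunctor (G := Ω) W S) ∧ x ∈ P ∧ y = x⁻¹ * f x} := ⟨_, rfl⟩
  have hg₀ : ∀ P f, Mor F P f → inducedFunctor (G := Ω) W S ≤ P →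
      (∀ w ∈ inducedFunctor (G := Ω) W S, f w ∈ inducedFunctor (G := Ω) W S) → ∀ x ∈ P, x⁻¹ * f x ∈ H₀ := by
    intro P f hf hWP hfW x hx
    rw [hH₀]; exact Subgroup.subset_closure ⟨P, f, x, hf, hWP, hfW, hx, rfl⟩
  have hle : H₀ ≤ H := by
    rw [hH₀, Subgroup.closure_le]
    rintro _ ⟨P, f, x, hf, hWP, hfW, hx, rfl⟩
    exact hH P f hf hWP hfW x hx
  have hfoc : H₀ ≤ F.focalSubgroup := by
    rw [hH₀, Subgroup.closure_le]
    rintro _ ⟨P, f, x, hf, hWP, hfW, hx, rfl⟩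
    exact mem_foc hf hx
  have hHS : H₀ ≤ S := by
    rw [hH₀, Subgroup.closure_le]
    rintro _ ⟨P, f, x, hf, hWP, hfW, hx, rfl⟩
    exact S.mul_mem (S.inv_mem (hf.le hx)) (hf.mem hx)
  suffices hmain : ∀ P f, Mor F P f → ∀ x ∈ P, x⁻¹ * f x ∈ H₀ from fun P f hf x hx => hle (hmain P f hf x hx)
  by_cases hcS : F.core = S
  · intro P f hf x hx
    have hSn : F.IsNormal S := by have := hQn; rwa [hcS] at this
    obtain ⟨-, hext⟩ := isNormal_iff.1 hSn
    obtain ⟨k, hk, hkf, hkS⟩ := hext P f hf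
    have hle : P ⊔ S = S := sup_eq_right.2 hf.le
    rw [hle] at hk
    have hki : Iso F S S k := ⟨hk, hkS⟩
    have := hg₀ S k hk (ind_le W S) (w_iso hW hS hki) x (hf.le hx)
    rwa [hkf x hx] at this
  have hquot := step_quot hW hS hF ihq ih2 hHS hg₀ hcore hcS
  have hfin : (∀ y ∈ F.focalSubgroup, y ∈ F.core → y ∈ H₀) → ∀ P f, Mor F P f → ∀ x ∈ P, x⁻¹ * f x ∈ H₀ := by
    intro h P f hf x hx
    obtain ⟨a, ha, b, hb, hab⟩ := hquot P f hf x hx
    have hb' : b ∈ F.focalSubgroup := by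
      have h1 := F.focalSubgroup.mul_mem (F.focalSubgroup.inv_mem (hfoc ha)) (mem_foc hf hx)
      rwa [hab, inv_mul_cancel_left] at h1
    rw [hab]
    exact H₀.mul_mem ha (h b hb' hb)
  by_cases hcen : centralizerIn S F.core ≤ F.core
  · exact hfin (step_con hW hT hS hF hHS hg₀ hcen)
  · rcases step_non hW hS hF ih2 hg₀ hcen with hact | h
    · refine hfin fun y hy hyc => ?_
      have h1 := foc_act (Nat.card F.core) Ω inferInstance S inferInstance F F.core le_rfl hS hF hQn.1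
        (StronglyClosed_normalizer (normal_stronglyClosed hQn)) hact y hy hyc
      have h2 : ⁅S, S⁆ ≤ H₀ := by
        rw [Subgroup.commutator_le]
        intro a ha b hb
        have hci : ∀ s ∈ S, Iso F S S (fun x => s * x * s⁻¹) := fun s hs =>
          (mor_conj F le_rfl hs).iso_of_map fun x hx => S.mul_mem (S.mul_mem hs hx) (S.inv_mem hs)
        have h3 := hg₀ S _ (hci b hb).mor (ind_le W S) (w_iso hW hS (hci b hb)) a⁻¹ (S.inv_mem ha)
        rw [commutatorElement_def]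
        have e : a * b * a⁻¹ * b⁻¹ = a⁻¹⁻¹ * (b * a⁻¹ * b⁻¹) := by group
        rw [e]; exact h3
      exact h2 h1
    · exact h

theorem main_aux (hW : IsCharPFunctor.{u} p W) (hT : LocT p W) (n : ℕ) :
    ∀ (Ω : Type u) (_ : Group Ω) (S : Subgroup Ω) (F : FusionSystem S) (_ : Finite S), Nat.card S ≤ n → IsPGroup p S → F.IsSaturated p → CtlT W F := by
  induction n with
  | zero =>
    intro Ω _ S F hfin hn
    have := Nat.card_pos (α := S)
    omega
  | succ n ihn =>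
    intro Ω _ S F hfin hn hS hF
    induction hm : mu F using Nat.strong_induction_on generalizing F with
    | _ m ihm =>
    subst hm
    exact step hW hT hS hF (fun Ω' _ S' F' hfin' hlt hS' hF' => ihn Ω' _ S' F' hfin' (by omega) hS' hF') (fun E hE hEs => ihm _ hE E hEs rfl)

/-- functors satisfying the local condition control transfer -/
theorem main (hW : IsCharPFunctor.{u} p W) (hT : LocT p W) (hS : IsPGroup p S) (hF : F.IsSaturated p) : CtlT W F :=
  main_aux hW hT (Nat.card S) Ω inferInstance S F inferInstance le_rfl hS hF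

end Cfsg.Agent.Lib.WTrC
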