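import Cfsg.Agent.Lib.WTrC
import Cfsg.Agent.Lib.KThm

/-!
For `p ≥ 5` a saturated fusion system over a nontrivial `p`-group `S` with `Aut_F(S)` a `p`-group has focal subgroup
smaller than `S`.
-/

set_option autoImplicit false
set_option linter.unusedSectionVars false
set_option linter.style.haveILetI false
set_option linter.unusedVariables false

namespace Cfsg.Agent.Lib.WTrD

open Cfsg Cfsg.FusionSystem Cfsg.Agent.Lib.FusBase Cfsg.Agent.Lib.FusSat Cfsg.Agent.Lib.StrongEmb
open Cfsg.Agent.Lib.FusAlperin Cfsg.Agent.Lib.FusNormal Cfsg.Agent.Lib.FusNormalB Cfsg.Agent.Lib.SylRel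
open Cfsg.Agent.Lib.FusSub Cfsg.Agent.Lib.FusPuig Cfsg.Agent.Lib.FusNK Cfsg.Agent.Lib.FusNKB Cfsg.Agent.Lib.FusMor Cfsg.Agent.Lib.FusGroup
open Cfsg.Agent.Lib.FusHyp Cfsg.Agent.Lib.FusHypB Cfsg.Agent.Lib.FusInv Cfsg.Agent.Lib.FusInvB Cfsg.Agent.Lib.FusModel
open Cfsg.Agent.Lib.MdlA Cfsg.Agent.Lib.MdlB Cfsg.Agent.Lib.MdlC Cfsg.Agent.Lib.MdlD Cfsg.Agent.Lib.NilA Cfsg.Agent.Lib.NilB Cfsg.Agent.Lib.NilC Cfsg.Agent.Lib.CSecA Cfsg.Agent.Lib.CSecD Cfsg.Agent.Lib.QfA Cfsg.Agent.Lib.QfB Cfsg.Agent.Lib.QfC Cfsg.Agent.Lib.QfD Cfsg.Agent.Lib.QfE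
open Cfsg.Agent.Lib.ThfA Cfsg.Agent.Lib.ThC Cfsg.Agent.Lib.WTrA Cfsg.Agent.Lib.WTrB Cfsg.Agent.Lib.WTrC

open scoped commutatorElement

universe u

variable {p : ℕ} [Fact p.Prime]

theorem loc_of_ft {W : ∀ (Q : Type u) [Group Q], Subgroup Q} (h : ∀ (X : Type u) [Group X] [Finite X], FT p {W} X) : LocT p W := by
  intro G _ _ P hc
  have hP : SylIn p (P : Subgroup G) ⊤ := sylIn_of_sylow P
  apply le_antisymm
  · refine le_inf inf_le_left ?_
    intro x hx
    have h1 := h G P hP ⟨Cores.pCore_le_sylow P hx.1, hx.2⟩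
    unfold Th at h1
    have h2 : (⨆ V ∈ ({W} : Set (∀ (Q : Type u) [Group Q], Subgroup Q)), (P : Subgroup G) ⊓
        ⁅Subgroup.normalizer ((inducedFunctor (G := G) V P : Subgroup G) : Set G),
          Subgroup.normalizer ((inducedFunctor (G := G) V P : Subgroup G) : Set G)⁆) ≤
        (commutator ↥(Subgroup.normalizer ((inducedFunctor (G := G) W P : Subgroup G) : Set G))).map
          (Subgroup.normalizer ((inducedFunctor (G := G) W P : Subgroup G) : Set G)).subtype := by
      refine iSup₂_le fun V hV => ?_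
      obtain rfl : V = W := hV
      refine inf_le_right.trans ?_
      rw [commutator, Subgroup.map_commutator, ← MonoidHom.range_eq_map, Subgroup.range_subtype]
    exact h2 h1
  · refine le_inf inf_le_left (inf_le_right.trans ?_)
    rw [commutator, Subgroup.map_commutator]
    exact Subgroup.commutator_mono le_top le_top

theorem foc_lt (hp : 5 ≤ p) (n : ℕ) : ∀ (Ω : Type u) (_ : Group Ω) (S : Subgroup Ω) (_ : Finite S) (F : FusionSystem S), Nat.card S ≤ n →
    IsPGroup p S → F.IsSaturated p → S ≠ ⊥ → IsPGroup p (F.autGroup S) → ¬ S ≤ F.focalSubgroup := by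
  induction n with
  | zero =>
    intro Ω _ S hfin F hn
    have := Nat.card_pos (α := S)
    omega
  | succ n ih =>
    intro Ω _ S hfin F hn hS hF hS1 haut hfoc
    have hW : IsCharPFunctor.{u} p kInfLower := KInf.charPFunctor_lower p
    have hT : LocT.{u} p kInfLower := loc_of_ft fun X _ _ => KThm.ft_k hp kInfLower (Or.inl rfl) X
    obtain ⟨X, hX⟩ : ∃ X, X = inducedFunctor (G := Ω) kInfLower S := ⟨_, rfl⟩
    have hXS : X ≤ S := by rw [hX]; exact ind_le _ S
    have hXne : X ≠ ⊥ := by rw [hX]; exact w_ne_bot hW hS hS1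
    have hXn : S ≤ Subgroup.normalizer (X : Set Ω) := by
      intro s hs; rw [hX]; exact ind_conj hW hS (Subgroup.le_normalizer hs)
    obtain ⟨E, hEF, hEs, hEX, hEmor, -⟩ := norm_over hS hF hXS hXn
    have hEfoc : S ≤ E.focalSubgroup := by
      refine hfoc.trans (foc_le _ (main hW hT hS hF _ fun P f hf hWP hfW x hx => ?_))
      rw [← hX] at hWP hfW
      exact mem_foc (hEmor P f hWP hf hfW) hx
    have hEaut : IsPGroup p (E.autGroup S) := haut.to_le (autGroup_mono (le_iff_mor.2 hEF))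
    have hXsc := normal_stronglyClosed hEX
    by_cases hXeq : X = S
    · -- `S` is normal
      subst hXeq
      have hlt : ⁅X, X⁆ < X := by
        have h1 : Nontrivial X := (Subgroup.nontrivial_iff_ne_bot X).2 hS1
        haveI : Group.IsNilpotent X := hS.isNilpotent
        have h2 := Group.IsSolvable.commutator_lt_top_of_nontrivial (G := X)
        have h3 := (Subgroup.map_lt_map_iff_of_injective X.subtype_injective).2 h2
        rw [commutator, Subgroup.map_commutator, ← MonoidHom.range_eq_map, Subgroup.range_subtype] at h3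
        exact h3
      refine hlt.not_ge (hEfoc.trans (foc_le _ fun P f hf x hx => ?_))
      obtain ⟨-, hext⟩ := isNormal_iff.1 hEX
      obtain ⟨k, hk, hkf, hkX⟩ := hext P f hf
      have hle : P ⊔ X = X := sup_eq_right.2 hf.le
      rw [hle] at hk
      have hki : Iso E X X k := ⟨hk, hkX⟩
      have hFN : E.IsFullyNormalized X := FN_of_norm le_rfl hXn
      have h1 := autOf_mem hki
      rw [autGroup_eq_of_isPGroup (FN_FA hS hEs hFN) hEaut] at h1
      obtain ⟨s, hs, hsk⟩ := mem_autInducedBy.1 h1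
      have h2 := hsk ⟨x, hf.le hx⟩
      rw [autOf_apply] at h2
      rw [← hkf x hx, h2]
      have h3 := Subgroup.commutator_mem_commutator (X.inv_mem (hf.le hx)) hs
      rw [commutatorElement_def, inv_inv] at h3
      have e : x⁻¹ * (s * x * s⁻¹) = x⁻¹ * s * x * s⁻¹ := by group
      show x⁻¹ * (s * x * s⁻¹) ∈ _
      rw [e]; exact h3
    · obtain ⟨Ω', _, θ, E', hE', hker, hθ, hfinΩ⟩ := exists_factor hS hEs hXsc
      have hα := surj_of_factor hS hEs hXsc hE'
      have hEs' := sat_of_surj hS hEs hα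
      have hS' : IsPGroup p (⊤ : Subgroup Ω') := (hS.of_surjective θ hθ).to_subgroup ⊤
      have hpreS : preimageAlong θ ⊤ = S :=
        le_antisymm preimageAlong_le fun x hx => mem_preimageAlong.2 ⟨hx, Subgroup.mem_top _⟩
      have hcard1 : Nat.card S = Nat.card X * Nat.card (⊤ : Subgroup Ω') := by
        have h1 := card_preimage (α := θ) (P' := ⊤) (by rw [MonoidHom.range_eq_top.2 hθ])
        rwa [hpreS, hker] at h1
      have hfX : Finite X := finite_of_le hXS
      have hcard : Nat.card (⊤ : Subgroup Ω') ≤ n := by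
        have h3 : 1 < Nat.card X := (Subgroup.one_lt_card_iff_ne_bot _).2 hXne
        have h4 : 0 < Nat.card (⊤ : Subgroup Ω') := Nat.card_pos
        rw [hcard1] at hn
        nlinarith
      have hTne : (⊤ : Subgroup Ω') ≠ ⊥ := by
        intro h
        rw [h, Subgroup.card_bot, mul_one] at hcard1
        exact hXeq (Subgroup.eq_of_le_of_card_ge hXS hcard1.le)
      have haut' : IsPGroup p (E'.autGroup ⊤) := by
        have h1 : IsPGroup p (E.autGroup (preimageAlong θ ⊤)) := by rw [hpreS]; exact hEaut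
        exact h1.of_surjective _ (red_surj hα le_top)
      refine ih Ω' inferInstance ⊤ inferInstance E' hcard hS' hEs' hTne haut' ?_
      have h2 : E.focalSubgroup ≤ (E'.focalSubgroup.comap θ).map S.subtype := by
        refine foc_le _ fun P f hf x hx => ?_
        have hxS := hf.le hx
        have hfx := hf.mem hx
        have hm : x⁻¹ * f x ∈ S := S.mul_mem (S.inv_mem hxS) hfx
        refine ⟨⟨_, hm⟩, ?_, rfl⟩
        show θ ⟨_, hm⟩ ∈ E'.focalSubgroup
        obtain ⟨f', hf', hff'⟩ := (isMorphism_iff.1 hα.1).2 P f hf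
        rw [← ev_mem hm, ev_mul (S.inv_mem hxS) hfx, ev_inv hxS, ← hff' x hx]
        exact mem_foc hf' ((mem_imageAlong hf.le).2 ⟨x, hx, rfl⟩)
      intro y _
      obtain ⟨s, rfl⟩ := hθ y
      obtain ⟨w, hw, hwe⟩ := h2 (hEfoc s.2)
      have : w = s := Subtype.ext hwe
      rw [← this]; exact hw

end Cfsg.Agent.Lib.WTrD
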