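import Cfsg.Agent.Lib.ZStarE

/-!
Sylow 2-subgroups with a quaternion direct factor, helper3.
-/

set_option autoImplicit false
set_option linter.style.haveILetI false
set_option linter.unusedVariables false
set_option linter.unusedSectionVars false
set_option linter.unusedDecidableInType false
set_option linter.unusedFintypeInType false
set_option linter.unusedSimpArgs false

namespace Cfsg.Agent.Lib.ZStar
open Cfsg Cfsg.Agent.Lib.Cores Pointwise

universe u

section factor
variable {P : Type u} [Group P]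

/-- `A × B = P`, `A` non-abelian with unique involution `z`. -/
structure IsQF (A B : Subgroup P) (z : P) : Prop where
  comm : ∀ a ∈ A, ∀ b ∈ B, a * b = b * a
  inf : A ⊓ B = ⊥
  sup : A ⊔ B = ⊤
  mem : z ∈ A
  ne : z ≠ 1
  sqz : z * z = 1
  uniq : ∀ x ∈ A, x * x = 1 → x = 1 ∨ x = z
  nab : ∃ x ∈ A, ∃ y ∈ A, x * y ≠ y * x

theorem IsQF.exists_mul {A B : Subgroup P} {z : P} (h : IsQF A B z) (x : P) : ∃ a ∈ A, ∃ b ∈ B, x = a * b := by
  have h1 : x ∈ A ⊔ B := by rw [h.sup]; trivial
  have h2 : A ≤ Subgroup.normalizer (B : Set P) := by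
    intro a ha
    rw [Subgroup.mem_normalizer_iff]
    intro b
    constructor
    · intro hb
      have : a * b * a⁻¹ = b := by rw [h.comm a ha b hb]; group
      rw [this]; exact hb
    · intro hb
      have h3 := h.comm a ha _ hb
      have : b = a * b * a⁻¹ := by
        have h4 : a * (a * b * a⁻¹) = (a * b * a⁻¹) * a := h3
        have h5 : a * (a * b * a⁻¹) = a * b := by rw [h4]; group
        exact (mul_left_cancel h5).symm
      rw [this]; exact hb
  obtain ⟨a, ha, b, hb, hab⟩ := (Cfsg.Agent.Lib.Basic.mem_sup_iff_right h2).mp (by rw [sup_comm]; exact h1)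
  exact ⟨a, ha, b, hb, hab.symm⟩

theorem IsQF.normal {A B : Subgroup P} {z : P} (h : IsQF A B z) : A.Normal := by
  constructor
  intro x hx g
  obtain ⟨a, ha, b, hb, rfl⟩ := h.exists_mul g
  have h1 : a * b * x * (a * b)⁻¹ = a * x * a⁻¹ := by
    have h2 : b * x = x * b := (h.comm x hx b hb).symm
    calc a * b * x * (a * b)⁻¹ = a * (b * x) * b⁻¹ * a⁻¹ := by group
      _ = a * x * a⁻¹ := by rw [h2]; group
  rw [h1]
  exact A.mul_mem (A.mul_mem ha hx) (A.inv_mem ha)

theorem IsQF.central {A B : Subgroup P} {z : P} (h : IsQF A B z) : z ∈ Subgroup.center P := by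
  rw [Subgroup.mem_center_iff]
  intro g
  have h1 := h.normal.conj_mem z h.mem g
  have h2 : g * z * g⁻¹ * (g * z * g⁻¹) = 1 := by
    have : g * z * g⁻¹ * (g * z * g⁻¹) = g * (z * z) * g⁻¹ := by group
    rw [this, h.sqz]; group
  rcases h.uniq _ h1 h2 with h3 | h3
  · exfalso; apply h.ne
    have : z = g⁻¹ * (g * z * g⁻¹) * g := by group
    rw [this, h3]; group
  · calc g * z = (g * z * g⁻¹) * g := by group
      _ = z * g := by rw [h3]

/-- a non-trivial subgroup of `A` contains `z` when `P` is a finite 2-group -/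
theorem IsQF.mem_of_ne_bot [Finite P] (hP : IsPGroup 2 P) {A B : Subgroup P} {z : P} (h : IsQF A B z)
    {C : Subgroup P} {x : P} (hxC : x ∈ C) (hxA : x ∈ A) (hx : x ≠ 1) : z ∈ C := by
  obtain ⟨k, hk⟩ := IsPGroup.iff_orderOf.mp hP x
  have hk0 : k ≠ 0 := by
    intro hk0
    rw [hk0, pow_zero] at hk
    exact hx (orderOf_eq_one_iff.mp hk)
  obtain ⟨l, rfl⟩ := Nat.exists_eq_succ_of_ne_zero hk0
  have h1 : orderOf (x ^ (2 ^ l)) = 2 := by
    rw [orderOf_pow' x (by positivity), hk, Nat.gcd_eq_right (pow_dvd_pow 2 (Nat.le_succ l)), Nat.succ_eq_add_one,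
      pow_succ, Nat.mul_div_cancel_left _ (by positivity)]
  have h2 : x ^ (2 ^ l) * x ^ (2 ^ l) = 1 := by
    have h4 := pow_orderOf_eq_one (x ^ (2 ^ l)); rw [h1] at h4; rw [← sq]; exact h4
  rcases h.uniq _ (A.pow_mem hxA _) h2 with h3 | h3
  · rw [h3] at h1; rw [orderOf_one] at h1; omega
  · rw [← h3]; exact C.pow_mem hxC _

theorem IsQF.mem_other [Finite P] (hP : IsPGroup 2 P) {A B A' B' : Subgroup P} {z z' : P} (h : IsQF A B z)
    (h' : IsQF A' B' z') (hne : z' ≠ z) : z' ∈ B := by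
  by_contra hz'
  have hAB : ∀ x ∈ A', x ∈ B → x = 1 := by
    intro x hx hxB
    by_contra hx1
    exact hz' (h'.mem_of_ne_bot hP hxB hx hx1)
  -- `A` and `A'` do not commute
  have h1 : ∃ q ∈ A, ∃ p ∈ A', q * p * q⁻¹ * p⁻¹ ≠ 1 := by
    by_contra hcon
    push_neg at hcon
    obtain ⟨x, hx, y, hy, hxy⟩ := h'.nab
    obtain ⟨a, ha, b, hb, rfl⟩ := h.exists_mul x
    obtain ⟨c, hc, d, hd, rfl⟩ := h.exists_mul y
    have hac : a * c = c * a := by
      have h2 := hcon a ha _ hy
      have h3 : a * (c * d) = c * d * a := by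
        calc a * (c * d) = (a * (c * d) * a⁻¹ * (c * d)⁻¹) * (c * d) * a := by group
          _ = c * d * a := by rw [h2]; group
      have h4 : c * d * a = c * a * d := by rw [mul_assoc, ← h.comm a ha d hd, ← mul_assoc]
      rw [h4, ← mul_assoc] at h3
      exact mul_right_cancel h3
    have h5 : a * b * (c * d) * (a * b)⁻¹ * (c * d)⁻¹ = b * d * b⁻¹ * d⁻¹ := by
      have h6 : b * c = c * b := (h.comm c hc b hb).symm
      have h7 : a * b * (c * d) * (a * b)⁻¹ * (c * d)⁻¹ = a * (b * c) * d * b⁻¹ * a⁻¹ * d⁻¹ * c⁻¹ := by group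
      rw [h7, h6]
      have h8 : ∀ w ∈ B, a * w = w * a := fun w hw => h.comm a ha w hw
      have h9 : ∀ w ∈ B, c * w = w * c := fun w hw => h.comm c hc w hw
      calc a * (c * b) * d * b⁻¹ * a⁻¹ * d⁻¹ * c⁻¹ = (a * c) * (b * d * b⁻¹) * a⁻¹ * d⁻¹ * c⁻¹ := by group
        _ = c * (a * (b * d * b⁻¹)) * a⁻¹ * d⁻¹ * c⁻¹ := by rw [hac]; group
        _ = c * (b * d * b⁻¹ * d⁻¹) * c⁻¹ := by
          rw [h8 _ (B.mul_mem (B.mul_mem hb hd) (B.inv_mem hb))]; group
        _ = b * d * b⁻¹ * d⁻¹ := by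
          rw [h9 _ (B.mul_mem (B.mul_mem (B.mul_mem hb hd) (B.inv_mem hb)) (B.inv_mem hd))]; group
    have h6 : a * b * (c * d) * (a * b)⁻¹ * (c * d)⁻¹ = 1 := by
      apply hAB
      · exact A'.mul_mem (A'.mul_mem (A'.mul_mem hx hy) (A'.inv_mem hx)) (A'.inv_mem hy)
      · rw [h5]; exact B.mul_mem (B.mul_mem (B.mul_mem hb hd) (B.inv_mem hb)) (B.inv_mem hd)
    apply hxy
    calc a * b * (c * d) = (a * b * (c * d) * (a * b)⁻¹ * (c * d)⁻¹) * (c * d) * (a * b) := by group
      _ = c * d * (a * b) := by rw [h6]; group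
  obtain ⟨q, hq, p, hp, hqp⟩ := h1
  have h2 : q * p * q⁻¹ * p⁻¹ ∈ A := by
    have h3 := h.normal.conj_mem _ (A.inv_mem hq) p
    have h4 : q * p * q⁻¹ * p⁻¹ = q * (p * q⁻¹ * p⁻¹) := by group
    rw [h4]; exact A.mul_mem hq h3
  have h3 : q * p * q⁻¹ * p⁻¹ ∈ A' := by
    exact A'.mul_mem (h'.normal.conj_mem _ hp q) (A'.inv_mem hp)
  have h4 : z ∈ A' := h.mem_of_ne_bot hP h3 h2 hqp
  rcases h'.uniq z h4 h.sqz with h5 | h5
  · exact h.ne h5
  · exact hne h5.symm

theorem IsQF.map {P' : Type*} [Group P'] {A B : Subgroup P} {z : P} (h : IsQF A B z) (φ : P ≃* P') :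
    IsQF (A.map φ.toMonoidHom) (B.map φ.toMonoidHom) (φ z) where
  comm := by
    rintro _ ⟨a, ha, rfl⟩ _ ⟨b, hb, rfl⟩
    change φ a * φ b = φ b * φ a
    rw [← map_mul, h.comm a ha b hb, map_mul]
  inf := by
    rw [← Subgroup.map_inf _ _ _ φ.injective, h.inf, Subgroup.map_bot]
  sup := by
    rw [← Subgroup.map_sup, h.sup]
    exact Subgroup.map_top_of_surjective _ φ.surjective
  mem := ⟨z, h.mem, rfl⟩
  ne := by
    intro h1; exact h.ne (φ.injective (by rw [h1, map_one]))
  sqz := by rw [← map_mul, h.sqz, map_one]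
  uniq := by
    rintro _ ⟨x, hx, rfl⟩ hxx
    change φ x * φ x = 1 at hxx
    rw [← map_mul] at hxx
    have h1 : x * x = 1 := φ.injective (by rw [hxx, map_one])
    rcases h.uniq x hx h1 with h2 | h2
    · left; rw [h2]; exact map_one _
    · right; rw [h2]; rfl
  nab := by
    obtain ⟨x, hx, y, hy, hxy⟩ := h.nab
    refine ⟨_, ⟨x, hx, rfl⟩, _, ⟨y, hy, rfl⟩, ?_⟩
    intro h1
    apply hxy
    change φ x * φ y = φ y * φ x at h1
    rw [← map_mul, ← map_mul] at h1
    exact φ.injective h1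

/-- An automorphism-invariant central involution. -/
theorem exists_inv_fixed [Finite P] (hP : IsPGroup 2 P) {A B : Subgroup P} {z : P} (h : IsQF A B z) :
    ∃ w ∈ Subgroup.center P, w ≠ 1 ∧ w * w = 1 ∧ ∀ φ : P ≃* P, φ w = w := by
  classical
  haveI : Fintype P := Fintype.ofFinite P
  haveI : Fintype (Subgroup.center P) := Fintype.ofFinite _
  letI : CommGroup (Subgroup.center P) :=
    { (inferInstance : Group (Subgroup.center P)) with
      mul_comm := fun a b => Subtype.ext ((Subgroup.mem_center_iff.mp b.2 a)) }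
  let D : Finset (Subgroup.center P) :=
    Finset.univ.filter fun c => ∃ A' B' : Subgroup P, IsQF A' B' (c : P)
  have hD : ∀ c, c ∈ D ↔ ∃ A' B' : Subgroup P, IsQF A' B' (c : P) := by intro c; simp [D]
  have hzD : (⟨z, h.central⟩ : Subgroup.center P) ∈ D := (hD _).mpr ⟨A, B, h⟩
  refine ⟨((∏ d ∈ D, d : Subgroup.center P) : P), (∏ d ∈ D, d : Subgroup.center P).2, ?_, ?_, ?_⟩
  · intro h1
    have h2 : (∏ d ∈ D.erase ⟨z, h.central⟩, d : Subgroup.center P) ∈ B.subgroupOf (Subgroup.center P) := by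
      apply Subgroup.prod_mem
      intro c hc
      rw [Finset.mem_erase, hD] at hc
      obtain ⟨hcz, A', B', h'⟩ := hc
      rw [Subgroup.mem_subgroupOf]
      apply h.mem_other hP h'
      intro h3; apply hcz; exact Subtype.ext h3
    have h3 := Finset.mul_prod_erase D (fun d => d) hzD
    have h4 : (∏ d ∈ D, d : Subgroup.center P) = 1 := Subtype.ext h1
    rw [h4] at h3
    have h5 : (⟨z, h.central⟩ : Subgroup.center P)⁻¹ = ∏ d ∈ D.erase ⟨z, h.central⟩, d := by
      exact inv_eq_of_mul_eq_one_right h3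
    rw [← h5, Subgroup.mem_subgroupOf] at h2
    have h6 : z ∈ B := by simpa using B.inv_mem h2
    have h7 : z ∈ A ⊓ B := ⟨h.mem, h6⟩
    rw [h.inf] at h7
    exact h.ne (Subgroup.mem_bot.mp h7)
  · have h1 : (∏ d ∈ D, d : Subgroup.center P) * (∏ d ∈ D, d : Subgroup.center P) = 1 := by
      rw [← Finset.prod_mul_distrib]
      apply Finset.prod_eq_one
      intro c hc
      rw [hD] at hc
      obtain ⟨A', B', h'⟩ := hc
      exact Subtype.ext h'.sqz
    exact congrArg Subtype.val h1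
  · intro φ
    have hc : ∀ x ∈ Subgroup.center P, φ x ∈ Subgroup.center P := by
      intro x hx
      rw [Subgroup.mem_center_iff] at hx ⊢
      intro g
      obtain ⟨g', rfl⟩ := φ.surjective g
      rw [← map_mul, hx g', map_mul]
    let ψ : Subgroup.center P →* Subgroup.center P :=
      { toFun := fun x => ⟨φ x, hc x x.2⟩
        map_one' := Subtype.ext (map_one φ)
        map_mul' := fun x y => Subtype.ext (map_mul φ _ _) }
    have h1 : ψ (∏ d ∈ D, d) = ∏ d ∈ D, d := by
      rw [map_prod]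
      apply Finset.prod_bij (fun d _ => ψ d)
      · intro a ha
        rw [hD] at ha ⊢
        obtain ⟨A', B', h'⟩ := ha
        exact ⟨_, _, h'.map φ⟩
      · intro a _ b _ hab
        exact Subtype.ext (φ.injective (congrArg Subtype.val hab))
      · intro b hb
        rw [hD] at hb
        obtain ⟨A', B', h'⟩ := hb
        have h2 := h'.map φ.symm
        refine ⟨⟨φ.symm b, h2.central⟩, (hD _).mpr ⟨_, _, h2⟩, ?_⟩
        apply Subtype.ext
        change φ (φ.symm b) = b
        simp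
      · intro a _; rfl
    exact congrArg Subtype.val h1

end factor

variable {G : Type u} [Group G] [Finite G]

/-- A Sylow 2-subgroup with a direct factor `A` having a unique involution (non-abelian) and all of whose
involutions are central: some involution of `S` is central modulo `O(G)`. -/
theorem exists_central_of_factor (S : Sylow 2 G) {A B : Subgroup S} {z : S} (h : IsQF A B z)
    (hc : ∀ x y : S, x * x = 1 → x * y = y * x) :
    ∃ w : G, w ≠ 1 ∧ w * w = 1 ∧ ∀ g : G, w * g * w⁻¹ * g⁻¹ ∈ pPrimeCore 2 G := by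
  obtain ⟨w, hw, hw1, hw2, hwφ⟩ := exists_inv_fixed S.isPGroup' h
  have hcent : ∀ x : S, x * x = 1 → (x : G) ∈ Subgroup.centralizer ((S : Subgroup G) : Set G) := by
    intro x hx
    rw [Subgroup.mem_centralizer_iff]
    intro y hy
    have h1 := hc x ⟨y, hy⟩ hx
    exact (congrArg Subtype.val h1).symm
  refine ⟨w, ?_, ?_, ?_⟩
  · intro h1; exact hw1 (Subtype.ext h1)
  · exact congrArg Subtype.val hw2
  · apply zstar_sylow S
    · rw [sq]; exact congrArg Subtype.val hw2
    · intro g hg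
      have h1 : (⟨g * w * g⁻¹, hg⟩ : S) * ⟨g * w * g⁻¹, hg⟩ = 1 := by
        apply Subtype.ext
        change g * (w : G) * g⁻¹ * (g * w * g⁻¹) = 1
        have h2 : (w : G) * w = 1 := congrArg Subtype.val hw2
        calc g * (w : G) * g⁻¹ * (g * w * g⁻¹) = g * ((w : G) * w) * g⁻¹ := by group
          _ = 1 := by rw [h2]; group
      have h2 := hcent _ h1
      have h3 := hcent w hw2
      obtain ⟨n, hn, hnn⟩ := Sylow.conj_eq_normalizer_conj_of_mem_centralizer S (w : G) g⁻¹ h3
        (by rw [inv_inv]; exact h2)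
      rw [inv_inv] at hnn
      rw [hnn]
      -- conjugation by `n⁻¹` is an automorphism of `S`
      have h4 := hwφ ((S : Subgroup G).normalizerMonoidHom ⟨n⁻¹, Subgroup.inv_mem _ hn⟩)
      have h5 := congrArg Subtype.val h4
      have h6 : n⁻¹ * (w : G) * n⁻¹⁻¹ = w := h5
      rw [inv_inv] at h6
      exact h6

theorem not_simple_of_factor (S : Sylow 2 G) {A B : Subgroup S} {z : S} (h : IsQF A B z)
    (hc : ∀ x y : S, x * x = 1 → x * y = y * x) : ¬ IsSimpleGroup G := by
  intro hG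
  obtain ⟨w, hw1, hw2, hw⟩ := exists_central_of_factor S h hc
  have hKn : (pPrimeCore 2 G : Subgroup G).Normal := Cfsg.Agent.Lib.Cores.pPrimeCore_normal (G := G) 2
  have ho : orderOf w = 2 := orderOf_eq_prime (by rw [sq]; exact hw2) hw1
  have hK : (pPrimeCore 2 G : Subgroup G) = ⊥ := by
    rcases hG.eq_bot_or_eq_top_of_normal _ hKn with h1 | h1
    · exact h1
    · exfalso
      have h2 := pPrimeCore_not_dvd (G := G) 2
      rw [h1, Subgroup.card_top] at h2
      exact h2 (ho ▸ orderOf_dvd_natCard w)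
  have hwc : w ∈ Subgroup.center G := by
    rw [Subgroup.mem_center_iff]
    intro g
    have h1 := hw g
    rw [hK, Subgroup.mem_bot] at h1
    calc g * w = (w * g * w⁻¹ * g⁻¹)⁻¹ * (w * g) := by group
      _ = w * g := by rw [h1]; group
  have hcen : Subgroup.center G = ⊤ := by
    rcases hG.eq_bot_or_eq_top_of_normal (Subgroup.center G) inferInstance with h1 | h1
    · rw [h1] at hwc; exact absurd (Subgroup.mem_bot.mp hwc) hw1
    · exact h1
  obtain ⟨x, hx, y, hy, hxy⟩ := h.nab
  apply hxy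
  have h1 : (x : G) ∈ Subgroup.center G := by rw [hcen]; trivial
  exact Subtype.ext ((Subgroup.mem_center_iff.mp h1 (y : G)).symm)

end Cfsg.Agent.Lib.ZStar
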